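import Cfsg.Agent.H6.UL1

/-! Rank 3 actions of unitary groups: involutions with a two-dimensional `-1` eigenspace. -/

set_option autoImplicit false
set_option linter.unusedSectionVars false

namespace Cfsg.Agent.H6.UL

open Cfsg.Agent.H1 Cfsg.Agent.H1.UR Module H5
open scoped Classical

theorem AL' {G Z : Type*} [Group G] [MulAction G Z] {N : Subgroup G} {z : Z} (hN : ∀ n ∈ N, n • z = z)
    {T : Finset G} (hT : ∀ n ∈ N, ∀ t ∈ T, n * t * n⁻¹ ∈ T) {O : Finset Z} (h1 : ∀ t ∈ T, t • z ∈ O)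
    (h2 : ∀ y ∈ O, ∀ y' ∈ O, ∃ n ∈ N, n • y = y') : O.card ∣ T.card := by
  rcases O.eq_empty_or_nonempty with rfl | ⟨y₀, hy₀⟩
  · rw [Finset.eq_empty_of_forall_notMem fun t ht => Finset.notMem_empty _ (h1 t ht)]
    simp
  have le : ∀ y ∈ O, ∀ y' ∈ O, (T.filter fun t => t • z = y).card ≤ (T.filter fun t => t • z = y').card := by
    intro y hy y' hy'
    obtain ⟨n, hn, e⟩ := h2 y hy y' hy'
    refine Finset.card_le_card_of_injOn (fun t => n * t * n⁻¹) (fun t ht => ?_) fun a _ b _ h => by simpa using h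
    simp only [Finset.coe_filter, Set.mem_ofPred_eq] at ht ⊢
    exact ⟨hT n hn t ht.1, by rw [mul_smul, mul_smul, hN _ (inv_mem hn), ht.2, e]⟩
  rw [Finset.card_eq_sum_card_fiberwise (f := fun t => t • z) (t := O) h1,
    Finset.sum_congr rfl fun y hy => le_antisymm (le y hy y₀ hy₀) (le y₀ hy₀ y hy), Finset.sum_const, smul_eq_mul]
  exact dvd_mul_right _ _

theorem num_two {q n : ℕ} (hq : 2 ≤ q) (ho : ¬ 2 ∣ q) (h1 : q ∣ n + 2) (h4 : 4 ∣ n + 2) (h : n ∣ q ^ 2 - 1) :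
    False := by
  have c : Nat.Coprime 4 q := Nat.Coprime.pow_left 2 ((Nat.prime_two.coprime_iff_not_dvd).2 ho)
  obtain ⟨m, hm⟩ := c.mul_dvd_of_dvd_of_dvd h4 h1
  obtain ⟨j, hj⟩ := h
  have m1 : 1 ≤ m := by
    rcases Nat.eq_zero_or_pos m with rfl | h
    · omega
    · exact h
  have q1 : 1 ≤ q ^ 2 := Nat.one_le_pow _ _ (by omega)
  have e : (q : ℤ) ^ 2 - 1 = (4 * q * m - 2) * j := by
    have : (n : ℤ) = 4 * q * m - 2 := by
      have : ((n + 2 : ℕ) : ℤ) = (4 * q * m : ℕ) := by rw [hm]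
      push_cast at this; linarith
    rw [← this]
    exact_mod_cast (by rw [← hj]; push_cast [Nat.cast_sub q1]; ring : (q : ℤ) ^ 2 - 1 = ((n * j : ℕ) : ℤ))
  have j1 : 1 ≤ j := by
    rcases Nat.eq_zero_or_pos j with rfl | h
    · simp at e; nlinarith
    · exact h
  have d : (q : ℤ) ∣ 2 * j - 1 := ⟨4 * m * j - q, by linear_combination e⟩
  have l := Int.le_of_dvd (by omega) d
  have q2 : (2 : ℤ) ≤ q := by exact_mod_cast hq
  have m2 : (1 : ℤ) ≤ m := by exact_mod_cast m1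
  have : (4 * q - 2 : ℤ) * j ≤ (4 * q * m - 2) * j := mul_le_mul_of_nonneg_right (by nlinarith) (by omega)
  nlinarith

variable {F : Type*} [Field F] {σ : F →+* F} {E : Type*} [AddCommGroup E] [Module F E]
  [FiniteDimensional F E] {B : Sesq σ E} (hB : IsEps B 1) [Fintype F] [Fintype E] {q : ℕ} (hU : UF σ q)
variable {X : Type*} [MulAction (SUb B) X] [Fintype X] {adj : X → X → Prop} {ω : X}

include hU in
theorem odd_q (h2 : (2 : F) ≠ 0) : ¬ 2 ∣ q := fun h => by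
  obtain ⟨p, k, h1, -, rfl, h3⟩ := exists_char hU
  obtain rfl := (Nat.prime_dvd_prime_iff_eq Nat.prime_two h1).1 (Nat.prime_two.dvd_of_dvd_pow h)
  exact h2 (by exact_mod_cast h3)

include hB in
theorem decomp {Φ : Submodule F E} (hd : Disjoint Φ (perp B Φ)) (v : E) :
    ∃ a ∈ Φ, ∃ b ∈ perp B Φ, v = a + b := by
  obtain ⟨a, ha, b, hb, e⟩ := Submodule.mem_sup.1 ((hB.isCompl_perp hd).sup_eq_top ▸ Submodule.mem_top (x := v))
  exact ⟨a, ha, b, hb, e.symm⟩

include hB in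
theorem PW_maps {Φ : Submodule F E} {a : SUb B} (ha : a ∈ PW B (perp B Φ)) {v : E} (hv : v ∈ Φ) :
    suAct B a v ∈ Φ := by
  have := suAct_mem_perp ha (x := v) (hB.le_perp_perp Φ hv)
  rwa [hB.perp_perp] at this

include hB in
theorem PW_comm {Φ : Submodule F E} (hd : Disjoint Φ (perp B Φ)) {a b : SUb B} (ha : a ∈ PW B Φ)
    (hb : b ∈ PW B (perp B Φ)) : a * b = b * a := su_ext fun v => by
  obtain ⟨x, hx, y, hy, rfl⟩ := decomp hB hd v
  simp only [sa_mul, map_add]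
  rw [ha x hx, hb y hy, ha _ (PW_maps hB hb hx), hb _ (suAct_mem_perp ha hy)]

include hB in
theorem IsI_comm {Φ : Submodule F E} (hd : Disjoint Φ (perp B Φ)) {i a : SUb B} (hi : IsI B Φ i)
    (ha : UR.im a Φ = Φ) : a * i = i * a := su_ext fun v => by
  obtain ⟨x, hx, y, hy, rfl⟩ := decomp hB hd v
  have h1 : suAct B a x ∈ Φ := ha ▸ UR.app_mem_im.2 hx
  have h2 : suAct B a y ∈ perp B Φ := by rw [← ha, ← UR.im_perp]; exact UR.app_mem_im.2 hy
  simp only [sa_mul, map_add]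
  rw [hi.1 x hx, hi.2 y hy, hi.1 _ h1, hi.2 _ h2, map_neg]

include hB in
theorem im_PW {Φ : Submodule F E} {a : SUb B} (ha : a ∈ PW B (perp B Φ)) : UR.im a Φ = Φ :=
  UR.im_eq_of_mapsTo (U := Φ) (W := Φ) (fun _ hv => PW_maps hB ha hv) rfl

theorem ut_mem_PW {Φ : Submodule F E} {v : E} {c : F} (hv : B v v = 0) (hc : σ c = -c) (c0 : c ≠ 0)
    (v0 : v ≠ 0) : ut hB v c ∈ PW B (perp B Φ) ↔ v ∈ Φ := by
  refine ⟨fun h => ?_, fun h z hz => by rw [ut_apply hB hv hc, hz v h, mul_zero, zero_smul, add_zero]⟩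
  rw [← hB.perp_perp Φ]
  intro z hz
  have := h z hz
  rw [ut_apply hB hv hc, add_eq_left, smul_eq_zero, mul_eq_zero] at this
  exact hB.refl ((this.resolve_right v0).resolve_left c0)

include hU in
theorem exists_root {u : E} (u0 : u ≠ 0) (he : B u u = 0) : ∃ R : Subgroup (SUb B), Nat.card R = q ∧
    ∀ t ∈ R, ∃ c, σ c = -c ∧ t = ut hB u c := by
  have z : ut hB u 0 = 1 := su_ext fun z => by rw [ut_apply hB he (by simp), sa_one]; simp
  refine ⟨⟨⟨⟨{t | ∃ c, σ c = -c ∧ t = ut hB u c}, ?_⟩, 0, by simp, z.symm⟩, ?_⟩, ?_, fun t ht => ht⟩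
  · rintro _ _ ⟨c, hc, rfl⟩ ⟨d, hd, rfl⟩
    exact ⟨c + d, by rw [map_add, hc, hd]; ring, ut_mul hB he hc hd⟩
  · rintro _ ⟨c, hc, rfl⟩
    exact ⟨-c, by rw [map_neg, hc], ut_inv hB he hc⟩
  · rw [← card_trace_zero hU]
    refine (Nat.card_congr (Equiv.ofBijective (fun c : {x : F // σ x = -x} => ⟨ut hB u c.1, c.1, c.2, rfl⟩)
      ⟨fun c d h => ?_, fun ⟨_, c, hc, e⟩ => ⟨⟨c, hc⟩, Subtype.ext e.symm⟩⟩)).symm
    have h1 : ut hB u c.1 = ut hB u d.1 := congrArg Subtype.val h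
    by_contra hne
    have hs : σ (c.1 + -d.1) = -(c.1 + -d.1) := by rw [map_add, map_neg, c.2, d.2]; ring
    refine ut_ne_one hB u0 he hs (fun e => hne (Subtype.ext (by linear_combination e))) ?_
    rw [← ut_mul hB he c.2 (by rw [map_neg, d.2]), ← ut_inv hB he d.2, h1, mul_inv_cancel]

include hB hU in
theorem exists_n {Φ : Submodule F E} (h2 : finrank F Φ = 2) (hd : Disjoint Φ (perp B Φ)) {u : E} (hu : u ∈ Φ)
    (u0 : u ≠ 0) (he : B u u = 0) : ∃ n ∈ PW B (perp B Φ), IsI B Φ (n * n) := by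
  obtain ⟨y, hy, hyy, hyu⟩ := H1.exists_hyp hB hU (hB.disjoint_perp_perp hd) (hB.le_perp_perp Φ hu) u0 he
  rw [hB.perp_perp] at hy
  have huy : B u y = 1 := by rw [hB.symm, hyu]; simp
  have y0 : y ≠ 0 := by rintro rfl; simp at hyu
  obtain ⟨c, c0, hc⟩ := hU.exists_trace_zero
  have hc' : σ (-c⁻¹) = - -c⁻¹ := by rw [map_neg, map_inv₀, hc, inv_neg]
  have m1 := (ut_mem_PW hB he hc c0 u0).2 hu
  have m2 := (ut_mem_PW hB hyy hc' (by simpa using c0) y0).2 hy
  have hn := mul_mem (mul_mem m1 m2) m1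
  refine ⟨_, hn, fun v hv => ?_, mul_mem hn hn⟩
  have e1 : suAct B (ut hB u c * ut hB y (-c⁻¹) * ut hB u c) u = -c⁻¹ • y := by
    simp only [sa_mul, ut_apply hB he hc, ut_apply hB hyy hc', he, huy, hyu, map_add, map_smul,
      LinearMap.add_apply, LinearMap.smul_apply, smul_eq_mul, mul_zero, zero_smul, add_zero, mul_one]
    match_scalars <;> field_simp <;> ring
  have e2 : suAct B (ut hB u c * ut hB y (-c⁻¹) * ut hB u c) y = c • u := by
    simp only [sa_mul, ut_apply hB he hc, ut_apply hB hyy hc', he, hyy, huy, hyu, map_add, map_smul,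
      LinearMap.add_apply, LinearMap.smul_apply, smul_eq_mul, mul_zero, zero_smul, add_zero, mul_one]
    match_scalars <;> field_simp <;> ring
  have sp : (F ∙ u) ⊔ (F ∙ y) = Φ := by
    refine Submodule.eq_of_le_of_finrank_le (sup_le (by simpa using hu) (by simpa using hy)) ?_
    have := (disjoint_sup_hyp hB (W := ⊥) (by simp) (by simp) (by simp) he hyy (by simp [hyu])).2
    rw [bot_sup_eq, finrank_bot] at this
    omega
  obtain ⟨s, t, rfl⟩ := mem_span_pair'.1 (sp ▸ hv)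
  rw [sa_mul]
  simp only [map_add, map_smul, e1, e2]
  match_scalars <;> field_simp

include hB hU in
theorem card_T {Φ : Submodule F E} (h2 : finrank F Φ = 2) (hd : Disjoint Φ (perp B Φ)) :
    ((Trs hB).filter fun t => t ∈ PW B (perp B Φ)).card = q ^ 2 - 1 := by
  obtain ⟨c, c0, hc⟩ := hU.exists_trace_zero
  have s := sum_Trs hB hU c0 hc fun t => if t ∈ PW B (perp B Φ) then (1 : ℝ) else 0
  rw [Finset.sum_congr rfl fun v hv => if_congr (ut_mem_PW hB (mem_Iso.1 hv).2 hc c0 (mem_Iso.1 hv).1) rfl rfl,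
    sum_iso hB hU (r := 0) (s := 2) (by rw [hd.eq_bot, finrank_bot]) (by omega), Finset.sum_boole, cI] at s
  have q2 : (2 : ℝ) ≤ q := by exact_mod_cast hU.two_le
  have : (((Trs hB).filter fun t => t ∈ PW B (perp B Φ)).card : ℝ) = q ^ 2 - 1 := by
    apply mul_left_cancel₀ (by linarith : (q : ℝ) + 1 ≠ 0)
    rw [s]; field_simp; ring
  have q1 : 1 ≤ q ^ 2 := Nat.one_le_pow _ _ hU.pos
  exact_mod_cast (by rw [this]; push_cast [Nat.cast_sub q1]; ring :
    ((((Trs hB).filter fun t => t ∈ PW B (perp B Φ)).card : ℕ) : ℝ) = ((q ^ 2 - 1 : ℕ) : ℝ))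

include hU in
theorem Ln_two (hs : Sit B adj ω) (ht : TF hB ω) (h2 : (2 : F) ≠ 0) {Φ : Submodule F E}
    (hΦ : finrank F Φ = 2) (hd : Disjoint Φ (perp B Φ)) {g : SUb B} (hg : g ∈ PW B Φ) (hgω : g • ω = ω)
    (syl : ∀ x y : X, g • x = x → g • y = y → ∀ a : SUb B, a • ω = ω → a • x = y →
      ∃ n : SUb B, n • ω = ω ∧ n • x = y ∧ UR.im n Φ = Φ) : Ln B ω Φ := by
  have := finite_SUb B
  obtain ⟨u, hu, u0, he⟩ := exists_iso_vec hB hU Φ hΦ.ge
  obtain ⟨n, hn, hi⟩ := exists_n hB hU hΦ hd hu u0 he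
  refine ⟨hΦ, hd, n * n, ?_, hi⟩
  by_contra hω
  set i := n * n with hi'
  set L := PW B (perp B Φ)
  have iL : i ∈ L := mul_mem hn hn
  have ii : i * i = 1 := su_ext fun v => by
    obtain ⟨x, hx, y, hy, rfl⟩ := decomp hB hd v
    simp only [sa_mul (g := i), map_add, hi.1 x hx, hi.2 y hy, map_neg, neg_neg, sa_one]
  set Y := Finset.univ.filter fun x : X => ∃ a ∈ L, a • ω = x with hY
  have mY : ∀ {x}, x ∈ Y ↔ ∃ a ∈ L, a • ω = x := by simp [hY]
  have Yi : ∀ a ∈ L, ∀ x ∈ Y, a • x ∈ Y := fun a ha x hx => by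
    obtain ⟨b, hb, rfl⟩ := mY.1 hx
    exact mY.2 ⟨a * b, mul_mem ha hb, mul_smul _ _ _⟩
  have ωY : ω ∈ Y := mY.2 ⟨1, one_mem _, one_smul _ _⟩
  have gY : ∀ x ∈ Y, g • x = x := fun x hx => by
    obtain ⟨b, hb, rfl⟩ := mY.1 hx
    rw [← mul_smul, PW_comm hB hd hg hb, mul_smul, hgω]
  have iY : ∀ x ∈ Y, i • x ≠ x := fun x hx e => by
    obtain ⟨b, hb, rfl⟩ := mY.1 hx
    rw [← mul_smul, ← IsI_comm hB hd hi (im_PW hB hb), mul_smul] at e
    exact hω (smul_left_cancel b e)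
  set O := (Y.erase ω).erase (i • ω) with hO
  have mO : ∀ {x}, x ∈ O ↔ x ≠ i • ω ∧ x ≠ ω ∧ x ∈ Y := by simp [hO]
  have cO : O.card + 2 = Y.card := by
    rw [← Finset.card_erase_add_one ωY, ← Finset.card_erase_add_one
      (Finset.mem_erase.2 ⟨hω, Yi i iL ω ωY⟩)]
  let N : Subgroup (SUb B) :=
    { carrier := {a | a • ω = ω ∧ UR.im a Φ = Φ}
      mul_mem' := fun ha hb => ⟨by rw [mul_smul, hb.1, ha.1], by rw [UR.im_mul, hb.2, ha.2]⟩
      one_mem' := ⟨one_smul _ _, UR.im_one _⟩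
      inv_mem' := fun {a} ha => ⟨inv_smul_eq_iff.2 ha.1.symm, by
        conv_lhs => rw [← ha.2]
        exact UR.im_inv a Φ⟩ }
  have nofix : ∀ x ∈ O, ¬ ∃ a : SUb B, a • ω = ω ∧ a • i • ω = x := by
    rintro x hx ⟨a, a1, a2⟩
    obtain ⟨m, m1, m2, m3⟩ := syl _ _ (gY _ (Yi i iL ω ωY)) (gY x (mO.1 hx).2.2) a a1 a2
    rw [← mul_smul, IsI_comm hB hd hi m3, mul_smul, m1] at m2
    exact (mO.1 hx).1 m2.symm
  have d := AL' (N := N) (z := ω) (fun a ha => ha.1) (T := (Trs hB).filter fun t => t ∈ L) (O := O)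
    (fun a ha t ht => by
      simp only [Finset.mem_filter, mem_Trs] at ht ⊢
      refine ⟨ht.1.conj hB a, ?_⟩
      have := PW_conj ht.2 a
      rwa [UR.im_perp, ha.2] at this)
    (fun t ht' => by
      simp only [Finset.mem_filter, mem_Trs] at ht'
      obtain ⟨⟨v, c, v0, hv, c0, hc, rfl⟩, tL⟩ := ht'
      refine mO.2 ⟨fun e => ?_, fun e => c0 (ht v c v0 hv hc e), Yi _ tL ω ωY⟩
      have : ut hB v (c + c) • ω = ω := by
        rw [← ut_mul hB hv hc hc, mul_smul, e, ← mul_smul, IsI_comm hB hd hi (im_PW hB tL), mul_smul, e,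
          ← mul_smul, ii, one_smul]
      have := ht v _ v0 hv (by rw [map_add, hc]; ring) this
      exact mul_ne_zero h2 c0 (by linear_combination this))
    (fun x hx y hy => by
      rcases hs.rk.three ω (x := i • ω) (y := x) (z := y) (Ne.symm hω) (mO.1 hx).2.1.symm (mO.1 hy).2.1.symm
        with h | h | ⟨a, a1, a2⟩
      · exact absurd h (nofix x hx)
      · exact absurd h (nofix y hy)
      · obtain ⟨m, m1, m2, m3⟩ := syl _ _ (gY x (mO.1 hx).2.2) (gY y (mO.1 hy).2.2) a a1 a2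
        exact ⟨m, ⟨m1, m3⟩, m2⟩)
  rw [card_T hB hU hΦ hd] at d
  refine num_two hU.two_le (odd_q hU h2) ?_ ?_ d
  · obtain ⟨R, cR, hR⟩ := exists_root hB hU u0 he
    rw [cO, ← cR]
    refine H2.dvd_card_of_semireg R Y (fun t tR x hx => ?_) fun t tR x hx e => ?_
    · obtain ⟨c, hc, rfl⟩ := hR t tR
      exact Yi _ (fun z hz => by rw [ut_apply hB he hc, hz u hu, mul_zero, zero_smul, add_zero]) x hx
    · obtain ⟨c, hc, rfl⟩ := hR t tR
      obtain ⟨b, -, rfl⟩ := mY.1 hx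
      obtain rfl := ht.smul hB b u c u0 he hc e
      exact su_ext fun z => by rw [ut_apply hB he hc, sa_one]; simp
  · have i1 : i ≠ 1 := fun e => hω (by rw [e, one_smul])
    have on : orderOf n = 2 ^ (1 + 1) := orderOf_eq_prime_pow (by simpa [pow_two] using i1)
      (by rw [show 2 ^ (1 + 1) = 2 + 2 from rfl, pow_add, pow_two]; exact ii)
    have cz : Nat.card (Subgroup.zpowers n) = 4 := by rw [Nat.card_zpowers, on]; rfl
    rw [cO, ← cz]
    have zl : Subgroup.zpowers n ≤ L := by simpa using hn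
    refine H2.dvd_card_of_semireg _ Y (fun t tR x hx => Yi t (zl tR) x hx) fun t tR x hx e => ?_
    by_contra t1
    obtain ⟨k, hk, rfl⟩ : ∃ k < 4, n ^ k = t := by
      obtain ⟨k, rfl⟩ := (mem_powers_iff_mem_zpowers.2 tR)
      exact ⟨k % 4, Nat.mod_lt _ (by norm_num), by
        change _ = n ^ k
        rw [← pow_mod_orderOf n k, on]; rfl⟩
    have n4 : n ^ 4 = 1 := by rw [show 4 = 2 + 2 from rfl, pow_add, pow_two]; exact ii
    interval_cases k
    · exact t1 (pow_zero n)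
    · exact iY x hx (by rw [pow_one] at e; rw [hi', mul_smul, e, e])
    · exact iY x hx (by rwa [pow_two] at e)
    · refine iY x hx ?_
      have := pow_smul_fix e 2
      rwa [← pow_mul, show 3 * 2 = 4 + 2 from rfl, pow_add, n4, one_mul, pow_two] at this

end Cfsg.Agent.H6.UL
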