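import Cfsg.Agent.H6.UL2

/-! Rank 3 actions of unitary groups: involutions, three-dimensional fixed space. -/

set_option autoImplicit false
set_option linter.unusedSectionVars false

namespace Cfsg.Agent.H6.UL

open Cfsg.Agent.H1 Cfsg.Agent.H1.UR Module H5
open scoped Classical

variable {F : Type*} [Field F] {σ : F →+* F} {E : Type*} [AddCommGroup E] [Module F E]
  [FiniteDimensional F E] {B : Sesq σ E} (hB : IsEps B 1) [Fintype F] [Fintype E] {q : ℕ} (hU : UF σ q)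
variable {X : Type*} [MulAction (SUb B) X] [Fintype X] {adj : X → X → Prop} {ω : X}

theorem exists_neg (B : Sesq σ E) (h : Even (finrank F E)) : ∃ m : SUb B, ∀ v, suAct B m v = -v := by
  refine ⟨⟨⟨LinearEquiv.neg F, fun u v => by simp⟩, ?_⟩, fun v => rfl⟩
  change LinearMap.det (LinearEquiv.neg F (M := E)).toLinearMap = 1
  rw [show (LinearEquiv.neg F (M := E)).toLinearMap = (-1 : F) • LinearMap.id by ext v; simp,
    LinearMap.det_smul, LinearMap.det_id, mul_one, h.neg_one_pow]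

include hB in
theorem Ln_of_invol (h2 : (2 : F) ≠ 0) {Φ : Submodule F E} (h3 : finrank F Φ = 3) {τ : SUb B}
    (h1 : τ ≠ 1) (hτ : τ * τ = 1) (hD : τ ∈ PW B (perp B Φ)) (hω : τ • ω = ω) :
    ∃ l, Ln B ω l ∧ l ≤ Φ := by
  let l : Submodule F E := LinearMap.ker (suAct B τ + 1)
  have ml : ∀ {v}, v ∈ l ↔ suAct B τ v = -v := by
    intro v; simp [l, add_eq_zero_iff_eq_neg]
  have sq : ∀ v, suAct B τ (suAct B τ v) = v := fun v => by rw [← sa_mul, hτ, sa_one]
  have sub : ∀ v, v - suAct B τ v ∈ l := fun v => ml.2 (by rw [map_sub, sq]; abel)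
  have orth : ∀ {v z}, v ∈ l → suAct B τ z = z → B z v = 0 := fun {v z} hv hz => by
    have := suAct_pres τ z v
    rw [hz, ml.1 hv, map_neg] at this
    exact (mul_eq_zero.1 (by linear_combination -this : (2 : F) * B z v = 0)).resolve_left h2
  have lΦ : l ≤ Φ := fun v hv => by
    rw [← hB.perp_perp Φ]
    exact fun z hz => hB.refl (orth hv (hD z hz))
  have hd : Disjoint l (perp B l) := Submodule.disjoint_def.2 fun w hw hw' => hB.nondeg w fun z => by
    have e1 := hw' _ (sub z)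
    have e2 := hB.refl (orth hw (z := z + suAct B τ z) (by rw [map_add, sq, add_comm]))
    rw [map_sub] at e1
    rw [map_add] at e2
    exact (mul_eq_zero.1 (by linear_combination e1 + e2 : (2 : F) * B w z = 0)).resolve_left h2
  have fx' : ∀ v ∈ perp B l, suAct B τ v = v := fun v hv => by
    have := mapsTo_perp (g := τ) (U := l) (fun w hw => by rw [ml.1 hw]; exact neg_mem hw) v hv
    exact (sub_eq_zero.1 (Submodule.disjoint_def.1 hd _ (sub v) (sub_mem hv this))).symm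
  refine ⟨l, ⟨?_, hd, τ, hω, fun v hv => ml.1 hv, fx'⟩, lΦ⟩
  have hl : l ≤ l.comap (suAct B τ) := fun w hw => by
    change suAct B τ w ∈ l
    rw [ml.1 hw]; exact neg_mem hw
  have dt := LinearMap.det_eq_det_mul_det l (suAct B τ) hl
  have r1 : (suAct B τ).restrict (p := l) (q := l) hl = (-1 : F) • LinearMap.id := by
    ext w; simp [ml.1 w.2]
  have r2 : l.mapQ l (suAct B τ) hl = LinearMap.id := by
    ext w
    simp only [LinearMap.comp_apply, Submodule.mkQ_apply, Submodule.mapQ_apply, LinearMap.id_apply]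
    exact ((Submodule.Quotient.eq l).2 (sub w)).symm
  rw [suAct_det, r1, r2, LinearMap.det_smul, LinearMap.det_id, LinearMap.det_id, mul_one, mul_one] at dt
  have le := Submodule.finrank_mono lΦ
  have ne : finrank F l ≠ 0 := fun e => h1 (su_ext fun v => by
    have := sub v
    rw [Submodule.finrank_eq_zero.1 e, Submodule.mem_bot, sub_eq_zero] at this
    rw [← this, sa_one])
  have n1 : (1 : F) ≠ -1 := fun e => h2 (by linear_combination e)
  obtain e | e | e : finrank F l = 1 ∨ finrank F l = 2 ∨ finrank F l = 3 := by omega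
  · rw [e] at dt
    exact absurd (dt.trans (by ring)) n1
  · exact e
  · rw [e] at dt
    exact absurd (dt.trans (by ring)) n1

include hB hU in
theorem Ln_three (hs : Sit B adj ω) (h2 : (2 : F) ≠ 0) {Φ : Submodule F E} (h3 : finrank F Φ = 3)
    (hd : Disjoint Φ (perp B Φ)) (hev : Even (finrank F E)) (N : Subgroup (SUb B))
    (N1 : ∀ n ∈ N, n • ω = ω ∧ UR.im n Φ = Φ)
    (N3 : ∀ a : SUb B, a • ω = ω → (∀ b, a * b = b * a) → a ∈ N)
    (N4 : ∀ τ ∈ N, ∀ k : ℕ, τ ^ 2 ^ k = 1 → ∃ c : F, ∀ v ∈ perp B Φ, suAct B τ v = c • v)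
    (tr : ∀ y y' : UR.TI B 1, y.1 ≤ Φ → y'.1 ≤ Φ → ∃ n ∈ N, n • y = y')
    {u : E} (hu : u ∈ Φ) (u0 : u ≠ 0) (he : B u u = 0) : ∃ l, Ln B ω l ∧ u ∈ l ∧ l ≤ Φ := by
  have := finite_SUb B
  have uΦ : (UR.pt u0 he).1 ≤ Φ := (Submodule.span_singleton_le_iff_mem u Φ).2 hu
  suffices h : ∃ l, Ln B ω l ∧ l ≤ Φ by
    obtain ⟨l, ⟨l2, ld, τ, t1, t2, t3⟩, lΦ⟩ := h
    obtain ⟨v, hv, v0, hvv⟩ := exists_iso_vec hB hU l l2.ge
    obtain ⟨n, hn, e⟩ := tr (UR.pt v0 hvv) (UR.pt u0 he)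
      ((Submodule.span_singleton_le_iff_mem v Φ).2 (lΦ hv)) uΦ
    obtain ⟨c, hc⟩ := (smul_pt_eq n v0 hvv u0 he).1 e
    refine ⟨UR.im n l, ⟨by rw [UR.finrank_im, l2], ?_, n * τ * n⁻¹, ?_, fun w hw => ?_, fun w hw => ?_⟩,
      hc ▸ Submodule.smul_mem _ c (UR.app_mem_im.2 hv), (N1 n hn).2 ▸ UR.im_le_iff.2 lΦ⟩
    · rw [← UR.im_perp, disjoint_iff, ← UR.im_inf, ld.eq_bot]
      exact Submodule.map_bot _
    · rw [mul_smul, mul_smul, (N1 _ (inv_mem hn)).1, t1, (N1 n hn).1]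
    · rw [sa_mul, sa_mul, t2 _ (UR.mem_im.1 hw), map_neg, sa_app_inv]
    · rw [← UR.im_perp] at hw
      rw [sa_mul, sa_mul, t3 _ (UR.mem_im.1 hw), sa_app_inv]
  obtain ⟨m, hm⟩ := exists_neg B hev
  have mN : m ∈ N := N3 m (hs.cen m (-1) (fun v => by rw [hm, neg_one_smul]) ω)
    fun b => su_ext fun v => by rw [sa_mul, sa_mul, hm, hm, map_neg]
  set T := Finset.univ.filter fun z : UR.TI B 1 => z.1 ≤ Φ with hT
  have o := H2.orb_stab N (UR.pt u0 he) T fun z => by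
    simp only [hT, Finset.mem_filter, Finset.mem_univ, true_and]
    refine ⟨fun hz => tr _ _ uΦ hz, ?_⟩
    rintro ⟨n, hn, rfl⟩
    rw [UR.TI.smul_val, ← (N1 n hn).2]
    exact UR.im_le_iff.2 uΦ
  have cT : T.card = q ^ 3 + 1 := by
    have s := sum_pt_le hB hU (S := Φ) (r := 0) (s := 3) (by rw [hd.eq_bot, finrank_bot]) (by omega)
    rw [Finset.sum_boole, cI] at s
    have q2 : (2 : ℝ) ≤ q := by exact_mod_cast hU.two_le
    have : (T.card : ℝ) = q ^ 3 + 1 := by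
      apply mul_left_cancel₀ (by nlinarith : (q : ℝ) ^ 2 - 1 ≠ 0)
      rw [s]; field_simp; ring
    exact_mod_cast this
  have om : orderOf m = 2 := orderOf_eq_prime (su_ext fun v => by rw [pow_two, sa_mul, hm, hm, neg_neg, sa_one])
    fun e => by
      have := hm u
      rw [e, sa_one] at this
      exact u0 ((smul_eq_zero.1 (by rw [two_smul]; exact add_eq_zero_iff_eq_neg.2 this : (2 : F) • u = 0)).resolve_left h2)
  have d2 : 2 ∣ Nat.card (N ⊓ MulAction.stabilizer (SUb B) (UR.pt u0 he) : Subgroup (SUb B)) :=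
    om ▸ Subgroup.orderOf_dvd_natCard _ ⟨mN, (smul_pt_eq m u0 he u0 he).2 ⟨-1, by rw [hm]; simp⟩⟩
  obtain ⟨a, b, hb, hab⟩ := Nat.exists_eq_pow_mul_and_not_dvd (n := q + 1) (by omega) 2 (by norm_num)
  have d3 : 2 ^ (a + 1) ∣ Nat.card N := by
    rw [← o, cT, pow_succ]
    refine mul_dvd_mul (Dvd.dvd.trans ⟨b, hab⟩ ?_) d2
    simpa using Odd.nat_add_dvd_pow_add_pow q 1 (n := 3) (by decide)
  obtain ⟨P, hP, cP⟩ := exists_sub N Nat.prime_two d3
  by_cases hk : ∃ τ ∈ P, τ ≠ 1 ∧ τ ∈ PW B (perp B Φ)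
  · obtain ⟨τ, tP, t1, tD⟩ := hk
    obtain ⟨j, hj⟩ := exists_pow_ord Nat.prime_two cP tP t1
    refine Ln_of_invol hB h2 h3 (τ := τ ^ j) (fun e => by rw [e, orderOf_one] at hj; omega)
      (by rw [← pow_two, ← hj, pow_orderOf_eq_one]) (pow_mem tD j) (N1 _ (hP (pow_mem tP j))).1
  exfalso
  have D0 : perp B Φ ≠ ⊥ := fun e => by
    have := hB.finrank_perp Φ
    rw [e, finrank_bot, h3] at this
    rw [← this] at hev
    exact absurd hev (by decide)
  obtain ⟨w, hw, w0⟩ := (Submodule.ne_bot_iff _).1 D0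
  obtain ⟨z, hz, hwz⟩ : ∃ z ∈ perp B Φ, B w z ≠ 0 := by
    by_contra hc
    push Not at hc
    exact w0 (Submodule.disjoint_def.1 (hB.disjoint_perp_perp hd) w hw hc)
  have sc : ∀ τ ∈ P, ∃ c : F, c * σ c = 1 ∧ ∀ v ∈ perp B Φ, suAct B τ v = c • v := fun τ tP => by
    obtain ⟨c, hc⟩ := N4 τ (hP tP) (a + 1) (by
      rw [← cP]; exact orderOf_dvd_iff_pow_eq_one.1 (Subgroup.orderOf_dvd_natCard P tP))
    refine ⟨c, mul_right_cancel₀ hwz ?_, hc⟩
    have := suAct_pres τ w z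
    rw [hc w hw, hc z hz] at this
    simpa [mul_assoc, mul_left_comm] using this
  let _ : MulAction (SUb B) E := MulAction.compHom E (suAct B)
  have d5 := H2.dvd_card_of_semireg P ((Finset.univ.filter fun c : F => c * σ c = 1).image fun c => c • w)
    (fun τ tP v hv => by
      obtain ⟨c, c1, hc⟩ := sc τ tP
      simp only [Finset.mem_image, Finset.mem_filter, Finset.mem_univ, true_and] at hv ⊢
      obtain ⟨e, e1, rfl⟩ := hv
      refine ⟨c * e, by rw [map_mul]; linear_combination e * σ e * c1 + e1, ?_⟩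
      change _ = suAct B τ (e • w)
      rw [hc _ (Submodule.smul_mem _ e hw), smul_smul])
    (fun τ tP v hv e => by
      obtain ⟨c, c1, hc⟩ := sc τ tP
      simp only [Finset.mem_image, Finset.mem_filter, Finset.mem_univ, true_and] at hv
      obtain ⟨f, f1, rfl⟩ := hv
      have f0 : f ≠ 0 := by rintro rfl; simp at f1
      have e' : suAct B τ (f • w) = f • w := e
      rw [hc _ (Submodule.smul_mem _ f hw)] at e'
      have c1 : c = 1 := smul_left_injective F (smul_ne_zero f0 w0) (e'.trans (one_smul F _).symm)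
      by_contra t1
      exact hk ⟨τ, tP, t1, fun v hv => by rw [hc v hv, c1, one_smul]⟩)
  rw [Finset.card_image_of_injective _ (smul_left_injective F w0), cP, ← Fintype.card_subtype,
    ← Nat.card_eq_fintype_card, hU.card_norm_one, hab, pow_succ] at d5
  exact hb (Nat.dvd_of_mul_dvd_mul_left (by positivity) d5)

include hU in
/-- `Ln_exists` with the conclusions of `Pd.fx_spec`, `Pd.syl`, `Pd.exists_N` as hypotheses -/
theorem Ln_exists_of {r d : ℕ} {g : SUb B} (hs : Sit B adj ω) (ht : TF hB ω) (hp : Pd q (finrank F E) r d)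
    (h2 : (2 : F) ≠ 0) (hg : TA B ω r g)
    (spec : finrank F (UR.fx B g) + d = finrank F E ∧ Disjoint (UR.fx B g) (perp B (UR.fx B g)))
    (sylX : ∀ x y : X, g • x = x → g • y = y → ∀ a : SUb B, a • ω = ω → a • x = y →
      ∃ n : SUb B, n • ω = ω ∧ n • x = y ∧
        (UR.im n (UR.fx B g) = UR.fx B g ∨ UR.im n (UR.fx B g) = perp B (UR.fx B g)))
    (sylP : ∀ x y : UR.TI B 1, g • x = x → g • y = y → ∀ a : SUb B, a • ω = ω → a • x = y →
      ∃ n : SUb B, n • ω = ω ∧ n • x = y ∧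
        (UR.im n (UR.fx B g) = UR.fx B g ∨ UR.im n (UR.fx B g) = perp B (UR.fx B g)))
    (hN : ∃ N : Subgroup (SUb B), (∀ n ∈ N, n • ω = ω ∧ UR.im n (UR.fx B g) = UR.fx B g) ∧
      (∀ a : SUb B, a • ω = ω → UR.im a (UR.fx B g) = UR.fx B g →
        ∃ n ∈ N, ∃ b ∈ PW B (UR.fx B g), b • ω = ω ∧ a = n * b) ∧
      (∀ a : SUb B, a • ω = ω → (∀ b, a * b = b * a) → a ∈ N) ∧
      ∀ τ ∈ N, ∀ k : ℕ, τ ^ 2 ^ k = 1 → ∃ c : F, ∀ v ∈ perp B (UR.fx B g), suAct B τ v = c • v)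
    (hrel : ∀ y y' : UR.TI B 1, y.1 ≤ UR.fx B g → y'.1 ≤ UR.fx B g → UR.Rel B ω y y')
    {u : E} (hu : u ∈ UR.fx B g) (u0 : u ≠ 0) (he : B u u = 0) : ∃ l, Ln B ω l ∧ u ∈ l ∧ l ≤ UR.fx B g := by
  obtain ⟨s1, hd⟩ := spec
  have fp := hB.finrank_perp (UR.fx B g)
  have n6 := hp.n6
  obtain ⟨k, hk⟩ := hp.odd
  rcases hp.hn with hn | hn
  · refine ⟨_, Ln_two hB hU hs ht h2 (by omega) hd (g := g) (fun v hv => hv) hg.fix
      fun x y hx hy a a1 a2 => ?_, hu, le_rfl⟩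
    obtain ⟨n, n1, n2, n3 | n3⟩ := sylX x y hx hy a a1 a2
    · exact ⟨n, n1, n2, n3⟩
    · have := UR.finrank_im n (UR.fx B g)
      rw [n3] at this
      omega
  · obtain ⟨N, N1, N2, N3, N4⟩ := hN
    have fixp : ∀ {b : SUb B}, b ∈ PW B (UR.fx B g) → ∀ y : UR.TI B 1, y.1 ≤ UR.fx B g → b • y = y :=
      fun hb y hy => UR.TI.ext' (UR.im_eq_of_mapsTo (U := y.1) (W := y.1)
        (fun v hv => by rw [hb v (hy hv)]; exact hv) rfl)
    refine Ln_three hB hU hs h2 (by omega) hd ⟨k + 2, by omega⟩ N N1 N3 N4 (fun y y' hy hy' => ?_) hu u0 he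
    obtain ⟨a, a1, a2⟩ := hrel y y' hy hy'
    obtain ⟨n, n1, n2, n3 | n3⟩ := sylP y y' (fixp (fun v hv => hv) y hy) (fixp (fun v hv => hv) y' hy') a a1 a2
    · obtain ⟨m, hm, b, hb, -, rfl⟩ := N2 n n1 n3
      exact ⟨m, hm, by rwa [mul_smul, fixp hb y hy] at n2⟩
    · exfalso
      obtain ⟨v, v0, hv, rfl⟩ := UR.exists_pt y'
      have m : v ∈ (n • y).1 := by rw [n2]; exact Submodule.mem_span_singleton_self v
      exact v0 (Submodule.disjoint_def.1 hd v (hy' (Submodule.mem_span_singleton_self v))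
        (n3 ▸ UR.im_le_iff.2 hy m))

end Cfsg.Agent.H6.UL
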