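import Mathlib

/-! Integer numerics for rank 3 actions of six-dimensional unitary groups. -/

set_option autoImplicit false

namespace Cfsg.Agent.H6.UN

variable {N θ₀ θ f q a : ℤ}

/-- the hypothesis on Φ -/
def PhiD (q N : ℤ) : Prop :=
  ∃ ε Φ : ℤ, ((ε = 1 ∧ ¬ 3 ∣ q + 1) ∨ (ε = 3 ∧ 3 ∣ q + 1)) ∧ ε * Φ = q ^ 2 - q + 1 ∧ Φ ∣ N

theorem cop_q {ε Φ : ℤ} (h : ε * Φ = q ^ 2 - q + 1) (n : ℕ) : IsCoprime (q ^ n) Φ :=
  IsCoprime.pow_left ⟨1 - q, ε, by linear_combination h⟩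

theorem mul_form {ε Φ : ℤ} (h : ε * Φ = q ^ 2 - q + 1) (hN : q ^ 5 ∣ N) (hΦ : Φ ∣ N) :
    ∃ y, N = q ^ 5 * Φ * y := (cop_q h 5).mul_dvd hN hΦ

theorem phi_ge {ε Φ : ℤ} (hq : 3 ≤ q) (he : (ε = 1 ∧ ¬ 3 ∣ q + 1) ∨ (ε = 3 ∧ 3 ∣ q + 1))
    (h : ε * Φ = q ^ 2 - q + 1) : 7 ≤ Φ ∧ q ≤ Φ ∧ 1 ≤ ε ∧ ε ≤ 3 ∧ (ε = 1 ∨ (ε = 3 ∧ 5 ≤ q)) := by
  rcases he with ⟨rfl, -⟩ | ⟨rfl, h3⟩
  · refine ⟨by nlinarith, by nlinarith, le_rfl, by norm_num, Or.inl rfl⟩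
  · have : 5 ≤ q := by omega
    exact ⟨by nlinarith, by nlinarith, by norm_num, le_rfl, Or.inr ⟨rfl, this⟩⟩

theorem no_mult {m r : ℤ} (h : m ∣ r) (h0 : 0 < r) (h1 : r < m) : False :=
  absurd (Int.le_of_dvd h0 h) (not_le.2 h1)

theorem core6A {ε x i Φ : ℤ} (hq : 3 ≤ q) (he : ε = 1 ∨ (ε = 3 ∧ 5 ≤ q ∧ 3 ∣ q + 1))
    (h : ε * Φ = q ^ 2 - q + 1) (hx : 1 ≤ x) (hi : 0 ≤ i)
    (e : (q ^ 5 * (2 * ε + i * Φ) - ε * (q ^ 3 - 1)) * x =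
      (q ^ 6 - q ^ 5 + 2 * q ^ 4 - q ^ 3 + q ^ 2 + 1) * (i + ε ^ 2 * (q + 1))) : False := by
  have q2 : 3 * q ≤ q ^ 2 := by nlinarith
  have q3 : 3 * q ^ 2 ≤ q ^ 3 := by nlinarith
  have q4 : 3 * q ^ 3 ≤ q ^ 4 := by nlinarith
  have q5 : 3 * q ^ 4 ≤ q ^ 5 := by nlinarith
  have hP : q ^ 6 - q ^ 5 + 2 * q ^ 4 - q ^ 3 + q ^ 2 + 1 < q ^ 6 := by nlinarith
  have e1 : 1 ≤ ε := by rcases he with h | h <;> omega
  rcases hi.eq_or_lt with rfl | hi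
  · have e0 : (2 * q ^ 5 - q ^ 3 + 1) * x = ε * (q ^ 7 + q ^ 5 + q ^ 4 + q ^ 2 + q + 1) := by
      apply mul_left_cancel₀ (by omega : ε ≠ 0)
      linear_combination e
    have d : q ^ 3 ∣ ε * (q ^ 2 + q + 1) - x :=
      ⟨(2 * q ^ 2 - 1) * x - ε * (q ^ 4 + q ^ 2 + q), by linear_combination -e0⟩
    refine no_mult d ?_ ?_
    · by_contra hc
      have h1 : ε * (q ^ 2 + q + 1) ≤ x := by linarith
      have h2 : (2 * q ^ 5 - q ^ 3 + 1) * (ε * (q ^ 2 + q + 1)) ≤ (2 * q ^ 5 - q ^ 3 + 1) * x :=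
        mul_le_mul_of_nonneg_left h1 (by linarith)
      rw [e0] at h2
      have h3 : 0 < ε * (q ^ 7 + 2 * q ^ 6 - 2 * q ^ 4 - q ^ 3) :=
        mul_pos (by omega) (by nlinarith)
      nlinarith
    · rcases he with rfl | ⟨rfl, h5, -⟩ <;> nlinarith
  · have d : q ^ 2 ∣ i + ε ^ 2 * (q + 1) - ε * x :=
      ⟨(q ^ 3 * (2 * ε + i * Φ) - ε * q) * x -
        (q ^ 4 - q ^ 3 + 2 * q ^ 2 - q + 1) * (i + ε ^ 2 * (q + 1)), by linear_combination -e⟩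
    have hw : 0 < i + ε ^ 2 * (q + 1) := by positivity
    have b1 : (q ^ 5 * (2 * ε + i * Φ) - ε * (q ^ 3 - 1)) * x < q ^ 6 * (i + ε ^ 2 * (q + 1)) := by
      rw [e]; exact mul_lt_mul_of_pos_right hP hw
    have b2 : q ^ 5 * ((ε + i * Φ) * x) < q ^ 5 * (q * (i + ε ^ 2 * (q + 1))) := by
      have : 0 ≤ ε * (q ^ 5 - q ^ 3 + 1) * x := by
        have : 0 ≤ q ^ 5 - q ^ 3 + 1 := by linarith
        positivity
      nlinarith
    have b3 : (ε + i * Φ) * x < q * (i + ε ^ 2 * (q + 1)) :=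
      lt_of_mul_lt_mul_left b2 (by positivity)
    rcases he with rfl | ⟨rfl, h5, h3⟩
    · obtain rfl : Φ = q ^ 2 - q + 1 := by linarith
      have x1 : x = 1 := by
        by_contra hc
        have h2 : 2 ≤ x := by omega
        have : (1 + i * (q ^ 2 - q + 1)) * 2 ≤ (1 + i * (q ^ 2 - q + 1)) * x :=
          mul_le_mul_of_nonneg_left h2 (by nlinarith)
        nlinarith
      subst x1
      refine no_mult d (by nlinarith) ?_
      by_contra hc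
      have : 3 ≤ i := by nlinarith
      nlinarith
    · have b4 : (9 + i * (q ^ 2 - q + 1)) * x < 3 * q * (i + 9 * (q + 1)) := by
        rw [← h]; linarith
      have x1 : x ≤ 39 := by
        by_contra hc
        have h2 : 40 ≤ x := by omega
        have : (9 + i * (q ^ 2 - q + 1)) * 40 ≤ (9 + i * (q ^ 2 - q + 1)) * x :=
          mul_le_mul_of_nonneg_left h2 (by nlinarith)
        nlinarith
      by_cases h14 : 14 ≤ q
      · have i1 : i ≤ 40 := by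
          by_contra hc
          have h2 : 41 ≤ i := by omega
          have : (9 + i * (q ^ 2 - q + 1)) * 1 ≤ (9 + i * (q ^ 2 - q + 1)) * x :=
            mul_le_mul_of_nonneg_left hx (by nlinarith)
          have : 41 * (q ^ 2 - 4 * q + 1) ≤ i * (q ^ 2 - 4 * q + 1) :=
            mul_le_mul_of_nonneg_right h2 (by nlinarith)
          nlinarith
        exact no_mult d (by nlinarith) (by nlinarith)
      · obtain rfl | rfl | rfl : q = 5 ∨ q = 8 ∨ q = 11 := by omega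
        · obtain rfl : Φ = 7 := by omega
          interval_cases x <;> omega
        · obtain rfl : Φ = 19 := by omega
          interval_cases x <;> omega
        · obtain rfl : Φ = 37 := by omega
          interval_cases x <;> omega

theorem num6A (hq : 3 ≤ q) (hk : a * N = θ₀ + a + f * (θ + a)) (hle : f + 1 ≤ N)
    (h0 : θ₀ = (q ^ 3 - 1) * (q ^ 2 - q + 1) * (q ^ 5 + 1)) (hθ : θ = (q ^ 5 + 1) * (q - 1) * (q ^ 2 + 1))
    (hf : f = q ^ 2 * (q ^ 4 + q ^ 2 + 1) * (q ^ 2 - q + 1)) (hN : q ^ 5 ∣ N) (hΦ : PhiD q N) : False := by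
  obtain ⟨ε, Φ, he, h, hΦ⟩ := hΦ
  obtain ⟨p7, pq, e1, e3, -⟩ := phi_ge hq he h
  obtain ⟨y, hy⟩ := mul_form h hN hΦ
  obtain ⟨Ψ, hΨ⟩ : ∃ Ψ, Ψ = q ^ 6 - q ^ 5 + 2 * q ^ 4 - q ^ 3 + q ^ 2 + 1 := ⟨_, rfl⟩
  obtain ⟨x, hx⟩ : ∃ x, x = y - ε * q := ⟨_, rfl⟩
  have hg : N - 1 - f = q ^ 5 * Φ * x - Ψ := by
    rw [hy, hf, hΨ, hx]; linear_combination (q ^ 6) * h
  have k1 : a * (q ^ 5 * Φ * x - Ψ) = θ₀ * Ψ := by
    rw [← hg]
    have : f * θ = θ₀ * (Ψ - 1) := by rw [hf, hθ, h0, hΨ]; ring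
    linear_combination hk + this
  have c1 : IsCoprime (q ^ 5) Ψ :=
    IsCoprime.pow_left ⟨-(q ^ 5 - q ^ 4 + 2 * q ^ 3 - q ^ 2 + q), 1, by rw [hΨ]; ring⟩
  have c2 : IsCoprime Φ Ψ := ⟨-(ε * q ^ 2 * (q ^ 2 + 1)), 1, by
    rw [hΨ]; linear_combination (-(q ^ 2 * (q ^ 2 + 1))) * h⟩
  have c3 : IsCoprime (q ^ 5 * Φ) Ψ := c1.mul_left c2
  have qp : 0 < q := by omega
  have Ψp : 0 < Ψ := by
    have : Ψ = 1 + q ^ 2 * (q ^ 2 + 1) * (ε * Φ) := by rw [h, hΨ]; ring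
    rw [this]; positivity
  have θp : 0 < θ₀ := by
    rw [h0, ← h]
    have : 0 < q ^ 3 - 1 := by nlinarith [pow_le_pow_left₀ (by norm_num) hq 3]
    positivity
  obtain ⟨w', hw'⟩ : q ^ 5 * Φ ∣ a + θ₀ :=
    c3.dvd_of_dvd_mul_left ⟨a * x, by linear_combination -k1⟩
  have k2 : a * x = Ψ * w' := by
    apply mul_left_cancel₀ (by positivity : q ^ 5 * Φ ≠ 0)
    linear_combination k1 + Ψ * hw'
  obtain ⟨k, hk'⟩ : ∃ k, k = q ^ 5 * w' - ε * (q ^ 3 - 1) * (q ^ 5 + 1) := ⟨_, rfl⟩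
  have ak : a = Φ * k := by
    rw [hk']; linear_combination hw' - h0 + (q ^ 3 - 1) * (q ^ 5 + 1) * h
  obtain ⟨w, rfl⟩ : Φ ∣ w' := c2.dvd_of_dvd_mul_left ⟨k * x, by rw [← k2, ak]; ring⟩
  have k3 : k * x = Ψ * w := by
    apply mul_left_cancel₀ (by omega : Φ ≠ 0)
    linear_combination k2 - x * ak
  have gp : 0 < q ^ 5 * Φ * x - Ψ := by
    refine lt_of_le_of_ne (by linarith) fun e => ?_
    rw [← e, mul_zero] at k1
    exact absurd k1 (mul_pos θp Ψp).ne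
  have ap : 0 < a := by
    by_contra hc
    have := mul_nonpos_of_nonpos_of_nonneg (not_lt.1 hc) gp.le
    linarith [mul_pos θp Ψp]
  have kp : 0 < k := by
    by_contra hc
    have := mul_nonpos_of_nonneg_of_nonpos (by omega : 0 ≤ Φ) (not_lt.1 hc)
    linarith
  have xp : 1 ≤ x := by
    by_contra hc
    have := mul_nonpos_of_nonneg_of_nonpos (by positivity : 0 ≤ q ^ 5 * Φ) (by omega : x ≤ 0)
    linarith
  have kf : k = q ^ 5 * (2 * ε + (w - ε ^ 2 * (q + 1)) * Φ) - ε * (q ^ 3 - 1) := by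
    rw [hk']; linear_combination (q ^ 5 * ε * (q + 1)) * h
  refine core6A (x := x) (i := w - ε ^ 2 * (q + 1)) hq ?_ h xp ?_ ?_
  · rcases he with h | h
    · exact Or.inl h.1
    · exact Or.inr ⟨h.1, by omega, h.2⟩
  · by_contra hc
    have h1 : (w - ε ^ 2 * (q + 1)) * Φ ≤ (-1) * Φ := mul_le_mul_of_nonneg_right (by omega) (by omega)
    have h2 : q ^ 5 * (2 * ε + (w - ε ^ 2 * (q + 1)) * Φ) ≤ 0 :=
      mul_nonpos_of_nonneg_of_nonpos (by positivity) (by linarith)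
    have : 0 ≤ ε * (q ^ 3 - 1) := mul_nonneg (by omega) (by nlinarith [pow_pos qp 3])
    linarith
  · rw [← kf, k3, hΨ]; ring

theorem num6A9 (hq : 3 ≤ q) (hk : a * N = θ₀ + a + f * (θ + a)) (hle : f + 1 ≤ N)
    (h0 : θ₀ = (q ^ 3 - 1) * (q ^ 2 - q + 1) * (q ^ 5 + 1)) (hθ : θ = (q ^ 5 + 1) * (q - 1) * (q ^ 2 + 1))
    (hf : f = q ^ 2 * (q ^ 4 + q ^ 2 + 1) * (q ^ 2 - q + 1)) (hN : q ^ 9 ∣ N) (_hlt : N < q ^ 10) : False := by
  obtain ⟨c, hc⟩ := hN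
  obtain ⟨Ψ, hΨ⟩ : ∃ Ψ, Ψ = q ^ 6 - q ^ 5 + 2 * q ^ 4 - q ^ 3 + q ^ 2 + 1 := ⟨_, rfl⟩
  obtain ⟨u, hu⟩ : ∃ u, u = c * q ^ 3 - (q ^ 2 - q + 1) := ⟨_, rfl⟩
  obtain ⟨T, hT⟩ : ∃ T, T = q ^ 4 - q ^ 3 + q ^ 2 - q + 1 := ⟨_, rfl⟩
  have qp : 0 < q := by omega
  have q2 : 3 * q ≤ q ^ 2 := by nlinarith
  have q3 : 3 * q ^ 2 ≤ q ^ 3 := by nlinarith
  have q4 : 3 * q ^ 3 ≤ q ^ 4 := by nlinarith
  have q5 : 3 * q ^ 4 ≤ q ^ 5 := by nlinarith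
  have q6 : 3 * q ^ 5 ≤ q ^ 6 := by nlinarith
  have hg : N - 1 - f = q ^ 6 * u - Ψ := by rw [hc, hf, hΨ, hu]; ring
  have k1 : a * (q ^ 6 * u - Ψ) = θ₀ * Ψ := by
    rw [← hg]
    have : f * θ = θ₀ * (Ψ - 1) := by rw [hf, hθ, h0, hΨ]; ring
    linear_combination hk + this
  have h0' : θ₀ = (q ^ 6 - 1) * T := by rw [h0, hT]; ring
  have Tp : 0 < T := by linarith
  have Ψp : 0 < Ψ := by linarith
  have θp : 0 < θ₀ := by rw [h0']; exact mul_pos (by linarith) Tp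
  have c1 : IsCoprime (q ^ 6) Ψ :=
    IsCoprime.pow_left ⟨-(q ^ 5 - q ^ 4 + 2 * q ^ 3 - q ^ 2 + q), 1, by rw [hΨ]; ring⟩
  obtain ⟨w, hw⟩ : q ^ 6 ∣ a + θ₀ := c1.dvd_of_dvd_mul_left ⟨a * u, by linear_combination -k1⟩
  have k2 : a * u = Ψ * w := by
    apply mul_left_cancel₀ (by positivity : q ^ 6 ≠ 0)
    linear_combination k1 + Ψ * hw
  obtain ⟨v, rfl⟩ : ∃ v, w = T + v := ⟨w - T, by ring⟩
  have av : a = q ^ 6 * v + T := by linear_combination hw - h0'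
  have gp : 0 < q ^ 6 * u - Ψ := by
    refine lt_of_le_of_ne (by linarith) fun e => ?_
    rw [← e, mul_zero] at k1
    exact absurd k1 (mul_pos θp Ψp).ne
  have ap : 0 < a := by
    by_contra hc
    have := mul_nonpos_of_nonpos_of_nonneg (not_lt.1 hc) gp.le
    linarith [mul_pos θp Ψp]
  have v0 : 0 ≤ v := by
    by_contra hc
    have : q ^ 6 * v ≤ q ^ 6 * (-1) := mul_le_mul_of_nonneg_left (by omega) (by positivity)
    linarith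
  have c1 : 1 ≤ c := by
    by_contra hc'
    have h1 : c * q ^ 3 ≤ 0 := mul_nonpos_of_nonpos_of_nonneg (by omega) (by positivity)
    have : q ^ 6 * u ≤ 0 := mul_nonpos_of_nonneg_of_nonpos (by positivity) (by linarith)
    linarith
  have u1 : q ^ 3 - (q ^ 2 - q + 1) ≤ u := by
    have : 1 * q ^ 3 ≤ c * q ^ 3 := mul_le_mul_of_nonneg_right c1 (by positivity)
    linarith
  rw [av] at k2
  have d : q ^ 2 ∣ v - (3 * q - 2) := by
    refine ⟨q ^ 4 * v * u - (q ^ 4 - q ^ 3 + 2 * q ^ 2 - q + 1) * v + T * c * q -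
      (q ^ 8 - 2 * q ^ 7 + 4 * q ^ 6 - 5 * q ^ 5 + 7 * q ^ 4 - 7 * q ^ 3 + 8 * q ^ 2 - 6 * q + 5), ?_⟩
    rw [hΨ] at k2
    linear_combination (-1) * k2 + T * hu - (q ^ 6 - q ^ 5 + 2 * q ^ 4 - q ^ 3 + 2 * q ^ 2 - q + 2) * hT
  have v1 : 3 * q - 2 ≤ v := by
    by_contra hc'
    exact no_mult ((dvd_neg.2 d)) (by linarith) (by linarith)
  have b1 : v * (q ^ 6 * u - Ψ) = T * (Ψ - u) := by linear_combination k2
  have b2 : T * (Ψ - u) < q ^ 4 * q ^ 6 :=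
    mul_lt_mul'' (by linarith) (by linarith) Tp.le (by
      by_contra hc'
      have := mul_neg_of_pos_of_neg Tp (not_le.1 hc')
      have := mul_nonneg v0 gp.le
      linarith)
  have b3 : (3 * q - 2) * (q ^ 6 * (q ^ 3 - q ^ 2)) ≤ v * (q ^ 6 * u - Ψ) := by
    refine mul_le_mul v1 ?_ (mul_nonneg (by positivity) (by linarith)) v0
    have : q ^ 6 * (q ^ 3 - (q ^ 2 - q + 1)) ≤ q ^ 6 * u := mul_le_mul_of_nonneg_left u1 (by positivity)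
    have : q ^ 6 * 1 ≤ q ^ 6 * (q - 1) := mul_le_mul_of_nonneg_left (by linarith) (by positivity)
    linarith
  have b4 : q ^ 8 * 0 < q ^ 8 * (2 * q ^ 2 - 5 * q + 2) := mul_lt_mul_of_pos_left (by linarith) (by positivity)
  nlinarith

end Cfsg.Agent.H6.UN
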