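import Cfsg.Agent.H1.URe
import Cfsg.Agent.H6.UN1

/-! Rank 3 actions of six-dimensional unitary groups: Sylow subgroups for the primes of `q ^ 2 - q + 1`. -/

set_option autoImplicit false
set_option linter.unusedSectionVars false

namespace Cfsg.Agent.H6.UL

open Cfsg.Agent.H1 Cfsg.Agent.H1.UR Module H5
open scoped Classical

theorem ord6 {q r : ℕ} (hr : r.Prime) (h : orderOf (q : ZMod r) = 6) :
    (r : ℤ) ∣ q ^ 2 - q + 1 ∧ ¬ (r : ℤ) ∣ (q + 1) * (q ^ 3 - 1) * (q ^ 6 + 1) ∧ ¬ r ∣ q ^ 2 - 1 := by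
  have := Fact.mk hr
  have h6 : (q : ZMod r) ^ 6 = 1 := h ▸ pow_orderOf_eq_one _
  have h3 : (q : ZMod r) ^ 3 - 1 ≠ 0 := fun e =>
    absurd (h ▸ orderOf_dvd_of_pow_eq_one (sub_eq_zero.1 e)) (by norm_num)
  have h2 : (q : ZMod r) ^ 2 ≠ 1 := fun e => absurd (h ▸ orderOf_dvd_of_pow_eq_one e) (by norm_num)
  have h1 : (q : ZMod r) + 1 ≠ 0 := fun e => h2 (by linear_combination (q - 1 : ZMod r) * e)
  have h4 : (q : ZMod r) ^ 3 + 1 = 0 :=
    (mul_eq_zero.1 (by linear_combination h6 : ((q : ZMod r) ^ 3 + 1) * (q ^ 3 - 1) = 0)).resolve_right h3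
  have h5 : (q : ZMod r) ^ 6 + 1 ≠ 0 := fun e => h3 (by linear_combination h4 - e + h6)
  refine ⟨?_, fun e => ?_, fun e => h2 ?_⟩
  · rw [← ZMod.intCast_zmod_eq_zero_iff_dvd]
    push_cast
    exact (mul_eq_zero.1 (by linear_combination h4 :
      ((q : ZMod r) + 1) * (q ^ 2 - q + 1) = 0)).resolve_left h1
  · rw [← ZMod.intCast_zmod_eq_zero_iff_dvd] at e
    push_cast at e
    exact mul_ne_zero (mul_ne_zero h1 h3) h5 e
  · rcases Nat.eq_zero_or_pos q with rfl | hq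
    · simp at h6
    · rw [← ZMod.natCast_eq_zero_iff, Nat.cast_sub (Nat.one_le_pow _ _ hq)] at e
      push_cast at e
      exact sub_eq_zero.1 e

theorem ord6_of {q r : ℕ} (hr : r.Prime) (h3 : r ≠ 3) (h : (r : ℤ) ∣ q ^ 2 - q + 1) :
    orderOf (q : ZMod r) = 6 := by
  have := Fact.mk hr
  have h2 : r ≠ 2 := by
    rintro rfl
    have : Even ((q : ℤ) * (q - 1)) := Int.even_mul_pred_self _
    obtain ⟨a, ha⟩ := this
    obtain ⟨b, hb⟩ := h
    have : 2 * a + 1 = 2 * b := by push_cast at hb; linear_combination hb - ha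
    omega
  rw [← ZMod.intCast_zmod_eq_zero_iff_dvd] at h
  push_cast at h
  have e3 : (q : ZMod r) ^ 3 = -1 := by linear_combination (q + 1 : ZMod r) * h
  have n2 : (2 : ZMod r) ≠ 0 := fun e => h2 ((Nat.prime_dvd_prime_iff_eq hr Nat.prime_two).1
    ((ZMod.natCast_eq_zero_iff 2 r).1 (by exact_mod_cast e)))
  have n3 : (3 : ZMod r) ≠ 0 := fun e => h3 ((Nat.prime_dvd_prime_iff_eq hr Nat.prime_three).1
    ((ZMod.natCast_eq_zero_iff 3 r).1 (by exact_mod_cast e)))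
  refine orderOf_eq_of_pow_and_pow_div_prime (by norm_num) (by linear_combination (q ^ 3 - 1 : ZMod r) * e3)
    fun p hp hd => ?_
  have : p ≤ 6 := Nat.le_of_dvd (by norm_num) hd
  interval_cases p <;> simp_all (config := { decide := true }) only []
  · intro e
    exact n2 (by linear_combination -e)
  · intro e
    norm_num at e
    rcases e with e | e
    · exact n2 (by rw [e] at e3; linear_combination e3)
    · exact n3 (by rw [e] at h; linear_combination h)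

theorem exists_pow_ord {G : Type*} [Group G] [Finite G] {P : Subgroup G} {r k : ℕ} (hr : r.Prime)
    (hP : Nat.card P = r ^ k) {g : G} (hg : g ∈ P) (h1 : g ≠ 1) : ∃ m, orderOf (g ^ m) = r := by
  have h := Subgroup.orderOf_dvd_natCard P hg
  rw [hP] at h
  obtain ⟨j, -, hj⟩ := (Nat.dvd_prime_pow hr).1 h
  refine ⟨orderOf g / r, orderOf_pow_orderOf_div (orderOf_pos g).ne' ?_⟩
  rcases j with _ | j
  · exact absurd (orderOf_eq_one_iff.1 (by simpa using hj)) h1
  · exact hj ▸ dvd_pow_self r (by omega)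

theorem exists_sub {G : Type*} [Group G] [Finite G] (H : Subgroup G) {r k : ℕ} (hr : r.Prime)
    (h : r ^ k ∣ Nat.card H) : ∃ P : Subgroup G, P ≤ H ∧ Nat.card P = r ^ k := by
  have := Fact.mk hr
  obtain ⟨P, hP⟩ := Sylow.exists_subgroup_card_pow_prime r h
  exact ⟨P.map H.subtype, Subgroup.map_subtype_le P, by rw [Subgroup.card_map_of_injective H.subtype_injective, hP]⟩

theorem pow_smul_fix {G Z : Type*} [Group G] [MulAction G Z] {g : G} {z : Z} (h : g • z = z) (m : ℕ) :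
    g ^ m • z = z := pow_mem (show g ∈ MulAction.stabilizer G z from h) m

variable {F : Type*} [Field F] {σ : F →+* F} {E : Type*} [AddCommGroup E] [Module F E]
  [FiniteDimensional F E] {B : Sesq σ E} (hB : IsEps B 1) [Fintype F] [Fintype E] {q : ℕ} (hU : UF σ q)
variable {X : Type*} [MulAction (SUb B) X] [Fintype X] {adj : X → X → Prop} {ω : X} {r : ℕ}

include hB hU in
theorem tr2_TyA (hn : finrank F E = 6) (hp : Pd q 6 r 3) (h2 : Tr B ω 2)
    (hc : Fintype.card (UR.TI B 2) = (q ^ 4 + q ^ 2 + 1) * (q ^ 5 + 1) * (q ^ 3 + 1)) : TyA B ω r := by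
  have := finite_SUb B
  by_contra hT
  obtain ⟨h1, h3, -⟩ := ord6 hp.pr hp.ord
  obtain ⟨y⟩ : Nonempty (UR.TI B 2) := Fintype.card_pos_iff.1 (by rw [hc]; positivity)
  have d1 : Fintype.card (UR.TI B 2) ∣ Nat.card (MulAction.stabilizer (SUb B) ω) :=
    ⟨_, (H2.orb_stab (MulAction.stabilizer (SUb B) ω) y Finset.univ fun z =>
      ⟨fun _ => h2 y z, fun _ => Finset.mem_univ _⟩).symm⟩
  obtain ⟨φ, hφ⟩ : ∃ φ : ℕ, (φ : ℤ) = q ^ 2 - q + 1 :=
    ⟨q ^ 2 - q + 1, by rw [Nat.cast_add, Nat.cast_sub (by nlinarith)]; push_cast; ring⟩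
  have φ0 : φ ≠ 0 := by
    rintro rfl
    push_cast at hφ
    nlinarith [sq_nonneg (2 * (q : ℤ) - 1)]
  obtain ⟨a, m, hm, ha⟩ := Nat.exists_eq_pow_mul_and_not_dvd φ0 r hp.pr.ne_one
  have d2 : r ∣ φ := by rw [← Int.natCast_dvd_natCast, hφ]; exact h1
  have d3 : φ * φ ∣ Fintype.card (UR.TI B 2) := by
    rw [hc, ← Int.natCast_dvd_natCast]
    exact ⟨(q ^ 2 + q + 1) * (q ^ 5 + 1) * (q + 1), by push_cast; rw [hφ]; ring⟩
  have d4 : r ^ (a + 1) ∣ φ * φ := by
    rw [pow_succ]; exact mul_dvd_mul ⟨m, ha⟩ d2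
  obtain ⟨P, hP, cP⟩ := exists_sub _ hp.pr (d4.trans (d3.trans d1))
  let : MulAction (SUb B) E := MulAction.compHom E (suAct B)
  have d5 := H2.dvd_card_of_semireg P (Finset.univ.erase (0 : E))
    (fun g _ v hv => by
      simp only [Finset.mem_erase, Finset.mem_univ, and_true] at hv ⊢
      exact sa_ne_zero g hv)
    (fun g hg v hv e => by
      by_contra g1
      obtain ⟨j, hj⟩ := exists_pow_ord hp.pr cP hg g1
      exact hT ⟨g ^ j, pow_smul_fix (hP hg) j, hj, v, (Finset.mem_erase.1 hv).1, pow_smul_fix e j⟩)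
  rw [cP, Finset.card_erase_of_mem (Finset.mem_univ _), Finset.card_univ, Module.card_eq_pow_finrank (K := F),
    hn, hU.card, ← Int.natCast_dvd_natCast] at d5
  have q0 : 0 < q := by
    rcases Nat.eq_zero_or_pos q with rfl | h
    · have := hU.card
      have := Fintype.card_pos (α := F)
      omega
    · exact h
  rw [Nat.cast_sub (Nat.one_le_pow _ _ (by positivity))] at d5
  have e : (((q ^ 2) ^ 6 : ℕ) : ℤ) - (1 : ℕ) = φ * ((q + 1) * (q ^ 3 - 1) * (q ^ 6 + 1)) := by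
    push_cast; rw [hφ]; ring
  have c : IsCoprime (((r ^ (a + 1) : ℕ)) : ℤ) ((q + 1) * (q ^ 3 - 1) * (q ^ 6 + 1)) := by
    push_cast
    exact IsCoprime.pow_left (((Nat.prime_iff_prime_int.1 hp.pr).irreducible.coprime_iff_not_dvd).2 h3)
  rw [e] at d5
  have d6 := Int.natCast_dvd_natCast.1 (c.dvd_of_dvd_mul_right d5)
  rw [ha, pow_succ] at d6
  exact hm (Nat.dvd_of_mul_dvd_mul_left (pow_pos hp.pr.pos a) d6)

include hB hU in
theorem dvd_stab (hn : finrank F E = 6) {v : E} (v0 : v ≠ 0) (hv : B v v = 0) :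
    q ^ 3 + 1 ∣ Nat.card (MulAction.stabilizer (SUb B) (UR.pt v0 hv)) := by
  have := finite_SUb B
  set y := UR.pt v0 hv with hy
  have y1 : finrank F y.1 = 1 := finrank_span_singleton v0
  have yp : y.1 ≤ perp B y.1 := UR.span_le_perp.2 hv
  obtain ⟨u, hu, huv, hu'⟩ := exists_iso_line hB hU (by omega) hv v0
  have u0 : u ≠ 0 := fun e => hu' (e ▸ zero_mem _)
  set T := (Finset.univ.filter fun z : UR.TI B 1 => z.1 ≤ perp B y.1).erase y with hT
  have key : ∀ z ∈ T, finrank F (z.1 ⊓ y.1 : Submodule F E) = 0 ∧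
      finrank F (y.1 ⊓ perp B z.1 : Submodule F E) = 1 := fun z hz => by
    simp only [hT, Finset.mem_erase, Finset.mem_filter, Finset.mem_univ, true_and] at hz
    refine ⟨?_, by rw [inf_eq_left.2 (hB.le_perp_comm hz.2), y1]⟩
    obtain ⟨w, w0, hw, rfl⟩ := UR.exists_pt z
    rw [Submodule.finrank_eq_zero, inf_comm, ← disjoint_iff]
    exact (Submodule.disjoint_span_singleton' w0).2 fun h => hz.1 ((UR.eq_pt_iff w0 hw y).2 h).symm
  have uT : UR.pt u0 hu ∈ T := by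
    simp only [hT, Finset.mem_erase, Finset.mem_filter, Finset.mem_univ, true_and]
    exact ⟨fun e => hu' ((UR.eq_pt_iff u0 hu y).1 e.symm), UR.span_le_perp.2 huv⟩
  have ti : ∀ z : UR.TI B 1, z.1 ≤ perp B z.1 ∧ finrank F z.1 = 1 := fun z => by
    obtain ⟨w, w0, hw, rfl⟩ := UR.exists_pt z
    exact ⟨UR.span_le_perp.2 hw, finrank_span_singleton w0⟩
  have d1 : T.card ∣ Nat.card (MulAction.stabilizer (SUb B) y) := by
    refine ⟨_, (H2.orb_stab (MulAction.stabilizer (SUb B) y) (UR.pt u0 hu) T fun z => ⟨fun hz => ?_, ?_⟩).symm⟩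
    · obtain ⟨g, g1, g2⟩ := UR.pair_trans hB hU yp yp (ti (UR.pt u0 hu)).1 (ti z).1
        (fun e => by rw [e, finrank_bot] at y1; omega) rfl ((ti _).2.trans (ti z).2.symm)
        ((key _ uT).1.trans (key z hz).1.symm) ((key _ uT).2.trans (key z hz).2.symm)
      exact ⟨g, UR.TI.ext' g2, UR.TI.ext' g1⟩
    · rintro ⟨g, hg, rfl⟩
      have hg' : UR.im g y.1 = y.1 := congrArg (·.1) (show g • y = y from hg)
      simp only [hT, Finset.mem_erase, Finset.mem_filter, Finset.mem_univ, true_and] at uT ⊢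
      refine ⟨fun e => uT.1 (smul_left_cancel g (e.trans hg.symm)), ?_⟩
      rw [UR.TI.smul_val, ← hg', ← UR.im_perp]
      exact UR.im_le_iff.2 uT.2
  refine Dvd.dvd.trans ?_ d1
  have s := sum_pt_le hB hU (S := perp B y.1) (r := 1) (s := 4)
    (by rw [hB.perp_perp, inf_eq_right.2 yp, y1]) (by have := hB.finrank_perp y.1; omega)
  rw [Finset.sum_boole] at s
  have c : T.card + 1 = (Finset.univ.filter fun z : UR.TI B 1 => z.1 ≤ perp B y.1).card :=
    Finset.card_erase_add_one (by simpa using yp)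
  have q2 : 2 ≤ q := by
    have := hU.card
    have := Fintype.one_lt_card (α := F)
    by_contra h
    have : q ≤ 1 := by omega
    nlinarith
  have q2' : (2 : ℝ) ≤ q := by exact_mod_cast q2
  refine ⟨q ^ 2 * (q ^ 2 + 1), ?_⟩
  have : (T.card : ℝ) = (q ^ 3 + 1) * (q ^ 2 * (q ^ 2 + 1)) := by
    apply mul_left_cancel₀ (by nlinarith : (q : ℝ) ^ 2 - 1 ≠ 0)
    rw [← c, cI] at s
    push_cast at s
    field_simp at s
    linear_combination s
  exact_mod_cast this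

include hB hU in
theorem phi_dvd (hs : Sit B adj ω) (hn : finrank F E = 6) (hq : 3 ≤ q)
    (h : ∀ r, Pd q 6 r 3 → ¬ TyA B ω r) : UN.PhiD q (Fintype.card X) := by
  have := finite_SUb B
  obtain ⟨v, -, v0, hv⟩ := exists_iso_vec hB hU (⊤ : Submodule F E) (by rw [finrank_top]; omega)
  have main : ∀ r k : ℕ, r.Prime → r ≠ 3 → (r : ℤ) ^ (k + 1) ∣ q ^ 2 - q + 1 → r ^ (k + 1) ∣ Fintype.card X := by
    intro r k hr h3 hd
    have ho := ord6_of hr h3 ((dvd_pow_self _ (by omega)).trans hd)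
    have d1 : r ^ (k + 1) ∣ q ^ 3 + 1 := by
      rw [← Int.natCast_dvd_natCast]
      push_cast
      exact hd.trans ⟨q + 1, by ring⟩
    obtain ⟨P, hP, cP⟩ := exists_sub _ hr (d1.trans (dvd_stab hB hU hn v0 hv))
    rw [← cP, ← Finset.card_univ]
    refine H2.dvd_card_of_semireg P Finset.univ (fun _ _ _ _ => Finset.mem_univ _) fun g hg x _ e => ?_
    by_contra g1
    obtain ⟨j, hj⟩ := exists_pow_ord hr cP hg g1
    have e1 := pow_smul_fix e j
    have e2 := pow_smul_fix (hP hg) j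
    generalize g ^ j = t at hj e1 e2
    have e3 : suAct B t v ∈ F ∙ v := by
      have : UR.im t (F ∙ v) = F ∙ v := congrArg (·.1) e2
      rw [← this, UR.app_mem_im]
      exact Submodule.mem_span_singleton_self v
    obtain ⟨c, hc⟩ := Submodule.mem_span_singleton.1 e3
    have p1 : ∀ n : ℕ, suAct B (t ^ n) v = c ^ n • v := fun n => by
      induction n with
      | zero => simp
      | succ n ih => rw [pow_succ, sa_mul, ← hc, map_smul, ih, smul_smul, pow_succ']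
    have c1 : c ^ r = 1 := by
      have := p1 r
      rw [← hj, pow_orderOf_eq_one, sa_one, hj] at this
      exact smul_left_injective F v0 (this.symm.trans (one_smul F v).symm)
    have c0 : c ≠ 0 := by rintro rfl; simp [hr.ne_zero] at c1
    have c2 := FiniteField.pow_card_sub_one_eq_one c c0
    rw [hU.card] at c2
    have c3 : c = 1 := by
      have := pow_gcd_eq_one.2 ⟨c1, c2⟩
      rwa [(hr.coprime_iff_not_dvd.2 (ord6 hr ho).2.2).gcd_eq_one, pow_one] at this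
    obtain ⟨a, ha⟩ := hs.rk.tr x ω
    refine h r ⟨hr, ho, by decide, Or.inr rfl, le_rfl⟩ ⟨a * t * a⁻¹, ?_, ?_, suAct B a v, sa_ne_zero a v0, ?_⟩
    · rw [← ha, mul_smul, mul_smul, inv_smul_smul, e1]
    · rw [← hj]; exact (MulAut.conj a).orderOf_eq t
    · rw [sa_mul, sa_mul, sa_inv_app, ← hc, c3, one_smul]
  have fin : ∀ ε : ℤ, ∀ Φ : ℕ, ε * Φ = q ^ 2 - q + 1 → ¬ 3 ∣ Φ → (Φ : ℤ) ∣ Fintype.card X := by
    intro ε Φ e h3
    rw [Int.natCast_dvd_natCast]
    refine (Nat.dvd_iff_prime_pow_dvd_dvd _ _).2 fun r k hr hd => ?_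
    rcases k with _ | k
    · simp
    · refine main r k hr (fun e3 => h3 ?_) ?_
      · exact e3 ▸ (dvd_pow_self r (by omega)).trans hd
      · rw [← e]
        exact Dvd.dvd.mul_left (by exact_mod_cast hd) _
  by_cases h3 : (3 : ℤ) ∣ q + 1
  · obtain ⟨u, hu⟩ := h3
    have u1 : 1 ≤ u := by omega
    obtain ⟨Φ, hΦ⟩ : ∃ Φ : ℕ, (Φ : ℤ) = 3 * u ^ 2 - 3 * u + 1 := ⟨(3 * u ^ 2 - 3 * u + 1).toNat,
      Int.toNat_of_nonneg (by nlinarith)⟩
    have e : 3 * (Φ : ℤ) = q ^ 2 - q + 1 := by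
      rw [hΦ, show (q : ℤ) = 3 * u - 1 by linarith]; ring
    refine ⟨3, Φ, Or.inr ⟨rfl, u, hu⟩, e, fin 3 Φ e fun d => ?_⟩
    obtain ⟨z, rfl⟩ := d
    have : 3 * (z - u ^ 2 + u) = 1 := by push_cast at hΦ; linarith
    omega
  · obtain ⟨Φ, hΦ⟩ : ∃ Φ : ℕ, (Φ : ℤ) = q ^ 2 - q + 1 :=
      ⟨q ^ 2 - q + 1, by rw [Nat.cast_add, Nat.cast_sub (by nlinarith)]; push_cast; ring⟩
    refine ⟨1, Φ, Or.inl ⟨rfl, h3⟩, by rw [hΦ, one_mul], fin 1 Φ (by rw [hΦ, one_mul]) fun d => h3 ?_⟩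
    obtain ⟨z, rfl⟩ := d
    have : (3 : ℤ) ∣ (q + 1) ^ 2 := ⟨z + q, by push_cast at hΦ; linear_combination -hΦ⟩
    exact Int.prime_three.dvd_of_dvd_pow this

end Cfsg.Agent.H6.UL
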