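import Cfsg.Agent.H6.UL3
import Cfsg.Agent.H1.URf

/-! Rank 3 actions of unitary groups: existence of involution lines. -/

set_option autoImplicit false
set_option linter.unusedSectionVars false

namespace Cfsg.Agent.H6.UL

open Cfsg.Agent.H1 Cfsg.Agent.H1.UR Module H5
open scoped Classical

variable {F : Type*} [Field F] {σ : F →+* F} {E : Type*} [AddCommGroup E] [Module F E]
  [FiniteDimensional F E] {B : Sesq σ E} (hB : IsEps B 1) [Fintype F] [Fintype E] {q : ℕ} (hU : UF σ q)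
variable {X : Type*} [MulAction (SUb B) X] [Fintype X] {adj : X → X → Prop} {ω : X}
variable {r d : ℕ} {g : SUb B}

include hU in
theorem Ln_exists (hs : Sit B adj ω) (ht : TF hB ω) (hp : Pd q (finrank F E) r d) (h2 : (2 : F) ≠ 0)
    (hg : TA B ω r g) (hrel : ∀ y y' : UR.TI B 1, y.1 ≤ UR.fx B g → y'.1 ≤ UR.fx B g → UR.Rel B ω y y')
    {u : E} (hu : u ∈ UR.fx B g) (u0 : u ≠ 0) (he : B u u = 0) : ∃ l, Ln B ω l ∧ u ∈ l ∧ l ≤ UR.fx B g :=
  Ln_exists_of hB hU hs ht hp h2 hg (Pd.fx_spec hB hU hp hg.ord (Or.inl hg.ne))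
    (fun _ _ hx hy _ ha ha' => Pd.syl hB hU hp hg hx hy ha ha')
    (fun _ _ hx hy _ ha ha' => Pd.syl hB hU hp hg hx hy ha ha') (Pd.exists_N hB hU hp hg) hrel hu u0 he

end Cfsg.Agent.H6.UL
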