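import Cfsg.Agent.H6.UN1
import Cfsg.Agent.H1.URc

/-! Integer numerics for rank 3 actions of six-dimensional unitary groups, second part. -/

set_option autoImplicit false

namespace Cfsg.Agent.H6.UN

open Cfsg.Agent.H1.UR

variable {N θ₀ θ f k₁ k₂ μ ρ s β γ q a : ℤ}

theorem dvd_eq {m a b : ℤ} (h : m ∣ a) (e : b = a) : m ∣ b := e ▸ h

def chkE (q Φ : ℕ) : ℕ → Bool
  | 0 => true
  | t + 1 => (3 * (q ^ 3 - 1) * (q ^ 6 - q ^ 5 - q ^ 3 + q - 2 - (q + Φ * t)) %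
      (q ^ 5 * (q + Φ * t) - q ^ 3 - 1) != 0) && chkE q Φ t

theorem chkE_sound {q Φ n : ℕ} (h : chkE q Φ n = true) {t : ℕ} (ht : t < n) :
    3 * (q ^ 3 - 1) * (q ^ 6 - q ^ 5 - q ^ 3 + q - 2 - (q + Φ * t)) %
      (q ^ 5 * (q + Φ * t) - q ^ 3 - 1) ≠ 0 := by
  induction n with
  | zero => omega
  | succ n ih =>
    simp only [chkE, Bool.and_eq_true, bne_iff_ne] at h
    rcases (by omega : t = n ∨ t < n) with rfl | h1
    · exact h.1
    · exact ih h.2 h1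

theorem smallE {q Φ n : ℕ} (h : chkE q Φ n = true) (hq : 5 ≤ q) (hn : 3 * q ^ 4 ≤ Φ * n) {j x : ℤ}
    (hx : (q : ℤ) ≤ x) (hd : (Φ : ℤ) ∣ x - q) (hlt : x < 3 * q ^ 4)
    (e : j * (q ^ 5 * x - q ^ 3 - 1) = 3 * (q ^ 3 - 1) * (q ^ 6 - q ^ 5 - q ^ 3 + q - 2 - x)) : False := by
  obtain ⟨t, ht⟩ := hd
  have hΦ : 0 < Φ := by
    rcases Nat.eq_zero_or_pos Φ with rfl | h
    · have : 0 < q ^ 4 := by positivity
      omega
    · exact h
  have t0 : 0 ≤ t := by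
    by_contra hc
    have : (Φ : ℤ) * t < 0 := mul_neg_of_pos_of_neg (by exact_mod_cast hΦ) (not_le.1 hc)
    linarith
  lift t to ℕ using t0
  obtain rfl : x = ((q + Φ * t : ℕ) : ℤ) := by push_cast; linarith
  have hlt' : q + Φ * t < 3 * q ^ 4 := by exact_mod_cast hlt
  have tn : t < n := by
    by_contra hc
    have := Nat.mul_le_mul_left Φ (not_lt.1 hc)
    omega
  apply chkE_sound h tn
  generalize q + Φ * t = x at *
  have hx' : q ≤ x := by exact_mod_cast hx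
  have q1 : 5 * q ≤ q ^ 2 := by nlinarith
  have q2 : 5 * q ^ 2 ≤ q ^ 3 := by nlinarith
  have q3 : 5 * q ^ 3 ≤ q ^ 4 := by nlinarith
  have q4 : 5 * q ^ 4 ≤ q ^ 5 := by nlinarith
  have q5 : 5 * q ^ 5 ≤ q ^ 6 := by nlinarith
  have q6 : q ^ 5 * 1 ≤ q ^ 5 * x := Nat.mul_le_mul_left _ (by omega)
  apply Nat.mod_eq_zero_of_dvd
  rw [← Int.natCast_dvd_natCast]
  refine ⟨j, ?_⟩
  have a1 : ((q ^ 5 * x - q ^ 3 - 1 : ℕ) : ℤ) = q ^ 5 * x - q ^ 3 - 1 := by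
    rw [Nat.cast_sub (by omega), Nat.cast_sub (by omega)]; push_cast; ring
  have a2 : ((q ^ 6 - q ^ 5 - q ^ 3 + q - 2 - x : ℕ) : ℤ) = q ^ 6 - q ^ 5 - q ^ 3 + q - 2 - x := by
    rw [Nat.cast_sub (by omega), Nat.cast_sub (by omega), Nat.cast_add, Nat.cast_sub (by omega),
      Nat.cast_sub (by omega)]; push_cast; ring
  have a3 : ((q ^ 3 - 1 : ℕ) : ℤ) = q ^ 3 - 1 := by rw [Nat.cast_sub (by omega)]; push_cast; ring
  rw [Nat.cast_mul, Nat.cast_mul, a1, a2, a3]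
  push_cast
  linear_combination -e

theorem core6E {ε x j Φ : ℤ} (hq : 3 ≤ q) (he : ε = 1 ∨ (ε = 3 ∧ 5 ≤ q ∧ 3 ∣ q + 1))
    (h : ε * Φ = q ^ 2 - q + 1) (hx : q ≤ x) (hj : 0 ≤ j) (dx : Φ ∣ x - q)
    (e : j * (q ^ 5 * x - q ^ 3 - 1) = ε * (q ^ 3 - 1) * (q ^ 6 - q ^ 5 - q ^ 3 + q - 2 - x)) : False := by
  have qp : 0 < q := by omega
  have q2 : 3 * q ≤ q ^ 2 := by nlinarith
  have q3 : 3 * q ^ 2 ≤ q ^ 3 := by nlinarith
  have q4 : 3 * q ^ 3 ≤ q ^ 4 := by nlinarith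
  have q5 : 3 * q ^ 4 ≤ q ^ 5 := by nlinarith
  have q6 : 3 * q ^ 5 ≤ q ^ 6 := by nlinarith
  have e1 : 1 ≤ ε := by rcases he with h | h <;> omega
  obtain ⟨t, ht⟩ := dx
  obtain rfl : x = q + Φ * t := by linarith
  have dφ : Φ ∣ q ^ 2 - q + 1 := ⟨ε, by rw [← h]; ring⟩
  have dj : Φ ∣ j + 2 * ε * (q - 1) := by
    have h1 : Φ ∣ (q ^ 2 - q + 1) * (-j * (q + 1) * (q ^ 3 - 2) +
        ε * (q ^ 7 - q ^ 5 - 3 * q ^ 4 - q ^ 3 + 2 * q ^ 2 + 2 * q)) := dφ.mul_right _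
    have h2 : Φ ∣ Φ * (t * (-j * q ^ 5 - ε * (q ^ 3 - 1))) := dvd_mul_right _ _
    have h3 := dvd_add h1 h2
    refine dvd_eq h3 ?_
    linear_combination e
  have hr : j + ε * (q + Φ * t) - ε * (q - 2) = q ^ 3 * (j * q ^ 2 * (q + Φ * t) - j -
      ε * (q ^ 6 - q ^ 5 - q ^ 3 + q - 2 - (q + Φ * t)) + ε * (q ^ 3 - q ^ 2 - 1)) := by
    linear_combination -e
  generalize (j * q ^ 2 * (q + Φ * t) - j -
      ε * (q ^ 6 - q ^ 5 - q ^ 3 + q - 2 - (q + Φ * t)) + ε * (q ^ 3 - q ^ 2 - 1)) = r at hr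
  have dr : Φ ∣ 2 * ε * (q - 2) - r := by
    have h1 : Φ ∣ (q ^ 2 - q + 1) * ((q + 1) * r) := dφ.mul_right _
    have h2 : Φ ∣ Φ * (t * ε) := dvd_mul_right _ _
    have h3 := dvd_sub (dvd_add dj h2) h1
    refine dvd_eq h3 ?_
    linear_combination -hr
  generalize q + Φ * t = x at *
  have b1 : j * x < ε * q ^ 4 := by
    by_contra hc
    have h1 : ε * q ^ 4 ≤ j * x := not_lt.1 hc
    have h2 : j * (q ^ 5 * x - q ^ 4 * x) ≤ j * (q ^ 5 * x - q ^ 3 - 1) := by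
      apply mul_le_mul_of_nonneg_left _ hj
      have : q ^ 4 * q ≤ q ^ 4 * x := mul_le_mul_of_nonneg_left hx (by positivity)
      nlinarith
    have h3 : (q ^ 5 - q ^ 4) * (ε * q ^ 4) ≤ (q ^ 5 - q ^ 4) * (j * x) :=
      mul_le_mul_of_nonneg_left h1 (by linarith)
    have h4 : (q ^ 3 - 1) * (q ^ 6 - q ^ 5 - q ^ 3 + q - 2 - x) < q ^ 3 * (q ^ 6 - q ^ 5) := by
      by_cases h5 : 0 ≤ q ^ 6 - q ^ 5 - q ^ 3 + q - 2 - x
      · exact mul_lt_mul'' (by linarith) (by linarith) (by linarith) h5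
      · have := mul_nonpos_of_nonneg_of_nonpos (by linarith : 0 ≤ q ^ 3 - 1) (not_le.1 h5).le
        have : 0 < q ^ 3 * (q ^ 6 - q ^ 5) := mul_pos (by positivity) (by linarith)
        linarith
    have h5 := mul_lt_mul_of_pos_left h4 (by omega : 0 < ε)
    nlinarith
  have big : ε * q ≤ j → ¬ (2 * ε * (q - 2) < Φ) := fun hj hΦ => by
    have h1 := mul_nonneg (sub_nonneg.2 hj) (sub_nonneg.2 hx)
    have h2 : q * (j + ε * x) < q * (ε * q ^ 3 + ε * q) := by nlinarith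
    have h3 : j + ε * x < ε * q ^ 3 + ε * q := lt_of_mul_lt_mul_left h2 qp.le
    have r0 : 0 ≤ r := by
      by_contra hc
      have : q ^ 3 * r ≤ q ^ 3 * (-1) := mul_le_mul_of_nonneg_left (by omega) (by positivity)
      have : ε * q ≤ ε * x := mul_le_mul_of_nonneg_left hx (by omega)
      nlinarith
    have r1 : r ≤ ε := by
      by_contra hc
      have : q ^ 3 * (ε + 1) ≤ q ^ 3 * r := mul_le_mul_of_nonneg_left (by omega) (by positivity)
      rcases he with rfl | ⟨rfl, -⟩ <;> nlinarith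
    refine no_mult dr ?_ (by linarith)
    rcases he with rfl | ⟨rfl, -⟩ <;> linarith
  have low : 2 * ε * (q - 1) < Φ → Φ - 2 * ε * (q - 1) ≤ j := fun hΦ => by
    have := Int.le_of_dvd (by nlinarith) dj
    linarith
  rcases he with rfl | ⟨rfl, h5, h3⟩
  · obtain rfl : Φ = q ^ 2 - q + 1 := by linarith
    exact big (by have := low (by linarith); nlinarith) (by linarith)
  · by_cases h29 : 29 ≤ q
    · exact big (by have := low (by nlinarith); nlinarith) (by nlinarith)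
    · have j1 : 1 ≤ j := by
        rcases hj.eq_or_lt with rfl | hj
        · exfalso
          obtain ⟨z, hz⟩ := dj
          obtain rfl | rfl | rfl | rfl | rfl | rfl | rfl | rfl :
            q = 5 ∨ q = 8 ∨ q = 11 ∨ q = 14 ∨ q = 17 ∨ q = 20 ∨ q = 23 ∨ q = 26 := by omega
          · obtain rfl : Φ = 7 := by omega
            omega
          · obtain rfl : Φ = 19 := by omega
            omega
          · obtain rfl : Φ = 37 := by omega
            omega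
          · obtain rfl : Φ = 61 := by omega
            omega
          · obtain rfl : Φ = 91 := by omega
            omega
          · obtain rfl : Φ = 127 := by omega
            omega
          · obtain rfl : Φ = 169 := by omega
            omega
          · obtain rfl : Φ = 217 := by omega
            omega
        · exact hj
      have xl : x < 3 * q ^ 4 := by nlinarith
      have dx : Φ ∣ x - q := ⟨t, ht⟩
      clear big low b1 dr hr dj dφ ht q2 q3 q4 q5 q6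
      obtain rfl | rfl | rfl | rfl | rfl | rfl | rfl | rfl :
        q = 5 ∨ q = 8 ∨ q = 11 ∨ q = 14 ∨ q = 17 ∨ q = 20 ∨ q = 23 ∨ q = 26 := by omega
      · obtain rfl : Φ = 7 := by omega
        exact smallE (q := 5) (Φ := 7) (n := 268) (by decide +kernel) (by norm_num) (by norm_num) hx dx xl e
      · obtain rfl : Φ = 19 := by omega
        exact smallE (q := 8) (Φ := 19) (n := 647) (by decide +kernel) (by norm_num) (by norm_num) hx dx xl e
      · obtain rfl : Φ = 37 := by omega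
        exact smallE (q := 11) (Φ := 37) (n := 1188) (by decide +kernel) (by norm_num) (by norm_num) hx dx xl e
      · obtain rfl : Φ = 61 := by omega
        exact smallE (q := 14) (Φ := 61) (n := 1890) (by decide +kernel) (by norm_num) (by norm_num) hx dx xl e
      · obtain rfl : Φ = 91 := by omega
        exact smallE (q := 17) (Φ := 91) (n := 2754) (by decide +kernel) (by norm_num) (by norm_num) hx dx xl e
      · obtain rfl : Φ = 127 := by omega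
        exact smallE (q := 20) (Φ := 127) (n := 3780) (by decide +kernel) (by norm_num) (by norm_num) hx dx xl e
      · obtain rfl : Φ = 169 := by omega
        exact smallE (q := 23) (Φ := 169) (n := 4968) (by decide +kernel) (by norm_num) (by norm_num) hx dx xl e
      · obtain rfl : Φ = 217 := by omega
        exact smallE (q := 26) (Φ := 217) (n := 6318) (by decide +kernel) (by norm_num) (by norm_num) hx dx xl e

theorem num6E (hq : 3 ≤ q) (hk : a * N = θ₀ + a + f * (θ + a)) (hle : f + 1 ≤ N)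
    (h0 : θ₀ = (q ^ 3 - 1) * (q ^ 2 - q + 1) * (q ^ 5 + 1)) (hθ : θ = -(q - 1) * (q ^ 6 - q ^ 5 - q ^ 2 - 1))
    (hf : f = q ^ 3 * (q ^ 2 + q + 1) * (q ^ 4 - q ^ 3 + q ^ 2 - q + 1)) (hN : q ^ 5 ∣ N) (hΦ : PhiD q N) :
    False := by
  obtain ⟨ε, Φ, he, h, hΦ⟩ := hΦ
  obtain ⟨p7, pq, e1, e3, -⟩ := phi_ge hq he h
  obtain ⟨y, hy⟩ := mul_form h hN hΦ
  have qp : 0 < q := by omega
  have q2 : 3 * q ≤ q ^ 2 := by nlinarith
  have q3 : 3 * q ^ 2 ≤ q ^ 3 := by nlinarith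
  have q4 : 3 * q ^ 3 ≤ q ^ 4 := by nlinarith
  have q5 : 3 * q ^ 4 ≤ q ^ 5 := by nlinarith
  have q6 : 3 * q ^ 5 ≤ q ^ 6 := by nlinarith
  obtain ⟨x, hx⟩ : ∃ x, x = Φ * y - (q ^ 4 + q ^ 2 - q + 1) := ⟨_, rfl⟩
  have dx : Φ ∣ x - q := ⟨y - ε * (q ^ 2 + q + 1), by rw [hx]; linear_combination (q ^ 2 + q + 1) * h⟩
  have hg : N - 1 - f = q ^ 5 * x - q ^ 3 - 1 := by rw [hy, hf, hx]; ring
  obtain ⟨g, hg'⟩ : ∃ g, g = q ^ 5 * x - q ^ 3 - 1 := ⟨_, rfl⟩
  obtain ⟨D, hD⟩ : ∃ D, D = q ^ 6 - q ^ 5 - q ^ 3 - 1 := ⟨_, rfl⟩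
  have k1 : -a * g = Φ * (ε * (q ^ 5 + 1) * (q ^ 3 - 1) * D) := by
    rw [hg', ← hg]
    have : f * θ = -θ₀ * (D + 1) := by rw [hf, hθ, h0, hD]; ring
    linear_combination -hk - this + D * h0 - (q ^ 5 + 1) * (q ^ 3 - 1) * D * h
  have Dp : 0 < D := by linarith
  have Rp : 0 < ε * (q ^ 5 + 1) * (q ^ 3 - 1) * D := by
    have : 0 < q ^ 3 - 1 := by linarith
    positivity
  have gp : 0 < g := by
    refine lt_of_le_of_ne (by linarith) fun e => ?_
    rw [← e, mul_zero] at k1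
    exact absurd k1 (mul_pos (by omega) Rp).ne
  have c1 : IsCoprime Φ g := by
    obtain ⟨t, ht⟩ := dx
    exact ⟨-(q ^ 5 * t + ε * (q + 1) * (q ^ 3 - 2)), 1, by
      rw [hg']; linear_combination q ^ 5 * ht - (q + 1) * (q ^ 3 - 2) * h⟩
  obtain ⟨k, hk'⟩ : Φ ∣ -a := c1.dvd_of_dvd_mul_right ⟨_, k1⟩
  have k2 : k * g = ε * (q ^ 5 + 1) * (q ^ 3 - 1) * D := by
    apply mul_left_cancel₀ (by omega : Φ ≠ 0)
    linear_combination k1 - g * hk'
  have kp : 0 < k := by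
    by_contra hc
    have := mul_nonpos_of_nonpos_of_nonneg (not_lt.1 hc) gp.le
    linarith
  have c2 : IsCoprime (q ^ 5) g := IsCoprime.pow_left ⟨q ^ 4 * x - q ^ 2, -1, by rw [hg']; ring⟩
  obtain ⟨j, hj⟩ : q ^ 5 ∣ k - ε * (q ^ 3 - 1) :=
    c2.dvd_of_dvd_mul_right ⟨ε * (q ^ 3 - 1) * (D + q - 1 - x), by
      rw [hD] at k2 ⊢; linear_combination k2 - ε * (q ^ 3 - 1) * hg'⟩
  have xp : 1 ≤ x := by
    by_contra hc
    have := mul_nonpos_of_nonneg_of_nonpos (by positivity : 0 ≤ q ^ 5) (by omega : x ≤ 0)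
    linarith
  refine core6E (x := x) (j := j) hq ?_ h ?_ ?_ dx ?_
  · rcases he with h | h
    · exact Or.inl h.1
    · exact Or.inr ⟨h.1, by omega, h.2⟩
  · by_contra hc
    exact no_mult (dvd_neg.2 dx) (by linarith) (by linarith)
  · by_contra hc
    have : q ^ 5 * j ≤ q ^ 5 * (-1) := mul_le_mul_of_nonneg_left (by omega) (by positivity)
    have : ε * (q ^ 3 - 1) ≤ 3 * (q ^ 3 - 1) := mul_le_mul_of_nonneg_right e3 (by linarith)
    linarith
  · apply mul_left_cancel₀ (by positivity : q ^ 5 ≠ 0)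
    rw [hD, hg'] at k2
    linear_combination k2 - (q ^ 5 * x - q ^ 3 - 1) * hj

theorem endZ1 (hq : 3 ≤ q) (h : (q ^ 5 * (q ^ 2 - q + 1) - 1 * (q ^ 3 - 1)) * (q ^ 2 + 1) <
    1 * ((q ^ 3 - 1) * (q ^ 5 + 1))) : False := by
  obtain ⟨z, rfl⟩ : ∃ z, q = z + 3 := ⟨q - 3, by ring⟩
  have : 0 ≤ z := by linarith
  rw [← sub_neg] at h
  ring_nf at h
  refine absurd h (not_lt.2 (by positivity))

theorem endZ3 (hq : 11 ≤ q) (h : (q ^ 5 * (q ^ 2 - q + 1) - 9 * (q ^ 3 - 1)) * (q ^ 2 + 1) <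
    9 * ((q ^ 3 - 1) * (q ^ 5 + 1))) : False := by
  obtain ⟨z, rfl⟩ : ∃ z, q = z + 11 := ⟨q - 11, by ring⟩
  have : 0 ≤ z := by linarith
  rw [← sub_neg] at h
  ring_nf at h
  refine absurd h (not_lt.2 (by positivity))

set_option maxHeartbeats 800000 in
theorem num6Z (h : SN N θ₀ θ f k₁ k₂ μ ρ s β γ) (hq : 3 ≤ q)
    (h0 : θ₀ = (q ^ 3 - 1) * (q ^ 2 - q + 1) * (q ^ 5 + 1)) (hθ : θ = (q - 1) * (q ^ 2 + 1) * (q ^ 3 + 1))
    (hf : f = q ^ 6 * (q ^ 2 + q + 1) * (q ^ 4 - q ^ 3 + q ^ 2 - q + 1)) (hN : q ^ 5 ∣ N) (hΦ : PhiD q N) :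
    False := by
  obtain ⟨ε, Φ, he, hp, hΦ⟩ := hΦ
  obtain ⟨p7, pq, e1, e3, e5⟩ := phi_ge hq he hp
  obtain ⟨y, hy⟩ := mul_form hp hN hΦ
  have qp : 0 < q := by omega
  have q2 : 3 * q ≤ q ^ 2 := by nlinarith
  have q3 : 3 * q ^ 2 ≤ q ^ 3 := by nlinarith
  have q4 : 3 * q ^ 3 ≤ q ^ 4 := by nlinarith
  have q5 : 3 * q ^ 4 ≤ q ^ 5 := by nlinarith
  have q6 : 3 * q ^ 5 ≤ q ^ 6 := by nlinarith
  obtain ⟨T, hT⟩ : ∃ T, T = q ^ 4 - q ^ 3 + q ^ 2 - q + 1 := ⟨_, rfl⟩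
  have Tp : 0 < T := by linarith
  have h0' : θ₀ = (q ^ 6 - 1) * T := by rw [h0, hT]; ring
  have hf' : f = q ^ 6 * (q ^ 2 + q + 1) * T := by rw [hf, hT]
  have fθ : θ₀ < f := by
    rw [h0', hf']
    refine mul_lt_mul_of_pos_right ?_ Tp
    have : q ^ 6 * 1 ≤ q ^ 6 * (q ^ 2 + q + 1) := mul_le_mul_of_nonneg_left (by linarith) (by positivity)
    linarith
  have θp : 0 < θ₀ := by rw [h0']; exact mul_pos (by linarith) Tp
  have k1p : 1 ≤ k₁ := by
    have := mul_nonneg h.rho.le h.s0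
    linarith [h.h2, h.mu]
  obtain ⟨g, hg⟩ : ∃ g, g = N - 1 - f := ⟨_, rfl⟩
  have gs : g * s = k₁ + f * ρ := by rw [hg]; linear_combination -h.h4
  have fρ : 0 < f * ρ := mul_pos (by linarith) h.rho
  have gp : 0 < g := by
    by_contra hc
    have := mul_nonpos_of_nonpos_of_nonneg (not_lt.1 hc) h.s0
    linarith
  have γ0 : γ = 0 := by
    by_contra hc
    have g1 : 1 ≤ γ := by have := h.g0; omega
    have h1 : 1 * k₁ ≤ β * k₁ := mul_le_mul_of_nonneg_right (by linarith [h.lt]) (by linarith)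
    have h2 : 1 * k₂ ≤ γ * k₂ := mul_le_mul_of_nonneg_right g1 h.k2
    linarith [h.h5, h.h1]
  subst γ0
  have βp : 0 < β := h.lt
  have key : β * s * g = θ₀ * (q ^ 8 + q ^ 6 + 1) := by
    have : f * θ = θ₀ * (q ^ 8 + q ^ 6) := by rw [hf, hθ, h0]; ring
    linear_combination β * gs - h.h5 - f * h.h6 + this
  have lt : θ * s < θ₀ := by
    have h2 : θ₀ - θ * s = β * μ := by linear_combination h.h5 - s * h.h6 + β * h.h2
    have := mul_pos βp (by linarith [h.mu] : 0 < μ)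
    linarith
  have d1 : β ∣ θ₀ := ⟨k₁, by linear_combination h.h5⟩
  have d2 : β ∣ θ := ⟨ρ, by linear_combination h.h6⟩
  have d3 : β ∣ (q - 1) * (q ^ 3 + 1) := by
    have := dvd_sub (d2.mul_right (1 + q * (q ^ 4 - q + 1))) (d1.mul_right q)
    refine dvd_eq this ?_
    rw [h0, hθ]; ring
  have βl : β ≤ (q - 1) * (q ^ 3 + 1) := Int.le_of_dvd (mul_pos (by linarith) (by positivity)) d3
  have al : β * s * (q ^ 2 + 1) < θ₀ := by
    have := mul_le_mul_of_nonneg_right βl (mul_nonneg h.s0 (by positivity : 0 ≤ q ^ 2 + 1))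
    rw [hθ] at lt
    linarith
  have dφ : Φ ∣ q ^ 2 - q + 1 := ⟨ε, by rw [← hp]; ring⟩
  have dg : Φ ∣ g + 3 := by
    have h1 : Φ ∣ (q ^ 2 - q + 1) * (q ^ 10 + q ^ 9 + q ^ 8 - q ^ 7 - q ^ 6 + 2 * q ^ 4 + 2 * q ^ 3 -
      2 * q - 2) := dφ.mul_right _
    have := dvd_sub hΦ h1
    refine dvd_eq this ?_
    rw [hg, hf]; ring
  have c3 : IsCoprime Φ 3 := by
    have : ¬ (3 : ℤ) ∣ Φ := by
      rintro ⟨z, rfl⟩
      rcases he with ⟨rfl, h3⟩ | ⟨rfl, u, hu⟩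
      · have : (3 : ℤ) ∣ (q + 1) ^ 2 := ⟨z + q, by linear_combination -hp⟩
        exact h3 (Int.prime_three.dvd_of_dvd_pow this)
      · obtain rfl : q = 3 * u - 1 := by linarith
        have : 3 * (z - u ^ 2 + u) = 1 := by linarith
        omega
    exact ((Int.prime_three.irreducible.coprime_iff_not_dvd).2 this).symm
  have c1 : IsCoprime Φ g := by
    obtain ⟨z, hz⟩ := dg
    obtain ⟨u, v, huv⟩ := c3
    exact ⟨u + v * z, -v, by linear_combination huv - v * hz⟩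
  have k1 : β * s * g = Φ * (ε * (q ^ 5 + 1) * (q ^ 3 - 1) * (q ^ 8 + q ^ 6 + 1)) := by
    rw [key, h0, ← hp]; ring
  obtain ⟨k, hk⟩ : Φ ∣ β * s := c1.dvd_of_dvd_mul_right ⟨_, k1⟩
  have k2 : k * g = ε * (q ^ 5 + 1) * (q ^ 3 - 1) * (q ^ 8 + q ^ 6 + 1) := by
    apply mul_left_cancel₀ (by omega : Φ ≠ 0)
    linear_combination k1 - g * hk
  have kp : 0 < k := by
    by_contra hc
    have h1 := mul_nonpos_of_nonpos_of_nonneg (not_lt.1 hc) gp.le
    have : 0 < q ^ 3 - 1 := by linarith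
    have : 0 < ε * (q ^ 5 + 1) * (q ^ 3 - 1) * (q ^ 8 + q ^ 6 + 1) := by positivity
    linarith
  obtain ⟨j, hj⟩ : q ^ 5 ∣ k + ε * (q ^ 3 - 1) :=
    ⟨k * (Φ * y - q * (q ^ 2 + q + 1) * T) - ε * (q ^ 3 - 1) * (q ^ 8 + q ^ 6 + 1 + q ^ 3 + q), by
      rw [hg, hy, hf'] at k2; linear_combination -k2⟩
  have dk : Φ ∣ k - 2 * ε := by
    refine c3.dvd_of_dvd_mul_left ?_
    have h1 : Φ ∣ (q ^ 2 - q + 1) * (ε * (q ^ 14 + q ^ 13 + q ^ 12 - q ^ 11 - 2 * q ^ 10 - q ^ 9 + q ^ 8 +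
      3 * q ^ 7 + 2 * q ^ 6 - q ^ 5 - 4 * q ^ 4 - 4 * q ^ 3 + 5 * q + 5)) := dφ.mul_right _
    have := dvd_sub (dg.mul_left k) h1
    refine dvd_eq this ?_
    linear_combination -k2
  obtain ⟨i, rfl⟩ : Φ ∣ j := by
    refine (cop_q hp 5).symm.dvd_of_dvd_mul_left ?_
    have := dvd_add dk (dφ.mul_right (ε * (q + 1)))
    refine dvd_eq this ?_
    linear_combination -hj
  have ip : 1 ≤ i := by
    by_contra hc
    have h1 : q ^ 5 * (Φ * i) ≤ 0 := mul_nonpos_of_nonneg_of_nonpos (by positivity)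
      (mul_nonpos_of_nonneg_of_nonpos (by omega) (by omega))
    have : 0 ≤ ε * (q ^ 3 - 1) := mul_nonneg (by omega) (by linarith)
    linarith
  have kl : k * (q ^ 2 + 1) < ε * ((q ^ 3 - 1) * (q ^ 5 + 1)) := by
    refine lt_of_mul_lt_mul_left (a := Φ) ?_ (by omega)
    rw [h0, ← hp, hk] at al
    linarith
  obtain rfl : k = q ^ 5 * (Φ * i) - ε * (q ^ 3 - 1) := by linarith
  have l1 : q ^ 5 * (Φ * 1) ≤ q ^ 5 * (Φ * i) :=
    mul_le_mul_of_nonneg_left (mul_le_mul_of_nonneg_left ip (by omega)) (by positivity)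
  have l2 : (q ^ 5 * Φ - ε * (q ^ 3 - 1)) * (q ^ 2 + 1) < ε * ((q ^ 3 - 1) * (q ^ 5 + 1)) :=
    lt_of_le_of_lt (mul_le_mul_of_nonneg_right (by linarith) (by positivity)) kl
  rcases he with ⟨rfl, -⟩ | ⟨rfl, h3⟩
  · obtain rfl : Φ = q ^ 2 - q + 1 := by linarith
    exact endZ1 hq l2
  · by_cases h11 : 11 ≤ q
    · have : (q ^ 5 * (3 * Φ) - 9 * (q ^ 3 - 1)) * (q ^ 2 + 1) < 9 * ((q ^ 3 - 1) * (q ^ 5 + 1)) := by linarith
      rw [hp] at this
      exact endZ3 h11 this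
    · obtain rfl | rfl : q = 5 ∨ q = 8 := by omega
      · obtain rfl : Φ = 7 := by omega
        obtain rfl | rfl : i = 1 ∨ i = 2 := by omega
        · norm_num at k2; omega
        · norm_num at k2; omega
      · obtain rfl : Φ = 19 := by omega
        obtain rfl : i = 1 := by omega
        norm_num at k2; omega

end Cfsg.Agent.H6.UN
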