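import Cfsg.Agent.H1.OmGen
import Cfsg.Agent.H9.AH0

/-! The second elementary symmetric function of an endomorphism and polynomial functions of three variables. -/

set_option autoImplicit false
set_option linter.unusedSectionVars false

namespace Cfsg.Agent.H6.AO

open Module Finset

section D

variable {R S : Type*} [CommRing R] [CommRing S] {n : ℕ}

/-- Sum of the principal `2 × 2` minors. -/
def D2 (M : Matrix (Fin n) (Fin n) R) : R :=
  ∑ i, ∑ j, if i < j then M i i * M j j - M i j * M j i else 0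

theorem sum_lt (h : Fin n → Fin n → R) (h0 : ∀ i, h i i = 0) :
    ∑ i, ∑ j, h i j = ∑ i, ∑ j, if i < j then h i j + h j i else 0 := by
  have e1 : ∀ i j, h i j = (if i < j then h i j else 0) + (if j < i then h i j else 0) := fun i j => by
    rcases lt_trichotomy i j with k | k | k
    · simp [k, not_lt.2 k.le]
    · simp [k, h0]
    · simp [k, not_lt.2 k.le]
  have e2 : ∀ i j : Fin n, (if i < j then h i j + h j i else 0) =
      (if i < j then h i j else 0) + (if i < j then h j i else 0) := fun i j => by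
    split_ifs <;> simp
  rw [Finset.sum_congr rfl fun i _ => Finset.sum_congr rfl fun j _ => e1 i j]
  simp only [e2, sum_add_distrib]
  rw [Finset.sum_comm (f := fun i j => if j < i then h i j else 0)]

theorem tr_tr (M N : Matrix (Fin n) (Fin n) R) :
    M.trace * N.trace - (M * N).trace = ∑ i, ∑ j, (M i i * N j j - M i j * N j i) := by
  simp only [Matrix.trace, Matrix.diag, Matrix.mul_apply, sum_sub_distrib, sum_mul_sum]

theorem D2_add (M N : Matrix (Fin n) (Fin n) R) :
    D2 (M + N) = D2 M + D2 N + (M.trace * N.trace - (M * N).trace) := by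
  rw [tr_tr, sum_lt _ (fun i => sub_self _)]
  simp only [D2, ← sum_add_distrib, Matrix.add_apply]
  refine sum_congr rfl fun i _ => sum_congr rfl fun j _ => ?_
  split_ifs <;> ring

theorem two_D2 (M : Matrix (Fin n) (Fin n) R) : 2 * D2 M = M.trace * M.trace - (M * M).trace := by
  rw [tr_tr, sum_lt _ (fun i => sub_self _)]
  simp only [D2, mul_sum]
  refine sum_congr rfl fun i _ => sum_congr rfl fun j _ => ?_
  split_ifs <;> ring

theorem D2_map (f : R →+* S) (M : Matrix (Fin n) (Fin n) R) : D2 (M.map f) = f (D2 M) := by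
  simp only [D2, map_sum, Matrix.map_apply]
  refine sum_congr rfl fun i _ => sum_congr rfl fun j _ => ?_
  split_ifs <;> simp

theorem D2_comm (M N : Matrix (Fin n) (Fin n) R) : D2 (M * N) = D2 (N * M) := by
  let A : Matrix (Fin n) (Fin n) (MvPolynomial (Bool × Fin n × Fin n) ℤ) :=
    Matrix.of fun i j => MvPolynomial.X (true, i, j)
  let B : Matrix (Fin n) (Fin n) (MvPolynomial (Bool × Fin n × Fin n) ℤ) :=
    Matrix.of fun i j => MvPolynomial.X (false, i, j)
  let f : MvPolynomial (Bool × Fin n × Fin n) ℤ →+* R :=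
    MvPolynomial.eval₂Hom (Int.castRingHom R) fun p => if p.1 then M p.2.1 p.2.2 else N p.2.1 p.2.2
  have hA : A.map f = M := by ext i j; simp [A, f]
  have hB : B.map f = N := by ext i j; simp [B, f]
  have : D2 (A * B) = D2 (B * A) := mul_left_cancel₀ two_ne_zero (by
    rw [two_D2, two_D2, Matrix.trace_mul_comm A B, mul_assoc A B, Matrix.trace_mul_comm A, mul_assoc B (A * B),
      mul_assoc A B A, mul_assoc B A])
  rw [← hA, ← hB, ← Matrix.map_mul, ← Matrix.map_mul, D2_map, D2_map, this]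

end D

variable {F : Type*} [Field F] {E : Type*} [AddCommGroup E] [Module F E] [FiniteDimensional F E]

/-- The second elementary symmetric function of the eigenvalues. -/
noncomputable def e2 (f : Module.End F E) : F := D2 (LinearMap.toMatrix (finBasis F E) (finBasis F E) f)

theorem e2_comm (f g : Module.End F E) : e2 (f * g) = e2 (g * f) := by
  simp only [e2, LinearMap.toMatrix_mul]
  exact D2_comm _ _

theorem e2_add (f g : Module.End F E) : e2 (f + g) = e2 f + e2 g +
    (LinearMap.trace F E f * LinearMap.trace F E g - LinearMap.trace F E (f * g)) := by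
  simp only [e2, map_add, D2_add, LinearMap.trace_eq_matrix_trace F (finBasis F E), LinearMap.toMatrix_mul]

theorem e2_smul (c : F) (f : Module.End F E) : e2 (c • f) = c ^ 2 * e2 f := by
  simp only [e2, D2, map_smul, Matrix.smul_apply, smul_eq_mul, mul_sum]
  refine sum_congr rfl fun i _ => sum_congr rfl fun j _ => ?_
  split_ifs <;> ring

theorem e2_one (φ : E →ₗ[F] F) (u : E) : e2 (φ.smulRight u) = 0 := by
  simp only [e2, D2, LinearMap.toMatrix_apply, LinearMap.smulRight_apply, map_smul, Finsupp.smul_apply, smul_eq_mul]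
  refine sum_eq_zero fun i _ => sum_eq_zero fun j _ => ?_
  split_ifs <;> ring

theorem e2_two (φ ψ : E →ₗ[F] F) (u w : E) :
    e2 (φ.smulRight u + ψ.smulRight w) = φ u * ψ w - φ w * ψ u := by
  have : φ.smulRight u * ψ.smulRight w = ψ.smulRight (φ w • u) := by
    ext x; simp [smul_smul]
  rw [e2_add, e2_one, e2_one, this]
  simp only [LinearMap.trace_smulRight, map_smul, smul_eq_mul]
  ring

/-- Monomial functions. -/
def mon (a b c : ℕ) : F × F × F → F := fun v => v.1 ^ a * v.2.1 ^ b * v.2.2 ^ c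

/-- Polynomial functions of weighted degree at most `k`. -/
def PF (F : Type*) [Field F] (k : ℕ) : Submodule F (F × F × F → F) :=
  Submodule.span F {f | ∃ a b c, 2 * a + b + c ≤ k ∧ f = mon a b c}

theorem mon_mem {a b c k : ℕ} (h : 2 * a + b + c ≤ k) : (mon a b c : F × F × F → F) ∈ PF F k :=
  Submodule.subset_span ⟨a, b, c, h, rfl⟩

theorem PF_mono {j k : ℕ} (h : j ≤ k) : PF F j ≤ PF F k :=
  Submodule.span_mono fun _ ⟨a, b, c, e, e'⟩ => ⟨a, b, c, e.trans h, e'⟩

theorem PF_mul {j k : ℕ} {f g : F × F × F → F} (hf : f ∈ PF F j) (hg : g ∈ PF F k) : f * g ∈ PF F (j + k) := by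
  induction hf using Submodule.span_induction with
  | zero => simp
  | add _ _ _ _ h1 h2 => rw [add_mul]; exact add_mem h1 h2
  | smul _ _ _ h1 => rw [smul_mul_assoc]; exact Submodule.smul_mem _ _ h1
  | mem f hf =>
    induction hg using Submodule.span_induction with
    | zero => simp
    | add _ _ _ _ h1 h2 => rw [mul_add]; exact add_mem h1 h2
    | smul _ _ _ h1 => rw [mul_smul_comm]; exact Submodule.smul_mem _ _ h1
    | mem g hg =>
      obtain ⟨a, b, c, e, rfl⟩ := hf
      obtain ⟨a', b', c', e', rfl⟩ := hg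
      have : (mon a b c : F × F × F → F) * mon a' b' c' = mon (a + a') (b + b') (c + c') := by
        ext v; simp only [mon, Pi.mul_apply]; ring
      rw [this]
      exact mon_mem (by omega)

/-- Polynomial functions with values in endomorphisms. -/
structure PE (k : ℕ) (X : F × F × F → Module.End F E) : Prop where
  out : ∀ φ : Module.End F E →ₗ[F] F, (fun v => φ (X v)) ∈ PF F k

theorem PE.mono {j k : ℕ} {X : F × F × F → Module.End F E} (h : PE j X) (e : j ≤ k) : PE k X :=
  ⟨fun φ => PF_mono e (h.out φ)⟩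

theorem PE.term {a b c k : ℕ} (h : 2 * a + b + c ≤ k) (Y : Module.End F E) : PE k fun v => mon a b c v • Y :=
  ⟨fun φ => by
    have : (fun v => φ (mon a b c v • Y)) = φ Y • (mon a b c : F × F × F → F) := by
      ext v; simp [mul_comm]
    rw [this]
    exact Submodule.smul_mem _ _ (mon_mem h)⟩

theorem PE.const (k : ℕ) (Y : Module.End F E) : PE k fun _ => Y := by
  simpa [mon] using PE.term (a := 0) (b := 0) (c := 0) (k := k) (Nat.zero_le _) Y

theorem PE.add {k : ℕ} {X Y : F × F × F → Module.End F E} (h : PE k X) (h' : PE k Y) : PE k fun v => X v + Y v :=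
  ⟨fun φ => by
    simp only [map_add]
    exact add_mem (h.out φ) (h'.out φ)⟩

theorem PE.bil {j k : ℕ} {X Y : F × F × F → Module.End F E} (h : PE j X) (h' : PE k Y)
    (β : Module.End F E →ₗ[F] Module.End F E →ₗ[F] F) : (fun v => β (X v) (Y v)) ∈ PF F (j + k) := by
  let b := finBasis F (Module.End F E)
  have : (fun v => β (X v) (Y v)) = ∑ i, (fun v => b.coord i (X v)) * fun v => β (b i) (Y v) := by
    ext v
    conv_lhs => rw [← b.sum_repr (X v), map_sum, LinearMap.sum_apply]
    simp
  rw [this]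
  exact Submodule.sum_mem _ fun i _ => PF_mul (h.out _) (h'.out _)

theorem PE.mul {j k : ℕ} {X Y : F × F × F → Module.End F E} (h : PE j X) (h' : PE k Y) :
    PE (j + k) fun v => X v * Y v :=
  ⟨fun φ => h.bil h' ((LinearMap.mul F (Module.End F E)).compr₂ φ)⟩

theorem PE.four {i j k : ℕ} {X Y : F × F × F → Module.End F E} (h : PE i X) (h' : PE j Y) (A B : Module.End F E)
    (e : i + j ≤ k) : PE k fun v => A * X v * B * Y v :=
  ((((PE.const 0 A).mul h).mul (PE.const 0 B)).mul h').mono (by omega)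

theorem PE.e2 {k : ℕ} {X : F × F × F → Module.End F E} (h : PE k X) : (fun v => e2 (X v)) ∈ PF F (k + k) := by
  let m : Fin (finrank F E) → Fin (finrank F E) → Module.End F E →ₗ[F] F := fun i j =>
    (Matrix.entryLinearMap F F i j).comp (LinearMap.toMatrix (finBasis F E) (finBasis F E)).toLinearMap
  have : (fun v => AO.e2 (X v)) = ∑ i, ∑ j, if i < j then (fun v => m i i (X v)) * (fun v => m j j (X v)) -
      (fun v => m i j (X v)) * (fun v => m j i (X v)) else 0 := by
    ext v
    simp only [AO.e2, D2, Finset.sum_apply]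
    refine sum_congr rfl fun i _ => sum_congr rfl fun j _ => ?_
    split_ifs <;> simp [m]
  rw [this]
  refine Submodule.sum_mem _ fun i _ => Submodule.sum_mem _ fun j _ => ?_
  split_ifs
  · exact sub_mem (PF_mul (h.out _) (h.out _)) (PF_mul (h.out _) (h.out _))
  · exact zero_mem _

theorem PE.pol {j k : ℕ} {X Y : F × F × F → Module.End F E} (h : PE j X) (h' : PE k Y) :
    (fun v => LinearMap.trace F E (X v) * LinearMap.trace F E (Y v) - LinearMap.trace F E (X v * Y v)) ∈
      PF F (j + k) :=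
  sub_mem (PF_mul (h.out _) (h'.out _)) ((h.mul h').out _)

/-- A functional that kills polynomials of degree at most 7 and extracts the coefficient of `s² t² u²`. -/
theorem exists_L {c : F} (h0 : c ≠ 0) (h1 : c ≠ 1) : ∃ L : (F × F × F → F) →ₗ[F] F,
    (∀ f ∈ PF F 7, L f = 0) ∧ L (mon 4 0 0) = 0 ∧ L (mon 3 1 1) = 0 ∧ L (mon 2 2 2) = 1 := by
  let pt : Fin 3 → F := ![0, 1, c]
  let wt : Fin 3 → F := ![c⁻¹, (1 - c)⁻¹, (c * (c - 1))⁻¹]
  let l : ℕ → F := fun a => ∑ i, wt i * pt i ^ a
  have h2 : c - 1 ≠ 0 := sub_ne_zero.2 h1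
  have h3 : 1 - c ≠ 0 := sub_ne_zero.2 h1.symm
  have l0 : l 0 = 0 := by simp [l, wt, pt, Fin.sum_univ_three]; field_simp; ring
  have l1 : l 1 = 0 := by simp [l, wt, pt, Fin.sum_univ_three]; field_simp; ring
  have l2 : l 2 = 1 := by simp [l, wt, pt, Fin.sum_univ_three]; field_simp; ring
  let L : (F × F × F → F) →ₗ[F] F :=
    ∑ i, ∑ j, ∑ k, (wt i * wt j * wt k) • LinearMap.proj (R := F) (φ := fun _ : F × F × F => F) (pt i, pt j, pt k)
  have hL : ∀ a b d, L (mon a b d) = l a * l b * l d := fun a b d => by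
    simp only [L, l, LinearMap.add_apply, LinearMap.smul_apply, LinearMap.proj_apply, mon, smul_eq_mul,
      Fin.sum_univ_three]
    ring
  refine ⟨L, fun f hf => ?_, by rw [hL, l0]; ring, by rw [hL, l1]; ring, by rw [hL, l2]; ring⟩
  induction hf using Submodule.span_induction with
  | zero => simp
  | add _ _ _ _ k1 k2 => rw [map_add, k1, k2, add_zero]
  | smul _ _ _ k1 => rw [map_smul, k1, smul_zero]
  | mem f hf =>
    obtain ⟨a, b, d, e, rfl⟩ := hf
    have k : ∀ x, x ≤ 1 → l x = 0 := fun x hx => by interval_cases x <;> assumption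
    rw [hL]
    rcases (by omega : a ≤ 1 ∨ b ≤ 1 ∨ d ≤ 1) with e | e | e <;> rw [k _ e] <;> ring

theorem core_zero {c : F} (c0 : c ≠ 0) (c1 : c ≠ 1) {k δ : F} {f1 f2 : F × F × F → F} (h1 : f1 ∈ PF F 7)
    (h2 : f2 ∈ PF F 7) (h : ∀ v, f1 v + δ * (mon 4 0 0 v + 2 * mon 3 1 1 v + mon 2 2 2 v) + f2 v = k) : δ = 0 := by
  obtain ⟨L, L7, L1, L2, L3⟩ := exists_L c0 c1
  have k3 := L7 _ (mon_mem (a := 0) (b := 0) (c := 0) (by omega))
  have tot : k • (mon 0 0 0 : F × F × F → F) = f1 + δ • (mon 4 0 0 + (2 : F) • mon 3 1 1 + mon 2 2 2) + f2 := by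
    ext v
    simp only [Pi.smul_apply, Pi.add_apply, smul_eq_mul, h v]
    simp [mon]
  have := congrArg L tot
  simp only [map_smul, map_add, L7 _ h1, L7 _ h2, k3, L1, L2, L3] at this
  simpa using this.symm

theorem core_aux {c : F} (c0 : c ≠ 0) (c1 : c ≠ 1) {k δ : F} {X Y : F × F × F → Module.End F E} (lo : PE 3 X)
    (hi : PE 4 Y) (hk : ∀ v, e2 (X v + Y v) = k)
    (top : ∀ v, e2 (Y v) = δ * (mon 4 0 0 v + 2 * mon 3 1 1 v + mon 2 2 2 v)) : δ = 0 :=
  core_zero c0 c1 (k := k) (PF_mono (show 3 + 3 ≤ 7 by omega) lo.e2) (PF_mono (show 3 + 4 ≤ 7 by omega) (lo.pol hi))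
    fun v => by rw [← hk v, e2_add, top]

theorem ext_core {c : F} (c0 : c ≠ 0) (c1 : c ≠ 1) (A B : Module.End F E) {k δ : F}
    {g1 g2 G1 G2 : F × F × F → Module.End F E} (p1 : PE 1 g1) (p2 : PE 1 g2) (P1 : PE 2 G1) (P2 : PE 2 G2)
    (hk : ∀ v, e2 (A * (g1 v + G1 v) * B * (g2 v + G2 v)) = k)
    (top : ∀ v, e2 (A * G1 v * B * G2 v) = δ * (mon 4 0 0 v + 2 * mon 3 1 1 v + mon 2 2 2 v)) : δ = 0 :=
  core_aux c0 c1 (k := k) (((p1.four p2 A B (by omega)).add (p1.four P2 A B (by omega))).add (P1.four p2 A B (by omega)))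
    (P1.four P2 A B (by omega)) (fun v => by rw [← hk v]; congr 1; noncomm_ring) top

end Cfsg.Agent.H6.AO
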