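import Cfsg.Agent.H6.AO1

/-! Isometries of an orthogonal space that map no totally singular line to an opposite line. -/

set_option autoImplicit false
set_option linter.unusedSectionVars false

namespace Cfsg.Agent.H6.AO

open Module H1

variable {F : Type*} [Field F] [Finite F] {E : Type*} [AddCommGroup E] [Module F E] [FiniteDimensional F E]
  {Q : QuadraticForm F E}

theorem sing_span {W : Type*} [AddCommGroup W] [Module F W] (l : E →ₗ[F] W) {Y : Submodule F E} {p p' : E}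
    (hh : Hyp Q p p') (hp : p ∈ Y) (hp' : p' ∈ Y) (h : ∀ y ∈ Y, Q y = 0 → l y = 0) : ∀ y ∈ Y, l y = 0 := by
  intro y hy
  set r := y - pb Q y p' • p - pb Q y p • p' with hr
  have r1 : pb Q r p = 0 := by simp [hr, hh.ll, hh.rl]
  have r2 : pb Q r p' = 0 := by simp [hr, hh.rr, hh.lr]
  have hrY : r ∈ Y := Y.sub_mem (Y.sub_mem hy (Y.smul_mem _ hp)) (Y.smul_mem _ hp')
  have k := h (r + p' - Q r • p) (Y.sub_mem (Y.add_mem hrY hp') (Y.smul_mem _ hp)) (by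
    simp only [Q_sub, Q_add, Q_smul, hh.l, hh.r, r1, r2, map_add, map_smul, LinearMap.add_apply, hh.rl, smul_eq_mul]
    ring)
  have k1 := h p hp hh.l
  have k2 := h p' hp' hh.r
  simp only [hr, map_sub, map_add, map_smul, k1, k2, smul_zero, sub_zero, add_zero] at k
  exact k

theorem rad_le {X : Submodule F E} (hX : X ⊓ oc Q X = ⊥) {x : E} (hx : x ∈ oc Q X) :
    finrank F ↥((X ⊔ F ∙ x) ⊓ oc Q (X ⊔ F ∙ x)) ≤ 1 := by
  have : (X ⊔ F ∙ x) ⊓ oc Q (X ⊔ F ∙ x) ≤ F ∙ x := by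
    rintro z ⟨hz, hz'⟩
    obtain ⟨y, hy, y', hy', rfl⟩ := Submodule.mem_sup.mp hz
    have h1 : y + y' ∈ oc Q X := (mem_oc_sup.1 hz').1
    have h2 : y' ∈ oc Q X := (Submodule.span_singleton_le_iff_mem _ _).2 hx hy'
    have : y ∈ X ⊓ oc Q X := ⟨hy, (Submodule.add_mem_iff_left _ h2).1 h1⟩
    rw [hX, Submodule.mem_bot] at this
    rwa [this, zero_add]
  exact (Submodule.finrank_mono this).trans (finrank_span_le_card ({x} : Set E) |>.trans (by simp))

theorem hyp_in (hB : (pb Q).Nondegenerate) {X : Submodule F E} (hX : X ⊓ oc Q X = ⊥)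
    (hd : finrank F X + 5 ≤ finrank F E) {x : E} (hx : x ∈ oc Q X) :
    ∃ p p', Hyp Q p p' ∧ p ∈ oc Q (X ⊔ F ∙ x) ∧ p' ∈ oc Q (X ⊔ F ∙ x) := by
  obtain ⟨p, p', -, -, hh, hp, hp', -⟩ := exists_hyp_room hB (X := X ⊔ F ∙ x) (by
    have := rad_le hX hx
    have := finrank_sup_span_le X x
    omega)
  exact ⟨p, p', hh, hp, hp'⟩

theorem scalar_rel (hB : (pb Q).Nondegenerate) {X : Submodule F E} (hX : X ⊓ oc Q X = ⊥)
    (hd : finrank F X + 5 ≤ finrank F E) (φ : Module.End F E) (hT : ∀ x ∈ oc Q X, φ x ∈ oc Q X)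
    (h : ∀ x ∈ oc Q X, ∀ y ∈ oc Q X, Q x = 0 → Q y = 0 → pb Q x y = 0 → pb Q (φ x) y = 0) :
    ∃ μ : F, ∀ x ∈ oc Q X, φ x = μ • x := by
  have h1 : ∀ x ∈ oc Q X, Q x = 0 → ∃ c : F, φ x = c • x := fun x hx h0 => by
    obtain ⟨p, p', hh, hp, hp'⟩ := hyp_in hB hX hd hx
    have k : φ x ∈ X ⊔ F ∙ x := mem_of_oc_oc hB (sing_span (pb Q (φ x)) hh hp hp' fun y hy hy0 =>
      h x hx y (mem_oc_sup.1 hy).1 h0 hy0 (mem_oc_span.1 (mem_oc_sup.1 hy).2))
    obtain ⟨y, hy, y', hy', e⟩ := Submodule.mem_sup.mp k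
    obtain ⟨c, rfl⟩ := Submodule.mem_span_singleton.mp hy'
    have : y ∈ X ⊓ oc Q X := ⟨hy, (Submodule.add_mem_iff_left _ (Submodule.smul_mem _ c hx)).1 (e ▸ hT x hx)⟩
    rw [hX, Submodule.mem_bot] at this
    exact ⟨c, by rw [← e, this, zero_add]⟩
  have h2 : ∀ (μ : F) x, x ∈ oc Q X → Q x = 0 → x ≠ 0 → φ x = μ • x → ∀ y ∈ oc Q X, Q y = 0 → pb Q x y = 0 →
      φ y = μ • y := fun μ x hx h0 x0 e y hy hy0 hxy => by
    obtain ⟨ν, hν⟩ := h1 y hy hy0
    obtain ⟨ρ, hρ⟩ := h1 (x + y) (add_mem hx hy) (by rw [Q_add, h0, hy0, hxy]; simp)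
    rw [map_add, e, hν] at hρ
    by_cases k : ν = ρ
    · have : (μ - ρ) • x = 0 := by rw [k] at hρ; linear_combination (norm := module) hρ
      rw [hν, k, sub_eq_zero.1 ((smul_eq_zero.1 this).resolve_right x0)]
    · have k' : ν - ρ ≠ 0 := sub_ne_zero.2 k
      have : y = ((ρ - μ) / (ν - ρ)) • x := by
        have : (ν - ρ) • y = (ρ - μ) • x := by linear_combination (norm := module) hρ
        rw [div_eq_inv_mul, mul_smul, ← this, inv_smul_smul₀ k']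
      rw [this, map_smul, e, smul_comm]
  obtain ⟨p, p', hh, hp, hp'⟩ := hyp_in hB hX hd (zero_mem _)
  replace hp := (mem_oc_sup.1 hp).1
  replace hp' := (mem_oc_sup.1 hp').1
  obtain ⟨μ, hμ⟩ := h1 p hp hh.l
  refine ⟨μ, fun x hx => sub_eq_zero.1 (sing_span (φ - μ • LinearMap.id) hh hp hp' (fun y hy hy0 => ?_) x hx)⟩
  obtain ⟨z, hz, hz', hz0⟩ := exists_sing_not_mem Q (Y := oc Q (X ⊔ F ∙ p ⊔ F ∙ y)) (R := ⊥) bot_le (by
    have := finrank_oc hB (X ⊔ F ∙ p ⊔ F ∙ y)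
    have := finrank_sup_span_le X p
    have := finrank_sup_span_le (X ⊔ F ∙ p) y
    rw [finrank_bot]
    omega)
  simp only [mem_oc_sup, mem_oc_span] at hz
  have k := h2 μ p hp hh.l hh.ne hμ z hz.1.1 hz0 hz.1.2
  have := h2 μ z hz.1.1 hz0 hz' k y hy hy0 (by rw [pb_comm]; exact hz.2)
  simp [this]

theorem scalar_of (h : OH Q) (φ : Module.End F E)
    (hφ : ∀ x y, Q x = 0 → Q y = 0 → pb Q x y = 0 → pb Q (φ x) y = 0) : ∃ μ : F, ∀ x, φ x = μ • x := by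
  have e : ∀ x : E, x ∈ oc Q ⊥ := fun x y hy => by rw [Submodule.mem_bot] at hy; simp [hy]
  obtain ⟨μ, k⟩ := scalar_rel h.nd (X := ⊥) (bot_inf_eq _) (by rw [finrank_bot]; exact h.big) φ (fun x _ => e _)
    fun x _ y _ => hφ x y
  exact ⟨μ, fun x => k x (e x)⟩

theorem sq_one (h : OH Q) {g : OG Q} {μ : F} (k : ∀ x, g.1 x = μ • x) : μ ^ 2 = 1 := by
  obtain ⟨p, p', -, -, hh, -⟩ := exists_hyp_room h.nd (X := ⊥) (by
    have := h.big
    rw [bot_inf_eq, finrank_bot]; omega)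
  have := OG_pb g p p'
  rw [k, k] at this
  simpa [hh.lr, sq] using this

theorem center_scalar (h : OH Q) {z : Om Q} (hz : z ∈ Subgroup.center (Om Q)) :
    ∃ μ : F, μ ^ 2 = 1 ∧ ∀ x, oA Q z x = μ • x := by
  have key : ∀ x y, Q x = 0 → Q y = 0 → pb Q x y = 0 → y ∉ F ∙ x → ∃ c d : F, oA Q z x = c • x + d • y := by
    intro x y hx hy hxy hn
    obtain ⟨u, h1, h2⟩ := exists_dual h.nd _ hn
    have h3 := h1 x (Submodule.mem_span_singleton_self x)
    have e := congrArg (fun g => oA Q g u) (Subgroup.mem_center_iff.1 hz (h.ez x y))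
    simp only [map_mul, Module.End.mul_apply, h.ez_apply hx hxy, hy, zero_smul, add_zero, pb_comm Q u, h2, h3,
      one_smul, sub_zero, map_add] at e
    exact ⟨pb Q (oA Q z u) y, -pb Q (oA Q z u) x, by linear_combination (norm := module) -e⟩
  obtain ⟨μ, k⟩ := scalar_of h (oA Q z) fun x y hx hy hxy => by
    by_cases hn : y ∈ F ∙ x
    · obtain ⟨c, rfl⟩ := Submodule.mem_span_singleton.1 hn
      obtain ⟨p, p', hh, hp, hp'⟩ := hyp_in h.nd (X := ⊥) (bot_inf_eq _) (by rw [finrank_bot]; exact h.big)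
        (x := x) fun y hy => by rw [Submodule.mem_bot] at hy; simp [hy]
      simp only [mem_oc_sup, mem_oc_span] at hp hp'
      obtain ⟨s, d, e⟩ := key x p hx hh.l hp.2 fun k => by
        obtain ⟨t, rfl⟩ := Submodule.mem_span_singleton.1 k
        simpa [hp'.2] using hh.lr
      simp [e, pb_sing hx, pb_comm Q p x, hp.2]
    · obtain ⟨c, d, e⟩ := key x y hx hy hxy hn
      simp [e, hxy, pb_sing hy]
  exact ⟨μ, sq_one h k, k⟩

/-- No totally singular line is mapped to an opposite line. -/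
def LD (Q : QuadraticForm F E) (a : Module.End F E) : Prop :=
  ∀ x y, Q x = 0 → Q y = 0 → pb Q x y = 0 → pb Q (a x) x * pb Q (a y) y = pb Q (a x) y * pb Q (a y) x

theorem LD.pair {a : Module.End F E} (h : LD Q a) {x y : E} (hx : Q x = 0) (hy : Q y = 0) (hxy : pb Q x y = 0)
    (h1 : pb Q (a x) x = 0) (h2 : pb Q (a y) y = 0) (h3 : pb Q (a (x + y)) (x + y) = 0) : pb Q (a x) y = 0 := by
  have k := h x y hx hy hxy
  simp only [map_add, LinearMap.add_apply, h1, h2] at h3 k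
  have : pb Q (a x) y ^ 2 = 0 := by linear_combination pb Q (a x) y * h3 + k
  exact pow_eq_zero_iff two_ne_zero |>.1 this

theorem sing_add {x y : E} (hx : Q x = 0) (hy : Q y = 0) (hxy : pb Q x y = 0) : Q (x + y) = 0 := by
  rw [Q_add, hx, hy, hxy]; simp

theorem LD.cases (h : OH Q) (h7 : 7 ≤ finrank F E) {g : OG Q} (hg : LD Q g.1.toLinearMap) :
    (∃ μ : F, ∀ x, g.1 x = μ • x) ∨ ∃ (μ : F) (w : E), μ ^ 2 = 1 ∧ Q w ≠ 0 ∧ ∀ x, g.1 x = μ • (refl Q w).1 x := by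
  by_cases hA : ∀ x, Q x = 0 → pb Q (g.1 x) x = 0
  · exact Or.inl (scalar_of h g.1.toLinearMap fun x y hx hy hxy =>
      hg.pair hx hy hxy (hA x hx) (hA y hy) (hA _ (sing_add hx hy hxy)))
  right
  push Not at hA
  obtain ⟨e, he, hκ⟩ := hA
  set κ := pb Q (g.1 e) e with hκ'
  obtain ⟨f, hf⟩ : ∃ f, f = κ⁻¹ • g.1 e := ⟨_, rfl⟩
  have ge : g.1 e = κ • f := by rw [hf, smul_inv_smul₀ hκ]
  have hh : Hyp Q e f := ⟨he, by rw [hf, Q_smul, OG_Q, he, mul_zero], by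
    rw [hf, map_smul, pb_comm, ← hκ', smul_eq_mul, inv_mul_cancel₀ hκ]⟩
  have gf : ∀ x, pb Q (g.1 x) f = κ⁻¹ * pb Q x e := fun x => by rw [hf, map_smul, OG_pb, smul_eq_mul]
  set X : Submodule F E := (F ∙ e) ⊔ F ∙ f with hX
  have mT : ∀ t, t ∈ oc Q X ↔ pb Q e t = 0 ∧ pb Q f t = 0 := fun t => by rw [hX, mem_oc_sup, mem_oc_span, mem_oc_span]
  have mX : ∀ z ∈ X, z = pb Q z f • e + pb Q z e • f := fun z hz => by
    obtain ⟨y, hy, y', hy', rfl⟩ := Submodule.mem_sup.mp hz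
    obtain ⟨c, rfl⟩ := Submodule.mem_span_singleton.mp hy
    obtain ⟨d, rfl⟩ := Submodule.mem_span_singleton.mp hy'
    simp [hh.ll, hh.lr, hh.rl, hh.rr]
  have hX0 : X ⊓ oc Q X = ⊥ := (Submodule.eq_bot_iff _).2 fun z ⟨hz, hz'⟩ => by
    have := (mT z).1 hz'
    rw [mX z hz, pb_comm Q z, pb_comm Q z, this.1, this.2]; simp
  have hd : finrank F X + 5 ≤ finrank F E := by
    have : finrank F X ≤ _ := finrank_sup_span_le (F ∙ e) f
    have : finrank F ↥(F ∙ e) ≤ 1 := finrank_span_le_card ({e} : Set E) |>.trans (by simp)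
    omega
  have s1 : ∀ t ∈ oc Q X, Q t = 0 → pb Q (g.1 t) t = 0 := fun t ht h0 => by
    have k := hg e t he h0 ((mT t).1 ht).1
    simp only [LinearEquiv.coe_coe] at k
    rw [← hκ', ge, map_smul, LinearMap.smul_apply, ((mT t).1 ht).2, smul_zero, zero_mul] at k
    exact (mul_eq_zero.1 k).resolve_left hκ
  let φ : Module.End F E := g.1.toLinearMap - ((pb Q e).comp g.1.toLinearMap).smulRight f
  have hφ : ∀ t, φ t = g.1 t - pb Q e (g.1 t) • f := fun t => rfl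
  obtain ⟨μ, hμ⟩ := scalar_rel h.nd hX0 hd φ (fun t ht => (mT _).2 ⟨by simp [hφ, hh.lr], by
      simp [hφ, hh.rr, pb_comm Q f, gf, pb_comm Q t, ((mT t).1 ht).1]⟩) fun x hx y hy x0 y0 hxy => by
    have := hg.pair x0 y0 hxy (s1 x hx x0) (s1 y hy y0) (s1 _ (add_mem hx hy) (sing_add x0 y0 hxy))
    simp only [LinearEquiv.coe_coe] at this
    simp [hφ, this, ((mT y).1 hy).2]
  have gt : ∀ t ∈ oc Q X, g.1 t = μ • t + pb Q e (g.1 t) • f := fun t ht => by rw [← hμ t ht, hφ, sub_add_cancel]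
  obtain ⟨p, p', hp, hp1, hp2⟩ := hyp_in h.nd hX0 hd (zero_mem _)
  replace hp1 := (mem_oc_sup.1 hp1).1
  replace hp2 := (mem_oc_sup.1 hp2).1
  have w0 : ∀ t ∈ oc Q X, pb Q e (g.1 t) = 0 := sing_span ((pb Q e).comp g.1.toLinearMap) hp hp1 hp2 fun y hy y0 => by
    obtain ⟨r, r', hr, hr1, hr2⟩ := hyp_in h.nd hX0 hd hy
    obtain ⟨u, hu, hu1⟩ := hr.represent hr1 hr2 1
    simp only [mem_oc_sup (X := X), mem_oc_span] at hu
    obtain ⟨y1, y2⟩ := (mT y).1 hy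
    obtain ⟨u1, u2⟩ := (mT u).1 hu.1
    have k := hg (f + u - e) y (by
      simp [Q_sub, Q_add, hh.l, hh.r, hu1, u2, hh.rl, pb_comm Q u e, u1]) y0 (by simp [y1, y2, pb_comm Q u y, hu.2])
    simp only [LinearEquiv.coe_coe] at k
    rw [s1 y hy y0, mul_zero] at k
    have a1 : pb Q (g.1 (f + u - e)) y = pb Q (g.1 f) y := by
      rw [map_sub, map_add, gt u hu.1, ge]
      simp [y2, pb_comm Q u y, hu.2]
    have a2 : pb Q (g.1 y) (f + u - e) = -pb Q e (g.1 y) := by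
      rw [map_sub, map_add, gf, pb_comm Q y e, y1, pb_comm Q _ e, gt y hy]
      simp [hu.2, u2, y1]
    have a3 : μ * pb Q (g.1 f) y + pb Q e (g.1 y) * κ⁻¹ = 0 := by
      have := OG_pb g f y
      rw [gt y hy, y2] at this
      simpa [gf, hh.rl] using this
    rw [a1, a2] at k
    have : pb Q e (g.1 y) ^ 2 * κ⁻¹ = 0 := by linear_combination pb Q e (g.1 y) * a3 - μ * k
    simpa [hκ] using this
  replace gt : ∀ t ∈ oc Q X, g.1 t = μ • t := fun t ht => by rw [gt t ht, w0 t ht, zero_smul, add_zero]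
  have hμ2 : μ ^ 2 = 1 := by
    have := OG_pb g p p'
    rw [gt p hp1, gt p' hp2] at this
    simpa [hp.lr, sq] using this
  have μ0 : μ ≠ 0 := by rintro rfl; simp at hμ2
  have gf' : g.1 f = κ⁻¹ • e := by
    have k : g.1 f ∈ X := mem_of_oc_oc h.nd fun t ht => by
      have := OG_pb g f t
      rw [gt t ht, ((mT t).1 ht).2] at this
      simpa [μ0] using this
    have k1 := mX _ k
    rw [gf, hh.rl, mul_one] at k1
    have k2 := OG_Q g f
    rw [k1] at k2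
    have : pb Q (g.1 f) e = 0 := by simpa [Q_add, Q_smul, hh.l, hh.r, hh.lr, hκ] using k2
    rw [k1, this, zero_smul, add_zero]
  have hw : Q (e - (μ * κ) • f) = -(μ * κ) := by simp [Q_sub, Q_smul, hh.l, hh.r, hh.lr]
  refine ⟨μ, e - (μ * κ) • f, hμ2, by simp [hw, μ0, hκ], fun x => ?_⟩
  have ht : x - pb Q x f • e - pb Q x e • f ∈ oc Q X := (mT _).2
    ⟨by simp [hh.ll, hh.lr, pb_comm Q e x], by simp [hh.rl, hh.rr, pb_comm Q f x]⟩
  have k := gt _ ht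
  rw [map_sub, map_sub, map_smul, map_smul, ge, gf'] at k
  rw [refl_apply, hw, map_sub, map_smul, smul_eq_mul]
  have c1 : (pb Q x e - μ * κ * pb Q x f) / -(μ * κ) = pb Q x f - μ * κ⁻¹ * pb Q x e := by
    field_simp
    linear_combination (exp := 1) (pb Q x e) * hμ2
  rw [c1]
  have c3 : κ * κ⁻¹ = 1 := mul_inv_cancel₀ hκ
  linear_combination (norm := module) k - hμ2 • (κ⁻¹ * pb Q x e) • e - hμ2 • (κ * pb Q x f) • f +
    hμ2 • (μ * κ * κ⁻¹ * pb Q x e) • f + c3 • (μ * pb Q x e) • f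

end Cfsg.Agent.H6.AO
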