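import Cfsg.Agent.H6.AO2

/-! Products of conjugacy classes in orthogonal groups over fields with at least three elements. -/

set_option autoImplicit false
set_option linter.unusedSectionVars false

namespace Cfsg.Agent.H6.AO

open Module H1 H9.AH

variable {F : Type*} [Field F] [Finite F] {E : Type*} [AddCommGroup E] [Module F E] [FiniteDimensional F E]
  {Q : QuadraticForm F E}

theorem ext_line (h : OH Q) (h7 : 7 ≤ finrank F E) {c : F} (c0 : c ≠ 0) (c1 : c ≠ 1) (A B : Module.End F E) {k : F}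
    (hk : ∀ g : Om Q, e2 (A * oA Q g * B * oA Q g⁻¹) = k) {x y : E} (hx : Q x = 0) (hy : Q y = 0)
    (hxy : pb Q x y = 0) : (pb Q (A x) x * pb Q (A y) y - pb Q (A x) y * pb Q (A y) x) *
      (pb Q (B x) x * pb Q (B y) y - pb Q (B x) y * pb Q (B y) x) = 0 := by
  obtain ⟨p, p', -, -, hh, hp, hp', -⟩ := exists_hyp_room h.nd (X := (F ∙ x) ⊔ F ∙ y) (by
    have := finrank_inf_oc_le (Q := Q) ((F ∙ x) ⊔ F ∙ y)
    have := finrank_sup_span_le (F ∙ x) y
    have : finrank F ↥(F ∙ x) ≤ 1 := finrank_span_le_card ({x} : Set E) |>.trans (by simp)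
    omega)
  simp only [mem_oc_sup, mem_oc_span] at hp hp'
  let N : Module.End F E := (pb Q y).smulRight x - (pb Q x).smulRight y
  let N1 : Module.End F E := (pb Q p').smulRight x - (pb Q x).smulRight p'
  let N2 : Module.End F E := (pb Q p).smulRight y - (pb Q y).smulRight p
  let g : F × F × F → Om Q := fun v => h.ez x (v.1 • y) * h.ez y (v.2.2 • p) * h.ez x (v.2.1 • p')
  let g1 : F × F × F → Module.End F E := fun v => 1 + mon 0 1 0 v • N1 + mon 0 0 1 v • N2
  let g2 : F × F × F → Module.End F E := fun v => 1 + mon 0 1 0 v • -N1 + mon 0 0 1 v • -N2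
  let G1 : F × F × F → Module.End F E := fun v => mon 1 0 0 v • N + mon 0 1 1 v • -(pb Q x).smulRight y
  let G2 : F × F × F → Module.End F E := fun v => mon 1 0 0 v • -N + mon 0 1 1 v • -(pb Q y).smulRight x
  have hyx : pb Q y x = 0 := by rw [pb_comm, hxy]
  have ez : ∀ (a b : E) (s : F), Q a = 0 → Q b = 0 → pb Q a b = 0 → ∀ z,
      oA Q (h.ez a (s • b)) z = z + (s * pb Q b z) • a - (s * pb Q a z) • b := fun a b s ha hb hab z => by
    rw [h.ez_apply ha (by simp [hab]), Q_smul, hb, pb_comm Q z, pb_comm Q z]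
    simp only [map_smul, LinearMap.smul_apply, smul_eq_mul]
    module
  have e1 : ∀ v, oA Q (g v) = g1 v + G1 v := fun v => LinearMap.ext fun z => by
    simp only [g, map_mul, Module.End.mul_apply, ez _ _ _ hx hy hxy, ez _ _ _ hy hh.l hp.2, ez _ _ _ hx hh.r hp'.1]
    simp [g1, G1, N, N1, N2, mon, hxy, hyx, pb_sing hx, pb_sing hy, hp.1, hp.2, hp'.1, hp'.2, pb_comm Q p x,
      hh.lr]
    module
  have e2' : ∀ v, oA Q (g v)⁻¹ = g2 v + G2 v := fun v => LinearMap.ext fun z => by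
    simp only [g, mul_inv_rev, h.ez_inv hx (y := v.1 • y) (by simp [hxy]), h.ez_inv hy (y := v.2.2 • p) (by simp [hp.2]),
      h.ez_inv hx (y := v.2.1 • p') (by simp [hp'.1]), ← neg_smul,
      map_mul, Module.End.mul_apply, ez _ _ _ hx hy hxy, ez _ _ _ hy hh.l hp.2, ez _ _ _ hx hh.r hp'.1]
    simp [g2, G2, N, N1, N2, mon, hxy, hyx, pb_sing hx, pb_sing hy, hp.1, hp.2, hp'.1, hp'.2, pb_comm Q p x,
      pb_comm Q p y, pb_comm Q p' x, pb_comm Q p' y, hh.rl]
    module
  have p1 : PE 1 g1 := ((PE.const 1 1).add (PE.term (by omega) _)).add (PE.term (by omega) _)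
  have p2 : PE 1 g2 := ((PE.const 1 1).add (PE.term (by omega) _)).add (PE.term (by omega) _)
  have P1 : PE 2 G1 := (PE.term (by omega) _).add (PE.term (by omega) _)
  have P2 : PE 2 G2 := (PE.term (by omega) _).add (PE.term (by omega) _)
  refine ext_core c0 c1 A B (k := k) p1 p2 P1 P2 (fun v => by rw [← e1, ← e2', hk]) fun v => ?_
  have : A * G1 v * B * G2 v = (pb Q x).smulRight (v.1 • A (G1 v (B y))) +
      (pb Q y).smulRight (-(v.1 + v.2.1 * v.2.2) • A (G1 v (B x))) := LinearMap.ext fun z => by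
    simp only [Module.End.mul_apply, G2, N, mon, LinearMap.add_apply, LinearMap.smul_apply, LinearMap.neg_apply,
      LinearMap.sub_apply, LinearMap.smulRight_apply, map_add, map_smul, map_neg, map_sub]
    module
  rw [this, e2_two]
  simp only [G1, N, mon, LinearMap.add_apply, LinearMap.smul_apply, LinearMap.neg_apply,
    LinearMap.sub_apply, LinearMap.smulRight_apply, map_add, map_smul, map_neg, map_sub, smul_eq_mul,
    pb_comm Q (A _), pb_comm Q (B _)]
  ring

theorem e2_const (h : OH Q) {a b c : Om Q} (k : CPZ a b c) (g : Om Q) :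
    e2 (oA Q a * oA Q g * oA Q b * oA Q g⁻¹) = e2 (oA Q c) := by
  obtain ⟨z, hz, e⟩ := k.conj a _ (IsConj.refl a) (isConj_conj g b)
  obtain ⟨μ, h1, h2⟩ := center_scalar h hz
  obtain ⟨u, hu⟩ := isConj_iff.1 e
  have : oA Q z = μ • 1 := LinearMap.ext fun x => h2 x
  have e1 : e2 (oA Q (u * c * u⁻¹)) = e2 (oA Q c) := by
    rw [map_mul, e2_comm, ← map_mul, inv_mul_cancel_left]
  rw [← e1, hu, map_mul, this, smul_mul_assoc, one_mul, e2_smul, h1, one_mul]
  simp only [map_mul, mul_assoc]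

theorem not_mem_of_det {A : Module.End F E} {x y : E}
    (h : pb Q (A x) x * pb Q (A y) y ≠ pb Q (A x) y * pb Q (A y) x) : x ≠ 0 ∧ y ∉ F ∙ x := by
  refine ⟨fun e => h (by simp [e]), fun e => h ?_⟩
  obtain ⟨c, rfl⟩ := Submodule.mem_span_singleton.1 e
  simp only [map_smul, LinearMap.smul_apply, smul_eq_mul]
  ring

theorem ld_or (h : OH Q) (h7 : 7 ≤ finrank F E) {d : F} (c0 : d ≠ 0) (c1 : d ≠ 1) {a b c : Om Q} (k : CPZ a b c) :
    LD Q (oA Q a) ∨ LD Q (oA Q b) := by
  by_contra hc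
  simp only [LD, not_or, not_forall] at hc
  obtain ⟨⟨x, y, hx, hy, hxy, h1⟩, x', y', hx', hy', hxy', h2⟩ := hc
  obtain ⟨g, g1, g2⟩ := h.witt_two h7 (not_mem_of_det h2).1 (not_mem_of_det h2).2 (not_mem_of_det h1).1
    (not_mem_of_det h1).2 (hx.trans hx'.symm) (hy.trans hy'.symm) (hxy.trans hxy'.symm)
  have := ext_line h h7 c0 c1 _ _ (e2_const h (k.congr (IsConj.refl a) (isConj_conj g b))) hx hy hxy
  refine (mul_eq_zero.1 this).elim (fun e => h1 (sub_eq_zero.1 e)) fun e => h2 ?_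
  have t : ∀ z, oA Q (g * b * g⁻¹) (oA Q g z) = oA Q g (oA Q b z) := fun z => by
    rw [← Module.End.mul_apply, ← map_mul, inv_mul_cancel_right, map_mul, Module.End.mul_apply]
  rw [← g1, ← g2] at e
  simpa only [t, oA_pb, sub_eq_zero] using e

end Cfsg.Agent.H6.AO
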