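import Cfsg.Agent.H6.AO3
import Cfsg.Agent.H6.OrthRank

/-! S2451 for orthogonal groups over fields with at least three elements. -/

set_option autoImplicit false
set_option linter.unusedSectionVars false

namespace Cfsg.Agent.H6.AO

open Module H1 H9.AH

variable {F : Type*} [Field F] [Finite F] {E : Type*} [AddCommGroup E] [Module F E] [FiniteDimensional F E]
  {Q : QuadraticForm F E}

theorem big_of (h : OH Q) : BigEnough F E := Or.inl h.big

theorem dick_om (h : OH Q) (g : Om Q) : dick h.nd (big_of h) g.1 = 1 :=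
  Abelianization.commutator_subset_ker _ g.2

theorem refl_cases (h : OH Q) {b : Om Q} {μ : F} {w : E} (hμ : μ ^ 2 = 1) (hw : Q w ≠ 0)
    (hb : ∀ x, oA Q b x = μ • (refl Q w).1 x) :
    μ = -1 ∧ (2 : F) ≠ 0 ∧ Odd (finrank F E) ∧ Subgroup.center (Om Q) = ⊥ := by
  have d := dick_om h b
  have μ1 : μ ≠ 1 := by
    rintro rfl
    rw [show b.1 = refl Q w from OG_ext fun x => (hb x).trans (one_smul _ _), dick_refl _ _ hw] at d
    exact absurd d (by decide)
  have μ2 : μ = -1 := (mul_self_eq_one_iff.1 ((sq μ).symm.trans hμ)).resolve_left μ1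
  have two : (2 : F) ≠ 0 := fun e => μ1 (by rw [μ2]; linear_combination -e)
  have e : b.1 = negOG Q * refl Q w := OG_ext fun x => (hb x).trans (by rw [μ2, neg_one_smul]; rfl)
  rw [e, map_mul, dick_refl _ _ hw] at d
  have d' : dick h.nd (big_of h) (negOG Q) = -1 := by
    rw [← neg_neg (dick _ _ _), ← mul_neg_one (dick _ _ _), d]
  refine ⟨μ2, two, ?_, (Subgroup.eq_bot_iff_forall _).2 fun z hz => ?_⟩
  · have : mvS (negOG Q) = ⊤ := top_unique fun x _ => mem_mvS.2 ⟨(2 : F)⁻¹ • x, by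
      change (2 : F)⁻¹ • x - -((2 : F)⁻¹ • x) = x
      rw [sub_neg_eq_add, ← two_smul F, smul_inv_smul₀ two]⟩
    rw [← Nat.not_even_iff_odd, ← finrank_top, ← this, ← dick_eq_one_iff h.nd (big_of h), d']
    decide
  · obtain ⟨ν, h1, h2⟩ := center_scalar h hz
    rcases mul_self_eq_one_iff.1 ((sq ν).symm.trans h1) with rfl | rfl
    · exact om_ext fun x => by simp [h2]
    · have := dick_om h z
      rw [show z.1 = negOG Q from OG_ext fun x => (h2 x).trans (neg_one_smul _ _), d'] at this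
      exact absurd this (by decide)

theorem conj_neg_refl (h : OH Q) {b : Om Q} {w v : E} (hw : Q w ≠ 0) (hb : ∀ x, oA Q b x = -(refl Q w).1 x)
    (hv : Q v = Q w) : ∃ b', IsConj b b' ∧ ∀ x, oA Q b' x = (pb Q x v / Q w) • v - x := by
  obtain ⟨g, rfl⟩ := h.witt_one (u := w) (w := v) (by rintro rfl; simp at hw)
    (by rintro rfl; exact hw (by simpa using hv.symm)) hv
  refine ⟨_, isConj_conj g b, fun x => ?_⟩
  have : x = oA Q g (oA Q g⁻¹ x) := by rw [← Module.End.mul_apply, ← map_mul, mul_inv_cancel, map_one]; rfl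
  rw [map_mul, map_mul, Module.End.mul_apply, Module.End.mul_apply, hb, refl_apply, neg_sub, map_sub, map_smul, ← this,
    ← oA_pb g, ← this]

theorem unip (h : OH Q) {a b c : Om Q} (k : CPZ a b c) {w : E} (hw : Q w ≠ 0) (hb : ∀ x, oA Q b x = -(refl Q w).1 x)
    (two : (2 : F) ≠ 0) (ho : Odd (finrank F E)) (hZ : Subgroup.center (Om Q) = ⊥) (x : E) :
    oA Q a (oA Q a x - x) = oA Q a x - x := by
  have h1 : ∀ v, Q v = Q w →
      pb Q v (oA Q a v) = Q w * (LinearMap.trace F E (oA Q c) + LinearMap.trace F E (oA Q a)) := fun v hv => by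
    obtain ⟨b', k1, k2⟩ := conj_neg_refl h hw hb hv
    obtain ⟨z, hz, e⟩ := k.conj a b' (IsConj.refl a) k1
    rw [hZ, Subgroup.mem_bot] at hz
    obtain ⟨u, hu⟩ := isConj_iff.1 e
    have e1 : LinearMap.trace F E (oA Q (u * c * u⁻¹)) = LinearMap.trace F E (oA Q c) := by
      rw [map_mul, LinearMap.trace_mul_comm, ← map_mul, inv_mul_cancel_left]
    have e2 : oA Q (a * b') = (Q w)⁻¹ • (pb Q v).smulRight (oA Q a v) - oA Q a := LinearMap.ext fun x => by
      simp only [map_mul, Module.End.mul_apply, k2, map_sub, map_smul, LinearMap.sub_apply, LinearMap.smul_apply,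
        LinearMap.smulRight_apply, smul_smul, pb_comm Q x, div_eq_inv_mul]
    rw [← e1, hu, hz, one_mul, e2, map_sub, map_smul, LinearMap.trace_smulRight]
    simp [hw]
  have h2 : ∀ x, Q x = 0 → pb Q x (oA Q a x) = 0 := fun x hx => by
    obtain ⟨p, p', hh, hp, hp'⟩ := hyp_in h.nd (X := ⊥) (by simp) (by simpa using h.big) (x := x) (by simp)
    obtain ⟨v, hv, hq⟩ := hh.represent hp hp' (Q w)
    have hx' : pb Q v x = 0 := by rw [pb_comm]; exact mem_oc_span.1 (mem_oc_sup.1 hv).2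
    have e0 := h1 v hq
    have e1 := h1 (v + x) (by rw [Q_add, hq, hx, hx']; ring)
    have e2 := h1 (v - x) (by rw [Q_sub, hq, hx, hx']; ring)
    simp only [map_add, map_sub, LinearMap.add_apply, LinearMap.sub_apply] at e1 e2
    exact (mul_eq_zero.1 (by linear_combination e1 + e2 - 2 * e0)).resolve_left two
  have inv : ∀ x, oA Q a (oA Q a⁻¹ x) = x := fun x => by
    rw [← Module.End.mul_apply, ← map_mul, mul_inv_cancel, map_one]; rfl
  obtain ⟨μ, hμ⟩ := scalar_of h (oA Q a + oA Q a⁻¹) fun x y hx hy hxy => by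
    have e := h2 (x + y) (sing_add hx hy hxy)
    simp only [map_add, LinearMap.add_apply, h2 x hx, h2 y hy] at e ⊢
    rw [← oA_pb a (oA Q a⁻¹ x), inv, pb_comm Q _ y]
    linear_combination e
  obtain ⟨y, hy, y0⟩ : ∃ y ∈ fxS a.1, y ≠ 0 := Submodule.exists_mem_ne_zero_of_ne_bot fun e => by
    have e1 := finrank_mvS_add a.1
    rw [e, finrank_bot, add_zero] at e1
    exact Nat.not_even_iff_odd.2 ho (e1 ▸ (dick_eq_one_iff _ _ _).1 (dick_om h a))
  have y1 : oA Q a y = y := mem_fxS.1 hy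
  have y2 : oA Q a⁻¹ y = y := by
    conv_lhs => rw [← y1, ← Module.End.mul_apply, ← map_mul, inv_mul_cancel, map_one]
    rfl
  have e := hμ y
  rw [LinearMap.add_apply, y1, y2] at e
  have e' : μ = 2 := by
    have : (μ - 2) • y = 0 := by linear_combination (norm := module) -e
    exact sub_eq_zero.1 ((smul_eq_zero.1 this).resolve_right y0)
  have e2 := congrArg (oA Q a) (hμ x)
  rw [LinearMap.add_apply, map_add, inv, map_smul, e'] at e2
  rw [map_sub]
  linear_combination (norm := module) e2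

theorem refl_concl (p : ℕ) [hp : Fact p.Prime] [CharP F p] (h : OH Q) (h7 : 7 ≤ finrank F E) {a b c : Om Q}
    (k' : CP (G := Om Q ⧸ Subgroup.center (Om Q)) a b c) (k : CPZ a b c) {μ : F} {w : E} (hμ : μ ^ 2 = 1)
    (hw : Q w ≠ 0) (hb : ∀ x, oA Q b x = μ • (refl Q w).1 x) :
    Concl (G := Om Q ⧸ Subgroup.center (Om Q)) p a b c := by
  have := finite_Om (Q := Q)
  obtain ⟨rfl, two, ho, hZ⟩ := refl_cases h hμ hw hb
  simp only [neg_one_smul] at hb
  have hN := unip h k hw hb two ho hZ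
  have h1 : ∀ (n : ℕ) x, oA Q (a ^ n) x = x + (n : F) • (oA Q a x - x) := fun n x => by
    induction n with
    | zero => simp
    | succ n ih => rw [pow_succ', map_mul, Module.End.mul_apply, ih, map_add, map_smul, hN]; push_cast; module
  have h2 : a ^ p = 1 := om_ext fun x => by rw [h1]; simp
  have h3 : p ∣ orderOf (a : Om Q ⧸ Subgroup.center (Om Q)) :=
    (pel_of_pow (k := 1) (by rw [pow_one, ← QuotientGroup.mk_pow, h2]; rfl)).dvd k'.ha
  obtain ⟨y, hy⟩ : ∃ y, oA Q a y - y ≠ 0 := by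
    by_contra! hc
    exact k.ha ((om_ext fun x => sub_eq_zero.1 (hc x) : a = 1) ▸ one_mem _)
  obtain ⟨q, q', -, -, hh, hq, hq', -⟩ := exists_hyp_room h.nd (X := (F ∙ y) ⊔ F ∙ (oA Q a y - y)) (by
    have := finrank_inf_oc_le (Q := Q) ((F ∙ y) ⊔ F ∙ (oA Q a y - y))
    have := finrank_sup_span_le (F ∙ y) (oA Q a y - y)
    have := (finrank_span_le_card (R := F) ({y} : Set E)).trans (show _ ≤ 1 by simp)
    omega)
  obtain ⟨v, hv, hvw⟩ := hh.represent hq hq' (Q w)
  obtain ⟨b', k1, k2⟩ := conj_neg_refl h hw hb hvw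
  have v1 : oA Q b' y = -y := by rw [k2, mem_oc_span.1 (mem_oc_sup.1 hv).1]; simp
  have v2 : oA Q b' (oA Q a y - y) = -(oA Q a y - y) := by rw [k2, mem_oc_span.1 (mem_oc_sup.1 hv).2]; simp
  have h4 : ∀ n : ℕ, oA Q ((a * b') ^ n) y = (-1 : F) ^ n • (y + (n : F) • (oA Q a y - y)) ∧
      oA Q ((a * b') ^ n) (oA Q a y - y) = (-1 : F) ^ n • (oA Q a y - y) := fun n => by
    induction n with
    | zero => simp
    | succ n ih =>
      simp only [pow_succ' (a * b'), map_mul, Module.End.mul_apply, ih.1, ih.2, map_smul, map_add, v1, v2, map_neg, hN,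
        pow_succ]
      push_cast
      constructor <;> module
  obtain ⟨e1, e2⟩ := h4 (orderOf ((a : Om Q ⧸ Subgroup.center (Om Q)) * b'))
  have e : (a * b') ^ orderOf ((a : Om Q ⧸ Subgroup.center (Om Q)) * b') = 1 := by
    rw [← Subgroup.mem_bot, ← hZ, ← QuotientGroup.eq_one_iff, QuotientGroup.mk_pow]
    exact pow_orderOf_eq_one _
  generalize hm : orderOf ((a : Om Q ⧸ Subgroup.center (Om Q)) * b') = m at e e1 e2
  rw [e, map_one, Module.End.one_apply] at e1 e2
  have e3 : (-1 : F) ^ m = 1 := by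
    have : ((-1 : F) ^ m - 1) • (oA Q a y - y) = 0 := by linear_combination (norm := module) -e2
    exact sub_eq_zero.1 ((smul_eq_zero.1 this).resolve_right hy)
  have e4 : (m : F) = 0 := by
    have : (m : F) • (oA Q a y - y) = 0 := by rw [e3, one_smul] at e1; linear_combination (norm := module) -e1
    exact (smul_eq_zero.1 this).resolve_right hy
  have l := (QuotientGroup.mk' (Subgroup.center (Om Q))).map_isConj k1
  refine k'.concl_two (Or.inl h3) (IsConj.refl _) l (IsConj.refl _) l (l := 2) ?_ Nat.prime_two ?_ ?_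
  · exact hm ▸ (CharP.cast_eq_zero_iff F p m).1 e4
  · rintro rfl
    exact two (by exact_mod_cast CharP.cast_eq_zero F 2)
  · refine hm ▸ even_iff_two_dvd.1 (Nat.not_odd_iff_even.1 fun o => two ?_)
    rw [o.neg_one_pow] at e3
    linear_combination -e3

theorem good_Om (p : ℕ) [Fact p.Prime] [CharP F p] (h : OH Q) (h7 : 7 ≤ finrank F E) {d : F} (c0 : d ≠ 0)
    (c1 : d ≠ 1) : Good p (Om Q ⧸ Subgroup.center (Om Q)) := by
  have key : ∀ a b c : Om Q, CP (G := Om Q ⧸ Subgroup.center (Om Q)) a b c → CPZ a b c → LD Q (oA Q b) →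
      Concl (G := Om Q ⧸ Subgroup.center (Om Q)) p a b c := fun a b c k' k l => by
    rcases LD.cases h h7 (g := b.1) l with ⟨μ, e⟩ | ⟨μ, w, h1, h2, e⟩
    · refine (k.hb (Subgroup.mem_center_iff.2 fun g => om_ext fun x => ?_)).elim
      have e' : ∀ x, oA Q b x = μ • x := e
      simp only [map_mul, Module.End.mul_apply, e', map_smul]
    · exact refl_concl p h h7 k' k h1 h2 e
  exact good_quot fun a b c k' k => (ld_or h h7 c0 c1 k).elim (fun l => (key b a c k'.symm k.symm l).symm)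
    (key a b c k' k)

end Cfsg.Agent.H6.AO

namespace Cfsg.Agent.H6.AO

open Module H1 H9.AH

variable {F : Type*} [Field F] [Fintype F] (p : ℕ) [Fact p.Prime] [CharP F p]

theorem good_pom {ι : Type} [Fintype ι] [DecidableEq ι] {Q : QuadraticForm F (ι → F)} (h : OH Q)
    (h7 : 7 ≤ finrank F (ι → F)) (hq : 3 ≤ Fintype.card F) : Good p (POmega F Q) := by
  obtain ⟨d, c0, c1⟩ : ∃ d : F, d ≠ 0 ∧ d ≠ 1 := by
    classical
    by_contra! hc
    have := Finset.card_le_card (show (Finset.univ : Finset F) ⊆ {0, 1} from fun x _ => by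
      by_cases e : x = 0 <;> simp [e, hc])
    have := Finset.card_le_two (a := (0 : F)) (b := 1)
    rw [Finset.card_univ] at *
    omega
  let e : Omega F Q ≃* Om Q := commutatorEquiv (ogEquiv Q)
  refine (good_Om p h h7 c0 c1).congr (QuotientGroup.congr _ _ e ?_)
  ext x
  obtain ⟨x, rfl⟩ := e.surjective x
  rw [← MulEquiv.toMonoidHom_eq_coe, Subgroup.mem_map_equiv, e.symm_apply_apply, Subgroup.mem_center_iff,
    Subgroup.mem_center_iff, e.surjective.forall]
  simp only [← map_mul, e.apply_eq_iff_eq]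

theorem good_odd (m : ℕ) (hm : 3 ≤ m) (ho : Odd (Fintype.card F)) : Good p (POmega F (quadFormOdd m F)) :=
  good_pom p (Q := qOdd m F) ⟨qOdd_nondeg _ F (two_ne_zero_of_odd_card F ho), by simp; omega⟩ (by simp; omega) (by
    have := Fintype.one_lt_card (α := F)
    obtain ⟨k, hk⟩ := ho
    omega)

theorem good_plus (m : ℕ) (hm : 4 ≤ m) (hq : 3 ≤ Fintype.card F) : Good p (POmega F (quadFormPlus m F)) :=
  good_pom p (Q := qPlus m F) ⟨qPlus_nondeg _ F, by simp; omega⟩ (by simp; omega) hq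

theorem good_minus (m : ℕ) (a b : F) (hm : 4 ≤ m)
    (hab : ∀ z₁ z₂ : F, z₁ ^ 2 + a * z₁ * z₂ + b * z₂ ^ 2 = 0 → z₁ = 0 ∧ z₂ = 0) (hq : 3 ≤ Fintype.card F) :
    Good p (POmega F (quadFormMinus (m - 1) F a b)) :=
  good_pom p (Q := qMinus (m - 1) F a b) ⟨qMinus_nondeg _ F hab, by simp; omega⟩ (by simp; omega) hq

end Cfsg.Agent.H6.AO
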