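import Cfsg.Agent.H6.AO1
import Cfsg.Agent.H1.AU2

/-! Functions of three variables over the field with four elements, filtered by a weighted degree. -/

set_option autoImplicit false
set_option linter.unusedSectionVars false

namespace Cfsg.Agent.H6.AV

open Module Finset H5 AO

variable {F : Type*} [Field F] {σ : F →+* F} {E : Type*} [AddCommGroup E] [Module F E] [FiniteDimensional F E]
  {w : ℕ}

/-- Monomials in three variables and their conjugates. -/
def mo (σ : F →+* F) (a a' b b' c c' : ℕ) : F × F × F → F :=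
  fun v => (v.1 ^ a * σ v.1 ^ a') * (v.2.1 ^ b * σ v.2.1 ^ b') * (v.2.2 ^ c * σ v.2.2 ^ c')

/-- Functions of weighted degree at most `k`. -/
def QF (σ : F →+* F) (w k : ℕ) : Submodule F (F × F × F → F) :=
  Submodule.span F {f | ∃ a a' b b' c c', w * a + w * a' + (b + b') + (c + c') ≤ k ∧ f = mo σ a a' b b' c c'}

theorem mo_mem {a a' b b' c c' k : ℕ} (h : w * a + w * a' + (b + b') + (c + c') ≤ k) :
    mo σ a a' b b' c c' ∈ QF σ w k :=
  Submodule.subset_span ⟨a, a', b, b', c, c', h, rfl⟩

theorem QF_mono {j k : ℕ} (h : j ≤ k) : QF σ w j ≤ QF σ w k :=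
  Submodule.span_mono fun _ ⟨a, a', b, b', c, c', e, e'⟩ => ⟨a, a', b, b', c, c', e.trans h, e'⟩

theorem QF_mul {j k : ℕ} {f g : F × F × F → F} (hf : f ∈ QF σ w j) (hg : g ∈ QF σ w k) : f * g ∈ QF σ w (j + k) := by
  induction hf using Submodule.span_induction with
  | zero => simp
  | add _ _ _ _ h1 h2 => rw [add_mul]; exact add_mem h1 h2
  | smul _ _ _ h1 => rw [smul_mul_assoc]; exact Submodule.smul_mem _ _ h1
  | mem f hf =>
    induction hg using Submodule.span_induction with
    | zero => simp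
    | add _ _ _ _ h1 h2 => rw [mul_add]; exact add_mem h1 h2
    | smul _ _ _ h1 => rw [mul_smul_comm]; exact Submodule.smul_mem _ _ h1
    | mem g hg =>
      obtain ⟨a, a', b, b', c, c', e, rfl⟩ := hf
      obtain ⟨d, d', x, x', y, y', e', rfl⟩ := hg
      have : mo σ a a' b b' c c' * mo σ d d' x x' y y' =
          mo σ (a + d) (a' + d') (b + x) (b' + x') (c + y) (c' + y') := by
        ext v; simp only [mo, Pi.mul_apply]; ring
      rw [this]
      exact mo_mem (by rw [mul_add, mul_add]; omega)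

theorem QF_conj (hσ : ∀ x, σ (σ x) = x) {k : ℕ} {f : F × F × F → F} (hf : f ∈ QF σ w k) :
    (fun v => σ (f v)) ∈ QF σ w k := by
  induction hf using Submodule.span_induction with
  | zero => simp only [Pi.zero_apply, map_zero]; exact zero_mem _
  | add _ _ _ _ h1 h2 => simp only [Pi.add_apply, map_add]; exact add_mem h1 h2
  | smul c _ _ h1 => simp only [Pi.smul_apply, smul_eq_mul, map_mul]; exact Submodule.smul_mem _ (σ c) h1
  | mem f hf =>
    obtain ⟨a, a', b, b', c, c', e, rfl⟩ := hf
    have : (fun v => σ (mo σ a a' b b' c c' v)) = mo σ a' a b' b c' c := by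
      ext v; simp only [mo, map_mul, map_pow, hσ]; ring
    rw [this]
    exact mo_mem (by omega)

section sum

variable [Fintype F]

theorem sum_mo (a a' b b' c c' : ℕ) : ∑ v, mo σ a a' b b' c c' v =
    (∑ t : F, t ^ a * σ t ^ a') * (∑ t : F, t ^ b * σ t ^ b') * ∑ t : F, t ^ c * σ t ^ c' := by
  simp only [mo, Fintype.sum_prod_type, ← mul_sum, ← sum_mul]

theorem sum_low (hU : UF σ 2) {a a' : ℕ} (h : a + a' ≤ 1) : ∑ t : F, t ^ a * σ t ^ a' = 0 := by
  simp only [hU.apply, ← pow_mul, ← pow_add]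
  exact FiniteField.sum_pow_lt_card_sub_one F _ (by rw [hU.card]; omega)

theorem sum_norm (hU : UF σ 2) : ∑ t : F, t ^ 1 * σ t ^ 1 = -1 := by
  classical
  have h1 : ∀ t : F, t ^ 1 * σ t ^ 1 = 1 - if t = 0 then 1 else 0 := fun t => by
    split_ifs with h
    · simp [h]
    · have := FiniteField.pow_card_sub_one_eq_one t h
      rw [hU.card] at this
      rw [hU.apply]
      linear_combination this
  simp only [h1, sum_sub_distrib, sum_ite_eq', mem_univ, if_true, sum_const, card_univ, nsmul_eq_mul,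
    FiniteField.cast_card_eq_zero]
  ring

theorem QF_sum (hU : UF σ 2) {k : ℕ} (hk : k < 2 * w + 4) {f : F × F × F → F} (hf : f ∈ QF σ w k) : ∑ v, f v = 0 := by
  induction hf using Submodule.span_induction with
  | zero => simp
  | add _ _ _ _ h1 h2 => simp [sum_add_distrib, h1, h2]
  | smul c _ _ h1 => simp [← mul_sum, h1]
  | mem f hf =>
    obtain ⟨a, a', b, b', c, c', e, rfl⟩ := hf
    rw [sum_mo]
    by_cases h : a + a' ≤ 1
    · rw [sum_low hU h]; ring
    have : w * 2 ≤ w * a + w * a' := by rw [← mul_add]; exact Nat.mul_le_mul_left _ (by omega)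
    rcases (by omega : b + b' ≤ 1 ∨ c + c' ≤ 1) with e | e <;> rw [sum_low hU e] <;> ring

theorem QF_const (hU : UF σ 2) {f : F × F × F → F} (hf : f ∈ QF σ 1 5) (h0 : f 0 = 0) {C : F}
    (h : ∀ v, v ≠ 0 → f v = C) : C = 0 := by
  classical
  have h1 : ∀ v, f v = C - if v = 0 then C else 0 := fun v => by
    split_ifs with k
    · simp [k, h0]
    · simp [h v k]
  have := QF_sum hU (by omega) hf
  simpa [h1, FiniteField.cast_card_eq_zero] using this

end sum

/-- Functions with values in endomorphisms. -/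
structure QE (σ : F →+* F) (k : ℕ) (X : F × F × F → Module.End F E) : Prop where
  out : ∀ φ : Module.End F E →ₗ[F] F, (fun v => φ (X v)) ∈ QF σ 2 k

theorem QE.mono {j k : ℕ} {X : F × F × F → Module.End F E} (h : QE σ j X) (e : j ≤ k) : QE σ k X :=
  ⟨fun φ => QF_mono e (h.out φ)⟩

theorem QE.term {a a' b b' c c' k : ℕ} (h : 2 * a + 2 * a' + (b + b') + (c + c') ≤ k) (Y : Module.End F E) :
    QE σ k fun v => mo σ a a' b b' c c' v • Y :=
  ⟨fun φ => by
    have : (fun v => φ (mo σ a a' b b' c c' v • Y)) = φ Y • mo σ a a' b b' c c' := by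
      ext v; simp [mul_comm]
    rw [this]
    exact Submodule.smul_mem _ _ (mo_mem h)⟩

theorem QE.const (k : ℕ) (Y : Module.End F E) : QE σ k fun _ => Y := by
  simpa [mo] using QE.term (σ := σ) (a := 0) (a' := 0) (b := 0) (b' := 0) (c := 0) (c' := 0) (k := k) (Nat.zero_le _) Y

theorem QE.add {k : ℕ} {X Y : F × F × F → Module.End F E} (h : QE σ k X) (h' : QE σ k Y) :
    QE σ k fun v => X v + Y v :=
  ⟨fun φ => by
    simp only [map_add]
    exact add_mem (h.out φ) (h'.out φ)⟩

theorem QE.mul {j k : ℕ} {X Y : F × F × F → Module.End F E} (h : QE σ j X) (h' : QE σ k Y) :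
    QE σ (j + k) fun v => X v * Y v :=
  ⟨fun φ => by
    let β := (LinearMap.mul F (Module.End F E)).compr₂ φ
    let b := finBasis F (Module.End F E)
    have : (fun v => φ (X v * Y v)) = ∑ i, (fun v => b.coord i (X v)) * fun v => β (b i) (Y v) := by
      ext v
      change β (X v) (Y v) = _
      conv_lhs => rw [← b.sum_repr (X v), map_sum, LinearMap.sum_apply]
      simp
    rw [this]
    exact Submodule.sum_mem _ fun i _ => QF_mul (h.out _) (h'.out _)⟩

theorem QE.four {i j k : ℕ} {X Y : F × F × F → Module.End F E} (h : QE σ i X) (h' : QE σ j Y) (A B : Module.End F E)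
    (e : i + j ≤ k) : QE σ k fun v => A * X v * B * Y v :=
  ((((QE.const 0 A).mul h).mul (QE.const 0 B)).mul h').mono (by omega)

theorem QE.e2 {k : ℕ} {X : F × F × F → Module.End F E} (h : QE σ k X) : (fun v => e2 (X v)) ∈ QF σ 2 (k + k) := by
  let m : Fin (finrank F E) → Fin (finrank F E) → Module.End F E →ₗ[F] F := fun i j =>
    (Matrix.entryLinearMap F F i j).comp (LinearMap.toMatrix (finBasis F E) (finBasis F E)).toLinearMap
  have : (fun v => AO.e2 (X v)) = ∑ i, ∑ j, if i < j then (fun v => m i i (X v)) * (fun v => m j j (X v)) -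
      (fun v => m i j (X v)) * (fun v => m j i (X v)) else 0 := by
    ext v
    simp only [AO.e2, D2, Finset.sum_apply]
    refine sum_congr rfl fun i _ => sum_congr rfl fun j _ => ?_
    split_ifs <;> simp [m]
  rw [this]
  refine Submodule.sum_mem _ fun i _ => Submodule.sum_mem _ fun j _ => ?_
  split_ifs
  · exact sub_mem (QF_mul (h.out _) (h.out _)) (QF_mul (h.out _) (h.out _))
  · exact zero_mem _

theorem ext_core [Fintype F] (hU : UF σ 2) (A B : Module.End F E) {κ δ : F}
    {g1 g2 G1 G2 : F × F × F → Module.End F E} (p1 : QE σ 1 g1) (p2 : QE σ 1 g2) (P1 : QE σ 2 G1) (P2 : QE σ 2 G2)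
    (hk : ∀ v, e2 (A * (g1 v + G1 v) * B * (g2 v + G2 v)) =
      κ * σ (LinearMap.trace F E (A * (g1 v + G1 v) * B * (g2 v + G2 v))))
    (top : ∀ v, e2 (A * G1 v * B * G2 v) =
      δ * (mo σ 2 2 0 0 0 0 v - mo σ 2 1 0 1 1 0 v - mo σ 1 2 1 0 0 1 v + mo σ 1 1 1 1 1 1 v)) : δ = 0 := by
  have lo := ((p1.four p2 A B (k := 3) (by omega)).add (p1.four P2 A B (by omega))).add (P1.four p2 A B (by omega))
  have hi := P1.four P2 A B (k := 4) (by omega)
  have h1 := QF_sum hU (by omega) lo.e2
  have h2 := QF_sum hU (by omega) (QF_mul (lo.out (LinearMap.trace F E)) (hi.out (LinearMap.trace F E)))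
  have h3 := QF_sum hU (by omega) ((lo.mul hi).out (LinearMap.trace F E))
  have h4 := QF_sum hU (by omega) (QF_conj hU.invol (((lo.mono (by omega)).add hi).out (LinearMap.trace F E)))
  have e : ∀ v, A * (g1 v + G1 v) * B * (g2 v + G2 v) =
    A * g1 v * B * g2 v + A * g1 v * B * G2 v + A * G1 v * B * g2 v + A * G1 v * B * G2 v := fun v => by noncomm_ring
  simp only [e] at hk
  have h5 := sum_congr (rfl : (univ : Finset (F × F × F)) = _) fun v _ => (e2_add _ _).symm.trans (hk v)
  simp only [Pi.mul_apply] at h2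
  simp only [sum_add_distrib, sum_sub_distrib, ← mul_sum, h1, h2, h3, h4, top, sum_mo, sum_norm hU,
    sum_low hU (show 0 + 0 ≤ 1 by omega), sum_low hU (show 0 + 1 ≤ 1 by omega),
    sum_low hU (show 1 + 0 ≤ 1 by omega)] at h5
  linear_combination -h5

end Cfsg.Agent.H6.AV
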