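import Cfsg.Agent.H6.AV1

/-! Products of classes in unitary groups over the field with four elements: totally isotropic lines. -/

set_option autoImplicit false
set_option linter.unusedSectionVars false

namespace Cfsg.Agent.H6.AV

open Module H5 H1 H1.AU H9.AH AO

variable {F : Type*} [Field F] {σ : F →+* F} {E : Type*} [AddCommGroup E] [Module F E]
  [FiniteDimensional F E] {B : Sesq σ E} (hB : IsEps B 1) [Fintype F] (hU : UF σ 2)

include hB hU

theorem iso_not_mem {S R : Submodule F E} (h : finrank F R + 2 ≤ finrank F S) : ∃ v ∈ S, v ∉ R ∧ B v v = 0 := by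
  obtain ⟨C, hC⟩ := R.exists_isCompl
  have h1 := Submodule.finrank_add_eq_of_isCompl hC
  have h2 := Submodule.finrank_sup_add_finrank_inf_eq S C
  have h3 := Submodule.finrank_le (S ⊔ C)
  obtain ⟨v, hv, v0, hv'⟩ := exists_iso_vec hB hU (S ⊓ C) (by omega)
  exact ⟨v, hv.1, fun k => v0 (Submodule.disjoint_def.1 hC.disjoint v k hv.2), hv'⟩

theorem iso_perp (h6 : 6 ≤ finrank F E) (x y : E) :
    ∃ p, p ∉ (F ∙ x) ⊔ (F ∙ y) ∧ B p p = 0 ∧ B p x = 0 ∧ B p y = 0 := by
  obtain ⟨p, hp, h1, h2⟩ := iso_not_mem hB hU (S := perp B ((F ∙ x) ⊔ F ∙ y)) (R := (F ∙ x) ⊔ F ∙ y) (by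
    have := hB.finrank_perp ((F ∙ x) ⊔ F ∙ y)
    have := finrank_two_le (F := F) x y
    omega)
  exact ⟨p, h1, h2, mem_perp_two.1 hp⟩

theorem hyp_perp (h6 : 6 ≤ finrank F E) (x y : E) : ∃ p p', B p p = 0 ∧ B p' p' = 0 ∧ B p' p = 1 ∧
    B p x = 0 ∧ B p y = 0 ∧ B p' x = 0 ∧ B p' y = 0 := by
  obtain ⟨p, h1, h2, h3, h4⟩ := iso_perp hB hU h6 x y
  obtain ⟨f, f1, f2, f3⟩ := exists_partner hB hU (by rintro rfl; exact h1 (zero_mem _)) h2 h1 (mem_perp_two.2 ⟨h3, h4⟩)
  exact ⟨p, f, h2, f1, f2, h3, h4, mem_perp_two.1 f3⟩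

theorem ext_line (h6 : 6 ≤ finrank F E) (A D : Module.End F E) {κ : F}
    (hk : ∀ g : SUb B, e2 (A * suAct B g * D * suAct B g⁻¹) =
      κ * σ (LinearMap.trace F E (A * suAct B g * D * suAct B g⁻¹))) {x y : E} (hx : B x x = 0) (hy : B y y = 0)
    (hxy : B x y = 0) : (B (A x) x * B (A y) y - B (A x) y * B (A y) x) *
      (B (D x) x * B (D y) y - B (D x) y * B (D y) x) = 0 := by
  obtain ⟨p, p', h1, h2, h3, h4, h5, h6, h7⟩ := hyp_perp hB hU h6 x y
  have hyx := hB.refl hxy
  have h3' : B p p' = 1 := by rw [hB.herm, h3, map_one]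
  have a1 : ∀ s : F, Adm B (s • y) x 0 := fun s => ⟨hx, by simp [hyx], by simp [hy]⟩
  have a2 : ∀ s : F, Adm B (s • p) y 0 := fun s => ⟨hy, by simp [h5], by simp [h1]⟩
  have a3 : ∀ s : F, Adm B (s • p') x 0 := fun s => ⟨hx, by simp [h6], by simp [h2]⟩
  let g : F × F × F → SUb B := fun v => ei hB (v.1 • y) x 0 * ei hB (v.2.2 • p) y 0 * ei hB (v.2.1 • p') x 0
  let g1 : F × F × F → Module.End F E := fun v => 1 + mo σ 0 0 1 0 0 0 v • RR B p' x + mo σ 0 0 0 1 0 0 v • -RR B x p' +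
    mo σ 0 0 0 0 1 0 v • RR B p y + mo σ 0 0 0 0 0 1 v • -RR B y p
  let g2 : F × F × F → Module.End F E := fun v => 1 + mo σ 0 0 1 0 0 0 v • -RR B p' x + mo σ 0 0 0 1 0 0 v • RR B x p' +
    mo σ 0 0 0 0 1 0 v • -RR B p y + mo σ 0 0 0 0 0 1 v • RR B y p
  let G1 : F × F × F → Module.End F E := fun v => mo σ 1 0 0 0 0 0 v • RR B y x + mo σ 0 1 0 0 0 0 v • -RR B x y +
    mo σ 0 0 1 0 0 1 v • -RR B y x
  let G2 : F × F × F → Module.End F E := fun v => mo σ 1 0 0 0 0 0 v • -RR B y x + mo σ 0 1 0 0 0 0 v • RR B x y +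
    mo σ 0 0 0 1 1 0 v • -RR B x y
  have e1 : ∀ v, suAct B (g v) = g1 v + G1 v := fun v => LinearMap.ext fun z => by
    simp only [g, map_mul, Module.End.mul_apply, ei_apply hB (a1 _), ei_apply hB (a2 _), ei_apply hB (a3 _)]
    simp [g1, G1, RR, mo, hx, hy, hxy, hyx, h3, h4, h5, h6, h7, hB.refl h4]
    module
  have e2' : ∀ v, suAct B (g v)⁻¹ = g2 v + G2 v := fun v => LinearMap.ext fun z => by
    simp only [g, mul_inv_rev, ei_inv hB (a1 _), ei_inv hB (a2 _), ei_inv hB (a3 _), ← neg_smul, map_zero, map_mul,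
      Module.End.mul_apply, ei_apply hB (a1 _), ei_apply hB (a2 _), ei_apply hB (a3 _)]
    simp [g2, G2, RR, mo, hx, hy, hxy, hyx, h3', h4, hB.refl h4, hB.refl h5, hB.refl h6, hB.refl h7]
    module
  have p1 : QE σ 1 g1 := ((((QE.const 1 1).add (QE.term (by omega) _)).add (QE.term (by omega) _)).add
    (QE.term (by omega) _)).add (QE.term (by omega) _)
  have p2 : QE σ 1 g2 := ((((QE.const 1 1).add (QE.term (by omega) _)).add (QE.term (by omega) _)).add
    (QE.term (by omega) _)).add (QE.term (by omega) _)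
  have P1 : QE σ 2 G1 := ((QE.term (by omega) _).add (QE.term (by omega) _)).add (QE.term (by omega) _)
  have P2 : QE σ 2 G2 := ((QE.term (by omega) _).add (QE.term (by omega) _)).add (QE.term (by omega) _)
  refine ext_core hU A D (κ := κ) p1 p2 P1 P2 (fun v => by rw [← e1, ← e2', hk]) fun v => ?_
  have : A * G1 v * D * G2 v = (B.flip x).smulRight (-v.1 • A (G1 v (D y))) +
      (B.flip y).smulRight ((σ v.1 - σ v.2.1 * v.2.2) • A (G1 v (D x))) := LinearMap.ext fun z => by
    simp only [Module.End.mul_apply, G2, RR, mo, LinearMap.add_apply, LinearMap.smul_apply, LinearMap.neg_apply,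
      LinearMap.smulRight_apply, map_add, map_smul, map_neg]
    module
  rw [this, e2_two]
  simp only [G1, RR, mo, LinearMap.add_apply, LinearMap.smul_apply, LinearMap.neg_apply, LinearMap.flip_apply,
    LinearMap.smulRight_apply, map_add, map_smul, map_neg, smul_eq_mul]
  ring

theorem cube {l : F} (h : l ≠ 0) : l ^ 3 = 1 := by
  have := FiniteField.pow_card_sub_one_eq_one l h
  rwa [hU.card] at this

theorem e2_rel (h3 : 3 ≤ finrank F E) {a b c : SUb B} (k : CPZ a b c) : ∃ κ : F, ∀ a' b', IsConj a a' → IsConj b b' →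
    e2 (suAct B (a' * b')) = κ * σ (LinearMap.trace F E (suAct B (a' * b'))) := by
  refine ⟨e2 (suAct B c) / σ (LinearMap.trace F E (suAct B c)), fun a' b' ka kb => ?_⟩
  obtain ⟨z, hz, e⟩ := k.conj a' b' ka kb
  obtain ⟨l, h1, -, h2⟩ := scalar_of_center hB hU (by omega) hz
  obtain ⟨u, hu⟩ := isConj_iff.1 e
  have h4 : suAct B z = l • 1 := LinearMap.ext h2
  have e1 : e2 (suAct B (u * c * u⁻¹)) = e2 (suAct B c) := by
    rw [map_mul, e2_comm, ← map_mul, inv_mul_cancel_left]
  have e3 : LinearMap.trace F E (suAct B (u * c * u⁻¹)) = LinearMap.trace F E (suAct B c) := by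
    rw [map_mul, LinearMap.trace_mul_comm, ← map_mul, inv_mul_cancel_left]
  have h5 := (map_ne_zero σ).2 (trace_ne_zero hB hU h3 k ka kb)
  have l0 : l ≠ 0 := by rintro rfl; simp at h1
  rw [← e1, ← e3, hu, map_mul (suAct B) z, h4, smul_mul_assoc, one_mul, e2_smul, map_smul, smul_eq_mul, map_mul σ,
    hU.apply l]
  field_simp

/-- No totally isotropic line is mapped to an opposite line. -/
def LU (B : Sesq σ E) (a : Module.End F E) : Prop :=
  ∀ x y, B x x = 0 → B y y = 0 → B x y = 0 → B (a x) x * B (a y) y = B (a x) y * B (a y) x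

omit hB hU in
theorem not_mem_of_det {A : Module.End F E} {x y : E} (h : B (A x) x * B (A y) y ≠ B (A x) y * B (A y) x) :
    x ≠ 0 ∧ y ∉ F ∙ x := by
  refine ⟨fun e => h (by simp [e]), fun e => h ?_⟩
  obtain ⟨c, rfl⟩ := Submodule.mem_span_singleton.1 e
  simp only [map_smul, LinearMap.smul_apply, LinearMap.map_smulₛₗ, smul_eq_mul]
  ring

theorem lu_or (h6 : 6 ≤ finrank F E) {a b c : SUb B} (k : CPZ a b c) : LU B (suAct B a) ∨ LU B (suAct B b) := by
  by_contra hc
  simp only [LU, not_or, not_forall] at hc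
  obtain ⟨⟨x, y, hx, hy, hxy, h1⟩, x', y', hx', hy', hxy', h2⟩ := hc
  obtain ⟨u, hu, hu'⟩ := exists_aniso_perp hB hU ((F ∙ x') ⊔ F ∙ y') (by have := finrank_two_le (F := F) x' y'; omega)
  obtain ⟨g, g1, g2⟩ := su_move2 hB hU (not_mem_of_det h2).1 (not_mem_of_det h1).1 (not_mem_of_det h2).2
    (not_mem_of_det h1).2 (hx.trans hx'.symm) ((hB.refl hxy).trans (hB.refl hxy').symm) (hy.trans hy'.symm) hu'
    (mem_perp_two.1 hu).1 (mem_perp_two.1 hu).2
  obtain ⟨κ, hκ⟩ := e2_rel hB hU (by omega) k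
  have := ext_line hB hU h6 (suAct B a) (suAct B (g * b * g⁻¹)) (κ := κ) (fun h => by
    simpa only [map_mul (suAct B), mul_assoc] using
      hκ a _ (IsConj.refl a) ((isConj_conj g b).trans (isConj_conj h _))) hx hy hxy
  refine (mul_eq_zero.1 this).elim (fun e => h1 (sub_eq_zero.1 e)) fun e => h2 ?_
  have t : ∀ z, suAct B (g * b * g⁻¹) (suAct B g z) = suAct B g (suAct B b z) := fun z => by
    rw [← act_mul_apply, inv_mul_cancel_right, act_mul_apply]
  rw [← g1, ← g2] at e
  simpa only [t, suAct_pres, sub_eq_zero] using e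

theorem LU.transv (h6 : 6 ≤ finrank F E) (h3 : 3 ∣ finrank F E) {a : SUb B} (ha : a ∉ Subgroup.center (SUb B))
    (h : LU B (suAct B a)) : ∃ (s : F) (u : E), s ≠ 0 ∧ u ≠ 0 ∧ B u u = 0 ∧ ∀ z, suAct B a z = s • (z + B z u • u) := by
  have two : (2 : F) = 0 := by simpa using hU.cast_q
  obtain ⟨v, hv, hA⟩ := exists_opp hB hU (by omega) (M := suAct B a) fun l k => ha (center_of_scalar k)
  obtain ⟨f, hf⟩ : ∃ f, suAct B a f = v := ⟨suAct B a⁻¹ v, by rw [← act_mul_apply, mul_inv_cancel, map_one]; rfl⟩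
  have k0 : ∀ y, B (suAct B a y) v = B y f := fun y => by rw [← hf, suAct_pres]
  have hff : B f f = 0 := by rw [← k0, hf, hv]
  rw [k0] at hA
  have hA' : B f v ≠ 0 := fun e => hA (hB.refl e)
  obtain ⟨d1, d2⟩ := disjoint_sup_hyp hB (W := ⊥) (by simp) (e := v) (f := f) (by simp) (by simp) hv hff hA'
  rw [bot_sup_eq] at d1 d2
  have d3 := hB.finrank_perp ((F ∙ v) ⊔ F ∙ f)
  rw [finrank_bot] at d2
  let M : Module.End F E := suAct B a - (B.flip f ∘ₗ suAct B a).smulRight ((B v f)⁻¹ • v)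
  have hM : ∀ y, M y = suAct B a y - (B (suAct B a y) f / B v f) • v := fun y => by
    simp [M, smul_smul, div_eq_mul_inv]
  have hM' : ∀ y ∈ perp B ((F ∙ v) ⊔ F ∙ f), M y ∈ perp B ((F ∙ v) ⊔ F ∙ f) := fun y hy =>
    mem_perp_two.2 ⟨by simp [hM, k0, hv, (mem_perp_two.1 hy).2], by simp [hM, hA]⟩
  obtain ⟨s, hs⟩ : ∃ s : F, ∀ y, B y v = 0 → B y f = 0 → suAct B a y = s • y + (B (suAct B a y) f / B v f) • v := by
    by_contra hc
    obtain ⟨⟨y, hy⟩, y1, y2⟩ := exists_opp (hB.restrict_perp d1) hU (by omega) (M := M.restrict hM') fun l k =>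
      hc ⟨l, fun y h1 h2 => sub_eq_iff_eq_add.1 ((hM y).symm.trans
        (congrArg Subtype.val (k ⟨y, mem_perp_two.2 ⟨h1, h2⟩⟩)))⟩
    obtain ⟨y3, y4⟩ := mem_perp_two.1 hy
    have := h v y hv y1 (hB.refl y3)
    rw [k0, k0, y4, mul_zero] at this
    refine y2 ?_
    change B (M y) y = 0
    simp [hM, hB.refl y3, (mul_eq_zero.1 this).resolve_left hA]
  obtain ⟨p, p', p1, p2, p3, p4, p5, p6, p7⟩ := hyp_perp hB hU h6 v f
  have p3' : B p p' = 1 := by rw [hB.herm, p3, map_one]
  have s0 : s ≠ 0 := by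
    rintro rfl
    have := suAct_pres a p p'
    rw [hs p p4 p5, hs p' p6 p7] at this
    simp [hv, p3'] at this
  have rel : ∀ y, B y v = 0 → B y f = 0 →
      s * B y (suAct B a v) + B (suAct B a y) f / B v f * B f v = 0 := fun y h1 h2 => by
    have := suAct_pres a y v
    rw [hs y h1 h2, h1] at this
    simpa [hB.herm (suAct B a v) v, k0, ← hB.herm v f] using this
  have iso : ∀ y, B y v = 0 → B y f = 0 → B y y = 0 → B (suAct B a v) y = 0 := fun y h1 h2 h4 => by
    by_contra hc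
    have := h (f + (B v f)⁻¹ • v) y (by
      simp only [map_add, map_smul, LinearMap.add_apply, LinearMap.smul_apply, LinearMap.map_smulₛₗ, smul_eq_mul,
        hv, hff, map_inv₀, ← hB.herm]
      field_simp
      linear_combination B v f * B f v * two) h4 (by simp [hB.refl h1, hB.refl h2])
    have e : B (suAct B a y) y = 0 := by rw [hs y h1 h2]; simp [h4, hB.refl h1]
    rw [e, mul_zero, map_add, hf, map_smul] at this
    simp only [map_add, map_smul, LinearMap.add_apply, LinearMap.smul_apply, LinearMap.map_smulₛₗ, smul_eq_mul,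
      k0, h2, hB.refl h1, mul_zero, add_zero, zero_add] at this
    have e' := (mul_eq_zero.1 this.symm).resolve_left (mul_ne_zero (inv_ne_zero hA) hc)
    have r := rel y h1 h2
    rw [e', zero_div, zero_mul, add_zero] at r
    exact hc (hB.refl ((mul_eq_zero.1 r).resolve_left s0))
  have mem : suAct B a v ∈ perp B (perp B ((F ∙ v) ⊔ F ∙ f)) := by
    by_contra hc
    obtain ⟨y, hy, y1, y2⟩ := exists_iso_pairing hB hU (hB.disjoint_perp_perp d1) (by omega) hc
    exact y2 (iso y (mem_perp_two.1 hy).1 (mem_perp_two.1 hy).2 y1)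
  have hs' : ∀ y, B y v = 0 → B y f = 0 → suAct B a y = s • y := fun y h1 h2 => by
    have r := rel y h1 h2
    rw [hB.refl (mem y (mem_perp_two.2 ⟨h1, h2⟩)), mul_zero, zero_add] at r
    rw [hs y h1 h2, (mul_eq_zero.1 r).resolve_right hA', zero_smul, add_zero]
  rw [hB.perp_perp] at mem
  obtain ⟨α, β, hαβ⟩ := mem_span_pair'.1 mem
  have b1 : β * B f v = B v f := by rw [← k0 v, hαβ]; simp [hv]
  have b2 : β = -((α - s) * s) := by
    have := h (v + p) (f - B f v • p') (by simp [hv, p1, p4, hB.refl p4])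
      (by simp [hff, p2, p7, hB.refl p7]) (by simp [p5, hB.refl p6, p3', ← hB.herm])
    simp only [map_add, map_sub, map_smul, hf, hαβ, hs' p p4 p5, hs' p' p6 p7, LinearMap.add_apply,
      LinearMap.sub_apply, LinearMap.smul_apply, LinearMap.map_smulₛₗ, smul_eq_mul, hv, hff, p1, p2,
      p3, p3', p4, p5, p6, p7, hB.refl p4, hB.refl p5, hB.refl p6, hB.refl p7, ← hB.herm] at this
    refine mul_right_cancel₀ (mul_ne_zero hA hA') ?_
    linear_combination this
  let ψ : E →ₗ[F] F := (s * B v f)⁻¹ • B.flip f ∘ₗ (suAct B a - s • 1)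
  have hψ : ∀ z, ψ z = (B (suAct B a z) f - s * B z f) / (s * B v f) := fun z => by simp [ψ, div_eq_inv_mul]
  have hT : ∀ z, suAct B a z = s • (z + ψ z • (v - s • f)) := fun z => by
    obtain ⟨z1, hz1, y, hy, rfl⟩ := Submodule.mem_sup.1 ((hB.isCompl_perp d1).sup_eq_top ▸ Submodule.mem_top (x := z))
    obtain ⟨c, d, rfl⟩ := mem_span_pair'.1 hz1
    obtain ⟨y1, y2⟩ := mem_perp_two.1 hy
    have : ψ (c • v + d • f + y) = (c * (α - s) + d) / s := by
      simp only [hψ, map_add, map_smul, hαβ, hf, hs' y y1 y2, LinearMap.add_apply, LinearMap.smul_apply, smul_eq_mul,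
        hff, y2]
      field_simp
      ring
    rw [this]
    simp only [map_add, map_smul, hαβ, hf, hs' y y1 y2, b2]
    match_scalars <;> field_simp <;> ring
  have det := suAct_det a
  obtain ⟨m, hm⟩ := h3
  rw [show suAct B a = s • LinearMap.transvection ψ (v - s • f) from LinearMap.ext hT, LinearMap.det_smul,
    LinearMap.transvection.det, hm, pow_mul, cube hB hU s0, one_pow, one_mul, hψ] at det
  simp only [map_sub, map_smul, hαβ, hf, map_add, LinearMap.add_apply, LinearMap.sub_apply, LinearMap.smul_apply,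
    smul_eq_mul, hff] at det
  have b3 : α = 2 * s := by
    field_simp at det
    exact mul_left_cancel₀ hA (by linear_combination det)
  have s3 := cube hB hU s0
  have b4 : B v f = s ^ 2 * B f v := by rw [← b1, b2, b3]; linear_combination -s ^ 2 * B f v * two
  have b5 : s * B f v = 1 := by
    have := hB.herm v f
    rw [hU.apply] at this
    refine mul_left_cancel₀ (mul_ne_zero s0 hA') ?_
    linear_combination (-s) * this - s * (B v f + s ^ 2 * B f v) * b4 - s ^ 2 * B f v ^ 2 * s3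
  have b6 : s ^ 2 * B v f = 1 := by rw [b4]; linear_combination s * B f v * s3 + b5
  refine ⟨s, v - s • f, s0, fun e => hA (by simpa [hff] using congrArg (fun x => B x f) e), ?_, fun z => ?_⟩
  · simp only [map_sub, map_smul, LinearMap.sub_apply, LinearMap.smul_apply, LinearMap.map_smulₛₗ, smul_eq_mul,
      hv, hff, hU.apply]
    linear_combination -b5 - b6 - two
  · have e := suAct_pres a z f
    rw [hf, hT z] at e
    simp only [map_add, map_sub, map_smul, LinearMap.add_apply, LinearMap.sub_apply, LinearMap.smul_apply,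
      smul_eq_mul, hv] at e
    rw [hT z]
    congr 3
    simp only [map_sub, LinearMap.map_smulₛₗ, smul_eq_mul, hU.apply]
    linear_combination -s ^ 2 * e - ψ z * s ^ 3 * b5 + (B z v - ψ z) * s3

end Cfsg.Agent.H6.AV
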