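import Cfsg.Agent.H6.AV2

/-! S2451 for the unitary groups over the field with four elements. -/

set_option autoImplicit false
set_option linter.unusedSectionVars false

namespace Cfsg.Agent.H6.AV

open Module H5 H1 H1.AU H9.AH AO

variable {F : Type*} [Field F] {σ : F →+* F} {E : Type*} [AddCommGroup E] [Module F E]
  [FiniteDimensional F E] {B : Sesq σ E}

theorem fr_le (W : Submodule F E) (g : Module.End F E) :
    finrank F W ≤ finrank F (LinearMap.ker g) + finrank F (W.map g) := by
  have h1 := LinearMap.finrank_range_add_finrank_ker (g.domRestrict W)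
  rw [LinearMap.range_domRestrict, LinearMap.ker_domRestrict] at h1
  have h2 : finrank F ((LinearMap.ker g).comap W.subtype) ≤ finrank F (LinearMap.ker g) := by
    rw [← Submodule.finrank_map_subtype_eq]
    exact Submodule.finrank_mono (Submodule.map_comap_le _ _)
  omega

variable (hB : IsEps B 1) [Fintype F] (hU : UF σ 2)

include hB hU

theorem plane_const (h6 : 6 ≤ finrank F E) (M : Module.End F E) {C : F} :
    ((∀ u, u ≠ 0 → B u u = 0 → B (M u) u = C) → C = 0) ∧ ∃ u, u ≠ 0 ∧ B u u = 0 ∧ B (M u) u = 0 := by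
  obtain ⟨x, x0, hx, -⟩ := iso_perp hB hU h6 0 0
  obtain ⟨y, y0, hy, hyx, -⟩ := iso_perp hB hU h6 x x
  obtain ⟨z, z0, hz, hzx, hzy⟩ := iso_perp hB hU h6 x y
  let w : F × F × F → E := fun v => v.1 • x + v.2.1 • y + v.2.2 • z
  have w0 : ∀ v, v ≠ 0 → w v ≠ 0 := fun ⟨r, s, t⟩ h e => h (by
    have h1 : t = 0 := by
      by_contra k
      refine z0 (mem_span_pair'.2 ⟨-r / t, -s / t, smul_right_injective E k ?_⟩)
      simp only [smul_add, smul_smul, mul_div_cancel₀ _ k]
      linear_combination (norm := module) e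
    have h2 : s = 0 := by
      by_contra k
      refine y0 (mem_span_pair'.2 ⟨-r / s, 0, smul_right_injective E k ?_⟩)
      simp only [smul_add, smul_smul, mul_div_cancel₀ _ k]
      simp only [w, h1] at e
      linear_combination (norm := module) e
    have h3 : r = 0 := by
      simp only [w, h1, h2, zero_smul, add_zero, smul_eq_zero] at e
      exact e.resolve_right (by rintro rfl; exact x0 (zero_mem _))
    simp [h1, h2, h3])
  have w1 : ∀ v, B (w v) (w v) = 0 := fun v => by
    simp [w, hx, hy, hz, hyx, hzx, hzy, hB.refl hyx, hB.refl hzx, hB.refl hzy]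
  have hq : (fun v => B (M (w v)) (w v)) ∈ QF σ 1 2 := by
    have : (fun v => B (M (w v)) (w v)) = B (M x) x • mo σ 1 1 0 0 0 0 + B (M x) y • mo σ 1 0 0 1 0 0 +
        B (M x) z • mo σ 1 0 0 0 0 1 + B (M y) x • mo σ 0 1 1 0 0 0 + B (M y) y • mo σ 0 0 1 1 0 0 +
        B (M y) z • mo σ 0 0 1 0 0 1 + B (M z) x • mo σ 0 1 0 0 1 0 + B (M z) y • mo σ 0 0 0 1 1 0 +
        B (M z) z • mo σ 0 0 0 0 1 1 := by
      ext v
      simp [w, mo]
      ring
    rw [this]
    refine add_mem (add_mem (add_mem (add_mem (add_mem (add_mem (add_mem (add_mem ?_ ?_) ?_) ?_) ?_) ?_) ?_) ?_) ?_ <;>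
      exact Submodule.smul_mem _ _ (mo_mem (by omega))
  refine ⟨fun h => QF_const hU (QF_mono (by omega) hq) (by simp [w]) fun v k => h _ (w0 v k) (w1 v), ?_⟩
  by_contra! hc
  refine one_ne_zero (QF_const hU (QF_mono (show 2 + 2 ≤ 5 by omega) (QF_mul hq (QF_conj hU.invol hq))) (by simp [w])
    fun v k => ?_)
  rw [Pi.mul_apply, hU.norm_eq]
  exact cube hB hU (hc _ (w0 v k) (w1 v))

theorem conj_transv (h3 : 3 ≤ finrank F E) {a : SUb B} {s : F} {u : E} (u0 : u ≠ 0) (hu : B u u = 0)
    (ha : ∀ z, suAct B a z = s • (z + B z u • u)) :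
    (∀ a', IsConj a a' → ∃ u', ∀ z, suAct B a' z = s • (z + B z u' • u')) ∧
      ∀ u', u' ≠ 0 → B u' u' = 0 → ∃ a', IsConj a a' ∧ ∀ z, suAct B a' z = s • (z + B z u' • u') := by
  have key : ∀ (g : SUb B) z, suAct B (g * a * g⁻¹) z = s • (z + B z (suAct B g u) • suAct B g u) := fun g z => by
    have : suAct B g (suAct B g⁻¹ z) = z := by rw [← act_mul_apply, mul_inv_cancel, map_one]; rfl
    rw [act_mul_apply, act_mul_apply, ha, map_smul, map_add, map_smul, ← suAct_pres g, this]
  refine ⟨fun a' k => ?_, fun u' h0 h1 => ?_⟩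
  · obtain ⟨g, rfl⟩ := isConj_iff.1 k
    exact ⟨_, key g⟩
  · obtain ⟨g, rfl⟩ := su_move1 hB hU h3 u0 h0 (h1.trans hu.symm)
    exact ⟨_, isConj_conj g a, key g⟩

theorem cubic (h6 : 6 ≤ finrank F E) {a b c : SUb B} (k : CPZ a b c) {s : F} (s0 : s ≠ 0)
    (ha : ∀ u', u' ≠ 0 → B u' u' = 0 → ∃ a', IsConj a a' ∧ ∀ z, suAct B a' z = s • (z + B z u' • u')) :
    ∃ l ν : F, ν ≠ 0 ∧ (suAct B b - l • 1) * ((suAct B b - ν • 1) * (suAct B b - ν • 1)) = 0 := by
  have two : (2 : F) = 0 := by simpa using hU.cast_q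
  obtain ⟨κ, hκ⟩ := e2_rel hB hU (by omega) k
  have adj : ∀ (g : SUb B) x y, B (suAct B g x) y = B x (suAct B g⁻¹ y) := fun g x y => by
    rw [← suAct_pres g x, ← act_mul_apply, mul_inv_cancel, map_one]; rfl
  have inv : ∀ x, suAct B b⁻¹ (suAct B b x) = x := fun x => by rw [← act_mul_apply, inv_mul_cancel, map_one]; rfl
  set e := LinearMap.trace F E (suAct B b) with he
  have main : ∀ u, u ≠ 0 → B u u = 0 → e + B (suAct B b u) u ≠ 0 ∧
      B ((e • suAct B b - suAct B b * suAct B b - κ • suAct B b⁻¹) u) u = κ * σ e - e2 (suAct B b) := fun u h0 h1 => by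
    obtain ⟨a', k1, k2⟩ := ha u h0 h1
    have m : suAct B (a' * b) = s • (suAct B b + (B.flip u ∘ₗ suAct B b).smulRight u) := LinearMap.ext fun z => by
      simp [k2]
    have m' : suAct B b * (B.flip u ∘ₗ suAct B b).smulRight u = (B.flip u ∘ₗ suAct B b).smulRight (suAct B b u) :=
      LinearMap.ext fun z => by simp
    have t1 := trace_ne_zero hB hU (by omega) k k1 (IsConj.refl b)
    have t2 := hκ a' b k1 (IsConj.refl b)
    rw [m, map_smul, map_add, LinearMap.trace_smulRight] at t1 t2
    rw [e2_smul, e2_add, e2_one, m', LinearMap.trace_smulRight, LinearMap.trace_smulRight] at t2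
    refine ⟨right_ne_zero_of_mul t1, mul_left_cancel₀ (pow_ne_zero 2 s0) ?_⟩
    simp only [LinearMap.comp_apply, LinearMap.flip_apply, smul_eq_mul, map_mul σ, map_add σ, hU.apply s, ← he,
      ← hB.herm] at t2
    rw [← inv_inv b, ← adj b⁻¹ u u, inv_inv] at t2
    simp only [map_sub, map_smul, LinearMap.sub_apply, LinearMap.smul_apply, Module.End.mul_apply, smul_eq_mul]
    linear_combination t2
  have e0 : e ≠ 0 := fun h => by
    obtain ⟨u, h0, h1, h2⟩ := (plane_const hB hU h6 (suAct B b) (C := 0)).2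
    exact (main u h0 h1).1 (by rw [h, h2, add_zero])
  have C0 := (plane_const hB hU h6 _).1 fun u h0 h1 => (main u h0 h1).2
  obtain ⟨μ, hμ⟩ : ∃ μ : F, ∀ x, (e • suAct B b - suAct B b * suAct B b - κ • suAct B b⁻¹) x = μ • x := by
    by_contra! hc
    obtain ⟨u, h1, h2⟩ := exists_opp hB hU (by omega) fun l k => (hc l).elim fun x hx => hx (k x)
    exact h2 ((main u (by rintro rfl; simp at h2) h1).2.trans C0)
  simp only [LinearMap.sub_apply, LinearMap.smul_apply, Module.End.mul_apply] at hμ
  have r1 : ∀ x, suAct B b (suAct B b (suAct B b x)) = e • suAct B b (suAct B b x) - μ • suAct B b x - κ • x :=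
    fun x => by
      have := hμ (suAct B b x)
      rw [inv] at this
      linear_combination (norm := module) -this
  have r2 : ∀ x, σ κ • suAct B b (suAct B b (suAct B b x)) =
      σ e • suAct B b x - x - σ μ • suAct B b (suAct B b x) := fun x => hB.ext_right fun y => by
    have := congrArg (fun z => B z (suAct B b (suAct B b x))) (hμ y)
    simp only [map_sub, map_smul, LinearMap.sub_apply, LinearMap.smul_apply, smul_eq_mul, suAct_pres, adj b⁻¹,
      inv_inv] at this
    simp only [map_sub, LinearMap.map_smulₛₗ, smul_eq_mul, hU.invol]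
    linear_combination -this
  have ns : ∀ α β : F, (∀ x, α • suAct B b x = β • x) → α = 0 := fun α β h => by
    by_contra hc
    exact k.hb (center_of_scalar (l := α⁻¹ * β) fun x => by rw [mul_smul, ← h, inv_smul_smul₀ hc])
  have inj : ∀ x y, suAct B b x = suAct B b y → x = y := fun x y h => by rw [← inv x, h, inv]
  have e3 := cube hB hU e0
  rcases eq_or_ne κ 0 with rfl | κ0
  · have r3 : ∀ x, suAct B b (suAct B b x) = e • suAct B b x - μ • x := fun x => inj _ _ (by
      rw [r1, map_sub, map_smul, map_smul]; module)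
    have h1 : σ e - σ μ * e = 0 := ns _ (1 - σ μ * μ) fun x => by
      have := r2 x
      rw [map_zero, zero_smul, r3] at this
      linear_combination (norm := module) -this
    have h2 : μ = e ^ 2 := by
      have := congrArg σ h1
      simp only [map_sub, map_mul, hU.invol, map_zero] at this
      rw [hU.apply] at this
      linear_combination -e * this - μ * e3
    obtain ⟨ω, hω⟩ := hU.exists_trace_one
    rw [hU.apply] at hω
    refine ⟨ω ^ 2 * e, ω * e, mul_ne_zero (by rintro rfl; simp at hω) e0, ?_⟩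
    rw [← mul_assoc]
    refine mul_eq_zero_of_left (LinearMap.ext fun x => ?_) _
    simp only [LinearMap.sub_apply, LinearMap.smul_apply, Module.End.mul_apply, Module.End.one_apply, map_sub, map_smul,
      r3, h2, LinearMap.zero_apply]
    match_scalars
    · linear_combination -e * hω
    · linear_combination e ^ 2 * (ω - 1) * hω + e ^ 2 * (ω - 1) * two
  · have k3 := cube hB hU κ0
    have h1 : e + κ * σ μ = 0 := ns _ (κ * σ e + μ) fun x => inj _ _ (by
      have := congrArg (κ • ·) (r2 x)
      simp only [smul_smul, hU.norm_eq κ, k3, r1] at this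
      rw [map_smul, map_smul]
      linear_combination (norm := module) this)
    have μ0 : μ ≠ 0 := by rintro rfl; simp [e0] at h1
    have m3 := cube hB hU μ0
    rw [hU.apply] at h1
    refine ⟨e, μ ^ 2, pow_ne_zero 2 μ0, LinearMap.ext fun x => ?_⟩
    simp only [LinearMap.sub_apply, LinearMap.smul_apply, Module.End.mul_apply, Module.End.one_apply, map_sub, map_smul,
      r1, LinearMap.zero_apply]
    match_scalars
    · linear_combination -μ ^ 2 * two
    · linear_combination μ * m3 + e * μ ^ 2 * two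
    · linear_combination -μ ^ 4 * h1 + κ * (μ ^ 3 + 1) * m3

theorem transv_concl (h6 : 6 ≤ finrank F E) {a b c : SUb B} (k' : CP (G := SUb B ⧸ Subgroup.center (SUb B)) a b c)
    (k : CPZ a b c) {s : F} {u : E} (s0 : s ≠ 0) (u0 : u ≠ 0) (hu : B u u = 0)
    (ha : ∀ z, suAct B a z = s • (z + B z u • u)) : Concl (G := SUb B ⧸ Subgroup.center (SUb B)) 2 a b c := by
  have two : (2 : F) = 0 := by simpa using hU.cast_q
  have : Finite E := Module.finite_of_finite F
  have : Finite (Module.End F E) := DFunLike.finite _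
  have : Finite (SUb B) := Finite.of_injective _ (suAct_injective B)
  obtain ⟨c1, c2⟩ := conj_transv hB hU (by omega) u0 hu ha
  obtain ⟨l, ν, ν0, hb⟩ := cubic hB hU h6 k s0 c2
  have eig : ∀ (r : F) x, x ∈ LinearMap.ker (suAct B b - r • 1) ↔ suAct B b x = r • x := fun r x => by
    simp [sub_eq_zero]
  obtain ⟨r, hr⟩ : ∃ r : F, 2 ≤ finrank F (LinearMap.ker (suAct B b - r • 1)) := by
    by_contra! hc
    have h1 := fr_le ⊤ (suAct B b - ν • 1)
    have h2 := fr_le (Submodule.map (suAct B b - ν • 1) ⊤) (suAct B b - ν • 1)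
    have h3 : Submodule.map (suAct B b - ν • 1) (Submodule.map (suAct B b - ν • 1) ⊤) ≤
        LinearMap.ker (suAct B b - l • 1) := by
      rintro _ ⟨_, ⟨x, -, rfl⟩, rfl⟩
      exact LinearMap.congr_fun hb x
    have := Submodule.finrank_mono h3
    have := hc l
    have := hc ν
    rw [finrank_top] at h1
    omega
  have mk := fun {x y : SUb B} (h : IsConj x y) => (QuotientGroup.mk' (Subgroup.center (SUb B))).map_isConj h
  have sc : ∀ (m : SUb B) (j : ℕ), (m : SUb B ⧸ Subgroup.center (SUb B)) ^ j = 1 →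
      ∃ t : F, t ≠ 0 ∧ ∀ x, suAct B (m ^ j) x = t • x := fun m j h => by
    obtain ⟨t, h1, -, h2⟩ := scalar_of_center hB hU (by omega) ((QuotientGroup.eq_one_iff (m ^ j)).1 h)
    exact ⟨t, by rintro rfl; simp at h1, h2⟩
  refine k'.concl ?_ (fun h => ?_) (Or.inl ((pel_of_pow (k := 1) ?_).dvd k'.ha))
  · by_contra ho
    obtain ⟨j, hj⟩ : Odd (3 * orderOf (c : SUb B ⧸ Subgroup.center (SUb B))) :=
      (show Odd 3 by decide).mul (Nat.not_even_iff_odd.1 fun e => ho e.two_dvd)
    have j3 : ∀ t : F, t ≠ 0 → t ^ (2 * j + 1) = 1 := fun t h => by rw [← hj, pow_mul, cube hB hU h, one_pow]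
    have j1 : ((2 * j + 1 : ℕ) : F) = 1 := by push_cast; linear_combination j * two
    have H : ∀ (r : F) u, u ≠ 0 → B u u = 0 → suAct B b u = r • u → ∀ z,
        suAct B (b ^ (2 * j + 1)) z = z - B z u • u := fun r u h0 h1 h2 z => by
      obtain ⟨a', k1, k2⟩ := c2 u h0 h1
      have r0 : r ≠ 0 := by
        rintro rfl
        exact h0 (hB.nondeg u fun y => by rw [← suAct_pres b, h2]; simp)
      have cm : Commute a' b := su_ext fun x => by
        have := suAct_pres b x u
        rw [h2, LinearMap.map_smulₛₗ, hU.apply, smul_eq_mul] at this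
        simp only [act_mul_apply, k2, map_smul, map_add, h2, ← this]
        match_scalars
        · rfl
        · linear_combination -s * B (suAct B b x) u * cube hB hU r0
      obtain ⟨t, t0, ht⟩ := sc (a' * b) (orderOf (c : SUb B ⧸ Subgroup.center (SUb B))) (by
        rw [← k'.order (mk k1) (IsConj.refl _)]; exact pow_orderOf_eq_one _)
      have e1 : ∀ x, suAct B ((a' * b) ^ (2 * j + 1)) x = x := fun x => by
        rw [← hj, mul_comm, pow_mul, pow_succ, pow_two, act_mul_apply, act_mul_apply, ht, ht, ht, smul_smul, smul_smul,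
          ← pow_two, ← pow_succ, cube hB hU t0, one_smul]
      have e2 : ∀ (n : ℕ) x, suAct B (a' ^ n) x = s ^ n • (x + (n * B x u) • u) := fun n x => by
        induction n with
        | zero => simp
        | succ n ih =>
          rw [pow_succ', act_mul_apply, ih, k2]
          simp only [map_add, map_smul, LinearMap.add_apply, LinearMap.smul_apply, h1, smul_eq_mul]
          push_cast
          module
      have e3 := e1 (z - B z u • u)
      have e4 := e1 u
      rw [cm.eq, cm.symm.mul_pow, act_mul_apply, e2, j3 s s0, j1] at e3 e4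
      simp only [map_sub, map_smul, LinearMap.sub_apply, LinearMap.smul_apply, h1, map_add, one_mul, one_smul, smul_zero,
        zero_smul, add_zero, sub_zero] at e3 e4
      linear_combination (norm := module) e3
    obtain ⟨v, hv, v0, hv'⟩ := exists_iso_vec hB hU _ hr
    have H1 := H r v v0 hv' ((eig r v).1 hv)
    have h3 : Submodule.map (suAct B b - ν • 1) (perp B (F ∙ v)) ≤ LinearMap.ker (suAct B b - l • 1) := by
      rintro _ ⟨z, hz, rfl⟩
      have cm : ∀ r : F, Commute (suAct B b) (suAct B b - r • 1) := fun r =>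
        (Commute.refl _).sub_right ((Commute.one_right _).smul_right r)
      have cm' : Commute (suAct B b - l • 1) (suAct B b - ν • 1) :=
        (cm ν).sub_left ((Commute.one_left _).smul_left l)
      have z1 : suAct B (b ^ (2 * j + 1)) z = z := by rw [H1, mem_perp_one.1 hz, zero_smul, sub_zero]
      have z2 : suAct B (b ^ (2 * j + 1)) ((suAct B b - l • 1) z) = (suAct B b - l • 1) z := by
        rw [← Module.End.mul_apply, map_pow, ((cm l).pow_left _).eq, Module.End.mul_apply, ← map_pow, z1]
      have z3 : (suAct B b - ν • 1) ((suAct B b - ν • 1) ((suAct B b - l • 1) z)) = 0 := by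
        rw [← Module.End.mul_apply, ← Module.End.mul_apply, ← (cm'.mul_right cm').eq, hb, LinearMap.zero_apply]
      rw [LinearMap.mem_ker, ← Module.End.mul_apply, cm'.eq, Module.End.mul_apply]
      generalize (suAct B b - l • 1) z = y at z2 z3
      have z4 : suAct B b y = ν • y + (suAct B b - ν • 1) y := by simp
      generalize (suAct B b - ν • 1) y = y' at z3 z4
      have z5 : ∀ n : ℕ, ν • suAct B (b ^ n) y = ν ^ (n + 1) • y + (n * ν ^ n) • y' := fun n => by
        induction n with
        | zero => simp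
        | succ n ih =>
          rw [pow_succ', act_mul_apply, ← map_smul, ih, map_add, map_smul, map_smul, z4, (eig ν y').1 z3]
          push_cast
          module
      have := z5 (2 * j + 1)
      rw [z2, j1, pow_succ, j3 ν ν0] at this
      linear_combination (norm := module) -this
    obtain ⟨r', hr'⟩ : ∃ r : F, 3 ≤ finrank F (LinearMap.ker (suAct B b - r • 1)) := by
      by_contra! hc
      have := fr_le (perp B (F ∙ v)) (suAct B b - ν • 1)
      have := Submodule.finrank_mono h3
      have := hB.finrank_perp (F ∙ v)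
      have := finrank_span_le (F := F) v
      have := hc l
      have := hc ν
      omega
    obtain ⟨y, hy, y0, hy'⟩ := iso_not_mem hB hU (R := F ∙ v) ((Nat.add_le_add_right (finrank_span_le v) 2).trans hr')
    have y1 : y ≠ 0 := by rintro rfl; exact y0 (zero_mem _)
    have H2 := H r' y y1 hy' ((eig r' y).1 hy)
    refine y1 (hB.nondeg' y fun z => ?_)
    by_contra hc
    have := sub_right_injective ((H2 z).symm.trans (H1 z))
    exact y0 (Submodule.mem_span_singleton.2 ⟨(B z y)⁻¹ * B z v, by rw [mul_smul, ← this, inv_smul_smul₀ hc]⟩)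
  · refine not_const_two hB hU (by omega) k.symm (κ := s * r * finrank F E) fun a' k1 => ?_
    obtain ⟨u', k2⟩ := c1 a' k1
    obtain ⟨j, hj⟩ := (h.conj (k'.symm.conj _ _ (IsConj.refl _) (mk k1))).pow
    obtain ⟨t, -, ht⟩ := sc (b * a') _ hj
    obtain ⟨x, hx, x0⟩ : ∃ x ∈ LinearMap.ker (suAct B b - r • 1) ⊓ perp B (F ∙ u'), x ≠ 0 :=
      Submodule.exists_mem_ne_zero_of_ne_bot fun e => by
        have h2 := Submodule.finrank_sup_add_finrank_inf_eq (LinearMap.ker (suAct B b - r • 1)) (perp B (F ∙ u'))
        have := Submodule.finrank_le (LinearMap.ker (suAct B b - r • 1) ⊔ perp B (F ∙ u'))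
        have := hB.finrank_perp (F ∙ u')
        have := finrank_span_le (F := F) u'
        rw [e, finrank_bot] at h2
        omega
    have x1 : ∀ n : ℕ, suAct B ((b * a') ^ n) x = (s * r) ^ n • x := fun n => by
      induction n with
      | zero => simp
      | succ n ih =>
        rw [pow_succ', act_mul_apply, ih, map_smul, act_mul_apply, k2, mem_perp_one.1 hx.2, zero_smul, add_zero,
          map_smul, (eig r x).1 hx.1, smul_smul, smul_smul, pow_succ, mul_assoc]
    have x2 : t = (s * r) ^ 2 ^ j := smul_left_injective F x0 ((ht x).symm.trans (x1 _))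
    have : Nontrivial E := ⟨_, _, x0⟩
    have : CharP F 2 := CharTwo.of_one_ne_zero_of_two_eq_zero one_ne_zero two
    have : CharP (Module.End F E) 2 := charP_of_injective_algebraMap (algebraMap F (Module.End F E)).injective 2
    have nil : IsNilpotent (suAct B (b * a') - (s * r) • 1) := ⟨2 ^ j, by
      rw [sub_pow_char_pow_of_commute _ _ ((Commute.one_right _).smul_right _), ← map_pow, smul_pow, one_pow, ← x2,
        sub_eq_zero]
      exact LinearMap.ext ht⟩
    have := (LinearMap.isNilpotent_trace_of_isNilpotent nil).eq_zero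
    rwa [map_sub, map_smul, LinearMap.trace_one, sub_eq_zero] at this
  · rw [← QuotientGroup.mk_pow, QuotientGroup.eq_one_iff]
    refine center_of_scalar (l := s ^ 2) fun z => ?_
    rw [pow_one, pow_two a, act_mul_apply, ha, ha]
    simp only [map_add, map_smul, LinearMap.add_apply, LinearMap.smul_apply, hu, smul_eq_mul]
    match_scalars
    · ring
    · linear_combination s ^ 2 * B z u * two

theorem good_SUb (h6 : 6 ≤ finrank F E) (h3 : 3 ∣ finrank F E) : Good 2 (SUb B ⧸ Subgroup.center (SUb B)) :=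
  good_quot fun a b c k' k => (lu_or hB hU h6 k).elim
    (fun l => by
      obtain ⟨s, u, h1, h2, h4, h5⟩ := l.transv hB hU h6 h3 k.ha
      exact transv_concl hB hU h6 k' k h1 h2 h4 h5)
    fun l => by
      obtain ⟨s, u, h1, h2, h4, h5⟩ := l.transv hB hU h6 h3 k.hb
      exact (transv_concl hB hU h6 k'.symm k.symm h1 h2 h4 h5).symm

omit hB hU

theorem good_psu {F : Type} [Field F] [Fintype F] (p : ℕ) [hp : Fact p.Prime] [CharP F p] (n q : ℕ)
    (hF : Fintype.card F = q ^ 2) (hn : 3 ≤ n) (h : ¬ (n = 3 ∧ q = 2)) : Good p (Cfsg.PSU n F q) := by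
  by_cases h' : 3 ≤ q ∨ ¬ 3 ∣ n
  · exact (noCP_psu n q hF hn h').good p
  have hU := uf_frob hF
  obtain rfl : q = 2 := by have := hU.two_le; omega
  obtain rfl : p = 2 := (Nat.prime_dvd_prime_iff_eq hp.out Nat.prime_two).1 (hU.char_dvd p)
  obtain ⟨e⟩ := exists_su_equiv hU n
  refine (good_SUb (hU.isEps_std (Fin n)) hU (by simp; omega) (by simpa using h')).congr
    (QuotientGroup.congr _ _ e.symm ?_)
  ext x
  obtain ⟨x, rfl⟩ := e.symm.surjective x
  rw [← MulEquiv.toMonoidHom_eq_coe, Subgroup.mem_map_equiv, e.symm.symm_apply_apply, Subgroup.mem_center_iff,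
    Subgroup.mem_center_iff, e.symm.surjective.forall]
  simp only [← map_mul, e.symm.apply_eq_iff_eq]

theorem good_of_isPSUChar {p : ℕ} [Fact p.Prime] {G : Type*} [Group G] (h : IsPSUChar p G) : Good p G := by
  obtain ⟨F, _, _, _, n, q, hF, hn, h, ⟨e⟩⟩ := h
  exact (good_psu p n q hF hn h).congr e

end Cfsg.Agent.H6.AV
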