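import Cfsg.Agent.H8.AF3
import Cfsg.Agent.H8.TwPF4
import Cfsg.Agent.H8.TwInv
import Cfsg.Agent.H9.AH4
import Cfsg.Agent.L0.AR.A

/-! No product of two classes is a class in the large Ree groups. -/

set_option autoImplicit false
set_option linter.unusedSectionVars false

namespace Cfsg.Agent.H6.AW

open Cfsg.Lie Matrix Finset Cfsg.Agent.H7 Cfsg.Agent.H8 Cfsg.Agent.H8.AF Cfsg.Agent.H9.AH

variable {K : Type*} [Field K] [Fintype K] [CharP K 2]

/-- The heights of the weights of the `27`-dimensional module. -/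
def ht27 (n : ℕ) : ℤ := (List.lookup n [(63, 1), (65, 2), (68, 3), (72, 4), (77, 5), (82, 5), (86, 6), (89, 7), (91, 8),
  (92, 9), (98, 6), (102, 7), (105, 8), (107, 9), (108, 10), (111, 9), (113, 10), (114, 11), (116, 11), (117, 12),
  (118, 13), (120, 12), (121, 13), (122, 14), (123, 15), (124, 16), (125, 17)]).getD 0

/-- The entries of the `133`-dimensional representation. -/
noncomputable def rE (K : Type*) [Field K] [Fintype K] : chevF4.group K →* Matrix chevE7.Idx chevE7.Idx K :=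
  (Units.coeHom _).comp (th7 K)

theorem rE_word (v : ℕ → K) (w : SW) (i j : chevE7.Idx) {P : Pol}
    (h : peq 2 (ent7 2 w (enc chevE7 i) (enc chevE7 j)) P = true) : rE K (evS (xg chevF4 K) v w) i j = pev v P :=
  (pev_ent7 (CharP.cast_eq_zero K 2) v w i j).symm.trans (peq_sound (CharP.cast_eq_zero K 2) v h)

/-- The weights that extract the coefficient of `s ^ 2`. -/
def cw (s : Kˣ) : K := (s : K) ^ (2 * (Fintype.card K - 2))

variable {θ : ℕ} (hθ : ∀ k ∈ [0, 1, θ, θ + 1, θ + 2, θ + 3, 2 * θ + 2, 2 * θ + 3, 2 * θ + 4],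
  ¬ k ≡ 2 [MOD Fintype.card K - 1])

theorem cw_two [DecidableEq K] : ∑ s : Kˣ, cw s * (s : K) ^ 2 = -1 := (L0.AR.sum_wt 2 2).trans (if_pos rfl)

include hθ in
theorem cw_zero [DecidableEq K] {k : ℕ} (hk : k ∈ [0, 1, θ, θ + 1, θ + 2, θ + 3, 2 * θ + 2, 2 * θ + 3, 2 * θ + 4]) :
    ∑ s : Kˣ, cw s * (s : K) ^ k = 0 := (L0.AR.sum_wt 2 k).trans (if_neg (hθ k hk))

include hθ in
theorem coef_two {c0 c1 c2 c3 c4 c5 c6 c7 c8 : K} (h : ∀ s : K, c0 * s ^ 0 + c1 * s ^ 1 + c2 * s ^ 2 + c3 * s ^ (θ + 1) +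
    c4 * s ^ (θ + 2) + c5 * s ^ (θ + 3) + c6 * s ^ (2 * θ + 2) + c7 * s ^ (2 * θ + 3) + c8 * s ^ (2 * θ + 4) = 0) :
    c2 = 0 := by
  classical
  have h0 := sum_eq_zero (s := univ) fun (s : Kˣ) _ => mul_eq_zero_of_right (cw s) (h s)
  simp only [mul_add (cw _), mul_left_comm (cw _), sum_add_distrib, ← mul_sum, cw_two] at h0
  rw [cw_zero hθ (by simp), cw_zero hθ (by simp), cw_zero hθ (by simp), cw_zero hθ (by simp), cw_zero hθ (by simp),
    cw_zero hθ (by simp), cw_zero hθ (by simp), cw_zero hθ (by simp)] at h0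
  simpa using h0

theorem chk_pair : ∀ a ∈ [(33, 24, (1 : ℤ), (1 : ℤ)), (40, 46, 7, 10), (44, 47, 8, 11)], ∀ i ∈ L27.map Prod.fst,
    ∀ j ∈ L27.map Prod.fst, ∃ m ∈ [(0 : ℤ), 1], ∃ k ∈ [([] : List ℕ), [1], [2], [0, 1], [1, 1], [2, 1]],
      (m = 0 ∨ ht27 j + k.getD 0 0 * a.2.2.1 + k.getD 1 0 * a.2.2.2 ≤ ht27 i) ∧
        peq 2 (ent7 2 [(a.2.1, vr 1), (a.1, vr 0)] i j) [(m, k)] = true := by decide +kernel

variable {S : Subgroup (chevF4.group K)}

include hθ in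
theorem up_pair [DecidableEq K] {r r' : ℕ} {w w' : ℤ}
    (h : (r, r', w, w') ∈ [(33, 24, (1 : ℤ), (1 : ℤ)), (40, 46, 7, 10), (44, 47, 8, 11)]) {g : Kˣ → S}
    (hg : ∀ s, (g s : chevF4.group K) = xg chevF4 K r' (s ^ θ) * xg chevF4 K r s) (hi : ∀ s, (g s)⁻¹ = g s) :
    H9.AH.Up (fun c : {c // In27 c} => ht27 (enc chevE7 c.1)) (2 * w) (Op ((rho27 K).comp S.subtype) univ cw g) := by
  have e : ∀ i j : {c // In27 c}, ∃ (m : ℤ) (k l : ℕ),
      (m = 0 ∨ ht27 (enc chevE7 j.1) + k * w + l * w' ≤ ht27 (enc chevE7 i.1)) ∧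
      ∀ s, (rho27 K).comp S.subtype (g s) i j = m * (s : K) ^ (k + θ * l) := fun i j => by
    obtain ⟨m, -, k, hk, h1, h2⟩ := chk_pair _ h _ i.2 _ j.2
    refine ⟨m, _, _, h1, fun s => ?_⟩
    have := rE_word (fun i => if i = 0 then (s : K) else s ^ θ) _ _ _ h2
    simp only [evS_cons, evS_nil, mul_one, pev_vr, if_true, one_ne_zero, if_false, ← hg] at this
    refine this.trans ?_
    simp only [List.mem_cons, List.not_mem_nil, or_false] at hk
    rcases hk with rfl | rfl | rfl | rfl | rfl | rfl <;> simp [mev, pow_add]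
  have hw : 0 < w ∧ w ≤ w' := (by decide : ∀ a ∈ [(33, 24, (1 : ℤ), (1 : ℤ)), (40, 46, 7, 10), (44, 47, 8, 11)],
    0 < a.2.2.1 ∧ a.2.2.1 ≤ a.2.2.2) _ h
  refine up_op fun i j k l H => ?_
  obtain ⟨m, a, b, h1, h2⟩ := e i j
  obtain ⟨m', a', b', h3, h4⟩ := e k l
  have : ∑ s, cw s * ((rho27 K).comp S.subtype (g s) i j * (rho27 K).comp S.subtype (g s)⁻¹ k l) =
      m * m' * ∑ s : Kˣ, cw s * (s : K) ^ (a + a' + θ * (b + b')) := by
    rw [mul_sum]
    exact sum_congr rfl fun s _ => by rw [hi, h2, h4]; ring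
  rw [this]
  rcases h1 with rfl | h1
  · simp
  rcases h3 with rfl | h3
  · simp
  have h5 : a + a' + (b + b') < 2 := by
    by_contra! h5
    have h6 : (2 : ℤ) ≤ a + a' + (b + b') := by exact_mod_cast h5
    nlinarith [mul_le_mul_of_nonneg_left hw.2 (show (0 : ℤ) ≤ b + b' by positivity),
      mul_le_mul_of_nonneg_right h6 hw.1.le]
  rw [cw_zero hθ, mul_zero]
  rcases (by omega : (a + a' = 0 ∧ b + b' = 0) ∨ (a + a' = 1 ∧ b + b' = 0) ∨ (a + a' = 0 ∧ b + b' = 1)) with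
    ⟨e1, e2⟩ | ⟨e1, e2⟩ | ⟨e1, e2⟩ <;> simp [e1, e2]

include hθ in
theorem ext_tw (hS : ∀ r ∈ [(33, 24), (40, 46), (44, 47)], ∀ s : K, xg chevF4 K r.2 (s ^ θ) * xg chevF4 K r.1 s ∈ S)
    {a b c : S} (h : CP a b c) (ha : cs a.1 ≠ 0) (hb : cs b.1 ≠ 0) : False := by
  classical
  have hx := (H7.isChev_xg (D := chevF4) (F := K)).toIsSt
  have l1 := (by decide : ∀ n ∈ L27.map Prod.fst, (n = 63 ∨ ht27 63 < ht27 n) ∧ (n = 125 ∨ ht27 n < ht27 125))
  let g : ∀ r ∈ [(33, 24), (40, 46), (44, 47)], Kˣ → S := fun r hr s => ⟨_, hS r hr s⟩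
  have hi : ∀ r hr s, (g r hr s)⁻¹ = g r hr s := fun r hr s => Subtype.ext (by
    obtain ⟨h1, h2⟩ := (by decide +kernel : ∀ r ∈ [(33, 24), (40, 46), (44, 47)],
      r.1 ≠ chevF4.neg r.2 ∧ chevF4.commTerms r.2 r.1 = []) r hr
    simp only [g, Subgroup.coe_inv, _root_.mul_inv_rev, ← hx.neg, CharTwo.neg_eq]
    exact (hx.commute h1 h2 _ _).symm.eq)
  refine ext_core (ρ := (rho27 K).comp S.subtype) (lev := fun c : {c // In27 c} => ht27 (enc chevE7 c.1)) (h.trace _)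
    (lo := ⟨Sum.inr ⟨63, by decide⟩, by decide⟩) (hi := ⟨Sum.inr ⟨125, by decide⟩, by decide⟩)
    (fun i hi => (l1 _ i.2).1.resolve_left fun e => hi (Subtype.ext (enc_inj chevE7 e)))
    (fun i hi => (l1 _ i.2).2.resolve_left fun e => hi (Subtype.ext (enc_inj chevE7 e))) (by decide)
    (((inA_op _ _ _).mul (inA_op _ _ _)).mul (inA_op _ _ _))
    ((((up_pair hθ (w := 7) (w' := 10) (by simp) (g := g (40, 46) (by simp)) (fun _ => rfl) (hi _ (by simp))).mul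
      (up_pair hθ (w := 1) (w' := 1) (by simp) (g := g (33, 24) (by simp)) (fun _ => rfl) (hi _ (by simp)))).mul
      (up_pair hθ (w := 8) (w' := 11) (by simp) (g := g (44, 47) (by simp)) (fun _ => rfl) (hi _ (by simp)))).mono
      (by decide)) ?_ ha hb
  rw [Op_mul, Op_mul, Op_single]
  have e : ∀ s r t : Kˣ, ∀ y, y = g (40, 46) (by simp) s * g (33, 24) (by simp) r * g (44, 47) (by simp) t →
      (rho27 K).comp S.subtype y ⟨Sum.inr ⟨125, by decide⟩, by decide⟩ ⟨Sum.inr ⟨63, by decide⟩, by decide⟩ *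
      (rho27 K).comp S.subtype y⁻¹ ⟨Sum.inr ⟨125, by decide⟩, by decide⟩ ⟨Sum.inr ⟨63, by decide⟩, by decide⟩ =
        (t : K) ^ 4 + s ^ 2 * r ^ 2 * t ^ 2 := by
    rintro s r t _ rfl
    let v : ℕ → K := fun i => [(s : K), r, t, s ^ θ, r ^ θ, t ^ θ].getD i 0
    have e1 := rE_word v [(46, vr 3), (40, vr 0), (24, vr 4), (33, vr 1), (47, vr 5), (44, vr 2)]
      (Sum.inr ⟨125, by decide⟩) (Sum.inr ⟨63, by decide⟩) (P := [(1, [0, 0, 2]), (1, [1, 1, 1])]) (by decide +kernel)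
    have e2 := rE_word v [(47, vr 5), (44, vr 2), (24, vr 4), (33, vr 1), (46, vr 3), (40, vr 0)]
      (Sum.inr ⟨125, by decide⟩) (Sum.inr ⟨63, by decide⟩) (P := [(1, [0, 0, 2]), (1, [1, 1, 1])]) (by decide +kernel)
    simp only [v, evS_cons, evS_nil, mul_one, pev_vr, ← mul_assoc] at e1 e2
    simp only [_root_.mul_inv_rev, hi]
    rw [show (t : K) ^ 4 + s ^ 2 * r ^ 2 * t ^ 2 = (t ^ 2 + s * r * t) * (t ^ 2 + s * r * t) by
      rw [← sq, CharTwo.add_sq]; ring]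
    congr 1
    · refine Eq.trans (by simp only [g, MonoidHom.comp_apply, Subgroup.coe_subtype, Subgroup.coe_mul, mul_assoc]; rfl)
        (e1.trans ?_); simp [mev]; ring
    · refine Eq.trans (by simp only [g, MonoidHom.comp_apply, Subgroup.coe_subtype, Subgroup.coe_mul, mul_assoc]; rfl)
        (e2.trans ?_); simp [mev]; ring
  simp only [sum_product, e _ _ _ _ rfl]
  have : ∑ s : Kˣ, ∑ r : Kˣ, ∑ t : Kˣ, cw s * cw r * cw t * ((t : K) ^ 4 + s ^ 2 * r ^ 2 * t ^ 2) =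
      (∑ s : Kˣ, cw s * (s : K) ^ 0) * (∑ r : Kˣ, cw r) * (∑ t : Kˣ, cw t * (t : K) ^ 4) +
      (∑ s : Kˣ, cw s * (s : K) ^ 2) * (∑ s : Kˣ, cw s * (s : K) ^ 2) * ∑ s : Kˣ, cw s * (s : K) ^ 2 := by
    have tri : ∀ f f' f'' : Kˣ → K, (∑ s, f s) * (∑ s, f' s) * ∑ s, f'' s = ∑ s, ∑ r, ∑ t, f s * f' r * f'' t :=
      fun f f' f'' => by simp only [← mul_sum, ← sum_mul]
    simp only [tri, ← sum_add_distrib]
    exact sum_congr rfl fun _ _ => sum_congr rfl fun _ _ => sum_congr rfl fun _ _ => by ring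
  rw [this, cw_zero hθ (by simp), cw_two]
  simp

/-- The word of the longest element. -/
def lW : List ℕ := [0, 1, 0, 2, 1, 0, 2, 1, 2, 3, 2, 1, 0, 2, 1, 2, 3, 2, 1, 0, 2, 1, 2, 3]

/-- An index of a root vector. -/
def iR (n : Fin 126) : chevE7.Idx := Sum.inr n

theorem enc_iR (n : Fin 126) {a : ℕ} (h : n.1 = a) (i : chevE7.Idx) : enc chevE7 i = a ↔ i = iR n :=
  ⟨fun e => enc_inj chevE7 (e.trans h.symm), by rintro rfl; exact h⟩

theorem rE_ent (v : ℕ → K) {w : SW} {g : chevF4.group K} (hg : evS (xg chevF4 K) v w = g) {i j : chevE7.Idx} {a b : ℕ}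
    (ha : enc chevE7 i = a) (hb : enc chevE7 j = b) {P : Pol} (h : peq 2 (ent7 2 w a b) P = true) :
    rE K g i j = pev v P := by
  subst hg ha hb
  exact rE_word v w i j h

/-- The test family. -/
def wT : SW := [(20, vr 0), (22, vr 1), (19, [(1, [1, 1])])] ++ nws (fl chevF4 [0, 3])

theorem chk_n : ∀ k < 133, peq 2 (ent7 2 (nws (fl chevF4 (lW ++ [0, 3]))) 68 k) [(if k = 123 then 1 else 0, [])] = true := by
  decide +kernel

theorem chk_row : ∀ k < 133, peq 2 (ent7 2 (winv 2 wT []) 63 k) [(if k = 65 then 1 else 0, []),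
    (if k = 68 then 1 else 0, [1]), (if k = 72 then 1 else 0, [1, 1]), (if k = 77 then 1 else 0, [2, 1])] = true := by
  decide +kernel

theorem chk_col : ∀ k < 133, peq 2 (ent7 2 wT k 125) [(if k = 124 then 1 else 0, []),
    (if k = 123 then 1 else 0, [1]), (if k = 122 then 1 else 0, [1, 1]), (if k = 121 then 1 else 0, [2, 1])] = true := by
  decide +kernel

theorem entry_A {m v : chevF4.group K} (hm : NRep chevF4 (xg chevF4 K) m (wordW chevF4 (fl chevF4 (lW ++ [0, 3]))))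
    (hv : v ∈ UU chevF4 (xg chevF4 K)) : rE K (m * v) (iR 68) (iR 123) ≠ 0 := by
  have hx := (H7.isChev_xg (D := chevF4) (F := K))
  have := hx.finite_G H7.GG_xg
  let P : Subgroup (chevF4.group K) := { Cn (rE K) (iR 68) (iR 68) with inv_mem' := Cn_inv }
  have hH : HH chevF4 (xg chevF4 K) ≤ P := by
    rw [hx.toIsSt.HH_eq_range hx.toIsSt.R3_of_finite]
    rintro _ ⟨a, rfl⟩
    rw [hx.toIsSt.hProdHom_eq]
    refine Subgroup.list_prod_mem _ fun g hg => ?_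
    obtain ⟨i, -, rfl⟩ := List.mem_map.1 hg
    have k := fun j => (by decide +kernel : ∀ r ∈ [33, 27, 25, 24], ∀ i < 133,
      i = 68 ∨ isNil (pred (ent7 0 (hw r) i 68)) = true ∧ isNil (pred (ent7 0 (hw r) 68 i)) = true)
      (chevF4.simple i) ((by decide +kernel : ∀ i : Fin chevF4.rank, chevF4.simple i ∈ [33, 27, 25, 24]) i) _
      (enc_lt chevE7 j)
    have k' := pev_ent7 (p := 0) (by simp) (fun j => if j = 0 then (a i : K) else (a i : K)⁻¹) (hw (chevF4.simple i))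
    have k0 := pev_pred (v := fun j => if j = 0 then (a i : K) else (a i : K)⁻¹) (by simp)
    rw [evS_hw _ (simple_lt i)] at k'
    have e68 : enc chevE7 (iR 68) = 68 := rfl
    exact ⟨fun j h => (k' j (iR 68)).symm.trans (by
        rw [← k0, e68, isNil_iff.1 ((k j).resolve_left fun e => h (enc_inj chevE7 e)).1, pev_nil]),
      fun j h => (k' (iR 68) j).symm.trans (by
        rw [← k0, e68, isNil_iff.1 ((k j).resolve_left fun e => h (enc_inj chevE7 e)).2, pev_nil])⟩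
  have h1 := hm.mul_inv_mem hx.toIsSt (NRep.nWd _ _)
  have h2 : ∀ g ∈ P, ∀ M : Matrix chevE7.Idx chevE7.Idx K, ∀ i,
      (rE K g * M) (iR 68) i = rE K g (iR 68) (iR 68) * M (iR 68) i := fun g hg M i => by
    rw [mul_apply, sum_eq_single (iR 68) (fun k _ hk => by rw [hg.2 k hk, zero_mul]) (by simp)]
  have h3 := h2 _ (hH h1) (rE K (m * (nWd chevF4 (xg chevF4 K) (fl chevF4 (lW ++ [0, 3])))⁻¹)⁻¹) (iR 68)
  rw [← map_mul, mul_inv_cancel, map_one, one_apply_eq] at h3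
  have h4 : ∀ k, rE K (nWd chevF4 (xg chevF4 K) (fl chevF4 (lW ++ [0, 3]))) (iR 68) k = if k = iR 123 then 1 else 0 :=
    fun k => by
      rw [rE_ent _ (evS_nws (fun _ => 0) _) (i := iR 68) (a := 68) (j := k) rfl rfl (chk_n _ (enc_lt chevE7 k))]
      simp [mev, enc_iR 123 (a := 123) rfl]
  have h5 : th7 K v ∈ UU chevE7 (xu chevE7 K) := by
    refine (XS_le.2 fun r hr t => ?_ : UU chevF4 (xg chevF4 K) ≤ (UU chevE7 (xu chevE7 K)).comap (th7 K)) hv
    rw [Subgroup.mem_comap, th7, (exists_th7 (F := K)).choose_spec]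
    refine Subgroup.list_prod_mem _ fun g hg => ?_
    obtain ⟨e, he, rfl⟩ := List.mem_map.1 hg
    exact x_mem_UU _ ((by decide +kernel : ∀ r < 48, 24 ≤ r → ∀ e ∈ mkY fold7 r, chevE7.IsPosRoot e.b) r (posF4 hr).2
      (posF4 hr).1 e he) _
  have h6 := raises_XS (ordL chevE7) (m := 1) one_pos (fun j hj => by rw [ordL_wt]; exact pos_iff'.1 hj) h5
    (iR 123) (iR 123) (by simp)
  generalize nWd chevF4 (xg chevF4 K) (fl chevF4 (lW ++ [0, 3])) = n at h1 h3 h4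
  rw [show m * v = m * n⁻¹ * (n * v) by group, map_mul (rE K) (m * n⁻¹), h2 _ (hH h1), map_mul (rE K) n, mul_apply]
  simp only [h4, ite_mul, one_mul, zero_mul, sum_ite_eq', mem_univ, if_true]
  exact mul_ne_zero (left_ne_zero_of_mul_eq_one h3.symm) (h6.trans_ne (by simp))

theorem test_key (a : chevF4.group K) (s : K) :
    (Pi.single (iR 65) 1 + s • Pi.single (iR 68) 1 + s ^ (θ + 1) • Pi.single (iR 72) 1 +
      s ^ (θ + 2) • Pi.single (iR 77) 1) ⬝ᵥ rE K a *ᵥ (Pi.single (iR 124) 1 + s • Pi.single (iR 123) 1 +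
      s ^ (θ + 1) • Pi.single (iR 122) 1 + s ^ (θ + 2) • Pi.single (iR 121) 1) =
    rE K ((evS (xg chevF4 K) (fun i => if i = 0 then s else s ^ θ) wT)⁻¹ * a *
      evS (xg chevF4 K) (fun i => if i = 0 then s else s ^ θ) wT) (iR 63) (iR 125) := by
  have hx := (H7.isChev_xg (D := chevF4) (F := K)).toIsSt
  rw [map_mul, map_mul, Matrix.mul_assoc, mul_apply, dotProduct]
  refine sum_congr rfl fun j _ => congrArg₂ (· * ·) ?_ ?_
  · rw [rE_ent _ ((hx.evS_winv (CharP.cast_eq_zero K 2) _ _ _).trans (mul_one _)) (i := iR 63) (a := 63) (j := j) rfl rfl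
      (chk_row _ (enc_lt chevE7 j))]
    simp [mev, enc_iR 65 (a := 65) rfl, enc_iR 68 (a := 68) rfl, enc_iR 72 (a := 72) rfl, enc_iR 77 (a := 77) rfl,
      Pi.single_apply, pow_add, mul_comm, add_assoc]
  · rw [mul_apply, mulVec, dotProduct]
    refine sum_congr rfl fun k _ => congrArg (_ * ·) ?_
    rw [rE_ent _ rfl (j := iR 125) (b := 125) (i := k) rfl rfl (chk_col _ (enc_lt chevE7 k))]
    simp [mev, enc_iR 124 (a := 124) rfl, enc_iR 123 (a := 123) rfl, enc_iR 122 (a := 122) rfl,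
      enc_iR 121 (a := 121) rfl, Pi.single_apply, pow_add, mul_comm, add_assoc]

theorem cs_eq (g : chevF4.group K) : cs g = rE K g (iR 63) (iR 125) := rfl

include hθ in
theorem test_A (h1 : ∀ s : K, evS (xg chevF4 K) (fun i => if i = 0 then s else s ^ θ) wT ∈ S) {a : S}
    (ha : rE K a (iR 68) (iR 123) ≠ 0) : ∃ a', IsConj a a' ∧ cs a'.1 ≠ 0 := by
  by_contra! hc
  have key := fun s : K => test_key (θ := θ) a.1 s
  have k2 : ∀ g ∈ S, rE K (g⁻¹ * a * g) (iR 63) (iR 125) = 0 := fun g hg => by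
    have := hc _ (isConj_conj' ⟨g, hg⟩ a)
    rwa [cs_eq, Subgroup.coe_mul, Subgroup.coe_mul, Subgroup.coe_inv] at this
  simp only [k2 _ (h1 _)] at key
  simp only [mulVec_add, mulVec_smul, add_dotProduct, smul_dotProduct, single_dotProduct, one_mul, Pi.add_apply,
    Pi.smul_apply, smul_eq_mul, mulVec_single_one, col_apply] at key
  generalize rE K a = X at ha key
  exact ha (coef_two hθ (c0 := X (iR 65) (iR 124)) (c1 := X (iR 65) (iR 123) + X (iR 68) (iR 124))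
    (c3 := X (iR 65) (iR 122) + X (iR 72) (iR 124))
    (c4 := X (iR 65) (iR 121) + X (iR 77) (iR 124) + X (iR 68) (iR 122) + X (iR 72) (iR 123))
    (c5 := X (iR 68) (iR 121) + X (iR 77) (iR 123)) (c6 := X (iR 72) (iR 122))
    (c7 := X (iR 72) (iR 121) + X (iR 77) (iR 122)) (c8 := X (iR 77) (iR 121)) fun s => by linear_combination key s)

theorem nt_F4 (S : Subgroup (chevF4.group K)) : NT chevF4 (xg chevF4 K) S fun i => {j | j ∈ oLF4 i} := by
  intro i j hj hne w hw e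
  have key : ∀ w ∈ W chevF4, ∀ r ∈ [33, 27], ∀ r' ∈ [25, 24], w r ≠ r' := fun w hw r hr r' hr' e => by
    obtain ⟨h0, s, h1, h2, h3⟩ := (by decide +kernel : ∀ r ∈ [33, 27], r < 48 ∧ ∃ s < 48, s ≠ r ∧ cA r s = 2) r hr
    refine (by decide +kernel : ∀ r ∈ [25, 24], ∀ s < 48, s ≠ r → cA r s ≠ 2) r' hr' (w s) (W_lt hw h1)
      (fun k => h2 (w.injective (k.trans e.symm))) ?_
    rw [← h3, ← e, cA, cA, ← A_eq_pk tablesF4 (W_lt hw h0) (W_lt hw h1), A_W hw, A_eq_pk tablesF4 h0 h1]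
  rcases (by decide +kernel : ∀ i j : Fin chevF4.rank, j.1 ∈ oLF4 i → j ≠ i →
    (chevF4.simple i ∈ [33, 27] ∧ chevF4.simple j ∈ [25, 24]) ∨
      (chevF4.simple j ∈ [33, 27] ∧ chevF4.simple i ∈ [25, 24])) i j hj hne with k | k
  · exact (key w hw _ k.1 _ k.2 e).elim
  · exact (key w⁻¹ (inv_mem hw) _ k.1 _ k.2 (by rw [← e, perm_inv_apply])).elim

theorem noCP_tw {m : ℕ} (hm : 1 ≤ m) (hK : Fintype.card K = 2 ^ (2 * m + 1)) :
    NoCP (twS (xg chevF4 K) (f4Words K (2 ^ m))) := by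
  have hx : IsChev chevF4 (xg chevF4 K) := H7.isChev_xg
  obtain ⟨σ, h⟩ := exists_twistF4 hx H7.GG_xg (iterateFrobenius K 2 m)
  have hφ := iterateFrobenius_def (R := K) 2 m
  have h2 : ∀ t, iterateFrobenius K 2 m (iterateFrobenius K 2 m t) ^ 2 = t := fun t => by
    rw [hφ, hφ, ← pow_mul, ← pow_mul, ← pow_succ, ← pow_add, ← add_assoc, ← two_mul, ← hK, FiniteField.pow_card]
  have hT := twD_F4 hx H7.GG_xg hφ h2 h
  have h3 : ∀ s : K, (s ^ (2 ^ m * 2)) ^ 2 ^ m = s := fun s => by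
    have := h2 s
    rw [hφ, hφ] at this
    rw [← pow_mul, mul_right_comm, pow_mul, pow_mul, this]
  have hθ : ∀ k ∈ [0, 1, 2 ^ m * 2, 2 ^ m * 2 + 1, 2 ^ m * 2 + 2, 2 ^ m * 2 + 3, 2 * (2 ^ m * 2) + 2, 2 * (2 ^ m * 2) + 3,
      2 * (2 ^ m * 2) + 4], ¬ k ≡ 2 [MOD Fintype.card K - 1] := by
    rw [hK]
    rcases hm.eq_or_lt with rfl | hm
    · decide
    have h4 : 2 ^ 2 ≤ 2 ^ m := Nat.pow_le_pow_right two_pos hm
    have h5 : 2 ^ (2 * m + 1) = 2 ^ m * 2 ^ m * 2 := by ring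
    have h6 := Nat.mul_le_mul_left (2 ^ m) h4
    simp only [List.forall_mem_cons, List.not_mem_nil, false_imp_iff, implies_true, and_true, h5]
    refine ⟨?_, ?_, ?_, ?_, ?_, ?_, ?_, ?_, ?_⟩ <;> exact L0.AR.not_modEq (by omega) (by omega) (by omega)
  have opp : ∀ a : twS (xg chevF4 K) (f4Words K (2 ^ m)), a ≠ 1 → ∃ a', IsConj a a' ∧ cs a'.1 ≠ 0 := fun a ha => by
    obtain ⟨w, hw⟩ := TwD.exists_max hT a
    have hd := TwD.dom hT (nt_F4 _) hw
    obtain ⟨n, v, k, hn, hv, h4⟩ := TwD.max_nf hT (nt_F4 _) hw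
    obtain ⟨i, hi⟩ := TwD.max_ne hT (nt_F4 _) hw ha
    have h5 : ∀ i : Fin chevF4.rank, w⁻¹ (chevF4.simple i) = chevF4.simple i ↔ i.1 ∈ KS chevF4 w := fun i =>
      Equiv.Perm.inv_eq_iff_eq.trans eq_comm
    have h6 := quad_mem (inv_mem hd.1) fun i hi => (h5 i).2 ((hd.2 i).resolve_right (not_neg_of_pos hi))
    have h7 : ∀ i j : Fin chevF4.rank, j.1 ∈ oLF4 i → w⁻¹ (chevF4.simple i) = chevF4.simple i →
        w⁻¹ (chevF4.simple j) = chevF4.simple j := fun i j hj e => (h5 j).2 ((h4 i ((h5 i).1 e)).2.1 j hj)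
    obtain ⟨l, hl, e⟩ := (by decide +kernel : ∀ q ∈ quads, (q.1 = 33 ↔ q.2.2.2 = 24) → (q.2.1 = 27 ↔ q.2.2.1 = 25) →
      q ≠ (33, 27, 25, 24) → ∃ l ∈ [[], [1, 2, 1, 2], [0, 3]], q = quad (actW chevF4 (fl chevF4 (lW ++ l)).reverse)) _ h6
      ⟨h7 ⟨0, by decide⟩ ⟨3, by decide⟩ (by decide), h7 ⟨3, by decide⟩ ⟨0, by decide⟩ (by decide)⟩
      ⟨h7 ⟨1, by decide⟩ ⟨2, by decide⟩ (by decide), h7 ⟨2, by decide⟩ ⟨1, by decide⟩ (by decide)⟩
      fun e => hi ((h5 i).1 (by rw [quad_inj (inv_mem hd.1) (one_mem _) e]; rfl))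
    have e' := quad_inj (inv_mem hd.1) (wordW_mem _) (e.trans (congrArg quad (funext (wordW_apply _)).symm))
    rw [wordW_reverse, _root_.inv_inj] at e'
    subst e'
    by_cases hA : l = [0, 3]
    · subst hA
      refine (test_A hθ (a := n * v) (fun s => ?_) (entry_A hn hv)).imp fun a' k' => ⟨k.trans k'.1, k'.2⟩
      rw [wT, evS_app, evS_nws]
      refine mul_mem ?_ (hT.sub.nWd_mem h hx.toIsFaith agrF4 (okF4.twF_one _) ocmF4 (R := [33, 24]) (by decide +kernel)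
        (by decide +kernel))
      have := mem_f4b (x := xg chevF4 K) (e := 2 ^ m) (a := 20) (b := 22) (c := 19) (d := 17) (by simp)
        (s ^ (2 ^ m * 2)) 0
      simpa [h3, mev, hx.toIsSt.zero] using this
    · refine ⟨n * v, k, corner_cs (Cell.mul_right hn.mem_cell (UU_le_BB _ hv)) ?_⟩
      exact (by decide +kernel : ∀ l ∈ [[], [1, 2, 1, 2], [0, 3]], l ≠ [0, 3] → ∃ c ∈ [(1 : ℤ), -1],
        peq 0 (ent7 0 (nws (fl chevF4 (lW ++ l))) 63 125) [(c, [])] = true) l hl hA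
  intro a b c k
  obtain ⟨a', ka, ha⟩ := opp a k.ha
  obtain ⟨b', kb, hb⟩ := opp b k.hb
  refine ext_tw hθ (fun r hr s => ?_) (k.congr ka kb) ha hb
  have := xiF_mem hφ h2 hT ((by decide +kernel : ∀ r ∈ [(33, 24), (40, 46), (44, 47)],
    XiOK r ∧ r.1 ≠ chevF4.neg r.2 ∧ chevF4.commTerms r.2 r.1 = []) r hr) (s ^ (2 ^ m * 2))
  rwa [xiF, hφ, h3] at this

theorem noCP_iso2F4 {G : Type*} [Group G] (h : Iso2F4 G) : NoCP G := by
  obtain ⟨K, _, _, m, hm, hK, ⟨e⟩⟩ := h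
  have : CharP K 2 := charP_of_card_eq_prime_pow hK
  exact (noCP_tw hm hK).congr (e.trans (twEquiv _).symm)

end Cfsg.Agent.H6.AW
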