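import Cfsg.Agent.H3.AT9
import Cfsg.Agent.H9.AH6
import Cfsg.Agent.H8.Cover
import Cfsg.Agent.H8.LiftTabE6
import Cfsg.Agent.H8.LiftTabE7
import Cfsg.Agent.H8.LiftTabE8

/-! The untwisted simply laced groups over the field with two elements: the data for the class product argument. -/

set_option autoImplicit false
set_option linter.unusedSectionVars false

namespace Cfsg.Agent.H6.AY

open Cfsg.Lie Matrix Finset Cfsg.Agent.H8 Cfsg.Agent.H7 Cfsg.Agent.H9.AH Cfsg.Agent.H3.AT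

variable {D : ChevalleyDatum} {K : Type*} [Field K] [CharP K 2] [hD : RootFacts D] [hM : MatFacts D]
  [hC : ChainFacts D] [hN : NFacts D] [hS : SLFacts D] [Finite (D.group K)] {TW TC θ α δ ζ r s : ℕ}

variable (D) in
/-- Root facts for the standing hypotheses. -/
def chkS (TW TC θ α : ℕ) : Bool :=
  decide (θ < D.nroots) && decide (α < D.nroots) && decide (pkA D TW TC θ α = 1) &&
  allTo D.nroots (fun r => !decide (D.IsPosRoot r) || (decide (0 ≤ pkA D TW TC θ r) &&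
    (decide (pkA D TW TC θ r ≠ 0) || decide (0 ≤ pkA D TW TC α r)))) &&
  allTo D.nroots (fun r => decide (pkA D TW TC θ r ≠ 0) ||
    anyTo D.nroots fun β => decide (pkA D TW TC θ β = 1) && decide (pkA D TW TC r β = -1)) &&
  allTo D.nroots (fun β => decide (pkA D TW TC θ β ≠ 1) || decide (β = α) ||
    anyTo D.nroots fun β' => decide (β < β') && decide (pkA D TW TC θ β' = 1) && decide (pkA D TW TC β β' = 1)) &&
  anyTo D.nroots fun β => decide (pkA D TW TC θ β = 1) && decide (pkA D TW TC α β = 1)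

theorem sit_un (hK : ∀ t : K, t ^ 2 = t) (hT : chkTables D TW TC = true) (hc : chkS D TW TC θ α = true) :
    Sit (⊤ : Subgroup (D.group K)) (MonoidHom.id _) 1 θ α := by
  simp only [chkS, Bool.and_eq_true, decide_eq_true_eq, allTo_iff, anyTo_iff, Bool.or_eq_true, Bool.not_eq_true',
    decide_eq_false_iff_not] at hc
  obtain ⟨⟨⟨⟨⟨⟨hθ, hα⟩, h1⟩, h2⟩, h3⟩, h4⟩, β, hβ, h5, h6⟩ := hc
  refine ⟨fun _ _ => rfl, fun r t => by rw [hK]; rfl, fun _ => Iff.rfl, fun _ => Iff.rfl, fun _ _ => rfl,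
    fun _ _ _ => trivial, fun _ _ _ => trivial, fun g _ => ?_, hθ, rfl, fun _ _ => rfl, fun r hr => ?_,
    fun r hr e => ?_, hα, by rw [A_eq_pk hT hθ hα, h1], rfl, fun r hr e => ?_, fun b hb e => ?_,
    ⟨β, hβ, by rw [A_eq_pk hT hθ hβ, h5], by rw [A_eq_pk hT hα hβ, h6]⟩⟩
  · obtain ⟨w, -, k1⟩ := (st (D := D) (K := K)).exists_cell (g := g) (by rw [H7.GG_xg]; exact Subgroup.mem_top g)
    obtain ⟨u, hu, n, hn, u', hu', e⟩ := st.cell_sharp k1
    exact ⟨w, u, ⟨trivial, hu⟩, n, trivial, hn, u', ⟨trivial, Um_le_UU _ w hu'⟩, e⟩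
  · rw [A_eq_pk hT hθ hr.1]; exact ((h2 r hr.1).resolve_left fun k => k hr).1
  · rw [A_eq_pk hT hθ hr] at e
    obtain ⟨b, hb, k1, k2⟩ := (h3 r hr).resolve_left fun k => k e
    exact ⟨b, hb, by rw [A_eq_pk hT hθ hb, k1], by rw [A_eq_pk hT hr hb, k2]⟩
  · rw [A_eq_pk hT hθ hr.1] at e
    rw [A_eq_pk hT hα hr.1]
    exact ((h2 r hr.1).resolve_left fun k => k hr).2.resolve_left fun k => k e
  · rw [A_eq_pk hT hθ hb] at e
    rcases h4 b hb with (k | k) | ⟨c, hc, ⟨k1, k2⟩, k3⟩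
    · exact absurd e k
    · exact Or.inl k
    · exact Or.inr ⟨c, hc, by rw [A_eq_pk hT hθ hc, k2], k1, by rw [A_eq_pk hT hb hc, k3]⟩

theorem adInv_un (hθ : θ < D.nroots) : AdInv θ (⊤ : Subgroup (D.group K)) := fun _ hη e _ hv _ h =>
  AdInv.aux hθ hη e (Subgroup.mem_top _) hv h

theorem opp_of {S : Subgroup (D.group K)} (hθ : θ < D.nroots) (h : ∀ a : S, a ≠ 1 → Opp S hθ a) : Opp' θ S :=
  fun a ha => let ⟨a', h1, h2⟩ := h a ha; ⟨a', h1, by rw [kap_mat hθ]; exact h2⟩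

/-- The reflection in the difference of two roots at angle `π / 3` swaps them. -/
theorem step_e (hr : r < D.nroots) (hs : s < D.nroots) (e : A D r s = 1) :
    ac D K (nn D K (refl D r s)) (bas D K r) = bas D K s := by
  have h1 := refl_lt r hs
  have h2 : A D (refl D r s) r = -1 := by rw [A_symm, A_refl_right, e]
  rw [nn_e h1 hr, wt_inj (refl_lt _ hr) hs (by rw [wt_refl_neg h2, wt_refl_one e, sub_add_cancel])]

theorem step_fix {a : ℕ} (ha : a < D.nroots) (hs : s < D.nroots) (e : A D r s = 1) (e' : A D a r = A D a s) :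
    ac D K (nn D K (refl D r s)) (bas D K a) = bas D K a := by
  rw [nn_e (refl_lt r hs) ha, refl_of_orth (by rw [A_symm, A_refl, e, e', one_mul, sub_self])]

theorem step_LL (hθ : θ < D.nroots) (hs : s < D.nroots) (e : A D r s = 1) (e' : A D θ r = A D θ s) :
    nn D K (refl D r s) ∈ LL D K θ :=
  nn_LL hθ (refl_lt r hs) (by rw [A_refl, e, e', one_mul, sub_self])

variable (D) in
/-- Root facts for the second root. -/
def chkD (TW TC θ α δ : ℕ) : Bool :=
  decide (θ < D.nroots) && decide (α < D.nroots) && decide (δ < D.nroots) && decide (pkA D TW TC θ δ = 0) &&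
  decide (pkA D TW TC δ α = 1) &&
  allTo D.nroots (fun r => !decide (D.IsPosRoot r) || decide (pkA D TW TC θ r ≠ 0) || decide (0 ≤ pkA D TW TC δ r)) &&
  allTo D.nroots fun η => decide (pkA D TW TC θ η ≠ 0) || decide (pkA D TW TC η α ≠ 1) || decide (η = δ) ||
    decide (pkA D TW TC δ η = 1) || anyTo D.nroots fun ν => decide (pkA D TW TC θ ν = 0) &&
      decide (pkA D TW TC δ ν = 1) && decide (pkA D TW TC ν η = 1)

theorem sec_un (hT : chkTables D TW TC = true) (hc : chkD D TW TC θ α δ = true) :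
    Sec θ (⊤ : Subgroup (D.group K)) 1 α δ := by
  simp only [chkD, Bool.and_eq_true, decide_eq_true_eq, allTo_iff, anyTo_iff, Bool.or_eq_true, Bool.not_eq_true',
    decide_eq_false_iff_not] at hc
  obtain ⟨⟨⟨⟨⟨⟨hθ, hα⟩, hδ⟩, h1⟩, h2⟩, h3⟩, h4⟩ := hc
  rw [← A_eq_pk hT hθ hδ] at h1
  refine ⟨hδ, rfl, h1, by rw [A_eq_pk hT hδ hα, h2], fun r hr e => ?_, fun η hη _ e e' => ?_⟩
  · rw [A_eq_pk hT hθ hr.1] at e
    rw [A_eq_pk hT hδ hr.1]
    exact (h3 r hr.1).resolve_left fun k => k.elim (fun k => k hr) fun k => k e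
  · rcases h4 η hη with (((k | k) | k) | k) | ⟨ν, hν, ⟨k1, k2⟩, k3⟩
    · exact absurd (A_eq_pk hT hθ hη ▸ e) k
    · exact absurd (A_eq_pk hT hη hα ▸ e') k
    · exact ⟨1, one_mem _, by rw [ac_one, k]⟩
    · rw [← A_eq_pk hT hδ hη] at k
      exact ⟨_, ⟨trivial, step_LL hθ hη k (h1.trans e.symm)⟩, step_e hδ hη k⟩
    · rw [← A_eq_pk hT hθ hν] at k1
      rw [← A_eq_pk hT hδ hν] at k2
      rw [← A_eq_pk hT hν hη] at k3
      exact ⟨_, ⟨trivial, mul_mem (step_LL hθ hη k3 (k1.trans e.symm)) (step_LL hθ hν k2 (h1.trans k1.symm))⟩,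
        by rw [ac_mul, step_e hδ hν k2, step_e hν hη k3]⟩

variable (D) in
/-- Root facts for the extraction argument. -/
def chkX (TW TC θ α a a' b b' : ℕ) : Bool :=
  decide (θ < D.nroots) && decide (α < D.nroots) && decide (a < D.nroots) && decide (a' < D.nroots) &&
  decide (b < D.nroots) && decide (b' < D.nroots) &&
  allTo D.rank (fun i => decide (pk TW D.rank θ i = pk TW D.rank a i + pk TW D.rank a' i) &&
    decide (pk TW D.rank θ i = pk TW D.rank b i + pk TW D.rank b' i)) &&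
  decide (pkA D TW TC a b = 0) && decide (pkA D TW TC α a = 1) && decide (pkA D TW TC α b = 1) &&
  decide (pkA D TW TC θ a = 1) && decide (pkA D TW TC θ a' = 1) && decide (pkA D TW TC θ b = 1) &&
  decide (pkA D TW TC θ b' = 1)

theorem xd_of {a a' b b' : ℕ} (hT : chkTables D TW TC = true) (hc : chkX D TW TC θ α a a' b b' = true) :
    XD D θ α a a' b b' ∧ A D θ a = 1 ∧ A D θ a' = 1 ∧ A D θ b = 1 ∧ A D θ b' = 1 := by
  simp only [chkX, Bool.and_eq_true, decide_eq_true_eq, allTo_iff] at hc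
  obtain ⟨⟨⟨⟨⟨⟨⟨⟨⟨⟨⟨⟨⟨hθ, hα⟩, ha⟩, ha'⟩, hb⟩, hb'⟩, h1⟩, h2⟩, h3⟩, h4⟩, h5⟩, h6⟩, h7⟩, h8⟩ := hc
  refine ⟨⟨ha, ha', hb, hb', funext fun i => ?_, funext fun i => ?_, by rw [A_eq_pk hT ha hb, h2],
    by rw [A_eq_pk hT hα ha, h3], by rw [A_eq_pk hT hα hb, h4]⟩, by rw [A_eq_pk hT hθ ha, h5],
    by rw [A_eq_pk hT hθ ha', h6], by rw [A_eq_pk hT hθ hb, h7], by rw [A_eq_pk hT hθ hb', h8]⟩
  · rw [Pi.add_apply, wt_eq_pk hT hθ, wt_eq_pk hT ha, wt_eq_pk hT ha']; exact (h1 i i.2).1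
  · rw [Pi.add_apply, wt_eq_pk hT hθ, wt_eq_pk hT hb, wt_eq_pk hT hb']; exact (h1 i i.2).2

variable (D) in
/-- Root facts excluding elements of order three. -/
def chkZ (TW TC θ δ ζ : ℕ) : Bool :=
  decide (θ < D.nroots) && decide (δ < D.nroots) && decide (ζ < D.nroots) && decide (pkA D TW TC θ ζ = 1) &&
  decide (pkA D TW TC δ ζ = 0) &&
  allTo D.nroots fun r => decide (pkA D TW TC θ r ≠ 1) || ((decide (pkA D TW TC δ r ≠ 0) || decide (r ≤ ζ)) &&
    (decide (r = ζ) || anyTo D.nroots fun β => decide (pkA D TW TC θ β = 1) && decide (pkA D TW TC δ β = 1) &&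
      decide (pkA D TW TC β r ≠ pkA D TW TC β ζ)))

theorem zd_of (hT : chkTables D TW TC = true) (hc : chkZ D TW TC θ δ ζ = true) :
    ζ < D.nroots ∧ A D θ ζ = 1 ∧ A D δ ζ = 0 ∧ (∀ r < D.nroots, A D θ r = 1 → A D δ r = 0 → r ≤ ζ) ∧
    ∀ r < D.nroots, A D θ r = 1 → (∀ β < D.nroots, A D θ β = 1 → A D δ β = 1 → A D β r = A D β ζ) → r = ζ := by
  simp only [chkZ, Bool.and_eq_true, decide_eq_true_eq, allTo_iff, anyTo_iff, Bool.or_eq_true] at hc
  obtain ⟨⟨⟨⟨⟨hθ, hδ⟩, hζ⟩, h1⟩, h2⟩, h3⟩ := hc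
  refine ⟨hζ, by rw [A_eq_pk hT hθ hζ, h1], by rw [A_eq_pk hT hδ hζ, h2], fun r hr e e' => ?_, fun r hr e k => ?_⟩
  · rw [A_eq_pk hT hθ hr] at e
    rw [A_eq_pk hT hδ hr] at e'
    exact ((h3 r hr).resolve_left fun k => k e).1.resolve_left fun k => k e'
  · rw [A_eq_pk hT hθ hr] at e
    refine ((h3 r hr).resolve_left fun k => k e).2.resolve_right fun ⟨β, hβ, ⟨k1, k2⟩, k3⟩ => k3 ?_
    rw [← A_eq_pk hT hβ hr, ← A_eq_pk hT hβ hζ]
    exact k β hβ (by rw [A_eq_pk hT hθ hβ, k1]) (by rw [A_eq_pk hT hδ hβ, k2])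

theorem unit_eq (hK : ∀ t : K, t ^ 2 = t) (a : Kˣ) : a = 1 :=
  Units.ext (mul_left_cancel₀ a.ne_zero (by rw [← sq, hK, Units.val_one, mul_one]))

theorem no_nf3 (hK : ∀ t : K, t ^ 2 = t) (hT : chkTables D TW TC = true) (h1 : chkS D TW TC θ α = true)
    (h2 : chkD D TW TC θ α δ = true) (h3 : chkZ D TW TC θ δ ζ = true) (l : D.group K) : ¬ NF3 θ ⊤ δ l :=
  let ⟨k1, k2, k3, k4, k5⟩ := zd_of hT h3
  (sit_un hK hT h1).not_nf3 (sec_un hT h2) k1 k2 k3 k4 k5 fun _ _ _ => unit_eq hK _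

theorem sE6 : chkS chevE6 H8.twE6 tcE6 71 70 = true := by decide +kernel
theorem sE7 : chkS chevE7 twE7 tcE7 125 124 = true := by decide +kernel
theorem sE8 : chkS chevE8 twE8 tcE8 239 238 = true := by decide +kernel
theorem dE6 : chkD chevE6 H8.twE6 tcE6 71 70 60 = true := by decide +kernel
theorem dE7 : chkD chevE7 twE7 tcE7 125 124 92 = true := by decide +kernel
theorem dE8 : chkD chevE8 twE8 tcE8 239 238 226 = true := by decide +kernel
theorem xE6 : chkX chevE6 H8.twE6 tcE6 71 70 69 47 53 63 = true := by decide +kernel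
theorem xE7 : chkX chevE7 twE7 tcE7 125 124 123 94 109 108 = true := by decide +kernel
theorem xE8 : chkX chevE8 twE8 tcE8 239 238 237 122 161 227 = true := by decide +kernel
theorem zE6' : chkZ chevE6 H8.twE6 tcE6 71 60 67 = true := by decide +kernel
theorem zE8 : chkZ chevE8 twE8 tcE8 239 226 225 = true := by decide +kernel

section Main

variable {a a' b b' : ℕ}

theorem noCP_un (hK : ∀ t : K, t ^ 2 = t) (hT : chkTables D TW TC = true) (h1 : chkS D TW TC θ α = true)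
    (h2 : chkD D TW TC θ α δ = true) (h3 : chkZ D TW TC θ δ ζ = true) (h4 : chkX D TW TC θ α a a' b b' = true)
    (hθ : θ < D.nroots) (ho : ∀ g : (⊤ : Subgroup (D.group K)), g ≠ 1 → Opp ⊤ hθ g) : NoCP (D.group K) :=
  let ⟨k, k1, k2, k3, k4⟩ := xd_of hT h4
  NoCP.congr ((sit_un hK hT h1).noCP' (adInv_un hθ) k (Fam.of_mem k.ha k1 (Subgroup.mem_top _))
    (Fam.of_mem k.ha' k2 (Subgroup.mem_top _)) (Fam.of_mem k.hb k3 (Subgroup.mem_top _))
    (Fam.of_mem k.hb' k4 (Subgroup.mem_top _)) (opp_of hθ ho) (sec_un hT h2) (no_nf3 hK hT h1 h2 h3))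
    Subgroup.topEquiv.symm

theorem good_un (hK : ∀ t : K, t ^ 2 = t) (hT : chkTables D TW TC = true) (h1 : chkS D TW TC θ α = true)
    (h2 : chkD D TW TC θ α δ = true) (h4 : chkX D TW TC θ α a a' b b' = true)
    (hθ : θ < D.nroots) (ho : ∀ g : (⊤ : Subgroup (D.group K)), g ≠ 1 → Opp ⊤ hθ g)
    (hpl : ∀ l ∈ (⊤ : Subgroup (D.group K)) ⊓ LL D K θ, l * l = 1 → ∃ k ∈ (⊤ : Subgroup (D.group K)) ⊓ LL D K θ,
      k⁻¹ * l * k ∈ Fx (bas D K α) ∧ k⁻¹ * l * k ∈ Fx (bas D K (refl D δ α))) : Good 2 (D.group K) :=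
  let ⟨k, k1, k2, k3, k4⟩ := xd_of hT h4
  Good.congr ((sit_un hK hT h1).good (adInv_un hθ) k (Fam.of_mem k.ha k1 (Subgroup.mem_top _))
    (Fam.of_mem k.ha' k2 (Subgroup.mem_top _)) (Fam.of_mem k.hb k3 (Subgroup.mem_top _))
    (Fam.of_mem k.hb' k4 (Subgroup.mem_top _)) (opp_of hθ ho) (sec_un hT h2) hpl) Subgroup.topEquiv.symm

end Main

/-- Moving a root vector in two steps inside the stabiliser of two others. -/
theorem exists_m {β μ ν : ℕ} (hθ : θ < D.nroots) (hα : α < D.nroots) (hβ : β < D.nroots) (hμ : μ < D.nroots)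
    (hν : ν < D.nroots) (e1 : A D β μ = 1) (e2 : A D μ ν = 1) (e3 : A D θ β = A D θ μ) (e4 : A D θ μ = A D θ ν)
    (e5 : A D α β = A D α μ) (e6 : A D α μ = A D α ν) : ∃ m ∈ LL D K θ, ac D K m (bas D K α) = bas D K α ∧
      ac D K m (bas D K β) = bas D K ν :=
  ⟨_, mul_mem (step_LL hθ hν e2 e4) (step_LL hθ hμ e1 e3), by rw [ac_mul, step_fix hα hμ e1 e5, step_fix hα hν e2 e6],
    by rw [ac_mul, step_e hβ hμ e1, step_e hμ hν e2]⟩

theorem refl_E7 : refl chevE7 92 124 = 109 := by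
  have e : A chevE7 92 124 = 1 := by rw [A_eq_pk tablesE7 (by decide) (by decide)]; decide +kernel
  refine wt_inj (refl_lt _ (by decide)) (by decide) (funext fun i => ?_)
  rw [wt_refl_one e, Pi.sub_apply, wt_eq_pk tablesE7 (by decide), wt_eq_pk tablesE7 (by decide),
    wt_eq_pk tablesE7 (by decide)]
  revert i
  decide +kernel

section Two

variable {F : Type*} [Field F] [Fintype F]

theorem sq_eq (hq : Fintype.card F = 2) (t : F) : t ^ 2 = t := by rw [← hq, FiniteField.pow_card]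

theorem char_two (hq : Fintype.card F = 2) : CharP F 2 := charP_of_card_eq_prime hq

theorem noCP_E6_two (hq : Fintype.card F = 2) : NoCP (chevE6.group F) :=
  haveI := char_two hq
  haveI := finite_group (D := chevE6) (K := F)
  noCP_un (sq_eq hq) tablesE6 sE6 dE6 zE6' xE6 _ fun _ => oppE6

theorem noCP_E8_two (hq : Fintype.card F = 2) : NoCP (chevE8.group F) :=
  haveI := char_two hq
  haveI := finite_group (D := chevE8) (K := F)
  noCP_un (sq_eq hq) tablesE8 sE8 dE8 zE8 xE8 _ fun _ => oppE8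

theorem m_E7 [CharP F 2] : haveI := finite_group (D := chevE7) (K := F)
    ∃ m ∈ LL chevE7 F 125, ac chevE7 F m (bas chevE7 F 124) = bas chevE7 F 124 ∧
      ac chevE7 F m (bas chevE7 F 123) = bas chevE7 F (refl chevE7 92 124) := by
  have := finite_group (D := chevE7) (K := F)
  rw [refl_E7]
  refine exists_m (μ := 115) (by decide) (by decide) (by decide) (by decide) (by decide) ?_ ?_ ?_ ?_ ?_ ?_ <;>
    simp only [A_eq_pk tablesE7 (by decide : 123 < chevE7.nroots) (by decide : 115 < chevE7.nroots),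
      A_eq_pk tablesE7 (by decide : 115 < chevE7.nroots) (by decide : 109 < chevE7.nroots),
      A_eq_pk tablesE7 (by decide : 125 < chevE7.nroots) (by decide : 123 < chevE7.nroots),
      A_eq_pk tablesE7 (by decide : 125 < chevE7.nroots) (by decide : 115 < chevE7.nroots),
      A_eq_pk tablesE7 (by decide : 125 < chevE7.nroots) (by decide : 109 < chevE7.nroots),
      A_eq_pk tablesE7 (by decide : 124 < chevE7.nroots) (by decide : 123 < chevE7.nroots),
      A_eq_pk tablesE7 (by decide : 124 < chevE7.nroots) (by decide : 115 < chevE7.nroots),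
      A_eq_pk tablesE7 (by decide : 124 < chevE7.nroots) (by decide : 109 < chevE7.nroots)] <;> decide +kernel

theorem good_E7_two_of (hq : Fintype.card F = 2) [CharP F 2] [Finite (chevE7.group F)]
    (hpl : ∀ l ∈ (⊤ : Subgroup (chevE7.group F)) ⊓ LL chevE7 F 125, l * l = 1 →
      ∃ k ∈ (⊤ : Subgroup (chevE7.group F)) ⊓ LL chevE7 F 125,
      k⁻¹ * l * k ∈ Fx (bas chevE7 F 124) ∧ k⁻¹ * l * k ∈ Fx (bas chevE7 F (refl chevE7 92 124))) :
    Good 2 (chevE7.group F) :=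
  good_un (sq_eq hq) tablesE7 sE7 dE7 xE7 _ (fun _ => oppE7) hpl

end Two

end Cfsg.Agent.H6.AY
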