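import Cfsg.Agent.H2.PSL2

/-! An affine group `q ^ 4 : (2 × L₂(q))`, `q = 3 ^ α`, and its element orders. -/

set_option autoImplicit false

namespace Cfsg.Agent.H6

open Matrix H2
open scoped MatrixGroups

section Aff

variable {R V Γ : Type*} [Ring R] [AddCommGroup V] [Module R V] [Group Γ]
  (ρ : Γ →* Module.End R V)

/-- The affine group of a representation. -/
def affG : Subgroup (Equiv.Perm V) where
  carrier := {f | ∃ γ v, ∀ x, f x = ρ γ x + v}
  mul_mem' := fun {f g} ⟨γ, v, h⟩ ⟨γ', v', h'⟩ => ⟨γ * γ', ρ γ v' + v, fun x => by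
    simp [h, h', add_assoc]⟩
  one_mem' := ⟨1, 0, by simp⟩
  inv_mem' := fun {f} ⟨γ, v, h⟩ => ⟨γ⁻¹, -ρ γ⁻¹ v, fun x => by
    rw [Equiv.Perm.inv_eq_iff_eq, h, ← sub_eq_add_neg, ← map_sub, ← Module.End.mul_apply, ← map_mul]
    simp⟩

theorem exists_aff (γ : Γ) (v : V) : ∃ f : affG ρ, ∀ x, f.1 x = ρ γ x + v :=
  ⟨⟨⟨fun x => ρ γ x + v, fun x => ρ γ⁻¹ (x - v), fun x => by
    simp [← Module.End.mul_apply, ← map_mul], fun x => by
    simp only [← Module.End.mul_apply, ← map_mul]; simp⟩, γ, v, fun _ => rfl⟩, fun _ => rfl⟩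

variable {ρ}

theorem aff_pow {f : affG ρ} {A : Module.End R V} {v : V} (h : ∀ x, f.1 x = A x + v) (n : ℕ) :
    f ^ n = 1 ↔ A ^ n = 1 ∧ (∑ i ∈ Finset.range n, A ^ i) v = 0 := by
  have e : ∀ x, (f ^ n).1 x = (A ^ n) x + (∑ i ∈ Finset.range n, A ^ i) v := by
    induction n with
    | zero => simp
    | succ n ih =>
      intro x
      rw [pow_succ, Subgroup.coe_mul, Equiv.Perm.mul_apply, ih, h, pow_succ, Finset.sum_range_succ]
      simp only [map_add, LinearMap.add_apply, Module.End.mul_apply]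
      abel
  refine ⟨fun e' => ?_, fun e' => Subtype.ext (Equiv.ext fun x => by rw [e, e'.1, e'.2]; simp)⟩
  have h0 : (∑ i ∈ Finset.range n, A ^ i) v = 0 := by simpa [e'] using (e 0).symm
  exact ⟨LinearMap.ext fun x => by simpa [e', h0] using (e x).symm, h0⟩

theorem aff_pow_of_inj {f : affG ρ} {A : Module.End R V} {v : V} (h : ∀ x, f.1 x = A x + v)
    {n d : ℕ} (hn : A ^ n = 1) (hd : ∀ x, (A ^ d) x = x → x = 0) : f ^ n = 1 := by
  refine (aff_pow h n).2 ⟨hn, hd _ ?_⟩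
  have : A * ∑ i ∈ Finset.range n, A ^ i = ∑ i ∈ Finset.range n, A ^ i := by
    rw [← sub_eq_zero, ← sub_one_mul, mul_geom_sum, hn, sub_self]
  rw [← Module.End.mul_apply]
  congr 1
  clear hd
  induction d with
  | zero => simp
  | succ d ih => rw [pow_succ, mul_assoc, this, ih]

theorem aff_pow_three (h3 : ∀ x : V, 3 • x = 0) {f : affG ρ} {A : Module.End R V} {v : V}
    (h : ∀ x, f.1 x = A x + v) {n : ℕ} (hn : A ^ n = 1) : f ^ (n * 3) = 1 := by
  refine (aff_pow h _).2 ⟨by rw [pow_mul, hn, one_pow], ?_⟩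
  rw [mul_comm, show 3 * n = n + n + n by ring, Finset.sum_range_add, Finset.sum_range_add]
  simp only [pow_add, hn, one_mul, LinearMap.add_apply]
  rw [← h3 ((∑ i ∈ Finset.range n, A ^ i) v)]
  abel

variable (ρ) in
theorem exists_transl [Nontrivial V] (h3 : ∀ x : V, 3 • x = 0) :
    ∃ P : Subgroup (affG ρ), P.Normal ∧ P ≠ ⊥ ∧ IsPGroup 3 P := by
  let P : Subgroup (affG ρ) :=
    { carrier := {f | ∃ v, ∀ x, f.1 x = x + v}
      mul_mem' := fun {f g} ⟨v, h⟩ ⟨w, h'⟩ => ⟨w + v, fun x => by simp [h, h', add_assoc]⟩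
      one_mem' := ⟨0, by simp⟩
      inv_mem' := fun {f} ⟨v, h⟩ => ⟨-v, fun x => by
        rw [Subgroup.coe_inv, Equiv.Perm.inv_eq_iff_eq, h]; simp⟩ }
  refine ⟨P, ⟨fun f ⟨v, h⟩ ⟨g, γ, w, h'⟩ => ⟨ρ γ v, fun x => ?_⟩⟩, fun e => ?_,
    fun ⟨f, v, h⟩ => ⟨1, Subtype.ext ?_⟩⟩
  · obtain ⟨y, rfl⟩ := g.surjective x
    simp only [Subgroup.coe_mul, Subgroup.coe_inv, Equiv.Perm.mul_apply, Equiv.Perm.coe_inv,
      Equiv.symm_apply_apply, h]
    rw [h', h', map_add, add_right_comm]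
  · obtain ⟨v, hv⟩ := exists_ne (0 : V)
    obtain ⟨f, hf⟩ := exists_aff ρ 1 v
    have : f ∈ P := ⟨v, by simpa using hf⟩
    rw [e, Subgroup.mem_bot] at this
    exact hv (by simpa [this] using (hf 0).symm)
  · exact aff_pow_three h3 (A := 1) (n := 1) h (one_pow 1)

end Aff

variable {F : Type*} [Field F] [CharP F 3]

local notation "M2" => Matrix (Fin 2) (Fin 2) F

omit [CharP F 3] in
theorem coe_int_units (ε : ℤˣ) : ((ε : ℤ) : F) = 1 ∨ ((ε : ℤ) : F) = -1 := by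
  rcases Int.units_eq_one_or ε with rfl | rfl <;> simp

instance instFactThree : Fact (Nat.Prime 3) := ⟨Nat.prime_three⟩

variable (F) in
/-- The twisted tensor product of the natural module with its Frobenius twist. -/
noncomputable def twRep : SL(2, F) × ℤˣ →* Module.End F (Matrix (Fin 2) (Fin 2) F) where
  toFun g := ((g.2 : ℤ) : F) • (LinearMap.mulLeft F (g.1 : M2) ∘ₗ
    LinearMap.mulRight F ((g.1 : M2).map (frobenius F 3))ᵀ)
  map_one' := by ext; simp
  map_mul' g h := LinearMap.ext fun x => by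
    simp [Matrix.map_mul, transpose_mul, mul_assoc, smul_smul, mul_comm ((g.2 : ℤ) : F)]

theorem twRep_apply (g : SL(2, F)) (ε : ℤˣ) (x : Matrix (Fin 2) (Fin 2) F) :
    twRep F (g, ε) x = ((ε : ℤ) : F) • ((g : M2) * (x * ((g : M2).map (frobenius F 3))ᵀ)) := rfl

theorem f3 : (3 : F) = 0 := CharP.cast_eq_zero F 3

theorem two_ne : (2 : F) ≠ 0 := fun h => one_ne_zero (α := F) (by linear_combination f3 (F := F) - h)

theorem twRep_sc {g : SL(2, F)} (h : Sc g) (ε : ℤˣ) : twRep F (g, ε) = ((ε : ℤ) : F) • 1 := by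
  refine LinearMap.ext fun x => ?_
  rcases isScal_SL_iff.1 h with rfl | rfl
  · simp [twRep_apply]
  · rw [twRep_apply, Matrix.SpecialLinearGroup.coe_neg, Matrix.map_neg _ (map_neg _)]
    simp

theorem twRep_eq_one {g : SL(2, F)} {ε : ℤˣ} : twRep F (g, ε) = 1 ↔ Sc g ∧ ε = 1 := by
  refine ⟨fun h => ?_, fun h => by simp [twRep_sc h.1, h.2]⟩
  have h1 : ∀ x, ((ε : ℤ) : F) • ((g : M2) * (x * ((g : M2).map (frobenius F 3))ᵀ)) = x := fun x => by
    rw [← twRep_apply, h]; rfl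
  have h2 : ∀ x, (g : M2) * x = x * (g : M2) := fun x => by
    have := h1 (x * (g : M2))
    have e := mul_eq_one_comm.1 (show (g : M2) * (((ε : ℤ) : F) • ((g : M2).map (frobenius F 3))ᵀ) = 1 by
      simpa using h1 1)
    have e' := mul_eq_one_comm.1 e
    rwa [← mul_smul_comm, ← mul_smul_comm, mul_assoc, e', mul_one] at this
  have h3 : Sc g := by
    have a := congrFun (congrFun (h2 !![0, 1; 0, 0]) 0)
    have b := congrFun (congrFun (h2 !![0, 0; 1, 0]) 1)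
    exact ⟨by simpa [Matrix.mul_apply] using (b 1).symm, by simpa [Matrix.mul_apply] using (a 0).symm,
      by simpa [Matrix.mul_apply] using a 1⟩
  refine ⟨h3, (Int.units_eq_one_or ε).resolve_right fun e => two_ne (F := F) ?_⟩
  have := congrFun (congrFun (LinearMap.congr_fun ((twRep_sc h3 ε).symm.trans h) 1) 0) 0
  simp [e] at this
  linear_combination -this

theorem twRep_fix {g : SL(2, F)} (h : tr g ^ 3 ≠ tr g) (x : Matrix (Fin 2) (Fin 2) F)
    (e : twRep F (g, 1) x = x) : x = 0 := by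
  obtain ⟨z, hz, hz'⟩ : ∃ z : SL(2, F), (z : M2) = ((g : M2).map (frobenius F 3))ᵀ ∧ tr z = tr g ^ 3 :=
    ⟨⟨((g : M2).map (frobenius F 3))ᵀ, by
      rw [det_transpose, ← RingHom.mapMatrix_apply, ← RingHom.map_det, g.det_coe, map_one]⟩, rfl, by
      simp [tr, trace_fin_two, frobenius_def, add_pow_char]⟩
  rw [twRep_apply, ← hz] at e
  have e₁ : (g : M2) * x = x * ((z⁻¹ : SL(2, F)) : M2) := by
    conv_rhs => rw [← e]
    rw [Units.val_one, Int.cast_one, one_smul, mul_assoc, mul_assoc, ← Matrix.SpecialLinearGroup.coe_mul,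
      mul_inv_cancel, Matrix.SpecialLinearGroup.coe_one, mul_one]
  have e₂ : ((g ^ 2 : SL(2, F)) : M2) * x = x * ((z⁻¹ ^ 2 : SL(2, F)) : M2) := by
    simp only [pow_two, Matrix.SpecialLinearGroup.coe_mul]
    rw [mul_assoc, e₁, ← mul_assoc, e₁, mul_assoc]
  rw [sq_eq_of_tr, sq_eq_of_tr, tr_inv, hz', add_mul, mul_add, smul_mul_assoc, smul_mul_assoc,
    mul_smul_comm, mul_smul_comm, one_mul, mul_one, add_right_inj, e₁, ← sub_eq_zero, ← sub_smul,
    smul_eq_zero, sub_eq_zero] at e₂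
  rw [← mul_one x, ← Matrix.SpecialLinearGroup.coe_one, ← inv_mul_cancel z, Matrix.SpecialLinearGroup.coe_mul,
    ← mul_assoc, e₂.resolve_left (Ne.symm h), zero_mul]

theorem m3 (x : Matrix (Fin 2) (Fin 2) F) : 3 • x = 0 := by
  rw [← Nat.cast_smul_eq_nsmul F, Nat.cast_ofNat, f3, zero_smul]

variable [Finite F] {k : ℕ} (hF : Nat.card F = 4 * k + 3)
include hF

theorem aff_cases (f : affG (twRep F)) :
    f ^ 6 = 1 ∨ f ^ 9 = 1 ∨ f ^ (4 * k + 2) = 1 ∨ f ^ (2 * k + 2) = 1 := by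
  obtain ⟨⟨g, ε⟩, v, h⟩ := f.2
  have ε2 : ε ^ 2 = 1 := Int.units_sq ε
  have pw : ∀ n, twRep F (g, ε) ^ n = twRep F (g ^ n, ε ^ n) := fun n => by rw [← map_pow]; rfl
  by_cases h2 : Sc (g ^ 2)
  · exact Or.inl (aff_pow_three m3 h (n := 2) (by rw [pw, twRep_eq_one]; exact ⟨h2, ε2⟩))
  by_cases hs : SS g
  · have t0 : tr g ≠ 0 := fun e => h2 (by rw [sq_eq_neg_one_of_tr e]; exact isScal_SL_iff.2 (Or.inr rfl))
    have t1 : tr (g ^ 2) = tr g ^ 2 - 2 := by
      rw [tr, sq_eq_of_tr, trace_add, trace_smul, trace_smul, trace_one]; simp; ring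
    have inj : ∀ x, (twRep F (g, ε) ^ 2) x = x → x = 0 := by
      rw [pw, ε2]
      refine twRep_fix fun e => ?_
      have : (tr g ^ 2 + 1) * (tr g ^ 2 * (tr g ^ 2 - 4)) = 0 := by
        rw [t1] at e
        linear_combination e + (tr g ^ 4 - 5 * tr g ^ 2 + 2) * f3 (F := F)
      rcases mul_eq_zero.1 this with a | a
      · have := Fintype.ofFinite F
        have b : IsSquare (-1 : F) := ⟨tr g, by linear_combination -a⟩
        rw [FiniteField.isSquare_neg_one_iff, ← Nat.card_eq_fintype_card, hF] at b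
        omega
      · exact hs (by simpa [t0, sub_eq_zero] using a)
    have c : g ^ Nat.card (Cen g) = 1 := by
      exact congrArg Subtype.val (pow_card_eq_one' (x := (⟨g, mem_Cen.2 rfl⟩ : Cen g)))
    rcases hs.card_Cen with ⟨-, a⟩ | ⟨-, a⟩ <;> rw [a, hF] at c
    · refine Or.inr (Or.inr (Or.inl (aff_pow_of_inj h ?_ inj)))
      rw [pw, show 4 * k + 2 = 2 * (2 * k + 1) by ring, pow_mul ε, ε2, one_pow,
        show 2 * (2 * k + 1) = 4 * k + 3 - 1 by omega, c]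
      exact map_one _
    · refine Or.inr (Or.inr (Or.inr (aff_pow_of_inj h ?_ inj)))
      rw [pw, twRep_eq_one]
      exact ⟨Sc_of_sq_eq_one two_ne (by rw [← pow_mul, ← c]; congr 1; ring), by
        rw [show 2 * k + 2 = 2 * (k + 1) by ring, pow_mul, ε2, one_pow]⟩
  have h3 : Sc (g ^ 3) := by
    rw [← pj_eq_one_iff, map_pow, ← unip_pow 3 (fun e => h2 (by
      rw [Sc.sq e]; exact isScal_SL_iff.2 (Or.inl rfl))) hs, pow_orderOf_eq_one]
  rcases Int.units_eq_one_or ε with rfl | rfl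
  · exact Or.inr (Or.inl (aff_pow_three m3 h (n := 3) (by rw [pw, twRep_eq_one]; simp [h3])))
  · have e : twRep F (g, -1) ^ 3 = -1 := by rw [pw, twRep_sc h3]; ext; norm_num
    refine Or.inl (aff_pow_of_inj h (d := 3) (by
      rw [show 6 = 3 * 2 from rfl, pow_mul, e]; ext; simp [pow_two]) fun x hx => ?_)
    rw [e] at hx
    have : (2 : F) • x = 0 := by rw [two_smul]; exact add_eq_zero_iff_eq_neg.2 hx.symm
    exact (smul_eq_zero.1 this).resolve_left two_ne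

omit hF [Finite F] in
theorem exists_ord {g : SL(2, F)} (ε : ℤˣ) {n : ℕ}
    (h : ∀ m, Sc (g ^ m) ∧ ε ^ m = 1 ↔ n ∣ m) : ∃ f : affG (twRep F), orderOf f = n := by
  obtain ⟨f, hf⟩ := exists_aff (twRep F) (g, ε) 0
  refine ⟨f, Nat.dvd_right_iff_eq.1 fun m => ?_⟩
  rw [orderOf_dvd_iff_pow_eq_one, aff_pow hf, ← h, ← twRep_eq_one, ← map_pow]
  simp [Prod.pow_mk]

omit hF in
theorem exists_sc {g : SL(2, F)} (hg : SS g) {n : ℕ} (h : Nat.card (Cen g) = 2 * n) :
    ∃ y : SL(2, F), ∀ m, Sc (y ^ m) ↔ n ∣ m := by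
  obtain ⟨y, hy⟩ := hg.isCyclic_Cen.exists_ofOrder_eq_natCard
  refine ⟨y, fun m => ?_⟩
  rw [← Nat.mul_dvd_mul_iff_left two_pos, ← h, ← hy, ← Subgroup.orderOf_coe,
    orderOf_dvd_iff_pow_eq_one, mul_comm, pow_mul]
  exact ⟨Sc.sq, Sc_of_sq_eq_one two_ne⟩

omit hF [Finite F] in
theorem sc_uSL (m : ℕ) : Sc (uSL (1 : F) ^ m) ↔ 3 ∣ m := by
  rw [← pj_eq_one_iff, map_pow, ← orderOf_dvd_iff_pow_eq_one,
    unip_pow 3 (fun e => one_ne_zero (isScal_uSL_iff.1 e)) (not_SS_uSL 1)]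

omit hF [Finite F] in
theorem exists_nine : ∃ f : affG (twRep F), orderOf f = 9 := by
  obtain ⟨f, hf⟩ := exists_aff (twRep F) (uSL 1, 1) !![0, 0; 0, 1]
  refine ⟨f, orderOf_eq_prime_pow (p := 3) (n := 1) (fun e => two_ne (F := F) ?_)
    (aff_pow_three m3 hf (n := 3) ?_)⟩
  · have := congrFun (congrFun ((aff_pow hf _).1 e).2 0) 0
    simp [Finset.sum_range_succ, pow_two, twRep_apply, uSL, Matrix.mul_apply, Matrix.vecMul,
      Matrix.vecHead, Matrix.vecTail] at this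
    linear_combination this - f3 (F := F)
  · rw [← map_pow, Prod.pow_mk, twRep_eq_one, sc_uSL]
    simp

theorem range_aff (hk : 1 ≤ k) (n : ℕ) (hn : n ∈ ({6, 9, 4 * k + 2, 2 * k + 2} : Set ℕ)) :
    ∃ f : affG (twRep F), orderOf f = n := by
  have neg : ∀ m, (-1 : ℤˣ) ^ m = 1 ↔ 2 ∣ m := fun m => by
    rw [neg_one_pow_eq_one_iff_even (by decide), even_iff_two_dvd]
  rcases hn with rfl | rfl | rfl | rfl
  · exact exists_ord (g := uSL 1) (-1) fun m => by rw [sc_uSL, neg]; omega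
  · exact exists_nine
  · obtain ⟨g, a, b⟩ := exists_split (F := F) (by omega)
    obtain ⟨y, hy⟩ := exists_sc a (n := 2 * k + 1) (by omega)
    refine exists_ord (g := y) (-1) fun m => ?_
    rw [hy, neg, show 4 * k + 2 = (2 * k + 1) * 2 by ring]
    exact ⟨fun h => Nat.Coprime.mul_dvd_of_dvd_of_dvd (by simp) h.1 h.2,
      fun h => ⟨dvd_of_mul_right_dvd h, dvd_of_mul_left_dvd h⟩⟩
  · obtain ⟨g, a, b⟩ := exists_nonsplit' (F := F)
    obtain ⟨y, hy⟩ := exists_sc a (n := 2 * k + 2) (by omega)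
    exact exists_ord (g := y) 1 fun m => by simp [hy]

end Cfsg.Agent.H6
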