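import Cfsg.Agent.H9.KC6
import Cfsg.Agent.H3.MR3
import Cfsg.Agent.H3.KK1

/-! The surviving class data for ten classes. -/

set_option autoImplicit false

namespace Cfsg.Agent.H6.Kc

open Subgroup H9.KC

/-- shape of the surviving data -/
def Sh10 (g : ℕ) (Q : List (ℕ × ℕ × ℕ × ℕ)) : Prop :=
  (g = 756 ∧ (3, 1, 2, 54) ∈ Q) ∨ (g = 7920 ∧ (∀ q ∈ Q, q ∈ [(2, 1, 1, 48), (3, 1, 2, 18), (11, 2, 5, 11),
    (4, 1, 2, 8), (4, 2, 1, 8), (8, 2, 2, 8), (8, 1, 4, 8), (6, 1, 2, 6), (5, 1, 4, 5)]) ∧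
    Q.count (2, 1, 1, 48) ≤ 1 ∧ Q.count (3, 1, 2, 18) ≤ 1)

instance decSh10 (g : ℕ) (Q : List (ℕ × ℕ × ℕ × ℕ)) : Decidable (Sh10 g Q) := by
  unfold Sh10; infer_instance

theorem fin10 {G : Type*} [Group G] [Finite G] [IsSimpleGroup G] {Q : List (ℕ × ℕ × ℕ × ℕ)}
    (ex : ∀ q ∈ Q, ∃ x : G, (orderOf x, mz x, ez x, cz x) = q)
    (mem : ∀ x : G, x ≠ 1 → (orderOf x, mz x, ez x, cz x) ∈ Q)
    (uniq : ∀ x y : G, x ≠ 1 → (orderOf x, mz x, ez x, cz x) = (orderOf y, mz y, ez y, cz y) →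
      Q.count (orderOf x, mz x, ez x, cz x) ≤ 1 → Eqv x y)
    (h : Sh10 (Nat.card G) Q) : Nonempty (G ≃* Cfsg.Spor.M11) := by
  have := Fintype.ofFinite G
  rcases h with ⟨hc, h⟩ | ⟨hc, h, n2, n3⟩
  · obtain ⟨x, hx⟩ := ex _ h
    simp only [Prod.mk.injEq] at hx
    have h1 := cz_mul_ez x
    have h2 := (normalizer (zpowers x : Set G)).index_mul_card
    rw [show Nat.card (normalizer (zpowers x : Set G)) = _ from h1.symm, hx.2.2.1, hx.2.2.2, hc] at h2
    have h3 : (normalizer (zpowers x : Set G)).index = 7 := by omega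
    have := H3.KK.dvd_fact (H := normalizer (zpowers x : Set G)) fun e => by simp [e] at h3
    rw [h3, hc] at this
    exact absurd this (by decide)
  have d : ∀ (x : G) {o : ℕ}, orderOf x = o → 1 < o → (o, mz x, ez x, cz x) ∈ [(2, 1, 1, 48), (3, 1, 2, 18),
      (11, 2, 5, 11), (4, 1, 2, 8), (4, 2, 1, 8), (8, 2, 2, 8), (8, 1, 4, 8), (6, 1, 2, 6), (5, 1, 4, 5)] :=
    fun x o e o1 => e ▸ h _ (mem x (by rintro rfl; rw [orderOf_one] at e; omega))
  have cj : ∀ {o e c : ℕ}, 1 < o → (∀ x : G, orderOf x = o → mz x = 1 ∧ ez x = e ∧ cz x = c) →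
      Q.count (o, 1, e, c) ≤ 1 → ∀ s t : G, orderOf s = o → orderOf t = o → IsConj s t :=
    fun o1 H n s t hs ht => isConj_of_mz (H s hs).1 (uniq s t
      (by rintro rfl; rw [orderOf_one] at hs; omega)
      (by rw [hs, ht, (H s hs).1, (H s hs).2.1, (H s hs).2.2, (H t ht).1, (H t ht).2.1, (H t ht).2.2])
      (by rwa [hs, (H s hs).1, (H s hs).2.1, (H s hs).2.2]))
  have d2 : ∀ x : G, orderOf x = 2 → mz x = 1 ∧ ez x = 1 ∧ cz x = 48 := fun x e => by
    simpa using d x e (by norm_num)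
  have d3 : ∀ x : G, orderOf x = 3 → mz x = 1 ∧ ez x = 2 ∧ cz x = 18 := fun x e => by
    simpa using d x e (by norm_num)
  refine H3.MR.m11 hc (cj (by norm_num) d2 n2) (fun t e => (d2 t e).2.2) (cj (by norm_num) d3 n3)
    (fun t e => (d3 t e).2.2) (fun t e => ?_) (fun t e => ?_) fun g => ?_
  · have := d t e (by norm_num); simp at this; exact this.2.2
  · have := d t e (by norm_num); simp at this; exact this.2.2
  · by_cases g1 : g = 1
    · simp [g1]
    have := h _ (mem g g1)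
    simp only [List.mem_cons, Prod.mk.injEq, List.not_mem_nil, or_false] at this
    simp only [Finset.mem_insert, Finset.mem_singleton]
    omega

end Cfsg.Agent.H6.Kc
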