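import Cfsg.Agent.H9.KC4

/-! A simple group with a 2-element whose centraliser has 2-part four has Sylow 2-subgroups of
order at most eight. -/

set_option autoImplicit false
set_option linter.unusedSectionVars false

namespace Cfsg.Agent.H6.Kc

open Subgroup H9.KC MulAction

theorem top_of_sup {H : Type*} [Group H] [Finite H] [Group.IsNilpotent H] {D : Subgroup H}
    (h : D ⊔ _root_.commutator H = ⊤) : D = ⊤ := by
  refine (eq_top_or_exists_le_coatom D).resolve_right fun ⟨M, hM, h1⟩ => hM.1 ?_
  have := Subgroup.NormalizerCondition.normal_of_coatom M Group.normalizerCondition_of_isNilpotent hM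
  obtain ⟨a, -, ha⟩ := SetLike.exists_of_lt hM.lt_top
  have : IsCyclic (H ⧸ M) := ⟨a, fun x => by
    obtain ⟨x, rfl⟩ := QuotientGroup.mk_surjective x
    have := hM.2 ((zpowers (a : H ⧸ M)).comap (QuotientGroup.mk' M)) (lt_of_le_of_ne (fun m hm => by
      simp [(QuotientGroup.eq_one_iff m).2 hm]) fun e => ha (by rw [e]; simp))
    exact (this ▸ mem_top x : x ∈ (zpowers (a : H ⧸ M)).comap (QuotientGroup.mk' M))⟩
  exact top_le_iff.1 (h ▸ sup_le h1 (Subgroup.Normal.quotient_commutative_iff_commutator_le.1 inferInstance))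

theorem perfect {G : Type*} [Group G] [IsSimpleGroup G] (hG : ¬ IsMulCommutative G) :
    _root_.commutator G = ⊤ :=
  (IsSimpleGroup.eq_bot_or_eq_top_of_normal _ inferInstance).resolve_left fun e =>
    hG ⟨⟨fun a b => mem_center_iff.1 ((commutator_eq_bot_iff_center_eq_top G).1 e ▸ mem_top b) a⟩⟩

/-- transfer for elements of order dividing four -/
theorem transfer4 {G : Type*} [Group G] [Finite G] (hG : _root_.commutator G = ⊤) (S : Subgroup G)
    (hS : Odd S.index) (M : Subgroup S) (hM : M.index = 2) {x : G} (h4 : x ^ 4 = 1)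
    (h1 : ∀ y : S, IsConj x y → y ∉ M) (h2 : ∀ y : S, IsConj (x ^ 2) y → y ∈ M) : False := by
  classical
  have := Fintype.ofFinite (Quotient (orbitRel (zpowers x) (G ⧸ S)))
  let φ : S →* ℤˣ := MonoidHom.mk' (fun w => if w ∈ M then 1 else -1) fun a b => by
    by_cases ha : a ∈ M <;> by_cases hb : b ∈ M <;> simp [mul_mem_iff_of_index_two hM, ha, hb]
  have e := Abelianization.commutator_subset_ker (MonoidHom.transfer φ) (hG ▸ mem_top x)
  rw [MonoidHom.mem_ker, MonoidHom.transfer_eq_prod_quotient_orbitRel_zpowers_quot,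
    Finset.prod_congr rfl (g := fun q => (-1) ^ Function.minimalPeriod (x • ·) q.out) fun q _ => ?_,
    Finset.prod_pow_eq_pow_sum, ← index_eq_sum_minimalPeriod, hS.neg_one_pow] at e
  · exact absurd e (by decide)
  have hd : Function.minimalPeriod (x • ·) q.out ∣ 4 :=
    Function.isPeriodicPt_iff_minimalPeriod_dvd.1 (by
      rw [Function.IsPeriodicPt, Function.IsFixedPt, smul_iterate_apply, h4, one_smul])
  suffices ∀ n, n ∣ 4 → ∀ hm : q.out.out⁻¹ * x ^ n * q.out.out ∈ S, φ ⟨_, hm⟩ = (-1) ^ n from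
    this _ hd _
  intro n hd hm
  have cj : ∀ (a : G), IsConj a (q.out.out⁻¹ * a * q.out.out) := fun a =>
    isConj_iff.2 ⟨q.out.out⁻¹, by rw [inv_inv]⟩
  have : n ≤ 4 := Nat.le_of_dvd (by norm_num) hd
  interval_cases n
  · simp at hd
  · exact (if_neg (h1 ⟨_, hm⟩ (by simpa using cj x))).trans (by simp)
  · exact (if_pos (h2 ⟨_, hm⟩ (cj _))).trans (by simp)
  · simp at hd
  · refine (if_pos ?_).trans (by decide)
    convert M.one_mem
    simp [h4]

section two

variable {P : Type*} [Group P] [Finite P]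

/-- number of conjugates -/
theorem card_cls (y : P) : {w | IsConj y w}.ncard * cz y = Nat.card P := by
  have e : {w | IsConj y w} = orbit (ConjAct P) y := by
    ext w; rw [ConjAct.mem_orbit_conjAct, Set.mem_ofPred_eq, isConj_comm]
  rw [e, ← index_stabilizer, cz, Subgroup.nat_card_centralizer_nat_card_stabilizer y,
    (stabilizer (ConjAct P) y).index_mul_card]
  rfl

theorem card_fib (q : Abelianization P) :
    {w | Abelianization.of w = q}.ncard * Nat.card (Abelianization P) = Nat.card P := by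
  obtain ⟨a, rfl⟩ : ∃ a, Abelianization.of a = q := QuotientGroup.mk_surjective q
  have e : {w | Abelianization.of w = Abelianization.of a} = (a * ·) '' (_root_.commutator P : Set P) := by
    ext w
    simp only [Set.mem_ofPred_eq, Set.mem_image, SetLike.mem_coe]
    constructor
    · intro h
      exact ⟨a⁻¹ * w, QuotientGroup.eq.1 h.symm, by simp⟩
    · rintro ⟨d, hd, rfl⟩
      exact (QuotientGroup.eq.2 (by simpa using hd) : (a : P ⧸ _root_.commutator P) = (a * d : P)).symm
  rw [e, Set.ncard_image_of_injective _ (mul_right_injective a), mul_comm]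
  exact (card_eq_card_quotient_mul_card_subgroup _).symm

theorem cls_sub (y : P) : {w | IsConj y w} ⊆ {w | Abelianization.of w = Abelianization.of y} := by
  intro w hw
  obtain ⟨g, rfl⟩ := isConj_iff.1 hw
  simp [mul_comm]

theorem klein (hP : IsPGroup 2 P) (h8 : 8 ≤ Nat.card P) {x : P} (hx : cz x ≤ 4) :
    IsKleinFour (Abelianization P) := by
  have := hP.isNilpotent
  have nc : ¬ IsCyclic (Abelianization P) := fun ⟨⟨q, hq⟩⟩ => by
    obtain ⟨a, rfl⟩ := QuotientGroup.mk_surjective q
    have : zpowers a = ⊤ := top_of_sup (top_le_iff.1 fun w _ => by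
      obtain ⟨k, hk⟩ := hq (Abelianization.of w)
      have : (a ^ k)⁻¹ * w ∈ _root_.commutator P := QuotientGroup.eq.1 hk
      rw [← mul_inv_cancel_left (a ^ k) w]
      exact mul_mem_sup (zpow_mem (mem_zpowers a) k) this)
    have c : centralizer {x} = ⊤ := top_le_iff.1 fun w _ => by
      obtain ⟨i, rfl⟩ := mem_zpowers_iff.1 (this ▸ mem_top w)
      obtain ⟨j, rfl⟩ := mem_zpowers_iff.1 (this ▸ mem_top x)
      exact mem_centralizer_singleton_iff.2 (Commute.zpow_zpow_self a i j)
    rw [cz, c, card_top] at hx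
    omega
  have h1 := card_cls x
  have h2 := card_fib (Abelianization.of x)
  have h3 := Set.ncard_le_ncard (cls_sub x)
  have h4 : Nat.card (Abelianization P) ≤ 4 := by
    by_contra h
    have : 0 < {w | Abelianization.of w = Abelianization.of x}.ncard := by
      refine Nat.pos_of_ne_zero fun e => ?_
      rw [e] at h2; omega
    nlinarith
  obtain ⟨k, hk⟩ := IsPGroup.iff_card.1 (hP.to_quotient (_root_.commutator P))
  have hk : Nat.card (Abelianization P) = 2 ^ k := hk
  have k2 : k ≤ 2 := by
    rw [hk] at h4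
    exact (Nat.pow_le_pow_iff_right (by norm_num : 1 < 2)).1 h4
  have c4 : Nat.card (Abelianization P) = 4 := by
    interval_cases k
    · exact absurd (isCyclic_of_card_dvd_prime (p := 2) (by simp [hk])) nc
    · exact absurd (isCyclic_of_prime_card (p := 2) hk) nc
    · exact hk
  exact ⟨c4, (not_isCyclic_iff_exponent_eq_prime Nat.prime_two c4).1 nc⟩

variable [IsKleinFour (Abelianization P)]

theorem conj_of {y w : P} (hy : cz y ≤ 4) (h : Abelianization.of w = Abelianization.of y) :
    IsConj y w := by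
  have h1 := card_cls y
  have h2 := card_fib (Abelianization.of y)
  rw [IsKleinFour.card_four] at h2
  have := Set.eq_of_subset_of_ncard_le (cls_sub y) (by nlinarith)
  exact (this ▸ h : w ∈ {w | IsConj y w})

theorem cz_conj' {y w : P} (h : IsConj y w) : cz y = cz w := (Eqv.of_isConj h).cz

theorem of_ne (h8 : 8 ≤ Nat.card P) {y : P} (hy : cz y ≤ 4) : Abelianization.of y ≠ 1 := fun e => by
  have := cz_conj' (conj_of hy (w := 1) (by rw [e, map_one]))
  rw [cz_one] at this
  omega

theorem sq_cent (hP : IsPGroup 2 P) (h8 : 8 ≤ Nat.card P) {y : P} (hy : cz y ≤ 4) (g : P) :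
    Commute g (y * y) := by
  by_cases h2 : y * y = 1
  · rw [h2]; exact Commute.one_right g
  have : Nontrivial P := Finite.one_lt_card_iff_nontrivial.1 (by omega)
  have := hP.center_nontrivial
  obtain ⟨⟨z, hz⟩, z1⟩ := exists_ne (1 : center P)
  have z1 : z ≠ 1 := fun e => z1 (Subtype.ext e)
  obtain ⟨k, hk⟩ := (IsPGroup.iff_orderOf.1 hP) y
  have o4 : orderOf y = 4 := by
    have h1 := Nat.le_of_dvd (cz_pos y) (ord_dvd_cz y)
    have k2 : k ≤ 2 := (Nat.pow_le_pow_iff_right (by norm_num : 1 < 2)).1 (by omega)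
    interval_cases k
    · exact absurd (by rw [orderOf_eq_one_iff.1 hk, mul_one]) h2
    · exact absurd (by rw [← pow_two]; exact orderOf_dvd_iff_pow_eq_one.1 (by simp [hk])) h2
    · exact hk
  have ce : zpowers y = centralizer {y} := eq_of_le_of_card_ge
    (zpowers_le.2 (mem_centralizer_singleton_iff.2 rfl)) (by rw [Nat.card_zpowers, o4]; exact hy)
  have hz' : z ∈ zpowers y := ce ▸ mem_centralizer_singleton_iff.2 (mem_center_iff.1 hz y).symm
  have nc : y ∉ center P := fun h => by
    have c : centralizer {y} = ⊤ := top_le_iff.1 fun w _ =>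
      mem_centralizer_singleton_iff.2 (mem_center_iff.1 h w)
    rw [cz, c, card_top] at hy
    omega
  classical
  obtain ⟨i, hi, rfl⟩ := Finset.mem_image.1 (mem_zpowers_iff_mem_range_orderOf.1 hz')
  rw [o4, Finset.mem_range] at hi
  have y4 : y ^ 4 = 1 := o4 ▸ pow_orderOf_eq_one y
  interval_cases i
  · simp at z1
  · exact absurd (by simpa using hz) nc
  · rw [← pow_two]; exact mem_center_iff.1 hz g
  · refine absurd ?_ nc
    have := pow_mem hz 3
    rwa [← pow_mul, show 3 * 3 = 4 * 2 + 1 from rfl, pow_succ, pow_mul, y4, one_pow, one_mul] at this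

theorem inverts (hP : IsPGroup 2 P) (h8 : 8 ≤ Nat.card P) {y d : P} (hy : cz y ≤ 4)
    (hd : Abelianization.of d = 1) : d * y = y * d⁻¹ := by
  obtain ⟨g, hg⟩ := isConj_iff.1 (conj_of hy (w := y * d) (by rw [map_mul, hd, mul_one]))
  have : y * d * (y * d) = y * y := by
    rw [← hg, show g * y * g⁻¹ * (g * y * g⁻¹) = g * (y * y) * g⁻¹ by group,
      (sq_cent hP h8 hy g).eq, mul_inv_cancel_right]
  rw [mul_assoc, mul_left_cancel_iff, ← mul_assoc] at this
  exact eq_mul_inv_of_mul_eq this

theorem not_three (hP : IsPGroup 2 P) (h16 : 16 ≤ Nat.card P) {x y : P} (hx : cz x ≤ 4) (hy : cz y ≤ 4)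
    (hxy : cz (x * y) ≤ 4) : False := by
  have h2 := card_fib (1 : Abelianization P)
  rw [IsKleinFour.card_four] at h2
  have hs : insert (x * y) {w | Abelianization.of w = 1} ⊆ (centralizer {x * y} : Subgroup P) := by
    rintro d (rfl | hd)
    · exact mem_centralizer_singleton_iff.2 rfl
    · refine mem_centralizer_singleton_iff.2 ?_
      have hd : Abelianization.of d = 1 := hd
      rw [← mul_assoc, inverts hP (by omega) hx hd, mul_assoc,
        inverts hP (by omega) hy (by rw [map_inv, hd, inv_one]), inv_inv, mul_assoc]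
  have := Set.ncard_le_ncard hs
  rw [Set.ncard_insert_of_notMem (s := {w | Abelianization.of w = 1}) (of_ne (by omega) hxy)] at this
  have e : (centralizer {x * y} : Set P).ncard = cz (x * y) := rfl
  erw [e] at this
  omega

theorem not_dih (hP : IsPGroup 2 P) (h16 : 16 ≤ Nat.card P) {a b : P} (ha : a * a = 1) (hb : b * b = 1)
    (a1 : Abelianization.of a ≠ 1) (b1 : Abelianization.of b ≠ 1) (hab : cz (a * b) ≤ 4) : False := by
  have := hP.isNilpotent
  have n : Abelianization.of a ≠ Abelianization.of b := fun e => of_ne (by omega) hab (by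
    rw [map_mul, e, IsKleinFour.mul_self])
  have ia : a⁻¹ = a := inv_eq_of_mul_eq_one_right ha
  have ib : b⁻¹ = b := inv_eq_of_mul_eq_one_right hb
  have na : a ∈ normalizer (zpowers (a * b) : Set P) := mem_norm.2 (by
    rw [ia, ← mul_assoc, ha, one_mul, ← zpowers_inv, mul_inv_rev, ia, ib])
  have nb : b ∈ normalizer (zpowers (a * b) : Set P) := mem_norm.2 (by
    rw [ib, mul_assoc, mul_assoc, hb, mul_one, ← zpowers_inv, mul_inv_rev, ia, ib])
  have t : normalizer (zpowers (a * b) : Set P) = ⊤ := top_of_sup (top_le_iff.1 fun w _ => by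
    obtain ⟨u, hu, e⟩ : ∃ u ∈ normalizer (zpowers (a * b) : Set P),
        Abelianization.of u = Abelianization.of w := by
      by_cases h1 : Abelianization.of w = 1
      · exact ⟨1, one_mem _, by rw [h1, map_one]⟩
      by_cases h2 : Abelianization.of w = Abelianization.of a
      · exact ⟨a, na, h2.symm⟩
      by_cases h3 : Abelianization.of w = Abelianization.of b
      · exact ⟨b, nb, h3.symm⟩
      exact ⟨a * b, mul_mem na nb, (IsKleinFour.eq_mul_of_ne_all a1 b1 n h1 h2 h3).symm⟩
    rw [← mul_inv_cancel_left u w]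
    exact mul_mem_sup hu (QuotientGroup.eq.1 e))
  have hs : insert 1 {w | IsConj (a * b) w} ⊆ (zpowers (a * b) : Subgroup P) := by
    rintro w (rfl | hw)
    · exact one_mem _
    · obtain ⟨g, rfl⟩ := isConj_iff.1 hw
      exact mem_norm.1 (t ▸ mem_top g) ▸ mem_zpowers _
  have h1 := Set.ncard_le_ncard hs
  rw [Set.ncard_insert_of_notMem (fun h => of_ne (by omega) hab (by
    rw [isConj_one_left.1 h, map_one]))] at h1
  have e : (zpowers (a * b) : Set P).ncard = orderOf (a * b) := Nat.card_zpowers _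
  erw [e] at h1
  have h2 := card_cls (a * b)
  have h3 := Nat.le_of_dvd (cz_pos _) (ord_dvd_cz (a * b))
  nlinarith

end two

variable {G : Type*} [Group G] [Finite G]

theorem cz_sub (S : Subgroup G) (y : S) : cz y ∣ cz (y : G) := by
  rw [cz, ← card_map_of_injective S.subtype_injective]
  refine card_dvd_of_le ?_
  rintro _ ⟨w, hw, rfl⟩
  exact mem_centralizer_singleton_iff.2 (congrArg Subtype.val (mem_centralizer_singleton_iff.1 hw))

/-- a 2-element whose centraliser has order not divisible by eight forces `16 ∤ |G|` -/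
theorem t4 [IsSimpleGroup G] (hG : ¬ IsMulCommutative G) {x : G} {k : ℕ} (ho : orderOf x = 2 ^ k)
    (h8 : ¬ 8 ∣ cz x) : ¬ 16 ∣ Nat.card G := fun h16 => by
  obtain ⟨S, hS, hP, d16, hodd⟩ : ∃ S : Subgroup G, zpowers x ≤ S ∧ IsPGroup 2 S ∧ 2 ^ 4 ∣ Nat.card S ∧
      Odd S.index := by
    obtain ⟨S, hS⟩ := (IsPGroup.of_card (G := zpowers x) (by rw [Nat.card_zpowers, ho])).exists_le_sylow
    refine ⟨S, hS, S.isPGroup', ?_, Nat.odd_iff.2 (Nat.two_dvd_ne_zero.1 S.not_dvd_index)⟩
    have := S.card_eq_multiplicity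
    erw [this]
    exact pow_dvd_pow 2 ((Nat.prime_two.pow_dvd_iff_le_factorization Nat.card_pos.ne').1 h16)
  have c16 : 16 ≤ Nat.card S := Nat.le_of_dvd Nat.card_pos d16
  have sm : ∀ y : S, IsConj x y → cz y ≤ 4 := fun y hy => by
    obtain ⟨j, hj⟩ := IsPGroup.iff_card.1 (hP.to_subgroup (centralizer {y}))
    have := cz_sub _ y
    rw [← (Eqv.of_isConj hy).cz, cz, hj] at this
    rw [cz, hj]
    by_contra h
    have : 3 ≤ j := by
      by_contra h'
      exact h (Nat.pow_le_pow_right (by norm_num) (by omega : j ≤ 2))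
    exact h8 ((pow_dvd_pow 2 this).trans ‹_›)
  set x' : S := ⟨x, hS (mem_zpowers x)⟩
  have sx := sm x' (IsConj.refl _)
  have := klein hP (by omega) sx
  have x1 := of_ne (by omega) sx
  have h4 : x ^ 4 = 1 := orderOf_dvd_iff_pow_eq_one.1 (by
    rw [ho]
    refine pow_dvd_pow 2 (?_ : k ≤ 2)
    by_contra h
    exact h8 ((pow_dvd_pow 2 (by omega : 3 ≤ k)).trans (ho ▸ ord_dvd_cz x)))
  have nsq : ¬ IsConj x (x ^ 2) := fun h => h8 (by
    rw [(Eqv.of_isConj h).cz]
    refine (dvd_trans (by norm_num) d16).trans (card_dvd_of_le fun g hg => ?_)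
    rw [pow_two]
    exact mem_centralizer_singleton_iff.2 (congrArg Subtype.val (sq_cent hP (by omega) sx ⟨g, hg⟩)))
  have up : ∀ {y w : S}, IsConj x y → Abelianization.of w = Abelianization.of y → IsConj x w :=
    fun {y w} h e => h.trans (S.subtype.map_isConj (conj_of (sm y h) e))
  have key : ∀ α : Abelianization S, α ≠ 1 → α ≠ Abelianization.of x' →
      (∃ y : S, IsConj x y ∧ Abelianization.of y = α) ∨
      ∃ a : S, IsConj (x ^ 2) a ∧ Abelianization.of a = Abelianization.of x' * α := fun α a1 a2 => by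
    by_contra hc
    push Not at hc
    have o2 : orderOf α = 2 := orderOf_eq_prime (by rw [pow_two, IsKleinFour.mul_self]) a1
    have mz : ∀ q, q ∈ zpowers α ↔ q = 1 ∨ q = α := fun q => by
      classical
      rw [mem_zpowers_iff_mem_range_orderOf, o2]
      simp [Finset.range_add_one, eq_comm, or_comm]
    refine transfer4 (perfect hG) S hodd
      ((zpowers α).comap Abelianization.of) ?_ h4 (fun y hy hm => ?_) fun y hy => ?_
    · rw [index_comap_of_surjective _ QuotientGroup.mk_surjective]
      have := (zpowers α).index_mul_card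
      rw [Nat.card_zpowers, o2, IsKleinFour.card_four] at this
      omega
    · rcases (mz _).1 hm with e | e
      exacts [of_ne (by omega) (sm y hy) e, hc.1 y hy e]
    · refine (mz _).2 ?_
      by_contra h
      push Not at h
      exact hc.2 y hy (IsKleinFour.eq_mul_of_ne_all x1 a1 a2.symm h.1
        (fun e => nsq ((up (IsConj.refl _) e).trans hy.symm)) h.2)
  obtain ⟨α, a1, a2⟩ : ∃ α : Abelianization S, α ≠ 1 ∧ α ≠ Abelianization.of x' := by
    by_contra h
    push Not at h
    have : (Set.univ : Set (Abelianization S)) ⊆ {1, Abelianization.of x'} := fun q _ => by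
      by_cases e : q = 1
      exacts [Or.inl e, Or.inr (h q e)]
    have h1 := (Set.ncard_le_ncard this).trans (Set.ncard_insert_le _ _)
    rw [Set.ncard_univ, IsKleinFour.card_four, Set.ncard_singleton] at h1
    omega
  have b1 : Abelianization.of x' * α ≠ 1 := fun e => a2 (by
    rw [← IsKleinFour.mul_self (Abelianization.of x')] at e; exact mul_left_cancel e)
  have b2 : Abelianization.of x' * α ≠ Abelianization.of x' := by simpa using a1
  have b3 : Abelianization.of x' * (Abelianization.of x' * α) = α := by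
    rw [← mul_assoc, IsKleinFour.mul_self, one_mul]
  have sq : ∀ a : S, IsConj (x ^ 2) a → a * a = 1 := fun a h => by
    obtain ⟨g, hg⟩ := isConj_iff.1 h
    refine Subtype.ext ?_
    rw [Subgroup.coe_mul, ← hg, show g * x ^ 2 * g⁻¹ * (g * x ^ 2 * g⁻¹) = g * x ^ 4 * g⁻¹ by group, h4]
    simp
  rcases key α a1 a2 with ⟨y, y1, y2⟩ | ⟨a, y1, y2⟩ <;> rcases key _ b1 b2 with ⟨z, z1, z2⟩ | ⟨b, z1, z2⟩
  · exact not_three hP c16 sx (sm y y1) (sm _ (up z1 (by rw [map_mul, y2, z2])))
  · exact nsq ((up y1 (by rw [z2, b3, y2])).trans z1.symm)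
  · exact nsq ((up z1 (by rw [y2, z2])).trans y1.symm)
  · refine not_dih hP c16 (sq a y1) (sq b z1) (y2 ▸ b1) (by rw [z2, b3]; exact a1)
      (sm _ (up (y := x') (IsConj.refl _) ?_))
    rw [map_mul, y2, z2, b3, mul_assoc, IsKleinFour.mul_self, mul_one]

end Cfsg.Agent.H6.Kc
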