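import Cfsg.Agent.H6.Kt4

/-! The form of the centraliser lemma used by the class sieve. -/

set_option autoImplicit false

namespace Cfsg.Agent.H6.Kc

open H9.KC

theorem t4' {G : Type*} [Group G] [Finite G] [IsSimpleGroup G] (hG : ¬ IsMulCommutative G)
    (h : 16 ∣ Nat.card G) {x : G} (h2 : ∀ r, r.Prime → r ∣ orderOf x → r = 2) : 8 ∣ cz x := by
  by_contra h8
  exact t4 hG (Nat.eq_prime_pow_of_unique_prime_dvd (orderOf_pos x).ne' fun {r} => h2 r) h8 h

theorem mixed {G : Type*} [Group G] [Finite G] (h : ¬ ∀ g : G, g ≠ 1 → IsPrimePow (orderOf g)) :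
    ∃ x : G, ∃ p q : ℕ, p.Prime ∧ q.Prime ∧ p ≠ q ∧ p ∣ orderOf x ∧ q ∣ orderOf x := by
  by_contra hc
  push Not at hc
  refine h fun g hg => ?_
  obtain ⟨p, hp, d⟩ := Nat.exists_prime_and_dvd (n := orderOf g) (by simpa using hg)
  have e := Nat.eq_prime_pow_of_unique_prime_dvd (p := p) (orderOf_pos g).ne' fun {r} hr dr => by
    by_contra n
    exact hc g r p hr hp n dr d
  refine (isPrimePow_nat_iff _).2 ⟨p, _, hp, Nat.pos_of_ne_zero fun z => hg ?_, e.symm⟩
  rwa [z, pow_zero, orderOf_eq_one_iff] at e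

end Cfsg.Agent.H6.Kc
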