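import Cfsg.Agent.H6.Kt5
import Cfsg.Agent.H9.KC5

/-! Fusion of 2-elements in simple groups whose order is not divisible by sixteen. -/

set_option autoImplicit false
set_option linter.unusedSectionVars false

namespace Cfsg.Agent.H6.Kc

open Subgroup H9.KC

theorem fano0 {a b c d e f g : Prop} (l1 : (a ∨ b ∨ d) ∧ (¬ a ∨ ¬ b ∨ ¬ d))
    (l2 : (a ∨ c ∨ e) ∧ (¬ a ∨ ¬ c ∨ ¬ e)) (l3 : (b ∨ c ∨ f) ∧ (¬ b ∨ ¬ c ∨ ¬ f))
    (l4 : (a ∨ f ∨ g) ∧ (¬ a ∨ ¬ f ∨ ¬ g)) (l5 : (b ∨ e ∨ g) ∧ (¬ b ∨ ¬ e ∨ ¬ g))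
    (l6 : (c ∨ d ∨ g) ∧ (¬ c ∨ ¬ d ∨ ¬ g)) (l7 : (d ∨ e ∨ f) ∧ (¬ d ∨ ¬ e ∨ ¬ f)) : False := by
  by_cases a <;> by_cases b <;> by_cases c <;> by_cases g <;> simp_all

theorem fano {P : Type*} [CommGroup P] [Finite P] (h2 : ∀ s : P, s * s = 1) (hc : Nat.card P = 8)
    (A : P → Prop) (hl : ∀ M : Subgroup P, M.index = 2 →
      (∃ s ∈ M, s ≠ 1 ∧ A s) ∧ ∃ s ∈ M, s ≠ 1 ∧ ¬ A s) : False := by
  have iv : ∀ s : P, s⁻¹ = s := fun s => inv_eq_of_mul_eq_one_right (h2 s)
  have c1 : ∀ s t : P, s * (s * t) = t := fun s t => by rw [← mul_assoc, h2, one_mul]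
  have ne : ∀ {s t : P}, s ≠ t → s * t ≠ 1 := fun {s t} h e => h (by
    rw [← c1 s t, e, mul_one])
  have four : ∀ {u v : P}, u ≠ 1 → v ≠ 1 → u ≠ v → ({1, u, v, u * v} : Set P).ncard = 4 :=
    fun {u v} u1 v1 uv => by
      rw [Set.ncard_insert_of_notMem (by simp [u1.symm, v1.symm, (ne uv).symm]),
        Set.ncard_insert_of_notMem (by simp [uv, v1]), Set.ncard_pair (by simp [u1])]
  have line : ∀ {u v w : P}, u ≠ 1 → v ≠ 1 → u ≠ v → u * v = w →
      (A u ∨ A v ∨ A w) ∧ (¬ A u ∨ ¬ A v ∨ ¬ A w) := fun {u v w} u1 v1 uv e => by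
    let M : Subgroup P :=
      { carrier := {1, u, v, u * v}
        one_mem' := by simp
        mul_mem' := by
          rintro a b (rfl | rfl | rfl | rfl) (rfl | rfl | rfl | rfl) <;>
            simp [h2, mul_comm, mul_left_comm]
        inv_mem' := fun {a} ha => by rwa [iv] }
    have h := M.index_mul_card
    rw [show Nat.card M = 4 from four u1 v1 uv, hc] at h
    obtain ⟨⟨s, s1, s2, s3⟩, ⟨t, t1, t2, t3⟩⟩ := hl M (by omega)
    subst e
    constructor
    · rcases s1 with rfl | rfl | rfl | rfl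
      exacts [absurd rfl s2, Or.inl s3, Or.inr (Or.inl s3), Or.inr (Or.inr s3)]
    · rcases t1 with rfl | rfl | rfl | rfl
      exacts [absurd rfl t2, Or.inl t3, Or.inr (Or.inl t3), Or.inr (Or.inr t3)]
  have ex : ∀ T : Set P, T.ncard < 8 → ∃ c, c ∉ T := fun T hT => by
    by_contra h
    push Not at h
    rw [Set.eq_univ_of_forall h, Set.ncard_univ] at hT
    omega
  obtain ⟨a, ha⟩ := ex {1} (by simp)
  obtain ⟨b, hb⟩ := ex {1, a} ((Set.ncard_insert_le _ _).trans_lt (by simp))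
  simp only [Set.mem_insert_iff, Set.mem_singleton_iff, not_or] at ha hb
  obtain ⟨c, hc⟩ := ex {1, a, b, a * b} (by rw [four ha hb.1 (Ne.symm hb.2)]; norm_num)
  simp only [Set.mem_insert_iff, Set.mem_singleton_iff, not_or] at hc
  obtain ⟨c0, c2, c3, c4⟩ := hc
  have ab : a ≠ b := Ne.symm hb.2
  have l1 := line ha hb.1 ab rfl
  have l2 := line ha c0 (Ne.symm c2) rfl
  have l3 := line hb.1 c0 (Ne.symm c3) rfl
  have l4 := line (w := a * b * c) ha (ne (Ne.symm c3)) (fun e => c4 (by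
    rw [e, mul_comm b c, mul_assoc, h2, mul_one])) (mul_assoc _ _ _).symm
  have l5 := line (w := a * b * c) hb.1 (ne (Ne.symm c2)) (fun e => c4 (by rw [e, c1]))
    (by rw [mul_left_comm, mul_assoc])
  have l6 := line (w := a * b * c) c0 (ne ab) c4 (mul_comm _ _)
  have l7 := line (w := b * c) (ne ab) (ne (Ne.symm c2)) (fun e => c3 (mul_left_cancel e).symm)
    (by rw [mul_mul_mul_comm, h2, one_mul])
  exact fano0 l1 l2 l3 l4 l5 l6 l7

variable {G : Type*} [Group G] [Finite G]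

theorem syl_of {x : G} {k : ℕ} (ho : orderOf x = 2 ^ k) (h : ¬ 16 ∣ Nat.card G) :
    ∃ S : Subgroup G, x ∈ S ∧ Odd S.index ∧ Nat.card S ∣ 8 ∧
      ∀ (y : G) (j : ℕ), orderOf y = 2 ^ j → ∃ z ∈ S, IsConj y z := by
  obtain ⟨S, hS⟩ := (IsPGroup.of_card (G := zpowers x) (by rw [Nat.card_zpowers, ho])).exists_le_sylow
  refine ⟨S, hS (mem_zpowers x), Nat.odd_iff.2 (Nat.two_dvd_ne_zero.1 S.not_dvd_index), ?_, fun y j hy => ?_⟩
  · obtain ⟨n, hn⟩ := IsPGroup.iff_card.1 S.isPGroup'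
    rw [hn]
    refine pow_dvd_pow 2 (?_ : n ≤ 3)
    by_contra h'
    exact h ((pow_dvd_pow 2 (by omega : 4 ≤ n)).trans (hn ▸ card_subgroup_dvd_card _))
  · obtain ⟨T, hT⟩ := (IsPGroup.of_card (G := zpowers y) (by rw [Nat.card_zpowers, hy])).exists_le_sylow
    obtain ⟨g, rfl⟩ := MulAction.exists_smul_eq G T S
    exact ⟨_, smul_mem_pointwise_smul _ (MulAut.conj g) _ (hT (mem_zpowers y)), isConj_iff.2 ⟨g, rfl⟩⟩

theorem ord_conj {x y : G} (h : IsConj x y) : orderOf x = orderOf y := (Eqv.of_isConj h).ord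

theorem thom (hG : _root_.commutator G = ⊤) {S : Subgroup G} (hS : Odd S.index) (M : Subgroup S)
    (hM : M.index = 2) {x : G} (hx : orderOf x = 2) : ∃ y ∈ M, IsConj x y := by
  have x2 : x ^ 2 = 1 := hx ▸ pow_orderOf_eq_one x
  by_contra h
  push Not at h
  refine transfer4 hG S hS M hM (x := x) (by rw [show 4 = 2 * 2 from rfl, pow_mul, x2, one_pow])
    (fun y hy hm => h y hm hy) fun y hy => ?_
  rw [x2, isConj_one_right] at hy
  rw [show y = 1 from Subtype.ext hy]
  exact one_mem _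

theorem no_cyc [IsSimpleGroup G] (hG : ¬ IsMulCommutative G) {x : G} {k : ℕ} (ho : orderOf x = 2 ^ (k + 1)) :
    2 * orderOf x ∣ Nat.card G := by
  by_contra h
  have e : cz x * ez x ∣ Nat.card G := (cz_mul_ez x).symm ▸ card_subgroup_dvd_card _
  refine (cap_elt hG (x := x) ?_ Nat.prime_two (fun r hr d => ?_) (fun d => h (d.trans (cz_dvd x)))
    fun d => h ?_).1 (ho ▸ dvd_pow_self 2 k.succ_ne_zero)
  · rintro rfl
    rw [orderOf_one] at ho
    exact absurd ho.symm (Nat.one_lt_two_pow k.succ_ne_zero).ne'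
  · exact (Nat.prime_dvd_prime_iff_eq hr Nat.prime_two).1 (hr.dvd_of_dvd_pow (ho ▸ d))
  · rw [mul_comm]; exact (mul_dvd_mul (ord_dvd_cz x) d).trans e

theorem mem4 {u s : G} (hu : orderOf u = 4) (hs : s ∈ zpowers u) :
    s = 1 ∨ s = u ∨ s = u ^ 2 ∨ s = u⁻¹ := by
  classical
  obtain ⟨i, hi, rfl⟩ := Finset.mem_image.1 (mem_zpowers_iff_mem_range_orderOf.1 hs)
  rw [hu, Finset.mem_range] at hi
  interval_cases i
  · simp
  · simp
  · simp
  · exact Or.inr (Or.inr (Or.inr (eq_inv_of_mul_eq_one_left (by rw [← pow_succ]; exact orderOf_dvd_iff_pow_eq_one.1 (by simp [hu])))))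

/-- structure of the Sylow subgroup when there is an element of order four -/
theorem four_case [IsSimpleGroup G] (hG : ¬ IsMulCommutative G) (h : ¬ 16 ∣ Nat.card G) {u : G}
    (hu : orderOf u = 4) : ez u ≠ 1 ∧
      ∀ x : G, orderOf x = 2 ∨ orderOf x = 4 → ∃ y ∈ zpowers u, IsConj x y := by
  obtain ⟨S, uS, od, c8, cj⟩ := syl_of (k := 2) hu h
  have g8 : 8 ∣ Nat.card G := by simpa [hu] using no_cyc hG (k := 1) hu
  have cS : Nat.card S = 8 := Nat.dvd_antisymm c8 (Nat.Coprime.dvd_of_dvd_mul_left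
    (Nat.Coprime.pow_left 3 (Nat.coprime_two_left.2 od)) (S.index_mul_card ▸ g8))
  have u4 : u ^ 4 = 1 := hu ▸ pow_orderOf_eq_one u
  have u2 : u ^ 2 ≠ 1 := fun e => by
    have := orderOf_dvd_of_pow_eq_one e
    rw [hu] at this; omega
  have le : zpowers u ≤ S := zpowers_le.2 uS
  have iU : ((zpowers u).subgroupOf S).index = 2 := by
    have := ((zpowers u).subgroupOf S).index_mul_card
    rw [Nat.card_congr (subgroupOfEquivOfLe le).toEquiv, Nat.card_zpowers, hu, cS] at this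
    omega
  have mm : ∀ {a b : G}, a ∈ S → b ∈ S → a ∉ zpowers u → b ∉ zpowers u → a * b ∈ zpowers u :=
    fun {a b} ha hb a1 b1 => (mul_mem_iff_of_index_two iU (a := ⟨a, ha⟩) (b := ⟨b, hb⟩)).2
      (iff_of_false a1 b1)
  have n8 : ∀ a : G, orderOf a ≠ 8 := fun a e => h (by simpa [e] using no_cyc hG (k := 2) e)
  -- no involution outside `⟨u⟩` commutes with `u`
  have nc : ∀ a ∈ S, a ∉ zpowers u → a * a = 1 → ¬ Commute a u := fun a ha a1 a2 c => by
    have dec : ∀ s ∈ S, s ∈ zpowers u ∨ a * s ∈ zpowers u := fun s hs => by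
      by_cases e : s ∈ zpowers u
      exacts [Or.inl e, Or.inr (mm ha hs a1 e)]
    have ca : ∀ s ∈ zpowers u, Commute a s := fun s ⟨i, hi⟩ => hi ▸ c.zpow_right i
    have cu : ∀ s ∈ zpowers u, ∀ t ∈ zpowers u, Commute s t := fun s ⟨i, hi⟩ t ⟨j, hj⟩ =>
      hi ▸ hj ▸ Commute.zpow_zpow_self u i j
    have aa : ∀ s, s = a * (a * s) := fun s => by rw [← mul_assoc, a2, one_mul]
    have cm : ∀ s ∈ S, ∀ t ∈ S, Commute s t := fun s hs t ht => by
      rcases dec s hs with e | e <;> rcases dec t ht with f | f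
      · exact cu s e t f
      · rw [aa t]; exact (ca s e).symm.mul_right (cu s e _ f)
      · rw [aa s]; exact (ca t f).mul_left (cu _ e t f)
      · rw [aa s, aa t]
        exact ((Commute.refl a).mul_right (ca _ f)).mul_left ((ca _ e).symm.mul_right (cu _ e _ f))
    have sq0 : ∀ s ∈ zpowers u, s ^ 2 = 1 ∨ s ^ 2 = u ^ 2 := fun s hs => by
      rcases mem4 hu hs with rfl | rfl | rfl | rfl
      · simp
      · simp
      · exact Or.inl (by rw [← pow_mul, u4])
      · exact Or.inr (by rw [inv_pow]; exact inv_eq_of_mul_eq_one_right (by rw [← pow_add, u4]))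
    have sq : ∀ s ∈ S, s ^ 2 = 1 ∨ s ^ 2 = u ^ 2 := fun s hs => by
      rcases dec s hs with e | e
      · exact sq0 s e
      · have := sq0 _ e
        rwa [(cm a ha s hs).mul_pow, pow_two a, a2, one_mul] at this
    let M : Subgroup S :=
      { carrier := {s | (s : G) ^ 2 = 1}
        one_mem' := by simp
        mul_mem' := fun {s t} hs ht => by
          have hs : (s : G) ^ 2 = 1 := hs
          have ht : (t : G) ^ 2 = 1 := ht
          show ((s : G) * t) ^ 2 = 1
          rw [(cm s s.2 t t.2).mul_pow, hs, ht, one_mul]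
        inv_mem' := fun {s} hs => by
          have hs : (s : G) ^ 2 = 1 := hs
          show ((s : G)⁻¹) ^ 2 = 1
          rw [inv_pow, hs, inv_one] }
    refine transfer4 (perfect hG) S od M (index_eq_two_iff.2 ⟨⟨u, uS⟩, fun b => ?_⟩) u4
      (fun y hy hm => ?_) fun y hy => ?_
    · show Xor (((b : G) * u) ^ 2 = 1) ((b : G) ^ 2 = 1)
      rw [(cm b b.2 u uS).mul_pow]
      rcases sq b b.2 with e | e <;> rw [e]
      · exact Or.inr ⟨rfl, by simpa using u2⟩
      · exact Or.inl ⟨by rw [← pow_add, u4], u2⟩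
    · have := orderOf_dvd_of_pow_eq_one (show (y : G) ^ 2 = 1 from hm)
      rw [← ord_conj hy, hu] at this
      omega
    · show (y : G) ^ 2 = 1
      rw [← orderOf_dvd_iff_pow_eq_one, ← ord_conj hy, orderOf_dvd_iff_pow_eq_one, ← pow_mul, u4]
  refine ⟨fun d => ?_, fun x hx => ?_⟩
  · have h6 := cz_mul_ez u
    rw [d, mul_one] at h6
    obtain ⟨a, ha⟩ := (index_eq_two_iff.1 iU)
    have a1 : (a : G) ∉ zpowers u := fun e => by
      have := ha 1
      rw [one_mul] at this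
      exact this.elim (fun h => h.2 (one_mem _)) fun h => h.2 e
    have c : Commute (a : G) u := mem_centralizer_singleton_iff.1
      (eq_of_le_of_card_ge (cent_le_norm u) h6.ge ▸ (normal_subgroupOf_iff_le_normalizer le).1
        (normal_of_index_eq_two iU) a.2)
    have o8 : ∀ v : G, orderOf v = 4 → (a : G) * a = v → False := fun v hv e => by
      have d : orderOf (a : G) ∣ 2 ^ 3 := by
        rw [Subgroup.orderOf_coe]; exact (orderOf_dvd_natCard a).trans c8
      obtain ⟨k, k3, ek⟩ := (Nat.dvd_prime_pow Nat.prime_two).1 d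
      have : ¬ orderOf (a : G) ∣ 4 := fun d => by
        have : orderOf v ∣ 2 := by
          rw [orderOf_dvd_iff_pow_eq_one, ← e, ← pow_two, ← pow_mul]
          exact orderOf_dvd_iff_pow_eq_one.1 d
        rw [hv] at this
        omega
      interval_cases k
      all_goals first | exact n8 _ ek | exact this (by rw [ek]; norm_num)
    rcases mem4 hu (mm a.2 a.2 a1 a1) with e | e | e | e
    · exact nc a a.2 a1 e c
    · exact o8 u hu e
    · refine nc (a * u) (mul_mem a.2 uS) (fun e => a1 (by simpa using mul_mem e (inv_mem (mem_zpowers u))))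
        ?_ (c.mul_left (Commute.refl u))
      rw [← pow_two, c.mul_pow, pow_two, e, ← pow_add, u4]
    · exact o8 _ (by rw [orderOf_inv, hu]) e
  rcases hx with hx | hx
  · obtain ⟨y, hy, e⟩ := thom (perfect hG) od _ iU hx
    exact ⟨y, hy, e⟩
  by_cases hi : ∃ a ∈ S, a ∉ zpowers u ∧ a * a = 1
  · obtain ⟨a, ha, a1, a2⟩ := hi
    obtain ⟨y, hy, e⟩ := cj x 2 hx
    refine ⟨y, ?_, e⟩
    by_contra y1
    have ia : a⁻¹ = a := inv_eq_of_mul_eq_one_right a2
    have au : a * u * a = u⁻¹ := by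
      have m : a * u * a ∈ zpowers u := mm (mul_mem ha uS) ha
        (fun e => a1 (by simpa using mul_mem e (inv_mem (mem_zpowers u)))) a1
      have o : orderOf (a * u * a) = 4 := by
        rw [← hu]; exact (ord_conj (isConj_iff.2 ⟨a, by rw [ia]⟩)).symm
      rcases mem4 hu m with e | e | e | e
      · rw [e, orderOf_one] at o; omega
      · exact absurd (show a * u = u * a by rw [eq_mul_inv_iff_mul_eq.2 e, ia]) (nc a ha a1 a2)
      · have := orderOf_dvd_of_pow_eq_one (show (u ^ 2) ^ 2 = 1 by rw [← pow_mul, u4])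
        rw [← e, o] at this; omega
      · exact e
    have := inv_zp (t := a) (x := u) (by rw [ia, au]) (mm ha hy a1 y1)
    have y2 : y ^ 2 = 1 := by
      rw [ia, ← mul_assoc, a2, one_mul, mul_inv_rev, ia, mul_right_cancel_iff] at this
      rw [pow_two]; nth_rewrite 1 [this]; exact inv_mul_cancel y
    have := orderOf_dvd_of_pow_eq_one y2
    rw [← ord_conj e, hx] at this
    omega
  · by_contra hc
    push Not at hc hi
    refine transfer4 (perfect hG) S od _ iU (x := x) (hx ▸ pow_orderOf_eq_one x)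
      (fun y hy hm => hc y hm hy) fun y hy => ?_
    by_contra y1
    refine hi y y.2 y1 ?_
    rw [← pow_two, ← orderOf_dvd_iff_pow_eq_one, ← ord_conj hy, orderOf_dvd_iff_pow_eq_one, ← pow_mul]
    exact orderOf_dvd_iff_pow_eq_one.1 (by simp [hx])

theorem s16b [IsSimpleGroup G] (hG : ¬ IsMulCommutative G) (h : ¬ 16 ∣ Nat.card G) {x : G}
    (ho : orderOf x = 4) : ez x ≠ 1 := (four_case hG h ho).1

theorem s16a [IsSimpleGroup G] (hG : ¬ IsMulCommutative G) (h : ¬ 16 ∣ Nat.card G) {x y : G}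
    (ho : orderOf x = orderOf y) (h2 : orderOf x = 2 ∨ orderOf x = 4) : Eqv x y := by
  by_cases h4 : ∃ u : G, orderOf u = 4
  · obtain ⟨u, hu⟩ := h4
    obtain ⟨a, ha, e⟩ := (four_case hG h hu).2 x h2
    obtain ⟨b, hb, f⟩ := (four_case hG h hu).2 y (ho ▸ h2)
    refine (Eqv.of_isConj e).trans (Eqv.trans ⟨1, ?_⟩ (Eqv.of_isConj f).symm)
    have oa := ord_conj e
    have ob := ord_conj f
    have o2 : orderOf (u ^ 2) = 2 := by rw [orderOf_pow_of_dvd (by norm_num) (by simp [hu]), hu]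
    have o3 : orderOf u⁻¹ = 4 := by rw [orderOf_inv, hu]
    rcases mem4 hu ha with rfl | rfl | rfl | rfl <;> rcases mem4 hu hb with rfl | rfl | rfl | rfl <;>
      first | (simp; done) | (simp only [orderOf_one] at *; omega) | omega
  push Not at h4
  have hx : orderOf x = 2 := h2.resolve_right (h4 x)
  have hy : orderOf y = 2 := ho ▸ hx
  obtain ⟨S, -, od, c8, cj⟩ := syl_of (k := 1) hx h
  have sq : ∀ s : S, s * s = 1 := fun s => by
    have d : orderOf s ∣ 2 ^ 3 := (orderOf_dvd_natCard s).trans c8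
    obtain ⟨k, k3, e⟩ := (Nat.dvd_prime_pow Nat.prime_two).1 d
    rw [← pow_two, ← orderOf_dvd_iff_pow_eq_one, e]
    rw [← Subgroup.orderOf_coe] at e
    interval_cases k
    · simp
    · simp
    · exact absurd e (h4 _)
    · exact absurd (by rw [orderOf_pow_of_dvd (by norm_num) (by simp [e]), e]; rfl) (h4 ((s : G) ^ 2))
  have n1 : ∀ {a : G} {s : S}, orderOf a = 2 → IsConj a s → s ≠ 1 := fun {a s} ha e f => by
    have := ord_conj e
    rw [f, ha] at this
    simp at this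
  by_contra hn
  have nn : ¬ IsConj x y := fun e => hn (Eqv.of_isConj e)
  obtain ⟨a, ha, e⟩ := cj x 1 hx
  obtain ⟨b, hb, f⟩ := cj y 1 hy
  have oa : orderOf (⟨a, ha⟩ : S) = 2 := by rw [← Subgroup.orderOf_coe, ← ord_conj e, hx]
  have i1 := (zpowers (⟨a, ha⟩ : S)).index_mul_card
  rw [Nat.card_zpowers, oa] at i1
  have m2 : ∀ s : S, s ∈ zpowers (⟨a, ha⟩ : S) → s ≠ 1 → s = ⟨a, ha⟩ := fun s hs s1 => by
    classical
    obtain ⟨i, hi, rfl⟩ := Finset.mem_image.1 (mem_zpowers_iff_mem_range_orderOf.1 hs)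
    rw [oa, Finset.mem_range] at hi
    interval_cases i
    · simp at s1
    · simp
  obtain ⟨k, k3, ek⟩ := (Nat.dvd_prime_pow Nat.prime_two (m := 3)).1 c8
  interval_cases k
  · omega
  · have i2 : zpowers (⟨a, ha⟩ : S) = ⊤ := index_eq_one.1 (by omega)
    obtain rfl : b = a := Subtype.ext_iff.1 (m2 ⟨b, hb⟩ (i2 ▸ mem_top _) (n1 hy f))
    exact nn (e.trans f.symm)
  · obtain ⟨s, hs, g⟩ := thom (perfect hG) od (zpowers (⟨a, ha⟩ : S)) (by omega) hy
    rw [m2 s hs (n1 hy g)] at g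
    exact nn (e.trans g.symm)
  · let : CommGroup S := { (inferInstance : Group S) with
      mul_comm := fun s t => by
        rw [← inv_eq_of_mul_eq_one_right (sq (s * t)), mul_inv_rev, inv_eq_of_mul_eq_one_right (sq s),
          inv_eq_of_mul_eq_one_right (sq t)] }
    refine fano sq ek (fun s => IsConj x s) fun M hM => ?_
    obtain ⟨s, hs, g⟩ := thom (perfect hG) od M hM hx
    obtain ⟨t, ht, g'⟩ := thom (perfect hG) od M hM hy
    exact ⟨⟨s, hs, n1 hx g, g⟩, t, ht, n1 hy g', fun j => nn (j.trans g'.symm)⟩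

end Cfsg.Agent.H6.Kc
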