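import Cfsg.Agent.H6.Kt6

/-! Power maps and relative Sylow arguments for the class sieve. -/

set_option autoImplicit false
set_option linter.unusedSectionVars false

namespace Cfsg.Agent.H6.Kc

open Subgroup H9.KC

variable {G : Type*} [Group G] [Finite G]

theorem pw_mul (y : G) (a b : ZMod (Nat.card G)) : (y ^ a.val) ^ b.val = y ^ (a * b).val := by
  rw [ZMod.val_mul, pow_mod_natCard, pow_mul]

theorem pw_one (y : G) : y ^ (1 : ZMod (Nat.card G)).val = y := by
  rw [ZMod.val_one_eq_one_mod, pow_mod_natCard, pow_one]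

/-- power automorphisms of a cyclic subgroup -/
noncomputable def th (x : G) : (ZMod (Nat.card G))ˣ →* MulAut (zpowers x) :=
  MonoidHom.mk' (fun u =>
    { toFun := fun y => y ^ u.val.val
      invFun := fun y => y ^ (u⁻¹).val.val
      left_inv := fun y => Subtype.ext (by simp only [coe_pow, pw_mul, Units.mul_inv, pw_one])
      right_inv := fun y => Subtype.ext (by simp only [coe_pow, pw_mul, Units.inv_mul, pw_one])
      map_mul' := fun a b => Commute.mul_pow (IsMulCommutative.is_comm.comm a b) _ })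
    fun u v => by
      ext y
      show (y : G) ^ (u.val * v.val).val = ((y : G) ^ v.val.val) ^ u.val.val
      rw [pw_mul, mul_comm]

theorem aut_ext {x : G} {σ τ : MulAut (zpowers x)}
    (h : σ ⟨x, mem_zpowers x⟩ = τ ⟨x, mem_zpowers x⟩) : σ = τ := by
  ext ⟨_, i, rfl⟩
  rw [show (⟨x ^ i, i, rfl⟩ : zpowers x) = ⟨x, mem_zpowers x⟩ ^ i from rfl, map_zpow, map_zpow, h]

theorem th_surj (x : G) : Function.Surjective (th x) := fun σ => by
  have : NeZero (Nat.card G) := ⟨Nat.card_pos.ne'⟩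
  obtain ⟨k, hk⟩ := (mem_powers_iff_mem_zpowers.2 (σ ⟨x, mem_zpowers x⟩).2)
  have hk : x ^ k = σ ⟨x, mem_zpowers x⟩ := hk
  have o : orderOf (x ^ k) = orderOf x := by
    rw [hk, Subgroup.orderOf_coe, MulEquiv.orderOf_eq, ← Subgroup.orderOf_coe]
  have c : k.Coprime (orderOf x) := by
    rw [orderOf_pow, Nat.div_eq_self] at o
    exact Nat.Coprime.symm (o.resolve_left (orderOf_pos x).ne')
  obtain ⟨u, hu⟩ := ZMod.unitsMap_surjective (orderOf_dvd_natCard x) (ZMod.unitOfCoprime k c)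
  have := congrArg Units.val hu
  rw [ZMod.unitsMap_val, ZMod.coe_unitOfCoprime, ← ZMod.natCast_val, ZMod.natCast_eq_natCast_iff] at this
  exact ⟨u, aut_ext (Subtype.ext ((pow_eq_pow_iff_modEq.2 this).trans hk))⟩

theorem mz_idx (x : G) : mz x = ((zpowers x).normalizerMonoidHom.range.comap (th x)).index := by
  rw [index_comap_of_surjective _ (th_surj x), mz, ← Nat.card_zpowers, ← IsCyclic.card_mulAut,
    ← (zpowers x).normalizerMonoidHom.range.index_mul_card, ez, Nat.mul_div_cancel _ Nat.card_pos]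

theorem mz_pow_dvd (x : G) (r : ℕ) : mz (x ^ r) ∣ mz x := by
  rw [mz_idx, mz_idx]
  refine index_dvd_of_le ?_
  rintro u ⟨g, hg⟩
  have e : (g : G) * x * (g : G)⁻¹ = x ^ u.val.val :=
    (congrArg Subtype.val (DFunLike.congr_fun hg (⟨x, mem_zpowers x⟩ : zpowers x)) :)
  have e' : (g : G) * x ^ r * (g : G)⁻¹ = (x ^ r) ^ u.val.val := by
    rw [← conj_pow, e, ← pow_mul, ← pow_mul, mul_comm]
  refine ⟨⟨g, mem_norm.2 (eq_of_le_of_card_ge ?_ ?_)⟩, aut_ext (Subtype.ext e')⟩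
  · rw [e', zpowers_le]; exact pow_mem (mem_zpowers _) _
  · rw [Nat.card_zpowers, Nat.card_zpowers, ← ord_conj (isConj_iff.2 ⟨_, rfl⟩)]

theorem exists_ord_ez2 {x : G} {p : ℕ} (hp : p.Prime) (h2 : p ≠ 2)
    (h : ∀ r, r.Prime → r ∣ orderOf x → r = p) : ∃ y : G, orderOf y = ez x := by
  have e := Nat.eq_prime_pow_of_unique_prime_dvd (orderOf_pos x).ne' fun {r} => h r
  have : IsCyclic (ZMod (Nat.card (zpowers x)))ˣ := by
    rw [Nat.card_zpowers, e]; exact ZMod.isCyclic_units_of_prime_pow p hp h2 _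
  have := isCyclic_of_injective (IsCyclic.mulAutMulEquiv (zpowers x)).toMonoidHom
    (IsCyclic.mulAutMulEquiv (zpowers x)).injective
  obtain ⟨σ, h⟩ := isCyclic_iff_exists_orderOf_eq_natCard.1
    (inferInstance : IsCyclic (zpowers x).normalizerMonoidHom.range)
  obtain ⟨n, hn⟩ := σ.2
  have : ez x ∣ orderOf (n : G) := by
    rw [ez, ← h, orderOf_coe, ← orderOf_coe σ, ← hn]; exact orderOf_map_dvd _ _
  exact ⟨_, orderOf_pow_orderOf_div (orderOf_pos _).ne' this⟩

theorem mem_cop {K : Subgroup G} {x : G} {a b : ℕ} (h : a.Coprime b) (ha : x ^ a ∈ K) (hb : x ^ b ∈ K) :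
    x ∈ K := by
  have := mul_mem (zpow_mem ha (Nat.gcdA a b)) (zpow_mem hb (Nat.gcdB a b))
  rwa [← zpow_natCast, ← zpow_natCast, ← zpow_mul, ← zpow_mul, ← zpow_add, ← Nat.gcd_eq_gcd_ab, h,
    Nat.cast_one, zpow_one] at this

theorem rel_cap {x y : G} {q : ℕ} (hq : q.Prime) (h1 : q ∣ orderOf x) (h2 : ¬ q * q ∣ orderOf x)
    (ho : orderOf y = orderOf x) (h : Eqv (x ^ q) (y ^ q)) (hc : ¬ q * q ∣ cz x) : Eqv x y := by
  have := Fact.mk hq
  obtain ⟨g, hg⟩ := h.symm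
  rw [← conj_pow] at hg
  have e0 : Eqv y (g * y * g⁻¹) := ⟨g, rfl⟩
  refine Eqv.trans ?_ e0.symm
  rw [e0.ord] at ho
  generalize g * y * g⁻¹ = y at hg ho
  obtain ⟨n, hn⟩ := h1
  have cp : q.Coprime n := (Nat.Prime.coprime_iff_not_dvd hq).2 fun d => h2 (hn ▸ Nat.mul_dvd_mul_left q d)
  have n0 : n ≠ 0 := by rintro rfl; exact (orderOf_pos x).ne' hn
  have oq : ∀ z : G, orderOf z = q * n → orderOf (z ^ n) = q := fun z e => by
    rw [orderOf_pow_of_dvd n0 (e ▸ dvd_mul_left _ _), e, Nat.mul_div_cancel _ (Nat.pos_of_ne_zero n0)]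
  set C := centralizer ({x ^ q} : Set G) with hC
  have xa : x ^ n ∈ C := mem_centralizer_singleton_iff.2 (Commute.pow_pow_self x n q)
  have ya : y ^ n ∈ C := by
    rw [hC, cent_eq, ← hg, ← cent_eq]
    exact mem_centralizer_singleton_iff.2 (Commute.pow_pow_self y n q)
  have cd : ∀ a : C, orderOf (a : G) = q → Nat.card (zpowers a) = q ^ 1 := fun a e => by
    rw [Nat.card_zpowers, ← Subgroup.orderOf_coe, e, pow_one]
  have nq : ¬ q ^ (1 + 1) ∣ Nat.card C := fun d => hc (by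
    obtain ⟨K, k1, k2⟩ := Sylow.exists_subgroup_card_pow_succ d (cd ⟨_, xa⟩ (oq x hn))
    have := IsPGroup.isMulCommutative_of_card_eq_prime_sq k1
    rw [← pow_two, ← k1, ← card_map_of_injective C.subtype_injective]
    refine card_dvd_of_le ?_
    rintro _ ⟨w, hw, rfl⟩
    refine mem_centralizer_singleton_iff.2 (mem_centralizer_singleton_iff.1
      (mem_cop (K := centralizer {(w : G)}) cp ?_ ?_)).symm
    · exact mem_centralizer_singleton_iff.2 (mem_centralizer_singleton_iff.1 w.2).symm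
    · exact mem_centralizer_singleton_iff.2 (congrArg (·.1.1)
        (this.is_comm.comm (⟨_, k2 (mem_zpowers _)⟩ : K) ⟨w, hw⟩)))
  have sy : ∀ a : C, orderOf (a : G) = q → ∃ P : Sylow q C, (P : Subgroup C) = zpowers a := fun a e =>
    ⟨IsPGroup.toSylow (P := zpowers a) (IsPGroup.of_card (cd a e)) fun d => nq (by
      rw [← (zpowers a).index_mul_card, cd a e, pow_succ']; exact Nat.mul_dvd_mul_right d _), rfl⟩
  obtain ⟨P, hP⟩ := sy ⟨_, xa⟩ (oq x hn)
  obtain ⟨Q, hQ⟩ := sy ⟨_, ya⟩ (oq y (ho.trans hn))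
  obtain ⟨c, hc⟩ := MulAction.exists_smul_eq C P Q
  have m : c * ⟨_, xa⟩ * c⁻¹ ∈ zpowers (⟨_, ya⟩ : C) := by
    rw [← hQ, ← hc]
    exact smul_mem_pointwise_smul _ (MulAut.conj c) _ (hP ▸ mem_zpowers _)
  refine ⟨c, eq_of_le_of_card_ge (zpowers_le.2 (mem_cop cp ?_ ?_)) ?_⟩
  · rw [conj_pow, mem_centralizer_singleton_iff.1 c.2, mul_inv_cancel_right]
    exact zpowers_le.2 (pow_mem (mem_zpowers y) q) (hg ▸ mem_zpowers _)
  · obtain ⟨i, hi⟩ := m
    have hi : (y ^ n) ^ i = c * x ^ n * (c : G)⁻¹ := congrArg Subtype.val hi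
    rw [conj_pow, ← hi]
    exact zpow_mem (pow_mem (mem_zpowers y) n) i
  · rw [Nat.card_zpowers, Nat.card_zpowers, ho, ← ord_conj (isConj_iff.2 ⟨_, rfl⟩)]

end Cfsg.Agent.H6.Kc
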