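import Cfsg.Agent.H6.OrthBasis

/-! Commutators in `Ω`: general tools and products of two involutions in odd characteristic. -/

set_option autoImplicit false
open Module

namespace Cfsg.Agent.H6

variable {F V : Type*} [Field F] [AddCommGroup V] [Module F V] {Q : QuadraticForm F V}

/-- `g` is a commutator of two elements of the commutator subgroup. -/
def Cm2 (g : OG Q) : Prop :=
  ∃ a ∈ commutator (OG Q), ∃ b ∈ commutator (OG Q), g = a * b * a⁻¹ * b⁻¹

/-- The set represents every nonzero value. -/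
def Univ (Q : QuadraticForm F V) (S : Set V) : Prop := ∀ c : F, c ≠ 0 → ∃ y ∈ S, Q y = c

theorem commute_refl {x : OG Q} {y : V} (h : x.1 y = y) : Commute x (refl Q y) := by
  have := conj_refl x y
  rw [h, mul_inv_eq_iff_eq_mul] at this
  exact this

theorem apply_of_mem_mvS {t : OG Q} (ht : t * t = 1) {e : V} (he : e ∈ mvS t) : t.1 e = -e := by
  obtain ⟨u, rfl⟩ := mem_mvS.1 he
  rw [map_sub, ← OG_mul_apply, ht, OG_one_apply, neg_sub]

theorem commute_refl_of_mem {t : OG Q} (ht : t * t = 1) {e : V} (he : e ∈ mvS t) :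
    Commute t (refl Q e) := by
  have := conj_refl t e
  rw [apply_of_mem_mvS ht he, ← neg_one_smul F e, refl_smul e (by simp),
    mul_inv_eq_iff_eq_mul] at this
  exact this

theorem invol_mul_refl {t : OG Q} (ht : t * t = 1) {e : V} (he : e ∈ mvS t) :
    t * refl Q e * (t * refl Q e) = 1 := by
  rw [(commute_refl_of_mem ht he).symm.mul_mul_mul_comm, ht, refl_mul_self, mul_one]

theorem mul_refl_apply_self {t : OG Q} (ht : t * t = 1) {e : V} (he : e ∈ mvS t) (hQ : Q e ≠ 0) :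
    (t * refl Q e).1 e = e := by
  rw [OG_mul_apply, refl_self hQ, map_neg, apply_of_mem_mvS ht he, neg_neg]

theorem exists_sup_ker (Y : Submodule F V) (l : V →ₗ[F] F) :
    ∃ y₀, Y ≤ (Y ⊓ LinearMap.ker l) ⊔ F ∙ y₀ := by
  by_cases h : ∀ y ∈ Y, l y = 0
  · exact ⟨0, fun y hy => Submodule.mem_sup_left ⟨hy, h y hy⟩⟩
  · push Not at h
    obtain ⟨y₀, h0, h1⟩ := h
    refine ⟨y₀, fun y hy => ?_⟩
    have : y - (l y / l y₀) • y₀ ∈ Y ⊓ LinearMap.ker l :=
      ⟨Y.sub_mem hy (Y.smul_mem _ h0), by simp [h1]⟩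
    simpa using Submodule.add_mem_sup this (Submodule.smul_mem _ (l y / l y₀)
      (Submodule.mem_span_singleton_self y₀))

theorem exists_both (h2 : (2 : F) ≠ 0) (Y : Submodule F V) (α β : V →ₗ[F] V)
    (h1 : ∃ y ∈ Y, Q (α y) ≠ 0) (h3 : ∀ l : V →ₗ[F] F, ∃ y ∈ Y, l y = 0 ∧ Q (β y) ≠ 0) :
    ∃ y ∈ Y, Q (α y) ≠ 0 ∧ Q (β y) ≠ 0 := by
  by_contra hc
  push Not at hc
  obtain ⟨v, hv, hv'⟩ := h1
  obtain ⟨y, hy, hl, hy'⟩ := h3 (pb Q (α v) ∘ₗ α)
  have hl' : pb Q (α v) (α y) = 0 := hl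
  have a0 : Q (α y) = 0 := by
    by_contra h
    exact hy' (hc y hy h)
  have a1 := hc (v + y) (Y.add_mem hv hy) (by rwa [map_add, Q_add, a0, hl', add_zero, add_zero])
  have a2 := hc (v - y) (Y.sub_mem hv hy) (by rwa [map_sub, Q_sub, a0, hl', add_zero, sub_zero])
  rw [map_add, Q_add, hc v hv hv'] at a1
  rw [map_sub, Q_sub, hc v hv hv'] at a2
  exact hy' (mul_left_cancel₀ h2 (by linear_combination a1 + a2))

variable [FiniteDimensional F V]

theorem finrank_map_le_succ (Y : Submodule F V) (l : V →ₗ[F] F) (β : V →ₗ[F] V) :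
    finrank F (Y.map β) ≤ finrank F ((Y ⊓ LinearMap.ker l).map β) + 1 := by
  obtain ⟨y₀, h⟩ := exists_sup_ker Y l
  have h1 := Submodule.finrank_mono (Submodule.map_mono (f := β) h)
  rw [Submodule.map_sup, Submodule.map_span, Set.image_singleton] at h1
  have h2 := Submodule.finrank_add_le_finrank_add_finrank ((Y ⊓ LinearMap.ker l).map β) (F ∙ β y₀)
  have h3 : finrank F (F ∙ β y₀) ≤ 1 := by simpa using finrank_span_le_card ({β y₀} : Set V)
  omega

theorem NondegSub.isCompl (hB : (pb Q).Nondegenerate) {W : Submodule F V} (h : NondegSub Q W) :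
    IsCompl W ((pb Q).orthogonal W) := by
  have hd : Disjoint W ((pb Q).orthogonal W) := by
    rw [Submodule.disjoint_def]
    exact fun x hx hx' => h x hx fun y hy => (pb_comm Q x y).trans (hx' y hy)
  refine ⟨hd, codisjoint_iff.2 (Submodule.eq_top_of_finrank_eq ?_)⟩
  have h1 := Submodule.finrank_sup_add_finrank_inf_eq W ((pb Q).orthogonal W)
  rw [hd.eq_bot, finrank_bot, LinearMap.BilinForm.finrank_orthogonal hB] at h1
  have := Submodule.finrank_le W
  omega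

theorem NondegSub.exists_proj (hB : (pb Q).Nondegenerate) {W : Submodule F V} (h : NondegSub Q W)
    (x : V) : ∃ x' ∈ W, ∀ z ∈ W, pb Q z x' = pb Q z x := by
  obtain ⟨a, ha, b, hb, rfl⟩ := Submodule.mem_sup.1
    ((h.isCompl hB).sup_eq_top.symm ▸ Submodule.mem_top : x ∈ W ⊔ (pb Q).orthogonal W)
  exact ⟨a, ha, fun z hz => by rw [map_add, show pb Q z b = 0 from hb z hz, add_zero]⟩

theorem NondegSub.orth (hB : (pb Q).Nondegenerate) {W : Submodule F V} (h : NondegSub Q W) :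
    NondegSub Q ((pb Q).orthogonal W) := by
  intro x hx hx'
  refine Submodule.disjoint_def.1 (h.isCompl hB).disjoint x ?_ hx
  rw [← LinearMap.BilinForm.orthogonal_orthogonal hB (pb_isRefl Q) W]
  exact fun y hy => (pb_comm Q y x).trans (hx' y hy)

theorem NondegSub.two_mul_le (hB : (pb Q).Nondegenerate) {W T : Submodule F V} (h : NondegSub Q W)
    (hTW : T ≤ W) (hT : ∀ x ∈ T, ∀ y ∈ T, pb Q x y = 0) : 2 * finrank F T ≤ finrank F W := by
  have h1 : T ⊔ (pb Q).orthogonal W ≤ (pb Q).orthogonal T :=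
    sup_le (fun x hx y hy => hT y hy x hx) (LinearMap.BilinForm.orthogonal_le hTW)
  have h2 := Submodule.finrank_mono h1
  have h3 := Submodule.finrank_sup_add_finrank_inf_eq T ((pb Q).orthogonal W)
  rw [((h.isCompl hB).disjoint.mono_left hTW).eq_bot, finrank_bot] at h3
  rw [LinearMap.BilinForm.finrank_orthogonal hB] at h2 h3
  have := Submodule.finrank_le W
  have := Submodule.finrank_mono hTW
  omega

theorem NondegSub.exists_ne (hB : (pb Q).Nondegenerate) {W T : Submodule F V} (h : NondegSub Q W)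
    (hTW : T ≤ W) (hd : finrank F W < 2 * finrank F T) : ∃ y ∈ T, Q y ≠ 0 := by
  by_contra hc
  push Not at hc
  have := h.two_mul_le hB hTW fun x hx y hy => TotSing.pb_eq (T := T) hc hx hy
  omega

theorem exists_pb_eq (hB : (pb Q).Nondegenerate) {Z : Type*} [AddCommGroup Z] [Module F Z]
    (Φ : Z →ₗ[F] V) (μ : Z →ₗ[F] F) (h : ∀ z, Φ z = 0 → μ z = 0) :
    ∃ v, ∀ z, pb Q v (Φ z) = μ z := by
  obtain ⟨σ, hσ⟩ := Φ.rangeRestrict.exists_rightInverse_of_surjective Φ.range_rangeRestrict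
  obtain ⟨l, hl⟩ := LinearMap.exists_extend (μ ∘ₗ σ)
  refine ⟨(LinearMap.BilinForm.toDual (pb Q) hB).symm l, fun z => ?_⟩
  rw [LinearMap.BilinForm.apply_toDual_symm_apply]
  have h1 : l (Φ z) = μ (σ (Φ.rangeRestrict z)) := LinearMap.congr_fun hl (Φ.rangeRestrict z)
  have h2 : Φ (σ (Φ.rangeRestrict z)) = Φ z :=
    congrArg Subtype.val (LinearMap.congr_fun hσ (Φ.rangeRestrict z))
  rw [h1, ← sub_eq_zero, ← map_sub]
  exact h _ (by rw [map_sub, h2, sub_self])

variable [Fintype F] [DecidableEq F]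

theorem exists_qc_theta (hB : (pb Q).Nondegenerate) (hN : BigEnough F V) (g : OG Q) :
    ∃ c : F, c ≠ 0 ∧ quadraticChar F c = theta g := by
  refine refl_induction hB hN (fun g => ∃ c : F, c ≠ 0 ∧ quadraticChar F c = theta g)
    ⟨1, one_ne_zero, by rw [theta_one, map_one]⟩ ?_ g
  rintro g v hv ⟨c, hc, hc'⟩
  exact ⟨c * Q v, mul_ne_zero hc hv, by rw [theta_mul_refl hB g hv, map_mul, hc']⟩

omit [Fintype F] [DecidableEq F] in
theorem even_mul_refl (hB : (pb Q).Nondegenerate) (g : OG Q) {v : V} (hv : Q v ≠ 0) :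
    Even (finrank F (mvS (g * refl Q v))) ↔ ¬Even (finrank F (mvS g)) := by
  by_cases h : v ∈ mvS g
  · rw [← finrank_mvS_mul_refl_of_mem g hv h, Nat.even_add_one, not_not]
  · rw [finrank_mvS_mul_refl_of_notMem hB g hv h, Nat.even_add_one]

theorem exists_fix (hB : (pb Q).Nondegenerate) (hN : BigEnough F V) {S : Set V} (hS : Univ Q S)
    (h : OG Q) : ∃ c, h * c ∈ commutator (OG Q) ∧
      ∀ x, (∀ y ∈ S, Commute x (refl Q y)) → Commute x c := by
  have key : ∀ h : OG Q, ¬Even (finrank F (mvS h)) →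
      ∃ y ∈ S, h * refl Q y ∈ commutator (OG Q) := by
    intro h hh
    obtain ⟨c, hc, hc'⟩ := exists_qc_theta hB hN h
    obtain ⟨y, hy, rfl⟩ := hS c hc
    refine ⟨y, hy, (mem_commutator_OG hB hN _).2 ⟨(even_mul_refl hB h hc).2 hh, ?_⟩⟩
    rw [theta_mul_refl hB h hc, ← hc', qc_sq hc]
  by_cases hh : Even (finrank F (mvS h))
  · obtain ⟨y, hy, hy'⟩ := hS 1 one_ne_zero
    obtain ⟨z, hz, hz'⟩ := key (h * refl Q y) (by
      rw [even_mul_refl hB h (by rw [hy']; exact one_ne_zero), not_not]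
      exact hh)
    exact ⟨refl Q y * refl Q z, by rwa [← mul_assoc],
      fun x hx => (hx y hy).mul_right (hx z hz)⟩
  · obtain ⟨z, hz, hz'⟩ := key h hh
    exact ⟨refl Q z, hz', fun x hx => hx z hz⟩

theorem cm2_of_univ (hB : (pb Q).Nondegenerate) (hN : BigEnough F V) (t k : OG Q) {S₁ S₂ : Set V}
    (u₁ : Univ Q S₁) (u₂ : Univ Q S₂) (h₁ : ∀ y ∈ S₁, k.1 y = y) (h₂ : ∀ y ∈ S₂, t.1 y = y)
    (h₃ : ∀ y ∈ S₁, ∀ z ∈ S₂, pb Q y z = 0) : Cm2 (t * k * t⁻¹ * k⁻¹) := by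
  obtain ⟨c₁, ha, hc₁⟩ := exists_fix hB hN u₁ t
  obtain ⟨c₂, hb, hc₂⟩ := exists_fix hB hN u₂ k
  have e1 : Commute k c₁ := hc₁ k fun y hy => commute_refl (h₁ y hy)
  have e2 : Commute (t * c₁) c₂ := hc₂ _ fun z hz => (commute_refl (h₂ z hz)).mul_left
    (hc₁ _ fun y hy => commute_refl (refl_of_orth (h₃ y hy z hz))).symm
  refine ⟨_, ha, _, hb, ?_⟩
  calc t * k * t⁻¹ * k⁻¹ = t * (k * c₁) * (t * c₁)⁻¹ * k⁻¹ := by group
    _ = t * c₁ * k * (t * c₁)⁻¹ * (c₂ * c₂⁻¹) * k⁻¹ := by rw [e1.eq]; group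
    _ = t * c₁ * k * ((t * c₁)⁻¹ * c₂) * c₂⁻¹ * k⁻¹ := by group
    _ = _ := by rw [e2.inv_left.eq]; group

theorem theta_conj (hB : (pb Q).Nondegenerate) (hN : BigEnough F V) (g h : OG Q) :
    theta (g * h * g⁻¹) = theta h := by
  rw [theta_mul hB hN, theta_mul hB hN, mul_right_comm, ← theta_mul hB hN, mul_inv_cancel,
    theta_one, one_mul]

end Cfsg.Agent.H6
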