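import Cfsg.Agent.H6.OreO1

/-! Products of two conjugate involutions in odd characteristic are commutators in `Ω`. -/

set_option autoImplicit false
open Module

namespace Cfsg.Agent.H6

variable {F V : Type*} [Field F] [AddCommGroup V] [Module F V] {Q : QuadraticForm F V}

/-- `k` conjugates `t₁` to `t₂` and fixes a large subspace `Y`. -/
structure CP (t₁ t₂ k : OG Q) (Y : Submodule F V) : Prop where
  conj : k * t₁ * k⁻¹ = t₂
  fix : Y ≤ fxS k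
  orth : (pb Q).orthogonal (mvS t₁ ⊔ mvS t₂) ≤ Y
  sup : Y ⊔ mvS t₂ = ⊤

/-- Data for one reduction step. -/
structure SD (t₁ t₂ : OG Q) (e₁ e₂ : V) : Prop where
  m₁ : e₁ ∈ mvS t₁
  m₂ : e₂ ∈ mvS t₂
  eq : Q e₁ = Q e₂
  ne : Q e₂ ≠ 0
  ne' : Q (e₁ - e₂) ≠ 0

/-- The reduced first involution. -/
noncomputable def red (t₁ : OG Q) (e₁ e₂ : V) : OG Q :=
  refl Q (e₁ - e₂) * t₁ * (refl Q (e₁ - e₂))⁻¹ * refl Q e₂

theorem refl_sub_apply {e₁ e₂ : V} (h : Q e₁ = Q e₂) (h' : Q (e₁ - e₂) ≠ 0) :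
    (refl Q (e₁ - e₂)).1 e₁ = e₂ := by
  have : pb Q e₁ (e₁ - e₂) = Q (e₁ - e₂) := by
    rw [map_sub, pb_self, Q_sub, h]; ring
  rw [refl_apply, this, div_self h', one_smul, sub_sub_cancel]

theorem SD.mem {t₁ t₂ : OG Q} {e₁ e₂ : V} (h : SD t₁ t₂ e₁ e₂) :
    e₂ ∈ mvS (refl Q (e₁ - e₂) * t₁ * (refl Q (e₁ - e₂))⁻¹) := by
  rw [mvS_conj]
  exact ⟨e₁, h.m₁, refl_sub_apply h.eq h.ne'⟩

theorem invol_conj {G : Type*} [Group G] {t : G} (ht : t * t = 1) (g : G) :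
    g * t * g⁻¹ * (g * t * g⁻¹) = 1 := by
  rw [conj_mul, ht, mul_one, mul_inv_cancel]

theorem SD.invol {t₁ t₂ : OG Q} {e₁ e₂ : V} (h : SD t₁ t₂ e₁ e₂) (h₁ : t₁ * t₁ = 1) :
    red t₁ e₁ e₂ * red t₁ e₁ e₂ = 1 := invol_mul_refl (invol_conj h₁ _) h.mem

theorem exists_sd (h2 : (2 : F) ≠ 0) {t₁ t₂ : OG Q} {e₁ e₂ : V} (m₁ : e₁ ∈ mvS t₁)
    (m₂ : e₂ ∈ mvS t₂) (eq : Q e₁ = Q e₂) (ne : Q e₂ ≠ 0) :
    SD t₁ t₂ e₁ e₂ ∨ SD t₁ t₂ e₁ (-e₂) := by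
  by_cases h : Q (e₁ - e₂) = 0
  · refine Or.inr ⟨m₁, neg_mem m₂, by rwa [Q_neg], by rwa [Q_neg], fun h' => ?_⟩
    rw [sub_neg_eq_add, Q_add, eq] at h'
    rw [Q_sub, eq] at h
    exact ne (mul_left_cancel₀ (mul_ne_zero h2 h2) (by linear_combination h + h'))
  · exact Or.inl ⟨m₁, m₂, eq, ne, h⟩

variable [FiniteDimensional F V]

omit [FiniteDimensional F V] in
theorem finrank_mvS_conj (g h : OG Q) : finrank F (mvS (g * h * g⁻¹)) = finrank F (mvS h) := by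
  rw [mvS_conj, LinearEquiv.finrank_map_eq]

theorem SD.rank₁ {t₁ t₂ : OG Q} {e₁ e₂ : V} (h : SD t₁ t₂ e₁ e₂) :
    finrank F (mvS (red t₁ e₁ e₂)) + 1 = finrank F (mvS t₁) := by
  rw [red, finrank_mvS_mul_refl_of_mem _ h.ne h.mem, finrank_mvS_conj]

theorem SD.rank₂ {t₁ t₂ : OG Q} {e₁ e₂ : V} (h : SD t₁ t₂ e₁ e₂) :
    finrank F (mvS (t₂ * refl Q e₂)) + 1 = finrank F (mvS t₂) :=
  finrank_mvS_mul_refl_of_mem _ h.ne h.m₂

omit [FiniteDimensional F V] in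
theorem SD.step {t₁ t₂ : OG Q} {e₁ e₂ : V} (h : SD t₁ t₂ e₁ e₂) (h₁ : t₁ * t₁ = 1)
    (h₂ : t₂ * t₂ = 1) {k : OG Q} {Y : Submodule F V} (H : CP (red t₁ e₁ e₂) (t₂ * refl Q e₂) k Y) :
    CP t₁ t₂ (k * refl Q (e₁ - e₂)) (Y ⊓ (pb Q).orthogonal (F ∙ (e₁ - e₂))) := by
  have f₁ : e₂ ∈ fxS (red t₁ e₁ e₂) := mem_fxS.2 (mul_refl_apply_self (invol_conj h₁ _) h.mem h.ne)
  have f₂ : e₂ ∈ fxS (t₂ * refl Q e₂) := mem_fxS.2 (mul_refl_apply_self h₂ h.m₂ h.ne)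
  have hY : e₂ ∈ Y := H.orth (by
    rw [orth_sup]
    exact ⟨fun y hy => (pb_comm Q _ _).trans (pb_fx_mv f₁ hy),
      fun y hy => (pb_comm Q _ _).trans (pb_fx_mv f₂ hy)⟩)
  have hm : e₁ - e₂ ∈ mvS t₁ ⊔ mvS t₂ :=
    sub_mem (Submodule.mem_sup_left h.m₁) (Submodule.mem_sup_right h.m₂)
  refine ⟨?_, fun y hy => ?_, fun y hy => ⟨H.orth (LinearMap.BilinForm.orthogonal_le ?_ hy),
    mem_orth_span.2 ((pb_comm Q _ _).trans (hy _ hm))⟩, ?_⟩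
  · have e1 := H.conj
    have e2 := (commute_refl (mem_fxS.1 (H.fix hY))).eq
    rw [red] at e1
    apply mul_right_cancel (b := refl Q e₂)
    rw [← e1]
    calc _ = k * (refl Q (e₁ - e₂) * t₁ * (refl Q (e₁ - e₂))⁻¹) * k⁻¹ * (refl Q e₂ * k) * k⁻¹ := by
          group
      _ = _ := by rw [← e2]; group
  · rw [mem_fxS, OG_mul_apply, refl_of_orth (mem_orth_span.1 hy.2)]
    exact mem_fxS.1 (H.fix hy.1)
  · refine sup_le ((mvS_mul_refl_le _ h.mem).trans ?_) ((mvS_mul_refl_le _ h.m₂).trans le_sup_right)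
    rw [mvS_conj]
    rintro _ ⟨x, hx, rfl⟩
    change (refl Q (e₁ - e₂)).1 x ∈ _
    rw [refl_apply]
    exact sub_mem (Submodule.mem_sup_left hx) (Submodule.smul_mem _ _ hm)
  · rw [eq_top_iff]
    intro v _
    obtain ⟨y, hy, u, hu, rfl⟩ := Submodule.mem_sup.1 (H.sup.symm ▸ Submodule.mem_top :
      v ∈ Y ⊔ mvS (t₂ * refl Q e₂))
    have hne : pb Q e₂ (e₁ - e₂) ≠ 0 := by
      have := h.ne'
      rw [Q_sub, h.eq] at this
      rw [map_sub, pb_self, pb_comm]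
      exact fun h' => this (by linear_combination -h')
    set c := pb Q y (e₁ - e₂) / pb Q e₂ (e₁ - e₂) with hc
    rw [show y + u = (y - c • e₂) + (c • e₂ + u) by abel]
    refine Submodule.add_mem_sup ⟨sub_mem hy (Y.smul_mem _ hY), mem_orth_span.2 ?_⟩
      (add_mem (Submodule.smul_mem _ _ h.m₂) (mvS_mul_refl_le _ h.m₂ hu))
    rw [map_sub (pb Q), map_smul, LinearMap.sub_apply, LinearMap.smul_apply, smul_eq_mul, hc,
      div_mul_cancel₀ _ hne, sub_self]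

theorem nondeg_mvS (h2 : (2 : F) ≠ 0) (hB : (pb Q).Nondegenerate) {t : OG Q} (ht : t * t = 1) :
    NondegSub Q (mvS t) := by
  intro x hx hx'
  have h1 : x ∈ fxS t := by
    rw [← orth_mvS hB]
    exact fun y hy => (pb_comm Q _ _).trans (hx' y hy)
  have h3 := (mem_fxS.1 h1).symm.trans (apply_of_mem_mvS ht hx)
  rw [eq_neg_iff_add_eq_zero, ← two_smul F] at h3
  exact (smul_eq_zero.1 h3).resolve_left h2

theorem CP.finrank_le {t₁ t₂ k : OG Q} {Y : Submodule F V} (H : CP t₁ t₂ k Y) :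
    finrank F V ≤ finrank F Y + finrank F (mvS t₂) := by
  have := Submodule.finrank_add_le_finrank_add_finrank Y (mvS t₂)
  rwa [H.sup, finrank_top] at this

/-- The form has rank at least two on the subspace. -/
def R2 (Q : QuadraticForm F V) (Y : Submodule F V) : Prop :=
  (∃ y ∈ Y, Q y ≠ 0) ∧ ∀ w ∈ Y, Q w ≠ 0 → ∃ y ∈ Y, pb Q y w = 0 ∧ Q y ≠ 0

theorem r2_of_finrank (h2 : (2 : F) ≠ 0) (hB : (pb Q).Nondegenerate) {Z Y : Submodule F V}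
    (hZ : NondegSub Q Z) (hYZ : Y ≤ Z) (hd : finrank F Z + 2 ≤ 2 * finrank F Y) : R2 Q Y := by
  refine ⟨hZ.exists_ne hB hYZ (by omega), fun w hw hw' => ?_⟩
  have h1 := finrank_inf_orth h2 hw hw'
  have h3 := finrank_inf_orth h2 (hYZ hw) hw'
  obtain ⟨y, hy, hy'⟩ := (hZ.inf_orth h2 (hYZ hw) hw').exists_ne hB (inf_le_inf_right _ hYZ)
    (by omega)
  exact ⟨y, hy.1, mem_orth_span.1 hy.2, hy'⟩

variable [Fintype F] [DecidableEq F]

omit [DecidableEq F] in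
theorem exists_common_value (h2 : (2 : F) ≠ 0) (hB : (pb Q).Nondegenerate) {Z : Submodule F V}
    (hZ : NondegSub Q Z) (hd : 3 ≤ finrank F Z) :
    ∃ δ : F, δ ≠ 0 ∧ ∀ x, ∃ z ∈ Z, pb Q z x = 0 ∧ Q z = δ := by
  have key : ∀ δ : F, (∀ x ∈ Z, x ≠ 0 → Q x = 0 → ∃ z ∈ Z, pb Q z x = 0 ∧ Q z = δ) →
      ∀ x, ∃ z ∈ Z, pb Q z x = 0 ∧ Q z = δ := by
    intro δ h x
    obtain ⟨x', hx', hp⟩ := hZ.exists_proj hB x
    suffices ∃ z ∈ Z, pb Q z x' = 0 ∧ Q z = δ by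
      obtain ⟨z, hz, h1, h3⟩ := this
      exact ⟨z, hz, (hp z hz).symm.trans h1, h3⟩
    by_cases h0 : x' = 0
    · obtain ⟨z, hz, hz'⟩ := exists_represent h2 hZ (by omega) δ
      exact ⟨z, hz, by rw [h0, map_zero], hz'⟩
    by_cases hQ : Q x' = 0
    · exact h x' hx' h0 hQ
    · have := finrank_inf_orth h2 hx' hQ
      obtain ⟨z, hz, hz'⟩ := exists_represent h2 (hZ.inf_orth h2 hx' hQ) (by omega) δ
      exact ⟨z, hz.1, mem_orth_span.1 hz.2, hz'⟩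
  by_cases h : ∃ x ∈ Z, x ≠ 0 ∧ Q x = 0
  · obtain ⟨x₀, h0, h1, h3⟩ := h
    have h4 := finrank_map_le_succ Z (pb Q x₀) LinearMap.id
    rw [Submodule.map_id, Submodule.map_id] at h4
    obtain ⟨z₀, hz, hz'⟩ := hZ.exists_ne hB (inf_le_left : Z ⊓ LinearMap.ker (pb Q x₀) ≤ Z)
      (by omega)
    refine ⟨Q z₀, hz', key _ fun x hx hx0 hxQ => ?_⟩
    have hn : ∀ y ∈ Z, y ≠ 0 → y ∉ (pb Q).orthogonal Z := fun y hy hy0 hy' =>
      hy0 (Submodule.disjoint_def.1 (hZ.isCompl hB).disjoint y hy hy')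
    obtain ⟨g, hg, hg'⟩ := witt_step hB ((pb Q).orthogonal Z) (hn x₀ h0 h1) (hn x hx hx0)
      (hxQ.trans h3.symm) (fun y hy => by
        rw [pb_comm, show pb Q x y = 0 from hy x hx, pb_comm, show pb Q x₀ y = 0 from hy x₀ h0])
    refine ⟨g.1 z₀, ?_, by rw [← hg', OG_pb, pb_comm]; exact hz.2, OG_Q g z₀⟩
    rw [← LinearMap.BilinForm.orthogonal_orthogonal hB (pb_isRefl Q) Z]
    intro y hy
    change pb Q y (g.1 z₀) = 0
    rw [← hg y hy, OG_pb, pb_comm]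
    exact hy z₀ hz.1
  · exact ⟨1, one_ne_zero, key _ fun x hx hx0 hxQ => absurd ⟨x, hx, hx0, hxQ⟩ h⟩

theorem exists_sd_of_rank (h2 : (2 : F) ≠ 0) (hB : (pb Q).Nondegenerate) {t₁ t₂ : OG Q}
    (h₁ : t₁ * t₁ = 1) (h₂ : t₂ * t₂ = 1) (hr : finrank F (mvS t₁) = finrank F (mvS t₂))
    (hθ : theta t₁ = theta t₂) (h0 : 0 < finrank F (mvS t₁)) : ∃ e₁ e₂, SD t₁ t₂ e₁ e₂ := by
  have hne : ∀ t : OG Q, t * t = 1 → 0 < finrank F (mvS t) → ∃ e ∈ mvS t, Q e ≠ 0 :=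
    fun t ht h => (nondeg_mvS h2 hB ht).exists_Q_ne_zero (by
      rintro h'
      rw [h', finrank_bot] at h
      omega)
  obtain ⟨e₁, m₁, n₁⟩ := hne t₁ h₁ h0
  obtain ⟨e₂, m₂, eq⟩ : ∃ e₂ ∈ mvS t₂, Q e₂ = Q e₁ := by
    by_cases h : 2 ≤ finrank F (mvS t₂)
    · exact exists_represent h2 (nondeg_mvS h2 hB h₂) h _
    · obtain ⟨e₂, m₂, n₂⟩ := hne t₂ h₂ (by omega)
      have hth : ∀ (t : OG Q) (e : V), e ∈ mvS t → Q e ≠ 0 → finrank F (mvS t) = 1 →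
          theta t = quadraticChar F (Q e) := by
        intro t e he hQ ht
        have := finrank_mvS_mul_refl_of_mem t hQ he
        rw [theta_of_mem hB t hQ he, eq_one_of_mvS_eq_bot
          (Submodule.finrank_eq_zero.1 (by omega) : mvS (t * refl Q e) = ⊥), theta_one, mul_one]
      rw [hth t₁ e₁ m₁ n₁ (by omega), hth t₂ e₂ m₂ n₂ (by omega)] at hθ
      have : quadraticChar F (Q e₁ * Q e₂) = 1 := by rw [map_mul, hθ, qc_sq n₂]
      obtain ⟨c, hc⟩ := (quadraticChar_one_iff_isSquare (mul_ne_zero n₁ n₂)).1 this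
      refine ⟨(c / Q e₂) • e₂, Submodule.smul_mem _ _ m₂, ?_⟩
      rw [Q_smul]
      field_simp
      linear_combination -hc
  rcases exists_sd h2 m₁ m₂ eq.symm (eq ▸ n₁) with h | h
  · exact ⟨_, _, h⟩
  · exact ⟨_, _, h⟩

theorem SD.theta_eq (hB : (pb Q).Nondegenerate) (hN : BigEnough F V) {t₁ t₂ : OG Q} {e₁ e₂ : V}
    (h : SD t₁ t₂ e₁ e₂) (hθ : theta t₁ = theta t₂) :
    theta (red t₁ e₁ e₂) = theta (t₂ * refl Q e₂) := by
  rw [red, theta_mul_refl hB _ h.ne, theta_mul_refl hB _ h.ne, theta_conj hB hN, hθ]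

theorem exists_cp (h2 : (2 : F) ≠ 0) (hB : (pb Q).Nondegenerate) (hN : BigEnough F V) (r : ℕ) :
    ∀ t₁ t₂ : OG Q, t₁ * t₁ = 1 → t₂ * t₂ = 1 → finrank F (mvS t₁) = r → finrank F (mvS t₂) = r →
      theta t₁ = theta t₂ → ∃ k Y, CP t₁ t₂ k Y := by
  induction r with
  | zero =>
    intro t₁ t₂ _ _ r₁ r₂ _
    rw [eq_one_of_mvS_eq_bot (Submodule.finrank_eq_zero.1 r₁),
      eq_one_of_mvS_eq_bot (Submodule.finrank_eq_zero.1 r₂)]
    exact ⟨1, ⊤, by simp, fun _ _ => mem_fxS.2 rfl, le_top, top_sup_eq _⟩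
  | succ r ih =>
    intro t₁ t₂ h₁ h₂ r₁ r₂ hθ
    obtain ⟨e₁, e₂, h⟩ := exists_sd_of_rank h2 hB h₁ h₂ (r₁.trans r₂.symm) hθ (by omega)
    have := h.rank₁
    have := h.rank₂
    obtain ⟨k, Y, H⟩ := ih _ _ (h.invol h₁) (invol_mul_refl h₂ h.m₂) (by omega) (by omega)
      (h.theta_eq hB hN hθ)
    exact ⟨_, _, h.step h₁ h₂ H⟩

theorem exists_cp_r2 (h2 : (2 : F) ≠ 0) (hB : (pb Q).Nondegenerate) (h7 : 7 ≤ finrank F V)
    {t₁ t₂ : OG Q} (h₁ : t₁ * t₁ = 1) (h₂ : t₂ * t₂ = 1)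
    (hr : finrank F (mvS t₁) = finrank F (mvS t₂)) (hθ : theta t₁ = theta t₂)
    (hle : 2 * finrank F (mvS t₂) ≤ finrank F V) : ∃ k Y, CP t₁ t₂ k Y ∧ R2 Q Y := by
  have hN : BigEnough F V := Or.inl (by omega)
  have hT := nondegSub_top hB
  by_cases c₀ : 2 * finrank F (mvS t₂) + 2 ≤ finrank F V
  · obtain ⟨k, Y, H⟩ := exists_cp h2 hB hN _ t₁ t₂ h₁ h₂ hr rfl hθ
    have := H.finrank_le
    exact ⟨k, Y, H, r2_of_finrank h2 hB hT le_top (by rw [finrank_top]; omega)⟩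
  obtain ⟨e₁, e₂, h⟩ := exists_sd_of_rank h2 hB h₁ h₂ hr hθ (by omega)
  have r₁ := h.rank₁
  have r₂ := h.rank₂
  have i₁ := h.invol h₁
  have i₂ := invol_mul_refl h₂ h.m₂
  have θ' := h.theta_eq hB hN hθ
  obtain ⟨k, Y, H⟩ := exists_cp h2 hB hN _ _ _ i₁ i₂ (by omega) rfl θ'
  have hT₁ := hT.inf_orth h2 Submodule.mem_top h.ne'
  have d₁ := finrank_inf_orth h2 (Submodule.mem_top (R := F)) h.ne'
  rw [finrank_top] at d₁
  by_cases c₁ : 2 * finrank F (mvS t₂) + 1 ≤ finrank F V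
  · have H' := h.step h₁ h₂ H
    have := H'.finrank_le
    exact ⟨_, _, H', r2_of_finrank h2 hB hT₁ (inf_le_inf_right _ le_top) (by omega)⟩
  obtain ⟨δ, hδ, hz⟩ := exists_common_value h2 hB (nondeg_mvS h2 hB i₁) (by omega)
  obtain ⟨z₁, m₁, o₁, q₁⟩ := hz (e₁ - e₂)
  obtain ⟨z₂, m₂, o₂, q₂⟩ := hz (k⁻¹.1 (e₁ - e₂))
  rw [← OG_pb_inv] at o₂
  have m₂' : k.1 z₂ ∈ mvS (t₂ * refl Q e₂) := by
    rw [← H.conj, mvS_conj]
    exact ⟨z₂, m₂, rfl⟩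
  obtain ⟨z₃, h', o₃⟩ : ∃ z₃, SD (red t₁ e₁ e₂) (t₂ * refl Q e₂) z₁ z₃ ∧ pb Q z₃ (e₁ - e₂) = 0 := by
    rcases exists_sd h2 m₁ m₂' (by rw [OG_Q, q₁, q₂]) (by rw [OG_Q, q₂]; exact hδ) with h' | h'
    · exact ⟨_, h', o₂⟩
    · exact ⟨_, h', by rw [map_neg, LinearMap.neg_apply, o₂, neg_zero]⟩
  have r₃ := h'.rank₁
  have r₄ := h'.rank₂
  obtain ⟨k', Y', H'⟩ := exists_cp h2 hB hN _ _ _ (h'.invol i₁) (invol_mul_refl i₂ h'.m₂)
    (by omega) rfl (h'.theta_eq hB hN θ')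
  have H'' := h.step h₁ h₂ (h'.step i₁ i₂ H')
  have hm : z₁ - z₃ ∈ ⊤ ⊓ (pb Q).orthogonal (F ∙ (e₁ - e₂)) :=
    ⟨trivial, mem_orth_span.2 (by rw [map_sub (pb Q), LinearMap.sub_apply, o₁, o₃, sub_self])⟩
  have d₂ := finrank_inf_orth h2 hm h'.ne'
  have := H''.finrank_le
  exact ⟨_, _, H'', r2_of_finrank h2 hB (hT₁.inf_orth h2 hm h'.ne')
    (fun y hy => ⟨⟨trivial, hy.2⟩, hy.1.2⟩) (by omega)⟩

/-- The projection onto the orthogonal complement of a vector. -/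
noncomputable def prj (Q : QuadraticForm F V) (w : V) : V →ₗ[F] V :=
  LinearMap.id - ((2 * Q w)⁻¹ • pb Q w).smulRight w

omit [FiniteDimensional F V] [Fintype F] [DecidableEq F] in
theorem prj_apply (w y : V) : prj Q w y = y - ((2 * Q w)⁻¹ * pb Q w y) • w := rfl

omit [FiniteDimensional F V] [Fintype F] [DecidableEq F] in
theorem pb_prj (h2 : (2 : F) ≠ 0) {w : V} (hw : Q w ≠ 0) (y : V) : pb Q (prj Q w y) w = 0 := by
  rw [prj_apply, map_sub (pb Q), map_smul, LinearMap.sub_apply, LinearMap.smul_apply, pb_self,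
    pb_comm Q w y, smul_eq_mul]
  field_simp
  ring

theorem cm2_odd_aux (h2 : (2 : F) ≠ 0) (hB : (pb Q).Nondegenerate) (h7 : 7 ≤ finrank F V)
    {t₁ t₂ : OG Q} (h₁ : t₁ * t₁ = 1) (h₂ : t₂ * t₂ = 1)
    (hr : finrank F (mvS t₁) = finrank F (mvS t₂)) (hθ : theta t₁ = theta t₂)
    (hle : 2 * finrank F (mvS t₁) ≤ finrank F V) : Cm2 (t₁ * t₂) := by
  have hN : BigEnough F V := Or.inl (by omega)
  obtain ⟨k, Y, H, hY, hY'⟩ := exists_cp_r2 h2 hB h7 h₂ h₁ hr.symm hθ.symm hle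
  have hW : NondegSub Q (fxS t₁) := by
    rw [← orth_mvS hB]
    exact (nondeg_mvS h2 hB h₁).orth hB
  have dW := finrank_mvS_add t₁
  set π : V →ₗ[F] V := LinearMap.id + (t₁.1 : V →ₗ[F] V) with hπ
  have πa : ∀ y, π y = y + t₁.1 y := fun _ => rfl
  have πm : ∀ y, π y ∈ fxS t₁ := fun y => by
    rw [mem_fxS, πa, map_add, ← OG_mul_apply, h₁, OG_one_apply, add_comm]
  have πs : ∀ z ∈ fxS t₁, ∃ y ∈ Y, π y = z := by
    intro z hz
    obtain ⟨y, hy, u, hu, e⟩ := Submodule.mem_sup.1 (H.sup.symm ▸ Submodule.mem_top :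
      (2 : F)⁻¹ • z ∈ Y ⊔ mvS t₁)
    refine ⟨y, hy, ?_⟩
    rw [eq_sub_of_add_eq e, map_sub, πa u, apply_of_mem_mvS h₁ hu, add_neg_cancel, sub_zero,
      map_smul, πa, mem_fxS.1 hz, ← two_smul F, inv_smul_smul₀ h2]
  have πz : ∀ z ∈ fxS t₁, ∀ y, pb Q z (π y) = 0 → pb Q z y = 0 := by
    intro z hz y h
    rw [πa, map_add, ← mem_fxS.1 hz, OG_pb, mem_fxS.1 hz, ← two_mul] at h
    exact (mul_eq_zero.1 h).resolve_left h2
  have key : ∀ (β : V →ₗ[F] V) (W : Submodule F V), NondegSub Q W → 3 ≤ finrank F W →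
      Y.map β = W → ∀ l : V →ₗ[F] F, ∃ y ∈ Y, l y = 0 ∧ Q (β y) ≠ 0 := by
    intro β W hW hd hm l
    have := finrank_map_le_succ Y l β
    rw [hm] at this
    obtain ⟨_, ⟨y, hy, rfl⟩, hy'⟩ := hW.exists_ne hB
      (hm ▸ Submodule.map_mono inf_le_left : (Y ⊓ LinearMap.ker l).map β ≤ W) (by omega)
    exact ⟨y, hy.1, hy.2, hy'⟩
  obtain ⟨w₁, m₁, n₁, p₁⟩ := exists_both h2 Y LinearMap.id π hY (key π _ hW (by omega)
    (le_antisymm (by rintro _ ⟨y, -, rfl⟩; exact πm y) fun z hz => πs z hz))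
  replace n₁ : Q w₁ ≠ 0 := n₁
  have hW₁ := hW.inf_orth h2 (πm w₁) p₁
  have d₁ := finrank_inf_orth h2 (πm w₁) p₁
  have βm : ∀ y, prj Q (π w₁) (π y) ∈ fxS t₁ ⊓ (pb Q).orthogonal (F ∙ π w₁) := fun y =>
    ⟨sub_mem (πm y) (Submodule.smul_mem _ _ (πm w₁)), mem_orth_span.2 (pb_prj h2 p₁ _)⟩
  obtain ⟨y, my, n₂, p₂⟩ := exists_both h2 Y (prj Q w₁) (prj Q (π w₁) ∘ₗ π) (by
      obtain ⟨y, hy, h3, h4⟩ := hY' w₁ m₁ n₁
      exact ⟨y, hy, by rwa [prj_apply, pb_comm, h3, mul_zero, zero_smul, sub_zero]⟩)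
    (key _ _ hW₁ (by omega) (le_antisymm (by rintro _ ⟨y, -, rfl⟩; exact βm y) fun z hz => by
      obtain ⟨y, hy, rfl⟩ := πs z hz.1
      exact ⟨y, hy, by rw [LinearMap.comp_apply, prj_apply, pb_comm, mem_orth_span.1 hz.2,
        mul_zero, zero_smul, sub_zero]⟩))
  replace p₂ : Q (prj Q (π w₁) (π y)) ≠ 0 := p₂
  have d₂ := finrank_inf_orth h2 (βm y) p₂
  have u₂ : Univ Q ((fxS t₁ ⊓ (pb Q).orthogonal (F ∙ π w₁)) ⊓
      (pb Q).orthogonal (F ∙ prj Q (π w₁) (π y)) : Submodule F V) := fun c _ =>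
    exists_represent h2 (hW₁.inf_orth h2 (βm y) p₂) (by omega) c
  have u₁ : Univ Q {x | ∃ a b : F, a • w₁ + b • prj Q w₁ y = x} := by
    intro c _
    obtain ⟨a, b, hab⟩ := FiniteField.exists_root_sum_quadratic
      (f := Polynomial.C (Q w₁) * Polynomial.X ^ 2)
      (g := Polynomial.C (Q (prj Q w₁ y)) * Polynomial.X ^ 2 - Polynomial.C c)
      (Polynomial.degree_C_mul_X_pow 2 n₁)
      (by rw [Polynomial.degree_sub_C (by rw [Polynomial.degree_C_mul_X_pow 2 n₂]; norm_num),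
        Polynomial.degree_C_mul_X_pow 2 n₂]; rfl)
      (FiniteField.odd_card_of_char_ne_two (by
        intro h
        have := ringChar.Nat.cast_ringChar (R := F)
        rw [h] at this
        exact h2 (by exact_mod_cast this)))
    refine ⟨_, ⟨a, b, rfl⟩, ?_⟩
    simp only [Polynomial.eval_mul, Polynomial.eval_C, Polynomial.eval_pow, Polynomial.eval_X,
      Polynomial.eval_sub] at hab
    rw [Q_add, Q_smul, Q_smul, map_smul, map_smul, LinearMap.smul_apply, pb_comm, pb_prj h2 n₁,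
      smul_zero, smul_zero]
    linear_combination hab
  have := cm2_of_univ hB hN t₁ k⁻¹ u₁ u₂ (by
      rintro _ ⟨a, b, rfl⟩
      rw [← mem_fxS, fxS_inv]
      exact H.fix (add_mem (Y.smul_mem _ m₁) (Y.smul_mem _ (sub_mem my (Y.smul_mem _ m₁)))))
    (fun y hy => mem_fxS.1 hy.1.1) (by
      rintro _ ⟨a, b, rfl⟩ z hz
      have o₁ := mem_orth_span.1 hz.1.2
      have o₂ := mem_orth_span.1 hz.2
      rw [prj_apply, map_sub, map_smul, o₁, smul_zero, sub_zero] at o₂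
      rw [pb_comm, prj_apply, map_add, map_smul, map_smul, map_sub, map_smul, πz z hz.1.1 _ o₁,
        πz z hz.1.1 _ o₂]
      simp)
  rwa [inv_eq_of_mul_eq_one_right h₁, show t₁ * k⁻¹ * t₁ * k⁻¹⁻¹ = t₁ * t₂ by
    rw [← H.conj]; group] at this

theorem cm2_odd (h2 : (2 : F) ≠ 0) (hB : (pb Q).Nondegenerate) (h7 : 7 ≤ finrank F V)
    {t₁ t₂ : OG Q} (h₁ : t₁ * t₁ = 1) (h₂ : t₂ * t₂ = 1)
    (hr : finrank F (mvS t₁) = finrank F (mvS t₂)) (hθ : theta t₁ = theta t₂) : Cm2 (t₁ * t₂) := by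
  have hN : BigEnough F V := Or.inl (by omega)
  by_cases hle : 2 * finrank F (mvS t₁) ≤ finrank F V
  · exact cm2_odd_aux h2 hB h7 h₁ h₂ hr hθ hle
  have e : ∀ a b : OG Q, a * negOG Q * (b * negOG Q) = a * b := fun a b =>
    OG_ext fun v => by simp [negOG_apply]
  have f : ∀ t : OG Q, t * t = 1 → mvS (t * negOG Q) = fxS t := by
    intro t ht
    apply le_antisymm
    · intro x hx
      have := apply_of_mem_mvS ((e t t).trans ht) hx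
      rw [OG_mul_apply, negOG_apply, map_neg, neg_inj] at this
      exact mem_fxS.2 this
    · intro x hx
      refine mem_mvS.2 ⟨(2 : F)⁻¹ • x, ?_⟩
      rw [OG_mul_apply, negOG_apply, map_neg, map_smul, mem_fxS.1 hx, sub_neg_eq_add, ← two_smul F,
        smul_inv_smul₀ h2]
  have a₁ := finrank_mvS_add t₁
  have a₂ := finrank_mvS_add t₂
  rw [← e]
  exact cm2_odd_aux h2 hB h7 ((e _ _).trans h₁) ((e _ _).trans h₂)
    (by rw [f _ h₁, f _ h₂]; omega) (by rw [theta_mul hB hN, theta_mul hB hN, hθ])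
    (by rw [f _ h₁]; omega)

end Cfsg.Agent.H6
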