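import Cfsg.Agent.H6.OreO2

/-! Products of two involutions in characteristic two are commutators in `Ω`. -/

set_option autoImplicit false
open Module

namespace Cfsg.Agent.H6

variable {F V : Type*} [Field F] [AddCommGroup V] [Module F V] {Q : QuadraticForm F V}

/-- The moved space is not totally singular. -/
def NA (t : OG Q) : Prop := ∃ y ∈ mvS t, Q y ≠ 0

theorem finrank_sup_span_le [FiniteDimensional F V] (T : Submodule F V) (v : V) :
    finrank F ↥(T ⊔ F ∙ v) ≤ finrank F T + 1 := by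
  have h2 := Submodule.finrank_add_le_finrank_add_finrank T (F ∙ v)
  have h3 : finrank F (F ∙ v) ≤ 1 := by simpa using finrank_span_le_card ({v} : Set V)
  omega

theorem pb_invol {t : OG Q} (ht : t * t = 1) (x y : V) : pb Q (t.1 x) y = pb Q x (t.1 y) := by
  rw [OG_pb_inv, inv_eq_of_mul_eq_one_right ht]

variable [FiniteDimensional F V]

theorem commute_of_fix_mvS (hB : (pb Q).Nondegenerate) {g t : OG Q}
    (h : ∀ x ∈ mvS t, g.1 x = x) : Commute g t := by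
  refine OG_ext fun x => ?_
  have h1 : g.1 x - x ∈ fxS t := by
    rw [← orth_mvS hB]
    intro y hy
    change pb Q y (g.1 x - x) = 0
    rw [map_sub, sub_eq_zero, ← OG_pb g y x, h y hy]
  have h2 := h _ (sub_mem_mvS t x)
  rw [mem_fxS, map_sub] at h1
  rw [map_sub] at h2
  rw [OG_mul_apply, OG_mul_apply]
  linear_combination (norm := module) -h1 - h2

theorem exists_adjust (hB : (pb Q).Nondegenerate) (H : Submodule F V) {u : V} (hu : u ∉ H)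
    (w₀ : V) : ∃ w, (∀ x ∈ H, pb Q x w = pb Q x w₀) ∧ pb Q u w = 1 := by
  obtain ⟨y, h1, h2⟩ := exists_dual hB H hu
  exact ⟨w₀ + (1 - pb Q u w₀) • y, fun x hx => by simp [h1 x hx], by simp [h2]⟩

theorem notMem_mvS_mul_refl (g : OG Q) {v : V} (hv : Q v ≠ 0) (h : v ∈ mvS g) :
    v ∉ mvS (g * refl Q v) := by
  intro h'
  have h1 := finrank_mvS_mul_refl_of_mem g hv h
  have h2 := finrank_mvS_mul_refl_of_mem _ hv h'
  rw [mul_assoc, refl_mul_self, mul_one] at h2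
  omega

theorem exists_shift (hB : (pb Q).Nondegenerate) (h8 : 8 ≤ finrank F V) (T : Submodule F V) (w : V)
    (hT : finrank F T ≤ 4) (h : finrank F T ≤ 3 ∨ ∃ κ ∈ T, Q κ = 0 ∧ pb Q w κ ≠ 0) :
    ∃ z ∈ (pb Q).orthogonal T, Q (w + z) ≠ 0 := by
  by_contra hc
  push Not at hc
  have h0 : Q w = 0 := by simpa using hc 0 (zero_mem _)
  have h1 : ∀ z ∈ (pb Q).orthogonal T, Q z + pb Q w z = 0 := fun z hz => by
    have := hc z hz
    rwa [Q_add, h0, zero_add] at this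
  have h2 : (pb Q).orthogonal T ≤ T := by
    intro z hz
    rw [← LinearMap.BilinForm.orthogonal_orthogonal hB (pb_isRefl Q) T]
    intro y hy
    have := h1 _ (add_mem hy hz)
    rw [Q_add, map_add] at this
    change pb Q y z = 0
    linear_combination this - h1 y hy - h1 z hz
  have h3 := Submodule.finrank_mono h2
  have h4 := LinearMap.BilinForm.finrank_orthogonal hB T
  rcases h with h | ⟨κ, hκ, h5, h6⟩
  · omega
  · rw [← Submodule.eq_of_le_of_finrank_eq h2 (by omega)] at hκ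
    have := h1 κ hκ
    rw [h5, zero_add] at this
    exact h6 this

variable [CharP F 2]

omit [FiniteDimensional F V] in
theorem pb_self_two (x : V) : pb Q x x = 0 := by
  rw [pb_self, CharTwo.two_eq_zero, zero_mul]

omit [FiniteDimensional F V] in
theorem pb_mv_mv {t : OG Q} (ht : t * t = 1) {x y : V} (hx : x ∈ mvS t) (hy : y ∈ mvS t) :
    pb Q x y = 0 := pb_fx_mv (mvS_le_fxS_of_invol ht hx) hy

omit [FiniteDimensional F V] in
theorem Q_sub_two (t : OG Q) (y : V) : Q (y - t.1 y) = pb Q y (t.1 y) := by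
  rw [Q_sub_apply, map_sub, pb_self_two, zero_sub, CharTwo.neg_eq]

omit [FiniteDimensional F V] in
theorem not_na_mul_refl {t : OG Q} (ht : t * t = 1) {e : V} (he : e ∈ mvS t) (hQ : Q e ≠ 0)
    (h : ¬NA (t * refl Q e)) (y : V) : pb Q y (t.1 y) * Q e = pb Q y e ^ 2 := by
  have h1 : Q (y - (t * refl Q e).1 y) = 0 := by
    by_contra h'
    exact h ⟨_, sub_mem_mvS _ y, h'⟩
  rw [Q_sub_two, OG_mul_apply, refl_apply, map_sub, map_smul,
    mem_fxS.1 (mvS_le_fxS_of_invol ht he), map_sub, map_smul, smul_eq_mul, sub_eq_zero] at h1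
  rw [h1]
  field_simp

variable [Fintype F] [DecidableEq F]

omit [FiniteDimensional F V] [DecidableEq F] in
theorem exists_sq_two (a : F) : ∃ c : F, c ^ 2 = a := by
  obtain ⟨c, hc⟩ := FiniteField.isSquare_of_char_two (ringChar.eq F 2) a
  exact ⟨c, by rw [hc, sq]⟩

omit [FiniteDimensional F V] [DecidableEq F] in
theorem univ_line {y : V} (hy : Q y ≠ 0) : Univ Q {x | ∃ c : F, c • y = x} := by
  intro c _
  obtain ⟨d, hd⟩ := exists_sq_two (c / Q y)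
  exact ⟨_, ⟨d, rfl⟩, by rw [Q_smul, hd, div_mul_cancel₀ _ hy]⟩

omit [DecidableEq F] in
theorem exists_good_refl (hB : (pb Q).Nondegenerate) {t : OG Q} (ht : t * t = 1) (h : NA t) :
    ∃ e ∈ mvS t, Q e = 1 ∧ (NA (t * refl Q e) ∨ t * refl Q e = 1) := by
  suffices ∃ e ∈ mvS t, Q e ≠ 0 ∧ (NA (t * refl Q e) ∨ t * refl Q e = 1) by
    obtain ⟨e, he, hQ, h'⟩ := this
    obtain ⟨_, ⟨c, rfl⟩, hc⟩ := univ_line hQ 1 one_ne_zero
    have hc0 : c ≠ 0 := by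
      rintro rfl
      simp at hc
    exact ⟨_, Submodule.smul_mem _ c he, hc, by rwa [refl_smul e hc0]⟩
  obtain ⟨e, he, hQ⟩ := h
  by_cases h1 : mvS t ≤ F ∙ e
  · refine ⟨e, he, hQ, Or.inr (eq_one_of_mvS_eq_bot (Submodule.finrank_eq_zero.1 ?_))⟩
    have h2 := finrank_mvS_mul_refl_of_mem t hQ he
    have h3 := Submodule.finrank_mono h1
    have h4 : finrank F (F ∙ e) ≤ 1 := by simpa using finrank_span_le_card ({e} : Set V)
    omega
  obtain ⟨m, hm, hm'⟩ := Set.not_subset.1 h1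
  obtain ⟨e', he', hQ', hn⟩ : ∃ e' ∈ mvS t, Q e' ≠ 0 ∧ e' ∉ F ∙ e := by
    by_cases h2 : Q m = 0
    · refine ⟨m + e, add_mem hm he, by rwa [Q_add, h2, pb_mv_mv ht hm he, zero_add, add_zero],
        fun h3 => hm' ?_⟩
      simpa using sub_mem h3 (Submodule.mem_span_singleton_self e)
    · exact ⟨m, hm, h2, hm'⟩
  by_cases h2 : NA (t * refl Q e)
  · exact ⟨e, he, hQ, Or.inl h2⟩
  refine ⟨e', he', hQ', Or.inl ?_⟩
  by_contra h3
  obtain ⟨y, h4, h5⟩ := exists_dual hB _ hn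
  have a1 := not_na_mul_refl ht he hQ h2 y
  have a2 := not_na_mul_refl ht he' hQ' h3 y
  rw [pb_comm Q y e, h4 e (Submodule.mem_span_singleton_self e), zero_pow two_ne_zero] at a1
  rw [pb_comm Q y e', h5, (mul_eq_zero.1 a1).resolve_right hQ] at a2
  simp at a2

/-- An orthonormal frame of an involution. -/
structure ON (t : OG Q) {r : ℕ} (m : Fin r → V) : Prop where
  li : LinearIndependent F m
  mem : ∀ j, m j ∈ mvS t
  one : ∀ j, Q (m j) = 1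
  eq : ∀ x, t.1 x = x - ∑ j, pb Q x (m j) • m j

omit [DecidableEq F] in
theorem exists_on (hB : (pb Q).Nondegenerate) (r : ℕ) : ∀ t : OG Q, t * t = 1 → (NA t ∨ t = 1) →
    finrank F (mvS t) = r → ∃ m : Fin r → V, ON t m := by
  induction r with
  | zero =>
    intro t _ _ hr
    rw [eq_one_of_mvS_eq_bot (Submodule.finrank_eq_zero.1 hr)]
    exact ⟨Fin.elim0, linearIndependent_empty_type, fun j => j.elim0, fun j => j.elim0,
      fun x => by simp⟩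
  | succ r ih =>
    intro t ht h hr
    obtain ⟨e, he, hQ, h'⟩ := exists_good_refl hB ht (h.resolve_right (by
      rintro rfl
      rw [mvS_one, finrank_bot] at hr
      omega))
    have hQ' : Q e ≠ 0 := by rw [hQ]; exact one_ne_zero
    have := finrank_mvS_mul_refl_of_mem t hQ' he
    obtain ⟨m, hm⟩ := ih _ (invol_mul_refl ht he) h' (by omega)
    have hle := mvS_mul_refl_le t he
    refine ⟨Fin.cons e m, linearIndependent_finCons.2 ⟨hm.li, fun h1 =>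
      notMem_mvS_mul_refl t hQ' he (Submodule.span_le.2 ?_ h1)⟩,
      fun j => Fin.cases he (fun j => hle (hm.mem j)) j, fun j => Fin.cases hQ hm.one j,
      fun x => ?_⟩
    · rintro _ ⟨j, rfl⟩
      exact hm.mem j
    · have h1 := hm.eq ((refl Q e).1 x)
      rw [← OG_mul_apply, mul_assoc, refl_mul_self, mul_one] at h1
      rw [h1, Fin.sum_univ_succ, refl_apply, hQ, div_one]
      simp only [Fin.cons_zero, Fin.cons_succ, map_sub, map_smul, LinearMap.sub_apply,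
        LinearMap.smul_apply, fun j => pb_mv_mv ht he (hle (hm.mem j)), smul_zero, sub_zero]
      abel

omit [DecidableEq F] in
theorem isConj_two (hB : (pb Q).Nondegenerate) {t₁ t₂ : OG Q} (h₁ : t₁ * t₁ = 1) (h₂ : t₂ * t₂ = 1)
    (n₁ : NA t₁ ∨ t₁ = 1) (n₂ : NA t₂ ∨ t₂ = 1) (hr : finrank F (mvS t₁) = finrank F (mvS t₂)) :
    IsConj t₁ t₂ := by
  obtain ⟨m, hm⟩ := exists_on hB _ t₁ h₁ n₁ hr
  obtain ⟨m', hm'⟩ := exists_on hB _ t₂ h₂ n₂ rfl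
  obtain ⟨k, hk⟩ := witt_fin hB _ m m' hm.li hm'.li (fun i => by rw [hm.one, hm'.one])
    (fun i j => by rw [pb_mv_mv h₁ (hm.mem i) (hm.mem j), pb_mv_mv h₂ (hm'.mem i) (hm'.mem j)])
  refine isConj_iff.2 ⟨k, OG_ext fun x => ?_⟩
  rw [OG_mul_apply, OG_mul_apply, hm.eq, hm'.eq, map_sub, OG_apply_inv, map_sum]
  congr 1
  refine Finset.sum_congr rfl fun j _ => ?_
  rw [map_smul, hk, ← hk, ← OG_pb k (k⁻¹.1 x), OG_apply_inv]

omit [DecidableEq F] in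
theorem exists_char_vec (hB : (pb Q).Nondegenerate) {t : OG Q} (ht : t * t = 1)
    (ho : Odd (finrank F (mvS t))) (h : NA t) :
    ∃ c ∈ mvS t, Q c = 1 ∧ ∀ w, pb Q w (t.1 w) = pb Q w c ^ 2 := by
  obtain ⟨m, hm⟩ := exists_on hB _ t ht (Or.inl h) rfl
  refine ⟨∑ j, m j, Submodule.sum_mem _ fun j _ => hm.mem j, ?_, fun w => ?_⟩
  · rw [Q_sum_orth _ _ fun i j _ => pb_mv_mv ht (hm.mem i) (hm.mem j)]
    simp only [hm.one, Finset.sum_const, Finset.card_univ, Fintype.card_fin, nsmul_eq_mul, mul_one]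
    obtain ⟨k, hk⟩ := ho
    rw [hk]
    push_cast
    rw [CharTwo.two_eq_zero, zero_mul, zero_add]
  · rw [hm.eq, map_sub, pb_self_two, zero_sub, CharTwo.neg_eq, map_sum, map_sum, CharTwo.sum_sq]
    exact Finset.sum_congr rfl fun j _ => by rw [map_smul, smul_eq_mul, sq]

omit [DecidableEq F] in
theorem exists_test_vec (hB : (pb Q).Nondegenerate) (h8 : 8 ≤ finrank F V) {t₁ t₂ : OG Q}
    (h₁ : t₁ * t₁ = 1) (h₂ : t₂ * t₂ = 1) (n₁ : NA t₁) (n₂ : NA t₂)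
    (hr : finrank F (mvS t₁) = finrank F (mvS t₂)) (ho : Odd (finrank F (mvS t₁))) :
    ∃ w, Q w ≠ 0 ∧ pb Q w (t₁.1 w) = 1 ∧ pb Q w (t₂.1 w) = 1 ∧ (finrank F (mvS t₁) = 1 ∨
      (∃ κ ∈ mvS t₁, Q κ = 0 ∧ pb Q κ w ≠ 0) ∧ ∃ κ ∈ mvS t₂, Q κ = 0 ∧ pb Q κ w ≠ 0) := by
  obtain ⟨c₁, m₁, q₁, p₁⟩ := exists_char_vec hB h₁ ho n₁
  obtain ⟨c₂, m₂, q₂, p₂⟩ := exists_char_vec hB h₂ (hr ▸ ho) n₂
  have s₁ := Submodule.mem_span_singleton_self (R := F) c₁
  have s₂ := Submodule.mem_span_singleton_self (R := F) c₂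
  obtain ⟨w₀, a₁, a₂⟩ : ∃ w, pb Q c₁ w = 1 ∧ pb Q c₂ w = 1 := by
    obtain ⟨w, -, hw⟩ := exists_adjust hB ⊥ (u := c₁) (by
      rintro rfl
      simp at q₁) 0
    by_cases hc : c₂ ∈ F ∙ c₁
    · obtain ⟨a, rfl⟩ := Submodule.mem_span_singleton.1 hc
      rw [Q_smul, q₁, mul_one, sq_eq_one_iff, CharTwo.neg_eq, or_self] at q₂
      exact ⟨w, hw, by rw [q₂, one_smul, hw]⟩
    · obtain ⟨w', h3, h4⟩ := exists_adjust hB _ hc w
      exact ⟨w', (h3 c₁ s₁).trans hw, h4⟩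
  set S := (F ∙ c₁) ⊔ F ∙ c₂ with hS
  have dS : finrank F S ≤ 2 := by
    have := finrank_sup_span_le (F ∙ c₁) c₂
    have h4 : finrank F (F ∙ c₁) ≤ 1 := by simpa using finrank_span_le_card ({c₁} : Set V)
    rw [hS]
    omega
  have fin : ∀ (T : Submodule F V) (w z : V), z ∈ (pb Q).orthogonal T → ∀ x ∈ T,
      pb Q x (w + z) = pb Q x w := fun T w z hz x hx => by
    rw [map_add, show pb Q x z = 0 from hz x hx, add_zero]
  have S₁ : c₁ ∈ S := Submodule.mem_sup_left s₁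
  have S₂ : c₂ ∈ S := Submodule.mem_sup_right s₂
  by_cases r1 : finrank F (mvS t₁) = 1
  · obtain ⟨z, hz, hz'⟩ := exists_shift hB h8 S w₀ (by omega) (Or.inl (by omega))
    exact ⟨w₀ + z, hz', by rw [p₁, pb_comm, fin S w₀ z hz _ S₁, a₁, one_pow],
      by rw [p₂, pb_comm, fin S w₀ z hz _ S₂, a₂, one_pow], Or.inl r1⟩
  have hκ : ∀ (t : OG Q) (c : V), t * t = 1 → c ∈ mvS t → Q c = 1 → c ∈ S →
      3 ≤ finrank F (mvS t) → ∃ κ ∈ mvS t, Q κ = 0 ∧ κ ∉ S := by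
    intro t c ht hc hq hcS h3
    obtain ⟨x, hx, hx'⟩ := Set.not_subset.1 (show ¬mvS t ≤ S from fun h => by
      have := Submodule.finrank_mono h
      omega)
    obtain ⟨l, hl⟩ := exists_sq_two (Q x)
    refine ⟨x - l • c, sub_mem hx (Submodule.smul_mem _ _ hc), ?_, fun h => hx' ?_⟩
    · rw [Q_sub, Q_smul, hq, hl, pb_mv_mv ht hx (Submodule.smul_mem _ _ hc), mul_one, sub_zero,
        CharTwo.add_self_eq_zero]
    · simpa using add_mem h (S.smul_mem l hcS)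
  have h3 : 3 ≤ finrank F (mvS t₁) := by
    obtain ⟨k, hk⟩ := ho
    omega
  obtain ⟨κ₁, k₁, z₁, o₁⟩ := hκ t₁ c₁ h₁ m₁ q₁ S₁ h3
  obtain ⟨κ₂, k₂, z₂, o₂⟩ := hκ t₂ c₂ h₂ m₂ q₂ S₂ (hr ▸ h3)
  obtain ⟨w₁, b₁, b₂⟩ := exists_adjust hB S o₁ w₀
  have s₃ := Submodule.mem_span_singleton_self (R := F) κ₁
  have s₄ := Submodule.mem_span_singleton_self (R := F) κ₂
  obtain ⟨w₂, d₁, d₂⟩ : ∃ w, (∀ x ∈ S ⊔ F ∙ κ₁, pb Q x w = pb Q x w₁) ∧ pb Q κ₂ w ≠ 0 := by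
    by_cases hc : κ₂ ∈ S ⊔ F ∙ κ₁
    · refine ⟨w₁, fun _ _ => rfl, ?_⟩
      obtain ⟨s, hs, u, hu, e⟩ := Submodule.mem_sup.1 hc
      obtain ⟨x, hx, y, hy, rfl⟩ := Submodule.mem_sup.1 hs
      obtain ⟨β, rfl⟩ := Submodule.mem_span_singleton.1 hx
      obtain ⟨γ, rfl⟩ := Submodule.mem_span_singleton.1 hy
      obtain ⟨α, rfl⟩ := Submodule.mem_span_singleton.1 hu
      have hα : α ≠ 0 := by
        rintro rfl
        rw [zero_smul, add_zero] at e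
        exact o₂ (e ▸ hs)
      have e' : β • c₁ + α • κ₁ = κ₂ - γ • c₂ := by rw [← e]; abel
      have hq := congrArg Q e'
      rw [Q_add, Q_sub, Q_smul, Q_smul, Q_smul, q₁, q₂, z₁, z₂,
        pb_mv_mv h₁ (Submodule.smul_mem _ _ m₁) (Submodule.smul_mem _ _ k₁),
        pb_mv_mv h₂ k₂ (Submodule.smul_mem _ _ m₂)] at hq
      have hβ : β + γ = 0 := by
        apply pow_eq_zero_iff (two_ne_zero) |>.1
        rw [CharTwo.add_sq, ← CharTwo.sub_eq_add]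
        linear_combination hq
      rw [← e]
      simp only [map_add, map_smul, LinearMap.add_apply, LinearMap.smul_apply, smul_eq_mul,
        b₁ c₁ S₁, b₁ c₂ S₂, a₁, a₂, b₂, mul_one, hβ, zero_add]
      exact hα
    · obtain ⟨w, h4, h5⟩ := exists_adjust hB _ hc w₁
      exact ⟨w, h4, by rw [h5]; exact one_ne_zero⟩
  have e₁ : pb Q κ₁ w₂ = 1 := (d₁ κ₁ (Submodule.mem_sup_right s₃)).trans b₂
  have f₁ := finrank_sup_span_le S κ₁
  have f₂ := finrank_sup_span_le (S ⊔ F ∙ κ₁) κ₂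
  obtain ⟨z, hz, hz'⟩ := exists_shift hB h8 ((S ⊔ F ∙ κ₁) ⊔ F ∙ κ₂) w₂ (by omega)
    (Or.inr ⟨κ₁, Submodule.mem_sup_left (Submodule.mem_sup_right s₃), z₁,
      by rw [pb_comm, e₁]; exact one_ne_zero⟩)
  have g := fin _ w₂ z hz
  refine ⟨w₂ + z, hz', ?_, ?_, Or.inr ⟨⟨κ₁, k₁, z₁, ?_⟩, κ₂, k₂, z₂, ?_⟩⟩
  · rw [p₁, pb_comm, g _ (Submodule.mem_sup_left (Submodule.mem_sup_left S₁)),
      d₁ _ (Submodule.mem_sup_left S₁), b₁ _ S₁, a₁, one_pow]
  · rw [p₂, pb_comm, g _ (Submodule.mem_sup_left (Submodule.mem_sup_left S₂)),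
      d₁ _ (Submodule.mem_sup_left S₂), b₁ _ S₂, a₂, one_pow]
  · rw [g _ (Submodule.mem_sup_left (Submodule.mem_sup_right s₃)), e₁]
    exact one_ne_zero
  · rwa [g _ (Submodule.mem_sup_right s₄)]

theorem cm2_two (hB : (pb Q).Nondegenerate) (h8 : 8 ≤ finrank F V) {t₁ t₂ : OG Q}
    (h₁ : t₁ * t₁ = 1) (h₂ : t₂ * t₂ = 1) (n₁ : NA t₁) (n₂ : NA t₂)
    (hr : finrank F (mvS t₁) = finrank F (mvS t₂)) : Cm2 (t₁ * t₂) := by
  have hN : BigEnough F V := Or.inl (by omega)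
  rcases Nat.even_or_odd (finrank F (mvS t₁)) with he | ho
  · obtain ⟨g, hg, rfl⟩ := exists_conj_commutator hB hN
      (isConj_two hB h₁ h₂ (Or.inl n₁) (Or.inl n₂) hr) (fun h => by
        obtain ⟨y, hy, hy'⟩ := n₁
        exact hy' (h y (mvS_le_fxS_of_invol h₁ hy)))
    exact ⟨t₁, (mem_commutator_char_two hB hN _).2 he, g, hg, by
      rw [inv_eq_of_mul_eq_one_right h₁]; group⟩
  obtain ⟨w, hw, a₁, a₂, hκ⟩ := exists_test_vec hB h8 h₁ h₂ n₁ n₂ hr ho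
  have key : ∀ t : OG Q, t * t = 1 → pb Q w (t.1 w) = 1 →
      (finrank F (mvS t) = 1 ∨ ∃ κ ∈ mvS t, Q κ = 0 ∧ pb Q κ w ≠ 0) →
      Q (w - t.1 w) = 1 ∧ pb Q (w - t.1 w) w = 1 ∧ w ∈ fxS (t * refl Q (w - t.1 w)) ∧ w ∉ mvS t ∧
      (NA (t * refl Q (w - t.1 w)) ∨ t * refl Q (w - t.1 w) = 1) := by
    intro t ht a h
    have q : Q (w - t.1 w) = 1 := by rw [Q_sub_two, a]
    have q' : Q (w - t.1 w) ≠ 0 := by rw [q]; exact one_ne_zero
    have p : pb Q (w - t.1 w) w = 1 := by rw [pb_comm, ← Q_sub_apply, q]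
    refine ⟨q, p, ?_, fun h' => ?_, ?_⟩
    · rw [mem_fxS, OG_mul_apply, refl_apply, pb_comm, p, q, div_one, one_smul, sub_sub_cancel,
        ← OG_mul_apply, ht, OG_one_apply]
    · rw [pb_mv_mv ht (sub_mem_mvS t w) h'] at p
      exact zero_ne_one p
    · rcases h with h | ⟨κ, hκ, h1, h2⟩
      · have := finrank_mvS_mul_refl_of_mem t q' (sub_mem_mvS t w)
        exact Or.inr (eq_one_of_mvS_eq_bot (Submodule.finrank_eq_zero.1 (by omega)))
      · left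
        by_contra h3
        obtain ⟨y, rfl⟩ := mem_mvS.1 hκ
        have h4 := not_na_mul_refl ht (sub_mem_mvS t w) q' h3 y
        rw [← Q_sub_two, h1, zero_mul, map_sub, ← pb_invol ht] at h4
        rw [map_sub, LinearMap.sub_apply] at h2
        exact h2 (pow_eq_zero_iff two_ne_zero |>.1 h4.symm)
  obtain ⟨q₁, p₁, f₁, o₁, b₁⟩ := key t₁ h₁ a₁ (hκ.imp id And.left)
  obtain ⟨q₂, p₂, f₂, o₂, b₂⟩ := key t₂ h₂ a₂ (hκ.imp (hr ▸ ·) And.right)
  have u₁ := sub_mem_mvS t₁ w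
  have u₂ := sub_mem_mvS t₂ w
  generalize w - t₁.1 w = m₁ at *
  generalize w - t₂.1 w = m₂ at *
  have q₁' : Q m₁ ≠ 0 := by rw [q₁]; exact one_ne_zero
  have q₂' : Q m₂ ≠ 0 := by rw [q₂]; exact one_ne_zero
  have r₁ := finrank_mvS_mul_refl_of_mem t₁ q₁' u₁
  have r₂ := finrank_mvS_mul_refl_of_mem t₂ q₂' u₂
  obtain ⟨k₀, hk₀⟩ := isConj_iff.1 (isConj_two hB (invol_mul_refl h₁ u₁) (invol_mul_refl h₂ u₂)
    b₁ b₂ (by omega))
  have tr : ∀ (k s₁ s₂ : OG Q), k * s₁ * k⁻¹ = s₂ → ∀ x, k.1 x ∈ mvS s₂ ↔ x ∈ mvS s₁ := by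
    rintro k s₁ _ rfl x
    rw [mvS_conj]
    exact ⟨fun ⟨y, hy, e⟩ => k.1.injective e ▸ hy, fun h => ⟨x, h, rfl⟩⟩
  have l₁ := mvS_mul_refl_le t₁ u₁
  have l₂ := mvS_mul_refl_le t₂ u₂
  obtain ⟨g₁, hg₁, hg₁'⟩ := witt_step hB (mvS (t₂ * refl Q m₂)) (u := k₀.1 m₁) (w := m₂)
    (fun h => notMem_mvS_mul_refl t₁ q₁' u₁ ((tr _ _ _ hk₀ _).1 h)) (notMem_mvS_mul_refl t₂ q₂' u₂)
    (by rw [OG_Q, q₁, q₂]) (fun x hx => by
      rw [pb_mv_mv h₂ (l₂ hx) u₂, ← OG_apply_inv k₀ x, OG_pb,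
        pb_mv_mv h₁ (l₁ ((tr _ _ _ hk₀ _).1 (by rwa [OG_apply_inv]))) u₁])
  have hk₁' : g₁ * k₀ * (t₁ * refl Q m₁) * (g₁ * k₀)⁻¹ = t₂ * refl Q m₂ := by
    calc _ = g₁ * (k₀ * (t₁ * refl Q m₁) * k₀⁻¹) * g₁⁻¹ := by group
      _ = _ := by rw [hk₀, (commute_of_fix_mvS hB hg₁).eq, mul_inv_cancel_right]
  have hm : (g₁ * k₀).1 m₁ = m₂ := hg₁'
  generalize g₁ * k₀ = k₁ at hk₁' hm
  have hk₁ : k₁ * t₁ * k₁⁻¹ = t₂ := by
    apply mul_right_cancel (b := refl Q m₂)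
    rw [← hk₁', ← hm, ← conj_refl]
    group
  obtain ⟨g₂, hg₂, hg₂'⟩ := witt_step hB (mvS t₂) (u := k₁.1 w) (w := w)
    (fun h => o₁ ((tr _ _ _ hk₁ _).1 h)) o₂ (OG_Q _ _).symm (fun x hx => by
      have := mvS_mul_refl_of_notMem hB _ q₂' (notMem_mvS_mul_refl t₂ q₂' u₂)
      rw [mul_assoc, refl_mul_self, mul_one] at this
      rw [this] at hx
      obtain ⟨y, hy, z, hz, rfl⟩ := Submodule.mem_sup.1 hx
      obtain ⟨c, rfl⟩ := Submodule.mem_span_singleton.1 hz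
      have e1 : pb Q y (k₁.1 w) = 0 := by
        rw [← OG_apply_inv k₁ y, OG_pb, pb_comm]
        exact pb_fx_mv f₁ ((tr _ _ _ hk₁' _).1 (by rwa [OG_apply_inv]))
      have e2 : pb Q m₂ (k₁.1 w) = 1 := by rw [← hm, OG_pb, p₁]
      simp only [map_add, map_smul, LinearMap.add_apply, LinearMap.smul_apply, e1, e2, p₂,
        (pb_comm Q y w).trans (pb_fx_mv f₂ hy)])
  obtain ⟨y, hy, hy', hy''⟩ : ∃ y ∈ fxS t₁, pb Q w y = 0 ∧ Q y ≠ 0 := by
    rcases b₁ with ⟨y, hy, hy'⟩ | b₁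
    · exact ⟨y, mvS_le_fxS_of_invol h₁ (l₁ hy), pb_fx_mv f₁ hy, hy'⟩
    · rw [b₁, mvS_one, finrank_bot] at r₁
      have h4 := finrank_map_le_succ (fxS t₁) (pb Q w) LinearMap.id
      rw [Submodule.map_id, Submodule.map_id] at h4
      have h5 := finrank_mvS_add t₁
      obtain ⟨y, hy, hy'⟩ := (nondegSub_top hB).exists_ne hB
        (le_top : fxS t₁ ⊓ LinearMap.ker (pb Q w) ≤ ⊤) (by rw [finrank_top]; omega)
      exact ⟨y, hy.1, hy.2, hy'⟩
  have := cm2_of_univ hB hN t₁ (g₂ * k₁) (univ_line hw) (univ_line hy'') (by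
      rintro _ ⟨c, rfl⟩
      rw [map_smul, OG_mul_apply, hg₂'])
    (by
      rintro _ ⟨c, rfl⟩
      rw [map_smul, mem_fxS.1 hy])
    (by
      rintro _ ⟨c, rfl⟩ _ ⟨d, rfl⟩
      simp [hy'])
  rwa [inv_eq_of_mul_eq_one_right h₁, show t₁ * (g₂ * k₁) * t₁ * (g₂ * k₁)⁻¹ = t₁ * t₂ by
    calc _ = t₁ * (g₂ * (k₁ * t₁ * k₁⁻¹) * g₂⁻¹) := by group
      _ = _ := by rw [hk₁, (commute_of_fix_mvS hB hg₂).eq, mul_inv_cancel_right]] at this

end Cfsg.Agent.H6
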