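import Cfsg.Agent.H6.OreO3

/-! Factorizations of an isometry into two involutions: the basic pieces. -/

set_option autoImplicit false
open Module Polynomial

namespace Cfsg.Agent.H6

variable {F V A : Type*} [Field F] [AddCommGroup V] [Module F V] [CommRing A] [Algebra F A]
  [Module A V] [IsScalarTower F A V] {Q : QuadraticForm F V}

/-- A cyclic algebra of operators generated by an isometry `x`, with its adjoint involution. -/
structure Cx (Q : QuadraticForm F V) (x xi : A) (st : A →ₐ[F] A) : Prop where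
  mul : x * xi = 1
  st_x : st x = xi
  st_xi : st xi = x
  surj : ∀ a : A, ∃ p : F[X], aeval x p = a
  Q_x : ∀ v, Q (x • v) = Q v
  tors : ∃ f : F[X], f ≠ 0 ∧ aeval x f = 0

variable {x xi : A} {st : A →ₐ[F] A}

theorem pb_alg_left (c : F) (u v : V) : pb Q (algebraMap F A c • u) v = c * pb Q u v := by
  rw [algebraMap_smul, map_smul, LinearMap.smul_apply, smul_eq_mul]

theorem pb_alg_right (c : F) (u v : V) : pb Q u (algebraMap F A c • v) = c * pb Q u v := by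
  rw [algebraMap_smul, map_smul, smul_eq_mul]

omit [Algebra F A] [IsScalarTower F A V] in
theorem pb_add_left (u u' v : V) : pb Q (u + u') v = pb Q u v + pb Q u' v := by
  rw [map_add, LinearMap.add_apply]

omit [Algebra F A] [IsScalarTower F A V] in
theorem pb_sub_left (u u' v : V) : pb Q (u - u') v = pb Q u v - pb Q u' v := by
  rw [map_sub, LinearMap.sub_apply]

namespace Cx

variable (h : Cx Q x xi st)
include h

omit [IsScalarTower F A V] in
theorem ind {P : A → Prop} (h0 : ∀ c, P (algebraMap F A c)) (h1 : ∀ a b, P a → P b → P (a + b))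
    (h2 : ∀ a, P a → P (x * a)) (a : A) : P a := by
  obtain ⟨p, rfl⟩ := h.surj a
  induction p using Polynomial.induction_on with
  | C c => rw [aeval_C]; exact h0 c
  | add p r hp hr => rw [map_add]; exact h1 _ _ hp hr
  | monomial k c hk =>
    rw [pow_succ, ← mul_assoc, map_mul, aeval_X, mul_comm]
    exact h2 _ hk

omit [IsScalarTower F A V] in
theorem pb_x (u v : V) : pb Q (x • u) (x • v) = pb Q u v := by
  rw [pb_def, pb_def, ← smul_add, h.Q_x, h.Q_x, h.Q_x]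

omit [IsScalarTower F A V] in
theorem x_xi (v : V) : x • xi • v = v := by rw [smul_smul, h.mul, one_smul]

omit [IsScalarTower F A V] in
theorem xi_x (v : V) : xi • x • v = v := by rw [smul_smul, mul_comm, h.mul, one_smul]

theorem adj (a : A) : ∀ u v : V, pb Q (a • u) v = pb Q u (st a • v) := by
  refine h.ind (P := fun a => ∀ u v : V, pb Q (a • u) v = pb Q u (st a • v)) (fun c u v => ?_)
    (fun a b ha hb u v => ?_) (fun a ha u v => ?_) a
  · rw [AlgHom.commutes, pb_alg_left, pb_alg_right]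
  · rw [map_add, add_smul, add_smul, pb_add_left, map_add, ha, hb]
  · rw [map_mul, h.st_x, mul_smul, mul_comm, mul_smul, ← ha, ← h.pb_x (a • u), h.x_xi]

omit [IsScalarTower F A V] in
theorem st_st (a : A) : st (st a) = a := by
  refine h.ind (P := fun a => st (st a) = a) (fun c => by simp) (fun a b ha hb => ?_)
    (fun a ha => ?_) a
  · rw [map_add, map_add, ha, hb]
  · rw [map_mul, map_mul, ha, h.st_x, h.st_xi]

theorem adj' (a : A) (u v : V) : pb Q u (a • v) = pb Q (st a • u) v := by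
  rw [h.adj, h.st_st]

theorem phi_st (a : A) (u : V) : pb Q u (st a • u) = pb Q u (a • u) := by
  rw [← h.adj, pb_comm]

omit [IsScalarTower F A V] in
theorem neg : Cx Q (-x) (-xi) st where
  mul := by rw [neg_mul_neg, h.mul]
  st_x := by rw [map_neg, h.st_x]
  st_xi := by rw [map_neg, h.st_xi]
  surj a := by
    obtain ⟨p, rfl⟩ := h.surj a
    exact ⟨p.comp (-X), by rw [aeval_comp]; simp⟩
  Q_x v := by rw [neg_smul, Q_neg, h.Q_x]
  tors := by
    obtain ⟨f, hf, hf'⟩ := h.tors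
    refine ⟨f.comp (-X), fun e => hf ?_, by rw [aeval_comp]; simpa using hf'⟩
    have := congrArg (fun p => p.comp (-X)) e
    simpa [comp_assoc] using this

omit [IsScalarTower F A V] in
theorem surj' (a : A) : ∃ p : F[X], aeval xi p = a := by
  obtain ⟨p, hp⟩ := h.surj (st a)
  exact ⟨p, by rw [← h.st_x, aeval_algHom_apply, hp, h.st_st]⟩

omit [IsScalarTower F A V] in
theorem exists_val (ε : F) (a : A) :
    ∃ (c : F) (b : A), a = algebraMap F A c + (x - algebraMap F A ε) * b := by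
  obtain ⟨p, rfl⟩ := h.surj a
  refine ⟨p.eval ε, aeval x (p /ₘ (X - C ε)), ?_⟩
  conv_lhs => rw [← modByMonic_add_div p (X - C ε), modByMonic_X_sub_C_eq_C_eval]
  simp

theorem Q_swap {v w : V} (hφ : ∀ r : A, pb Q v (r • v) = pb Q w (r • w)) (hQ : Q v = Q w) (a : A) :
    Q (a • v) = Q (st a • w) := by
  refine h.ind (P := fun a => Q (a • v) = Q (st a • w)) (fun c => ?_) (fun a b ha hb => ?_)
    (fun a ha => ?_) a
  · rw [AlgHom.commutes, algebraMap_smul, algebraMap_smul, Q_smul, Q_smul, hQ]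
  · rw [map_add, add_smul, add_smul, Q_add, Q_add, ha, hb, h.adj, h.adj, smul_smul, smul_smul, hφ,
      ← h.phi_st, map_mul]
  · rw [map_mul, mul_smul, mul_smul, h.Q_x, h.st_x, ← h.Q_x (xi • _), h.x_xi, ha]

/-- The orthogonal complement of a submodule. -/
def prp (W : Submodule A V) : Submodule A V where
  carrier := {v | ∀ w ∈ W, pb Q w v = 0}
  add_mem' := fun {a b} ha hb w hw => by rw [map_add, ha w hw, hb w hw, add_zero]
  zero_mem' := fun w _ => map_zero _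
  smul_mem' := fun a v hv w hw => by rw [h.adj']; exact hv _ (W.smul_mem _ hw)

end Cx

/-- A factorization of `x` on `W` into two involutions supported on `W`. -/
structure Dec (x : A) (W : Submodule A V) (t₁ t₂ : OG Q) : Prop where
  i₁ : t₁ * t₁ = 1
  i₂ : t₂ * t₂ = 1
  m₁ : mvS t₁ ≤ W.restrictScalars F
  m₂ : mvS t₂ ≤ W.restrictScalars F
  eq : ∀ v ∈ W, t₁.1 (t₂.1 v) = x • v

theorem Dec.swap {W : Submodule A V} {t₁ t₂ : OG Q} (h : Dec x W t₁ t₂) :
    Dec x W t₂ (t₂ * t₁ * t₂⁻¹) where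
  i₁ := h.i₂
  i₂ := invol_conj h.i₁ _
  m₁ := h.m₂
  m₂ := (mvS_mul_le _ _).trans (sup_le ((mvS_mul_le _ _).trans (sup_le h.m₂ h.m₁))
    ((mvS_inv_le _).trans h.m₂))
  eq v hv := by
    rw [← OG_mul_apply, ← mul_assoc, ← mul_assoc, h.i₂, one_mul, inv_eq_of_mul_eq_one_right h.i₂]
    exact h.eq v hv

theorem Dec.two {W : Submodule A V} {t₁ t₂ : OG Q} (h : Dec x W t₁ t₂) {v : V} (hv : v ∈ W) :
    t₂.1 v = t₁.1 (x • v) := by
  rw [← h.eq v hv, ← OG_mul_apply, ← OG_mul_apply, h.i₁, one_mul]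

theorem NA.conj {t : OG Q} (h : NA t) (g : OG Q) : NA (g * t * g⁻¹) := by
  obtain ⟨y, hy, hy'⟩ := h
  exact ⟨g.1 y, by rw [mvS_conj]; exact ⟨y, hy, rfl⟩, by rwa [OG_Q]⟩

theorem apply_mem_of_mvS_le {t : OG Q} {W : Submodule F V} (h : mvS t ≤ W) {v : V} (hv : v ∈ W) :
    t.1 v ∈ W := by
  simpa using sub_mem hv (h (sub_mem_mvS t v))

variable [FiniteDimensional F V]

theorem fix_of_orth (hB : (pb Q).Nondegenerate) {t : OG Q} {W : Submodule F V} (h : mvS t ≤ W)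
    {v : V} (hv : ∀ w ∈ W, pb Q w v = 0) : t.1 v = v := by
  rw [← mem_fxS, ← orth_mvS hB]
  exact fun y hy => hv y (h hy)

theorem mvS_glue (hB : (pb Q).Nondegenerate) {s t : OG Q} {W₁ W₂ : Submodule F V}
    (hs : mvS s ≤ W₁) (ht : mvS t ≤ W₂) (h₁ : NondegSub Q W₁)
    (ho : ∀ a ∈ W₁, ∀ b ∈ W₂, pb Q a b = 0) :
    Commute s t ∧ mvS (s * t) = mvS s ⊔ mvS t ∧
      finrank F (mvS (s * t)) = finrank F (mvS s) + finrank F (mvS t) := by
  have a1 : ∀ v, s.1 (v - t.1 v) = v - t.1 v := fun v =>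
    fix_of_orth hB hs fun w hw => ho w hw _ (ht (sub_mem_mvS t v))
  have hd : Disjoint (mvS s) (mvS t) := Submodule.disjoint_def.2 fun y hy hy' =>
    h₁ y (hs hy) fun z hz => (pb_comm Q _ _).trans (ho z hz y (ht hy'))
  have e : mvS (s * t) = mvS s ⊔ mvS t := by
    rw [← orth_fxS hB (s * t), ← LinearMap.BilinForm.orthogonal_orthogonal hB (pb_isRefl Q)
      (mvS s ⊔ mvS t), orth_sup, orth_mvS hB, orth_mvS hB]
    congr 1
    ext v
    have a2 := a1 v
    rw [map_sub] at a2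
    rw [Submodule.mem_inf, mem_fxS, mem_fxS, mem_fxS, OG_mul_apply]
    refine ⟨fun h => ?_, fun h => by rw [h.2, h.1]⟩
    have a3 : v - s.1 v = -(v - t.1 v) := by linear_combination (norm := module) -a2 - h
    have a4 := Submodule.disjoint_def.1 hd _ (sub_mem_mvS s v) (a3 ▸ neg_mem (sub_mem_mvS t v))
    rw [a4, zero_eq_neg] at a3
    exact ⟨(sub_eq_zero.1 a4).symm, (sub_eq_zero.1 a3).symm⟩
  refine ⟨commute_of_fix_mvS hB fun y hy => ?_, e, ?_⟩
  · obtain ⟨v, rfl⟩ := mem_mvS.1 hy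
    exact a1 v
  · have := Submodule.finrank_sup_add_finrank_inf_eq (mvS s) (mvS t)
    rw [hd.eq_bot, finrank_bot] at this
    rw [e, ← this, add_zero]

theorem Dec.glue (hB : (pb Q).Nondegenerate) {W₁ W₂ : Submodule A V} {s₁ s₂ t₁ t₂ : OG Q}
    (hs : Dec x W₁ s₁ s₂) (ht : Dec x W₂ t₁ t₂) (h₁ : NondegSub Q (W₁.restrictScalars F))
    (ho : ∀ a ∈ W₁, ∀ b ∈ W₂, pb Q a b = 0) :
    Dec x (W₁ ⊔ W₂) (s₁ * t₁) (s₂ * t₂) ∧
      finrank F (mvS (s₁ * t₁)) = finrank F (mvS s₁) + finrank F (mvS t₁) ∧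
      finrank F (mvS (s₂ * t₂)) = finrank F (mvS s₂) + finrank F (mvS t₂) ∧
      (NA s₁ ∨ NA t₁ → NA (s₁ * t₁)) ∧ (NA s₂ ∨ NA t₂ → NA (s₂ * t₂)) := by
  obtain ⟨c₁, e₁, r₁⟩ := mvS_glue hB hs.m₁ ht.m₁ h₁ ho
  obtain ⟨c₂, e₂, r₂⟩ := mvS_glue hB hs.m₂ ht.m₂ h₁ ho
  have l₁ : W₁.restrictScalars F ≤ (W₁ ⊔ W₂).restrictScalars F := (le_sup_left : W₁ ≤ W₁ ⊔ W₂)
  have l₂ : W₂.restrictScalars F ≤ (W₁ ⊔ W₂).restrictScalars F := (le_sup_right : W₂ ≤ W₁ ⊔ W₂)
  have na : ∀ s t : OG Q, mvS (s * t) = mvS s ⊔ mvS t → NA s ∨ NA t → NA (s * t) := by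
    rintro s t e (⟨y, hy, hy'⟩ | ⟨y, hy, hy'⟩)
    · exact ⟨y, e ▸ Submodule.mem_sup_left hy, hy'⟩
    · exact ⟨y, e ▸ Submodule.mem_sup_right hy, hy'⟩
  refine ⟨⟨?_, ?_, ?_, ?_, fun v hv => ?_⟩, r₁, r₂, na _ _ e₁, na _ _ e₂⟩
  · rw [c₁.symm.mul_mul_mul_comm, hs.i₁, ht.i₁, mul_one]
  · rw [c₂.symm.mul_mul_mul_comm, hs.i₂, ht.i₂, mul_one]
  · rw [e₁]
    exact sup_le (hs.m₁.trans l₁) (ht.m₁.trans l₂)
  · rw [e₂]
    exact sup_le (hs.m₂.trans l₁) (ht.m₂.trans l₂)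
  · obtain ⟨a, ha, b, hb, rfl⟩ := Submodule.mem_sup.1 hv
    have f₁ : ∀ t : OG Q, mvS t ≤ W₂.restrictScalars F → ∀ a ∈ W₁, t.1 a = a := fun t ht a ha =>
      fix_of_orth hB ht fun w hw => (pb_comm Q _ _).trans (ho a ha w hw)
    have f₂ : ∀ s : OG Q, mvS s ≤ W₁.restrictScalars F → ∀ b ∈ W₂, s.1 b = b := fun s hs b hb =>
      fix_of_orth hB hs fun w hw => ho w hw b hb
    have g₁ := apply_mem_of_mvS_le hs.m₂ ha
    have g₂ := apply_mem_of_mvS_le ht.m₂ hb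
    simp only [OG_mul_apply, map_add, smul_add]
    rw [f₁ t₂ ht.m₂ a ha, f₁ t₁ ht.m₁ _ g₁, hs.eq a ha, f₂ s₂ hs.m₂ _ g₂,
      f₂ s₁ hs.m₁ _ (apply_mem_of_mvS_le ht.m₁ g₂), ht.eq b hb]

theorem exists_isom (hB : (pb Q).Nondegenerate) {Z : Type*} [AddCommGroup Z] [Module F Z]
    (Φ Ψ : Z →ₗ[F] V) {N : Submodule F V} (hN : NondegSub Q N) (h₁ : LinearMap.range Φ = N)
    (h₂ : LinearMap.range Ψ = N) (hQ : ∀ z, Q (Ψ z) = Q (Φ z)) :
    ∃ τ : OG Q, (∀ z, τ.1 (Φ z) = Ψ z) ∧ mvS τ ≤ N := by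
  set O := (pb Q).orthogonal N with hO
  have hs : ∀ Θ : Z →ₗ[F] V, LinearMap.range Θ = N → LinearMap.range (Θ.coprod O.subtype) = ⊤ :=
    fun Θ h => by rw [LinearMap.range_coprod, h, Submodule.range_subtype, (hN.isCompl hB).sup_eq_top]
  have hQ' : ∀ z, Q (Ψ.coprod O.subtype z) = Q (Φ.coprod O.subtype z) := by
    rintro ⟨z, y⟩
    have a1 : pb Q (Φ z) y = 0 := y.2 _ (h₁ ▸ LinearMap.mem_range_self Φ z)
    have a2 : pb Q (Ψ z) y = 0 := y.2 _ (h₂ ▸ LinearMap.mem_range_self Ψ z)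
    simp only [LinearMap.coprod_apply, Submodule.subtype_apply, Q_add, hQ, a1, a2]
  obtain ⟨σ, hσ⟩ := (Φ.coprod O.subtype).exists_rightInverse_of_surjective (hs Φ h₁)
  have hσ' : ∀ v, Φ.coprod O.subtype (σ v) = v := LinearMap.congr_fun hσ
  have key : ∀ z, (mkOG hB (Ψ.coprod O.subtype ∘ₗ σ) fun v => by
      rw [LinearMap.comp_apply, hQ', hσ']).1 (Φ.coprod O.subtype z) = Ψ.coprod O.subtype z := by
    intro z
    rw [mkOG_apply, LinearMap.comp_apply, ← sub_eq_zero, ← map_sub]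
    refine hB.1 _ fun y => ?_
    obtain ⟨z', rfl⟩ := LinearMap.range_eq_top.1 (hs Ψ h₂) y
    rw [pb_def, ← map_add, hQ', hQ', hQ', map_add, ← pb_def, map_sub, hσ', sub_self, map_zero,
      LinearMap.zero_apply]
  refine ⟨_, fun z => by simpa using key (z, 0), ?_⟩
  rw [← orth_fxS hB, ← LinearMap.BilinForm.orthogonal_orthogonal hB (pb_isRefl Q) N]
  exact LinearMap.BilinForm.orthogonal_le fun y hy => mem_fxS.2 (by simpa using key (0, ⟨y, hy⟩))

omit [FiniteDimensional F V] in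
theorem OG_ext_on {N : Submodule F V} (hN : NondegSub Q N) {g : OG Q}
    (hg : mvS g ≤ N) (h : ∀ v ∈ N, g.1 v = v) : g = 1 := by
  refine eq_one_of_mvS_eq_bot (eq_bot_iff.2 fun y hy => hN y (hg hy) fun z hz => ?_)
  rw [pb_comm]
  exact pb_fx_mv (mem_fxS.2 (h z hz)) hy

theorem Cx.piece (h : Cx Q x xi st) (hB : (pb Q).Nondegenerate) {v w : V}
    (hφ : ∀ r : A, pb Q v (r • v) = pb Q w (r • w)) (hQ : Q v = Q w)
    (hN : NondegSub Q ((Submodule.span A {v, w}).restrictScalars F)) :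
    ∃ t₁ t₂ : OG Q, Dec x (Submodule.span A {v, w}) t₁ t₂ ∧ (∀ a : A, t₁.1 (a • v) = st a • w) ∧
      ∀ a : A, t₁.1 (a • w) = st a • v := by
  let L : V → A →ₗ[F] V := fun y => (LinearMap.toSpanSingleton A V y).restrictScalars F
  have key : ∀ c ci : A, c * ci = 1 → (∀ y, Q (c • y) = Q y) →
      ∃ τ : OG Q, (∀ a b : A, τ.1 (a • v + b • w) = c • (st a • w + st b • v)) ∧
        mvS τ ≤ (Submodule.span A {v, w}).restrictScalars F := by
    intro c ci hc hc'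
    obtain ⟨τ, h1, h2⟩ := exists_isom hB ((L v).coprod (L w))
      ((L (c • w) ∘ₗ st.toLinearMap).coprod (L (c • v) ∘ₗ st.toLinearMap)) hN (by
        ext y
        rw [Submodule.restrictScalars_mem, Submodule.mem_span_pair]
        exact ⟨fun ⟨z, hz⟩ => ⟨z.1, z.2, hz⟩, fun ⟨a, b, e⟩ => ⟨(a, b), e⟩⟩) (by
        ext y
        rw [Submodule.restrictScalars_mem, Submodule.mem_span_pair]
        refine ⟨fun ⟨z, hz⟩ => ⟨st z.2 * c, st z.1 * c, ?_⟩,
          fun ⟨a, b, e⟩ => ⟨(st (b * ci), st (a * ci)), ?_⟩⟩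
        · rw [← hz, mul_smul, mul_smul, add_comm]
          rfl
        · change st (st _) • c • w + st (st _) • c • v = y
          rw [h.st_st, h.st_st, smul_smul, smul_smul, mul_assoc, mul_assoc, mul_comm ci, hc,
            mul_one, mul_one, add_comm, e]) (by
        rintro ⟨a, b⟩
        change Q (st a • c • w + st b • c • v) = Q (a • v + b • w)
        rw [smul_comm, smul_comm (st b), ← smul_add, hc', Q_add, Q_add, h.Q_swap hφ hQ a,
          h.Q_swap (fun r => (hφ r).symm) hQ.symm b, h.adj, h.adj, h.st_st, pb_comm Q w, h.adj,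
          h.adj, h.st_st, smul_smul, smul_smul, mul_comm])
    refine ⟨τ, fun a b => (h1 (a, b)).trans ?_, h2⟩
    change st a • c • w + st b • c • v = _
    rw [smul_comm, smul_comm (st b), ← smul_add]
  obtain ⟨t₁, a₁, b₁⟩ := key 1 1 (mul_one _) (fun y => by rw [one_smul])
  obtain ⟨t₂, a₂, b₂⟩ := key xi x (by rw [mul_comm, h.mul]) (fun y => by rw [← h.Q_x, h.x_xi])
  simp only [one_smul] at a₁
  have a₃ : ∀ a b : A, t₂.1 (a • v + b • w) = (xi * st b) • v + (xi * st a) • w := fun a b => by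
    rw [a₂, smul_add, smul_smul, smul_smul, add_comm]
  refine ⟨t₁, t₂, ⟨OG_ext_on hN ((mvS_mul_le _ _).trans (sup_le b₁ b₁)) fun y hy => ?_,
    OG_ext_on hN ((mvS_mul_le _ _).trans (sup_le b₂ b₂)) fun y hy => ?_, b₁, b₂,
    fun y hy => ?_⟩, fun a => by simpa using a₁ a 0, fun a => by simpa using a₁ 0 a⟩
  · obtain ⟨a, b, rfl⟩ := Submodule.mem_span_pair.1 hy
    rw [OG_mul_apply, a₁, add_comm, a₁, h.st_st, h.st_st, add_comm]
  · obtain ⟨a, b, rfl⟩ := Submodule.mem_span_pair.1 hy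
    rw [OG_mul_apply, a₃, a₃, map_mul, map_mul, h.st_st, h.st_st, h.st_xi, ← mul_assoc,
      ← mul_assoc, mul_comm xi, h.mul, one_mul, one_mul]
  · obtain ⟨a, b, rfl⟩ := Submodule.mem_span_pair.1 hy
    rw [a₃, a₁, map_mul, map_mul, h.st_st, h.st_st, h.st_xi, smul_add, smul_smul, smul_smul,
      add_comm]

theorem finrank_fx_inf (hB : (pb Q).Nondegenerate) {t : OG Q} {W : Submodule F V}
    (hW : NondegSub Q W) (ht : mvS t ≤ W) :
    finrank F (mvS t) + finrank F ↥(fxS t ⊓ W) = finrank F W := by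
  have h1 := Submodule.finrank_sup_add_finrank_inf_eq (fxS t) W
  have h2 : fxS t ⊔ W = ⊤ := by
    rw [eq_top_iff, ← (hW.isCompl hB).sup_eq_top, sup_comm]
    exact sup_le_sup_right (fun y hy => mem_fxS.2 (fix_of_orth hB ht hy)) _
  rw [h2, finrank_top] at h1
  have := finrank_mvS_add t
  omega

theorem finrank_le_map_add (U K : Submodule F V) (f : V →ₗ[F] V) (h : ∀ y ∈ U, f y = 0 → y ∈ K) :
    finrank F U ≤ finrank F (U.map f) + finrank F K := by
  have h1 := LinearMap.finrank_range_add_finrank_ker (f.domRestrict U)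
  rw [LinearMap.range_domRestrict] at h1
  have h2 : (LinearMap.ker (f.domRestrict U)).map U.subtype ≤ K := by
    rintro _ ⟨y, hy, rfl⟩
    exact h _ y.2 hy
  have h3 := Submodule.finrank_mono h2
  rw [Submodule.finrank_map_subtype_eq] at h3
  omega

theorem rank_cmp (hB : (pb Q).Nondegenerate) {s₁ s₂ : OG Q} {W : Submodule F V} (K : Submodule F V)
    (hW : NondegSub Q W) (i₁ : s₁ * s₁ = 1) (m₁ : mvS s₁ ≤ W) (m₂ : mvS s₂ ≤ W)
    (hK : ∀ y ∈ W, s₂.1 y = y → s₁.1 y = -y → y ∈ K) :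
    finrank F (mvS s₁) ≤ finrank F (mvS s₂) + finrank F K ∧
      ∀ v ∈ W, s₁.1 v = v → (∀ y ∈ W, s₂.1 y = y → y + s₁.1 y ≠ v) →
        finrank F (mvS s₁) + 1 ≤ finrank F (mvS s₂) + finrank F K := by
  have h1 := finrank_fx_inf hB hW m₁
  have h2 := finrank_fx_inf hB hW m₂
  have h3 := finrank_le_map_add (fxS s₂ ⊓ W) K (LinearMap.id + (s₁.1 : V →ₗ[F] V))
    (fun y hy h => hK y hy.2 (mem_fxS.1 hy.1) (eq_neg_of_add_eq_zero_right h))
  have h4 : (fxS s₂ ⊓ W).map (LinearMap.id + (s₁.1 : V →ₗ[F] V)) ≤ fxS s₁ ⊓ W := by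
    rintro _ ⟨y, hy, rfl⟩
    change y + s₁.1 y ∈ _
    refine ⟨mem_fxS.2 ?_, add_mem hy.2 (apply_mem_of_mvS_le m₁ hy.2)⟩
    rw [map_add, ← OG_mul_apply, i₁, OG_one_apply, add_comm]
  have h5 := Submodule.finrank_mono h4
  refine ⟨by omega, fun v hv hv' hn => ?_⟩
  have h6 := Submodule.finrank_lt_finrank_of_lt (lt_of_le_of_ne h4 fun e => by
    obtain ⟨y, hy, e'⟩ : v ∈ (fxS s₂ ⊓ W).map (LinearMap.id + (s₁.1 : V →ₗ[F] V)) :=
      e ▸ ⟨mem_fxS.2 hv', hv⟩
    exact hn y hy.2 (mem_fxS.1 hy.1) e')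
  omega

theorem rank_half (hB : (pb Q).Nondegenerate) {t : OG Q} {U U' W : Submodule F V}
    (hW : NondegSub Q W) (ht : t * t = 1) (m : mvS t ≤ W) (hU : U ≤ W) (hs : W ≤ U ⊔ U')
    (hd : Disjoint U U') (hm : ∀ y ∈ U, t.1 y ∈ U') (hm' : ∀ y ∈ U', t.1 y ∈ U) :
    finrank F (mvS t) = finrank F U := by
  have h1 := finrank_fx_inf hB hW m
  have z : ∀ y ∈ U, y ∈ U' → y ∈ (⊥ : Submodule F V) := Submodule.disjoint_def.1 hd
  have h2 := finrank_le_map_add U ⊥ (omg t) fun y hy h => z y hy (by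
    rw [omg_apply, sub_eq_zero] at h
    exact h ▸ hm y hy)
  have h3 := finrank_le_map_add U ⊥ (LinearMap.id + (t.1 : V →ₗ[F] V)) fun y hy h => z y hy (by
    rw [show y = -t.1 y from eq_neg_of_add_eq_zero_left h]
    exact neg_mem (hm y hy))
  have h4 : U.map (omg t) ≤ mvS t := by
    rintro _ ⟨y, -, rfl⟩
    exact sub_mem_mvS t y
  have h5 : U.map (LinearMap.id + (t.1 : V →ₗ[F] V)) ≤ fxS t ⊓ W := by
    rintro _ ⟨y, hy, rfl⟩
    change y + t.1 y ∈ _
    refine ⟨mem_fxS.2 ?_, add_mem (hU hy) (apply_mem_of_mvS_le m (hU hy))⟩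
    rw [map_add, ← OG_mul_apply, ht, OG_one_apply, add_comm]
  have h6 : U'.map (t.1 : V →ₗ[F] V) ≤ U := by
    rintro _ ⟨y, hy, rfl⟩
    exact hm' y hy
  have h7 := Submodule.finrank_mono h4
  have h8 := Submodule.finrank_mono h5
  have h9 := Submodule.finrank_mono h6
  have h10 := Submodule.finrank_mono hs
  have h11 := Submodule.finrank_add_le_finrank_add_finrank U U'
  rw [LinearEquiv.finrank_map_eq] at h9
  rw [finrank_bot] at h2 h3
  omega

end Cfsg.Agent.H6
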