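import Cfsg.Agent.H6.OreO4

/-! Existence of an invariant piece of one of four kinds. -/

set_option autoImplicit false
open Module Polynomial

namespace Cfsg.Agent.H6

variable {F V A : Type*} [Field F] [AddCommGroup V] [Module F V] [CommRing A] [Algebra F A]
  [Module A V] [IsScalarTower F A V] {Q : QuadraticForm F V}

/-- A pair of dual totally singular cyclic submodules. -/
structure IsoP (Q : QuadraticForm F V) (xi : A) (v w : V) : Prop where
  iv : ∀ r : A, pb Q v (r • v) = 0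
  iw : ∀ r : A, pb Q w (r • w) = 0
  qv : Q v = 0
  qw : Q w = 0
  nd : NondegSub Q ((Submodule.span A {v, w}).restrictScalars F)
  ne : v ≠ 0
  inv : ∃ c : A, (c * (xi - 1)) • w = w

/-- A nondegenerate primary cyclic submodule without the eigenvalue `-1`. -/
structure CycP (Q : QuadraticForm F V) (x : A) (st : A →ₐ[F] A) (P : A) (k : ℕ) (v : V) : Prop where
  nd : NondegSub Q ((Submodule.span A {v}).restrictScalars F)
  inj : ∀ a : A, (x + 1) • a • v = 0 → a • v = 0
  nil : P ^ (k + 1) • v = 0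
  top : P ^ k • v ≠ 0
  adj : ∃ u, st P = P * u
  irr : ∃ p : F[X], Irreducible p ∧ aeval x p = P

/-- A nondegenerate Jordan block for the eigenvalue `-1`. -/
structure CycU (Q : QuadraticForm F V) (x : A) (k : ℕ) (v : V) : Prop where
  nil : (x + 1) ^ (k + 1) • v = 0
  top : pb Q v ((x + 1) ^ k • v) ≠ 0

/-- A nondegenerate unipotent submodule whose top form is alternating. -/
structure AltS (Q : QuadraticForm F V) (x : A) (k : ℕ) (S : Submodule A V) : Prop where
  nd : NondegSub Q (S.restrictScalars F)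
  nil : ∀ y ∈ S, (x - 1) ^ (k + 1) • y = 0
  ne : ∃ y ∈ S, (x - 1) ^ k • y ≠ 0
  alt : ∀ y ∈ S, pb Q y ((x - 1) ^ k • y) = 0

variable {x xi : A} {st : A →ₐ[F] A}

omit [Module F V] [IsScalarTower F A V] in
theorem exists_mul_eq_socle {y : A} (hs : ∀ a : A, ∃ p : F[X], aeval y p = a) {p : F[X]}
    (hp : Irreducible p) {k : ℕ} {v : V} (hv : aeval y p ^ (k + 1) • v = 0) (a : A)
    (ha : a • v ≠ 0) : ∃ b : A, (b * a) • v = aeval y p ^ k • v := by
  obtain ⟨f, rfl⟩ := hs a
  obtain ⟨j, g, hg, rfl⟩ := WfDvdMonoid.max_power_factor (a₀ := f) (by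
    rintro rfl
    simp at ha) hp
  obtain ⟨i, rfl⟩ : ∃ i, k = j + i := by
    refine Nat.exists_eq_add_of_le (not_lt.1 fun hj => ha ?_)
    obtain ⟨i, rfl⟩ := Nat.exists_eq_add_of_le (Nat.succ_le_of_lt hj)
    rw [map_mul, map_pow, pow_add, mul_assoc, mul_comm, mul_smul, hv, smul_zero]
  obtain ⟨u, z, huz⟩ := ((hp.isCoprime_or_dvd g).resolve_right hg).pow_left (m := j + i + 1)
  have h1 := congrArg (aeval y) huz
  rw [map_add, map_mul, map_mul, map_pow, map_one] at h1
  refine ⟨aeval y z * aeval y p ^ i, ?_⟩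
  rw [map_mul, map_pow, show aeval y z * aeval y p ^ i * (aeval y p ^ j * aeval y g) =
    aeval y p ^ (j + i) - (aeval y u * aeval y p ^ (j + i)) * aeval y p ^ (j + i + 1) by
      linear_combination aeval y p ^ (j + i) * h1, sub_smul, mul_smul, hv, smul_zero, sub_zero]

omit [Module F V] [IsScalarTower F A V] in
theorem exists_irr_ker (W : Submodule A V) (f : F[X]) : f ≠ 0 → ∀ y ∈ W, y ≠ 0 →
    aeval x f • y = 0 → ∃ p : F[X], Irreducible p ∧ ∃ z ∈ W, z ≠ 0 ∧ aeval x p • z = 0 := by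
  induction f using WfDvdMonoid.induction_on_irreducible with
  | zero => exact fun h => absurd rfl h
  | unit u hu => exact fun _ y _ hy h => absurd ((hu.map (aeval x)).smul_eq_zero.1 h) hy
  | mul a i ha hi ih =>
    intro _ y hy hy0 h
    by_cases h1 : aeval x a • y = 0
    · exact ih ha y hy hy0 h1
    · exact ⟨i, hi, _, W.smul_mem _ hy, h1, by rwa [← mul_smul, ← map_mul]⟩

omit [Module F V] [Algebra F A] [IsScalarTower F A V] in
theorem eq_zero_of_coprime {a b : A} (h : IsCoprime a b) {y : V} (ha : a • y = 0)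
    (hb : b • y = 0) : y = 0 := by
  obtain ⟨u, z, e⟩ := h
  rw [← one_smul A y, ← e, add_smul, mul_smul, mul_smul, ha, hb, smul_zero, smul_zero, add_zero]

omit [Module F V] [Algebra F A] [IsScalarTower F A V] in
theorem exists_inv_of_coprime {a b : A} (h : IsCoprime a b) {y : V} (ha : a • y = 0) :
    ∃ c : A, (c * b) • y = y := by
  obtain ⟨u, z, e⟩ := h
  refine ⟨z, ?_⟩
  rw [eq_sub_of_add_eq' e, sub_smul, mul_smul, ha, smul_zero, sub_zero, one_smul]

namespace Cx

variable (h : Cx Q x xi st)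
include h

omit [IsScalarTower F A V] in
theorem st_aeval (p : F[X]) : st (aeval x p) = aeval x p.reverse * xi ^ p.natDegree := by
  let _ : Invertible xi := ⟨x, h.mul, by rw [mul_comm, h.mul]⟩
  rw [← aeval_algHom_apply, h.st_x]
  exact (eval₂_reverse_mul_pow (algebraMap F A) xi p).symm

omit [IsScalarTower F A V] in
theorem isUnit_xi : IsUnit xi := IsUnit.of_mul_eq_one x (by rw [mul_comm, h.mul])

theorem val_smul (ε : F) (a : A) {y : V} (hy : (x - algebraMap F A ε) • y = 0) :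
    ∃ c : F, a • y = c • y := by
  obtain ⟨c, b, rfl⟩ := h.exists_val ε a
  exact ⟨c, by rw [add_smul, mul_comm, mul_smul, hy, smul_zero, add_zero, algebraMap_smul]⟩

theorem Q_eq_zero {v : V} (hv : ∀ r : A, pb Q v (r • v) = 0) {c : A} (hc : (c * (x - 1)) • v = v) :
    Q v = 0 := by
  rw [← hc, mul_comm, mul_smul, sub_smul, one_smul, Q_sub, h.Q_x, ← two_mul, ← pb_self, smul_smul,
    h.adj, h.adj, smul_smul, smul_smul, hv, hv, sub_self]

theorem raw {W : Submodule A V} (hW : NondegSub Q (W.restrictScalars F)) (h0 : W ≠ ⊥) :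
    (∃ v ∈ W, ∃ w ∈ W, IsoP Q xi v w) ∨
    (∃ v ∈ W, ∃ P k, CycP Q x st P k v) ∨
    (∃ v ∈ W, ∃ k, CycU Q x k v) ∨ ∃ S ≤ W, ∃ k, AltS Q x k S ∨ AltS Q (-x) k S := by
  classical
  obtain ⟨f, hf, hf'⟩ := h.tors
  obtain ⟨y₀, hy₀, hy₀'⟩ := Submodule.exists_mem_ne_zero_of_ne_bot h0
  obtain ⟨p, hp, y₁, m₁, n₁, z₁⟩ := exists_irr_ker (x := x) W f hf y₀ hy₀ hy₀'
    (by rw [hf', zero_smul])
  obtain ⟨e, r, hr, rfl⟩ := WfDvdMonoid.max_power_factor hf hp
  have hst := h.st_aeval p
  have hloc := fun k v hv => exists_mul_eq_socle (V := V) h.surj hp (k := k) (v := v) hv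
  have hloc' := fun k v hv => exists_mul_eq_socle (V := V) h.surj' hp (k := k) (v := v) hv
  rw [← h.st_x, aeval_algHom_apply] at hloc'
  have hcop : ∀ g : F[X], ¬p ∣ g → ∀ n, IsCoprime (aeval x p ^ n) (aeval x g) := fun g hg n =>
    (((hp.isCoprime_or_dvd g).resolve_right hg).map (aeval x : F[X] →ₐ[F] A).toRingHom).pow_left
  have hdvd : ∀ ε : F, p ∣ X - C ε → ∃ u : A, IsUnit u ∧ x - algebraMap F A ε = aeval x p * u := by
    rintro ε ⟨g, hg⟩
    refine ⟨aeval x g, (((irreducible_X_sub_C ε).isUnit_or_isUnit hg).resolve_left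
      hp.not_isUnit).map _, ?_⟩
    rw [← map_mul, ← hg]
    simp
  obtain ⟨u, z, huz⟩ := hcop r hr (e + 1)
  rw [map_mul, map_pow] at hf'
  generalize aeval x r = R at *
  generalize hP : aeval x p = P at *
  have hPR : P ^ (e + 1) * R = 0 := by rw [pow_succ', mul_assoc, hf', mul_zero]
  have huz' : st u * st P ^ (e + 1) + st z * st R = 1 := by
    simpa using congrArg st huz
  have hPR' : st P ^ (e + 1) * st R = 0 := by simpa using congrArg st hPR
  set S := W ⊓ Submodule.torsionBy A V (P ^ (e + 1)) with hS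
  have mS : ∀ y, y ∈ S ↔ y ∈ W ∧ P ^ (e + 1) • y = 0 := fun y => by
    rw [hS, Submodule.mem_inf, Submodule.mem_torsionBy_iff]
  have hex : ∃ j, ∀ y ∈ S, P ^ j • y = 0 := ⟨e + 1, fun y hy => ((mS y).1 hy).2⟩
  obtain ⟨k, hk⟩ : ∃ k, Nat.find hex = k + 1 := Nat.exists_eq_add_one_of_ne_zero fun h1 => by
    have := Nat.find_spec hex y₁ ((mS _).2 ⟨m₁, by rw [pow_succ, mul_smul, z₁, smul_zero]⟩)
    rw [h1, pow_zero, one_smul] at this
    exact n₁ this
  have nil : ∀ y ∈ S, P ^ (k + 1) • y = 0 := hk ▸ Nat.find_spec hex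
  obtain ⟨v₀, m₀, n₀⟩ : ∃ v ∈ S, P ^ k • v ≠ 0 := by
    have := Nat.find_min hex (show k < Nat.find hex by omega)
    push Not at this
    exact this
  have pairing : ∀ y ∈ S, y ≠ 0 → ∃ y' ∈ W, st P ^ (e + 1) • y' = 0 ∧ pb Q y y' ≠ 0 := by
    intro y hy hy0
    obtain ⟨y', m', n'⟩ : ∃ y' ∈ W, pb Q y y' ≠ 0 := by
      by_contra hc
      push Not at hc
      exact hy0 (hW y ((mS y).1 hy).1 hc)
    refine ⟨(st z * st R) • y', W.smul_mem _ m', by
      rw [smul_smul, mul_left_comm, hPR', mul_zero, zero_smul], ?_⟩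
    rwa [eq_sub_of_add_eq' huz', sub_smul, one_smul, map_sub, ← map_pow, ← map_mul, ← h.adj,
      mul_smul, ((mS y).1 hy).2, smul_zero, map_zero, LinearMap.zero_apply, sub_zero]
  by_cases hd : p ∣ p.reverse
  swap
  · -- the isotropic pair
    left
    have c₁ : IsCoprime (P ^ (e + 1)) (st P ^ (e + 1)) := by
      rw [hst]
      exact ((isCoprime_mul_unit_right_right (h.isUnit_xi.pow _) _ _).2 (hcop _ hd _)).pow_right
    have c₂ : IsCoprime (P ^ (e + 1)) (x - 1) := by
      have := hcop (X - C 1) (fun h1 => hd ?_) (e + 1)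
      · simpa using this
      · refine ((hp.associated_of_dvd (irreducible_X_sub_C 1) h1).dvd_iff_dvd_left).2 ?_
        have h2 := dvd_iff_isRoot.1 (hp.associated_of_dvd (irreducible_X_sub_C 1) h1).symm.dvd
        let _ := invertibleOne (α := F)
        exact dvd_iff_isRoot.2 ((eval₂_reverse_eq_zero_iff (RingHom.id F) 1 p).2 h2)
    have c₃ : IsCoprime (st P ^ (e + 1)) (xi - 1) := by
      simpa [h.st_x] using c₂.map (st : A →+* A)
    obtain ⟨w, mw, zw, nw⟩ := pairing _ (S.smul_mem (P ^ k) m₀) n₀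
    have zv := ((mS _).1 m₀).2
    have kw : st P ^ (k + 1) • w = 0 := hW _ (W.smul_mem _ mw) fun y hy => by
      rw [pb_comm, ← map_pow, ← h.adj, ← one_smul A y, ← huz, add_smul, smul_add, pb_add_left,
        nil ((z * R) • y) ((mS _).2 ⟨W.smul_mem _ hy, by
          rw [smul_smul, mul_left_comm, hPR, mul_zero, zero_smul]⟩), smul_smul, ← mul_assoc,
        mul_comm, mul_smul, h.adj, map_pow, zw]
      simp
    have iv : ∀ r : A, pb Q v₀ (r • v₀) = 0 := fun r => by
      obtain ⟨c, hc⟩ := exists_inv_of_coprime c₁ zv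
      have : r • v₀ = st (P ^ (e + 1)) • (r * c) • v₀ := by
        rw [smul_smul, mul_comm, mul_assoc, mul_smul, map_pow, hc]
      rw [this, ← h.adj, zv]
      simp
    have iw : ∀ r : A, pb Q w (r • w) = 0 := fun r => by
      obtain ⟨c, hc⟩ := exists_inv_of_coprime c₁.symm zw
      have : r • w = P ^ (e + 1) • (r * c) • w := by
        rw [smul_smul, mul_comm, mul_assoc, mul_smul, hc]
      rw [this, h.adj', map_pow, zw]
      simp
    obtain ⟨cv, hcv⟩ := exists_inv_of_coprime c₂ zv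
    obtain ⟨cw, hcw⟩ := exists_inv_of_coprime c₃ zw
    refine ⟨v₀, ((mS _).1 m₀).1, w, mw, iv, iw, h.Q_eq_zero iv hcv,
      h.Q_eq_zero iw (c := -(cw * xi)) (by
        rwa [show -(cw * xi) * (x - 1) = cw * (xi - 1) by linear_combination -cw * h.mul]), fun y hy hy' => ?_, by rintro rfl; simp at n₀, cw, hcw⟩
    obtain ⟨a, b, rfl⟩ := Submodule.mem_span_pair.1 hy
    have ha : a • v₀ = 0 := by
      by_contra ha
      obtain ⟨c, hc⟩ := hloc k v₀ (nil _ m₀) a ha
      have := hy' (st c • w) (Submodule.mem_span_pair.2 ⟨0, st c, by simp⟩)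
      rw [← h.adj, smul_add, smul_smul, smul_smul, hc, pb_add_left, h.adj (c * b), iw] at this
      exact nw (by simpa using this)
    have hb : b • w = 0 := by
      by_contra hb
      obtain ⟨c, hc⟩ := hloc' k w kw b hb
      have := hy' (st c • v₀) (Submodule.mem_span_pair.2 ⟨st c, 0, by simp⟩)
      rw [ha, zero_add, ← h.adj, smul_smul, hc, pb_comm, ← map_pow, ← h.adj] at this
      exact nw this
    rw [ha, hb, add_zero]
  right
  obtain ⟨u₁, hu₁, hu₁'⟩ : ∃ u : A, IsUnit u ∧ st P = P * u := by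
    obtain ⟨c, hc⟩ := hd
    have hc0 : c ≠ 0 := by
      rintro rfl
      rw [mul_zero, reverse_eq_zero] at hc
      exact hp.ne_zero hc
    have h1 := reverse_natDegree_le p
    rw [hc, natDegree_mul hp.ne_zero hc0] at h1
    refine ⟨aeval x c * xi ^ p.natDegree, ((isUnit_iff_degree_eq_zero.2 ?_).map _).mul
      (h.isUnit_xi.pow _), by rw [hst, hc, map_mul, hP, mul_assoc]⟩
    rw [degree_eq_natDegree hc0, show c.natDegree = 0 by omega]
    rfl
  have nd : NondegSub Q (S.restrictScalars F) := fun y hy hy' => by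
    by_contra hy0
    obtain ⟨y', m', z', n'⟩ := pairing y hy hy0
    rw [hu₁', mul_pow, mul_comm, mul_smul, (hu₁.pow _).smul_eq_zero] at z'
    exact n' (hy' y' ((mS _).2 ⟨m', z'⟩))
  by_cases hc : ∃ v ∈ S, ∃ a : A, pb Q v ((a * P ^ k) • v) ≠ 0
  · obtain ⟨v, mv, a, ha⟩ := hc
    by_cases h1 : p ∣ X - C (-1)
    · obtain ⟨u₂, hu₂, hu₂'⟩ := hdvd _ h1
      rw [map_neg, map_one, sub_neg_eq_add] at hu₂'
      have n1 : (x + 1) ^ (k + 1) • v = 0 := by
        rw [hu₂', mul_pow, mul_comm, mul_smul, nil v mv, smul_zero]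
      refine Or.inr (Or.inl ⟨v, ((mS _).1 mv).1, k, n1, fun h2 => ha ?_⟩)
      obtain ⟨u₃, hu₃⟩ := (hu₂.pow k).exists_left_inv
      obtain ⟨c, hc⟩ := h.val_smul (-1) (a * u₃) (y := (x + 1) ^ k • v) (by
        rw [map_neg, map_one, sub_neg_eq_add, smul_smul, ← pow_succ', n1])
      rw [show a * P ^ k = a * u₃ * (x + 1) ^ k by
        rw [hu₂', mul_pow]; linear_combination -(a * P ^ k) * hu₃, mul_smul, hc, map_smul, h2,
        smul_zero]
    · refine Or.inl ⟨v, ((mS _).1 mv).1, P, k, fun y hy hy' => ?_, fun b hb => ?_, nil _ mv,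
        fun e => ha (by rw [mul_smul, e, smul_zero, map_zero]), ⟨u₁, hu₁'⟩, p, hp, hP⟩
      · obtain ⟨b, rfl⟩ := Submodule.mem_span_singleton.1 hy
        by_contra hb
        obtain ⟨c, hc⟩ := hloc k v (nil _ mv) b hb
        have := hy' (st (a * c) • v) (Submodule.mem_span_singleton.2 ⟨_, rfl⟩)
        rw [← h.adj, smul_smul, mul_assoc, mul_smul, hc, smul_smul, pb_comm] at this
        exact ha this
      · refine eq_zero_of_coprime (hcop _ h1 (k + 1)) (nil _ (S.smul_mem _ mv)) ?_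
        simpa using hb
  push Not at hc
  have pol : ∀ a : A, (a * P ^ k + st (a * P ^ k)) • v₀ = 0 := fun a =>
    nd _ (S.smul_mem _ m₀) fun y hy => by
      have := hc (y + v₀) (add_mem hy m₀) a
      rw [smul_add, pb_add_left, map_add, map_add, hc y hy, hc v₀ m₀, zero_add, add_zero,
        h.adj' _ v₀] at this
      rw [add_smul, pb_add_left, pb_comm]
      exact this
  have h1 : aeval x ((X - C 1) * (X - C (-1)) : F[X]) • P ^ k • v₀ = 0 := by
    have a1 := pol 1
    have a2 := pol x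
    rw [map_mul, map_one] at a1
    rw [map_mul, h.st_x] at a2
    rw [smul_smul, show aeval x ((X - C 1) * (X - C (-1)) : F[X]) * P ^ k =
      x * (x * P ^ k + xi * st (P ^ k)) - (1 * P ^ k + 1 * st (P ^ k)) by
        simp only [map_mul, map_sub, aeval_X, map_neg, map_one]
        linear_combination -st (P ^ k) * h.mul, sub_smul, mul_smul, a1, a2, smul_zero, sub_zero]
  have h2 : p ∣ (X - C 1) * (X - C (-1)) := by
    by_contra h2
    exact n₀ (eq_zero_of_coprime (hcop _ h2 1) (by rw [smul_smul, ← pow_add, add_comm, nil _ m₀]) h1)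
  have fin : ∀ t u : A, IsUnit u → t - 1 = P * u → AltS Q t k S := by
    intro t u hu e
    refine ⟨nd, fun y hy => ?_, ⟨v₀, m₀, ?_⟩, fun y hy => ?_⟩
    · rw [e, mul_pow, mul_comm, mul_smul, nil y hy, smul_zero]
    · rwa [e, mul_pow, mul_comm, mul_smul, Ne, (hu.pow _).smul_eq_zero]
    · rw [e, mul_pow, mul_comm, hc y hy]
  refine Or.inr (Or.inr ⟨S, inf_le_left, k, ?_⟩)
  rcases hp.prime.dvd_or_dvd h2 with h3 | h3
  · obtain ⟨u, hu, e⟩ := hdvd _ h3
    exact Or.inl (fin x u hu (by simpa using e))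
  · obtain ⟨u, hu, e⟩ := hdvd _ h3
    rw [map_neg, map_one] at e
    exact Or.inr (fin (-x) (-u) hu.neg (by linear_combination -e))

end Cx

end Cfsg.Agent.H6
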