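import Cfsg.Agent.H6.OreO5

/-! Characteristic two: factorizations on isotropic pairs and on cyclic pieces. -/

set_option autoImplicit false
open Module Polynomial

namespace Cfsg.Agent.H6

variable {F V A : Type*} [Field F] [AddCommGroup V] [Module F V] [CommRing A] [Algebra F A]
  [Module A V] [IsScalarTower F A V] {Q : QuadraticForm F V} {x xi : A} {st : A →ₐ[F] A}

/-- The test for a factor to move some vector by a nonsingular vector. -/
def Ev (Q : QuadraticForm F V) (c : A) (v w : V) : Prop := ∃ a : A, pb Q ((c * a ^ 2) • v) w ≠ 0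

/-- Polynomials in `s`. -/
def Sy (F : Type*) [Field F] [Algebra F A] (s a : A) : Prop := ∃ p : F[X], aeval s p = a

/-- A piece with a factorization into involutions of equal rank. -/
def Bp (Q : QuadraticForm F V) (x : A) (N : Submodule A V) : Prop :=
  NondegSub Q (N.restrictScalars F) ∧ ∃ t₁ t₂ : OG Q, Dec x N t₁ t₂ ∧
    finrank F (mvS t₁) = finrank F (mvS t₂) ∧ (NA t₁ ∨ NA t₂) ∧
    (4 < finrank F (N.restrictScalars F) → NA t₁ ∧ NA t₂)

theorem Sy.val {s a : A} (h : Sy F s a) : ∃ (c : F) (b : A), Sy F s b ∧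
    a = algebraMap F A c + s * b := by
  obtain ⟨p, rfl⟩ := h
  refine ⟨p.coeff 0, _, ⟨p.divX, rfl⟩, ?_⟩
  conv_lhs => rw [← X_mul_divX_add p]
  rw [map_add, map_mul, aeval_X, aeval_C, add_comm]

theorem Sy.pow (s : A) (j : ℕ) : Sy F s (s ^ j) := ⟨X ^ j, by simp⟩

theorem Dec.kill {W : Submodule A V} {t₁ t₂ : OG Q} (h : Dec x W t₁ t₂) {y : V} (hy : y ∈ W) :
    (t₂.1 y = y → t₁.1 y = -y → (x + 1) • y = 0) ∧ (t₁.1 y = y → t₂.1 y = -y → (x + 1) • y = 0) := by
  refine ⟨fun a b => ?_, fun a b => ?_⟩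
  · rw [add_smul, ← h.eq y hy, a, b, one_smul, neg_add_cancel]
  · rw [add_smul, ← h.eq y hy, b, map_neg, a, one_smul, neg_add_cancel]

theorem finrank_cyc_le [FiniteDimensional F V] (hs : ∀ a : A, ∃ p : F[X], aeval x p = a) {f : F[X]}
    (hf : f.Monic) {v : V} (hv : aeval x f • v = 0) :
    finrank F ((Submodule.span A {v}).restrictScalars F) ≤ f.natDegree := by
  by_cases h1 : f = 1
  · rw [h1, map_one, one_smul] at hv
    rw [hv, Submodule.span_zero_singleton, Submodule.restrictScalars_bot, finrank_bot]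
    exact Nat.zero_le _
  refine (Submodule.finrank_mono (t := Submodule.span F
    (Set.range fun i : Fin f.natDegree => x ^ (i : ℕ) • v)) fun y hy => ?_).trans
    ((finrank_range_le_card _).trans (by simp))
  obtain ⟨a, rfl⟩ := Submodule.mem_span_singleton.1 hy
  obtain ⟨p, rfl⟩ := hs a
  rw [← modByMonic_add_div p f, map_add, map_mul, add_smul, mul_comm, mul_smul, hv, smul_zero,
    add_zero, aeval_eq_sum_range' (natDegree_modByMonic_lt p hf h1), Finset.sum_smul]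
  refine Submodule.sum_mem _ fun i hi => ?_
  rw [smul_assoc]
  exact Submodule.smul_mem _ _ (Submodule.subset_span ⟨⟨i, Finset.mem_range.1 hi⟩, rfl⟩)

theorem cover_two {M : Type*} [AddCommGroup M] [Module F M] {f g : M →ₗ[F] F} {α β : F}
    (hf : ∃ a, f a ≠ 0) (hg : ∃ a, g a ≠ 0) (h : ∀ a, f a = α ∨ g a = β) (a : M) : f a = g a := by
  have key : ∀ {f g : M →ₗ[F] F} {α β : F}, (∃ a, f a ≠ 0) → (∀ a, f a = α ∨ g a = β) →
      ∀ b, f b ≠ -1 → g b = 0 := by
    intro f g α β ⟨a, ha⟩ h b h1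
    have h2 := (h (((α + 1) / f a) • a)).resolve_left (by
      rw [map_smul, smul_eq_mul, div_mul_cancel₀ _ ha]; simp)
    have h3 := (h (((α + 1) / f a) • a + b)).resolve_left (by
      rw [map_add, map_smul, smul_eq_mul, div_mul_cancel₀ _ ha]
      exact fun e => h1 (by linear_combination e))
    rw [map_add, h2] at h3
    simpa using h3
  have h1 := key hf h a
  have h2 := key hg (fun a => (h a).symm) a
  by_cases h3 : f a = -1
  · by_contra h4
    rw [h2 fun e => h4 (h3.trans e.symm)] at h3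
    simp at h3
  · rw [h2 (by rw [h1 h3]; simp), h1 h3]

theorem two_alg (F A : Type*) [Field F] [CommRing A] [Algebra F A] [CharP F 2] : (2 : A) = 0 := by
  rw [← map_ofNat (algebraMap F A) 2, CharTwo.two_eq_zero, map_zero]

variable [CharP F 2]

namespace Cx

variable (h : Cx Q x xi st)
include h

omit [IsScalarTower F A V] [CharP F 2] in
theorem sy_st {a : A} (ha : Sy F (x + xi) a) : st a = a := by
  obtain ⟨p, rfl⟩ := ha
  rw [← aeval_algHom_apply, map_add, h.st_x, h.st_xi, add_comm]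

theorem sy_pb {a : A} (ha : Sy F (x + xi) a) (u : V) : pb Q u (a • u) = 0 := by
  obtain ⟨c, b, hb, rfl⟩ := ha.val
  have := h.phi_st (x * b) u
  rw [map_mul, h.st_x, h.sy_st hb] at this
  rw [add_smul, map_add, pb_alg_right, pb_self_two, add_mul, add_smul, map_add, this, mul_zero,
    zero_add, CharTwo.add_self_eq_zero]

omit [IsScalarTower F A V] [CharP F 2] in
theorem sy_dec (r : A) : ∃ a b, Sy F (x + xi) a ∧ Sy F (x + xi) b ∧ r = a + b * x := by
  refine h.ind (P := fun r => ∃ a b, Sy F (x + xi) a ∧ Sy F (x + xi) b ∧ r = a + b * x)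
    (fun c => ⟨_, _, ⟨C c, rfl⟩, ⟨0, rfl⟩, by simp⟩) ?_ ?_ r
  · rintro _ _ ⟨_, _, ⟨a, rfl⟩, ⟨b, rfl⟩, rfl⟩ ⟨_, _, ⟨a', rfl⟩, ⟨b', rfl⟩, rfl⟩
    exact ⟨_, _, ⟨a + a', rfl⟩, ⟨b + b', rfl⟩, by simp only [map_add]; ring⟩
  · rintro _ ⟨_, _, ⟨a, rfl⟩, ⟨b, rfl⟩, rfl⟩
    refine ⟨_, _, ⟨-b, rfl⟩, ⟨a + b * X, rfl⟩, ?_⟩
    simp only [map_add, map_neg, map_mul, aeval_X]
    linear_combination -aeval (x + xi) b * h.mul

omit [IsScalarTower F A V] in
theorem sig : x + xi = xi * (x + 1) ^ 2 := by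
  linear_combination -(x + 2) * h.mul - two_alg F A

omit [IsScalarTower F A V] [CharP F 2] in
theorem st_t : st (x + 1) = xi * (x + 1) := by
  rw [map_add, map_one, h.st_x]
  linear_combination -h.mul

omit [IsScalarTower F A V] in
theorem fix_pow {y : V} (hy : (x + 1) • y = 0) (j : ℕ) : xi ^ j • y = y := by
  have h1 : x • y = y := by
    rw [show x + 1 = x - 1 by linear_combination two_alg F A, sub_smul, one_smul] at hy
    exact sub_eq_zero.1 hy
  induction j with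
  | zero => rw [pow_zero, one_smul]
  | succ j ih => rw [pow_succ, mul_smul, ← h1, h.xi_x, h1, ih]

omit [CharP F 2] in
theorem socle {k : ℕ} {v : V} (hv : (x + 1) ^ (k + 1) • v = 0) (a : A) :
    (a • v ≠ 0 → ∃ b : A, (b * a) • v = (x + 1) ^ k • v) ∧
      ((x + 1) ^ k • v ≠ 0 → (x + 1) • a • v = 0 → ∃ c : F, a • v = c • (x + 1) ^ k • v) := by
  have h1 := exists_mul_eq_socle (V := V) h.surj (irreducible_X_sub_C (-1 : F)) (k := k) (v := v)
  simp only [aeval_X, map_neg, map_one, sub_neg_eq_add, map_add] at h1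
  refine ⟨h1 hv a, fun h2 h3 => ?_⟩
  by_cases h4 : a • v = 0
  · exact ⟨0, by rw [h4, zero_smul]⟩
  obtain ⟨b, hb⟩ := h1 hv a h4
  obtain ⟨c, hc⟩ := h.val_smul (-1) b (y := a • v) (by simpa using h3)
  rw [mul_smul, hc] at hb
  have h5 : c ≠ 0 := by
    rintro rfl
    exact h2 (by rw [← hb, zero_smul])
  exact ⟨c⁻¹, by rw [← hb, inv_smul_smul₀ h5]⟩

theorem na_piece {N : Submodule A V} {t₁ t₂ : OG Q} (hd : Dec x N t₁ t₂) {v w : V} (hv : v ∈ N)
    (ht : ∀ a : A, t₁.1 (a • v) = st a • w) : (Ev Q (1 : A) v w → NA t₁) ∧ (Ev Q x v w → NA t₂) := by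
  refine ⟨fun ⟨a, ha⟩ => ⟨_, sub_mem_mvS t₁ (a • v), ?_⟩, fun ⟨a, ha⟩ =>
    ⟨_, sub_mem_mvS t₂ (a • v), ?_⟩⟩
  · rwa [Q_sub_two, ht, ← h.adj, smul_smul, ← sq, ← one_mul (a ^ 2)]
  · rwa [Q_sub_two, hd.two (N.smul_mem a hv), smul_smul, ht, ← h.adj, smul_smul, mul_assoc, ← sq]

theorem par (k : ℕ) :
    (∀ v, CycU Q x k v → Ev Q (1 : A) v v) ∨ ∀ v, CycU Q x k v → Ev Q x v v := by
  have key : ∀ j v, CycU Q x (2 * j + 1) v → pb Q ((x * (x + xi) ^ j) • v) v ≠ 0 := by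
    intro j v hv e
    refine hv.top ?_
    rw [← h.fix_pow (y := (x + 1) ^ (2 * j + 1) • v) (by rw [smul_smul, ← pow_succ', hv.nil]) j,
      smul_smul, show xi ^ j * (x + 1) ^ (2 * j + 1) = x * (x + xi) ^ j + (x + xi) ^ j by
        rw [h.sig, mul_pow, ← pow_mul]; ring, add_smul, map_add, h.sy_pb (Sy.pow _ j), pb_comm, e, add_zero]
  obtain ⟨j, rfl | rfl⟩ := Nat.even_or_odd' k
  · exact Or.inl fun v hv => ⟨(x + 1) ^ j, by
      rw [one_mul, ← pow_mul, mul_comm, pb_comm]; exact hv.top⟩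
  obtain ⟨i, rfl | rfl⟩ := Nat.even_or_odd' j
  · exact Or.inr fun v hv => ⟨(x + xi) ^ i, by rw [← pow_mul, mul_comm i]; exact key _ v hv⟩
  · refine Or.inl fun v hv => ⟨(x + 1) * (x + xi) ^ i, ?_⟩
    rw [show 1 * ((x + 1) * (x + xi) ^ i) ^ 2 = x * (x + xi) ^ (2 * i + 1) by
      linear_combination (-(x + xi) ^ (2 * i)) * h.mul + x * (x + xi) ^ (2 * i) * two_alg F A]
    exact key _ v hv

variable [Fintype F]

omit [IsScalarTower F A V] in
theorem sq_dec (r : A) : ∃ a b, r = a ^ 2 + x * b ^ 2 := by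
  refine h.ind (P := fun r => ∃ a b, r = a ^ 2 + x * b ^ 2) (fun c => ?_) ?_ ?_ r
  · obtain ⟨d, rfl⟩ := exists_sq_two c
    exact ⟨algebraMap F A d, 0, by simp⟩
  · rintro _ _ ⟨a, b, rfl⟩ ⟨a', b', rfl⟩
    exact ⟨a + a', b + b', by linear_combination -(a * a' + x * b * b') * two_alg F A⟩
  · rintro _ ⟨a, b, rfl⟩
    exact ⟨x * b, a, by ring⟩

omit [IsScalarTower F A V] in
theorem ev_or {v w : V} {r : A} (hr : pb Q (r • v) w ≠ 0) : Ev Q (1 : A) v w ∨ Ev Q x v w := by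
  obtain ⟨a, b, rfl⟩ := h.sq_dec r
  by_contra hc
  simp only [Ev, not_or, not_exists, not_not, one_mul] at hc
  rw [add_smul, pb_add_left, hc.1, hc.2, add_zero] at hr
  exact hr rfl

variable [FiniteDimensional F V] (hB : (pb Q).Nondegenerate)
include hB

omit [Fintype F] in
theorem pair_dec {v w : V} (hφ : ∀ r : A, pb Q v (r • v) = pb Q w (r • w)) (hQ : Q v = Q w)
    (hN : NondegSub Q ((Submodule.span A {v, w}).restrictScalars F))
    (hd : ∀ a b : A, a • v = b • w → a • v = 0) :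
    ∃ t₁ t₂ : OG Q, Dec x (Submodule.span A {v, w}) t₁ t₂ ∧
      finrank F (mvS t₁) = finrank F (mvS t₂) ∧ (Ev Q (1 : A) v w → NA t₁) ∧
      (Ev Q x v w → NA t₂) := by
  obtain ⟨t₁, t₂, d, a₁, a₂⟩ := h.piece hB hφ hQ hN
  have mv : v ∈ Submodule.span A {v, w} := Submodule.subset_span (by simp)
  have mw : w ∈ Submodule.span A {v, w} := Submodule.subset_span (by simp)
  have key : ∀ t : OG Q, t * t = 1 → mvS t ≤ (Submodule.span A {v, w}).restrictScalars F →
      (∀ a : A, ∃ b : A, t.1 (a • v) = b • w) → (∀ a : A, ∃ b : A, t.1 (a • w) = b • v) →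
      finrank F (mvS t) = finrank F ((Submodule.span A {v}).restrictScalars F) := by
    intro t i m b₁ b₂
    refine rank_half hB (U' := (Submodule.span A {w}).restrictScalars F) hN i m
      (Submodule.span_mono (by simp) : Submodule.span A {v} ≤ Submodule.span A {v, w})
      (fun y hy => ?_) (Submodule.disjoint_def.2 fun y hy hy' => ?_) (fun y hy => ?_)
      (fun y hy => ?_)
    · obtain ⟨a, b, rfl⟩ := Submodule.mem_span_pair.1 hy
      exact Submodule.add_mem_sup (Submodule.mem_span_singleton.2 ⟨a, rfl⟩)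
        (Submodule.mem_span_singleton.2 ⟨b, rfl⟩)
    · obtain ⟨a, rfl⟩ := Submodule.mem_span_singleton.1 hy
      obtain ⟨b, e⟩ := Submodule.mem_span_singleton.1 hy'
      exact hd a b e.symm
    · obtain ⟨a, rfl⟩ := Submodule.mem_span_singleton.1 hy
      obtain ⟨b, e⟩ := b₁ a
      exact Submodule.mem_span_singleton.2 ⟨b, e.symm⟩
    · obtain ⟨a, rfl⟩ := Submodule.mem_span_singleton.1 hy
      obtain ⟨b, e⟩ := b₂ a
      exact Submodule.mem_span_singleton.2 ⟨b, e.symm⟩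
  refine ⟨t₁, t₂, d, ?_, h.na_piece d mv a₁⟩
  rw [key t₁ d.i₁ d.m₁ (fun a => ⟨_, a₁ a⟩) (fun a => ⟨_, a₂ a⟩), key t₂ d.i₂ d.m₂
    (fun a => ⟨_, by rw [d.two (Submodule.smul_mem _ a mv), smul_smul, a₁]⟩)
    (fun a => ⟨_, by rw [d.two (Submodule.smul_mem _ a mw), smul_smul, a₂]⟩)]

theorem iso_bp {v w : V} (hp : IsoP Q xi v w) : Bp Q x (Submodule.span A {v, w}) := by
  have key : ∀ w' : V, (∀ r : A, pb Q w' (r • w') = 0) → Q w' = 0 →
      Submodule.span A {v, w'} = Submodule.span A {v, w} → Ev Q (1 : A) v w' → Ev Q x v w' →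
      Bp Q x (Submodule.span A {v, w}) := by
    intro w' iw qw e e₁ e₂
    have nd := hp.nd
    rw [← e] at nd ⊢
    obtain ⟨t₁, t₂, d, r, n₁, n₂⟩ := h.pair_dec hB (fun r => by rw [hp.iv, iw])
      (by rw [hp.qv, qw]) nd fun a b e => nd _ (Submodule.mem_span_pair.2 ⟨a, 0, by simp⟩)
        fun z hz => by
          obtain ⟨c, d, rfl⟩ := Submodule.mem_span_pair.1 hz
          rw [map_add, h.adj, smul_smul, hp.iv, e, h.adj, smul_smul, iw, add_zero]
    exact ⟨nd, t₁, t₂, d, r, Or.inl (n₁ e₁), fun _ => ⟨n₁ e₁, n₂ e₂⟩⟩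
  by_cases hb : Ev Q (1 : A) v w ∧ Ev Q x v w
  · exact key w hp.iw hp.qw rfl hb.1 hb.2
  have ho : Ev Q (1 : A) v w ∨ Ev Q x v w := by
    by_contra hc
    refine hp.ne (hp.nd v (Submodule.subset_span (by simp)) fun z hz => ?_)
    obtain ⟨c, d, rfl⟩ := Submodule.mem_span_pair.1 hz
    rw [map_add, hp.iv, h.adj', zero_add]
    by_contra h1
    exact hc (h.ev_or h1)
  have e : ∀ r : A, pb Q (r • v) ((xi - 1) • w) = pb Q ((x * r) • v) w - pb Q (r • v) w := by
    intro r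
    rw [h.adj', map_sub, h.st_xi, map_one, sub_smul, one_smul, pb_sub_left, mul_smul]
  have e' : ∀ a : A, pb Q ((x * (x * a ^ 2)) • v) w = pb Q ((1 * (x * a) ^ 2) • v) w := fun a => by
    congr 3; ring
  obtain ⟨c, hc⟩ := hp.inv
  refine key ((xi - 1) • w) (fun r => by rw [h.adj, smul_smul, smul_smul, hp.iw]) ?_ ?_ ?_ ?_
  · simpa using h.Q_swap (w := 0) (fun r => by simp [hp.iw]) (by simp [hp.qw]) (xi - 1)
  · refine le_antisymm (Submodule.span_le.2 ?_) (Submodule.span_le.2 ?_)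
    · rintro _ (rfl | rfl)
      · exact Submodule.subset_span (by simp)
      · exact Submodule.mem_span_pair.2 ⟨0, xi - 1, by simp⟩
    · rintro _ (rfl | rfl)
      · exact Submodule.subset_span (by simp)
      · exact Submodule.mem_span_pair.2 ⟨0, c, by rw [zero_smul, zero_add, smul_smul, hc]⟩
  · simp only [Ev, not_and_or, not_exists, not_not] at hb ho ⊢
    rcases ho with ⟨a, ha⟩ | ⟨a, ha⟩
    · refine ⟨a, ?_⟩
      rw [e, one_mul, (hb.resolve_left fun h => ha (h a)) a, zero_sub, neg_ne_zero]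
      rwa [one_mul] at ha
    · refine ⟨a, ?_⟩
      rwa [e, (hb.resolve_right fun h => ha (h a)) a, sub_zero, one_mul]
  · simp only [Ev, not_and_or, not_exists, not_not] at hb ho ⊢
    rcases ho with ⟨a, ha⟩ | ⟨a, ha⟩
    · refine ⟨xi * a, ?_⟩
      rwa [e, (hb.resolve_left fun h => ha (h a)) _, sub_zero, e', ← mul_assoc x, h.mul, one_mul a]
    · refine ⟨a, ?_⟩
      rwa [e, e', (hb.resolve_right fun h => ha (h a)) _, zero_sub, neg_ne_zero]

omit [Fintype F] in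
theorem cyc_dec {v : V} (hN : NondegSub Q ((Submodule.span A {v}).restrictScalars F)) :
    ∃ t₁ t₂ : OG Q, Dec x (Submodule.span A {v}) t₁ t₂ ∧ t₁.1 v = v ∧
      (Ev Q (1 : A) v v → NA t₁) ∧ (Ev Q x v v → NA t₂) := by
  have := h.piece hB (v := v) (w := v) (fun _ => rfl) rfl (by rwa [Set.pair_eq_singleton])
  rw [Set.pair_eq_singleton] at this
  obtain ⟨t₁, t₂, d, a₁, -⟩ := this
  exact ⟨t₁, t₂, d, by simpa using a₁ 1, h.na_piece d (Submodule.mem_span_singleton_self v) a₁⟩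

omit [Fintype F] in
theorem cycU_dec {k : ℕ} {v : V} (hv : CycU Q x k v) :
    NondegSub Q ((Submodule.span A {v}).restrictScalars F) ∧
    (∀ y ∈ Submodule.span A {v}, (x + 1) • y = 0 → y ∈ F ∙ (x + 1) ^ k • v) ∧
    ∃ t₁ t₂ : OG Q, Dec x (Submodule.span A {v}) t₁ t₂ ∧ finrank F (mvS t₁) ≤ finrank F (mvS t₂) ∧
      finrank F (mvS t₂) ≤ finrank F (mvS t₁) + 1 ∧
      (Ev Q (1 : A) v v → NA t₁) ∧ (Ev Q x v v → NA t₂) := by
  have h0 : (x + 1) ^ k • v ≠ 0 := fun e => hv.top (by rw [e, map_zero])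
  have nd : NondegSub Q ((Submodule.span A {v}).restrictScalars F) := fun y hy hy' => by
    obtain ⟨a, rfl⟩ := Submodule.mem_span_singleton.1 hy
    by_contra ha
    obtain ⟨b, hb⟩ := (h.socle hv.nil a).1 ha
    have := hy' (st b • v) (Submodule.mem_span_singleton.2 ⟨_, rfl⟩)
    rw [← h.adj, smul_smul, hb, pb_comm] at this
    exact hv.top this
  have hK : ∀ y ∈ Submodule.span A {v}, (x + 1) • y = 0 → y ∈ F ∙ (x + 1) ^ k • v := by
    intro y hy hy'
    obtain ⟨a, rfl⟩ := Submodule.mem_span_singleton.1 hy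
    obtain ⟨c, hc⟩ := (h.socle hv.nil a).2 h0 hy'
    exact Submodule.mem_span_singleton.2 ⟨c, hc.symm⟩
  obtain ⟨t₁, t₂, d, a, n⟩ := h.cyc_dec hB nd
  have r₁ := (rank_cmp hB _ nd d.i₁ d.m₁ d.m₂ fun y hy a b => hK y hy ((d.kill hy).1 a b)).2 v
    (Submodule.mem_span_singleton_self v) a fun y hy a e => h0 (by
      obtain ⟨b, rfl⟩ := Submodule.mem_span_singleton.1 hy
      have := d.eq _ hy
      rw [a] at this
      rw [this, show b • v + x • b • v = (x + 1) • b • v by module] at e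
      rw [← e, smul_smul, ← pow_succ, smul_comm, hv.nil, smul_zero])
  have r₂ := (rank_cmp hB _ nd d.i₂ d.m₂ d.m₁ fun y hy a b => hK y hy ((d.kill hy).2 a b)).1
  rw [finrank_span_singleton h0] at r₁ r₂
  exact ⟨nd, hK, t₁, t₂, d, by omega, r₂, n⟩

end Cx

end Cfsg.Agent.H6
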