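import Cfsg.Agent.H6.OreO6

/-! Characteristic two: primary cyclic pieces, and pairs of unipotent Jordan blocks. -/

set_option autoImplicit false
open Module Polynomial

namespace Cfsg.Agent.H6

variable {F V A : Type*} [Field F] [AddCommGroup V] [Module F V] [CommRing A] [Algebra F A]
  [Module A V] [IsScalarTower F A V] {Q : QuadraticForm F V} {x xi : A} {st : A →ₐ[F] A}

variable (F) in
/-- The orbit map of a vector. -/
def orbL (v : V) : A →ₗ[F] V := (LinearMap.toSpanSingleton A V v).restrictScalars F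

theorem orbL_apply (v : V) (a : A) : orbL F v a = a • v := rfl

variable [CharP F 2]

theorem exists_sq_mod [Fintype F] {p : F[X]} (hp : Irreducible p) (f : F[X]) :
    ∃ g c : F[X], f = g ^ 2 + p * c := by
  have : Fact (Irreducible p) := ⟨hp⟩
  have : Module.Finite F (AdjoinRoot p) := (AdjoinRoot.powerBasis hp.ne_zero).finite
  have : Finite (AdjoinRoot p) := Module.finite_of_finite F
  have : CharP (AdjoinRoot p) 2 := charP_of_injective_algebraMap (algebraMap F _).injective 2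
  obtain ⟨b, hb⟩ := isSquare_of_charTwo' (AdjoinRoot.mk p f)
  obtain ⟨g, rfl⟩ := AdjoinRoot.mk_surjective b
  rw [← map_mul, AdjoinRoot.mk_eq_mk] at hb
  obtain ⟨c, hc⟩ := hb
  exact ⟨g, c, by linear_combination hc⟩

namespace Cx

variable (h : Cx Q x xi st)
include h

theorem cyc_gen [Fintype F] {P : A} {k : ℕ} {v : V} (hv : CycP Q x st P k v) :
    (∃ v', Submodule.span A {v'} = Submodule.span A {v} ∧ Ev Q (1 : A) v' v' ∧ Ev Q x v' v') ∨
      (x ^ 2 + x + 1) ^ 2 • v = 0 := by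
  obtain ⟨p, hp, hP⟩ := hv.irr
  obtain ⟨u, hu⟩ := hv.adj
  have nd : ∀ s : A, (∀ a : A, pb Q ((a * s) • v) v = 0) → s • v = 0 := fun s hs =>
    hv.nd _ (Submodule.mem_span_singleton.2 ⟨s, rfl⟩) fun z hz => by
      obtain ⟨c, rfl⟩ := Submodule.mem_span_singleton.1 hz
      rw [h.adj', smul_smul, hs]
  have inj : ∀ s : A, ((x + xi) * s) • v = 0 → s • v = 0 := fun s hs => by
    rw [h.sig, mul_assoc, mul_smul, h.isUnit_xi.smul_eq_zero, sq, mul_assoc, mul_smul] at hs
    exact hv.inj _ (by rw [← mul_smul]; exact hv.inj _ hs)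
  by_cases hk : k = 0
  · subst hk
    have key : ∀ c ci : A, c * ci = 1 → Ev Q c v v := by
      intro c ci hc
      by_contra h1
      simp only [Ev, not_exists, not_not] at h1
      refine hv.top (nd _ fun a => ?_)
      obtain ⟨f, hf⟩ := h.surj (a * ci)
      obtain ⟨g, d, e⟩ := exists_sq_mod hp f
      have h2 := congrArg (aeval x) e
      rw [hf, map_add, map_mul, map_pow, hP] at h2
      rw [show a * P ^ 0 = c * aeval x g ^ 2 + c * aeval x d * P ^ (0 + 1) by
        linear_combination c * h2 - a * hc, add_smul, pb_add_left, h1, mul_smul, hv.nil]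
      simp
    exact Or.inl ⟨v, rfl, key 1 1 (mul_one _), key x xi h.mul⟩
  obtain ⟨j, rfl⟩ := Nat.exists_eq_add_one_of_ne_zero hk
  have nil : ∀ a : A, (a * P ^ (j + 1) * P) • v = 0 := fun a => by
    rw [mul_assoc, ← pow_succ, mul_smul, hv.nil, smul_zero]
  have lam : ∀ a r : A, pb Q (r • (1 + P ^ (j + 1) * a) • v) ((1 + P ^ (j + 1) * a) • v) =
      pb Q (r • v) v + pb Q ((a * (P ^ (j + 1) * (r + st r))) • v) v := by
    intro a r
    have e : pb Q ((st (P ^ (j + 1) * a) * r) • v) v = pb Q ((P ^ (j + 1) * a * st r) • v) v := by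
      rw [h.adj, map_mul st (st _), h.st_st, pb_comm]
    rw [h.adj', smul_smul, smul_smul, show st (1 + P ^ (j + 1) * a) * r * (1 + P ^ (j + 1) * a) =
      r + P ^ (j + 1) * a * r + st (P ^ (j + 1) * a) * r +
        (P ^ j * u ^ (j + 1) * st a * a * r) * P ^ (j + 1) * P by
      simp only [map_add, map_one, map_mul, map_pow, hu]; ring, add_smul, nil, add_zero, add_smul,
      add_smul, pb_add_left, pb_add_left, e, add_assoc, ← pb_add_left, ← add_smul]
    congr 4
    ring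
  by_cases hc : ∃ a : A, Ev Q (1 : A) ((1 + P ^ (j + 1) * a) • v) ((1 + P ^ (j + 1) * a) • v) ∧
      Ev Q x ((1 + P ^ (j + 1) * a) • v) ((1 + P ^ (j + 1) * a) • v)
  · obtain ⟨a, ha⟩ := hc
    refine Or.inl ⟨_, le_antisymm ?_ ?_, ha⟩
    · rw [Submodule.span_singleton_le_iff_mem]
      exact Submodule.mem_span_singleton.2 ⟨_, rfl⟩
    · rw [Submodule.span_singleton_le_iff_mem]
      refine Submodule.mem_span_singleton.2 ⟨1 - P ^ (j + 1) * a, ?_⟩
      rw [smul_smul, show (1 - P ^ (j + 1) * a) * (1 + P ^ (j + 1) * a) =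
        1 - P ^ j * a ^ 2 * P ^ (j + 1) * P by ring, sub_smul, nil, one_smul, sub_zero]
  right
  simp only [Ev, not_exists, not_and_or, not_not, lam] at hc
  let L : A → A →ₗ[F] F := fun s => pb Q v ∘ₗ orbL F v ∘ₗ LinearMap.mulRight F s
  have hL : ∀ s a, L s a = pb Q ((a * s) • v) v := fun s a => pb_comm Q _ _
  have e₁ : 1 * x ^ 2 + st (1 * x ^ 2) = (x + xi) ^ 2 := by
    rw [one_mul, map_pow, h.st_x]
    linear_combination -(x * xi) * two_alg F A
  have e₂ : x * 1 ^ 2 + st (x * 1 ^ 2) = x + xi := by rw [one_pow, mul_one, h.st_x]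
  have ne : ∀ s : A, s • v ≠ 0 → ∀ α : F, ∃ a, L s a ≠ α := fun s hs α => by
    by_contra h1
    push Not at h1
    exact hs (nd s fun a => by rw [← hL, h1, ← h1 0, map_zero])
  have n₂ : (P ^ (j + 1) * (x + xi)) • v ≠ 0 := fun e => hv.top (inj _ (by rwa [mul_comm]))
  have n₁ : (P ^ (j + 1) * (x + xi) ^ 2) • v ≠ 0 := fun e => n₂ (inj _ (by
    rw [← e]; congr 1; ring))
  have c₁ : ∀ a, (∀ c : A, pb Q ((1 * c ^ 2) • v) v +
      pb Q ((a * (P ^ (j + 1) * (1 * c ^ 2 + st (1 * c ^ 2)))) • v) v = 0) →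
      L (P ^ (j + 1) * (x + xi) ^ 2) a = -pb Q ((1 * x ^ 2) • v) v := fun a ha => by
    rw [hL, ← e₁]; linear_combination ha x
  have c₂ : ∀ a, (∀ c : A, pb Q ((x * c ^ 2) • v) v +
      pb Q ((a * (P ^ (j + 1) * (x * c ^ 2 + st (x * c ^ 2)))) • v) v = 0) →
      L (P ^ (j + 1) * (x + xi)) a = -pb Q ((x * 1 ^ 2) • v) v := fun a ha => by
    rw [hL]
    have := ha 1
    rw [e₂] at this
    linear_combination this
  have h1 : (P ^ (j + 1) * (x + xi + 1)) • v = 0 := inj _ (nd _ fun a => by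
    have := cover_two (ne _ n₁ 0) (ne _ n₂ 0) (fun a => (hc a).imp (c₁ a) (c₂ a)) a
    rw [hL, hL] at this
    rw [show a * ((x + xi) * (P ^ (j + 1) * (x + xi + 1))) = a * (P ^ (j + 1) * (x + xi) ^ 2) +
      a * (P ^ (j + 1) * (x + xi)) by ring, add_smul, pb_add_left, this, CharTwo.add_self_eq_zero])
  have h2 : P ^ 2 • v = 0 := by
    obtain ⟨a₁, ha₁⟩ := ne _ n₁ (-pb Q ((1 * x ^ 2) • v) v)
    obtain ⟨a₂, ha₂⟩ := ne _ n₂ (-pb Q ((x * 1 ^ 2) • v) v)
    have b₁ := (hc a₂).resolve_right fun e => ha₂ (c₂ _ e)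
    have b₂ := (hc a₁).resolve_left fun e => ha₁ (c₁ _ e)
    have z : ∀ a c d : A, (a * (P ^ (j + 1) * (c * (P * d) ^ 2 + st (c * (P * d) ^ 2)))) • v = 0 :=
      fun a c d => by
        rw [← nil (a * (c * P * d ^ 2 + st c * P * (u * st d) ^ 2))]
        simp only [map_mul, map_pow, hu]
        congr 1
        ring
    refine nd _ fun a => ?_
    obtain ⟨c, d, rfl⟩ := h.sq_dec a
    have d₁ := b₁ (P * c)
    have d₂ := b₂ (P * d)
    rw [z, map_zero, LinearMap.zero_apply, add_zero] at d₁ d₂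
    rw [show (c ^ 2 + x * d ^ 2) * P ^ 2 = 1 * (P * c) ^ 2 + x * (P * d) ^ 2 by ring, add_smul,
      pb_add_left, d₁, d₂, add_zero]
  rcases hp.isCoprime_or_dvd (X ^ 2 + X + 1) with h3 | ⟨c, h3⟩
  · refine absurd (eq_zero_of_coprime (h3.map (aeval x : F[X] →ₐ[F] A).toRingHom) ?_ ?_) hv.top
    · change aeval x p • _ = _
      rw [hP, smul_smul, ← pow_succ', hv.nil]
    · change aeval x _ • _ = _
      rw [smul_smul, show aeval x (X ^ 2 + X + 1 : F[X]) * P ^ (j + 1) =
        x * (P ^ (j + 1) * (x + xi + 1)) by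
          simp only [map_add, map_pow, aeval_X, map_one]
          linear_combination -P ^ (j + 1) * h.mul, mul_smul, h1, smul_zero]
  · have := congrArg (aeval x) h3
    simp only [map_add, map_pow, aeval_X, map_one, map_mul, hP] at this
    rw [this, mul_pow, mul_comm, mul_smul, h2, smul_zero]

variable [FiniteDimensional F V] (hB : (pb Q).Nondegenerate)
include hB

theorem cyc_bp [Fintype F] {P : A} {k : ℕ} {v : V} (hv : CycP Q x st P k v) :
    Bp Q x (Submodule.span A {v}) := by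
  have rk : ∀ t₁ t₂ : OG Q, Dec x (Submodule.span A {v}) t₁ t₂ →
      finrank F (mvS t₁) = finrank F (mvS t₂) := by
    intro t₁ t₂ d
    have hK : ∀ y ∈ Submodule.span A {v}, (x + 1) • y = 0 → y ∈ (⊥ : Submodule F V) := by
      intro y hy hy'
      obtain ⟨a, rfl⟩ := Submodule.mem_span_singleton.1 hy
      exact hv.inj a hy'
    have r₁ := (rank_cmp hB _ hv.nd d.i₁ d.m₁ d.m₂ fun y hy a b => hK y hy ((d.kill hy).1 a b)).1
    have r₂ := (rank_cmp hB _ hv.nd d.i₂ d.m₂ d.m₁ fun y hy a b => hK y hy ((d.kill hy).2 a b)).1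
    rw [finrank_bot] at r₁ r₂
    omega
  refine ⟨hv.nd, ?_⟩
  rcases h.cyc_gen hv with ⟨v', e, e₁, e₂⟩ | h1
  · obtain ⟨t₁, t₂, d, -, n₁, n₂⟩ := h.cyc_dec hB (v := v') (e ▸ hv.nd)
    rw [e] at d
    exact ⟨t₁, t₂, d, rk _ _ d, Or.inl (n₁ e₁), fun _ => ⟨n₁ e₁, n₂ e₂⟩⟩
  · obtain ⟨t₁, t₂, d, -, n₁, n₂⟩ := h.cyc_dec hB hv.nd
    refine ⟨t₁, t₂, d, rk _ _ d, Or.imp n₁ n₂ ?_, fun h4 => absurd h4 (not_lt.2 ?_)⟩
    · by_contra hc
      refine hv.top (hv.nd _ (Submodule.mem_span_singleton.2 ⟨_, rfl⟩) fun z hz => ?_)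
      obtain ⟨c, rfl⟩ := Submodule.mem_span_singleton.1 hz
      rw [h.adj', smul_smul]
      by_contra h2
      exact hc (h.ev_or h2)
    · have hm : (X ^ 2 + X + 1 : F[X]).Monic := by monicity!
      refine (finrank_cyc_le h.surj (hm.pow (n := 2)) (by simpa using h1)).trans ?_
      rw [hm.natDegree_pow, show (X ^ 2 + X + 1 : F[X]).natDegree = 2 by compute_degree!]

end Cx

end Cfsg.Agent.H6
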