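import Cfsg.Agent.H6.OreO7

/-! Characteristic two: pairs of unipotent Jordan blocks. -/

set_option autoImplicit false
open Module Polynomial

namespace Cfsg.Agent.H6

variable {F V A : Type*} [Field F] [AddCommGroup V] [Module F V] [CommRing A] [Algebra F A]
  [Module A V] [IsScalarTower F A V] {Q : QuadraticForm F V} {x xi : A} {st : A →ₐ[F] A}
  [CharP F 2]

namespace Cx

variable (h : Cx Q x xi st)
include h

theorem top_adj {k : ℕ} {u : V} (hu : (x + 1) ^ (k + 1) • u = 0) (v : V) :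
    pb Q ((x + 1) ^ k • v) u = pb Q v ((x + 1) ^ k • u) := by
  rw [h.adj, map_pow, h.st_t, mul_pow, mul_smul, h.fix_pow (by rw [smul_smul, ← pow_succ', hu])]

omit [IsScalarTower F A V] [CharP F 2] in
theorem val_t (a : A) : ∃ (c : F) (b : A), a = algebraMap F A c + (x + 1) * b := by
  simpa using h.exists_val (-1) a

theorem alt_val {k : ℕ} {u v : V} (nu : (x + 1) ^ (k + 1) • u = 0) (nv : (x + 1) ^ (k + 1) • v = 0)
    (au : pb Q u ((x + 1) ^ k • u) = 0) (av : pb Q v ((x + 1) ^ k • v) = 0)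
    (hp : pb Q v ((x + 1) ^ k • u) ≠ 0) {a b : A} (h₁ : ∀ c : A, pb Q (a • v + b • u) (c • v) = 0)
    (h₂ : ∀ c : A, pb Q (a • v + b • u) (c • u) = 0) :
    ∃ a' b', a = a' * (x + 1) ^ (k + 1) ∧ b = b' * (x + 1) ^ (k + 1) := by
  suffices H : ∀ i ≤ k + 1, ∃ a' b', a = a' * (x + 1) ^ i ∧ b = b' * (x + 1) ^ i from H _ le_rfl
  intro i hi
  induction i with
  | zero => exact ⟨a, b, by simp⟩
  | succ i ih =>
    obtain ⟨a', b', rfl, rfl⟩ := ih (by omega)
    obtain ⟨m, rfl⟩ := Nat.exists_eq_add_of_le (show i ≤ k by omega)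
    obtain ⟨c, a', rfl⟩ := h.val_t a'
    obtain ⟨d, b', rfl⟩ := h.val_t b'
    have e : ∀ (c : F) (a : A) (y : V), (x + 1) ^ (i + m + 1) • y = 0 → (x + 1) ^ m •
        ((algebraMap F A c + (x + 1) * a) * (x + 1) ^ i) • y = c • (x + 1) ^ (i + m) • y := by
      intro c a y hy
      rw [smul_smul, show (x + 1) ^ m * ((algebraMap F A c + (x + 1) * a) * (x + 1) ^ i) =
        algebraMap F A c * (x + 1) ^ (i + m) + a * (x + 1) ^ (i + m + 1) by ring, add_smul, mul_smul,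
        mul_smul, hy, smul_zero, add_zero, algebraMap_smul]
    have e₁ := h₁ (st ((x + 1) ^ m))
    have e₂ := h₂ (st ((x + 1) ^ m))
    rw [← h.adj, smul_add, e _ _ _ nv, e _ _ _ nu, pb_add_left, map_smul _ c, map_smul _ d,
      LinearMap.smul_apply, LinearMap.smul_apply] at e₁ e₂
    rw [pb_comm, av, pb_comm, smul_zero, zero_add, smul_eq_zero, or_iff_left hp] at e₁
    rw [h.top_adj nu, h.top_adj nu, au, smul_zero, add_zero, smul_eq_zero, or_iff_left hp] at e₂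
    exact ⟨a', b', by rw [e₂, map_zero]; ring, by rw [e₁, map_zero]; ring⟩

theorem sy_odd {e : ℕ} {u : V} (nu : (x + 1) ^ (2 * e + 1 + 1) • u = 0) {β : A}
    (hβ : Sy F (x + xi) β) (h₁ : β • u = (x + 1) ^ (2 * e + 1) • u) :
    (x + 1) ^ (2 * e + 1) • u = 0 := by
  by_contra h0
  suffices H : ∀ i ≤ e + 1, ∃ β', Sy F (x + xi) β' ∧ β = β' * (x + xi) ^ i by
    obtain ⟨β', -, rfl⟩ := H _ le_rfl
    refine h0 ?_
    rw [← h₁, h.sig, mul_pow, ← pow_mul, ← mul_assoc, mul_smul, show 2 * (e + 1) = 2 * e + 1 + 1 by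
      ring, nu, smul_zero]
  intro i hi
  induction i with
  | zero => exact ⟨β, hβ, by simp⟩
  | succ i ih =>
    obtain ⟨β', s, rfl⟩ := ih (by omega)
    obtain ⟨m, rfl⟩ := Nat.exists_eq_add_of_le (show i ≤ e by omega)
    obtain ⟨c, β', s', rfl⟩ := s.val
    have e₁ := congrArg (fun y => (x + 1) ^ (2 * m + 1) • y) h₁
    simp only [smul_smul] at e₁
    rw [show (x + 1) ^ (2 * m + 1) * ((algebraMap F A c + (x + xi) * β') * (x + xi) ^ i) =
        algebraMap F A c * (xi ^ i * (x + 1) ^ (2 * (i + m) + 1)) +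
          xi ^ (i + 1) * β' * (x + 1) * (x + 1) ^ (2 * (i + m) + 1 + 1) by
        rw [h.sig, mul_pow, ← pow_mul]; ring,
      show (x + 1) ^ (2 * m + 1) * (x + 1) ^ (2 * (i + m) + 1) =
        (x + 1) ^ (2 * m) * (x + 1) ^ (2 * (i + m) + 1 + 1) by ring, add_smul, mul_smul, mul_smul,
      mul_smul _ _ u, mul_smul _ _ u, nu, smul_zero, smul_zero, add_zero, algebraMap_smul,
      h.fix_pow (by rw [smul_smul, ← pow_succ', nu]), smul_eq_zero, or_iff_left h0] at e₁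
    exact ⟨β', s', by rw [e₁, map_zero]; ring⟩

variable [FiniteDimensional F V] (hB : (pb Q).Nondegenerate)
include hB

theorem alt_dual {S : Submodule A V} (nd : NondegSub Q (S.restrictScalars F)) {k : ℕ} {u : V}
    (mu : u ∈ S) (nu : (x + 1) ^ (k + 1) • u = 0) (au : pb Q u ((x + 1) ^ k • u) = 0)
    (h0 : (x + 1) ^ k • u ≠ 0) : ∃ v ∈ S, pb Q v u = Q u ∧
      (∀ r : A, pb Q v ((r + st r) • u) = pb Q u (r • u)) ∧
      (Odd k → pb Q v ((x + 1) ^ k • u) = 1) := by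
  let Φ : F × A →ₗ[F] V := (LinearMap.toSpanSingleton F V u).coprod
    (orbL F u ∘ₗ (LinearMap.id + st.toLinearMap))
  have hΦ : ∀ c r, Φ (c, r) = c • u + (r + st r) • u := fun _ _ => rfl
  have dec : ∀ r : A, ∃ b, Sy F (x + xi) b ∧ r + st r = (x + xi) * b ∧
      pb Q u (r • u) = pb Q u (((x + 1) * b) • u) := by
    intro r
    obtain ⟨a, b, sa, sb, rfl⟩ := h.sy_dec r
    refine ⟨b, sb, ?_, ?_⟩
    · rw [map_add, map_mul, h.sy_st sa, h.sy_st sb, h.st_x]
      linear_combination a * two_alg F A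
    · rw [add_mul, one_mul, add_smul, add_smul, map_add, map_add, h.sy_pb sa, h.sy_pb sb, mul_comm,
        add_comm]
  obtain ⟨v₀, hv₀⟩ := exists_pb_eq hB Φ ((LinearMap.toSpanSingleton F F (Q u)).coprod
    (pb Q u ∘ₗ orbL F u)) (by
      rintro ⟨c, r⟩ e
      obtain ⟨b, -, e₁, e₂⟩ := dec r
      rw [hΦ, e₁, h.sig] at e
      have e₃ := congrArg (fun y => (x + 1) ^ k • y) e
      simp only [smul_add, smul_smul, smul_zero] at e₃
      rw [show (x + 1) ^ k * (xi * (x + 1) ^ 2 * b) = xi * (x + 1) * b * (x + 1) ^ (k + 1) by ring,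
        mul_smul, nu, smul_zero, add_zero, smul_comm, smul_eq_zero, or_iff_left h0] at e₃
      rw [e₃, zero_smul, zero_add, mul_assoc, mul_smul, h.isUnit_xi.smul_eq_zero, sq, mul_assoc,
        mul_smul] at e
      obtain ⟨d, hd⟩ := (h.socle nu _).2 h0 e
      change c • Q u + pb Q u (r • u) = 0
      rw [e₃, zero_smul, zero_add, e₂, hd, map_smul, au, smul_zero])
  obtain ⟨v₁, a₁, a₂⟩ : ∃ v₁, (∀ y ∈ LinearMap.range Φ, pb Q y v₁ = pb Q y v₀) ∧
      (Odd k → pb Q ((x + 1) ^ k • u) v₁ = 1) := by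
    by_cases hk : Odd k
    swap
    · exact ⟨v₀, fun _ _ => rfl, fun e => absurd e hk⟩
    obtain ⟨e, rfl⟩ := hk
    obtain ⟨w, b₁, b₂⟩ := exists_adjust hB (LinearMap.range Φ) (u := (x + 1) ^ (2 * e + 1) • u) (by
      rintro ⟨⟨c, r⟩, e⟩
      obtain ⟨_, ⟨b, rfl⟩, e₁, -⟩ := dec r
      rw [hΦ, e₁, ← algebraMap_smul A, ← add_smul] at e
      exact h0 (h.sy_odd nu ⟨C c + X * b, by simp⟩ e)) v₀
    exact ⟨w, b₁, fun _ => b₂⟩
  obtain ⟨v, mv, hv⟩ := nd.exists_proj hB v₁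
  have key : ∀ c r, pb Q v (c • u + (r + st r) • u) = c • Q u + pb Q u (r • u) := fun c r => by
    rw [pb_comm, hv _ (add_mem ((S.restrictScalars F).smul_mem c mu) (S.smul_mem _ mu)), ← hΦ,
      a₁ _ ⟨_, rfl⟩, pb_comm, hv₀]
    rfl
  refine ⟨v, mv, by simpa using key 1 0, fun r => by simpa using key 0 r, fun hk => ?_⟩
  rw [pb_comm, hv _ (S.smul_mem _ mu), a₂ hk]

theorem alt_dec [Fintype F] {k : ℕ} {u v : V} (nu : (x + 1) ^ (k + 1) • u = 0)
    (nv : (x + 1) ^ (k + 1) • v = 0) (au : pb Q u ((x + 1) ^ k • u) = 0)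
    (av : pb Q v ((x + 1) ^ k • v) = 0) (hp : pb Q v ((x + 1) ^ k • u) ≠ 0) (h₁ : pb Q v u = Q u)
    (h₂ : ∀ r : A, pb Q v ((r + st r) • u) = pb Q u (r • u))
    (h₃ : k = 1 ∨ Ev Q (1 : A) v (v + u) ∧ Ev Q x v (v + u)) :
    Bp Q x (Submodule.span A {v, v + u}) := by
  have nw : (x + 1) ^ (k + 1) • (v + u) = 0 := by rw [smul_add, nu, nv, add_zero]
  have nd : NondegSub Q ((Submodule.span A {v, v + u}).restrictScalars F) := fun y hy hy' => by
    obtain ⟨a, b, rfl⟩ := Submodule.mem_span_pair.1 hy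
    have e : a • v + b • (v + u) = (a + b) • v + b • u := by module
    rw [e] at hy' ⊢
    obtain ⟨a', b', e₁, e₂⟩ := h.alt_val nu nv au av hp
      (fun c => hy' _ (Submodule.mem_span_pair.2 ⟨c, 0, by simp⟩))
      (fun c => hy' _ (Submodule.mem_span_pair.2 ⟨-c, c, by module⟩))
    rw [e₁, e₂, mul_smul, mul_smul, nu, nv, smul_zero, smul_zero, add_zero]
  obtain ⟨t₁, t₂, d, r, n₁, n₂⟩ := h.pair_dec hB (v := v) (w := v + u) (fun r => by
      have := h₂ r
      rw [add_smul, map_add, pb_comm Q v (st r • u), ← h.adj'] at this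
      rw [smul_add, pb_add_left, map_add, map_add]
      linear_combination -this - pb Q u (r • u) * CharTwo.two_eq_zero (R := F))
    (by rw [Q_add, h₁, add_assoc, CharTwo.add_self_eq_zero, add_zero]) nd fun a b e => by
      have e' : (a - b) • v + (-b) • u = 0 := by linear_combination (norm := module) e
      obtain ⟨a', b', -, e₂⟩ := h.alt_val nu nv au av hp (a := a - b) (b := -b)
        (fun c => by rw [e']; simp) (fun c => by rw [e']; simp)
      rw [e, ← neg_neg b, e₂, neg_smul, mul_smul, nw, smul_zero, neg_zero]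
  refine ⟨nd, t₁, t₂, d, r, Or.imp n₁ n₂ (h.ev_or (r := (x + 1) ^ k) ?_), fun h4 => ?_⟩
  · rwa [h.top_adj nw, smul_add, map_add, av, zero_add]
  · rcases h₃ with rfl | h₃
    swap
    · exact ⟨n₁ h₃.1, n₂ h₃.2⟩
    have hm : ((X + 1) ^ 2 : F[X]).Monic := by monicity!
    have hd : ((X + 1) ^ 2 : F[X]).natDegree ≤ 2 := by compute_degree!
    have a₁ := finrank_cyc_le h.surj hm (v := v) (by simpa using nv)
    have a₂ := finrank_cyc_le h.surj hm (v := v + u) (by simpa using nw)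
    have a₃ := Submodule.finrank_add_le_finrank_add_finrank
      ((Submodule.span A {v}).restrictScalars F) ((Submodule.span A {v + u}).restrictScalars F)
    rw [Submodule.span_insert, Submodule.restrictScalars_sup] at h4
    omega

theorem alt_bp [Fintype F] {S : Submodule A V} {k : ℕ} (hS : AltS Q x k S) :
    ∃ N ≤ S, Bp Q x N := by
  obtain ⟨nd, nil, ⟨y₁, m₁, n₁⟩, alt⟩ := hS
  rw [show x - 1 = x + 1 by linear_combination -two_alg F A] at nil n₁ alt
  have fin : ∀ {u v}, u ∈ S → v ∈ S → pb Q v ((x + 1) ^ k • u) ≠ 0 → pb Q v u = Q u →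
      (∀ r : A, pb Q v ((r + st r) • u) = pb Q u (r • u)) →
      (k = 1 ∨ Ev Q (1 : A) v (v + u) ∧ Ev Q x v (v + u)) → ∃ N ≤ S, Bp Q x N :=
    fun {u v} mu mv hp h₁ h₂ h₃ => ⟨_, Submodule.span_le.2 (by
      rintro _ (rfl | rfl)
      exacts [mv, add_mem mv mu]),
      h.alt_dec hB (nil u mu) (nil v mv) (alt u mu) (alt v mv) hp h₁ h₂ h₃⟩
  obtain ⟨y₂, m₂, n₂⟩ : ∃ y₂ ∈ S, pb Q y₂ ((x + 1) ^ k • y₁) ≠ 0 := by
    by_contra hc
    push Not at hc
    exact n₁ (nd _ (S.smul_mem _ m₁) fun z hz => (pb_comm Q _ _).trans (hc z hz))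
  have sig' : ∀ j, st ((x + 1) ^ j) * (x + 1) ^ j = (x + xi) ^ j := fun j => by
    rw [map_pow, h.st_t, h.sig, ← mul_pow]; congr 1; ring
  obtain ⟨e, rfl | rfl⟩ := Nat.even_or_odd' k
  · have sig'' : ∀ y ∈ S, (x + xi) ^ e • y = (x + 1) ^ (2 * e) • y := fun y hy => by
      rw [h.sig, mul_pow, ← pow_mul, mul_smul, h.fix_pow (by rw [smul_smul, ← pow_succ', nil y hy])]
    obtain ⟨u, mu, u0, uQ⟩ : ∃ u ∈ S, (x + 1) ^ (2 * e) • u ≠ 0 ∧ Q ((x + 1) ^ e • u) ≠ 0 := by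
      by_contra hc
      push Not at hc
      have a₁ := hc y₁ m₁ n₁
      have a₂ := hc y₂ m₂ fun e => n₂ (by rw [← h.top_adj (nil _ m₁), e]; simp)
      have a₃ := hc _ (add_mem m₂ m₁) fun e => n₂ (by
        have := congrArg (pb Q y₂) e
        rwa [smul_add, map_add, alt y₂ m₂, zero_add, map_zero] at this)
      rw [smul_add, Q_add, a₁, a₂, h.adj, smul_smul, sig', sig'' _ m₁] at a₃
      exact n₂ (by simpa using a₃)
    obtain ⟨v, mv, h₁, h₂, -⟩ := h.alt_dual hB nd mu (nil u mu) (alt u mu) u0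
    have hp : pb Q v ((x + 1) ^ (2 * e) • u) ≠ 0 := by
      rcases e with _ | j
      · simpa [h₁] using uQ
      · rw [← sig'' u mu, show (x + xi) ^ (j + 1) = x * (x + xi) ^ j + st (x * (x + xi) ^ j) by
          rw [map_mul, h.st_x, h.sy_st (Sy.pow _ j)]; ring, h₂]
        rwa [pow_succ', mul_smul, add_smul, one_smul, Q_add, h.Q_x, CharTwo.add_self_eq_zero,
          zero_add, pb_comm, h.adj, smul_smul, smul_smul, mul_right_comm, sig', mul_comm] at uQ
    have hw : pb Q ((x + 1) ^ (2 * e) • v) (v + u) ≠ 0 := by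
      rwa [h.top_adj (nil _ (add_mem mv mu)), smul_add, map_add, alt v mv, zero_add]
    refine fin mu mv hp h₁ h₂ (Or.inr ⟨⟨(x + 1) ^ e, ?_⟩, ⟨(x + 1) ^ e, ?_⟩⟩)
    · rwa [one_mul, ← pow_mul, mul_comm e]
    · rwa [← pow_mul, mul_comm e, show x * (x + 1) ^ (2 * e) = (x + 1) ^ (2 * e + 1) +
        (x + 1) ^ (2 * e) by linear_combination -(x + 1) ^ (2 * e) * two_alg F A, add_smul,
        nil v mv, zero_add]
  rcases e with _ | e
  · obtain ⟨v, mv, h₁, h₂, h₃⟩ := h.alt_dual hB nd m₁ (nil _ m₁) (alt _ m₁) n₁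
    exact fin m₁ mv (by rw [h₃ ⟨0, rfl⟩]; exact one_ne_zero) h₁ h₂ (Or.inl rfl)
  obtain ⟨m, hm⟩ : ∃ m, 2 * (e + 1) + 1 = m + 3 := ⟨2 * e, by ring⟩
  have ho : Odd (m + 3) := hm ▸ ⟨e + 1, rfl⟩
  rw [hm] at nil alt n₁ n₂ fin
  obtain ⟨u, mu, u0, uQ⟩ : ∃ u ∈ S, (x + 1) ^ (m + 3) • u ≠ 0 ∧ Q u ≠ 0 := by
    by_contra hc
    push Not at hc
    have a₀ : ∀ y ∈ S, (x + 1) ^ (m + 3) • y ≠ 0 → ∀ z ∈ S, (x + 1) ^ (m + 3) • z = 0 →
        pb Q z y = -Q z := fun y my ny z mz nz => by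
      have := hc _ (add_mem mz my) (by rwa [smul_add, nz, zero_add])
      rw [Q_add, hc y my ny] at this
      linear_combination this
    have z₁ : (x + 1) ^ (m + 3) • (x + 1) • y₁ = 0 := by rw [smul_smul, ← pow_succ, nil _ m₁]
    have z₂ : (x + 1) ^ (m + 3) • st ((x + 1) ^ (m + 2)) • y₂ = 0 := by
      rw [smul_smul, map_pow, h.st_t, show (x + 1) ^ (m + 3) * (xi * (x + 1)) ^ (m + 2) =
        xi ^ (m + 2) * (x + 1) ^ (m + 1) * (x + 1) ^ (m + 3 + 1) by rw [mul_pow]; ring, mul_smul,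
        nil _ m₂, smul_zero]
    have a₁ := a₀ y₁ m₁ n₁ _ (S.smul_mem _ m₂) z₂
    have a₂ := a₀ _ (add_mem m₁ (S.smul_mem (x + 1) m₁)) (by rwa [smul_add, z₁, add_zero]) _
      (S.smul_mem _ m₂) z₂
    rw [map_add, a₁, add_eq_left, ← h.adj', smul_smul, ← pow_succ] at a₂
    exact n₂ a₂
  obtain ⟨v, mv, h₁, h₂, h₃⟩ := h.alt_dual hB nd mu (nil u mu) (alt u mu) u0
  have hp : pb Q v ((x + 1) ^ (m + 3) • u) ≠ 0 := by rw [h₃ ho]; exact one_ne_zero
  have ev : ∀ v, pb Q v u = Q u → Ev Q (1 : A) v (v + u) := fun v h₁ =>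
    ⟨1, by simpa [pb_self_two, h₁] using uQ⟩
  by_cases hx : pb Q (x • v) (v + u) = 0
  swap
  · exact fin mu mv hp h₁ h₂ (Or.inr ⟨ev v h₁, 1, by simpa using hx⟩)
  obtain ⟨y, hy⟩ := exists_pb_eq hB ((orbL F u).coprod
    (LinearMap.toSpanSingleton F V ((x + 1) ^ (m + 3) • v))) (LinearMap.snd F A F) (by
      rintro ⟨r, d⟩ e
      change r • u + d • (x + 1) ^ (m + 3) • v = 0 at e
      have e₁ := congrArg (fun y => (x + 1) • y) e
      simp only [smul_add, smul_zero] at e₁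
      rw [smul_comm _ d, smul_smul _ _ v, ← pow_succ', nil v mv, smul_zero, add_zero] at e₁
      obtain ⟨c, hc⟩ := (h.socle (nil u mu) r).2 u0 e₁
      have e₂ := congrArg (pb Q u) e
      rw [hc, map_add, map_smul _ c, map_smul _ d, alt u mu, pb_comm, h.top_adj (nil u mu), h₃ ho] at e₂
      simpa using e₂)
  obtain ⟨z, mz, hz⟩ := nd.exists_proj hB y
  have b₁ : ∀ a r : A, pb Q (a • z) (r • u) = 0 := fun a r => by
    rw [h.adj, smul_smul, pb_comm, hz _ (S.smul_mem _ mu), pb_comm]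
    simpa [orbL_apply] using hy (st a * r, 0)
  have b₂ : pb Q ((x + 1) ^ (m + 3) • v) z = 1 := by
    rw [hz _ (S.smul_mem _ mv), pb_comm]
    simpa using hy (0, 1)
  have b₃ : ∀ a : A, pb Q (a • z) u = 0 := fun a => by simpa using b₁ a 1
  have h₁' : pb Q (v + (x + 1) ^ (m + 1) • z) u = Q u := by rw [pb_add_left, b₃, add_zero, h₁]
  refine fin mu (add_mem mv (S.smul_mem ((x + 1) ^ (m + 1)) mz))
    (by rwa [pb_add_left, b₁, add_zero]) h₁' (fun r => by rw [pb_add_left, b₁, add_zero, h₂])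
    (Or.inr ⟨ev _ h₁', 1, ?_⟩)
  have c₁ : pb Q (x • v) ((x + 1) ^ (m + 1) • z) + pb Q (x • (x + 1) ^ (m + 1) • z) v = 1 := by
    rw [h.adj x _ v, h.st_x, pb_comm Q _ (xi • v), ← pb_add_left, ← add_smul, h.adj', smul_smul,
      map_pow, h.st_t, h.sig, show (xi * (x + 1)) ^ (m + 1) * (xi * (x + 1) ^ 2) =
        xi ^ (m + 2) * (x + 1) ^ (m + 3) by rw [mul_pow]; ring, mul_smul,
      h.fix_pow (by rw [smul_smul, ← pow_succ', nil v mv]), b₂]
  have c₂ : pb Q (x • (x + 1) ^ (m + 1) • z) ((x + 1) ^ (m + 1) • z) = 0 := by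
    obtain ⟨c, hc⟩ := h.val_smul (-1) (xi ^ (m + 1) * (x + 1) ^ m) (y := (x + 1) ^ (m + 3) • z) (by
      rw [map_neg, map_one, sub_neg_eq_add, smul_smul, ← pow_succ', nil z mz])
    rw [pb_comm, h.adj, smul_smul, smul_smul, mul_right_comm, sig', show (x + xi) ^ (m + 1) * x =
      xi ^ (m + 1) * (x + 1) ^ m * (x + 1) ^ (m + 3) - (x + xi) ^ (m + 1) by
        rw [h.sig, mul_pow, ← pow_mul]; ring, sub_smul, map_sub, h.sy_pb (Sy.pow _ _), mul_smul, hc,
      map_smul, alt z mz, smul_zero, sub_zero]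
  rw [map_add] at hx
  rw [one_pow, mul_one, smul_add, pb_add_left, map_add, map_add, map_add, map_add, c₂, smul_smul,
    b₃, mul_smul]
  intro e
  exact one_ne_zero (α := F) (by linear_combination e - hx - c₁)

end Cx

end Cfsg.Agent.H6
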