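import Cfsg.Agent.H6.OreO8
import Cfsg.Agent.H6.OrthInv

/-! Characteristic two: every element of `Ω` is a commutator in `Ω`. -/

set_option autoImplicit false
open Module Polynomial

namespace Cfsg.Agent.H6

section

variable {F V A : Type*} [Field F] [AddCommGroup V] [Module F V] [CommRing A] [Algebra F A]
  [Module A V] [IsScalarTower F A V] {Q : QuadraticForm F V} {x xi : A} {st : A →ₐ[F] A}

/-- The ranks differ by at most one. -/
def Cl (t₁ t₂ : OG Q) : Prop :=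
  finrank F (mvS t₁) ≤ finrank F (mvS t₂) + 1 ∧ finrank F (mvS t₂) ≤ finrank F (mvS t₁) + 1

/-- A factorization on the whole space into nonalternating involutions of close ranks. -/
def Good (Q : QuadraticForm F V) (x : A) : Prop :=
  ∃ t₁ t₂ : OG Q, Dec x ⊤ t₁ t₂ ∧ Cl t₁ t₂ ∧ NA t₁ ∧ NA t₂

theorem Dec.orient {W : Submodule A V} {t₁ t₂ : OG Q} (d : Dec x W t₁ t₂) (c : Cl t₁ t₂) :
    ∃ s₁ s₂ : OG Q, Dec x W s₁ s₂ ∧ finrank F (mvS s₁) ≤ finrank F (mvS s₂) ∧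
      finrank F (mvS s₂) ≤ finrank F (mvS s₁) + 1 ∧ (NA t₁ ∨ NA t₂ → NA s₁ ∨ NA s₂) ∧
      (NA t₁ ∧ NA t₂ → NA s₁ ∧ NA s₂) := by
  rcases le_total (finrank F (mvS t₁)) (finrank F (mvS t₂)) with h | h
  · exact ⟨t₁, t₂, d, h, c.2, id, id⟩
  · exact ⟨_, _, d.swap, by rwa [finrank_mvS_conj], by rw [finrank_mvS_conj]; exact c.1,
      fun n => n.symm.imp id (·.conj _), fun n => ⟨n.2, n.1.conj _⟩⟩

theorem nd_sup {W₁ W₂ : Submodule A V} (h₁ : NondegSub Q (W₁.restrictScalars F))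
    (h₂ : NondegSub Q (W₂.restrictScalars F)) (ho : ∀ a ∈ W₁, ∀ b ∈ W₂, pb Q a b = 0) :
    NondegSub Q ((W₁ ⊔ W₂).restrictScalars F) := fun y hy hy' => by
  obtain ⟨a, ha, b, hb, rfl⟩ := Submodule.mem_sup.1 (show y ∈ W₁ ⊔ W₂ from hy)
  rw [h₁ a ha fun z hz => by
      simpa [pb_add_left, pb_comm Q b, ho z hz b hb] using hy' z (Submodule.mem_sup_left hz),
    h₂ b hb fun z hz => by
      simpa [pb_add_left, ho a ha z hz] using hy' z (Submodule.mem_sup_right hz), add_zero]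

omit [Algebra F A] [IsScalarTower F A V] in
theorem CycU.add {k l : ℕ} {v w : V} (hv : CycU Q x k v) (hw : CycU Q x l w) (hl : l < k)
    (ho : ∀ a : A, pb Q w (a • v) = 0) : CycU Q x k (v + w) := by
  obtain ⟨m, rfl⟩ := Nat.exists_eq_add_of_lt hl
  have e : ∀ j, (x + 1) ^ (l + j + 1) • w = 0 := fun j => by
    rw [add_right_comm, pow_add, mul_comm, mul_smul, hw.nil, smul_zero]
  refine ⟨?_, ?_⟩
  · rw [smul_add, hv.nil, zero_add]
    exact e (m + 1)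
  · rw [smul_add, e, add_zero, pb_add_left, ho, add_zero]
    exact hv.top

variable [FiniteDimensional F V]

namespace Cx

variable (h : Cx Q x xi st) (hB : (pb Q).Nondegenerate)
include h hB

theorem compl {N W : Submodule A V} (hNW : N ≤ W) (hN : NondegSub Q (N.restrictScalars F))
    (hW : NondegSub Q (W.restrictScalars F)) :
    NondegSub Q ((W ⊓ h.prp N).restrictScalars F) ∧ N ⊔ (W ⊓ h.prp N) = W := by
  have key : ∀ y ∈ W, ∃ a ∈ N, ∃ b ∈ W ⊓ h.prp N, a + b = y := fun y hy => by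
    obtain ⟨a, ha, ha'⟩ := hN.exists_proj hB y
    exact ⟨a, ha, y - a, ⟨sub_mem hy (hNW ha), fun z hz => by rw [map_sub, ha' z hz, sub_self]⟩,
      add_sub_cancel _ _⟩
  refine ⟨fun y hy hy' => hW y hy.1 fun z hz => ?_, le_antisymm (sup_le hNW inf_le_left)
    fun y hy => Submodule.mem_sup.2 (key y hy)⟩
  obtain ⟨a, ha, b, hb, rfl⟩ := key z hz
  rw [map_add, hy' b hb, pb_comm, hy.2 a ha, add_zero]

variable [CharP F 2] [Fintype F]

theorem pieces {W : Submodule A V} (hW : NondegSub Q (W.restrictScalars F)) (h0 : W ≠ ⊥) :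
    (∃ N ≤ W, Bp Q x N) ∨ ∃ v ∈ W, ∃ k, CycU Q x k v := by
  rcases h.raw hW h0 with ⟨v, mv, w, mw, hp⟩ | ⟨v, mv, P, k, hp⟩ | hp | ⟨S, hS, k, hp⟩
  · refine Or.inl ⟨_, Submodule.span_le.2 ?_, h.iso_bp hB hp⟩
    rintro _ (rfl | rfl)
    exacts [mv, mw]
  · exact Or.inl ⟨_, (Submodule.span_singleton_le_iff_mem _ _).2 mv, h.cyc_bp hB hp⟩
  · exact Or.inr hp
  · rw [show -x = x by linear_combination -x * two_alg F A, or_self] at hp
    obtain ⟨N, hN, hb⟩ := h.alt_bp hB hp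
    exact Or.inl ⟨N, hN.trans hS, hb⟩

theorem bal (n : ℕ) : ∀ W : Submodule A V, finrank F (W.restrictScalars F) = n →
    NondegSub Q (W.restrictScalars F) → ∃ t₁ t₂ : OG Q, Dec x W t₁ t₂ ∧
      finrank F (mvS t₁) ≤ finrank F (mvS t₂) ∧ finrank F (mvS t₂) ≤ finrank F (mvS t₁) + 1 ∧
      (W ≠ ⊥ → NA t₁ ∨ NA t₂) := by
  induction n using Nat.strong_induction_on with
  | _ n ih =>
  intro W hn hW
  by_cases h0 : W = ⊥
  · refine ⟨1, 1, ⟨one_mul _, one_mul _, by simp [mvS_one], by simp [mvS_one], fun v hv => ?_⟩,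
      le_rfl, Nat.le_succ _, fun e => absurd h0 e⟩
    rw [h0, Submodule.mem_bot] at hv
    simp [hv]
  obtain ⟨N, hN, nd, s₁, s₂, d, r₁, r₂, na⟩ : ∃ N ≤ W, NondegSub Q (N.restrictScalars F) ∧
      ∃ s₁ s₂ : OG Q, Dec x N s₁ s₂ ∧ finrank F (mvS s₁) ≤ finrank F (mvS s₂) ∧
        finrank F (mvS s₂) ≤ finrank F (mvS s₁) + 1 ∧ (NA s₁ ∨ NA s₂) := by
    rcases h.pieces hB hW h0 with ⟨N, hN, nd, s₁, s₂, d, r, na, -⟩ | ⟨v, mv, k, hv⟩
    · exact ⟨N, hN, nd, s₁, s₂, d, r.le, by omega, na⟩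
    · obtain ⟨nd, -, s₁, s₂, d, r₁, r₂, n₁, n₂⟩ := h.cycU_dec hB hv
      exact ⟨_, (Submodule.span_singleton_le_iff_mem _ _).2 mv, nd, s₁, s₂, d, r₁, r₂,
        (h.par k).imp (fun e => n₁ (e v hv)) fun e => n₂ (e v hv)⟩
  obtain ⟨c₁, c₂⟩ := h.compl hB hN nd hW
  obtain ⟨y, my, ny⟩ : ∃ y ∈ N, Q y ≠ 0 :=
    na.elim (fun ⟨y, a, b⟩ => ⟨y, d.m₁ a, b⟩) fun ⟨y, a, b⟩ => ⟨y, d.m₂ a, b⟩
  obtain ⟨t₁, t₂, d', r₃, r₄, -⟩ := ih _ (hn ▸ Submodule.finrank_lt_finrank_of_lt (lt_of_le_of_ne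
    (inf_le_left : W ⊓ h.prp N ≤ W) fun e => ny (by
      have : y ∈ (W ⊓ h.prp N).restrictScalars F := e ▸ hN my
      rw [nd y my fun z hz => (pb_comm Q _ _).trans (this.2 z hz), map_zero]))) _ rfl c₁
  obtain ⟨g, g₁, g₂, g₃, g₄⟩ := d.glue hB d'.swap nd fun a ha b hb => hb.2 a ha
  rw [c₂] at g
  rw [finrank_mvS_conj] at g₂
  obtain ⟨u₁, u₂, o₁, o₂, o₃, o₄, -⟩ := g.orient ⟨by omega, by omega⟩
  exact ⟨u₁, u₂, o₁, o₂, o₃, fun _ => o₄ (na.imp (fun e => g₃ (Or.inl e)) fun e => g₄ (Or.inl e))⟩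

theorem good_ext {N : Submodule A V} (nd : NondegSub Q (N.restrictScalars F)) {s₁ s₂ : OG Q}
    (d : Dec x N s₁ s₂) (c : Cl s₁ s₂) (n₁ : NA s₁) (n₂ : NA s₂) : Good Q x := by
  obtain ⟨s₁, s₂, d, r₁, r₂, -, na⟩ := d.orient c
  obtain ⟨c₁, c₂⟩ := h.compl hB le_top nd fun y _ hy => hB.1 y fun z => hy z trivial
  obtain ⟨t₁, t₂, d', r₃, r₄, -⟩ := h.bal hB _ _ rfl c₁
  obtain ⟨g, g₁, g₂, g₃, g₄⟩ := d.glue hB d'.swap nd fun a ha b hb => hb.2 a ha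
  rw [c₂] at g
  rw [finrank_mvS_conj] at g₂
  exact ⟨_, _, g, ⟨by omega, by omega⟩, g₃ (Or.inl (na ⟨n₁, n₂⟩).1), g₄ (Or.inl (na ⟨n₁, n₂⟩).2)⟩

theorem good_bp (h4 : 4 < finrank F V) {N : Submodule A V} (hN : Bp Q x N) : Good Q x := by
  obtain ⟨nd, s₁, s₂, d, r, na, na'⟩ := hN
  obtain ⟨c₁, c₂⟩ := h.compl hB le_top nd fun y _ hy => hB.1 y fun z => hy z trivial
  by_cases h0 : ⊤ ⊓ h.prp N = ⊥
  · rw [h0, sup_bot_eq] at c₂
    subst c₂
    rw [Submodule.restrictScalars_top, finrank_top] at na'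
    exact ⟨s₁, s₂, d, ⟨by omega, by omega⟩, na' h4⟩
  obtain ⟨s₁, s₂, d, r, n₁⟩ : ∃ s₁ s₂ : OG Q, Dec x N s₁ s₂ ∧
      finrank F (mvS s₁) = finrank F (mvS s₂) ∧ NA s₁ :=
    na.elim (fun n => ⟨s₁, s₂, d, r, n⟩) fun n => ⟨_, _, d.swap, by rw [finrank_mvS_conj, r], n⟩
  obtain ⟨t₁, t₂, d', r₃, r₄, nb⟩ := h.bal hB _ _ rfl c₁
  obtain ⟨t₁, t₂, d', r', n₂⟩ : ∃ t₁ t₂ : OG Q, Dec x (⊤ ⊓ h.prp N) t₁ t₂ ∧ Cl t₁ t₂ ∧ NA t₂ :=
    (nb h0).elim (fun n => ⟨_, _, d'.swap, by unfold Cl; rw [finrank_mvS_conj]; omega, n.conj _⟩)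
      fun n => ⟨t₁, t₂, d', ⟨by omega, r₄⟩, n⟩
  obtain ⟨g, g₁, g₂, g₃, g₄⟩ := d.glue hB d' nd fun a ha b hb => hb.2 a ha
  rw [c₂] at g
  obtain ⟨r₁, r₂⟩ := r'
  exact ⟨_, _, g, ⟨by omega, by omega⟩, g₃ (Or.inl n₁), g₄ (Or.inr n₂)⟩

theorem good (h4 : 4 < finrank F V)
    (h1 : ∀ y : V, y ≠ 0 → (x + 1) • y = 0 → ∃ z, (x + 1) • z = 0 ∧ z ∉ F ∙ y) : Good Q x := by
  have ndT : NondegSub Q ((⊤ : Submodule A V).restrictScalars F) :=
    fun y _ hy => hB.1 y fun z => hy z trivial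
  rcases h.pieces hB ndT (fun e => by
    have : finrank F V = 0 := finrank_zero_iff_forall_zero.2 fun y =>
      (Submodule.mem_bot A).1 (e ▸ trivial)
    omega) with ⟨N, -, hN⟩ | ⟨v, -, k, hv⟩
  · exact h.good_bp hB h4 hN
  obtain ⟨nd, hK, s₁, s₂, d, r₁, r₂, n₁, n₂⟩ := h.cycU_dec hB hv
  obtain ⟨c₁, c₂⟩ := h.compl hB le_top nd ndT
  rcases h.pieces hB c₁ (fun e => by
    rw [e, sup_bot_eq] at c₂
    obtain ⟨z, a, b⟩ := h1 ((x + 1) ^ k • v) (fun e => hv.top (by rw [e, map_zero]))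
      (by rw [smul_smul, ← pow_succ', hv.nil])
    exact b (hK z (c₂ ▸ trivial) a)) with ⟨N, -, hN⟩ | ⟨w, mw, l, hw⟩
  · exact h.good_bp hB h4 hN
  obtain ⟨nd', -, t₁, t₂, d', r₃, r₄, n₃, n₄⟩ := h.cycU_dec hB hw
  have ho : ∀ a ∈ Submodule.span A {v}, ∀ b ∈ Submodule.span A {w}, pb Q a b = 0 :=
    fun a ha b hb => ((Submodule.span_singleton_le_iff_mem _ _).2 mw hb).2 a ha
  have o₁ : ∀ a : A, pb Q (a • v) w = 0 := fun a => ho _ (Submodule.mem_span_singleton.2 ⟨a, rfl⟩) _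
    (Submodule.mem_span_singleton_self w)
  have o₂ : ∀ a : A, pb Q (a • w) v = 0 := fun a => (pb_comm Q _ _).trans
    (ho _ (Submodule.mem_span_singleton_self v) _ (Submodule.mem_span_singleton.2 ⟨a, rfl⟩))
  have single : ∀ {v k}, CycU Q x k v → Ev Q (1 : A) v v → Ev Q x v v → Good Q x := by
    intro v k hv e₁ e₂
    obtain ⟨nd, -, s₁, s₂, d, r₁, r₂, n₁, n₂⟩ := h.cycU_dec hB hv
    exact h.good_ext hB nd d ⟨by omega, r₂⟩ (n₁ e₁) (n₂ e₂)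
  obtain ⟨g, g₁, g₂, g₃, g₄⟩ := d.glue hB d'.swap nd ho
  rw [finrank_mvS_conj] at g₂
  have double := h.good_ext hB (nd_sup nd nd' ho) g ⟨by omega, by omega⟩
  by_cases hE : Ev Q (1 : A) v v ∧ Ev Q (1 : A) w w
  · exact double (g₃ (Or.inl (n₁ hE.1))) (g₄ (Or.inr ((n₃ hE.2).conj _)))
  by_cases hO : Ev Q x v v ∧ Ev Q x w w
  · exact double (g₃ (Or.inr (n₄ hO.2))) (g₄ (Or.inl (n₂ hO.1)))
  have hkl : k ≠ l := by
    rintro rfl
    exact (h.par k).elim (fun e => hE ⟨e v hv, e w hw⟩) fun e => hO ⟨e v hv, e w hw⟩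
  obtain ⟨m, hm⟩ : ∃ m, CycU Q x m (v + w) := by
    rcases lt_or_gt_of_ne hkl with e | e
    · exact ⟨l, add_comm w v ▸ hw.add hv e fun a => (pb_comm Q _ _).trans (o₂ a)⟩
    · exact ⟨k, hv.add hw e fun a => (pb_comm Q _ _).trans (o₁ a)⟩
  have sum : ∀ c : A, ¬(Ev Q c v v ∧ Ev Q c w w) → Ev Q c v v ∨ Ev Q c w w →
      Ev Q c (v + w) (v + w) := by
    intro c hc hc'
    simp only [Ev, smul_add, LinearMap.add_apply, map_add, o₁, o₂, add_zero, zero_add, not_and_or,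
      not_exists, not_not] at hc hc' ⊢
    rcases hc' with ⟨a, ha⟩ | ⟨a, ha⟩
    · exact ⟨a, by rwa [hc.resolve_left (fun e => ha (e a)) a, add_zero]⟩
    · exact ⟨a, by rwa [hc.resolve_right (fun e => ha (e a)) a, zero_add]⟩
  have pv := (h.par k).imp (fun e => e v hv) fun e => e v hv
  have pw := (h.par l).imp (fun e => e w hw) fun e => e w hw
  exact single hm (sum _ hE (pv.elim Or.inl fun a => pw.elim Or.inr fun b => absurd ⟨a, b⟩ hO))
    (sum _ hO (pv.elim (fun a => pw.elim (fun b => absurd ⟨a, b⟩ hE) Or.inr) Or.inl))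

end Cx

end

theorem aeval_eq_zero_of_pow {F B : Type*} [Field F] [Ring B] [Algebra F B] {b : B} {n : ℕ}
    (hb : b ^ n = 1) (a : F[X]) (ha : a ∈ Ideal.span {(X ^ n - 1 : F[X])}) : aeval b a = 0 := by
  obtain ⟨c, rfl⟩ := Ideal.mem_span_singleton.1 ha
  simp [hb]

variable {F V : Type*} [Field F] [AddCommGroup V] [Module F V] {Q : QuadraticForm F V}
  [FiniteDimensional F V] [Fintype F] [DecidableEq F] [CharP F 2]

theorem cm2_of_mem_two (hB : (pb Q).Nondegenerate) (h8 : 8 ≤ finrank F V)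
    (he : Even (finrank F V)) {g : OG Q} (hg : g ∈ commutator (OG Q)) : Cm2 g := by
  have hN : BigEnough F V := Or.inl (by omega)
  rw [mem_commutator_char_two hB hN] at hg
  have : Finite V := Module.finite_of_finite F
  have : Finite (V ≃ₗ[F] V) := Finite.of_injective _ DFunLike.coe_injective
  obtain ⟨m, hm⟩ : ∃ m, orderOf g = m + 1 :=
    Nat.exists_eq_add_one_of_ne_zero (orderOf_pos g).ne'
  let G : End F V := (g.1 : V →ₗ[F] V)
  have hG : G ^ (m + 1) = 1 := by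
    have : g.1 ^ (m + 1) = 1 := by rw [← Subgroup.coe_pow, ← hm, pow_orderOf_eq_one]; rfl
    exact LinearMap.ext fun v => by
      rw [Module.End.pow_apply]
      exact (LinearEquiv.pow_apply g.1 (m + 1) v).symm.trans (by rw [this]; rfl)
  let I : Ideal F[X] := Ideal.span {X ^ (m + 1) - 1}
  let x : F[X] ⧸ I := Ideal.Quotient.mkₐ F I X
  have hx : x ^ (m + 1) = 1 := by
    rw [← sub_eq_zero, ← map_pow, ← map_one (Ideal.Quotient.mkₐ F I), ← map_sub]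
    exact Ideal.Quotient.eq_zero_iff_mem.2 (Ideal.mem_span_singleton_self _)
  let φ : (F[X] ⧸ I) →ₐ[F] End F V := Ideal.Quotient.liftₐ I (aeval G) (aeval_eq_zero_of_pow hG)
  let st : (F[X] ⧸ I) →ₐ[F] (F[X] ⧸ I) := Ideal.Quotient.liftₐ I (aeval (x ^ m))
    (aeval_eq_zero_of_pow (by rw [← pow_mul, mul_comm, pow_mul, hx, one_pow]))
  let _ : Module (F[X] ⧸ I) V := Module.compHom V φ.toRingHom
  have hs : ∀ (a : F[X] ⧸ I) (v : V), a • v = φ a v := fun _ _ => rfl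
  have : IsScalarTower F (F[X] ⧸ I) V := ⟨fun c a v => by rw [hs, hs, map_smul]; rfl⟩
  have hxv : ∀ v : V, x • v = g.1 v := fun v => by
    rw [hs, show φ x = G from aeval_X G]
    rfl
  have e₁ : st x = x ^ m := aeval_X _
  have e₂ : x * x ^ m = 1 := by rw [← pow_succ', hx]
  have h : Cx Q x (x ^ m) st :=
    { mul := e₂
      st_x := e₁
      st_xi := by
        rw [map_pow, e₁, ← one_mul ((x ^ m) ^ m), ← hx, pow_succ', mul_assoc, ← mul_pow, e₂,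
          one_pow, mul_one]
      surj := fun a => by
        obtain ⟨p, rfl⟩ := Ideal.Quotient.mkₐ_surjective F I a
        exact ⟨p, by rw [aeval_algHom_apply, aeval_X_left_apply]⟩
      Q_x := fun v => by rw [hxv, OG_Q]
      tors := ⟨X ^ (m + 1) - C 1, X_pow_sub_C_ne_zero (Nat.succ_pos m) 1, by simp [hx]⟩ }
  have hf : ∀ v : V, (x + 1) • v = 0 ↔ v ∈ fxS g := fun v => by
    rw [show x + 1 = x - 1 by linear_combination two_alg F (F[X] ⧸ I), sub_smul, one_smul, hxv,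
      sub_eq_zero, mem_fxS]
  obtain ⟨t₁, t₂, d, ⟨r₁, r₂⟩, n₁, n₂⟩ := h.good hB (by omega) fun y y0 hy => by
    by_contra hc
    push Not at hc
    have e : fxS g = F ∙ y := le_antisymm (fun z hz => hc z ((hf z).2 hz))
      ((Submodule.span_singleton_le_iff_mem _ _).2 ((hf y).1 hy))
    have := finrank_mvS_add g
    rw [e, finrank_span_singleton y0] at this
    rw [← this, Nat.even_add_one] at he
    exact he hg
  obtain rfl : g = t₁ * t₂ := OG_ext fun v => by rw [OG_mul_apply, d.eq v trivial, hxv]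
  refine cm2_two hB h8 d.i₁ d.i₂ n₁ n₂ ?_
  rw [← dick_eq_one_iff hB hN, map_mul, dick_apply, dick_apply, ← pow_add,
    neg_one_pow_eq_one_iff_even (by decide), Nat.even_iff] at hg
  omega

end Cfsg.Agent.H6
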