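import Cfsg.Agent.H6.OrthChar2

/-! Splitting of involution classes from the orthogonal group to its commutator subgroup. -/

set_option autoImplicit false
open Module
open scoped Matrix

namespace Cfsg.Agent.H6

variable {F : Type*} [Field F] {ι : Type} [Fintype ι] [DecidableEq ι]

theorem invol_splitting [Fintype F] [CharP F 2] (Q : QuadraticForm F (ι → F))
    (hB : (pb Q).Nondegenerate) (h5 : 5 ≤ Fintype.card ι) (m : ℕ) (hm : Fintype.card ι = 2 * m)
    (t s : isometryGroup F Q) (ht : orderOf t = 2) (htO : t ∈ Omega F Q) (hconj : IsConj t s) :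
    (¬ ((((t : GL ι F) : Matrix ι ι F) - 1).rank = m ∧
        ∀ v : ι → F, Q (v + Matrix.mulVec ((t : GL ι F) : Matrix ι ι F) v) = 0) →
      ∃ g ∈ Omega F Q, g * t * g⁻¹ = s) ∧
    (((((t : GL ι F) : Matrix ι ι F) - 1).rank = m ∧
        ∀ v : ι → F, Q (v + Matrix.mulVec ((t : GL ι F) : Matrix ι ι F) v) = 0) →
      ((∃ g ∈ Omega F Q, g * t * g⁻¹ = s) ↔
        Even (Module.finrank F ↥(LinearMap.range (Matrix.toLin' (((t : GL ι F) : Matrix ι ι F) - 1)) ⊓
          LinearMap.range (Matrix.toLin' (((s : GL ι F) : Matrix ι ι F) - 1)))))) := by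
  classical
  have hN : Module.finrank F (ι → F) = 2 * m := by simpa using hm
  have ht2 := mul_self_of_orderOf (ogEquiv Q) ht
  have hsub : ∀ u v : ι → F, u - v = u + v := fun u v => by
    funext i
    exact CharTwo.sub_eq_add _ _
  have hiff : TotSing Q (mvS (ogEquiv Q t)) ↔ ∀ v : ι → F,
      Q (v + Matrix.mulVec ((t : GL ι F) : Matrix ι ι F) v) = 0 := by
    constructor
    · intro h v
      have := h _ (sub_mem_mvS _ v)
      rwa [ogEquiv_apply, hsub] at this
    · rintro h _ ⟨v, rfl⟩
      rw [omg_apply, ogEquiv_apply, hsub]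
      exact h v
  constructor
  · intro hn
    refine exists_conj_Omega Q hB h5 hconj fun hT => hn ?_
    have h1 := hT.two_mul_finrank_le hB
    have h2 := finrank_mvS_add (ogEquiv Q t)
    have h3 := Submodule.finrank_mono (mvS_le_fxS_of_invol ht2)
    refine ⟨?_, hiff.1 fun x hx => hT x (mvS_le_fxS_of_invol ht2 hx)⟩
    rw [rank_sub_one Q]
    omega
  · rintro ⟨hr, hT⟩
    rw [← hiff] at hT
    have hev := (mem_Omega_char_two Q hB h5 t).1 htO
    rw [hr] at hev
    rw [rank_sub_one Q] at hr
    rw [range_toLin'_sub_one Q, range_toLin'_sub_one Q]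
    have key : ∀ g : isometryGroup F Q, g * t * g⁻¹ = s → (g ∈ Omega F Q ↔
        Even (Module.finrank F ↥(mvS (ogEquiv Q t) ⊓ mvS (ogEquiv Q s)))) := by
      rintro g rfl
      rw [mem_Omega_char_two Q hB h5, rank_sub_one Q, map_mul, map_mul, map_inv, mvS_conj,
        even_mvS_iff hB (bigEnough_of_card h5) _ hT (by omega) hT (by omega), inf_idem, hr,
        Nat.even_add]
      simp [hev]
    constructor
    · rintro ⟨g, hg, e⟩
      exact (key g e).1 hg
    · intro h
      obtain ⟨g, e⟩ := isConj_iff.1 hconj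
      exact ⟨g, (key g e).2 h, e⟩

end Cfsg.Agent.H6
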