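import Cfsg.Agent.H6.OrthChar2

/-! Pointwise stabilisers in the plus type orthogonal group over the field with two elements. -/

set_option autoImplicit false
open Module
open scoped Matrix

namespace Cfsg.Agent.H6

theorem exists_ne_one_fixing {F V : Type*} [Field F] [AddCommGroup V] [Module F V]
    [FiniteDimensional F V] {Q : QuadraticForm F V} (hB : (pb Q).Nondegenerate) (A : Submodule F V)
    (hA : finrank F A + 2 ≤ finrank F V) : ∃ g : OG Q, g ≠ 1 ∧ ∀ x ∈ A, g.1 x = x := by
  have hd : 2 ≤ finrank F ((pb Q).orthogonal A) := by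
    rw [LinearMap.BilinForm.finrank_orthogonal hB]
    omega
  by_cases hT : TotSing Q ((pb Q).orthogonal A)
  · have h0 : (pb Q).orthogonal A ≠ ⊥ := by
      intro e
      rw [e, finrank_bot] at hd
      omega
    obtain ⟨a, ha, ha0⟩ := Submodule.exists_mem_ne_zero_of_ne_bot h0
    have : ¬ (pb Q).orthogonal A ≤ F ∙ a := by
      intro hle
      have := Submodule.finrank_mono hle
      rw [finrank_span_singleton ha0] at this
      omega
    obtain ⟨b, hb, hb'⟩ := SetLike.not_le_iff_exists.1 this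
    obtain ⟨x, hx1, hx2⟩ := exists_dual hB _ hb'
    refine ⟨eich hB a b (hT a ha) (hT.pb_eq ha hb), fun e => ?_, fun y hy => ?_⟩
    · have := congrArg (fun g : OG Q => g.1 x) e
      simp only [eich_apply, OG_one_apply] at this
      rw [pb_comm Q x b, hx2, pb_comm Q x a, hx1 a (Submodule.mem_span_singleton_self a)] at this
      simp [ha0] at this
    · have h1 : pb Q y a = 0 := ha y hy
      have h2 : pb Q y b = 0 := hb y hy
      rw [eich_apply, h1, h2]
      simp
  · simp only [TotSing, not_forall] at hT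
    obtain ⟨v, hv, hv'⟩ := hT
    refine ⟨refl Q v, fun e => ?_, fun y hy => refl_of_orth (hv y hy)⟩
    have hv0 : v ≠ 0 := by rintro rfl; simp at hv'
    obtain ⟨x, -, hx⟩ := exists_dual hB ⊥ (u := v) (by simpa using hv0)
    have := congrArg (fun g : OG Q => g.1 x) e
    simp only [refl_apply, OG_one_apply] at this
    rw [pb_comm Q x v, hx] at this
    simp [hv0, hv'] at this

theorem eq_zero_or_one_of_card_two {F : Type*} [Field F] [Fintype F] (hF : Fintype.card F = 2)
    (x : F) : x = 0 ∨ x = 1 := by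
  have := FiniteField.pow_card x
  rw [hF] at this
  have h : x * (x - 1) = 0 := by linear_combination this
  rcases mul_eq_zero.1 h with h | h
  · exact Or.inl h
  · exact Or.inr (sub_eq_zero.1 h)

/-- A totally singular subspace of dimension `m - 1`. -/
def singSub (F : Type*) [Field F] {m : ℕ} (i0 : Fin m) : Submodule F (Fin m ⊕ Fin m → F) where
  carrier := {v | (∀ i, v (.inr i) = 0) ∧ v (.inl i0) = 0}
  add_mem' ha hb := ⟨fun i => by simp [ha.1 i, hb.1 i], by simp [ha.2, hb.2]⟩
  zero_mem' := ⟨fun _ => rfl, rfl⟩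
  smul_mem' c x hx := ⟨fun i => by simp [hx.1 i], by simp [hx.2]⟩

theorem finrank_singSub (F : Type*) [Field F] {m : ℕ} (i0 : Fin m) :
    finrank F (singSub F i0) + 1 ≤ m := by
  let e : {i : Fin m // i ≠ i0} → (Fin m ⊕ Fin m → F) := fun i => Pi.single (.inl i.1) 1
  have h1 : singSub F i0 ≤ Submodule.span F (Set.range e) := by
    intro x hx
    rw [Submodule.mem_span_range_iff_exists_fun]
    refine ⟨fun i => x (.inl i.1), ?_⟩
    funext j
    rcases j with j | j
    · by_cases hj : j = i0
      · subst hj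
        rw [hx.2, Finset.sum_apply]
        refine Finset.sum_eq_zero fun i _ => ?_
        simp [e, Pi.single_apply, i.2.symm]
      · rw [Finset.sum_apply, Finset.sum_eq_single ⟨j, hj⟩]
        · simp [e]
        · intro i _ hi
          have : j ≠ i.1 := fun h => hi (Subtype.ext h.symm)
          simp [e, this]
        · simp
    · simp [e, hx.1 j]
  have h2 := (Submodule.finrank_mono h1).trans (finrank_range_le_card e)
  have h3 := i0.pos
  simp only [ne_eq, Fintype.card_subtype_compl, Fintype.card_fin, Fintype.card_unique] at h2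
  omega

theorem pow_eight_of_fix {F : Type*} [Field F] [Fintype F] (hF : Fintype.card F = 2) {m : ℕ}
    (i0 : Fin m) (g : OG (qPlus m F)) (hg : ∀ x ∈ singSub F i0, g.1 x = x) : g ^ 8 = 1 := by
  have hB := qPlus_nondeg m F
  have h2 : (2 : F) = 0 := by
    have := FiniteField.cast_card_eq_zero F
    rw [hF] at this
    exact_mod_cast this
  let P := (pb (qPlus m F)).orthogonal (singSub F i0)
  have hP : ∀ x, x ∈ P ↔ ∀ i, i ≠ i0 → x (.inr i) = 0 := by
    intro x
    constructor
    · intro hx i hi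
      have : pb (qPlus m F) (Pi.single (.inl i) 1) x = 0 := hx _ ⟨fun j => by simp, by simp [hi.symm]⟩
      simpa [pb_qPlus, Pi.single_apply] using this
    · intro hx y hy
      change pb (qPlus m F) y x = 0
      rw [pb_qPlus]
      refine Finset.sum_eq_zero fun i _ => ?_
      by_cases hi : i = i0
      · rw [hi, hy.1, hy.2]; simp
      · rw [hy.1, hx i hi]; simp
  have hQ : ∀ x ∈ P, qPlus m F x = x (.inl i0) * x (.inr i0) := by
    intro x hx
    rw [qPlus_apply, Finset.sum_eq_single i0]
    · intro i _ hi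
      rw [(hP x).1 hx i hi, mul_zero]
    · simp
  have hgP : ∀ x ∈ P, g.1 x ∈ P := by
    intro x hx y hy
    change pb (qPlus m F) y _ = 0
    rw [← hg y hy, OG_pb]
    exact hx y hy
  let e : Fin m ⊕ Fin m → F := Pi.single (.inl i0) 1
  let f : Fin m ⊕ Fin m → F := Pi.single (.inr i0) 1
  have he : e ∈ P := (hP _).2 fun i _ => by simp [e]
  have hf : f ∈ P := (hP _).2 fun i hi => by simp [f, hi]
  have hdec : ∀ x ∈ P, x - x (.inl i0) • e - x (.inr i0) • f ∈ singSub F i0 := by
    intro x hx
    refine ⟨fun i => ?_, by simp [e, f]⟩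
    by_cases hi : i = i0
    · simp [e, f, hi]
    · simp [e, f, hi, (hP x).1 hx i hi]
  have hact : ∀ x ∈ P, g.1 x (.inl i0) = x (.inl i0) * g.1 e (.inl i0) + x (.inr i0) * g.1 f (.inl i0) ∧
      g.1 x (.inr i0) = x (.inl i0) * g.1 e (.inr i0) + x (.inr i0) * g.1 f (.inr i0) := by
    intro x hx
    have h := hg _ (hdec x hx)
    have h1 := (hdec x hx).1 i0
    have h3 := (hdec x hx).2
    rw [← h] at h1 h3
    simp only [map_sub, map_smul, Pi.sub_apply, Pi.smul_apply, smul_eq_mul] at h1 h3
    constructor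
    · linear_combination h3
    · linear_combination h1
  have q1 := hQ _ (hgP e he)
  have q2 := hQ _ (hgP f hf)
  have q3 := hQ _ (hgP _ (P.add_mem he hf))
  rw [OG_Q, hQ _ he] at q1
  rw [OG_Q, hQ _ hf] at q2
  rw [OG_Q, hQ _ (P.add_mem he hf), map_add] at q3
  simp only [e, f, Pi.add_apply, Pi.single_eq_same, ne_eq, reduceCtorEq, not_false_eq_true,
    Pi.single_eq_of_ne, mul_zero, zero_mul, add_zero, zero_add, mul_one] at q1 q2 q3
  have hsq : ∀ x ∈ P, g.1 (g.1 x) - x ∈ singSub F i0 := by
    intro x hx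
    obtain ⟨a1, a2⟩ := hact x hx
    obtain ⟨b1, b2⟩ := hact _ (hgP x hx)
    have h11 : (1 : F) + 1 = 0 := by rw [one_add_one_eq_two, h2]
    refine ⟨fun i => ?_, ?_⟩
    · by_cases hi : i = i0
      · rw [hi, Pi.sub_apply, b2, a1, a2]
        rcases eq_zero_or_one_of_card_two hF (g.1 e (.inl i0)) with h1 | h1 <;>
        rcases eq_zero_or_one_of_card_two hF (g.1 e (.inr i0)) with h3 | h3 <;>
        rcases eq_zero_or_one_of_card_two hF (g.1 f (.inl i0)) with h4 | h4 <;>
        rcases eq_zero_or_one_of_card_two hF (g.1 f (.inr i0)) with h5 | h5 <;>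
        simp [e, f, h11] at h1 h3 h4 h5 <;> simp [e, f, h1, h3, h4, h5, h11] at q1 q2 q3 ⊢
      · rw [Pi.sub_apply, (hP _).1 (hgP _ (hgP x hx)) i hi, (hP _).1 hx i hi, sub_zero]
    · rw [Pi.sub_apply, b1, a1, a2]
      rcases eq_zero_or_one_of_card_two hF (g.1 e (.inl i0)) with h1 | h1 <;>
      rcases eq_zero_or_one_of_card_two hF (g.1 e (.inr i0)) with h3 | h3 <;>
      rcases eq_zero_or_one_of_card_two hF (g.1 f (.inl i0)) with h4 | h4 <;>
      rcases eq_zero_or_one_of_card_two hF (g.1 f (.inr i0)) with h5 | h5 <;>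
      simp [e, f, h11] at h1 h3 h4 h5 <;> simp [e, f, h1, h3, h4, h5, h11] at q1 q2 q3 ⊢
  have hmv : ∀ v, g.1 (g.1 v) - v ∈ P := by
    intro v y hy
    change pb (qPlus m F) y _ = 0
    rw [map_sub]
    have : pb (qPlus m F) y (g.1 (g.1 v)) = pb (qPlus m F) y v := by
      rw [← OG_pb g y v, ← OG_pb g (g.1 y), hg y hy, hg y hy]
    rw [this, sub_self]
  refine OG_ext fun v => ?_
  set a := g.1 (g.1 v) - v with ha
  set b := g.1 (g.1 a) - a with hb
  have hb' : g.1 b = b := hg _ (hsq a (hmv v))
  have e1 : g.1 (g.1 v) = v + a := by rw [ha]; abel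
  have e2 : g.1 (g.1 a) = a + b := by rw [hb]; abel
  have : (g ^ 8).1 v = g.1 (g.1 (g.1 (g.1 (g.1 (g.1 (g.1 (g.1 v))))))) := by
    simp [pow_succ]
  rw [this, e1]
  simp only [map_add, e1, e2, hb', OG_one_apply]
  funext i
  simp only [Pi.add_apply]
  linear_combination (2 * a i + 3 * b i) * h2

end Cfsg.Agent.H6
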