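import Cfsg.Agent.H6.PD2

/-! Single sign changes and transport of long root subgroups. -/

set_option autoImplicit false

open Subgroup Matrix
open scoped commutatorElement

namespace Cfsg.Agent.H6

open OF Frame

variable {K V I ι J : Type*} [Field K] [AddCommGroup V] [Module K V] [Group J] {O : OF K V}
  {F : Frame O I} {p : ι → I} {π : J →* O.U}

/-- Single sign changes. -/
structure Sfl (F : Frame O I) (g : O.U) (i : I) (c c' : K) : Prop where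
  a : g • F.e i = c • F.e (F.n i)
  na : g • F.e (F.n i) = c' • F.e i
  fix : ∀ v, F.W i v → g • v = v

namespace Sfl

variable {g g' : O.U} {i j k : I} {c c' : K}

theorem e (h : Sfl F g i c c') (h1 : F.D i k) : g • F.e k = F.e k := h.fix _ h1.W

theorem ne (h : Sfl F g i c c') : c ≠ 0 ∧ c' ≠ 0 := line_n h.a (by rw [F.nn, h.na])

theorem cls (h : Sfl F g i c c') : g ∈ Cls F := fun k => by
  rcases cases3 (F := F) i k with rfl | rfl | h1
  exacts [Or.inr ⟨_, h.a⟩, Or.inr ⟨_, by rw [F.nn, h.na]⟩, Or.inl (Mv.of_fix (h.e h1))]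

theorem conj [Fintype ι] [DecidableEq ι] {ψ : SpecialLinearGroup ι K →* O.U} (L : Lev F p ψ)
    {a i : ι} (h : Sfl F g (p a) c c') {γ : SpecialLinearGroup ι K} (h1 : Tp γ a i 1) :
    Sfl F (ψ γ * g * (ψ γ)⁻¹) (p i) c c' := by
  refine ⟨?_, ?_, fun v e1 => ?_⟩ <;> rw [mul_smul, mul_smul]
  · rw [← L.tp1 h1, inv_smul_smul, h.a, U_smul, L.tp1' h1]
  · rw [← L.tp1' h1, inv_smul_smul, h.na, U_smul, L.tp1 h1]
  · rw [h.fix _ (L.W h1 e1), smul_inv_smul]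

theorem unique (h : Sfl F g i c c') (h' : Sfl F g' i c c') : g = g' := U_ext fun x => by
  obtain ⟨s, t, y, e1, e2, rfl⟩ := exists_proj (F := F) i x
  simp [h.a, h'.a, h.na, h'.na, h.fix y ⟨e1, e2⟩, h'.fix y ⟨e1, e2⟩]

theorem commute (h : Sfl F g i c c') (h1 : g' • F.e i = F.e i) (h2 : g' • F.e (F.n i) = F.e (F.n i)) :
    Commute g' g := mul_inv_eq_iff_eq_mul.mp (unique ⟨by
  rw [mul_smul, mul_smul, inv_smul_eq_iff.mpr h1.symm, h.a, U_smul, h2], by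
  rw [mul_smul, mul_smul, inv_smul_eq_iff.mpr h2.symm, h.na, U_smul, h1], fun v hv => by
  rw [mul_smul, mul_smul, h.fix _ ⟨by rw [← B_U_right, h1, hv.1], by rw [← B_U_right, h2, hv.2]⟩,
    smul_inv_smul]⟩ h)

theorem xT (h : Sfl F g j c c') (ij : F.D i j) (s : K) :
    g * F.xT i j s * g⁻¹ = F.xT i (F.n j) (s / c) := by
  rw [ij.conj_xT (i' := i) one_ne_zero (by rw [h.e ij.symm, one_smul]) h.a (by rw [F.nn, h.na]),
    one_mul]

theorem exists_xT (h : Sfl F g j c c') (ij : F.D i j) (r : K) :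
    ∃ s, g * F.xT i j s * g⁻¹ = O.T (F.e i) (r • F.e j) 0 :=
  ⟨O.σ (-(r * F.ε (F.n j))) * c, by
    rw [h.xT ij, mul_div_cancel_right₀ _ h.ne.1, Frame.xT, xv, O.σσ, F.nn, neg_div,
      mul_div_cancel_right₀ _ (F.ε_ne _), neg_neg]⟩

theorem swap (h : Sfl F g i c c') (h' : Sfl F g' j c c') (ij : F.D i j) (hε : F.ε i = F.ε j) (s : K) :
    g * g' * F.xT i j s * (g * g')⁻¹ = F.xT j i (-O.σ s) := by
  rw [ij.conj_xT (i' := F.n i) (j' := F.n j) (d := c) (d' := c') h.ne.1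
    (by rw [mul_smul, h'.e ij.symm, h.a]) (by rw [mul_smul, h'.a, U_smul, h.e ij.nr])
    (by rw [mul_smul, h'.na, U_smul, h.e ij, F.nn]), ij.symm.xT_swap, hε,
    mul_div_cancel_left₀ _ h.ne.1, mul_div_cancel_left₀ _ (F.ε_ne _)]
  simp [O.σσ]

theorem sq (h : Sfl F g i c c') (hc : c * c' = -1) (ij : F.D i j) (s : K) :
    g ^ 2 * F.xT i j s * (g ^ 2)⁻¹ = F.xT i j (-s) := by
  rw [ij.conj_xT (i' := i) (j' := j) (c := -1) (d := 1) (d' := 1) (by simp)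
    (by rw [pow_two, mul_smul, h.a, U_smul, h.na, smul_smul, hc])
    (by simp [pow_two, mul_smul, h.e ij]) (by simp [pow_two, mul_smul, h.e ij.nr])]
  simp

end Sfl

theorem exists_sfl (k : I) {α : K} (h : O.Λ 0 α) (h0 : α ≠ 0) :
    ∃ g ∈ F.E, ∃ c c', Sfl F g k c c' ∧ c * c' = -1 := by
  obtain ⟨e1, e2, e3⟩ := (okZ (F := F) k h).wT_act h0
  refine ⟨_, (okZ k h).wT_mem h0, _, _, ⟨e1, e2, fun v hv => by simpa using e3 v hv⟩, ?_⟩
  have := F.ε_ne k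
  have := O.σ_ne h0
  field_simp
  simpa [add_eq_zero_iff_eq_neg] using O.max h

theorem mem_of_fix1 {E H : Subgroup J} (hE : ∀ a ∈ E, ∀ b ∈ E, Commute a b) {A : J} (hA : A ∈ E)
    {i : I} (hH : ∀ h ∈ H, Mv F (π h) i i) (a1 : Mv F (π A) i (F.n i)) (a3 : A ^ 2 ∈ H)
    (h : E ≤ H ⊓ E ⊔ zpowers A) {e : J} (he : e ∈ E) (e1 : Mv F (π e) i i) : e ∈ H := by
  refine (mem_or_of_sup (H := H ⊓ E) (fun h hh => hE _ hA _ hh.2) ⟨a3, pow_mem hA 2⟩ (h he)).elim (·.1) fun h1 =>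
    absurd (a1.unique ?_) (F.n_ne i)
  simpa using (hH _ h1.1).inv.mul e1

theorem comm_closure {s : Set J} (h : ∀ a ∈ s, ∀ b ∈ s, Commute a b) :
    ∀ x ∈ closure s, ∀ y ∈ closure s, Commute x y := fun x hx y hy => by
  letI : CommGroup (closure s) := closureCommGroupOfComm h
  exact congrArg Subtype.val (mul_comm (⟨x, hx⟩ : closure s) ⟨y, hy⟩)

theorem mem_normalizer_fr {x : K → J} (hx : AddF x) {g : J} {c : K} (hc : c ≠ 0) (h : Scales g x c) :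
    g ∈ normalizer (fr hx : Set J) := mem_normalizer_of_cj
  (by rintro _ ⟨t, rfl⟩; exact ⟨_, (h t).symm⟩) (by rintro _ ⟨t, rfl⟩; exact ⟨_, (h.inv hc t).symm⟩)

theorem flip_single [Fintype ι] [DecidableEq ι] (P : Pol F p) {x : ι → ι → K → J} (S0 : IsSt0 x)
    (hx : ∀ {i j}, i ≠ j → ∀ t, π (x i j t) = F.xT (p i) (p j) t) {f : ι → J} {c c' : K}
    (h1 : ∀ i, Sfl F (π (f i)) (p i) c c') (h2 : ∀ i j, Commute (f i) (f j))
    (h3 : ∀ {i j k}, i ≠ j → k ≠ i → k ≠ j → ∀ t, Commute (f k) (x i j t))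
    (h4 : ∀ {i j}, i ≠ j → ∀ t, f i * f j * x i j t * (f i * f j)⁻¹ = x j i (-O.σ t))
    (h5 : ∀ {i j}, i ≠ j → Scales (f i ^ 2) (x i j) (-1)) :
    Flip F π p x (closure (Set.range f)) := by
  obtain ⟨cl, c1, c2⟩ := P.exists_cl
  have mE : ∀ i, f i ∈ closure (Set.range f) := fun i => subset_closure ⟨i, rfl⟩
  have cE : ∀ e ∈ closure (Set.range f), π e ∈ Cls F := fun e he =>
    (closure_le ((Cls F).comap π)).mpr (by rintro _ ⟨i, rfl⟩; exact (h1 i).cls) he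
  have pos : ∀ l : List I, (l.map cl).Nodup →
      ∃ e ∈ closure (Set.range f), ∀ k ∈ l, Mv F (π e) k (p (cl k)) := fun l h =>
    move_pos cE c1 l h fun i _ => ⟨_, mE _, ⟨_, (h1 _).na⟩,
      fun k _ e => Mv.of_fix ((h1 _).e (P.D e.symm))⟩
  refine ⟨S0, P.D, hx, cE, fun {i j} h e he e1 e2 => ?_,
    fun {i j} h => ⟨_, mul_mem (mE i) (mE j), ⟨c, by
      rw [map_mul, mul_smul, (h1 j).e (P.D h.symm), (h1 i).a]⟩, ⟨c, by
      rw [map_mul, mul_smul, (h1 j).a, U_smul, (h1 i).e (P.D h).nr]⟩, ?_⟩,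
    fun {i j} h => ?_, fun {i j k} ij ik jk => ?_, fun {i j k l} ij ik il jk jl kl => ?_⟩
  · have m : ∀ k, Mv F (π (f k ^ 2)) (p i) (p i) ∧ Mv F (π (f k ^ 2)) (p j) (p j) := fun k => by
      have : ∀ l, Mv F (π (f k ^ 2)) l l := fun l => by
        rw [sq, map_mul]
        exact ((h1 k).cls l).elim (fun h => h.mul h) fun h =>
          Mv.mul (by simpa only [F.nn] using h.n' (mem_Mn_of_class (h1 k).cls)) h
      exact ⟨this _, this _⟩
    refine cj_of_mem_normalizer (mem_of_fix (H := normalizer (fr (S0.add h) : Set J) ⊓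
      (FixL F (p i) ⊓ FixL F (p j)).comap π) (comm_closure (by
        rintro _ ⟨i, rfl⟩ _ ⟨j, rfl⟩; exact h2 i j)) (mE i) (mE j) (fun _ h => h.2) ⟨_, (h1 i).a⟩
      (Mv.of_fix ((h1 j).e (P.D h.symm))) ⟨_, (h1 j).a⟩ ⟨mem_normalizer_fr _ (by simp) (h5 h), m i⟩
      ⟨mem_normalizer_fr _ (c := -1) (by simp) fun t => ?_, m j⟩ ((closure_le _).mpr ?_) he e1 e2).1
    · have e3 := h4 h.symm (-O.σ t)
      rw [← h4 h, map_neg, O.σσ, neg_neg, ← (h2 i j).eq] at e3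
      have e4 := (h5 h).inv (by simp) t
      rw [show f j ^ 2 = (f i ^ 2)⁻¹ * (f i * f j * (f i * f j)) by
        rw [← sq, (h2 i j).mul_pow, inv_mul_cancel_left]]
      simp only [inv_neg, inv_one] at e4
      rw [← e4]
      conv_rhs => rw [← e3]
      group
    rintro _ ⟨k, rfl⟩
    by_cases ki : k = i
    · exact mem_sup_right (ki ▸ mem_zpowers _)
    by_cases kj : k = j
    · exact mem_sup_left (mem_sup_right (kj ▸ mem_zpowers _))
    exact mem_sup_left (mem_sup_left ⟨⟨mem_normalizer_fr _ one_ne_zero (scales_one (h3 h ki kj)),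
      Mv.of_fix ((h1 k).e (P.D ki)), Mv.of_fix ((h1 k).e (P.D kj))⟩, mE k⟩)
  · rintro _ ⟨t, rfl⟩; exact ⟨_, (h4 h t).symm⟩
  · obtain ⟨e, he, h3⟩ := pos [i, j] (by simp [c2 h])
    exact ⟨e, he, _, _, h3 i (by simp), h3 j (by simp)⟩
  · obtain ⟨e, he, h3⟩ := pos [i, j, k] (by simp [c2 ij, c2 ik, c2 jk])
    exact ⟨e, he, _, _, _, h3 i (by simp), h3 j (by simp), h3 k (by simp)⟩
  · obtain ⟨e, he, h3⟩ := pos [i, j, k, l] (by simp [c2 ij, c2 ik, c2 jk, c2 il, c2 jl, c2 kl])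
    exact ⟨e, he, _, _, _, _, h3 i (by simp), h3 j (by simp), e, he, h3 k (by simp), h3 l (by simp),
      fun t u => by simpa using (S0.comm (c2 ij) (c2 kl) (c2 il) (c2 jk) t u).map (MulAut.conj e⁻¹)⟩

theorem Mv.conj_Y {g y : O.U} (hg : g ∈ Mn F) {i j : I} (h : Mv F g i j) (hy : y ∈ F.std.RR i ∅) :
    g * y * g⁻¹ ∈ F.std.RR j ∅ := by
  obtain ⟨c, h1⟩ := h
  obtain ⟨d, h2⟩ := Mv.n' hg ⟨c, h1⟩
  refine ⟨conj_mem_Q h1 h2 hy.1, fun l _ hl => ?_⟩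
  obtain ⟨l', h3⟩ := hg.2 l
  obtain ⟨e, he, h4⟩ := h3.ex
  have := hy.2 l' (by simp) fun e' => hl (h3.unique ⟨d, e' ▸ h2⟩)
  rw [MonoidHom.id_apply] at this ⊢
  rw [mul_smul, mul_smul, inv_smul_of_line he h4, U_smul, this, U_smul, h4, inv_smul_smul₀ he]

theorem T_mem_Y' {k : I} {u : V} {α : K} (hu : F.V0 u) (h : O.Λ u α) :
    O.T (F.e k) u α ∈ F.std.RR k ∅ := by
  obtain ⟨y, h1, h2⟩ := F.std.Y_surj k hu h
  exact h2 ▸ h1

namespace Flip

variable {x : ι → ι → K → J} {E : Subgroup J} (H : Flip F π p x E) {Y : ι → Subgroup J}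
include H

variable (F π p E Y) in
omit H in
/-- Transport of subgroups to all frame indices. -/
def tr (k : I) : Subgroup J where
  carrier := {y | ∀ e ∈ E, ∀ a, Mv F (π e) k (p a) → e * y * e⁻¹ ∈ Y a}
  one_mem' := fun e _ a _ => by simp
  mul_mem' := fun h h' e he a h1 => by simpa [mul_assoc] using mul_mem (h e he a h1) (h' e he a h1)
  inv_mem' := fun h e he a h1 => by simpa [mul_assoc] using inv_mem (h e he a h1)

omit H in
theorem cj_tr {e : J} (he : e ∈ E) {k k' : I} (h : Mv F (π e) k k') :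
    Cj e (tr F p π E Y k) (tr F p π E Y k') := fun y hy e' he' a h1 => by
  simpa [mul_assoc] using hy (e' * e) (mul_mem he' he) a (map_mul π _ _ ▸ h1.mul h)

theorem X_le' {M : Subgroup J} (h1 : ∀ i j, i ≠ j → ∀ t, x i j t ∈ M) (h2 : ∀ e ∈ E, Cj e M M)
    {i j : I} (h : F.D i j) : H.X i j ≤ M := fun y hy => by
  obtain ⟨e, he, a, b, e1, e2⟩ := H.T2 h
  have hab := ne (e1.D (H.mn he) e2 h)
  obtain ⟨s, rfl⟩ := (H.mem_iff he hab e1 e2).mp hy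
  simpa using h2 _ (inv_mem he) _ (h1 _ _ hab s)

variable (hC : ∀ i, ∀ e ∈ E, Mv F (π e) (p i) (p i) → Cj e (Y i) (Y i))
include hC

theorem tr_pos (i : ι) : tr F p π E Y (p i) = Y i := by
  ext y
  refine ⟨fun h => by simpa using h 1 (one_mem _) i (map_one π ▸ Mv.one _), fun h e he a h1 => ?_⟩
  obtain rfl := H.pos_eq he h1
  exact hC i e he h1 y h

omit hC in
theorem L3_of (L3 : ∀ {k l j}, k ≠ l → j ≠ k → j ≠ l → ∀ t, ∀ y ∈ Y j, Commute (x k l t) y)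
    {k l j : I} {g y : J} (kl : F.D k l) (jk : F.D j k) (jl : F.D j l) (hg : g ∈ H.X k l)
    (hy : y ∈ tr F p π E Y j) : Commute g y := by
  obtain ⟨e, he, a, b, c, h1, h2, h3⟩ := H.T3 kl jk.symm jl.symm
  have m := H.mn he
  obtain ⟨t, rfl⟩ := (H.mem_iff he (ne (h1.D m h2 kl)) h1 h2).mp hg
  simpa [mul_assoc] using (L3 (ne (h1.D m h2 kl)) (ne (h3.D m h1 jk)) (ne (h3.D m h2 jl)) t _
    (hy e he _ h3)).map (MulAut.conj e⁻¹)

theorem exists_cst_pos [Finite I] (h2 : ∀ k, ∃ j, F.D k j)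
    (imgY : ∀ {i g}, g ∈ Y i → π g ∈ F.std.RR (p i) ∅) (injY : ∀ {i g}, g ∈ Y i → π g = 1 → g = 1)
    (surjY : ∀ {i u α}, F.V0 u → O.Λ u α → ∃ g ∈ Y i, π g = O.T (F.e (p i)) u α)
    (L1 : ∀ {i j g g'}, i ≠ j → g ∈ H.X (p i) (p j) → g' ∈ H.X (p i) (F.n (p j)) → ⁅g, g'⁆ ∈ Y i)
    (L2 : ∀ {i j}, i ≠ j → ∀ t, ∀ y ∈ Y i, Commute (x i j t) y)
    (L3 : ∀ {k l j}, k ≠ l → j ≠ k → j ≠ l → ∀ t, ∀ y ∈ Y j, Commute (x k l t) y)
    (L4 : ∀ {k j g}, k ≠ j → g ∈ Y k → Cj g (H.X (p j) (p k)) (RX F H.X (fun _ => Y j) (p j)) ∧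
      Cj g (Y j) (RX F H.X (fun _ => Y j) (p j))) :
    ∃ S : CSt F π, (∀ i j, i ≠ j → ∀ t, x i j t ∈ S.L Set.univ) ∧ (∀ i, Y i ≤ S.L Set.univ) ∧
      (∀ e ∈ E, Cj e (S.L Set.univ) (S.L Set.univ)) ∧ ∀ M : Subgroup J,
      (∀ i j, i ≠ j → ∀ t, x i j t ∈ M) → (∀ i, Y i ≤ M) → (∀ e ∈ E, Cj e M M) →
      S.L Set.univ ≤ M := by
  have T1 : ∀ k, ∃ e ∈ E, ∃ a, Mv F (π e) k (p a) := fun k => by
    obtain ⟨j, h⟩ := h2 k
    obtain ⟨e, he, a, b, h1, -⟩ := H.T2 h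
    exact ⟨e, he, a, h1⟩
  have bk : ∀ {e k a g}, e ∈ E → Mv F (π e) k (p a) → g ∈ Y a → e⁻¹ * g * e ∈ tr F p π E Y k :=
    fun {e k a g} he h hg => by
      simpa using cj_tr (inv_mem he) (map_inv π e ▸ h.inv) _ ((H.tr_pos hC a).ge hg)
  obtain ⟨S, hS⟩ := H.xs.exists_cst (Y := tr F p π E Y) (fun {k g} hg => by
      obtain ⟨e, he, a, h⟩ := T1 k
      simpa [mul_assoc] using h.inv.conj_Y (inv_mem (H.mn he)) (imgY (hg e he a h)))
    (fun {k g} hg h0 => by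
      obtain ⟨e, he, a, h⟩ := T1 k
      simpa using injY (hg e he a h) (by simp [h0]))
    (fun {k u α} hu hα => by
      obtain ⟨e, he, a, h⟩ := T1 k
      obtain ⟨u', α', h1, h3, h4⟩ := CSt.Y_img (h.conj_Y (H.mn he) (T_mem_Y' hu hα))
      obtain ⟨g, h5, h6⟩ := surjY (i := a) h1 h3
      exact ⟨_, bk he h h5, by rw [map_mul, map_mul, map_inv, h6, ← h4]; simp [mul_assoc]⟩)
    (fun {k j g g'} h hg hg' => by
      obtain ⟨e, he, a, b, h1, h3⟩ := H.T2 h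
      have := bk he h1 (L1 (ne (h1.D (H.mn he) h3 h)) (H.cj he h1 h3 _ hg)
        (H.cj he h1 (h3.n' (H.mn he)) _ hg'))
      rw [← conjugate_commutatorElement] at this
      simpa [mul_assoc] using this)
    (fun {k j g y} h hg hy => by
      obtain ⟨e, he, a, b, h1, h3⟩ := H.T2 h
      have ab := ne (h1.D (H.mn he) h3 h)
      obtain ⟨t, rfl⟩ := (H.mem_iff he ab h1 h3).mp hg
      simpa [mul_assoc] using (L2 ab t _ (hy e he _ h1)).map (MulAut.conj e⁻¹))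
    (H.L3_of L3) (fun {k j g} h hg => by
      obtain ⟨e, he, a, b, h1, h3⟩ := H.T2 h
      obtain ⟨h4, h5⟩ := L4 (ne (h1.D (H.mn he) h3 h)) (hg e he _ h1)
      have h6 : Cj e⁻¹ (RX F H.X (fun _ => Y b) (p b)) (RX F H.X (tr F p π E Y) j) := by
        have := H.cj_RX (inv_mem he) (map_inv π e ▸ h3.inv) (cj_tr (inv_mem he)
          (map_inv π e ▸ h3.inv) (Y := Y) (p := p))
        rwa [RX, H.tr_pos hC] at this
      exact ⟨by simpa [mul_assoc] using (h6.mul h4).mul (H.cj he h3 h1),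
        by simpa [mul_assoc] using (h6.mul h5).mul (A := tr F p π E Y j) fun y hy => hy e he _ h3⟩)
  refine ⟨S, fun i j => H.x_mem_L hS, fun i y hy => CSt.mem_Lu ((hS (p i)).ge (Y_RS
    ((H.tr_pos hC i).ge hy))), fun e => H.cj_L hS fun e he _ _ => cj_tr he, fun M h1 h3 h4 =>
    (closure_le _).mpr fun _ ⟨k, _, hy⟩ => RS_le (fun y hy => ?_) (fun _ => H.X_le' h1 h4)
    (hS k ▸ hy.1)⟩
  obtain ⟨e, he, a, h⟩ := T1 k
  simpa [mul_assoc] using h4 _ (inv_mem he) _ (h3 a (hy e he a h))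

end Flip

end Cfsg.Agent.H6
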