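import Cfsg.Agent.H6.PC

/-! Presentations of symplectic and unitary groups of rank at least three: the core argument. -/

set_option autoImplicit false

open Subgroup Matrix
open scoped commutatorElement

namespace Cfsg.Agent.H6

open OF Frame

variable {K V I ι J : Type*} [Field K] [AddCommGroup V] [Module K V] [Group J] {O : OF K V}
  {F : Frame O I} {p : ι → I} {π : J →* O.U}

theorem commute_Zs {X : I → I → Subgroup J} {k : I} {y : J}
    (h : ∀ j, F.D k j → ∀ g ∈ X k j, Commute y g) {z : J} (hz : z ∈ Zs F X k) : Commute y z := by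
  refine ((closure_le (centralizer {y})).mpr ?_ hz y rfl)
  rintro _ ⟨j, g, g', hj, hg, hg', rfl⟩ _ rfl
  exact Commute.comm (h j hj g hg) (h _ hj.nr g' hg')

/-- A family which is additive modulo a subgroup. -/
def ysub {y : K → J} {Z : Subgroup J} (h0 : y 0 = 1) (h1 : ∀ t, ∀ z ∈ Z, Commute (y t) z)
    (h2 : ∀ s t, ∃ z ∈ Z, y s * y t = z * y (s + t)) : Subgroup J where
  carrier := {g | ∃ t, ∃ z ∈ Z, g = z * y t}
  one_mem' := ⟨0, 1, one_mem _, by simp [h0]⟩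
  mul_mem' := by
    rintro _ _ ⟨s, z, hz, rfl⟩ ⟨t, z', hz', rfl⟩
    obtain ⟨w, hw, e⟩ := h2 s t
    exact ⟨s + t, _, mul_mem (mul_mem hz hz') hw, by
      rw [(h1 s z' hz').mul_mul_mul_comm, e]; group⟩
  inv_mem' := by
    rintro _ ⟨s, z, hz, rfl⟩
    obtain ⟨w, hw, e⟩ := h2 s (-s)
    rw [add_neg_cancel, h0, mul_one] at e
    exact ⟨-s, _, mul_mem (inv_mem hz) (inv_mem hw), by
      rw [← (h1 s z hz).eq, mul_assoc, ← (h1 _ w hw).inv_right.eq, ← e]; group⟩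

theorem add_of_conj {X : I → I → Subgroup J} (H : XS F π X) {i j : I} (h : F.D i j)
    {x x' y : K → J} (hx : AddF x) (hx' : AddF x') (m : ∀ t, x t ∈ X i j)
    (m' : ∀ t, x' t ∈ X i (F.n j)) {g : J} {s t : K} (hc : Commute (y s) (x t))
    (hc' : Commute (y s) (x' t)) (hz : ∀ g ∈ X i j, ∀ g' ∈ X i (F.n j), Commute (x' t) ⁅g, g'⁆)
    (e : ∀ u, g * x u * g⁻¹ = x u * x' u * y u) :
    ∃ z ∈ Zs F X i, y s * y t = z * y (s + t) := by
  refine ⟨_, H.comm_mem_Zs h (inv_mem (m t)) (inv_mem (m' s)), ?_⟩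
  have e1 := e (s + t)
  rw [hx, hx', ← conj_mul, e, e] at e1
  calc y s * y t = (x' t)⁻¹ * (x t)⁻¹ * (x' s)⁻¹ * (x s)⁻¹ * (x s * x' s * (x t * x' t * y s) * y t) := by
        group
    _ = (x' t)⁻¹ * ⁅(x t)⁻¹, (x' s)⁻¹⁆ * x' t * y (s + t) := by
        rw [← (hc.mul_right hc').eq, show x s * x' s * (y s * (x t * x' t)) * y t =
          x s * x' s * y s * (x t * x' t * y t) by group, e1, commutatorElement_def]
        group
    _ = _ := by rw [mul_assoc (x' t)⁻¹, ← (hz _ (inv_mem (m t)) _ (inv_mem (m' s))).eq]; group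

variable [Fintype ι] [DecidableEq ι]

theorem exists_fam1' [Finite K] (φ : SpecialLinearGroup ι K →* J) {s : J} {a : ι}
    (h : ∀ g, Tp g a a 1 → Commute (φ g) s) (ex : ∀ i (t : K), t ≠ 0 → ∃ g, Tp g a i t) :
    ∃ f : ι → K → J, (∀ i, f i 0 = 1) ∧ f a 1 = s ∧
      ∀ {g i j t}, Tp g i j t → ∀ u, φ g * f i u * (φ g)⁻¹ = f j (t * u) := by
  obtain ⟨f, h0, hf⟩ := exists_fam1 φ h
  refine ⟨f, h0, by simpa using hf (Tp.one a), fun {g i j t} e u => ?_⟩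
  by_cases hu : u = 0
  · simp [hu, h0]
  obtain ⟨g', e'⟩ := ex i u hu
  rw [hf e', hf (e.mul e'), map_mul]; group

omit [Fintype ι] [DecidableEq ι] in
theorem exists_third {a b c : ι} (hab : a ≠ b) (hac : a ≠ c) (hbc : b ≠ c) (i j : ι) :
    ∃ k, i ≠ k ∧ j ≠ k := by
  by_contra h
  have h' : ∀ l, i = l ∨ j = l := fun l => by
    by_contra h'
    exact h ⟨l, not_or.mp h'⟩
  rcases h' a with h1 | h1 <;> rcases h' b with h2 | h2 <;> rcases h' c with h3 | h3 <;> simp_all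

omit [Fintype ι] [DecidableEq ι] in
theorem Flip.mem_n {x : ι → ι → K → J} {E : Subgroup J} (H : Flip F π p x E) {f : J} (hf : f ∈ E)
    {i j : ι} (h : i ≠ j) {c c' : K} (h1 : Sfl F (π f) (p j) c c') {y : J} :
    y ∈ H.X (p i) (F.n (p j)) ↔ ∃ t, y = f * x i j t * f⁻¹ := by
  simpa using H.mem_iff (inv_mem hf) h (map_inv π f ▸ (Mv.of_fix (h1.e (H.D h.symm))).inv)
    (map_inv π f ▸ Mv.inv ⟨_, h1.a⟩)

omit [Fintype ι] [DecidableEq ι] in
theorem Flip.Zs_eq_bot {x : ι → ι → K → J} {E : Subgroup J} (H : Flip F π p x E)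
    (h : ∀ {i j g g'}, i ≠ j → g ∈ H.X (p i) (p j) → g' ∈ H.X (p i) (F.n (p j)) → Commute g g')
    (k : I) : Zs F H.X k ≤ ⊥ := (closure_le _).mpr (by
  rintro _ ⟨j, g, g', hd, hg, hg', rfl⟩
  obtain ⟨e, he, a, b, h1, h2⟩ := H.T2 hd
  simpa [mul_assoc] using commutatorElement_eq_one_iff_commute.mpr ((h (Flip.ne (h1.D (H.mn he) h2 hd))
    (H.cj he h1 h2 _ hg) (H.cj he h1 (h2.n' (H.mn he)) _ hg')).map (MulAut.conj e⁻¹)))

set_option maxHeartbeats 400000 in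
theorem coreC [Finite K] [Finite I] {ψ : SpecialLinearGroup ι K →* O.U} (L : Lev F p ψ) {a b c : ι}
    (hab : a ≠ b) (hac : a ≠ c) (hbc : b ≠ c) (φ : SpecialLinearGroup ι K →* J) (π : J →* O.U)
    (hφ : ∀ g, π (φ g) = ψ g) {s y : J} {κ κ' : K} (hs : Sfl F (π s) (p a) κ κ') {u₀ : V} {α₀ : K}
    (hu : F.V0 u₀) (hα : O.Λ u₀ α₀) (hy : π y = O.T (F.e (p a)) u₀ α₀)
    (H2 : ∀ u α, F.V0 u → O.Λ u α → ∃ t r, u = O.σ t • u₀ ∧ α = r - O.η * O.σ r + t * O.σ t * α₀)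
    (r1 : ∀ g, Tp g a a 1 → Commute (φ g) s) (r2 : ∀ g, Tp g a a 1 → Commute (φ g) y)
    {g1 g2 : SpecialLinearGroup ι K} (a1 : Tp g1 a b 1) (a2 : Tp g2 a a (-1)) {sb yb : J}
    (hsb : sb = φ g1 * s * (φ g1)⁻¹) (hyb : yb = φ g1 * y * (φ g1)⁻¹) (r3 : Commute s sb)
    (r4 : ∀ t, s * sb * φ (slX K a b t) * (s * sb)⁻¹ = φ (slX K b a (-O.σ t)))
    (r5 : s ^ 2 * φ (slX K a b 1) * (s ^ 2)⁻¹ = φ (slX K a b (-1))) (r6 : Commute sb y)
    (r7 : Commute (φ (slX K a b 1)) y) {c0 c1 : K} (r8 : yb * φ (slX K a b 1) * yb⁻¹ =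
      φ (slX K a b 1) * (sb * φ (slX K a b c0) * sb⁻¹) * (φ g2 * y * (φ g2)⁻¹))
    (r9 : yb * y * yb⁻¹ = sb * φ (slX K a b c1) * sb⁻¹ * y)
    (hc : ((∀ A : AddSubgroup K, (∀ r, r + O.η * O.σ r ∈ A) → ∀ y, O.η * y = O.σ y → y ∈ A) ∧
      (y = 1 ∨ u₀ ≠ 0)) ∨ ((∀ x, O.σ x = x) ∧ α₀ ≠ 0 ∧
      Commute (φ (slX K a b 1)) (sb * φ (slX K a b 1) * sb⁻¹))) :
    ∃ S : CSt F π, (∀ g, φ g ∈ S.L Set.univ) ∧ y ∈ S.L Set.univ ∧
      s ∈ normalizer (S.L Set.univ : Set J) ∧ ∀ M : Subgroup J, (∀ g, φ g ∈ M) → y ∈ M →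
      s ∈ normalizer (M : Set J) → S.L Set.univ ≤ M := by
  obtain ⟨ζ, h0, hζ⟩ := exists_gen K
  have ex3 := exists_third hab hac hbc
  have ex2 := fun {i j} (h : i ≠ j) {t t' : K} => exists_tp2 (t := t) (t' := t') hab hac hbc h
  have ex1 : ∀ i (t : K), t ≠ 0 → ∃ g, Tp g a i t := fun i t ht =>
    (ex3 i i).elim fun _ h => (ex2 h.1 ht one_ne_zero).imp fun _ h => h.1
  obtain ⟨f, -, f1, fc⟩ := exists_fam1' φ r1 ex1
  obtain ⟨Y, Y0, Y1, Yc⟩ := exists_fam1' φ r2 ex1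
  have Ya := Yc a2 1
  have Yb := Yc a1 1
  have fb := fc a1 1
  rw [mul_one, Y1] at Ya Yb
  rw [mul_one, f1, ← hsb] at fb
  rw [← hyb] at Yb
  rw [Ya, Yb, fb] at r8
  rw [← Y1, Yb, fb] at r9
  rw [← f1, fb] at r3 r4
  rw [← Y1, fb] at r6
  rw [← Y1] at r7
  let x : ι → ι → K → J := fun i j t => φ (slX K i j t)
  have tr : ∀ {i j} {t t' : K}, i ≠ j → t ≠ 0 → t' ≠ 0 → ∃ θ : J →* J,
      (∀ u, θ (φ (slX K a b u)) = x i j (t * u / t')) ∧ (∀ u, θ (φ (slX K b a u)) = x j i (t' * u / t)) ∧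
      θ (f a 1) = f i t ∧ θ (f b 1) = f j t' ∧ (∀ u, θ (Y a u) = Y i (t * u)) ∧
      ∀ u, θ (Y b u) = Y j (t' * u) := fun h ht ht' => by
    obtain ⟨g, e1, e2⟩ := ex2 h ht ht'
    exact ⟨(MulAut.conj (φ g)).toMonoidHom, fun u => by simp [x, ← e1.conj e2 hab h],
      fun u => by simp [x, ← e2.conj e1 hab.symm h.symm], by simpa using fc e1 1,
      by simpa using fc e2 1, Yc e1, Yc e2⟩
  have fπ : ∀ i, Sfl F (π (f i 1)) (p i) κ κ' := fun i => by
    obtain ⟨g, e⟩ := ex1 i 1 one_ne_zero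
    have := fc e 1
    rw [mul_one, f1] at this
    simpa [← this, hφ] using hs.conj L e
  have Yπ : ∀ i t, π (Y i t) = O.T (F.e (p i)) (O.σ t • u₀) (t * O.σ t * α₀) := fun i t => by
    by_cases ht : t = 0
    · simp [ht, Y0, T_zero]
    obtain ⟨g, e⟩ := ex1 i t ht
    have := Yc e 1
    rw [mul_one, Y1] at this
    rw [← this, map_mul, map_mul, map_inv, hφ, hy, (hu.ok hα _).conj_T' ht (L.tp e), L.V0 g hu]
  have fQ : ∀ {g i}, Tp g i i 1 → Commute (φ g) (f i 1) := fun e =>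
    mul_inv_eq_iff_eq_mul.mp (by simpa using fc e 1)
  have YQ : ∀ {g i}, Tp g i i 1 → ∀ t, Commute (φ g) (Y i t) := fun e t =>
    mul_inv_eq_iff_eq_mul.mp (by simpa using Yc e t)
  have ff : ∀ i j, Commute (f i 1) (f j 1) := fun i j => by
    by_cases h : i = j
    · rw [h]
    obtain ⟨θ, -, -, e1, e2, -⟩ := tr h one_ne_zero one_ne_zero
    simpa only [e1, e2] using r3.map θ
  have fw : ∀ {i j}, i ≠ j → ∀ t, f i 1 * f j 1 * x i j t * (f i 1 * f j 1)⁻¹ = x j i (-O.σ t) :=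
    fun h t => by
      obtain ⟨θ, e3, e4, e1, e2, -⟩ := tr h one_ne_zero one_ne_zero
      simpa only [map_mul, map_inv, e1, e2, e3, e4, one_mul, div_one] using congrArg θ (r4 t)
  have fd : ∀ {i j}, i ≠ j → Scales (f i 1 ^ 2) (x i j) (-1) := fun h t => by
    obtain ⟨θ, e3, -, e1, -⟩ := tr h one_ne_zero one_ne_zero
    simpa only [map_mul, map_inv, map_pow, e1, e3, one_mul, div_one] using congrArg θ
      ((addF_x φ hab).scales (aeval_surj_of_gen hζ) ((Tp.h_k hbc.symm h0 hac hab).scales φ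
      (Tp.h_b hbc.symm h0) hab (by simp)) ((fQ (Tp.h_k hbc.symm h0 hac hab)).symm.pow_left 2)
      (f1 ▸ r5) t)
  have fY : ∀ {i j}, i ≠ j → ∀ t, Commute (f j 1) (Y i t) := fun h t => by
    by_cases ht : t = 0
    · simp [ht, Y0]
    obtain ⟨θ, -, -, -, e2, e5, -⟩ := tr h ht one_ne_zero
    simpa only [e2, e5, mul_one] using r6.map θ
  have S0 : IsSt0 x := (isSt_slX.map φ).toIsSt0
  have xY : ∀ {i j}, i ≠ j → ∀ u t, Commute (x i j u) (Y i t) := fun h u t => by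
    by_cases ht : t = 0
    · simp [ht, Y0]
    by_cases hu : u = 0
    · simp [hu, S0.zero h]
    obtain ⟨θ, e3, -, -, -, e5, -⟩ := tr h ht (div_ne_zero ht hu)
    simpa only [e3, e5, mul_one, div_div_cancel₀ ht] using r7.map θ
  have R8 : ∀ {i j}, i ≠ j → ∀ t, Y j 1 * x i j t * (Y j 1)⁻¹ =
      x i j t * (f j 1 * x i j (t * c0) * (f j 1)⁻¹) * Y i (-t) := fun h t => by
    by_cases ht : t = 0
    · simp [ht, Y0, S0.zero h]
    obtain ⟨θ, e3, -, -, e2, e5, e6⟩ := tr h ht one_ne_zero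
    simpa only [map_mul, map_inv, e2, e3, e5, e6, mul_one, div_one, mul_neg] using congrArg θ r8
  have R9 : ∀ {i j}, i ≠ j → ∀ t, Y j 1 * Y i t * (Y j 1)⁻¹ =
      f j 1 * x i j (t * c1) * (f j 1)⁻¹ * Y i t := fun h t => by
    by_cases ht : t = 0
    · simp [ht, Y0, S0.zero h]
    obtain ⟨θ, e3, -, -, e2, e5, e6⟩ := tr h ht one_ne_zero
    simpa only [map_mul, map_inv, e2, e3, e5, e6, mul_one, div_one] using congrArg θ r9
  have H := flip_single L.toPol S0 (fun h t => by rw [hφ, L.x h]) fπ ff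
    (fun h h1 h2 t => (fQ (Tp.x h h1 h2 t)).symm) fw fd
  set E := closure (Set.range fun i => f i 1)
  have mE : ∀ i, f i 1 ∈ E := fun i => subset_closure ⟨i, rfl⟩
  have XS := H.xs
  obtain ⟨cl, d1, d2⟩ := L.exists_cl
  have h3 : ∀ a b, ∃ c, F.D a c ∧ F.D b c := fun i j => by
    obtain ⟨o, h1, h2⟩ := ex3 (cl i) (cl j)
    have : ∀ {k}, cl k ≠ o → F.D k (p o) := fun {k} h => by
      rcases d1 k with e | e <;> rw [e]
      exacts [L.D h, (L.D h).nl]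
    exact ⟨_, this h1, this h2⟩
  have mX : ∀ {i j}, i ≠ j → ∀ t, x i j t ∈ H.X (p i) (p j) := fun h t => (H.mem_X h).mpr ⟨t, rfl⟩
  have mX' : ∀ {i j}, i ≠ j → ∀ t, f j 1 * x i j t * (f j 1)⁻¹ ∈ H.X (p i) (F.n (p j)) :=
    fun h t => (H.mem_n (mE _) h (fπ _)).mpr ⟨t, rfl⟩
  have YX : ∀ i t j, F.D (p i) j → ∀ g ∈ H.X (p i) j, Commute (Y i t) g := fun i t j h g hg => by
    obtain ⟨l, rfl | rfl⟩ := L.cov j
    · obtain ⟨u, rfl⟩ := (H.mem_X (Flip.ne h)).mp hg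
      exact (xY (Flip.ne h) u t).symm
    · have il := Flip.ne (F.nn (p l) ▸ h.nr)
      obtain ⟨u, rfl⟩ := (H.mem_n (mE _) il (fπ _)).mp hg
      exact (((fY il t).mul_left (xY il u t)).mul_left (fY il t).inv_left).symm
  have YZ : ∀ i t, ∀ z ∈ Zs F H.X (p i), Commute (Y i t) z := fun i t z => commute_Zs (YX i t)
  let Y' : ι → Subgroup J := fun i => ysub (Y0 i) (YZ i) fun s t => by
    obtain ⟨j, h, -⟩ := ex3 i i
    simpa [add_comm] using add_of_conj XS (L.D h) (y := fun t => Y i (-t)) (S0.add h)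
      (x' := fun t => f j 1 * x i j (t * c0) * (f j 1)⁻¹) (fun s t => by
        simp only [add_mul, S0.add h, conj_mul]) (mX h) (fun t => mX' h _) (s := -s) (t := -t)
      (xY h _ _).symm (YX _ _ _ (L.D h).nr _ (mX' h _))
      (fun g hg g' hg' => XS.Zs_comm h3 (L.D h).nr (XS.comm_mem_Zs (L.D h) hg hg') (mX' h _)) (R8 h)
  have mY : ∀ i t, Y i t ∈ Y' i := fun i t => ⟨t, 1, one_mem _, (one_mul _).symm⟩
  have mZ : ∀ i, Zs F H.X (p i) ≤ Y' i := fun i z hz => ⟨0, z, hz, by simp [Y0]⟩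
  have cjY : ∀ {g i} {M : Subgroup J}, Cj g (Zs F H.X (p i)) M → (∀ t, g * Y i t * g⁻¹ ∈ M) →
      Cj g (Y' i) M := fun h h' => by
    rintro _ ⟨t, z, hz, rfl⟩
    rw [← conj_mul]
    exact mul_mem (h z hz) (h' t)
  have hC : ∀ i, ∀ e ∈ E, Mv F (π e) (p i) (p i) → Cj e (Y' i) (Y' i) := fun i e he h => by
    have key : ∀ {e}, e ∈ E → Mv F (π e) (p i) (p i) → (∀ t, e * Y i t * e⁻¹ ∈ Y' i) →
        (∀ t, e⁻¹ * Y i t * e⁻¹⁻¹ ∈ Y' i) → e ∈ normalizer (Y' i : Set J) ⊓ (FixL F (p i)).comap π :=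
      fun he h h1 h2 => ⟨mem_normalizer_of_cj (cjY (fun z hz => mZ i (H.cj_Zs he h z hz)) h1)
        (cjY (fun z hz => mZ i (H.cj_Zs (inv_mem he) (map_inv π _ ▸ h.inv) z hz)) h2), h⟩
    obtain ⟨j, ij, -⟩ := ex3 i i
    have dY : ∀ t, f i 1 ^ 2 * Y i t * (f i 1 ^ 2)⁻¹ = Y i (-t) := fun t => by
      have e1 := congrArg (MulAut.conj (f i 1 ^ 2)) (R8 ij (-t))
      have e2 : ∀ u, MulAut.conj (f i 1 ^ 2) (x i j u) = x i j (-u) := fun u => by
        simpa only [neg_mul, one_mul, MulAut.conj_apply] using fd ij u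
      have e3 : ∀ {g}, Commute (f i 1) g → MulAut.conj (f i 1 ^ 2) g = g := fun h =>
        mul_inv_eq_iff_eq_mul.mpr (h.pow_left 2)
      simp only [map_mul, map_inv, e2, e3 (fY ij.symm 1), e3 (ff i j), neg_mul, neg_neg] at e1
      rw [R8 ij] at e1
      exact (mul_left_cancel e1).symm
    refine cj_of_mem_normalizer (mem_of_fix1 (H := normalizer (Y' i : Set J) ⊓
      (FixL F (p i)).comap π) (comm_closure (by
      rintro _ ⟨i, rfl⟩ _ ⟨j, rfl⟩; exact ff i j)) (mE i) (fun _ h => h.2) ⟨_, (fπ i).a⟩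
      (key (pow_mem (mE i) 2) ⟨κ * κ', by
        rw [sq, map_mul, mul_smul, (fπ i).a, U_smul, (fπ i).na, smul_smul]⟩
        (fun t => dY t ▸ mY i _) fun t => by
          rw [← neg_neg t, ← dY]; simpa [mul_assoc] using mY i _) ((closure_le _).mpr ?_) he h).1
    rintro _ ⟨k, rfl⟩
    by_cases ki : k = i
    · exact mem_sup_right (ki ▸ mem_zpowers _)
    exact mem_sup_left ⟨key (mE k) (Mv.of_fix ((fπ k).e (L.D ki)))
      (fun t => by rw [(fY (Ne.symm ki) t).eq, mul_inv_cancel_right]; exact mY i t)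
      (fun t => by rw [(fY (Ne.symm ki) t).inv_left.eq, mul_inv_cancel_right]; exact mY i t), mE k⟩
  have L3 : ∀ {k l j}, k ≠ l → j ≠ k → j ≠ l → ∀ t, ∀ y ∈ Y' j, Commute (x k l t) y := by
    rintro k l j h1 h2 h4 t _ ⟨u, z, hz, rfl⟩
    exact (XS.Zs_L3 h3 (L.D h1) (L.D h2) (L.D h4) (mX h1 t) hz).mul_right (YQ (Tp.x h1 h2 h4 t) u)
  have L3' : ∀ {k l j g y}, F.D k l → F.D (p j) k → F.D (p j) l → g ∈ H.X k l → y ∈ Y' j →
      Commute g y := fun h1 h2 h4 hg hy => H.L3_of L3 h1 h2 h4 hg ((H.tr_pos hC _).ge hy)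
  have πZY : ∀ {i t z}, z ∈ Zs F H.X (p i) → ∃ β, O.Λ 0 β ∧ π z = F.Z (p i) β ∧ π (z * Y i t) =
      O.T (F.e (p i)) (O.σ t • u₀) (β + t * O.σ t * α₀) ∧
      F.Ok (p i) (O.σ t • u₀) (β + t * O.σ t * α₀) := fun {i t z} hz => by
    obtain ⟨β, h1, h2⟩ := XS.Zs_img hz
    have h4 : F.Ok (p i) (O.σ t • u₀) (t * O.σ t * α₀) := ((hu.W _).smul _).ok
      (Λ_congr (O.smul _ hα) rfl (by rw [O.σσ]; ring))
    exact ⟨β, h1, h2, by rw [map_mul, h2, Yπ, Z, (okZ _ h1).T_mul h4.toOk]; simp,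
      by simpa using (okZ _ h1).add h4⟩
  obtain ⟨S, m1, m2, m3, m4⟩ := H.exists_cst_pos hC (fun k => (h3 k k).imp fun _ h => h.1)
    (by
      rintro i _ ⟨t, z, hz, rfl⟩
      obtain ⟨β, -, -, h1, h2⟩ := πZY (t := t) hz
      exact h1 ▸ T_mem_Y' (fun k => by simp [hu k]) h2.mem)
    (by
      rintro i _ ⟨t, z, hz, rfl⟩ e
      obtain ⟨β, h8, h5, h1, h2⟩ := πZY (t := t) hz
      obtain ⟨h6, h7⟩ := h2.eq_of_line (c := 1) (by rw [← h1, e]; simp)
      rcases hc with ⟨hk, hc⟩ | ⟨hσ, hα0, hc⟩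
      · have : Y i t = 1 := by
          rcases hc with rfl | hc
          · by_cases ht : t = 0
            · rw [ht, Y0]
            obtain ⟨g, e⟩ := ex1 i t ht
            simpa [Y1] using (Yc e 1).symm
          · rw [show t = 0 by simpa [hc] using h6, Y0]
        rw [this, mul_one] at e ⊢
        exact XS.Zs_inj h3 (fun A h _ => hk A h) hz e
      have G : ∀ t u, Commute (x a b t) (f b 1 * x a b u * (f b 1)⁻¹) := by
        have e1 : ∀ u, f b 1 * x a b u * (f b 1)⁻¹ = f b 1 * f c 1 * x a b u * (f b 1 * f c 1)⁻¹ :=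
          fun u => by rw [mul_assoc (f b 1) (f c 1), ← (fQ (Tp.x hab hac.symm hbc.symm u)).eq]; simp [x, mul_assoc]
        have A := (Tp.h_a hac h0).scales φ (Tp.h_k hac h0 hab.symm hbc) hab (div_one ζ)
        refine commute_prop h0 hζ (S0.add hab) (AddF.conj (S0.add hab) _) A (Scales.conj (by
          rwa [mul_assoc, (fQ (Tp.h_k hac h0 hab.symm hbc)).eq, inv_mul_cancel_left]))
          ((Tp.h_k hbc.symm h0 hac hab).scales φ (Tp.h_b hbc.symm h0) hab (by simp)) ?_ (fb ▸ hc)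
        simp only [e1]
        refine Scales.conj ?_
        have := conj_slH φ hbc (fw hbc) ((ff b c).eq ▸ fw hbc.symm) h0
        rw [hσ] at this
        rw [← this, mul_assoc, mul_assoc, inv_mul_cancel, mul_one, inv_mul_cancel_left]
        exact (Tp.h_k hbc h0 hab hac).scales φ (Tp.h_a hbc h0) hab (by simp)
      obtain rfl := H.Zs_eq_bot (fun {i j g g'} h hg hg' => by
        obtain ⟨t, rfl⟩ := (H.mem_X h).mp hg
        obtain ⟨u, rfl⟩ := (H.mem_n (mE _) h (fπ _)).mp hg'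
        obtain ⟨θ, e3, -, -, e2, -⟩ := tr h one_ne_zero one_ne_zero
        simpa only [x, map_mul, map_inv, e2, e3, one_mul, div_one] using (G t u).map θ) _ hz
      rw [map_one, eq_comm] at h5
      rw [show t = 0 by simpa [Z_eq_one h8 h5, hσ, hα0] using h7, Y0, one_mul])
    (fun {i u α} h1 h2 => by
      obtain ⟨t, r, rfl, rfl⟩ := H2 u α h1 h2
      obtain ⟨j, ij, -⟩ := ex3 i i
      obtain ⟨z, hz, e⟩ := XS.Zs_surj (L.D ij) r
      obtain ⟨β, h4, h5, h6, -⟩ := πZY (t := t) hz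
      refine ⟨_, ⟨t, z, hz, rfl⟩, ?_⟩
      rw [h6, ← add_neg_eq_zero.mp (Z_eq_one (Λ0_add h4 (OF.neg_zero (O.min r))) (by
        rw [Z_add _ h4 (OF.neg_zero (O.min r)), Z_neg _ (O.min r), ← e, h5, mul_inv_cancel]))])
    (fun h hg hg' => mZ _ (XS.comm_mem_Zs (L.D h) hg hg'))
    (by
      rintro i j h t _ ⟨u, z, hz, rfl⟩
      exact (XS.Zs_comm h3 (L.D h) hz (mX h t)).mul_right (xY h t u)) L3
    (fun {k j g} h hg => by
      set R := RX F H.X (fun _ => Y' j) (p j)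
      have nX : ∀ {k l g}, F.D k (p j) → F.D k l → F.D (p j) l → g ∈ H.X k l →
          g ∈ normalizer (R : Set J) := fun h1 h2 h4 hg => mem_normalizer_of_cj
        (XS.cj_R h1 h2 h4 hg fun _ => L3' h2 h1.symm h4 hg)
        (XS.cj_R h1 h2 h4 (inv_mem hg) fun _ => L3' h2 h1.symm h4 (inv_mem hg))
      obtain ⟨l, kl, jl⟩ := ex3 k j
      have cX : ∀ r, F.D (p j) r → Cj (Y k 1) (H.X (p j) r) R := fun r jr g hg => by
        rcases cases3 (F := F) (p k) r with rfl | rfl | h'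
        · obtain ⟨t, rfl⟩ := (H.mem_X h.symm).mp hg
          exact R8 h.symm t ▸ mul_mem (mul_mem (X_RS jr (mX h.symm _)) (X_RS jr.nr (mX' h.symm _)))
            (Y_RS (mY _ _))
        · rw [(YX _ _ _ (L.D h).nr _ (XS.sw (L.D h.symm) hg)).eq, mul_inv_cancel_right]
          exact X_RS jr hg
        · rw [← (L3' jr (L.D h) h' hg (mY _ _)).eq, mul_inv_cancel_right]
          exact X_RS jr hg
      have cY : Cj (Y k 1) R R := Cj.closure (by
        rintro y (hy | ⟨r, hr, hy⟩)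
        · refine cjY (Cj.closure ?_) (fun t => R9 h.symm t ▸ mul_mem (X_RS (L.D h.symm).nr
            (mX' h.symm _)) (Y_RS (mY _ _))) y hy
          rintro _ ⟨r, g, g', hr, hg, hg', rfl⟩
          rw [conjugate_commutatorElement]
          exact mul_mem (mul_mem (mul_mem (cX _ hr _ hg) (cX _ hr.nr _ hg')) (inv_mem (cX _ hr _ hg)))
            (inv_mem (cX _ hr.nr _ hg'))
        · exact cX r hr y hy)
      have key : Cj g R R := by
        obtain ⟨t, z, hz, rfl⟩ := hg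
        obtain ⟨g, hg, g', hg', rfl⟩ := XS.Zs_eq h3 (L.D kl) hz
        have n1 := nX (L.D h) (L.D kl).nr (L.D jl).nr hg
        have n2 := nX (L.D h) (L.D kl) (L.D jl) hg'
        refine (cj_of_mem_normalizer (mul_mem (mul_mem (mul_mem n1 n2) (inv_mem n1))
          (inv_mem n2))).mul ?_
        by_cases ht : t = 0
        · rw [ht, Y0]; exact Cj.one _
        have n3 := fun t => nX (L.D h) (L.D kl) (L.D jl) (mX kl t)
        have n4 := fun t => nX (L.D jl.symm) (L.D kl.symm) (L.D h.symm) (mX kl.symm t)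
        have n5 : φ (slH t k l) ∈ normalizer (R : Set J) := by
          simp only [slH, stH, stW, map_mul]
          exact mul_mem (mul_mem (mul_mem (n3 _) (n4 _)) (n3 _)) (mul_mem (mul_mem (n3 _) (n4 _)) (n3 _))
        rw [← mul_one t, ← Yc (Tp.h_a kl ht)]
        exact ((cj_of_mem_normalizer n5).mul cY).mul (cj_of_mem_normalizer (inv_mem n5))
      exact ⟨fun y hy => key y (X_RS (L.D h.symm) hy), fun y hy => key y (Y_RS hy)⟩)
  refine ⟨S, Lev.induction (H := (S.L Set.univ).comap φ) m1, Y1 ▸ m2 a (mY a 1), f1 ▸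
    mem_normalizer_of_cj (m3 _ (mE a)) (m3 _ (inv_mem (mE a))), fun M h1 h2 h4 => ?_⟩
  have hE : ∀ e ∈ E, Cj e M M := fun e he => cj_of_mem_normalizer ((closure_le _).mpr (by
    rintro _ ⟨i, rfl⟩
    obtain ⟨g, e⟩ := ex1 i 1 one_ne_zero
    have := fc e 1
    rw [mul_one, f1] at this
    simp only [← this]
    exact mul_mem (mul_mem (le_normalizer (h1 g)) h4) (inv_mem (le_normalizer (h1 g)))) he)
  refine m4 M (fun _ _ _ _ => h1 _) ?_ hE
  rintro i _ ⟨t, z, hz, rfl⟩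
  refine mul_mem ((closure_le M).mpr ?_ hz) ?_
  · rintro _ ⟨r, g, g', hr, hg, hg', rfl⟩
    have n1 := H.X_le' (fun _ _ _ _ => h1 _) hE hr hg
    have n2 := H.X_le' (fun _ _ _ _ => h1 _) hE hr.nr hg'
    exact mul_mem (mul_mem (mul_mem n1 n2) (inv_mem n1)) (inv_mem n2)
  · by_cases ht : t = 0
    · rw [ht, Y0]; exact one_mem _
    obtain ⟨g, e⟩ := ex1 i t ht
    rw [← mul_one t, ← Yc e, Y1]
    exact mul_mem (mul_mem (h1 g) h2) (inv_mem (h1 g))

end Cfsg.Agent.H6
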