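import Cfsg.Agent.H6.PC2

/-! Presentations of symplectic and unitary groups of rank at least three. -/

set_option autoImplicit false

open Subgroup Matrix
open scoped commutatorElement

namespace Cfsg.Agent.H6

open OF Frame H3

theorem hasPres_link {A G : Type*} [Group A] [Group G] {κ : Type} [Fintype κ] {k m : ℕ}
    (hA : HasPres A k m) (ψ : A →* G) (x : κ → G) (l : List κ) (R : List (FreeGroup (A ⊕ κ)))
    (holds : ∀ r ∈ R, FreeGroup.lift (Sum.elim ψ x) r = 1) {E : Subgroup G} (h1 : ∀ g, ψ g ∈ E)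
    (h2 : ∀ i, x i ∈ E) (h3 : ∀ M : Subgroup G, (∀ g, ψ g ∈ M) → (∀ i ∉ l, x i ∈ M) →
      (∀ i, x i ∈ normalizer (M : Set G)) → E ≤ M)
    (univ : ∀ (J : Type) [Group J] (φ : A →* J) (y : κ → J) (π : J →* G),
      (∀ r ∈ R, FreeGroup.lift (Sum.elim φ y) r = 1) → (∀ a, π (φ a) = ψ a) → (∀ i, π (y i) = x i) →
      ∃ L : Subgroup J, (∀ g ∈ L, π g = 1 → g = 1) ∧ (∀ g, φ g ∈ L) ∧ (∀ i ∉ l, y i ∈ L) ∧
      ∀ i ∈ l, y i ∈ normalizer (L : Set J)) :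
    HasPres E (k + Fintype.card κ) (m + (R.length + l.length)) := by
  let S : Set (A ⊕ κ) := {i | ∀ j ∈ l, i ≠ .inr j}
  let N := normalClosure (FreeGroup.of '' S)
  have hN : E ≤ N.map (FreeGroup.lift (Sum.elim ψ x)) := h3 _
    (fun g => ⟨_, subset_normalClosure ⟨.inl g, by simp [S], rfl⟩, by simp⟩)
    (fun i hi => ⟨_, subset_normalClosure ⟨.inr i, fun j hj e => hi (Sum.inr.inj e ▸ hj), rfl⟩,
      by simp⟩)
    fun i => le_normalizer_map _ ⟨.of (.inr i), by rw [normalizer_eq_top]; trivial, by simp⟩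
  choose w hw hw' using fun i => hN (h2 i)
  have := hasPres_sub hA ψ x (R ++ l.map fun i => (w i)⁻¹ * .of (.inr i)) (by
    simpa [hw', or_imp, forall_and] using holds) fun J _ φ y π hR hφ hy hg => ?_
  · rw [le_antisymm ((closure_le E).mpr (by rintro _ (⟨g, rfl⟩ | ⟨i, rfl⟩); exacts [h1 g, h2 i]))
      (h3 _ (fun g => subset_closure (Or.inl ⟨g, rfl⟩)) (fun i _ => subset_closure (Or.inr ⟨i, rfl⟩))
      fun i => le_normalizer (subset_closure (Or.inr ⟨i, rfl⟩)))] at this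
    simpa using this
  simp only [List.forall_mem_append, List.forall_mem_map, map_mul, map_inv,
    FreeGroup.lift_apply_of, Sum.elim_inr, inv_mul_eq_one] at hR
  obtain ⟨L, k1, k2, k3, k4⟩ := univ J φ y π hR.1 hφ hy
  have : L.Normal := normalizer_eq_top_iff.mp (eq_top_iff.mpr (hg.ge.trans ((closure_le _).mpr (by
    rintro _ (⟨g, rfl⟩ | ⟨i, rfl⟩)
    · exact le_normalizer (k2 g)
    · by_cases h : i ∈ l
      exacts [k4 i h, le_normalizer (k3 i h)]))))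
  refine (injective_iff_map_eq_one π).mpr fun g => k1 g ((hg.ge.trans ((closure_le _).mpr ?_)) trivial)
  rintro _ (⟨g, rfl⟩ | ⟨i, rfl⟩)
  · exact k2 g
  by_cases h : i ∈ l
  · rw [← hR.2 i h]
    refine lift_mem_of_normalClosure _ (hw i) ?_
    rintro (g | j) hj
    exacts [k2 g, k3 j fun h => hj j h rfl]
  · exact k3 i h

theorem slot_cases {J : Type*} [Group J] {y z w : J} {e e' : ℕ} {P Q R S : Prop}
    (r : y ^ e * ⁅z, w⁆ ^ e' = 1) (h : P ∧ (e = 1 ∧ e' = 0 ∨ Q) ∨ R ∧ S ∧ e = 0 ∧ e' = 1) :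
    P ∧ (y = 1 ∨ Q) ∨ R ∧ S ∧ Commute z w := by
  rcases h with ⟨h, ⟨rfl, rfl⟩ | h'⟩ | ⟨h, h', rfl, rfl⟩
  exacts [Or.inl ⟨h, Or.inl (by simpa using r)⟩, Or.inl ⟨h, Or.inr h'⟩,
    Or.inr ⟨h, h', by simpa [commutatorElement_eq_one_iff_commute] using r⟩]

variable {K V I ι : Type*} [Field K] [AddCommGroup V] [Module K V] {O : OF K V}
  [Fintype ι] [DecidableEq ι] {F : Frame O I} {p : ι → I}

theorem commute_of_list {J : Type*} [Group J] [Finite K] (φ : SpecialLinearGroup ι K →* J) {a b : ι}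
    (hab : a ≠ b) {l : List (SpecialLinearGroup ι K)} {s : J}
    (hl : closure {g | g ∈ l} = stGG (slX K) {a}ᶜ {a}ᶜ) (h : ∀ g ∈ l, Commute (φ g) s)
    (g : SpecialLinearGroup ι K) (hg : Tp g a a 1) : Commute (φ g) s :=
  mem_centralizer_singleton_iff.mp ((closure_le ((centralizer {s}).comap φ)).mpr
    (fun g hg => mem_centralizer_singleton_iff.mpr (h g hg)) (hl.ge (hg.mem1 hab.symm)))

theorem hasPres_C [Finite K] [Finite I] (P : Pol F p) (hN : F.ND) {a b c : ι}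
    (hab : a ≠ b) (hac : a ≠ c) (hbc : b ≠ c) {k m : ℕ} (hA : HasPres (SpecialLinearGroup ι K) k m)
    {α₁ : K} (h1 : O.Λ 0 α₁) (h1' : α₁ ≠ 0) {u₀ : V} {α₀ : K} (hu : F.V0 u₀) (hα : O.Λ u₀ α₀)
    (H2 : ∀ u α, F.V0 u → O.Λ u α → ∃ t r, u = O.σ t • u₀ ∧ α = r - O.η * O.σ r + t * O.σ t * α₀)
    (hc : ((∀ A : AddSubgroup K, (∀ r, r + O.η * O.σ r ∈ A) → ∀ y, O.η * y = O.σ y → y ∈ A) ∧
      (u₀ = 0 ∧ α₀ = 0 ∨ u₀ ≠ 0)) ∨ ((∀ x, O.σ x = x) ∧ α₀ ≠ 0 ∧ ∀ y, y = O.η * O.σ y))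
    (l : List (SpecialLinearGroup ι K)) (hl : closure {g | g ∈ l} = stGG (slX K) {a}ᶜ {a}ᶜ)
    (hker : ∀ (J : Type) [Group J] (π : J →* O.U) (S : CSt F π), ∀ g ∈ S.L Set.univ,
      π g = 1 → g = 1) : HasPres F.E (k + 2) (m + (2 * l.length + 10)) := by
  obtain ⟨ψ, L⟩ := P.exists_lev hN
  obtain ⟨ζ, h0, hζ⟩ := exists_gen K
  obtain ⟨g1, a1, -⟩ := exists_tp2 hab hac hbc hbc (one_ne_zero' K) one_ne_zero
  obtain ⟨g2, a2, -⟩ := exists_tp2 hab hac hbc hab (neg_ne_zero.mpr (one_ne_zero' K)) one_ne_zero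
  obtain ⟨s, sE, κ, κ', hs, hκ⟩ := exists_sfl (F := F) (p a) h1 h1'
  have D := L.D hab
  have d1 := hs.conj L a1
  have ok := hu.ok hα
  set y := O.T (F.e (p a)) u₀ α₀ with hy
  have r1 : ∀ g, Tp g a a 1 → Commute (ψ g) s := fun g h => hs.commute (L.tp1 h) (L.tp1' h)
  have r2 : ∀ g, Tp g a a 1 → Commute (ψ g) y := fun g h => (ok _).commute (L.tp1 h) (L.V0 g hu)
  have r3 := d1.commute (hs.e D) (hs.e D.nr)
  have r4 : ∀ t, s * (ψ g1 * s * (ψ g1)⁻¹) * ψ (slX K a b t) * (s * (ψ g1 * s * (ψ g1)⁻¹))⁻¹ =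
      ψ (slX K b a (-O.σ t)) := fun t => by
    rw [L.x hab, L.x hab.symm, hs.swap d1 D (L.eps _ _)]
  have r4' := conj_slH ψ hab r4 (fun t => by
    rw [L.x hab, L.x hab.symm, r3.eq, d1.swap hs D.symm (L.eps _ _)]) h0
  have r5 : s ^ 2 * ψ (slX K a b 1) * (s ^ 2)⁻¹ = ψ (slX K a b (-1)) := by
    rw [L.x hab, L.x hab, hs.sq hκ D]
  have r6 := (ok _).commute (d1.e D.symm) (d1.fix _ (hu.W _))
  have r7 : Commute (ψ (slX K a b 1)) y := L.x hab 1 ▸ (ok _).commute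
    (D.xT_ne _ D.symm.1 (F.n_ne _).symm) (hu.xT D _)
  have e1 : ψ g1 * y * (ψ g1)⁻¹ = O.T (F.e (p b)) u₀ α₀ := by
    simpa [L.V0 _ hu] using (ok _).conj_T' one_ne_zero (L.tp a1)
  obtain ⟨c0, e2⟩ := d1.exists_xT D (-O.σ 1 * α₀)
  obtain ⟨c1, e3⟩ := d1.exists_xT D (-(O.η * O.B u₀ u₀))
  have r8 : ψ g1 * y * (ψ g1)⁻¹ * ψ (slX K a b 1) * (ψ g1 * y * (ψ g1)⁻¹)⁻¹ = ψ (slX K a b 1) *
      (ψ g1 * s * (ψ g1)⁻¹ * ψ (slX K a b c0) * (ψ g1 * s * (ψ g1)⁻¹)⁻¹) *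
      (ψ g2 * y * (ψ g2)⁻¹) := by
    rw [e1, L.x hab, L.x hab, e2, D.conj_xT_T (ok _) (ok _),
      (ok _).conj_T' (by simp) (L.tp a2), L.V0 _ hu]
    simp
  have r9 : ψ g1 * y * (ψ g1)⁻¹ * y * (ψ g1 * y * (ψ g1)⁻¹)⁻¹ =
      ψ g1 * s * (ψ g1)⁻¹ * ψ (slX K a b c1) * (ψ g1 * s * (ψ g1)⁻¹)⁻¹ * y := by
    rw [e1, L.x hab, e3, ← D.symm.comm_TT (ok _) (ok _) (hu _) (hu _), commutatorElement_def,
      inv_mul_cancel_right]
  let f : SpecialLinearGroup ι K → FreeGroup (SpecialLinearGroup ι K ⊕ Bool) := fun g => .of (.inl g)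
  let σ : FreeGroup (SpecialLinearGroup ι K ⊕ Bool) := .of (.inr true)
  let υ : FreeGroup (SpecialLinearGroup ι K ⊕ Bool) := .of (.inr false)
  let σ' := f g1 * σ * (f g1)⁻¹
  let υ' := f g1 * υ * (f g1)⁻¹
  obtain ⟨e, e', r10, he⟩ : ∃ e e' : ℕ, y ^ e * ⁅ψ (slX K a b 1), ψ g1 * s * (ψ g1)⁻¹ *
      ψ (slX K a b 1) * (ψ g1 * s * (ψ g1)⁻¹)⁻¹⁆ ^ e' = 1 ∧ (((∀ A : AddSubgroup K,
      (∀ r, r + O.η * O.σ r ∈ A) → ∀ y, O.η * y = O.σ y → y ∈ A) ∧ (e = 1 ∧ e' = 0 ∨ u₀ ≠ 0)) ∨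
      ((∀ x, O.σ x = x) ∧ α₀ ≠ 0 ∧ e = 0 ∧ e' = 1)) := by
    rcases hc with ⟨h, ⟨rfl, rfl⟩ | h'⟩ | ⟨h, h', h''⟩
    · exact ⟨1, 0, by simp [hy, T_zero], Or.inl ⟨h, Or.inl ⟨rfl, rfl⟩⟩⟩
    · exact ⟨0, 0, by simp, Or.inl ⟨h, Or.inr h'⟩⟩
    refine ⟨0, 1, ?_, Or.inr ⟨h, h', rfl, rfl⟩⟩
    rw [L.x hab, d1.xT D, xT, xT, (D.ok_xv _).comm_T (D.nr.ok_xv _), O.herm, ← h'', sub_self, Z_zero]
    simp
  obtain ⟨S, -, -, -, hS⟩ := coreC L hab hac hbc ψ (MonoidHom.id _) (fun _ => rfl) hs hu hα rfl H2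
    r1 r2 a1 a2 rfl rfl r3 r4 r5 r6 r7 r8 r9 (slot_cases r10 he)
  rw [← S.hom_std.map_L.symm.trans (Subgroup.map_id _)] at hS
  have := hasPres_link hA ψ (fun i => cond i s y) [true] (l.map (fun g => ⁅f g, σ⁆) ++
    l.map (fun g => ⁅f g, υ⁆) ++ [⁅σ, σ'⁆,
      σ * σ' * f (slX K a b 1) * (σ * σ')⁻¹ * (f (slX K b a (-1)))⁻¹,
      σ * σ' * f (slH ζ a b) * (σ * σ')⁻¹ * (f (slH (O.σ ζ) b a))⁻¹,
      σ ^ 2 * f (slX K a b 1) * (σ ^ 2)⁻¹ * (f (slX K a b (-1)))⁻¹, ⁅σ', υ⁆, ⁅f (slX K a b 1), υ⁆,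
      υ' * f (slX K a b 1) * υ'⁻¹ * (f (slX K a b 1) * (σ' * f (slX K a b c0) * σ'⁻¹) *
        (f g2 * υ * (f g2)⁻¹))⁻¹, υ' * υ * υ'⁻¹ * (σ' * f (slX K a b c1) * σ'⁻¹ * υ)⁻¹,
      υ ^ e * ⁅f (slX K a b 1), σ' * f (slX K a b 1) * σ'⁻¹⁆ ^ e']) ?_ L.mem_E
    (by rintro (_ | _); exacts [(ok _).mem_E, sE])
    (fun M h1 h2 h3 => hS M h1 (h2 false (by simp)) (h3 true)) fun J _ φ x π hR hφ hx => ?_
  · exact hasPres_le this (by simp) (by simp; omega)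
  all_goals
    simp only [List.forall_mem_append, List.forall_mem_map, List.forall_mem_cons, f, σ, υ, σ', υ',
      map_mul, map_inv, map_pow, map_commutatorElement, FreeGroup.lift_apply_of, Sum.elim_inl,
      Sum.elim_inr, mul_inv_eq_one, commutatorElement_eq_one_iff_commute, cond_true,
      cond_false] at *
  · have m : ∀ g ∈ l, Tp g a a 1 := fun g hg => Tp.of_stGG (hl.le (subset_closure hg)) (by simp)
    exact ⟨⟨fun g hg => r1 g (m g hg), fun g hg => r2 g (m g hg)⟩, r3, by simpa using r4 1, r4', r5,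
      r6, r7, r8, r9, r10, by simp⟩
  obtain ⟨⟨r1, r2⟩, r3, r4, r4', r5, r6, r7, r8, r9, r10, -⟩ := hR
  obtain ⟨S, k1, k2, k3, -⟩ := coreC L hab hac hbc φ π hφ (by rw [hx]; exact hs) hu hα (hx false) H2
    (commute_of_list φ hab hl r1) (commute_of_list φ hab hl r2) a1 a2 rfl rfl r3
    (swap_of h0 hζ φ hab r4 r4') r5 r6 r7 r8 r9 (slot_cases r10 he)
  exact ⟨_, hker J π S, k1, by simpa using k2, by simpa using k3⟩

theorem hasPres_sp_big {K : Type*} [Field K] [Fintype K] {m : ℕ} (hm : 3 ≤ m) :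
    HasPres (symplecticGroup (Fin m) K) 7 43 := by
  have h3 : ∀ a b, ∃ c, (fSp m K).D a c ∧ (fSp m K).D b c := fun a b => by
    simpa using (fSp m K).exists_D rfl [a, b] (by simp; omega)
  have P : Pol (fSp m K) Sum.inl := ⟨fun h => by simpa [D, fSp] using h.symm,
    by rintro (i | i); exacts [⟨i, Or.inl rfl⟩, ⟨i, Or.inr rfl⟩], fun _ _ => by
      simp [ε, fSp, ofSp_B, H5.stdSp_apply', Pi.single_apply]⟩
  let a : Fin m := ⟨0, by omega⟩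
  obtain ⟨l, h1, h2⟩ := exists_five_gens (K := K) ({a}ᶜ : Set (Fin m)) (by
    rw [Set.ncard_compl]; simp; omega)
  obtain ⟨b, hb, -⟩ := h3 (.inl a) (.inl a)
  refine hasPres_of_equiv ((jSp m K).trans (topEquiv.symm.trans (MulEquiv.subgroupCongr
    (sp_E (tr_of_D fun a => (h3 a a).imp fun _ h => h.1) (.inl a)).symm))).symm ?_
  have key := fun α₀ H2 hc => hasPres_C P (nd_of_three h3) (a := a) (b := ⟨1, by omega⟩)
    (c := ⟨2, by omega⟩) (by simp [a]) (by simp [a]) (by simp) (hasPres_SL_all (by omega))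
    (α₁ := 1) trivial one_ne_zero (u₀ := 0) (α₀ := α₀) (fun _ => by simp) trivial H2 hc l h2
    fun J _ π S g hg => sp_ker S hb hg
  rw [h1] at key
  by_cases h : (2 : K) = 0
  · refine key 1 (fun u α hu _ => ?_) (Or.inr ⟨fun _ => rfl, one_ne_zero, fun y => ?_⟩)
    · obtain ⟨t, rfl⟩ := FiniteField.isSquare_of_char_two (ringChar.eq_iff.mpr
        (CharTwo.of_one_ne_zero_of_two_eq_zero one_ne_zero h)) α
      exact ⟨t, 0, by simp [sp_V0 hu], by simp [ofSp_σ]⟩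
    · rw [ofSp_σ, ofSp_η]; linear_combination y * h
  · refine key 0 (fun u α hu _ => ⟨0, α / 2, by simp [sp_V0 hu], ?_⟩) (Or.inl ⟨fun A _ y hy => ?_,
      Or.inl ⟨rfl, rfl⟩⟩)
    · rw [ofSp_σ, ofSp_η]; field_simp; ring
    · rw [ofSp_σ, ofSp_η] at hy
      rw [show y = 0 from (mul_eq_zero.mp (show 2 * y = 0 by linear_combination -hy)).resolve_left h]
      exact zero_mem _

theorem isCyclic_center_sp {K : Type*} [Field K] [Fintype K] {m : ℕ} (hm : 0 < m) :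
    IsCyclic (center (symplecticGroup (Fin m) K)) :=
  (center_sp_equiv m hm K).elim fun e => isCyclic_of_surjective e.symm e.symm.surjective

end Cfsg.Agent.H6
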