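import Cfsg.Agent.H6.PL

/-! Presentations of the orthogonal groups of plus type: the core argument. -/

set_option autoImplicit false

open Subgroup Matrix
open scoped commutatorElement

namespace Cfsg.Agent.H6

open OF Frame

variable {K V I ι J : Type*} [Field K] [AddCommGroup V] [Module K V] [Group J] {O : OF K V}
  [Fintype ι] [DecidableEq ι] {F : Frame O I} {p : ι → I}

theorem Tp.x {i j k : ι} (h : i ≠ j) (h1 : k ≠ i) (h2 : k ≠ j) (t : K) : Tp (slX K i j t) k k 1 :=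
  Tp.of_stGG (T := {i, j}) (mem_stGG (by simp) (by simp) h t) (by simp [h1, h2])

theorem Tp.scales (φ : SpecialLinearGroup ι K →* J) {g : SpecialLinearGroup ι K} {i j : ι}
    {t t' : K} (h : Tp g i i t) (h' : Tp g j j t') (hij : i ≠ j) {c : K} (hc : t / t' = c) :
    Scales (φ g) (fun u => φ (slX K i j u)) c := fun u => by
  rw [← map_inv, ← map_mul, ← map_mul, h.conj h' hij hij, ← hc]; congr 2; ring

theorem Scales.conj {g f : J} {x : K → J} {c : K} (h : Scales (f⁻¹ * g * f) x c) :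
    Scales g (fun t => f * x t * f⁻¹) c := fun t => by simp only [← h t]; group

theorem addF_x (φ : SpecialLinearGroup ι K →* J) {i j : ι} (h : i ≠ j) :
    AddF fun u => φ (slX K i j u) := fun s t => by simp only [isSt0_slX.add h, map_mul]

theorem commute_prop [Finite K] {ζ : K} (h0 : ζ ≠ 0) (hζ : ∀ t : K, t ≠ 0 → ∃ n : ℕ, ζ ^ n = t)
    {x y : K → J} (hx : AddF x) (hy : AddF y) {g g' : J} (h1 : Scales g x ζ) (h2 : Scales g y ζ)
    (h3 : Scales g' x ζ) (h4 : Scales g' y ζ⁻¹) (h : Commute (x 1) (y 1)) (s t : K) :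
    Commute (x s) (y t) :=
  (commute_of_scales hζ h0 hy h2 h1 (hx.commute (aeval_sq_surj_of_gen hζ) (sq ζ ▸ h1.mul h3)
    ((mul_inv_cancel₀ h0 ▸ h2.mul h4).commute 1) h.symm) t s).symm

theorem conj_slH [Finite K] (φ : SpecialLinearGroup ι K →* J) {i j : ι} (h : i ≠ j) {f : J}
    {σ : K →+* K} (h1 : ∀ t, f * φ (slX K i j t) * f⁻¹ = φ (slX K j i (-σ t)))
    (h2 : ∀ t, f * φ (slX K j i t) * f⁻¹ = φ (slX K i j (-σ t))) {t : K} (ht : t ≠ 0) :
    f * φ (slH t i j) * f⁻¹ = φ (slH (σ t) j i) := by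
  have := (isSt_slX (K := K).r1 h.symm).w_mul_w (s := -σ t) (t := 1) (by simpa) one_ne_zero
  rw [show -σ t * (-1)⁻¹ = σ t by simp] at this
  have e := conj_stH f h1 h2 t
  rw [slH, slH, ← this]
  simpa [stH, stW] using e

omit [Fintype ι] [DecidableEq ι] in
theorem cls_cases {g : O.U} (hg : g ∈ Cls F) {k i : I} (h : k = i ∨ k = F.n i) :
    Mv F g k i ∨ Mv F g k (F.n i) := by
  rcases h with rfl | rfl
  exacts [hg _, by simpa only [F.nn] using (hg (F.n i)).symm]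

variable (F) in
/-- The stabiliser of a frame line. -/
def FixL (i : I) : Subgroup O.U where
  carrier := {g | Mv F g i i}
  one_mem' := Mv.one i
  mul_mem' := Mv.mul
  inv_mem' := Mv.inv

/-- Double sign changes. -/
structure Dfl (F : Frame O I) (g : O.U) (i j : I) : Prop where
  a : g • F.e i = F.e (F.n i)
  na : g • F.e (F.n i) = F.e i
  b : g • F.e j = F.e (F.n j)
  nb : g • F.e (F.n j) = F.e j
  fix : ∀ v, F.W i v → F.W j v → g • v = v

namespace Dfl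

variable {g g' g'' : O.U} {i j k : I}

theorem symm (h : Dfl F g i j) : Dfl F g j i := ⟨h.b, h.nb, h.a, h.na, fun v h1 h2 => h.fix v h2 h1⟩

theorem e (h : Dfl F g i j) (h1 : F.D i k) (h2 : F.D j k) : g • F.e k = F.e k := h.fix _ h1.W h2.W

theorem cls (h : Dfl F g i j) : g ∈ Cls F := fun k => by
  rcases cases5 (F := F) i j k with rfl | rfl | rfl | rfl | ⟨h1, h2⟩
  exacts [Or.inr ⟨1, by simp [h.a]⟩, Or.inr ⟨1, by simp [h.b]⟩, Or.inr ⟨1, by simp [h.na, F.nn]⟩,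
    Or.inr ⟨1, by simp [h.nb, F.nn]⟩, Or.inl (Mv.of_fix (h.e h1 h2))]

theorem conj {ψ : SpecialLinearGroup ι K →* O.U} (L : Lev F p ψ) {a b i j : ι}
    (h : Dfl F g (p a) (p b)) {γ : SpecialLinearGroup ι K} (h1 : Tp γ a i 1) (h2 : Tp γ b j 1) :
    Dfl F (ψ γ * g * (ψ γ)⁻¹) (p i) (p j) := by
  refine ⟨?_, ?_, ?_, ?_, fun v e1 e2 => ?_⟩ <;> rw [mul_smul, mul_smul]
  · rw [← L.tp1 h1, inv_smul_smul, h.a, L.tp1' h1]
  · rw [← L.tp1' h1, inv_smul_smul, h.na, L.tp1 h1]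
  · rw [← L.tp1 h2, inv_smul_smul, h.b, L.tp1' h2]
  · rw [← L.tp1' h2, inv_smul_smul, h.nb, L.tp1 h2]
  · rw [h.fix _ (L.W h1 e1) (L.W h2 e2), smul_inv_smul]

variable [Finite I]

theorem unique (h : Dfl F g i j) (h' : Dfl F g' i j) : g = g' :=
  Frame.ext (F := F) (fun k => by
    rcases cases5 (F := F) i j k with rfl | rfl | rfl | rfl | ⟨h1, h2⟩
    exacts [h.a.trans h'.a.symm, h.b.trans h'.b.symm, h.na.trans h'.na.symm, h.nb.trans h'.nb.symm,
      (h.e h1 h2).trans (h'.e h1 h2).symm]) fun u hu => by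
    rw [h.fix u (hu.W _) (hu.W _), h'.fix u (hu.W _) (hu.W _)]

theorem mul (ij : F.D i j) (ik : F.D i k) (jk : F.D j k) (h : Dfl F g i j) (h' : Dfl F g' j k)
    (h'' : Dfl F g'' i k) : g * g' = g'' :=
  Frame.ext (F := F) (fun l => by
    rw [mul_smul]
    rcases cases5 (F := F) i j l with rfl | rfl | rfl | rfl | ⟨h1, h2⟩
    · rw [h'.e ij.symm ik.symm, h.a, h''.a]
    · rw [h'.a, h.nb, h''.e ij jk.symm]
    · rw [h'.e ij.symm.nr ik.symm.nr, h.na, h''.na]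
    · rw [h'.na, h.b, h''.e ij.nr jk.symm.nr]
    rcases cases3 (F := F) k l with rfl | rfl | h3
    · rw [h'.b, h''.b, h.e ik.nr jk.nr]
    · rw [h'.nb, h''.nb, h.e ik jk]
    · rw [h'.e h2 h3, h.e h1 h2, h''.e h1 h3]) fun u hu => by
    rw [mul_smul, h'.fix u (hu.W _) (hu.W _), h.fix u (hu.W _) (hu.W _), h''.fix u (hu.W _) (hu.W _)]

end Dfl

theorem dfl_w (hσ : ∀ x, O.σ x = x) (hε : ∀ k, F.ε k = 1) {π : J →* O.U} (S : CSt F π) {i j : I}
    (h : F.D i j) : Dfl F (π (S.w i (F.n j) (-1) * S.w i j 1)) i j := by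
  have h1 := CSt.w_nb (S := S) h.nr (t := -1) (by simp)
  rw [F.nn] at h1
  refine ⟨?_, ?_, ?_, ?_, fun v e1 e2 => ?_⟩ <;> rw [map_mul, mul_smul]
  · simp [CSt.w_a h, h1, hσ, hε]
  · simp [CSt.w_na h, CSt.w_b h.nr, hσ, hε]
  · simp [CSt.w_b h, CSt.w_a h.nr]
  · simp [CSt.w_nb h, CSt.w_na h.nr, hσ, hε, F.nn]
  · simp only [CSt.w, stW, map_mul, mul_smul, S.π_x h, S.π_x h.symm, S.π_x h.nr, S.π_x h.nr.symm,
      h.xT_fix _ e1.1 e2.2, h.symm.xT_fix _ e2.1 e1.2, h.nr.xT_fix _ e1.1 e2.n.2,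
      h.nr.symm.xT_fix _ e2.2 e1.2]

theorem CSt.R_comm (hV : ∀ α, O.Λ 0 α → α = 0) {π : J →* O.U} (S : CSt F π) {k : I} {g g' : J}
    (h : g ∈ S.R k) (h' : g' ∈ S.R k) : Commute g g' := by
  obtain ⟨v, α, h1, h2⟩ := S.img h
  obtain ⟨w, β, h3, h4⟩ := S.img h'
  refine commutatorElement_eq_one_iff_commute.mp (S.inj (mul_mem (mul_mem (mul_mem h h')
    (inv_mem h)) (inv_mem h')) ?_)
  change π ⁅g, g'⁆ = 1
  rw [map_commutatorElement, h2, h4, h1.comm_T h3, hV _ (Λ0_comm v w), Z_zero]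

theorem ker_of_dfl [Finite K] [Finite I] (hσ : ∀ x, O.σ x = x) (hε : ∀ k, F.ε k = 1) (hN : F.ND)
    (hV : ∀ u α, F.V0 u → O.Λ u α → α = 0) {π : J →* O.U} (S : CSt F π) {i j : I} (h : F.D i j)
    {s : J} (h1 : s ∈ S.L Set.univ) (h2 : Dfl F (π s) i j) (h3 : s * s = 1) {g : J}
    (hg : g ∈ S.L Set.univ) (e : π g = 1) : g = 1 := by
  have hc : ∀ {k g g'}, g ∈ S.R k → g' ∈ S.R k → Commute g g' :=
    S.R_comm fun α => hV 0 α fun _ => by simp
  have e1 : Commute (S.w i (F.n j) (-1)) (S.w i j 1) := by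
    have a1 : ∀ s t, Commute (S.x i (F.n j) s) (S.x i j t) := fun s t =>
      hc (S.x_mem h.nr s) (S.x_mem h t)
    have a2 : ∀ s t, Commute (S.x i (F.n j) s) (S.x j i t) := fun s t =>
      hc (by simpa only [F.nn] using S.x_mem' h.nr s) (S.x_mem h.symm t)
    have a3 : ∀ s t, Commute (S.x (F.n j) i s) (S.x i j t) := fun s t =>
      hc (S.x_mem h.nr.symm s) (S.x_mem' h t)
    have a4 : ∀ s t, Commute (S.x (F.n j) i s) (S.x j i t) := fun s t =>
      hc (S.x_mem' h.nr.symm s) (S.x_mem' h.symm t)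
    exact ((((a1 _ _).mul_right (a2 _ _)).mul_right (a1 _ _)).mul_left (((a3 _ _).mul_right
      (a4 _ _)).mul_right (a3 _ _))).mul_left (((a1 _ _).mul_right (a2 _ _)).mul_right (a1 _ _))
  have m : S.w i (F.n j) (-1) * S.w i j 1 ∈ S.L Set.univ :=
    mul_mem (CSt.A_le_L h.nr (Set.mem_univ _) (Set.mem_univ _) (CSt.w_mem_A _))
      (CSt.A_le_L h (Set.mem_univ _) (Set.mem_univ _) (CSt.w_mem_A _))
  have e2 := (dfl_w hσ hε S h).unique h2
  obtain ⟨t, ht, e3⟩ := CSt.ker_D hN h hV (mul_mem (inv_mem m) h1) fun i => by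
    rw [map_mul, map_inv, e2, inv_mul_cancel, one_smul]
  have t0 := left_ne_zero_of_mul_eq_one ht
  have e4 := ((CSt.mon_h (S := S) hN h t0).mul (CSt.mon_h hN h.nr t0).inv).central
    (by rw [← CSt.k, ← e3, map_mul, map_inv, e2, inv_mul_cancel]) m
  have e5 : S.k i j (-1) = 1 := by
    rw [← CSt.k] at e4
    rw [inv_mul_eq_iff_eq_mul.mp e3, e4.mul_mul_mul_comm, ← CSt.k_mul hN h t0 t0,
      show t * t = 1 by rwa [hσ] at ht, CSt.k_one hN h, mul_one, e1.symm.mul_mul_mul_comm, CSt.w, CSt.w,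
      (CSt.isR1 hN h).w_mul_w one_ne_zero one_ne_zero,
      (CSt.isR1 hN h.nr).w_mul_w (by simp) (by simp)] at h3
    rw [CSt.k, CSt.h, CSt.h, ← (CSt.isR1 hN h.nr).h_inv (by simp), mul_eq_one_comm]
    simpa using h3
  obtain ⟨t, ht, rfl⟩ := CSt.ker_D hN h hV hg fun i => by simp [e]
  rw [hσ] at ht
  rcases mul_self_eq_one_iff.mp ht with rfl | rfl
  exacts [CSt.k_one hN h, e5]

theorem Flip.of_cst {π : J →* O.U} {φ : SpecialLinearGroup ι K →* J} {E : Subgroup J}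
    (H : Flip F π p (fun i j t => φ (slX K i j t)) E) {Y : I → Subgroup J} {S : CSt F π}
    (hS : ∀ k, S.R k = RX F H.X Y k) (g : SpecialLinearGroup ι K) : φ g ∈ S.L Set.univ :=
  Lev.induction (H := (S.L Set.univ).comap φ) (fun _ _ h t => H.x_mem_L hS h t) g

set_option maxHeartbeats 400000 in
theorem coreD [Finite K] [Finite I] (hσ : ∀ x, O.σ x = x) (hε : ∀ k, F.ε k = 1)
    (hV : ∀ u α, F.V0 u → O.Λ u α → u = 0 ∧ α = 0) {ψ : SpecialLinearGroup ι K →* O.U}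
    (L : Lev F p ψ) {a b c d : ι} (hab : a ≠ b) (hac : a ≠ c) (had : a ≠ d) (hbc : b ≠ c)
    (hbd : b ≠ d) (hcd : c ≠ d) (φ : SpecialLinearGroup ι K →* J) (π : J →* O.U)
    (hφ : ∀ g, π (φ g) = ψ g) {s : J} (hs : Dfl F (π s) (p a) (p b))
    (h1 : ∀ g ∈ stGG (slX K) {a, b}ᶜ {a, b}ᶜ, Commute (φ g) s)
    (h2 : ∀ t, s * φ (slX K a b t) * s⁻¹ = φ (slX K b a (-t)))
    {v g1 g2 : SpecialLinearGroup ι K} (v1 : Tp v a b 1) (v2 : Tp v b a 1) (h3 : Commute (φ v) s)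
    (a1 : Tp g1 a b 1) (b1 : Tp g1 b c 1) (a2 : Tp g2 a a 1) (b2 : Tp g2 b c 1)
    (h4 : s * (φ g1 * s * (φ g1)⁻¹) = φ g2 * s * (φ g2)⁻¹)
    (h5 : Commute (φ (slX K a b 1)) (φ g1 * s * (φ g1)⁻¹ * φ (slX K a b 1) * (φ g1 * s * (φ g1)⁻¹)⁻¹))
    (h6 : Commute (φ (slX K a b 1)) (φ g2 * s * (φ g2)⁻¹ * φ (slX K d c 1) * (φ g2 * s * (φ g2)⁻¹)⁻¹)) :
    ∃ S : CSt F π, S.L Set.univ = closure (Set.range φ ∪ {s}) ∧
      ∀ g ∈ S.L Set.univ, π g = 1 → g = 1 := by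
  obtain ⟨f, hf⟩ := exists_fam2 φ fun g e1 e2 => h1 g (e1.mem2 e2 hab hac.symm hbc.symm)
  obtain ⟨ζ, h0, hζ⟩ := exists_gen K
  obtain ⟨cl, c1, c2⟩ := L.exists_cl
  have ex4 := exists_fourth hab hac had hbc hbd hcd
  have ex2 := fun {i j} (h : i ≠ j) => exists_tp2 hab hac hbc h (one_ne_zero' K) one_ne_zero
  have f0 : f a b = s := by simpa using hf (Tp.one a) (Tp.one b)
  rw [← hf a1 b1] at h4 h5
  rw [← hf a2 b2] at h4 h6
  have fc : ∀ {γ i j k l}, Tp γ i k 1 → Tp γ j l 1 → i ≠ j → φ γ * f i j * (φ γ)⁻¹ = f k l :=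
    fun {γ i j k l} e1 e2 h => by
      obtain ⟨g, e3, e4⟩ := ex2 h
      rw [hf e3 e4, hf ((e1.mul e3).congr (one_mul _)) ((e2.mul e4).congr (one_mul _)), map_mul]
      group
  have fπ : ∀ {i j}, i ≠ j → Dfl F (π (f i j)) (p i) (p j) := fun h => by
    obtain ⟨g, e3, e4⟩ := ex2 h
    simpa [hf e3 e4, hφ] using hs.conj L e3 e4
  have fs : ∀ {i j}, i ≠ j → f i j = f j i := fun h => by
    obtain ⟨g, e3, e4⟩ := ex2 h
    rw [← fc e3 e4 hab, ← fc e4 e3 hab.symm, ← fc v1 v2 hab, f0, h3.eq, mul_inv_cancel_right]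
  have fm : ∀ {i j k}, i ≠ j → i ≠ k → j ≠ k → f i j * f j k = f i k := fun {i j k} ij ik jk => by
    obtain ⟨l, il, jl, kl⟩ := ex4 i j k
    obtain ⟨g, -, e1, e2, e3, -⟩ := exists_tp4 (K := K) hab hac had hbc hbd hcd ij ik il jk jl kl
    rw [← fc e1 e2 hab, ← fc e2 e3 hbc, ← fc e1 e3 hac, ← h4, f0]; group
  have fq : ∀ {i j}, i ≠ j → f i j * f i j = 1 := fun {i j} h => by
    obtain ⟨k, ik, jk, -⟩ := ex4 i j j
    have := fm h.symm jk ik
    rwa [← fm h ik jk, ← mul_assoc, ← fs h, mul_eq_right] at this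
  have fi : ∀ {i j}, i ≠ j → (f i j)⁻¹ = f i j := fun h => inv_eq_of_mul_eq_one_right (fq h)
  have fcomm : ∀ {i j k l}, i ≠ j → k ≠ l → Commute (f i j) (f k l) := by
    have e1 : ∀ {i j k}, i ≠ j → j ≠ k → Commute (f i j) (f j k) := fun {i j k} ij jk => by
      by_cases ik : i = k
      · rw [← ik, fs ij]
      · rw [Commute, SemiconjBy, fm ij ik jk, ← fi ik, ← fm ij ik jk, _root_.mul_inv_rev, fi ij, fi jk]
    intro i j k l ij kl
    by_cases e : j = k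
    · exact e ▸ e1 ij (e ▸ kl)
    by_cases e' : j = l
    · rw [fs kl]; exact e' ▸ e1 ij (e' ▸ kl.symm)
    rw [← fm (Ne.symm e) kl e', fs (Ne.symm e)]
    exact (e1 ij e).mul_right (e1 ij e')
  have fQ : ∀ {g i j}, Tp g i i 1 → Tp g j j 1 → i ≠ j → Commute (φ g) (f i j) := fun e1 e2 h =>
    mul_inv_eq_iff_eq_mul.mp (fc e1 e2 h)
  have fw : ∀ {i j}, i ≠ j → ∀ t, f i j * φ (slX K i j t) * (f i j)⁻¹ = φ (slX K j i (-t)) :=
    fun h t => by
      obtain ⟨g, e3, e4⟩ := ex2 h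
      have e5 := e3.conj e4 hab h t
      have e6 := e4.conj e3 hab.symm h.symm (-t)
      rw [one_mul, div_one] at e5 e6
      rw [hf e3 e4, ← e5, ← e6]
      simp only [map_mul, map_inv, ← h2]; group
  have fh : ∀ {i j}, i ≠ j → (f i j)⁻¹ * φ (slH ζ j i) * f i j = φ (slH ζ i j) := fun h => by
    have := conj_slH φ h (σ := RingHom.id K) (fw h) (fs h ▸ fw h.symm) h0
    rw [RingHom.id_apply] at this
    rw [← this]; group
  have G5 : ∀ {i j k}, i ≠ j → i ≠ k → j ≠ k → ∀ t u, Commute (φ (slX K i j t))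
      (f j k * φ (slX K i j u) * (f j k)⁻¹) := fun {i j k} ij ik jk t u => by
    obtain ⟨l, il, jl, kl⟩ := ex4 i j k
    obtain ⟨g, -, e1, e2, e3, -⟩ := exists_tp4 (K := K) hab hac had hbc hbd hcd ij ik il jk jl kl
    have A := (Tp.h_a had h0).scales φ (Tp.h_k had h0 hab.symm hbd) hab (div_one ζ)
    have := (commute_prop h0 hζ (addF_x φ hab) ((addF_x φ hab).conj (f b c)) A (Scales.conj (by
      rwa [mul_assoc, (fQ (Tp.h_k had h0 hab.symm hbd) (Tp.h_k had h0 hac.symm hcd) hbc).eq,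
        inv_mul_cancel_left])) ((Tp.h_k hbc.symm h0 hac hab).scales φ (Tp.h_b hbc.symm h0) hab
        (by simp)) (Scales.conj (fh hbc ▸ (Tp.h_k hbc h0 hab hac).scales φ (Tp.h_a hbc h0) hab
        (by simp))) h5 t u).map (MulAut.conj (φ g))
    have e := fun t => congrArg φ (e1.conj e2 hab ij t)
    simp only [map_mul, map_inv, one_mul, div_one] at e
    simpa only [map_mul, map_inv, MulAut.conj_apply, e, fc e2 e3 hbc] using this
  have G6 : ∀ {i j k l}, i ≠ j → i ≠ k → i ≠ l → j ≠ k → j ≠ l → k ≠ l → ∀ t u,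
      Commute (φ (slX K i j t)) (f i l * φ (slX K k l u) * (f i l)⁻¹) :=
    fun {i j k l} ij ik il jk jl kl t u => by
    obtain ⟨g, r, e1, e2, e3, e4⟩ :=
      exists_tp4 (K := K) hab hac had hbc hbd hcd ij il ik jl jk kl.symm
    have := (commute_prop h0 hζ (addF_x φ hab) ((addF_x φ hcd.symm).conj (f a c))
      ((Tp.h_k hbd.symm h0 had hab).scales φ (Tp.h_b hbd.symm h0) hab (by simp)) (Scales.conj (by
      rw [mul_assoc, (fQ (Tp.h_k hbd.symm h0 had hab) (Tp.h_k hbd.symm h0 hcd hbc.symm) hac).eq,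
        inv_mul_cancel_left]
      exact (Tp.h_a hbd.symm h0).scales φ (Tp.h_k hbd.symm h0 hcd hbc.symm) hcd.symm (div_one ζ)))
      ((Tp.h_a hac h0).scales φ (Tp.h_k hac h0 hab.symm hbc) hab (div_one ζ)) (Scales.conj (by
      rw [fs hac, fh hac.symm]
      exact (Tp.h_k hac.symm h0 hcd.symm had.symm).scales φ (Tp.h_a hac.symm h0) hcd.symm
        (by simp))) h6 t (r⁻¹ * u)).map (MulAut.conj (φ g))
    have e := congrArg φ (e1.conj e2 hab ij t)
    have e' := congrArg φ (e4.conj e3 hcd.symm kl (r⁻¹ * u))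
    simp only [map_mul, map_inv, one_mul, div_one, mul_inv_cancel_left₀ e4.ne] at e e'
    simpa only [map_mul, map_inv, MulAut.conj_apply, e, e', fc e1 e3 hac] using this
  let E := closure {g | ∃ i j, i ≠ j ∧ g = f i j}
  have mE : ∀ {i j}, i ≠ j → f i j ∈ E := fun h => subset_closure ⟨_, _, h, rfl⟩
  have cE : ∀ e ∈ E, π e ∈ Cls F := fun e he => (closure_le ((Cls F).comap π)).mpr
    (by rintro _ ⟨i, j, h, rfl⟩; exact (fπ h).cls) he
  have pos : ∀ l : List I, (l.map cl).Nodup → ∀ o, (∀ k ∈ l, cl k ≠ o) →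
      ∃ e ∈ E, ∀ k ∈ l, Mv F (π e) k (p (cl k)) := fun l h o ho =>
    move_pos cE c1 l h fun i hi => ⟨_, mE (ho i hi), ⟨1, by simp [(fπ (ho i hi)).na]⟩,
      fun k hk e => Mv.of_fix ((fπ (ho i hi)).e (L.D e.symm) (L.D (ho k hk).symm))⟩
  have aE : ∀ x ∈ E, ∀ y ∈ E, Commute x y := fun x hx y hy => by
    letI : CommGroup E := closureCommGroupOfComm (by
      rintro _ ⟨i, j, h, rfl⟩ _ ⟨k, l, h', rfl⟩; exact fcomm h h')
    exact congrArg Subtype.val (mul_comm (⟨x, hx⟩ : E) ⟨y, hy⟩)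
  have S0 := (isSt_slX.map φ).toIsSt0
  have H : Flip F π p (fun i j t => φ (slX K i j t)) E := by
    refine ⟨S0, L.D, fun h t => by rw [hφ, L.x h], cE, fun {i j} h e he e1 e2 => ?_,
      fun {i j} h => ⟨_, mE h, ⟨1, by simp [(fπ h).a]⟩, ⟨1, by simp [(fπ h).b]⟩, ?_⟩,
      fun {i j} h => ?_, fun {i j k} ij ik jk => ?_, fun {i j k l} ij ik il jk jl kl => ?_⟩
    · obtain ⟨o, io, jo, -⟩ := ex4 i j j
      let M := normalizer (fr (addF_x φ h) : Set J) ⊓ (FixL F (p i) ⊓ FixL F (p j)).comap π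
      have key : ∀ k, k ≠ o → f k o ∈ (M ⊓ E ⊔ zpowers (f j o)) ⊔ zpowers (f i o) := fun k ko => by
        by_cases ki : k = i
        · exact mem_sup_right (ki ▸ mem_zpowers _)
        by_cases kj : k = j
        · exact mem_sup_left (mem_sup_right (kj ▸ mem_zpowers _))
        have : ∀ y ∈ fr (addF_x φ h), Commute (f k o) y := by
          rintro _ ⟨t, rfl⟩
          exact (fQ (Tp.x h ki kj t) (Tp.x h io.symm jo.symm t) ko).symm
        exact mem_sup_left (mem_sup_left ⟨⟨mem_normalizer_of_cj (Cj.of_commute this)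
          (Cj.of_commute fun y hy => (this y hy).inv_left), Mv.of_fix ((fπ ko).e (L.D ki) (L.D io.symm)),
          Mv.of_fix ((fπ ko).e (L.D kj) (L.D jo.symm))⟩, mE ko⟩)
      refine cj_of_mem_normalizer (mem_of_fix (H := M) aE (mE io) (mE jo) (fun _ h => h.2)
        ⟨1, by simp [(fπ io).a]⟩ (Mv.of_fix ((fπ jo).e (L.D h.symm) (L.D io.symm)))
        ⟨1, by simp [(fπ jo).a]⟩ (by rw [sq, fq io]; exact one_mem _)
        (by rw [sq, fq jo]; exact one_mem _) ((closure_le _).mpr ?_) he e1 e2).1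
      rintro _ ⟨k, l, kl, rfl⟩
      by_cases lo : l = o
      · exact lo ▸ key k (lo ▸ kl)
      by_cases ko : k = o
      · rw [fs kl]; exact ko ▸ key l lo
      rw [← fm ko kl (Ne.symm lo), fs (Ne.symm lo)]
      exact mul_mem (key k ko) (key l lo)
    · rintro _ ⟨t, rfl⟩; exact ⟨_, (fw h t).symm⟩
    · obtain ⟨o, h1, h2, -⟩ := ex4 (cl i) (cl j) (cl j)
      obtain ⟨e, he, h3⟩ := pos [i, j] (by simp [c2 h]) o (by simp [h1, h2])
      exact ⟨e, he, _, _, h3 i (by simp), h3 j (by simp)⟩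
    · obtain ⟨o, h1, h2, h4⟩ := ex4 (cl i) (cl j) (cl k)
      obtain ⟨e, he, h3⟩ := pos [i, j, k] (by simp [c2 ij, c2 ik, c2 jk]) o (by simp [h1, h2, h4])
      exact ⟨e, he, _, _, _, h3 i (by simp), h3 j (by simp), h3 k (by simp)⟩
    · obtain ⟨e, he, h3⟩ := pos [i, j, k] (by simp [c2 ij, c2 ik, c2 jk]) (cl l)
        (by simp [c2 il, c2 jl, c2 kl])
      refine ⟨e, he, _, _, cl k, cl l, h3 i (by simp), h3 j (by simp), ?_⟩
      rcases cls_cases (cE e he) (c1 l) with h4 | h4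
      · exact ⟨e, he, h3 k (by simp), h4, fun t u => by
          simpa using (S0.comm (c2 ij) (c2 kl) (c2 il) (c2 jk) t u).map (MulAut.conj e⁻¹)⟩
      · refine ⟨_, mul_mem (mE (c2 il)) he, map_mul π _ e ▸ (Mv.of_fix ((fπ (c2 il)).e (L.D (c2 ik))
          (L.D (c2 kl).symm))).mul (h3 k (by simp)),
          map_mul π _ e ▸ Mv.mul ⟨1, by simp [(fπ (c2 il)).nb]⟩ h4, fun t u => ?_⟩
        simpa [mul_assoc, fi (c2 il)] using (G6 (c2 ij) (c2 ik) (c2 il) (c2 jk) (c2 jl) (c2 kl) t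
          u).map (MulAut.conj e⁻¹)
  obtain ⟨S, hS⟩ := H.xs.exists_cst (Y := fun _ => ⊥) (fun h => by rw [h, map_one]; exact one_mem _)
    (fun h _ => h) (fun h h' => ⟨1, one_mem _, by
      rw [(hV _ _ h h').1, (hV _ _ h h').2, T_zero, map_one]⟩) (fun {k j g g'} h hg hg' => by
      obtain ⟨e, he, i, l, e1, e2⟩ := H.T2 h
      have il := Flip.ne (e1.D (H.mn he) e2 h)
      obtain ⟨o, io, lo, -⟩ := ex4 i l l
      obtain ⟨t, rfl⟩ := (H.mem_iff he il e1 e2).mp hg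
      obtain ⟨u, rfl⟩ := (H.mem_iff (mul_mem (mE lo) he) il (map_mul π _ e ▸ (Mv.of_fix
        ((fπ lo).e (L.D il.symm) (L.D io.symm))).mul e1) (map_mul π _ e ▸
        Mv.mul ⟨1, by simp [(fπ lo).na]⟩ (e2.n' (H.mn he)))).mp hg'
      rw [mem_bot, commutatorElement_eq_one_iff_commute]
      simpa [mul_assoc, fi lo] using (G5 il io lo t u).map (MulAut.conj e⁻¹))
    (fun _ _ h => by rw [h]; exact Commute.one_right _)
    (fun _ _ _ _ h => by rw [h]; exact Commute.one_right _)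
    (fun {k j g} h hg => by
      rw [hg]
      exact ⟨fun y hy => by rw [one_mul, inv_one, mul_one]; exact X_RS h.symm hy,
        fun y hy => by rw [one_mul, inv_one, mul_one]; exact Y_RS hy⟩)
  have m1 := H.of_cst hS
  have m2 : s ∈ S.L Set.univ := by
    have := H.cj_L hS (fun e _ _ _ _ y hy => by simpa using hy) (inv_mem (mE hab)) _ (m1 g2)
    rw [hf a1 b1, hf a2 b2] at h4
    rw [f0] at this
    have e : s = (φ g1)⁻¹ * (s⁻¹ * φ g2 * s⁻¹⁻¹) * (φ g2)⁻¹ * φ g1 := by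
      rw [inv_inv, mul_assoc _ _ (φ g2)⁻¹, mul_assoc s⁻¹, mul_assoc s⁻¹, ← h4]; group
    rw [e]
    exact mul_mem (mul_mem (mul_mem (inv_mem (m1 _)) this) (inv_mem (m1 _))) (m1 _)
  have h3' : ∀ a b, ∃ c, F.D a c ∧ F.D b c := fun i j => by
    obtain ⟨o, h1, h2, -⟩ := ex4 (cl i) (cl j) (cl j)
    have : ∀ {k}, cl k ≠ o → F.D k (p o) := fun {k} h => by
      rcases c1 k with e | e <;> rw [e]
      exacts [L.D h, (L.D h).nl]
    exact ⟨_, this h1, this h2⟩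
  refine ⟨S, le_antisymm (H.L_le hS (fun _ _ _ _ => subset_closure (Or.inl ⟨_, rfl⟩))
    ((closure_le _).mpr ?_) fun _ => bot_le) ((closure_le _).mpr ?_), fun g => ker_of_dfl hσ hε
    (nd_of_three h3') (fun u α h h' => (hV u α h h').2) S (L.D hab) m2 hs (f0 ▸ fq hab)⟩
  · rintro _ ⟨i, j, h, rfl⟩
    obtain ⟨g, e3, e4⟩ := ex2 h
    rw [hf e3 e4]
    exact mul_mem (mul_mem (subset_closure (Or.inl ⟨_, rfl⟩)) (subset_closure (Or.inr rfl)))
      (inv_mem (subset_closure (Or.inl ⟨_, rfl⟩)))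
  · rintro _ (⟨g, rfl⟩ | rfl)
    exacts [m1 g, m2]

end Cfsg.Agent.H6
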