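import Cfsg.Agent.H6.PD
import Cfsg.Agent.H6.COrth3

/-! Presentations of the orthogonal groups of plus type. -/

set_option autoImplicit false

open Subgroup Matrix
open scoped commutatorElement

namespace Cfsg.Agent.H6

open OF Frame H3

section Goursat

variable {A J K : Type*} [Group A] [Group J] [Field K]

/-- Elements on which conjugation is known up to a commuting factor. -/
def gs (φ : A →* J) (s : J) (Q B B' : Subgroup A) (h : ∀ g ∈ Q, ∀ b ∈ B, Commute g b)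
    (h' : ∀ g ∈ Q, ∀ b ∈ B', Commute g b) : Subgroup A where
  carrier := {g | g ∈ Q ∧ ∃ b ∈ B, ∃ b' ∈ B', s * φ (g * b) * s⁻¹ = φ (g * b')}
  one_mem' := ⟨one_mem _, 1, one_mem _, 1, one_mem _, by simp⟩
  mul_mem' := by
    rintro g g' ⟨h1, b, h2, b', h3, h4⟩ ⟨h5, c, h6, c', h7, h8⟩
    refine ⟨mul_mem h1 h5, _, mul_mem h2 h6, _, mul_mem h3 h7, ?_⟩
    rw [(h _ h5 _ h2).mul_mul_mul_comm, (h' _ h5 _ h3).mul_mul_mul_comm, map_mul, map_mul φ (g * b'),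
      ← h4, ← h8]
    group
  inv_mem' := by
    rintro g ⟨h1, b, h2, b', h3, h4⟩
    refine ⟨inv_mem h1, _, inv_mem h2, _, inv_mem h3, ?_⟩
    rw [(h _ h1 _ h2).inv_inv.eq, (h' _ h1 _ h3).inv_inv.eq, ← _root_.mul_inv_rev,
      ← _root_.mul_inv_rev, map_inv, map_inv, ← h4]
    group

theorem goursat {φ : A →* J} {s : J} {Q B B' C C' : Subgroup A} (hQ : ⁅Q, Q⁆ = Q)
    {h : ∀ g ∈ Q, ∀ b ∈ B, Commute g b} {h' : ∀ g ∈ Q, ∀ b ∈ B', Commute g b}
    (k : ∀ g ∈ Q, ∀ b ∈ C, Commute g b) (k' : ∀ g ∈ Q, ∀ b ∈ C', Commute g b) (hC : ⁅B, B⁆ ≤ C)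
    (hC' : ⁅B', B'⁆ ≤ C') (H : Q ≤ gs φ s Q B B' h h') : Q ≤ gs φ s Q C C' k k' := by
  refine hQ.ge.trans (commutator_le.mpr fun g hg g' hg' => ?_)
  obtain ⟨-, b, h2, b', h3, h4⟩ := H hg
  obtain ⟨-, c, h6, c', h7, h8⟩ := H hg'
  refine ⟨hQ.le (commutator_mem_commutator hg hg'), _, hC (commutator_mem_commutator h2 h6), _,
    hC' (commutator_mem_commutator h3 h7), ?_⟩
  rw [← comm_mul_of_commute (h _ hg _ h2).symm (h _ hg' _ h2).symm (h _ hg _ h6).symm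
    (h _ hg' _ h6).symm, ← comm_mul_of_commute (h' _ hg _ h3).symm (h' _ hg' _ h3).symm
    (h' _ hg _ h7).symm (h' _ hg' _ h7).symm, ← (h _ hg _ h2).eq, ← (h' _ hg _ h3).eq,
    map_commutatorElement, map_commutatorElement, ← h4, ← h8, conjugate_commutatorElement]

theorem borel_comm {x : K → A} (hx : AddF x) {g : A} {c : K} (hc : c ≠ 0) (h : Scales g x c) :
    ⁅fr hx ⊔ zpowers g, fr hx ⊔ zpowers g⁆ ≤ fr hx := by
  have hN : zpowers g ≤ normalizer (fr hx : Set A) := zpowers_le_of_mem (mem_normalizer_of_cj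
    (by rintro _ ⟨t, rfl⟩; exact ⟨_, (h t).symm⟩)
    (by rintro _ ⟨t, rfl⟩; exact ⟨_, (h.inv hc t).symm⟩))
  refine commutator_le.mpr fun a ha b hb => ?_
  obtain ⟨u, hu, d, hd, rfl⟩ := exists_mul_of_mem_sup hN ha
  obtain ⟨u', hu', d', hd', rfl⟩ := exists_mul_of_mem_sup hN hb
  have e : Commute d d' := by
    obtain ⟨k, rfl⟩ := hd
    obtain ⟨l, rfl⟩ := hd'
    exact Commute.zpow_zpow_self g k l
  convert mul_mem (mul_mem (mul_mem hu (cj_of_mem_normalizer (hN hd) _ hu'))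
    (cj_of_mem_normalizer (hN hd') _ (inv_mem hu))) (inv_mem hu') using 1
  calc _ = u * d * u' * (d' * d⁻¹) * u⁻¹ * d'⁻¹ * u'⁻¹ := by rw [commutatorElement_def]; group
    _ = _ := by rw [← e.inv_left.eq]; group

theorem fr_comm {x : K → A} (hx : AddF x) : ⁅fr hx, fr hx⁆ ≤ ⊥ := commutator_le.mpr (by
  rintro _ ⟨s, rfl⟩ _ ⟨t, rfl⟩
  exact commutatorElement_eq_one_iff_commute.mpr (add_fam_commute hx s t))

theorem goursat2 {φ : A →* J} {s : J} {Q : Subgroup A} (hQ : ⁅Q, Q⁆ = Q) {a b : A}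
    (hab : closure {a, b} = Q) {x x' : K → A} (hx : AddF x) (hx' : AddF x') {h h' : A} {c c' t t' : K}
    (hc : c ≠ 0) (hc' : c' ≠ 0) (s1 : Scales h x c) (s2 : Scales h' x' c')
    (c1 : ∀ g ∈ Q, ∀ t, Commute g (x t) ∧ Commute g (x' t))
    (c2 : ∀ g ∈ Q, Commute g h ∧ Commute g h') (r1 : s * φ (a * x t) * s⁻¹ = φ (a * x' t'))
    (r2 : s * φ (b * h) * s⁻¹ = φ (b * h')) (g : A) (hg : g ∈ Q) : Commute (φ g) s := by
  have d1 : ∀ g ∈ Q, ∀ y ∈ fr hx, Commute g y := by rintro g hg _ ⟨t, rfl⟩; exact (c1 g hg t).1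
  have d2 : ∀ g ∈ Q, ∀ y ∈ fr hx', Commute g y := by rintro g hg _ ⟨t, rfl⟩; exact (c1 g hg t).2
  have c3 : ∀ {U : Subgroup A} {g h}, (∀ y ∈ U, Commute g y) → Commute g h →
      ∀ y ∈ U ⊔ zpowers h, Commute g y := fun {U g h} e e' y hy =>
    (sup_le (c := centralizer {g}) (fun y hy => mem_centralizer_singleton_iff.mpr (e y hy).symm)
      (zpowers_le_of_mem (mem_centralizer_singleton_iff.mpr e'.symm)) hy g rfl)
  have c0 : ∀ g ∈ Q, ∀ y ∈ (⊥ : Subgroup A), Commute g y := fun _ _ _ h => h ▸ Commute.one_right _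
  obtain ⟨-, x, hx, y, hy, e⟩ := goursat (φ := φ) (s := s) hQ c0 c0 (fr_comm hx) (fr_comm hx')
    (goursat hQ (h := fun g hg => c3 (d1 g hg) (c2 g hg).1)
    (h' := fun g hg => c3 (d2 g hg) (c2 g hg).2) d1 d2 (borel_comm hx hc s1) (borel_comm hx' hc' s2)
    (hab.ge.trans ((closure_le _).mpr (by
      rintro g (rfl | rfl)
      exacts [⟨hab.le (subset_closure (by simp)), _, mem_sup_left ⟨_, rfl⟩, _,
        mem_sup_left ⟨_, rfl⟩, r1⟩, ⟨hab.le (subset_closure (by simp)), _,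
        mem_sup_right (mem_zpowers _), _, mem_sup_right (mem_zpowers _), r2⟩])))) hg
  rw [mem_bot.mp hx, mem_bot.mp hy, mul_one] at e
  exact (mul_inv_eq_iff_eq_mul.mp e).symm

end Goursat

variable {K V I ι J : Type*} [Field K] [AddCommGroup V] [Module K V] [Group J] {O : OF K V}
  [Fintype ι] [DecidableEq ι] {F : Frame O I} {p : ι → I}

theorem commute_slX {a b : ι} (hab : a ≠ b) {g : SpecialLinearGroup ι K}
    (hg : g ∈ stGG (slX K) {a, b}ᶜ {a, b}ᶜ) (t : K) :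
    Commute g (slX K a b t) ∧ Commute g (slX K b a t) := by
  have h1 := Tp.of_stGG (a := a) hg (by simp)
  have h2 := Tp.of_stGG (a := b) hg (by simp)
  exact ⟨(h1.scales (MonoidHom.id _) h2 hab (div_one _)).commute t,
    (h2.scales (MonoidHom.id _) h1 hab.symm (div_one _)).commute t⟩

theorem commute_slH {a b : ι} (hab : a ≠ b) {g : SpecialLinearGroup ι K}
    (hg : g ∈ stGG (slX K) {a, b}ᶜ {a, b}ᶜ) (t : K) :
    Commute g (slH t a b) ∧ Commute g (slH t b a) :=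
  ⟨IsR1.commute_h (fun t => (commute_slX hab hg t).1) (fun t => (commute_slX hab hg t).2) t,
    IsR1.commute_h (fun t => (commute_slX hab hg t).2) (fun t => (commute_slX hab hg t).1) t⟩

theorem swap_of [Finite K] {ζ : K} (h0 : ζ ≠ 0) (hζ : ∀ t : K, t ≠ 0 → ∃ n : ℕ, ζ ^ n = t)
    (φ : SpecialLinearGroup ι K →* J) {a b : ι} (hab : a ≠ b) {s : J} {σ : K →+* K}
    (h1 : s * φ (slX K a b 1) * s⁻¹ = φ (slX K b a (-1)))
    (h2 : s * φ (slH ζ a b) * s⁻¹ = φ (slH (σ ζ) b a)) (t : K) :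
    s * φ (slX K a b t) * s⁻¹ = φ (slX K b a (-σ t)) := by
  have h3 : σ ζ ≠ 0 := by simpa
  refine AddF.ext (aeval_sq_surj_of_gen hζ) ((addF_x φ hab).conj s)
    (x' := fun t => φ (slX K b a (-σ t))) (fun s t => by
      simp only [map_add, neg_add, isSt0_slX.add hab.symm, map_mul]) (by simpa using h1)
    (g := φ (slH (σ ζ) b a)) (Scales.conj ?_) (fun t => ?_) t
  · rw [← h2, mul_assoc, mul_assoc, inv_mul_cancel, mul_one, inv_mul_cancel_left]
    exact (Tp.h_a hab h0).scales φ (Tp.h_b hab h0) hab (by simp [sq])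
  · rw [(Tp.h_a hab.symm h3).scales φ (Tp.h_b hab.symm h3) hab.symm rfl]
    simp [sq]

theorem hasPres_D [Finite K] [Finite I] (hσ : ∀ x, O.σ x = x) (hε : ∀ k, F.ε k = 1)
    (hV : ∀ u α, F.V0 u → O.Λ u α → u = 0 ∧ α = 0) (P : Pol F p) (hN : F.ND) {a b c d : ι}
    (hab : a ≠ b) (hac : a ≠ c) (had : a ≠ d) (hbc : b ≠ c) (hbd : b ≠ d) (hcd : c ≠ d) {k m : ℕ}
    (hA : HasPres (SpecialLinearGroup ι K) k m) {v : SpecialLinearGroup ι K} (v1 : Tp v a b 1)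
    (v2 : Tp v b a 1) (l : List (SpecialLinearGroup ι K × SpecialLinearGroup ι K))
    (hl : ∀ (ψ : SpecialLinearGroup ι K →* O.U) s,
      (∀ g ∈ stGG (slX K) {a, b}ᶜ {a, b}ᶜ, Commute (ψ g) s) →
      (∀ t, s * ψ (slX K a b t) * s⁻¹ = ψ (slX K b a (-t))) →
      (∀ t, s * ψ (slX K b a t) * s⁻¹ = ψ (slX K a b (-t))) → ∀ q ∈ l, s * ψ q.1 * s⁻¹ = ψ q.2)
    (hl' : ∀ (J : Type) [Group J] (φ : SpecialLinearGroup ι K →* J) s,
      (∀ q ∈ l, s * φ q.1 * s⁻¹ = φ q.2) → Commute (φ v) s →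
      (∀ g ∈ stGG (slX K) {a, b}ᶜ {a, b}ᶜ, Commute (φ g) s) ∧
      ∀ t, s * φ (slX K a b t) * s⁻¹ = φ (slX K b a (-t))) :
    HasPres F.E (k + 1) (m + (l.length + 4)) := by
  obtain ⟨ψ, L⟩ := P.exists_lev hN
  obtain ⟨g1, a1, b1⟩ := exists_tp2 hab hac hbc hbc (one_ne_zero' K) one_ne_zero
  obtain ⟨g2, a2, b2⟩ := exists_tp2 hab hac hbc hac (one_ne_zero' K) one_ne_zero
  obtain ⟨s, hs⟩ : ∃ s, Dfl F s (p a) (p b) := ⟨_, dfl_w hσ hε F.std (L.D hab)⟩
  have d1 := hs.conj L a1 b1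
  have d2 := hs.conj L a2 b2
  have sw : ∀ {s i j}, i ≠ j → Dfl F s (p i) (p j) → ∀ t,
      s * ψ (slX K i j t) * s⁻¹ = ψ (slX K j i (-t)) := fun {s i j} h e t => by
    rw [L.x h, L.x h.symm, (L.D h).conj_xT (i' := F.n (p i)) (j' := F.n (p j)) (d := 1) (d' := 1)
      one_ne_zero (by simp [e.a]) (by simp [e.b]) (by simp [e.nb, F.nn]), (L.D h.symm).xT_swap]
    simp [hε, hσ]
  have h1 : ∀ g ∈ stGG (slX K) {a, b}ᶜ {a, b}ᶜ, Commute (ψ g) s := fun g hg =>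
    mul_inv_eq_iff_eq_mul.mp ((hs.conj L (Tp.of_stGG hg (by simp)) (Tp.of_stGG hg (by simp))).unique hs)
  have h3 : Commute (ψ v) s := mul_inv_eq_iff_eq_mul.mp ((hs.conj L v1 v2).unique hs.symm)
  have h4 := hs.mul (L.D hab) (L.D hac) (L.D hbc) d1 d2
  have h5 : Commute (ψ (slX K a b 1))
      (ψ g1 * s * (ψ g1)⁻¹ * ψ (slX K a b 1) * (ψ g1 * s * (ψ g1)⁻¹)⁻¹) := by
    rw [L.x hab, (L.D hab).conj_xT (i' := p a) (j' := F.n (p b)) (d := 1) (d' := 1) one_ne_zero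
      (by simp [d1.e (L.D hab.symm) (L.D hac.symm)]) (by simp [d1.a]) (by simp [d1.na, F.nn])]
    exact F.std.R_comm (fun α h => (hV 0 α (fun _ => by simp) h).2) ((L.D hab).xT_mem_Q _)
      ((L.D hab).nr.xT_mem_Q _)
  have h6 : Commute (ψ (slX K a b 1))
      (ψ g2 * s * (ψ g2)⁻¹ * ψ (slX K d c 1) * (ψ g2 * s * (ψ g2)⁻¹)⁻¹) := by
    rw [L.x hab, L.x hcd.symm, (L.D hcd.symm).conj_xT (i' := p d) (j' := F.n (p c)) (d := 1)
      (d' := 1) one_ne_zero (by simp [d2.e (L.D had) (L.D hcd)]) (by simp [d2.b])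
      (by simp [d2.nb, F.nn])]
    exact (L.D hcd.symm).nr.commute_xT _ ((L.D hab).xT_ne _ (L.D hbd).1 (L.D had).2)
      ((L.D hab).xT_ne _ (L.D hbc).nr.nr.1 (L.D hac).nr.nr.2)
  obtain ⟨S, hS, -⟩ := coreD hσ hε hV L hab hac had hbc hbd hcd ψ (MonoidHom.id _) (fun _ => rfl)
    hs h1 (sw hab hs) v1 v2 h3 a1 b1 a2 b2 h4 h5 h6
  have gen : closure (Set.range ψ ∪ Set.range fun _ : Unit => s) = F.E := by
    rw [Set.range_const, ← hS, E, ← S.hom_std.map_L, Subgroup.map_id]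
  let f : SpecialLinearGroup ι K → FreeGroup (SpecialLinearGroup ι K ⊕ Unit) :=
    fun g => .of (.inl g)
  let y : FreeGroup (SpecialLinearGroup ι K ⊕ Unit) := .of (.inr ())
  have := hasPres_sub hA ψ (fun _ : Unit => s) (l.map (fun q => y * f q.1 * y⁻¹ * (f q.2)⁻¹) ++
    [⁅f v, y⁆, y * (f g1 * y * (f g1)⁻¹) * (f g2 * y * (f g2)⁻¹)⁻¹,
      ⁅f (slX K a b 1), f g1 * y * (f g1)⁻¹ * f (slX K a b 1) * (f g1 * y * (f g1)⁻¹)⁻¹⁆,
      ⁅f (slX K a b 1), f g2 * y * (f g2)⁻¹ * f (slX K d c 1) * (f g2 * y * (f g2)⁻¹)⁻¹⁆]) ?_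
    fun J _ φ x π hR hφ hx hg => ?_
  · rw [gen] at this
    simpa using this
  all_goals
    simp only [List.forall_mem_append, List.forall_mem_map, List.forall_mem_cons, f, y, map_mul,
      map_inv, map_commutatorElement, FreeGroup.lift_apply_of, Sum.elim_inl, Sum.elim_inr,
      mul_inv_eq_one, commutatorElement_eq_one_iff_commute] at *
  · exact ⟨hl ψ s h1 (sw hab hs) (sw hab.symm hs.symm), h3, h4, h5, h6, by simp⟩
  obtain ⟨r1, r3, r4, r5, r6, -⟩ := hR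
  obtain ⟨r2, r7⟩ := hl' J φ _ r1 r3
  obtain ⟨S, hS, hk⟩ := coreD hσ hε hV L hab hac had hbc hbd hcd φ π hφ (hx () ▸ hs) r2 r7 v1 v2 r3
    a1 b1 a2 b2 r4 r5 r6
  rw [← Set.range_unique, hg] at hS
  exact (injective_iff_map_eq_one π).mpr fun g => hk g (hS ▸ mem_top g)

theorem hasPres_D_big [Fintype K] [Finite I] (hσ : ∀ x, O.σ x = x) (hε : ∀ k, F.ε k = 1)
    (hV : ∀ u α, F.V0 u → O.Λ u α → u = 0 ∧ α = 0) (P : Pol F p) (hN : F.ND) {a b c d : ι}
    (hab : a ≠ b) (hac : a ≠ c) (had : a ≠ d) (hbc : b ≠ c) (hbd : b ≠ d) (hcd : c ≠ d) {k m : ℕ}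
    (hA : HasPres (SpecialLinearGroup ι K) k m) (h : 3 ≤ ({a, b}ᶜ : Set ι).ncard) :
    HasPres F.E (k + 1) (m + 6) := by
  obtain ⟨ζ, h0, hζ⟩ := exists_gen K
  obtain ⟨v, v1, v2⟩ := exists_tp2 hab hac hbc hab.symm (one_ne_zero' K) one_ne_zero
  obtain ⟨hQ, A, B, hAB⟩ := exists_two_gens (K := K) _ (by omega) (Or.inl h)
  have mA : A ∈ stGG (slX K) {a, b}ᶜ {a, b}ᶜ := hAB ▸ subset_closure (by simp)
  have mB : B ∈ stGG (slX K) {a, b}ᶜ {a, b}ᶜ := hAB ▸ subset_closure (by simp)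
  refine hasPres_D hσ hε hV P hN hab hac had hbc hbd hcd hA v1 v2
    [(A * slX K a b 1, A * slX K b a (-1)), (B * slH ζ a b, B * slH ζ b a)]
    (fun ψ s h1 h2 h3 => ?_) fun J _ φ s h1 h2 => ?_
  · have := conj_slH ψ hab (σ := RingHom.id K) h2 h3 h0
    simp only [List.forall_mem_cons, map_mul, ← mul_assoc, ← (h1 A mA).eq, ← (h1 B mB).eq]
    simpa [mul_assoc, ← h2] using this
  simp only [List.forall_mem_cons] at h1
  have h3 := goursat2 hQ hAB (isSt0_slX.add hab) (isSt0_slX.add hab.symm) (by simpa) (by simpa)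
    ((Tp.h_a hab h0).scales (MonoidHom.id _) (Tp.h_b hab h0) hab rfl)
    ((Tp.h_a hab.symm h0).scales (MonoidHom.id _) (Tp.h_b hab.symm h0) hab.symm rfl)
    (fun g hg => commute_slX hab hg) (fun g hg => commute_slH hab hg ζ) h1.1 h1.2.1
  simp only [map_mul, ← mul_assoc, ← (h3 A mA).eq, ← (h3 B mB).eq] at h1
  exact ⟨h3, swap_of h0 hζ φ hab (σ := RingHom.id K) (by simpa [mul_assoc] using h1.1)
    (by simpa [mul_assoc] using h1.2.1)⟩

theorem hasPres_D_four [Fintype K] [Finite I] (hσ : ∀ x, O.σ x = x) (hε : ∀ k, F.ε k = 1)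
    (hV : ∀ u α, F.V0 u → O.Λ u α → u = 0 ∧ α = 0) (P : Pol F p) (hN : F.ND) {a b c d : ι}
    (hab : a ≠ b) (hac : a ≠ c) (had : a ≠ d) (hbc : b ≠ c) (hbd : b ≠ d) (hcd : c ≠ d) {k m : ℕ}
    (hA : HasPres (SpecialLinearGroup ι K) k m) (h : ({a, b}ᶜ : Set ι) = {c, d}) :
    HasPres F.E (k + 1) (m + 7) := by
  obtain ⟨ζ, h0, hζ⟩ := exists_gen K
  obtain ⟨v, r, v1, v2, v3, v4⟩ := exists_tp4 (K := K) hab hac had hbc hbd hcd hab.symm hbd hbc had
    hac hcd.symm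
  have m1 : ∀ t, slX K c d t ∈ stGG (slX K) {a, b}ᶜ {a, b}ᶜ := fun t =>
    mem_stGG (by simp [h]) (by simp [h]) hcd t
  have m2 : ∀ t, slX K d c t ∈ stGG (slX K) {a, b}ᶜ {a, b}ᶜ := fun t =>
    mem_stGG (by simp [h]) (by simp [h]) hcd.symm t
  have m3 : slH ζ c d ∈ stGG (slX K) {a, b}ᶜ {a, b}ᶜ :=
    mul_mem (mul_mem (mul_mem (m1 _) (m2 _)) (m1 _)) (mul_mem (mul_mem (m1 _) (m2 _)) (m1 _))
  refine hasPres_D hσ hε hV P hN hab hac had hbc hbd hcd hA v1 v2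
    [(slX K a b 1, slX K b a (-1)), (slX K c d 1, slX K c d 1),
      (slH ζ c d * slH ζ a b, slH ζ c d * slH ζ b a)]
    (fun ψ s h1 h2 h3 => ?_) fun J _ φ s h1 h2 => ?_
  · have := conj_slH ψ hab (σ := RingHom.id K) h2 h3 h0
    simp only [List.forall_mem_cons, map_mul, ← mul_assoc, ← (h1 _ m3).eq, ← (h1 _ (m1 1)).eq]
    simpa [mul_assoc, ← h2] using this
  simp only [List.forall_mem_cons] at h1
  have sc : ∀ {g}, Tp g c c 1 → Tp g d d 1 →
      Scales (φ (slH ζ c d * g)) (fun t => φ (slX K c d t)) (ζ ^ 2) := fun e e' =>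
    ((Tp.h_a hcd h0).mul e).scales φ ((Tp.h_b hcd h0).mul e') hcd (by simp [sq])
  have h4 := AddF.ext (aeval_sq_surj_of_gen hζ) ((addF_x φ hcd).conj s) (addF_x φ hcd) h1.2.1
    (Scales.conj (by
      rw [← h1.2.2.1, mul_assoc, mul_assoc, inv_mul_cancel, mul_one, inv_mul_cancel_left]
      exact sc (Tp.h_k hab h0 hac.symm hbc.symm) (Tp.h_k hab h0 had.symm hbd.symm)))
    (sc (Tp.h_k hab.symm h0 hbc.symm hac.symm) (Tp.h_k hab.symm h0 hbd.symm had.symm))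
  have h3 : ∀ g ∈ stGG (slX K) {a, b}ᶜ {a, b}ᶜ, Commute (φ g) s := fun g hg => by
    refine mem_centralizer_singleton_iff.mp (stGG_le (H := (centralizer {s}).comap φ) ?_ hg)
    rw [h]
    rintro i (rfl | rfl) j (rfl | rfl) ij t
    exacts [absurd rfl ij, mem_centralizer_singleton_iff.mpr (mul_inv_eq_iff_eq_mul.mp (h4 t)).symm,
      mem_centralizer_singleton_iff.mpr (by
        have := v3.conj v4 hcd hcd.symm (t * r)
        rw [one_mul, mul_div_cancel_right₀ _ v4.ne] at this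
        rw [← this, map_mul, map_mul, map_inv]
        exact (h2.mul_left (mul_inv_eq_iff_eq_mul.mp (h4 _)).symm).mul_left h2.inv_left),
      absurd rfl ij]
  simp only [map_mul, ← mul_assoc, ← (h3 _ m3).eq] at h1
  exact ⟨h3, swap_of h0 hζ φ hab (σ := RingHom.id K) h1.1 (by simpa [mul_assoc] using h1.2.2.1)⟩

theorem hasPres_omega_plus {K : Type*} [Field K] [Fintype K] {n : ℕ} (hn : 4 ≤ n) :
    HasPres (Omega K (qPlus n K)) 8 (if n ≤ 5 then 29 else 31) ∧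
      IsCyclic (center (Omega K (qPlus n K))) := by
  have h3 : ∀ a b, ∃ c, (fPlus n K).D a c ∧ (fPlus n K).D b c := fun a b => by
    simpa using (fPlus n K).exists_D rfl [a, b] (by simp; omega)
  have hr : (jOmega (qPlus n K)).range = (fPlus n K).E := (jOmega_range _).trans
    (ofQ_E_eq (qPlus_nondeg n K) (bigEnough_of_card (by simp; omega)) h3 (.inl ⟨0, by omega⟩)).symm
  have P : Pol (fPlus n K) Sum.inl := ⟨fun h => by simpa [D, fPlus] using h.symm,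
    by rintro (i | i); exacts [⟨i, Or.inl rfl⟩, ⟨i, Or.inr rfl⟩], fun _ _ => by
      simp [ε, fPlus, ofQ_B, pb_qPlus, Pi.single_apply]⟩
  have hε : ∀ k, (fPlus n K).ε k = 1 := by
    rintro (i | i) <;> simp [ε, fPlus, ofQ_B, pb_qPlus, Pi.single_apply]
  have hV : ∀ u α, (fPlus n K).V0 u → (ofQ (qPlus n K)).Λ u α → u = 0 ∧ α = 0 := fun u α hu hα =>
    ⟨fPlus_V0 n K hu, by simpa [fPlus_V0 n K hu, ofQ_Λ] using hα⟩
  constructor
  · refine hasPres_of_equiv ((MonoidHom.ofInjective (jOmega_inj _)).trans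
      (MulEquiv.subgroupCongr hr)).symm ?_
    obtain rfl | h5 := hn.eq_or_lt
    · exact hasPres_le (hasPres_D_four ofQ_σ hε hV P (nd_of_three h3) (a := 0) (b := 1) (c := 2)
        (d := 3) (by decide) (by decide) (by decide) (by decide) (by decide) (by decide)
        hasPres_SL_four (by ext x; revert x; simp; decide)) (by norm_num) (by norm_num)
    have key := fun k m => hasPres_D_big (k := k) (m := m) ofQ_σ hε hV P (nd_of_three h3)
      (a := ⟨0, by omega⟩) (b := ⟨1, by omega⟩) (c := ⟨2, by omega⟩) (d := ⟨3, by omega⟩) (by simp)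
      (by simp) (by simp) (by simp) (by simp) (by simp)
    have hc : 3 ≤ ({⟨0, by omega⟩, ⟨1, by omega⟩}ᶜ : Set (Fin n)).ncard := by
      rw [Set.ncard_compl, Set.ncard_pair (by simp)]; simp; omega
    split_ifs with h
    · obtain rfl : n = 5 := by omega
      exact hasPres_le (key _ _ hasPres_SL_five hc) (by norm_num) (by norm_num)
    · exact hasPres_le (key _ _ (hasPres_SL_ge_four hn) hc) (by norm_num) (by norm_num)
  · have key : ∀ x ∈ center (Omega K (qPlus n K)), x = 1 ∨ ∀ v : Fin n ⊕ Fin n → K,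
        jOmega _ x • v = -v := fun x hx => by
      let a : Fin n ⊕ Fin n := .inl ⟨0, by omega⟩
      obtain ⟨c, hc⟩ := exists_scalar (F := fPlus n K) (qPlus_nondeg n K).1
        (fun a => (h3 a a).imp fun _ h => h.1) a (z := jOmega _ x) fun g hg => by
          rw [← hr] at hg
          obtain ⟨g, rfl⟩ := hg
          exact (show Commute x g from (mem_center_iff.mp hx g).symm).map _
      have h := B_U (jOmega _ x) ((fPlus n K).e ((fPlus n K).n a)) ((fPlus n K).e a)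
      simp only [hc, map_smul, LinearMap.smul_apply, map_smulₛₗ, ofQ_σ, B_n, smul_eq_mul, hε] at h
      rcases mul_self_eq_one_iff.mp (show c * c = 1 by simpa using h) with rfl | rfl
      · exact Or.inl (jOmega_inj _ (U_ext fun v => by simp [hc]))
      · exact Or.inr fun v => by simp [hc]
    by_cases h : ∃ z ∈ center (Omega K (qPlus n K)), z ≠ 1
    · obtain ⟨z, hz, h1⟩ := h
      refine ⟨⟨z, hz⟩, fun ⟨x, hx⟩ => ?_⟩
      rcases key x hx with rfl | h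
      · exact ⟨0, rfl⟩
      · exact ⟨1, Subtype.ext ((zpow_one z).trans (jOmega_inj _ (U_ext fun v =>
          (key z hz).resolve_left h1 v |>.trans (h v).symm)))⟩
    · push Not at h
      exact ⟨1, fun ⟨x, hx⟩ => ⟨0, Subtype.ext (h x hx).symm⟩⟩

end Cfsg.Agent.H6
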