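import Cfsg.Agent.H5.UField

/-! Rank one groups of unitary type in characteristic two: the Sylow subgroup, Bruhat data, and
uniqueness of the group once the structure equation is known. -/

set_option autoImplicit false

namespace Cfsg.Agent.H6

variable {F : Type*} [Field F] [StarRing F]

/-- The unipotent radical of a Borel subgroup of the three-dimensional unitary group. -/
@[ext] structure HS (F : Type*) [Field F] [StarRing F] where
  a : F
  b : F
  h : b + star b = a * star a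

theorem nrm_star (a : F) : star (a * star a) = a * star a := by
  rw [star_mul', star_star, mul_comm]

variable [CharP F 2]

omit [StarRing F] in
theorem f2 : (2 : F) = 0 := CharTwo.two_eq_zero

namespace HS

instance instGroupHS : Group (HS F) where
  mul x y := ⟨x.a + y.a, x.b + y.b + star x.a * y.a, by
    simp only [star_add, star_mul', star_star]; linear_combination x.h + y.h⟩
  one := ⟨0, 0, by simp⟩
  inv x := ⟨x.a, star x.b, by rw [star_star, add_comm, x.h]⟩
  mul_assoc x y z := HS.ext (add_assoc _ _ _) (by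
    change x.b + y.b + star x.a * y.a + z.b + star (x.a + y.a) * z.a =
      x.b + (y.b + z.b + star y.a * z.a) + star x.a * (y.a + z.a)
    rw [star_add]; ring)
  one_mul x := HS.ext (zero_add _) (by change 0 + x.b + star 0 * x.a = x.b; simp)
  mul_one x := HS.ext (add_zero _) (by change x.b + 0 + star x.a * 0 = x.b; simp)
  inv_mul_cancel x := HS.ext (CharTwo.add_self_eq_zero _) (by
    change star x.b + x.b + star x.a * x.a = 0
    linear_combination x.h + x.a * star x.a * f2 (F := F))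

@[simp] theorem mul_a (x y : HS F) : (x * y).a = x.a + y.a := rfl
@[simp] theorem mul_b (x y : HS F) : (x * y).b = x.b + y.b + star x.a * y.a := rfl
@[simp] theorem one_a : (1 : HS F).a = 0 := rfl
@[simp] theorem one_b : (1 : HS F).b = 0 := rfl
@[simp] theorem inv_a (x : HS F) : x⁻¹.a = x.a := rfl
@[simp] theorem inv_b (x : HS F) : x⁻¹.b = star x.b := rfl

theorem real_b {x : HS F} (h : x.a = 0) : star x.b = x.b := by
  have := x.h
  rw [h, zero_mul] at this
  linear_combination this - x.b * f2 (F := F)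

theorem eq_one_of_b {x : HS F} (h : x.b = 0) : x = 1 := by
  have := x.h
  rw [h, star_zero, add_zero, eq_comm, mul_eq_zero, star_eq_zero, or_self] at this
  exact HS.ext this h

theorem comm_of_a {x : HS F} (h : x.a = 0) (y : HS F) : x * y = y * x := by
  ext <;> simp [h, add_comm]

theorem sq_a (x : HS F) : (x * x).a = 0 := CharTwo.add_self_eq_zero _

theorem sq_b (x : HS F) : (x * x).b = x.a * star x.a := by
  rw [mul_b, CharTwo.add_self_eq_zero, zero_add, mul_comm]

theorem sq_eq_one {x : HS F} : x * x = 1 ↔ x.a = 0 := by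
  refine ⟨fun h => ?_, fun h => HS.ext (sq_a x) (by rw [sq_b, h, zero_mul, one_b])⟩
  have := sq_b x
  rwa [h, one_b, eq_comm, mul_eq_zero, star_eq_zero, or_self] at this

/-- The central element with a given second coordinate. -/
def zc (z : F) (h : star z = z) : HS F := ⟨0, z, by rw [h, CharTwo.add_self_eq_zero, zero_mul]⟩

@[simp] theorem zc_a (z : F) (h : star z = z) : (zc z h).a = 0 := rfl
@[simp] theorem zc_b (z : F) (h : star z = z) : (zc z h).b = z := rfl

/-- The diagonal action. -/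
def dl (t : F) : HS F →* HS F where
  toFun x := ⟨t * x.a, t * star t * x.b, by
    rw [star_mul', nrm_star, star_mul', ← mul_add, x.h]; ring⟩
  map_one' := HS.ext (mul_zero _) (mul_zero _)
  map_mul' x y := HS.ext (mul_add _ _ _) (by simp only [mul_b, star_mul']; ring)

@[simp] theorem dl_a (t : F) (x : HS F) : (dl t x).a = t * x.a := rfl
@[simp] theorem dl_b (t : F) (x : HS F) : (dl t x).b = t * star t * x.b := rfl

theorem dl_dl (t t' : F) (x : HS F) : dl t (dl t' x) = dl (t * t') x := by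
  ext <;> simp only [dl_a, dl_b, star_mul'] <;> ring

theorem dl_one (x : HS F) : dl 1 x = x := by ext <;> simp

/-- The action of the Weyl element on the points. -/
def ff (x : HS F) : HS F := ⟨x.a / x.b, x.b⁻¹, by
  by_cases h : x.b = 0
  · simp [h]
  · have h' : star x.b ≠ 0 := star_ne_zero.2 h
    rw [star_div₀, star_inv₀]
    field_simp
    linear_combination x.h⟩

omit [CharP F 2] in
@[simp] theorem ff_a (x : HS F) : (ff x).a = x.a / x.b := rfl
omit [CharP F 2] in
@[simp] theorem ff_b (x : HS F) : (ff x).b = x.b⁻¹ := rfl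

end HS

open HS

/-- Generators with the relations inside the Borel subgroup and the torus normalizer. -/
structure BN0 (G F : Type*) [Group G] [Field F] [StarRing F] [CharP F 2] where
  s : HS F →* G
  d : Fˣ →* G
  u : G
  ds : ∀ (t : Fˣ) x, d t * s x = s (dl (t : F) x) * d t
  uu : u * u = 1
  ud : ∀ t, u * d t = d (star t)⁻¹ * u

namespace BN0

variable {G G' : Type*} [Group G] [Group G'] (B : BN0 G F) (B' : BN0 G' F)

/-- Existence and uniqueness of the Bruhat normal form. -/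
structure Full : Prop where
  ex : ∀ g, (∃ x t, g = B.s x * B.d t) ∨ ∃ x t y, g = B.s x * B.u * B.d t * B.s y
  un1 : ∀ x t, B.s x * B.d t = 1 → x = 1 ∧ t = 1
  un2 : ∀ x y t, B.u * B.s x * B.u = B.s y * B.d t → x = 1
  un3 : ∀ x t, B.u ≠ B.s x * B.d t

/-- The structure equation. -/
def Rel : Prop := ∀ (x : HS F) (t : Fˣ), x ≠ 1 → (t : F) = star x.b ^ 2 / x.b →
  B.u * B.s x * B.u = B.s (ff x) * B.u * B.d t * B.s (ff x⁻¹)⁻¹

theorem sd (x : HS F) (t : Fˣ) : B.s x * B.d t = B.d t * B.s (dl ((t⁻¹ : Fˣ) : F) x) := by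
  rw [B.ds, dl_dl, Units.mul_inv, dl_one]

theorem du (t : Fˣ) : B.d t * B.u = B.u * B.d (star t)⁻¹ := by
  rw [B.ud, star_inv, star_star, inv_inv]

theorem u_inv : B.u⁻¹ = B.u := inv_eq_of_mul_eq_one_right B.uu

theorem uu' (g : G) : B.u * (B.u * g) = g := by rw [← mul_assoc, B.uu, one_mul]

theorem Rel.normal {B : BN0 G F} (h : B.Rel) {g : G}
    (hg : g ∈ Subgroup.closure (Set.range B.s ∪ Set.range B.d ∪ {B.u})) :
    (∃ x t, g = B.s x * B.d t) ∨ ∃ x t y, g = B.s x * B.u * B.d t * B.s y := by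
  have key : ∀ a ∈ Set.range B.s ∪ Set.range B.d ∪ {B.u}, ∀ g : G,
      ((∃ x t, g = B.s x * B.d t) ∨ ∃ x t y, g = B.s x * B.u * B.d t * B.s y) →
      (∃ x t, a * g = B.s x * B.d t) ∨ ∃ x t y, a * g = B.s x * B.u * B.d t * B.s y := by
    rintro _ ((⟨z, rfl⟩ | ⟨c, rfl⟩) | rfl) _ (⟨x, t, rfl⟩ | ⟨x, t, y, rfl⟩)
    · exact Or.inl ⟨z * x, t, by rw [map_mul, mul_assoc]⟩
    · exact Or.inr ⟨z * x, t, y, by simp only [map_mul, mul_assoc]⟩
    · exact Or.inl ⟨dl (c : F) x, c * t, by rw [← mul_assoc, B.ds, map_mul, mul_assoc]⟩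
    · exact Or.inr ⟨dl (c : F) x, (star c)⁻¹ * t, y, by
        rw [← mul_assoc, ← mul_assoc, ← mul_assoc, B.ds, mul_assoc (B.s _), B.du, map_mul]
        simp only [mul_assoc]⟩
    · exact Or.inr ⟨1, t, dl ((t⁻¹ : Fˣ) : F) x, by rw [B.sd, map_one, one_mul, mul_assoc]⟩
    · by_cases hx : x = 1
      · refine Or.inl ⟨dl (t : F) y, t, ?_⟩
        rw [hx, map_one, one_mul, mul_assoc, B.uu', B.ds]
      · have hb : x.b ≠ 0 := fun e => hx (eq_one_of_b e)
        let c : Fˣ := Units.mk0 (star x.b ^ 2 / x.b) (by simp [hb])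
        refine Or.inr ⟨ff x, c * t, dl ((t⁻¹ : Fˣ) : F) (ff x⁻¹)⁻¹ * y, ?_⟩
        rw [← mul_assoc, ← mul_assoc, ← mul_assoc, h x c hx rfl, mul_assoc _ _ (B.d t), B.sd]
        simp only [map_mul, mul_assoc]
  induction hg using Subgroup.closure_induction_left with
  | one => exact Or.inl ⟨1, 1, by simp⟩
  | mul_left a ha g _ ih => exact key a ha g ih
  | inv_mul_cancel a ha g _ ih =>
    refine key a⁻¹ ?_ g ih
    rcases ha with (⟨z, rfl⟩ | ⟨c, rfl⟩) | rfl
    · exact Or.inl (Or.inl ⟨z⁻¹, map_inv _ _⟩)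
    · exact Or.inl (Or.inr ⟨c⁻¹, map_inv _ _⟩)
    · exact Or.inr B.u_inv

/-- The diagonal data in a direct product. -/
def prod : BN0 (G × G') F where
  s := B.s.prod B'.s
  d := B.d.prod B'.d
  u := (B.u, B'.u)
  ds t x := Prod.ext (B.ds t x) (B'.ds t x)
  uu := Prod.ext B.uu B'.uu
  ud t := Prod.ext (B.ud t) (B'.ud t)

theorem bij_proj {P : Type*} [Group P] (D : BN0 P F) (hD : D.Rel) (h : B.Full) (π : P →* G)
    (h₁ : ∀ x, π (D.s x) = B.s x) (h₂ : ∀ t, π (D.d t) = B.d t) (h₃ : π D.u = B.u) :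
    Function.Bijective (π.comp
      (Subgroup.closure (Set.range D.s ∪ Set.range D.d ∪ {D.u})).subtype) := by
  set H := Subgroup.closure (Set.range D.s ∪ Set.range D.d ∪ {D.u})
  have m₁ : ∀ x, D.s x ∈ H := fun x => Subgroup.subset_closure (Or.inl (Or.inl ⟨x, rfl⟩))
  have m₂ : ∀ t, D.d t ∈ H := fun x => Subgroup.subset_closure (Or.inl (Or.inr ⟨x, rfl⟩))
  have m₃ : D.u ∈ H := Subgroup.subset_closure (Or.inr rfl)
  refine ⟨(injective_iff_map_eq_one _).2 fun ⟨g, hg⟩ e => Subtype.ext ?_, fun g => ?_⟩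
  · change π g = 1 at e
    rcases hD.normal hg with ⟨x, t, rfl⟩ | ⟨x, t, y, rfl⟩
    · rw [map_mul, h₁, h₂] at e
      obtain ⟨rfl, rfl⟩ := h.un1 x t e
      simp
    · rw [map_mul, map_mul, map_mul, h₁, h₁, h₂, h₃] at e
      refine absurd ?_ (h.un3 (x⁻¹ * y⁻¹) t⁻¹)
      simp only [map_mul, map_inv]
      rw [← mul_inv_rev, ← mul_inv_rev, eq_inv_iff_mul_eq_one, ← mul_left_cancel_iff (a := B.s x),
        ← mul_assoc, ← mul_assoc, ← mul_assoc, e, one_mul, mul_one]
  · rcases h.ex g with ⟨x, t, rfl⟩ | ⟨x, t, y, rfl⟩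
    · exact ⟨⟨_, mul_mem (m₁ x) (m₂ t)⟩, by simp [h₁, h₂]⟩
    · exact ⟨⟨_, mul_mem (mul_mem (mul_mem (m₁ x) m₃) (m₂ t)) (m₁ y)⟩, by simp [h₁, h₂, h₃]⟩

theorem nonempty_equiv (h : B.Full) (h' : B'.Full) (r : B.Rel) (r' : B'.Rel) :
    Nonempty (G ≃* G') := by
  have hD : (B.prod B').Rel := fun x t hx ht => Prod.ext (r x t hx ht) (r' x t hx ht)
  exact ⟨(MulEquiv.ofBijective _ (B.bij_proj _ hD h (MonoidHom.fst G G') (fun _ => rfl)
    (fun _ => rfl) rfl)).symm.trans (MulEquiv.ofBijective _ (B'.bij_proj _ hD h'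
      (MonoidHom.snd G G') (fun _ => rfl) (fun _ => rfl) rfl))⟩

end BN0

end Cfsg.Agent.H6
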