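import Cfsg.Agent.H6.PGU1

/-! The structure equation of a rank one group of unitary type is forced. -/

set_option autoImplicit false

namespace Cfsg.Agent.H6

open HS

variable {F : Type*} [Field F] [StarRing F] [Fintype F] [CharP F 2] {q : ℕ}

/-- The field has `q ^ 2` elements, `q > 2`, and `star` is the `q`-th power map. -/
structure FQ (F : Type*) [Field F] [StarRing F] [Fintype F] (q : ℕ) : Prop where
  uf : H5.UF (starRingEnd F) q
  lt : 2 < q

theorem exists_ne_ne {α : Type*} {p : α → Prop} (h : 2 < Nat.card {x // p x}) (a b : α) :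
    ∃ x, p x ∧ x ≠ a ∧ x ≠ b := by
  classical
  by_contra hc
  push Not at hc
  have : {x | p x} ⊆ {a, b} := fun x hx => by
    by_cases h1 : x = a
    · exact Or.inl h1
    · exact Or.inr (hc x hx h1)
  have h1 := Set.ncard_le_ncard this
  have h2 := Set.ncard_insert_le a {b}
  rw [Set.ncard_singleton] at h2
  exact absurd h (not_lt.2 (h1.trans h2))

namespace FQ

variable (h : FQ F q)
include h

omit [CharP F 2] in
theorem star_eq (x : F) : star x = x ^ q := h.uf.apply x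

omit [CharP F 2] in
theorem exists_real (c : F) : ∃ z : F, star z = z ∧ z ≠ 0 ∧ z ≠ c :=
  exists_ne_ne (by rw [show Nat.card {x : F // star x = x} = q from h.uf.card_fixed]; exact h.lt) 0 c

omit [CharP F 2] in
theorem exists_unit : ∃ μ : F, μ * star μ = 1 ∧ μ ≠ 1 := by
  obtain ⟨x, h1, h2, -⟩ := exists_ne_ne (p := fun x : F => x * star x = 1) (by
    rw [show Nat.card {x : F // x * star x = 1} = q + 1 from h.uf.card_norm_one]
    have := h.lt
    omega) 1 1
  exact ⟨x, h1, h2⟩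

omit h in
theorem exists_sqrt {c : F} (hc : star c = c) : ∃ l : F, star l = l ∧ l * l = c := by
  obtain ⟨l, rfl⟩ := isSquare_of_charTwo' c
  refine ⟨l, ?_, rfl⟩
  rw [star_mul', mul_self_eq_mul_self_iff, CharTwo.neg_eq, or_self] at hc
  exact hc

omit [CharP F 2] in
theorem exists_pt (a : F) : ∃ x : HS F, x.a = a := by
  obtain ⟨b, hb⟩ := h.uf.trace_surj (c := a * star a) (nrm_star a)
  exact ⟨⟨a, b, by rw [hb, add_comm]; rfl⟩, rfl⟩

omit [CharP F 2] in
theorem exists_nrm {c : F} (hc : star c = c) : ∃ a : F, a * star a = c := h.uf.norm_surj hc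

theorem exists_pow : ∃ k, q = 2 ^ (k + 1) := by
  obtain ⟨-, k, hk, e⟩ := H5.exists_char_pow h.uf.card 2
  exact ⟨k - 1, by rwa [Nat.sub_add_cancel hk]⟩

theorem card_tr : Nat.card {β : F // β + star β = 1} = q := by
  obtain ⟨θ, hθ⟩ := h.uf.exists_trace_one
  change star θ + θ = 1 at hθ
  rw [← show Nat.card {x : F // star x = x} = q from h.uf.card_fixed]
  refine Nat.card_congr ⟨fun β => ⟨β.1 + θ, ?_⟩, fun x => ⟨x.1 + θ, ?_⟩, fun β => Subtype.ext ?_,
    fun β => Subtype.ext ?_⟩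
  · rw [star_add]
    linear_combination β.2 + hθ + (1 - β.1 - θ) * f2 (F := F)
  · rw [star_add]
    linear_combination x.2 + hθ + x.1 * f2 (F := F)
  · simp [add_assoc, CharTwo.add_self_eq_zero]
  · simp [add_assoc, CharTwo.add_self_eq_zero]

end FQ

namespace BN0

variable {G : Type*} [Group G] {B : BN0 G F}

/-- One instance of the structure equation. -/
def R (B : BN0 G F) (x y : HS F) (t : Fˣ) (z : HS F) : Prop :=
  B.u * B.s x * B.u = B.s y * B.u * B.d t * B.s z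

/-- The action of the Weyl element on the points, as a relation. -/
def Fr (B : BN0 G F) (x y : HS F) : Prop := ∃ t z, B.R x y t z

omit [Fintype F]

theorem R.inv {x y z : HS F} {t : Fˣ} (h : B.R x y t z) : B.R x⁻¹ z⁻¹ (star t) y⁻¹ := by
  have := congrArg (·⁻¹) h
  simp only [mul_inv_rev, B.u_inv, ← map_inv, ← mul_assoc] at this
  rw [R, this, mul_assoc _ _ B.u, B.du, star_inv, inv_inv, ← mul_assoc]

theorem R.symm {x y z : HS F} {t : Fˣ} (h : B.R x y t z) : B.R y x t⁻¹ (dl (t : F) z⁻¹) := by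
  have e : B.s y * B.u = B.u * B.s x * B.u * (B.s z⁻¹ * B.d t⁻¹) := by
    rw [h, map_inv, map_inv]; group
  rw [R, mul_assoc, e, B.sd, inv_inv]
  simp only [mul_assoc, B.uu']

theorem R.dl {x y z : HS F} {t : Fˣ} (h : B.R x y t z) (c : Fˣ) :
    B.R (dl (c : F) x) (dl (((star c)⁻¹ : Fˣ) : F) y) (c * t * star c)
      (dl (((star c)⁻¹ : Fˣ) : F) z) := by
  have e : ∀ (c : Fˣ) x, B.s (HS.dl (c : F) x) = B.d c * B.s x * B.d c⁻¹ := fun c x => by
    rw [B.ds, map_inv, mul_inv_cancel_right]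
  have h₁ := B.ud c
  have h₂ := B.du c⁻¹
  have h₃ := B.du (star c)
  rw [star_inv, inv_inv] at h₂
  rw [star_star] at h₃
  rw [R, e, e, e, inv_inv]
  calc _ = (B.u * B.d c) * B.s x * (B.d c⁻¹ * B.u) := by simp only [mul_assoc]
    _ = B.d (star c)⁻¹ * (B.u * B.s x * B.u) * B.d (star c) := by
      rw [h₁, h₂]; simp only [mul_assoc]
    _ = B.d (star c)⁻¹ * B.s y * (B.u * B.d c⁻¹) * B.d (c * t * star c) *
        (B.d (star c)⁻¹ * B.s z * B.d (star c)) := by
      rw [h]; simp only [map_mul, map_inv]; group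
    _ = _ := by rw [← h₃]; simp only [mul_assoc]

theorem Fr.symm {x y : HS F} (h : B.Fr x y) : B.Fr y x :=
  let ⟨_, _, h⟩ := h; ⟨_, _, h.symm⟩

theorem Fr.dl {x y : HS F} (h : B.Fr x y) {c : F} (hc : c ≠ 0) :
    B.Fr (dl c x) (dl (star c)⁻¹ y) := by
  obtain ⟨_, _, h⟩ := h
  have := h.dl (Units.mk0 c hc)
  simp only [Units.val_mk0, Units.val_inv_eq_inv_val, Units.coe_star] at this
  exact ⟨_, _, this⟩

theorem R.six {x y z w w' v : HS F} {t : Fˣ} (h : B.R x y t z) (h₁ : B.Fr w' w)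
    (h₂ : B.Fr (HS.dl (t : F) (z * w)) v) : B.Fr (x * w') (y * v) := by
  obtain ⟨t₁, z₁, h₁⟩ := h₁
  obtain ⟨t₂, z₂, h₂⟩ := h₂
  refine ⟨t₂ * ((star t)⁻¹ * t₁), HS.dl ((((star t)⁻¹ * t₁)⁻¹ : Fˣ) : F) z₂ * z₁, ?_⟩
  calc _ = (B.u * B.s x * B.u) * (B.u * B.s w' * B.u) := by
        simp only [map_mul, mul_assoc, B.uu']
    _ = B.s y * B.u * (B.d t * B.s (z * w)) * B.u * B.d t₁ * B.s z₁ := by
        rw [h, h₁]; simp only [map_mul, mul_assoc]
    _ = B.s y * (B.u * B.s (HS.dl (t : F) (z * w)) * B.u) * B.d ((star t)⁻¹ * t₁) * B.s z₁ := by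
        rw [B.ds, map_mul B.d, mul_assoc _ _ B.u, mul_assoc _ _ B.u, B.du]; simp only [mul_assoc]
    _ = B.s y * B.s v * B.u * B.d t₂ * (B.s z₂ * B.d ((star t)⁻¹ * t₁)) * B.s z₁ := by
        rw [h₂]; simp only [mul_assoc]
    _ = _ := by rw [B.sd]; simp only [map_mul, mul_assoc]

namespace Full

variable (h : B.Full)
include h

theorem exR {x : HS F} (hx : x ≠ 1) : ∃ y t z, B.R x y t z :=
  (h.ex _).resolve_left fun ⟨y, t, e⟩ => hx (h.un2 x y t e)

theorem uniq {x y z y' z' : HS F} {t t' : Fˣ} (h₁ : B.R x y t z) (h₂ : B.R x y' t' z') :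
    y = y' ∧ t = t' ∧ z = z' := by
  have e : B.u * B.s (y'⁻¹ * y) * B.u = B.s (HS.dl (t' : F) (z' * z⁻¹)) * B.d (t' * t⁻¹) := by
    have e₁ : B.s y * B.u = B.s y' * B.u * B.d t' * B.s z' * (B.s z)⁻¹ * (B.d t)⁻¹ := by
      rw [(Eq.symm h₂).trans h₁]; group
    rw [map_mul B.d, ← mul_assoc _ (B.d t'), ← B.ds, map_mul, mul_assoc, mul_assoc, e₁]
    simp only [map_mul, map_inv, mul_assoc, inv_mul_cancel_left, B.uu']
  have e₁ := h.un2 _ _ _ e
  rw [e₁, map_one, mul_one, B.uu] at e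
  obtain ⟨e₂, e₃⟩ := h.un1 _ _ e.symm
  have e₄ := congrArg (HS.dl ((t'⁻¹ : Fˣ) : F)) e₂
  rw [dl_dl, Units.inv_mul, dl_one, map_one] at e₄
  exact ⟨(inv_mul_eq_one.1 e₁).symm, (mul_inv_eq_one.1 e₃).symm, (mul_inv_eq_one.1 e₄).symm⟩

theorem func {x y y' : HS F} (h₁ : B.Fr x y) (h₂ : B.Fr x y') : y = y' :=
  let ⟨_, _, h₁⟩ := h₁; let ⟨_, _, h₂⟩ := h₂; (h.uniq h₁ h₂).1

theorem exFr {x : HS F} (hx : x ≠ 1) : ∃ y, B.Fr x y :=
  let ⟨y, t, z, e⟩ := h.exR hx; ⟨y, t, z, e⟩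

theorem ne_one {x y : HS F} (e : B.Fr x y) : x.b ≠ 0 := fun hb => by
  obtain ⟨t, z, e⟩ := e
  rw [R, eq_one_of_b hb, map_one, mul_one, B.uu] at e
  refine h.un3 (y⁻¹ * z⁻¹) t⁻¹ ?_
  rw [map_mul, map_inv, map_inv, map_inv, ← one_mul (B.s z)⁻¹, e]
  group

variable [Fintype F] (hq : FQ F q)
include hq

theorem fr_a {x y : HS F} (h₁ : B.Fr x y) (hx : x.a = 0) : y.a = 0 := by
  obtain ⟨μ, hμ, hμ'⟩ := hq.exists_unit
  have h0 : μ ≠ 0 := left_ne_zero_of_mul_eq_one hμ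
  have h₂ := h₁.dl h0
  rw [show HS.dl μ x = x by ext <;> simp [hx, hμ], ← eq_inv_of_mul_eq_one_left hμ] at h₂
  have := congrArg HS.a (h.func h₁ h₂)
  rw [dl_a] at this
  exact (mul_left_eq_self₀.1 this.symm).resolve_left hμ'

theorem exists_fix : ∃ (x : HS F) (c : F), x.a = 1 ∧ c ≠ 0 ∧ B.Fr x⁻¹ (HS.dl c x) := by
  classical
  have ne : ∀ x : HS F, x.a ≠ 0 → x ≠ 1 := fun x hx e => hx (by rw [e, one_a])
  have : ∀ x : HS F, ∃ y, x.a ≠ 0 → B.Fr x y := fun x => by
    by_cases hx : x.a = 0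
    · exact ⟨1, fun e => absurd hx e⟩
    · exact (h.exFr (ne x hx)).imp fun _ e _ => e
  choose f hf using this
  have fa : ∀ x y : HS F, x.a ≠ 0 → B.Fr x y → y.a ≠ 0 := fun x y hx e e' =>
    hx (h.fr_a hq e.symm e')
  let nm : ∀ x : HS F, x.a ≠ 0 → {x : HS F // x.a = 1} := fun x hx =>
    ⟨HS.dl x.a⁻¹ x, inv_mul_cancel₀ hx⟩
  have n1 : ∀ x : {x : HS F // x.a = 1}, x.1⁻¹.a ≠ 0 := fun x => by
    rw [inv_a, x.2]; exact one_ne_zero
  have nm_dl : ∀ (x : HS F) (c : F) hx hx', nm (HS.dl c x) hx' = nm x hx := by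
    intro x c hx hx'
    refine Subtype.ext ?_
    change HS.dl (c * x.a)⁻¹ (HS.dl c x) = _
    rw [dl_dl, mul_inv, mul_right_comm, inv_mul_cancel₀ (left_ne_zero_of_mul hx'), one_mul]
  let θ : {x : HS F // x.a = 1} → {x : HS F // x.a = 1} := fun x =>
    nm (f x.1⁻¹) (fa _ _ (n1 x) (hf _ (n1 x)))
  have hθ : ∀ (x y : HS F) hx hy, B.Fr x⁻¹ y → θ (nm x hx) = nm y hy := by
    intro x y hx hy e
    have e₁ := e.dl (inv_ne_zero hx)
    rw [map_inv] at e₁
    have e₂ := h.func (hf _ (n1 (nm x hx))) e₁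
    rw [← nm_dl y (star x.a⁻¹)⁻¹ hy (e₂ ▸ fa _ _ (n1 _) (hf _ (n1 _)))]
    exact Subtype.ext (congrArg (fun y : HS F => HS.dl y.a⁻¹ y) e₂)
  have h3 : ∀ x, θ (θ (θ x)) = x := by
    intro x
    obtain ⟨y, t, z, e⟩ := h.exR (ne _ (n1 x))
    have hx : x.1.a ≠ 0 := n1 x
    have hy := fa _ _ (n1 x) ⟨_, _, e⟩
    have e₁ := e.symm.inv
    rw [← map_inv, inv_inv] at e₁
    have hz := fa _ _ (show y⁻¹.a ≠ 0 from hy) ⟨_, _, e₁⟩
    have e₂ := Fr.symm ⟨_, _, e.inv⟩
    rw [inv_inv] at e₂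
    have ex : nm x.1 hx = x := Subtype.ext (by
      change HS.dl x.1.a⁻¹ x.1 = x.1
      rw [x.2, inv_one, dl_one])
    have hz' : z.a ≠ 0 := right_ne_zero_of_mul hz
    conv_lhs => rw [← ex]
    rw [hθ _ y hx hy ⟨_, _, e⟩, hθ _ _ hy hz ⟨_, _, e₁⟩, nm_dl z _ hz' hz, hθ _ _ hz' hx e₂, ex]
  have hc : Nat.card {x : HS F // x.a = 1} = q := by
    rw [← hq.card_tr]
    exact Nat.card_congr ⟨fun x => ⟨x.1.b, by simpa [x.2] using x.1.h⟩,
      fun β => ⟨⟨1, β.1, by simpa using β.2⟩, rfl⟩, fun x => Subtype.ext (HS.ext x.2.symm rfl),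
      fun β => rfl⟩
  have : Finite {x : HS F // x.a = 1} := Nat.finite_of_card_ne_zero (by have := hq.lt; omega)
  have := Fintype.ofFinite {x : HS F // x.a = 1}
  have : Fact (Nat.Prime 3) := ⟨Nat.prime_three⟩
  obtain ⟨x, hx⟩ := Equiv.Perm.exists_fixed_point_of_prime (p := 3) (n := 1)
    (σ := (⟨θ, fun x => θ (θ x), h3, h3⟩ : Equiv.Perm _)) (by
      obtain ⟨k, rfl⟩ := hq.exists_pow
      rw [← Nat.card_eq_fintype_card, hc]
      exact fun e => absurd (Nat.prime_three.dvd_of_dvd_pow e) (by norm_num))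
    (Equiv.ext fun x => h3 x)
  have h0 := fa _ _ (n1 x) (hf _ (n1 x))
  refine ⟨x.1, _, x.2, h0, ?_⟩
  have e := congrArg (HS.dl (f x.1⁻¹).a)
    (show HS.dl (f x.1⁻¹).a⁻¹ (f x.1⁻¹) = x.1 from congrArg Subtype.val hx)
  rw [dl_dl, mul_inv_cancel₀ h0, dl_one] at e
  exact e ▸ hf _ (n1 x)

variable (h1 : B.Fr (zc 1 (star_one F)) (zc 1 (star_one F)))
include h1

omit h hq in
theorem fr_z {x y : HS F} (hx : x.a = 0) (hy : y.a = 0) (e : x.b * y.b = 1) : B.Fr x y := by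
  obtain ⟨l, hl, hl'⟩ := FQ.exists_sqrt (real_b hx)
  have h0 : l ≠ 0 := left_ne_zero_of_mul (hl' ▸ left_ne_zero_of_mul_eq_one e)
  convert h1.dl h0 using 1
  · ext <;> simp [hx, hl, hl']
  · ext
    · simp [hy]
    · simp [hl, ← mul_inv, hl', eq_inv_of_mul_eq_one_right e]

theorem r_z {x y z : HS F} {t : Fˣ} (hx : x.a = 0) (e : B.R x y t z) : (t : F) = x.b := by
  have hi : ∀ x : HS F, x.a = 0 → x⁻¹ = x := fun x hx => HS.ext rfl (real_b hx)
  have e₁ := e.inv
  rw [hi x hx] at e₁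
  obtain ⟨a₁, a₂, -⟩ := h.uniq e e₁
  have hy := h.fr_a hq ⟨_, _, e⟩ hx
  have hb := h.ne_one ⟨_, _, e⟩
  have e₂ := e.symm.inv
  rw [← map_inv, inv_inv, hi y hy, ← inv_inv z, ← a₁, hi y hy] at e₂
  have e₃ := congrArg HS.b (h.func ⟨_, _, e₂⟩ (Fr.symm ⟨_, _, e⟩))
  have e₄ := congrArg HS.b (h.func ⟨_, _, e⟩ (fr_z h1 (y := zc x.b⁻¹ (by
    rw [star_inv₀, real_b hx])) hx rfl (mul_inv_cancel₀ hb)))
  rw [dl_b, e₄, ← Units.coe_star, ← a₂, zc_b, mul_inv_eq_iff_eq_mul₀ hb,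
    mul_self_eq_mul_self_iff, CharTwo.neg_eq, or_self] at e₃
  exact e₃

theorem three {w w' v : HS F} (e₁ : B.Fr w' w) (e₂ : B.Fr (zc 1 (star_one F) * w) v) :
    B.Fr (zc 1 (star_one F) * w') (zc 1 (star_one F) * v) := by
  obtain ⟨t, z, e⟩ := id h1
  have ht := h.r_z hq h1 rfl e
  have hi : (zc 1 (star_one F))⁻¹ = zc 1 (star_one F) := HS.ext rfl (star_one F)
  have e₃ := e.inv
  rw [hi] at e₃
  have hz : z = zc 1 (star_one F) := by rw [← inv_inv z, ← (h.uniq e e₃).1, hi]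
  refine e.six e₁ ?_
  rwa [ht, hz, zc_b, dl_one]

theorem fr_ff {x : HS F} (hx : x ≠ 1) : B.Fr x (ff x) := by
  by_cases ha : x.a = 0
  · exact fr_z h1 ha (by simp [ha]) (mul_inv_cancel₀ fun e => hx (eq_one_of_b e))
  obtain ⟨x₀, c, h0, hc, e₀⟩ := h.exists_fix hq
  set β := x₀.b with hβ
  have sβ : star β = β + 1 := by
    have := x₀.h
    rw [h0, star_one, mul_one] at this
    linear_combination this - β * f2 (F := F)
  have sc : star c ≠ 0 := star_ne_zero.2 hc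
  set ν := c * star c with hν
  have sν : star ν = ν := nrm_star c
  have ν0 : ν ≠ 0 := mul_ne_zero hc sc
  have : ∀ z : F, ∃ X : HS F, star z = z → X.a = 1 ∧ X.b = β + z := fun z => by
    by_cases hz : star z = z
    · exact ⟨x₀ * zc z hz, fun _ => by simp [h0, hβ]⟩
    · exact ⟨1, fun e => absurd e hz⟩
  choose X hX using this
  have : ∀ z : F, ∃ y, star z = z → B.Fr (X z) y := fun z => by
    by_cases hz : star z = z
    · exact (h.exFr fun e => by simpa [e] using (hX z hz).1).imp fun _ e _ => e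
    · exact ⟨1, fun e => absurd e hz⟩
  choose Y hY using this
  have ya : ∀ z, star z = z → (Y z).a ≠ 0 := fun z hz e =>
    one_ne_zero ((hX z hz).1.symm.trans (h.fr_a hq (hY z hz).symm e))
  have mk : ∀ (x : HS F) (a z : F), star z = z → x.a = a → x.b = a * star a * (β + z) →
      x = dl a (X z) := fun x a z hz e₁ e₂ => by
    ext <;> simp [(hX z hz).1, (hX z hz).2, e₁, e₂]
  have fr : ∀ (x : HS F) (a z : F), star z = z → a ≠ 0 → x.a = a → x.b = a * star a * (β + z) →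
      B.Fr x (dl (star a)⁻¹ (Y z)) := fun x a z hz ha e₁ e₂ =>
    mk x a z hz e₁ e₂ ▸ (hY z hz).dl ha
  have e₁ : B.Fr x₀ (dl (star c) x₀⁻¹) := by
    have := e₀.symm.dl (inv_ne_zero hc)
    rwa [dl_dl, inv_mul_cancel₀ hc, dl_one, star_inv₀, inv_inv] at this
  obtain ⟨t, r, e₂⟩ := id e₁
  have hr : r = dl c x₀⁻¹ := by rw [map_inv, ← h.func ⟨_, _, e₂.inv⟩ e₀, inv_inv]
  have t0 : (t : F) ≠ 0 := t.ne_zero
  have st : star (t : F) ≠ 0 := star_ne_zero.2 t0
  have sz : ∀ z : F, star z = z → star (1 + (z * ν)⁻¹) = 1 + (z * ν)⁻¹ := fun z hz => by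
    rw [star_add, star_one, star_inv₀, star_mul', hz, sν]
  have k₂ : ∀ z : F, star z = z → z ≠ 0 → (Y (1 + (z * ν)⁻¹)).a = c * z * (Y z).a ∧
      (Y (1 + (z * ν)⁻¹)).b = ν * z * (1 + z * (Y z).b) := by
    intro z hz z0
    obtain ⟨a, ha⟩ := hq.exists_nrm (c := z⁻¹) (by rw [star_inv₀, hz])
    have a0 : a ≠ 0 := left_ne_zero_of_mul (ha ▸ inv_ne_zero z0)
    have sa : star a ≠ 0 := star_ne_zero.2 a0
    have hz' : z = (a * star a)⁻¹ := by rw [ha, inv_inv]
    have e := h.func (h.three hq h1 (e₁.dl a0) (fr _ (star c / star a) _ (sz z hz)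
      (div_ne_zero sc sa) (by simp [h0, div_eq_inv_mul]) (by
        simp only [mul_b, zc_b, zc_a, dl_b, inv_b, star_zero, zero_mul, star_div₀, star_star,
          star_inv₀, ← hβ, sβ, hν, hz']
        field_simp
        ring))) (fr _ a z hz a0 (by simp [h0]) (by
        simp only [mul_b, zc_b, zc_a, dl_b, star_zero, zero_mul, ← hβ, hz']
        field_simp
        ring))
    have ea := congrArg HS.a e
    have eb := congrArg HS.b e
    simp only [mul_a, mul_b, zc_a, zc_b, dl_a, dl_b, star_zero, zero_mul, zero_add, add_zero,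
      star_div₀, star_star, star_inv₀, inv_div] at ea eb
    rw [hν, hz'] at *
    constructor
    · field_simp at ea ⊢
      linear_combination ea
    · field_simp at eb ⊢
      linear_combination eb - c * star c * a * star a * f2 (F := F)
  have k₃ : ∀ z : F, star z = z → z ≠ 0 →
      (Y z).a = star c + (star (t : F) * star c)⁻¹ * (c * z * (Y z).a) ∧
      (Y z).b = ν * (β + 1) + (t * star (t : F) * ν)⁻¹ * (ν * z * (1 + z * (Y z).b)) +
        c * ((star (t : F) * star c)⁻¹ * (c * z * (Y z).a)) := by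
    intro z hz z0
    have e := h.func (hY z hz) (show B.Fr (X z) _ from
      (HS.ext (by simp [hX z hz, h0]) (by simp [hX z hz, hβ]) : x₀ * zc z hz = X z) ▸
      e₂.six (fr_z h1 (x := zc z hz) (y := zc z⁻¹ (by rw [star_inv₀, hz])) rfl rfl
        (mul_inv_cancel₀ z0)) (fr _ (t * c) _ (sz z hz) (mul_ne_zero t0 hc) (by simp [hr, h0]) (by
          simp only [hr, mul_b, zc_b, zc_a, dl_b, inv_b, mul_zero, star_mul', ← hβ, sβ, hν]
          field_simp
          ring)))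
    have ea := congrArg HS.a e
    have eb := congrArg HS.b e
    simp only [mul_a, mul_b, dl_a, dl_b, inv_a, inv_b, star_mul', star_star, star_inv₀, h0, ← hβ,
      sβ, (k₂ z hz z0).1, (k₂ z hz z0).2, mul_one] at ea eb
    refine ⟨ea, eb.trans ?_⟩
    rw [hν]
    field_simp
  have y1 : Y 1 = dl c x₀ := h.func (hY 1 (star_one F)) (show B.Fr (X 1) _ from
    (HS.ext (by simp [hX 1 (star_one F), h0]) (by simp [hX 1 (star_one F), ← hβ, sβ]) :
      x₀⁻¹ = X 1) ▸ e₀)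
  have y0 : Y 0 = dl (star c) x₀⁻¹ := h.func (hY 0 (star_zero F)) (show B.Fr (X 0) _ from
    (HS.ext (by simp [hX 0 (star_zero F), h0]) (by simp [hX 0 (star_zero F), ← hβ]) :
      x₀ = X 0) ▸ e₁)
  obtain ⟨k₄, k₅⟩ := k₃ 1 (star_one F) one_ne_zero
  simp only [y1, dl_a, dl_b, h0, mul_one, ← hβ, ← hν, one_mul] at k₄ k₅
  set T := c + star c with hT
  have sT : star T = T := by rw [hT, star_add, star_star, add_comm]
  have hC : (star (t : F) * star c)⁻¹ * (c * c) = T := by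
    linear_combination -k₄ - star c * f2 (F := F)
  have T0 : T ≠ 0 := hC ▸ mul_ne_zero (inv_ne_zero (mul_ne_zero st sc)) (mul_ne_zero hc hc)
  have k₆ : ∀ z, star z = z → (Y z).a * (c + T * z) = ν := by
    intro z hz
    by_cases z0 : z = 0
    · simp [z0, y0, h0, hν, mul_comm]
    · rw [← hC]
      linear_combination c * (k₃ z hz z0).1 +
        (star (t : F) * star c)⁻¹ * c * c * z * (Y z).a * f2 (F := F)
  have k₇ : ∀ z, star z = z → (Y z).b = (Y z).a * star (Y z).a * (β + (z + 1)) := by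
    intro z hz
    have a0 := ya z hz
    have sa : star (Y z).a ≠ 0 := star_ne_zero.2 a0
    set w := (Y z).b / ((Y z).a * star (Y z).a) + β with hw
    have sw : star w = w := by
      rw [hw, star_add, star_div₀, nrm_star, sβ]
      field_simp
      linear_combination (Y z).h + ((Y z).a * star (Y z).a - (Y z).b) * f2 (F := F)
    have eb : (Y z).b = (Y z).a * star (Y z).a * (β + w) := by
      rw [hw]
      field_simp
      linear_combination -(Y z).a * star (Y z).a * β * f2 (F := F)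
    have e := congrArg HS.a (h.func (hY z hz).symm (fr _ _ w sw a0 rfl eb))
    rw [(hX z hz).1, dl_a, eq_inv_mul_iff_mul_eq₀ sa, mul_one] at e
    have a₁ := k₆ w sw
    have a₂ := congrArg star (k₆ z hz)
    rw [star_mul', star_add, star_mul', sT, hz, sν, ← a₁, ← e, mul_right_inj' sa] at a₂
    rw [eb, mul_left_cancel₀ T0 (show T * w = T * (z + 1) by
      linear_combination -a₂ - c * f2 (F := F))]
  have k₈ : ∀ z, star z = z → (Y z).a * star (Y z).a * (ν + T ^ 2 * (z + z ^ 2)) = ν ^ 2 := by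
    intro z hz
    have a₁ := k₆ z hz
    have a₂ := congrArg star a₁
    rw [star_mul', star_add, star_mul', sT, hz, sν] at a₂
    rw [sq ν]
    nth_rw 2 [← a₁]
    nth_rw 2 [← a₂]
    rw [hν, hT]
    ring
  have k₉ : T = ν := by
    obtain ⟨z, hz, z0, z1⟩ := hq.exists_real 1
    have a₁ := k₇ _ (sz z hz)
    rw [(k₂ z hz z0).1, (k₂ z hz z0).2, k₇ z hz, star_mul', star_mul', hz] at a₁
    have n0 : (Y z).a * star (Y z).a ≠ 0 := mul_ne_zero (ya z hz) (star_ne_zero.2 (ya z hz))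
    have a₂ := k₈ z hz
    have a₃ : ν = (Y z).a * star (Y z).a * (1 + ν * (z + z ^ 2)) := by
      apply mul_left_cancel₀ z0
      have a₄ : z * ν * (z * ν)⁻¹ = 1 := mul_inv_cancel₀ (mul_ne_zero z0 ν0)
      linear_combination a₁ + (z * (Y z).a * star (Y z).a) * a₄ -
        (ν * z ^ 3 * (Y z).a * star (Y z).a) * f2 (F := F)
    have a₅ : (Y z).a * star (Y z).a * (z * (z - 1)) * (T - ν) ^ 2 = 0 := by
      linear_combination a₂ + ν * a₃ + (Y z).a * star (Y z).a *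
        (-z * T ^ 2 + ν ^ 2 * z ^ 2 - T * ν * z ^ 2 + T * ν * z) * f2 (F := F)
    exact sub_eq_zero.1 (pow_eq_zero_iff two_ne_zero |>.1
      ((mul_eq_zero.1 a₅).resolve_left (mul_ne_zero n0 (mul_ne_zero z0 (sub_ne_zero.2 z1)))))
  have k₁₀ : c = ν * β := by
    have a₁ : (t * star (t : F) * ν)⁻¹ = 1 := by
      have a₂ := congrArg star hC
      rw [sT, star_mul', star_inv₀, star_mul', star_mul', star_star, star_star] at a₂
      have a₃ : T * T = (t * star (t : F) * ν)⁻¹ * (ν * ν) := by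
        nth_rw 1 [← hC, ← a₂]
        rw [hν]
        field_simp
      rw [k₉] at a₃
      exact (mul_left_eq_self₀.1 a₃.symm).resolve_right (mul_ne_zero ν0 ν0)
    rw [a₁, hC, k₉] at k₅
    apply mul_left_cancel₀ ν0
    linear_combination -k₅ - (ν + ν * ν * β) * f2 (F := F)
  have sa : star x.a ≠ 0 := star_ne_zero.2 ha
  have b0 : x.b ≠ 0 := fun e => hx (eq_one_of_b e)
  set w := x.b / (x.a * star x.a) + β with hw
  have sw : star w = w := by
    rw [hw, star_add, star_div₀, nrm_star, sβ]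
    field_simp
    linear_combination x.h + (x.a * star x.a - x.b) * f2 (F := F)
  have eb : x.b = x.a * star x.a * (β + w) := by
    rw [hw]
    field_simp
    linear_combination -x.a * star x.a * β * f2 (F := F)
  have a₁ : (Y w).a * (β + w) = 1 := mul_left_cancel₀ ν0 (by
    linear_combination k₆ w sw - (Y w).a * k₁₀ - (Y w).a * w * k₉)
  have a₂ := congrArg star a₁
  rw [star_mul', star_add, sβ, sw, star_one] at a₂
  have a₃ : (Y w).b = (Y w).a := by rw [k₇ w sw]; linear_combination (Y w).a * a₂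
  convert fr x x.a w sw ha rfl eb using 1
  ext
  · rw [ff_a, dl_a, eb]
    field_simp
    rw [div_eq_iff (right_ne_zero_of_mul_eq_one a₁), a₁]
  · rw [ff_b, dl_b, a₃, eb, eq_inv_of_mul_eq_one_left a₁, star_inv₀, star_star]
    field_simp

theorem rel : B.Rel := by
  intro x t hx ht
  obtain ⟨y, t', z, e⟩ := h.exR hx
  have b0 : x.b ≠ 0 := fun e => hx (eq_one_of_b e)
  have sb : star x.b ≠ 0 := star_ne_zero.2 b0
  obtain rfl := h.func ⟨_, _, e⟩ (h.fr_ff hq h1 hx)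
  have hz := h.func ⟨_, _, e.inv⟩ (h.fr_ff hq h1 (inv_ne_one.2 hx))
  obtain rfl : z = (ff x⁻¹)⁻¹ := by rw [← hz, inv_inv]
  obtain rfl : t = t' := by
    refine Units.ext (ht.trans ?_)
    by_cases ha : x.a = 0
    · rw [h.r_z hq h1 ha e, real_b ha]
      field_simp
    · have e₁ := e.symm.inv
      rw [← map_inv, inv_inv] at e₁
      have := congrArg HS.a (h.func ⟨_, _, e₁⟩ (h.fr_ff hq h1 fun e => by
        simpa [b0] using congrArg HS.b e))
      simp only [dl_a, inv_a, ff_a, inv_b, ff_b, star_inv₀] at this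
      field_simp at this ⊢
      exact this.symm
  exact e

end Full

theorem Full.exists_rel [Fintype F] (h : B.Full) (hq : FQ F q) :
    ∃ B' : BN0 G F, B'.Full ∧ B'.Rel := by
  obtain ⟨y, e⟩ := h.exFr (x := zc 1 (star_one F)) fun e => by simpa using congrArg HS.b e
  have hy := h.fr_a hq e rfl
  obtain ⟨l, hl, hl'⟩ := FQ.exists_sqrt (real_b hy)
  have l0 : l ≠ 0 := left_ne_zero_of_mul (hl' ▸ h.ne_one e.symm)
  let c := Units.mk0 l l0
  have hc : star c = c := Units.ext hl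
  have e₁ : B.d c * B.u = B.u * B.d c⁻¹ := by rw [B.du, hc]
  let B' : BN0 G F :=
    { s := B.s, d := B.d, u := B.u * B.d c, ds := B.ds
      uu := by rw [mul_assoc, ← mul_assoc (B.d c), e₁, map_inv]; simp [mul_assoc, B.uu]
      ud := fun t => by
        rw [mul_assoc, ← map_mul, mul_comm c, map_mul, ← mul_assoc, B.ud, mul_assoc] }
  have e₂ : ∀ x, B'.u * B'.s x * B'.u = B.u * B.s (dl l x) * B.u := fun x => by
    change B.u * B.d c * B.s x * (B.u * B.d c) = _
    rw [mul_assoc B.u, B.ds, mul_assoc, mul_assoc, ← mul_assoc (B.d c), e₁, map_inv]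
    simp [mul_assoc, c]
  have h' : B'.Full :=
    { ex := fun g => (h.ex g).imp_right fun ⟨x, t, y, e⟩ => ⟨x, c⁻¹ * t, y, by
        rw [e]; simp [B', mul_assoc]⟩
      un1 := h.un1
      un2 := fun x y t e => by
        have := congrArg (dl l⁻¹) (h.un2 _ y t ((e₂ x).symm.trans e))
        rwa [dl_dl, inv_mul_cancel₀ l0, dl_one, map_one] at this
      un3 := fun x t e => h.un3 x (t * c⁻¹) (by
        rw [map_mul, ← mul_assoc, map_inv, eq_mul_inv_iff_mul_eq]; exact e) }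
  refine ⟨B', h', h'.rel hq ?_⟩
  obtain ⟨t, z, e₃⟩ := e.dl l0
  rw [show dl (star l)⁻¹ y = zc 1 (star_one F) from HS.ext (by simp [hy]) (by
    simp only [dl_b, zc_b, star_inv₀, hl, ← hl']; field_simp)] at e₃
  exact ⟨c⁻¹ * t, z, (e₂ _).trans (e₃.trans (by simp [B', mul_assoc]))⟩

end BN0

end Cfsg.Agent.H6
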