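import Cfsg.Agent.H6.PGU2

/-! A group whose involution centralizer is that of `PGU₃(q)`, `q` even: two-point stabilizers. -/

set_option autoImplicit false

namespace Cfsg.Agent.H6

open HS Subgroup

theorem bender {G : Type*} [Group G] [Finite G] {a b : G} (ha : a * a = 1) (hb : b * b = 1) :
    (∃ v, v * v = 1 ∧ v ≠ 1 ∧ Commute v a ∧ Commute v b) ∨
      ∃ u, u * u = 1 ∧ u * a * u⁻¹ = b ∧ ∀ c, Commute c a → Commute c b → Commute c u := by
  have ia : a⁻¹ = a := inv_eq_of_mul_eq_one_right ha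
  have ib : b⁻¹ = b := inv_eq_of_mul_eq_one_right hb
  have e : ∀ k : ℕ, a * (a * b) ^ k = ((a * b) ^ k)⁻¹ * a := fun k => by
    have : a * (a * b) * a⁻¹ = (a * b)⁻¹ := by rw [← mul_assoc, ha, one_mul, mul_inv_rev, ib]
    rw [← inv_pow, ← this, conj_pow, inv_mul_cancel_right]
  have h0 := orderOf_pos (a * b)
  have h1 := pow_orderOf_eq_one (a * b)
  obtain ⟨k, hk | hk⟩ := Nat.even_or_odd' (orderOf (a * b))
  · rw [hk, two_mul, pow_add] at h1
    have c₁ : Commute ((a * b) ^ k) a := by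
      rw [Commute, SemiconjBy, e, inv_eq_of_mul_eq_one_right h1]
    refine Or.inl ⟨_, h1, pow_ne_one_of_lt_orderOf (by omega) (by omega), c₁, ?_⟩
    have := c₁.mul_right ((Commute.refl (a * b)).pow_left k)
    rwa [← mul_assoc, ha, one_mul] at this
  · refine Or.inr ⟨(a * b) ^ k * a, ?_, ?_, fun c h₁ h₂ => ((h₁.mul_right h₂).pow_right k).mul_right h₁⟩
    · rw [mul_assoc, ← mul_assoc a, e, mul_assoc, ha, mul_one, mul_inv_cancel]
    · rw [hk, two_mul, pow_succ, pow_add] at h1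
      have e' : a * ((a * b) ^ k)⁻¹ = (a * b) ^ k * a := by
        rw [mul_inv_eq_iff_eq_mul, mul_assoc, e, mul_inv_cancel_left]
      rw [mul_inv_rev, ← mul_assoc, mul_inv_cancel_right, mul_assoc, e', ← mul_assoc,
        eq_inv_of_mul_eq_one_left h1, mul_inv_rev, ia, ib, mul_assoc, ha, mul_one]

variable {F : Type*} [Field F] [StarRing F] [CharP F 2]

/-- The centralizer of an involution is the unipotent radical extended by the norm one group. -/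
structure Loc (G F : Type*) [Group G] [Field F] [StarRing F] [CharP F 2] where
  s : HS F →* G
  w : unitary F →* G
  x₀ : G
  inj : Function.Injective s
  ws : ∀ (μ : unitary F) x, w μ * s x = s (dl (μ : F) x) * w μ
  sq : x₀ * x₀ = 1
  ne : x₀ ≠ 1
  cen : ∀ g, Commute g x₀ ↔ ∃ x μ, g = s x * w μ
  conj : ∀ a b : G, a * a = 1 → a ≠ 1 → b * b = 1 → b ≠ 1 → IsConj a b

namespace Loc

variable {G : Type*} [Group G] (L : Loc G F)

/-- The centralizer. -/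
def C : Subgroup G := centralizer {L.x₀}

/-- The Borel subgroup. -/
def M : Subgroup G := normalizer (L.C : Set G)

/-- The two-point stabilizer. -/
def D (g : G) : Subgroup G := L.M ⊓ L.M.comap (MulAut.conj g⁻¹).toMonoidHom

/-- The involutions of the unipotent radical. -/
def Zi (z : G) : Prop := ∃ x : HS F, x.a = 0 ∧ x ≠ 1 ∧ z = L.s x

/-- `g` acts on the unipotent radical modulo its centre as the scalar `t`. -/
def Act (g : G) (t : F) : Prop := ∀ x, ∃ y, g * L.s x = L.s y * g ∧ y.a = t * x.a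

variable {L}

theorem mem_C {g : G} : g ∈ L.C ↔ ∃ x μ, g = L.s x * L.w μ :=
  mem_centralizer_singleton_iff.trans (L.cen g)

theorem mem_M {g : G} : g ∈ L.M ↔ ∀ h, h ∈ L.C ↔ g * h * g⁻¹ ∈ L.C := mem_normalizer_iff

theorem mem_D {g d : G} : d ∈ L.D g ↔ d ∈ L.M ∧ g⁻¹ * d * g ∈ L.M := by simp [D]

theorem C_le : L.C ≤ L.M := le_normalizer

theorem s_mem (x : HS F) : L.s x ∈ L.C := mem_C.2 ⟨x, 1, by simp⟩

theorem w_mem (μ : unitary F) : L.w μ ∈ L.C := mem_C.2 ⟨1, μ, by simp⟩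

theorem D_eq {g g' : G} (h : g⁻¹ * g' ∈ L.M) {d : G} (hd : d ∈ L.D g) : d ∈ L.D g' := by
  rw [mem_D] at hd ⊢
  refine ⟨hd.1, ?_⟩
  convert mul_mem (mul_mem (inv_mem h) hd.2) h using 1
  group

theorem act_s (x : HS F) : L.Act (L.s x) 1 := fun y => ⟨x * y * x⁻¹, by simp, by
  simp only [mul_a, inv_a]; linear_combination x.a * f2 (F := F)⟩

theorem act_w (μ : unitary F) : L.Act (L.w μ) μ := fun y => ⟨_, L.ws μ y, rfl⟩

theorem Act.mul {g g' : G} {t t' : F} (h : L.Act g t) (h' : L.Act g' t') :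
    L.Act (g * g') (t * t') := fun x => by
  obtain ⟨y, e, e'⟩ := h' x
  obtain ⟨z, f, f'⟩ := h y
  exact ⟨z, by rw [mul_assoc, e, ← mul_assoc, f, mul_assoc], by rw [f', e', mul_assoc]⟩

theorem Act.pow {g : G} {t : F} (h : L.Act g t) (n : ℕ) : L.Act (g ^ n) (t ^ n) := by
  induction n with
  | zero => exact fun x => ⟨x, by simp, by simp⟩
  | succ n ih => rw [pow_succ, pow_succ]; exact ih.mul h

theorem Zi.sq {z : G} (h : L.Zi z) : z * z = 1 := by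
  obtain ⟨x, hx, -, rfl⟩ := h
  rw [← map_mul, sq_eq_one.2 hx, map_one]

theorem Zi.ne {z : G} (h : L.Zi z) : z ≠ 1 := by
  obtain ⟨x, -, hx, rfl⟩ := h
  exact fun e => hx (L.inj (e.trans (map_one _).symm))

theorem Zi.mem {z : G} (h : L.Zi z) : z ∈ L.C := by
  obtain ⟨x, -, -, rfl⟩ := h
  exact s_mem x

theorem Zi.comm {z c : G} (h : L.Zi z) (hc : c ∈ L.C) : Commute c z := by
  obtain ⟨x, hx, -, rfl⟩ := h
  obtain ⟨y, μ, rfl⟩ := mem_C.1 hc
  refine Commute.mul_left ?_ ?_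
  · rw [Commute, SemiconjBy, ← map_mul, ← comm_of_a hx, map_mul]
  · rw [Commute, SemiconjBy, L.ws, show dl (μ : F) x = x by ext <;> simp [hx]]

variable [Fintype F] {q : ℕ} (hq : FQ F q)
include hq

theorem Act.uniq {g : G} {t t' : F} (h : L.Act g t) (h' : L.Act g t') : t = t' := by
  obtain ⟨x, hx⟩ := hq.exists_pt 1
  obtain ⟨y, e, e'⟩ := h x
  obtain ⟨z, f, f'⟩ := h' x
  rw [L.inj (mul_right_cancel (e.symm.trans f)), f', hx, mul_one, mul_one] at e'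
  exact e'.symm

theorem Act.z {g : G} {t : F} (h : L.Act g t) {x : HS F} (hx : x.a = 0) :
    g * L.s x = L.s (dl t x) * g := by
  obtain ⟨a, ha⟩ := hq.exists_nrm (real_b hx)
  obtain ⟨y, rfl⟩ := hq.exists_pt a
  obtain ⟨z, e, e'⟩ := h y
  have e₁ : x = y * y := HS.ext (by rw [sq_a, hx]) (by rw [sq_b, ha])
  have e₂ : dl t x = z * z := HS.ext (by rw [sq_a, dl_a, hx, mul_zero]) (by
    rw [sq_b, dl_b, ← ha, e', star_mul']; ring)
  rw [e₂, e₁, map_mul, map_mul, ← mul_assoc, e, mul_assoc, e, mul_assoc]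

theorem mem_S {c : G} (hc : c ∈ L.C) (h : L.Act c 1) : ∃ x, c = L.s x := by
  obtain ⟨x, μ, rfl⟩ := mem_C.1 hc
  have := ((act_s x).mul (act_w μ)).uniq hq h
  rw [one_mul] at this
  exact ⟨x, by rw [show μ = 1 from Subtype.ext this, map_one, mul_one]⟩

omit hq [Fintype F] in
theorem act_C {c : G} (hc : c ∈ L.C) : ∃ μ : F, μ * star μ = 1 ∧ L.Act c μ := by
  obtain ⟨x, μ, rfl⟩ := mem_C.1 hc
  exact ⟨μ, μ.2.2, by simpa using (act_s x).mul (act_w μ)⟩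

theorem mem_S_of_pow {c : G} (hc : c ∈ L.C) {k : ℕ} (h : c ^ 2 ^ k = 1) : ∃ x, c = L.s x := by
  obtain ⟨μ, -, e⟩ := act_C hc
  have : Fact (Nat.Prime 2) := ⟨Nat.prime_two⟩
  have := (e.pow (2 ^ k)).uniq hq (h ▸ map_one L.s ▸ act_s 1)
  rw [← sub_eq_zero, ← one_pow (2 ^ k), ← sub_pow_char_pow, pow_eq_zero_iff (by positivity),
    sub_eq_zero] at this
  exact mem_S hq hc (this ▸ e)

theorem pow_mem_S {c : G} (hc : c ∈ L.C) : ∃ x, c ^ (q + 1) = L.s x := by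
  obtain ⟨μ, hμ, e⟩ := act_C hc
  refine mem_S hq (pow_mem hc _) ?_
  have := e.pow (q + 1)
  rwa [pow_succ' μ, ← hq.star_eq, hμ] at this

theorem zi_of_C {c : G} (hc : c ∈ L.C) (h : c * c = 1) (h' : c ≠ 1) : L.Zi c := by
  obtain ⟨x, rfl⟩ := mem_S_of_pow hq hc (k := 1) (by rwa [pow_one, pow_two])
  exact ⟨x, sq_eq_one.1 (L.inj (by rwa [map_mul, map_one])), fun e => h' (by simp [e]), rfl⟩

theorem zi_x₀ : L.Zi L.x₀ := zi_of_C hq (mem_centralizer_singleton_iff.2 rfl) L.sq L.ne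

theorem Zi.conj {z m : G} (h : L.Zi z) (hm : m ∈ L.M) : L.Zi (m * z * m⁻¹) :=
  zi_of_C hq ((mem_M.1 hm z).1 h.mem) (by rw [conj_mul, h.sq]; simp) (by simpa using h.ne)

variable [Finite G]

omit hq [Fintype F] in
theorem Zi.mem_iff {z g : G} (h : L.Zi z) : g ∈ L.C ↔ Commute g z := by
  obtain ⟨c, hc⟩ := isConj_iff.1 (L.conj z L.x₀ h.sq h.ne L.sq L.ne)
  have e : L.C = centralizer {z} := by
    refine eq_of_le_of_card_ge (fun g hg => mem_centralizer_singleton_iff.2 (h.comm hg)) ?_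
    refine Nat.card_le_card_of_injective (fun g => ⟨c * g.1 * c⁻¹, ?_⟩) fun a b e => ?_
    · rw [C, mem_centralizer_singleton_iff, ← hc, conj_mul, conj_mul,
        mem_centralizer_singleton_iff.1 g.2]
    · simpa using e
  rw [e, mem_centralizer_singleton_iff]
  rfl

omit hq [Fintype F] in
theorem mem_M_of {z g : G} (h : L.Zi z) (h' : L.Zi (g * z * g⁻¹)) : g ∈ L.M :=
  mem_M.2 fun c => by
    rw [h.mem_iff, h'.mem_iff, Commute, Commute, SemiconjBy, SemiconjBy, conj_mul, conj_mul]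
    simp

theorem zi_of_M {t : G} (ht : t ∈ L.M) (h : t * t = 1) (h' : t ≠ 1) : L.Zi t := by
  have i : t⁻¹ = t := inv_eq_of_mul_eq_one_right h
  have h0 := zi_x₀ (L := L) hq
  have h1 := h0.conj hq ht
  refine zi_of_C hq ?_ h h'
  by_cases e : L.x₀ * (t * L.x₀ * t⁻¹) = 1
  · rw [h0.mem_iff, Commute, SemiconjBy, ← mul_inv_eq_iff_eq_mul, ← mul_left_cancel_iff (a := L.x₀),
      e, L.sq]
  · have c := h0.comm h1.mem
    have h2 := zi_of_C hq (mul_mem h0.mem h1.mem) (by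
      rw [c.mul_mul_mul_comm, L.sq, h1.sq, one_mul]) e
    rw [h2.mem_iff, Commute, SemiconjBy]
    nth_rw 2 [← c.eq]
    rw [i, ← mul_assoc, ← mul_assoc, ← mul_assoc, mul_assoc _ L.x₀ t, mul_assoc _ t]

omit hq [Fintype F] in
theorem zi_conj {a b : G} (ha : L.Zi a) (hb : L.Zi b) : ∃ m ∈ L.M, m * a * m⁻¹ = b := by
  obtain ⟨c, hc⟩ := isConj_iff.1 (L.conj a b ha.sq ha.ne hb.sq hb.ne)
  exact ⟨c, mem_M_of ha (hc ▸ hb), hc⟩

theorem pow_mem_C {m : G} (hm : m ∈ L.M) : m ^ (q - 1) ∈ L.C := by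
  let _ : MulAction L.M G := MulAction.compHom G ((MulAut.conj (G := G)).comp L.M.subtype)
  have hs : ∀ (m : L.M) (g : G), m • g = m * g * (m : G)⁻¹ := fun _ _ => rfl
  have e₁ : MulAction.stabilizer L.M L.x₀ = L.C.subgroupOf L.M := by
    ext m
    rw [MulAction.mem_stabilizer_iff, hs, mem_subgroupOf, C, mem_centralizer_singleton_iff,
      mul_inv_eq_iff_eq_mul]
  have e₂ : MulAction.orbit L.M L.x₀ = (fun x => L.s x) '' ({x | x.a = 0} \ {1}) := by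
    ext z
    refine ⟨fun ⟨m, e⟩ => ?_, fun ⟨x, hx, e⟩ => ?_⟩
    · obtain ⟨x, a, b, e'⟩ := (zi_x₀ (L := L) hq).conj hq m.2
      exact ⟨x, ⟨a, b⟩, e'.symm.trans e⟩
    · obtain ⟨m, hm, e'⟩ := zi_conj (zi_x₀ hq) ⟨x, hx.1, hx.2, e.symm⟩
      exact ⟨⟨m, hm⟩, e'⟩
  have e₃ : {x : HS F | x.a = 0}.ncard = q := by
    rw [← show Nat.card {x : F // star x = x} = q from hq.uf.card_fixed]
    exact Nat.card_congr ⟨fun x => ⟨x.1.b, real_b x.2⟩, fun z => ⟨zc z.1 z.2, rfl⟩,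
      fun x => Subtype.ext (HS.ext x.2.symm rfl), fun _ => rfl⟩
  have e₄ := MulAction.index_stabilizer L.M L.x₀
  rw [e₁, e₂, Set.ncard_image_of_injective _ L.inj, Set.ncard_sdiff_singleton_of_mem
    (show (1 : HS F) ∈ {x : HS F | x.a = 0} from rfl), e₃] at e₄
  have : (L.C.subgroupOf L.M).Normal := normal_in_normalizer
  exact e₄ ▸ pow_index_mem (L.C.subgroupOf L.M) ⟨m, hm⟩

theorem s_D {g : G} (hg : g ∉ L.M) {x : HS F} (h : L.s x ∈ L.D g) : x = 1 := by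
  have key : ∀ x : HS F, x.a = 0 → L.s x ∈ L.D g → x = 1 := fun x hx h => by
    by_contra h1
    have z : L.Zi (L.s x) := ⟨x, hx, h1, rfl⟩
    refine hg (inv_mem_iff.1 (mem_M_of z (zi_of_M hq (by simpa using (mem_D.1 h).2) ?_ ?_)))
    · rw [conj_mul, z.sq]; simp
    · exact fun e => z.ne (conj_eq_one_iff.1 e)
  exact key x (sq_eq_one.1 (key _ (sq_a x) (by rw [map_mul]; exact mul_mem h h))) h

theorem pow_CD {g c : G} (hg : g ∉ L.M) (hc : c ∈ L.C) (h : c ∈ L.D g) : c ^ (q + 1) = 1 := by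
  obtain ⟨x, e⟩ := pow_mem_S hq hc
  have : L.s x ∈ L.D g := e ▸ pow_mem h _
  rw [e, s_D hq hg this, map_one]

omit [CharP F 2] [Finite G] in
theorem pow_split (g : G) : g ^ (q + 1) = g ^ (q - 1) * (g * g) := by
  rw [← pow_two, ← pow_add]
  congr 1
  have := hq.lt
  omega

omit [Finite G] in
theorem mem_of_sq {g : G} {H : Subgroup G} (h : g * g ∈ H)
    (h' : g ^ (q + 1) ∈ H ∨ g ^ (q - 1) ∈ H) : g ∈ H := by
  have h1 : g ^ (q + 1) ∈ H := h'.elim id fun e => pow_split hq g ▸ mul_mem e h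
  obtain ⟨k, rfl⟩ := hq.exists_pow
  rw [pow_succ, pow_succ' 2, pow_mul, pow_two] at h1
  exact (mul_mem_cancel_left (pow_mem h _)).1 h1

omit [Finite G] in
theorem eq_one_of_pows {g : G} (h : g ^ (q + 1) = 1) (h' : g ^ (q - 1) = 1) : g = 1 :=
  mem_of_sq hq (H := ⊥) (by rwa [pow_split hq, h', one_mul] at h) (Or.inl h)

/-- The structure of a two-point stabilizer. -/
structure Tor (L : Loc G F) (q : ℕ) (u : G) : Prop where
  uu : u * u = 1
  nm : u ∉ L.M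
  comm : ∀ d ∈ L.D u, ∀ d' ∈ L.D u, Commute d d'
  cw : ∀ c ∈ L.D u, c ∈ L.C → Commute c u
  inv : ∀ d ∈ L.D u, d ^ (q - 1) = 1 → u * d * u = d⁻¹
  tr : ∀ z z', L.Zi z → L.Zi z' → ∃ k ∈ L.D u, k ^ (q - 1) = 1 ∧ k * z * k⁻¹ = z'

theorem exists_swap {g z z' : G} (hg : g ∉ L.M) (hz : L.Zi z) (hz' : L.Zi z') :
    ∃ u, u * u = 1 ∧ u * z * u⁻¹ = g * z' * g⁻¹ ∧ ∀ c ∈ L.D g, c ∈ L.C → Commute c u := by
  have h1 : g * z' * g⁻¹ * (g * z' * g⁻¹) = 1 := by rw [conj_mul, hz'.sq]; simp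
  rcases bender hz.sq h1 with ⟨v, a, b, c, d⟩ | ⟨u, a, b, c⟩
  · have e₁ := zi_of_C hq (hz.mem_iff.2 c) a b
    refine absurd (inv_mem_iff.1 (mem_M_of e₁ (zi_of_C hq (hz'.mem_iff.2 ?_) ?_ ?_))) hg
    · simpa [mul_assoc] using d.map (MulAut.conj g⁻¹)
    · rw [conj_mul, a]; simp
    · exact fun e => b (conj_eq_one_iff.1 e)
  · refine ⟨u, a, b, fun d hd hd' => c d (hz.comm hd') ?_⟩
    have e₁ := (mem_D.1 hd).2
    have e₂ : (g⁻¹ * d * g) ^ (q + 1) = 1 := by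
      have := conj_pow (a := g⁻¹) (b := d) (i := q + 1)
      rw [inv_inv, pow_CD hq hg hd' hd] at this
      simpa using this
    have e₃ : g⁻¹ * d * g ∈ L.C := mem_of_sq hq ((mul_mem_cancel_left (pow_mem_C hq e₁)).1
      (by rw [← pow_split hq, e₂]; exact one_mem _)) (Or.inr (pow_mem_C hq e₁))
    simpa [mul_assoc] using (hz'.comm e₃).map (MulAut.conj g)

theorem comm_CD {g c c' : G} (hg : g ∉ L.M) (hc : c ∈ L.C) (h : c ∈ L.D g) (hc' : c' ∈ L.C)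
    (h' : c' ∈ L.D g) : Commute c c' := by
  obtain ⟨μ, -, a⟩ := act_C hc
  obtain ⟨ν, -, b⟩ := act_C hc'
  obtain ⟨ρ, -, d⟩ := act_C (inv_mem (mul_mem hc' hc))
  have e := ((b.mul a).mul d).uniq hq (by rw [mul_inv_cancel, ← map_one L.s]; exact act_s 1)
  obtain ⟨x, hx⟩ := mem_S hq (mul_mem (mul_mem hc hc') (inv_mem (mul_mem hc' hc)))
    (by rw [← e, mul_comm ν]; exact (a.mul b).mul d)
  have : L.s x ∈ L.D g := hx ▸ mul_mem (mul_mem h h') (inv_mem (mul_mem h' h))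
  rwa [s_D hq hg this, map_one, mul_inv_eq_one] at hx

theorem exists_tor {g : G} (hg : g ∉ L.M) : ∃ u, g⁻¹ * u ∈ L.M ∧ L.Tor q u := by
  have h0 := zi_x₀ (L := L) hq
  obtain ⟨u, uu, e, cw⟩ := exists_swap hq hg h0 h0
  have hu : g⁻¹ * u ∈ L.M := mem_M_of h0 (by
    rwa [mul_inv_rev, inv_inv, mul_assoc g⁻¹, ← mul_assoc, mul_assoc g⁻¹, e, ← mul_assoc,
      ← mul_assoc, inv_mul_cancel, one_mul, inv_mul_cancel_right])
  have iu : u⁻¹ = u := inv_eq_of_mul_eq_one_right uu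
  have uu' : ∀ x, u * (u * x) = x := fun x => by rw [← mul_assoc, uu, one_mul]
  have nm : u ∉ L.M := fun e => hg (inv_mem_iff.1 ((mul_mem_cancel_right e).1 hu))
  replace cw : ∀ c ∈ L.D u, c ∈ L.C → Commute c u := fun c hc =>
    cw c (D_eq (by simpa using inv_mem hu) hc)
  have pw := fun c (hc : c ∈ L.D u) (hc' : c ∈ L.C) => pow_CD hq nm hc' hc
  have tr : ∀ z z', L.Zi z → L.Zi z' → ∃ k ∈ L.D u, u * k * u = k⁻¹ ∧ k * z * k⁻¹ = z' ∧
      ∀ c ∈ L.D u, c ∈ L.C → Commute c k := by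
    intro z z' hz hz'
    obtain ⟨v, vv, e, cv⟩ := exists_swap hq nm hz hz'
    have e₁ : u * v * z * (u * v)⁻¹ = z' := by
      rw [mul_inv_rev, mul_assoc u, ← mul_assoc, mul_assoc u, e, ← iu]
      simp [mul_assoc, iu, uu, uu']
    have e₂ : u * (u * v) * u = (u * v)⁻¹ := by
      rw [← mul_assoc, uu, one_mul, mul_inv_rev, iu, inv_eq_of_mul_eq_one_right vv]
    have e₃ := mem_M_of hz (e₁ ▸ hz')
    exact ⟨u * v, mem_D.2 ⟨e₃, by rw [iu, e₂]; exact inv_mem e₃⟩, e₂, e₁,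
      fun c hc hc' => (cw c hc hc').mul_right (cv c hc hc')⟩
  have pk : ∀ k ∈ L.D u, u * k * u = k⁻¹ → k ^ (q - 1) = 1 := fun k hk e => by
    have a₁ := pow_mem_C hq (mem_D.1 hk).1
    have a₂ := conj_pow (a := u) (b := k) (i := q - 1)
    rw [iu, e, ← (cw _ (pow_mem hk _) a₁).eq, mul_assoc, uu, mul_one, inv_pow,
      inv_eq_iff_mul_eq_one] at a₂
    exact mem_of_sq hq (H := ⊥) a₂ (Or.inl (pw _ (pow_mem hk _) a₁))
  have dec : ∀ d ∈ L.D u, ∃ k ∈ L.D u, ∃ c ∈ L.D u, c ∈ L.C ∧ u * k * u = k⁻¹ ∧ d = k * c ∧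
      ∀ c ∈ L.D u, c ∈ L.C → Commute c k := fun d hd => by
    obtain ⟨k, hk, a₁, a₂, a₃⟩ := tr _ _ h0 (h0.conj hq (mem_D.1 hd).1)
    refine ⟨k, hk, k⁻¹ * d, mul_mem (inv_mem hk) hd, h0.mem_iff.2 ?_, a₁, by simp, a₃⟩
    rw [Commute, SemiconjBy, mul_assoc, ← inv_mul_cancel_right (d * L.x₀) d, ← a₂]
    group
  have cen : ∀ c ∈ L.D u, c ∈ L.C → ∀ d ∈ L.D u, Commute c d := fun c hc hc' d hd => by
    obtain ⟨k, -, c', b₁, b₂, -, rfl, b₃⟩ := dec d hd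
    exact (b₃ c hc hc').mul_right (comm_CD hq nm hc' hc b₂ b₁)
  have inv : ∀ d ∈ L.D u, d ^ (q - 1) = 1 → u * d * u = d⁻¹ := fun d hd e => by
    obtain ⟨k, hk, c, b₁, b₂, b₃, rfl, -⟩ := dec d hd
    rw [(cen c b₁ b₂ k hk).symm.mul_pow, pk k hk b₃, one_mul] at e
    rw [eq_one_of_pows hq (pw c b₁ b₂) e, mul_one, b₃]
  refine ⟨u, hu, uu, nm, fun d hd d' hd' => ?_, cw, inv, fun z z' hz hz' => ?_⟩
  · obtain ⟨k, hk, c, b₁, b₂, b₃, rfl, -⟩ := dec d hd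
    obtain ⟨k', hk', c', b₁', b₂', b₃', rfl, -⟩ := dec d' hd'
    refine Commute.mul_left (Commute.mul_right ?_ (cen c' b₁' b₂' k hk).symm) (cen c b₁ b₂ _ hd')
    obtain ⟨l, hl, a, a₁, a₂, a₃, a₄, -⟩ := dec _ (mul_mem hk hk')
    have f₁ : u * (k * k') * u = k⁻¹ * k'⁻¹ := by rw [← b₃, ← b₃']; simp [mul_assoc, uu']
    rw [a₄, mul_assoc, mul_assoc, (cw a a₁ a₂).eq, ← mul_assoc, ← mul_assoc, a₃] at f₁
    have f₂ : k * k' * k⁻¹ = k' * (a * a) := by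
      have := congrArg (·⁻¹) f₁
      simp only [mul_inv_rev, inv_inv] at this
      rw [mul_inv_eq_iff_eq_mul, mul_assoc, ((cen a a₁ a₂ k hk).mul_left (cen a a₁ a₂ k hk)).eq,
        ← mul_assoc, ← this, a₄, ← mul_assoc, ((cen a a₁ a₂ l hl).inv_left).eq,
        inv_mul_cancel_right]
    have f₃ := conj_pow (a := k) (b := k') (i := q - 1)
    rw [f₂, ((cen a a₁ a₂ k' hk').mul_left (cen a a₁ a₂ k' hk')).symm.mul_pow, pk k' hk' b₃',
      one_mul, mul_one, mul_inv_cancel] at f₃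
    rwa [eq_one_of_pows hq (pw _ (mul_mem a₁ a₁) (mul_mem a₂ a₂)) f₃, mul_one,
      mul_inv_eq_iff_eq_mul] at f₂
  · obtain ⟨k, hk, a₁, a₂, -⟩ := tr z z' hz hz'
    exact ⟨k, hk, pk k hk a₁, a₂⟩

end Loc

end Cfsg.Agent.H6
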