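import Cfsg.Agent.H6.PGU3

/-! A group whose involution centralizer is that of `PGU₃(q)`, `q` even: Bruhat data. -/

set_option autoImplicit false

namespace Cfsg.Agent.H6

open HS Subgroup

variable {F : Type*} [Field F] [StarRing F] [CharP F 2] [Fintype F] {q : ℕ} (hq : FQ F q)
include hq

omit [CharP F 2] in
theorem FQ.mem_subfield (K : Subfield F) (h : ∀ μ : F, μ * star μ = 1 → μ ∈ K) (a : F) : a ∈ K := by
  have h1 : q + 1 ≤ Nat.card K := by
    rw [← show Nat.card {x : F // x * star x = 1} = q + 1 from hq.uf.card_norm_one]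
    exact Nat.card_le_card_of_injective (fun x => ⟨x.1, h _ x.2⟩) fun a b e =>
      Subtype.ext (congrArg Subtype.val e :)
  have h2 := Module.natCard_eq_pow_finrank (K := K) (V := F)
  rw [Nat.card_eq_fintype_card (α := F), hq.uf.card] at h2
  have h3 : Module.finrank K F = 1 := by
    have := Module.finrank_pos (R := K) (M := F)
    by_contra h4
    have := (Nat.pow_le_pow_left h1 2).trans
      ((Nat.pow_le_pow_right (by omega) (by omega)).trans h2.ge)
    nlinarith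
  obtain ⟨c, rfl⟩ := (finrank_eq_one_iff_of_nonzero' (1 : F) one_ne_zero).1 h3 a
  simp [Subfield.smul_def]

namespace Loc

variable {G : Type*} [Group G] [Finite G] {L : Loc G F}

theorem Act.inv {g : G} {t : F} (h : L.Act g t) : t ≠ 0 ∧ L.Act g⁻¹ t⁻¹ := by
  obtain ⟨n, hn⟩ := Nat.exists_eq_succ_of_ne_zero (orderOf_pos g).ne'
  have e := pow_orderOf_eq_one g
  rw [hn, pow_succ] at e
  have e' := ((h.pow n).mul h).uniq hq (by rw [e, ← map_one L.s]; exact act_s 1)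
  exact ⟨right_ne_zero_of_mul_eq_one e', by
    rw [← eq_inv_of_mul_eq_one_left e, ← eq_inv_of_mul_eq_one_left e']; exact h.pow n⟩

theorem Act.mem_S {g : G} (h : L.Act g 1) : ∃ x, g = L.s x := by
  obtain ⟨x, a, b, e⟩ := zi_x₀ (L := L) hq
  refine Loc.mem_S hq ((Zi.mem_iff ⟨x, a, b, rfl⟩).2 ?_) h
  rw [Commute, SemiconjBy, h.z hq a, dl_one]

theorem two_pts {g g' k : G} (hg : g ∉ L.M) (hg' : g' ∉ L.M) (h1 : k ≠ 1) (hk : k ^ (q - 1) = 1)
    (h : k ∈ L.D g) (h' : k ∈ L.D g') : g⁻¹ * g' ∈ L.M := by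
  obtain ⟨u, a, T⟩ := exists_tor hq hg
  obtain ⟨u', a', T'⟩ := exists_tor hq hg'
  have i := T.inv k (D_eq a h) hk
  have i' := T'.inv k (D_eq a' h') hk
  have iu : u⁻¹ = u := inv_eq_of_mul_eq_one_right T.uu
  have iu' : u'⁻¹ = u' := inv_eq_of_mul_eq_one_right T'.uu
  have kM := (mem_D.1 h).1
  by_cases e : u * u' ∈ L.M
  · convert mul_mem (mul_mem a e) (inv_mem a') using 1
    rw [mul_assoc g⁻¹, ← mul_assoc u, T.uu]
    group
  obtain ⟨v, b, V⟩ := exists_tor hq e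
  have iv : v⁻¹ = v := inv_eq_of_mul_eq_one_right V.uu
  have j : u * k⁻¹ * u = k := by rw [← i, ← mul_assoc, ← mul_assoc, T.uu, one_mul, mul_assoc, T.uu,
    mul_one]
  have i'' := V.inv k (D_eq b (inv_mem_iff.1 (mem_D.2 ⟨inv_mem kM, by
    rw [mul_inv_rev, iu, iu', ← mul_assoc, mul_assoc u', mul_assoc u', j, i']
    exact inv_mem kM⟩))) hk
  have sc : ∀ u : G, u⁻¹ = u → u * k * u = k⁻¹ → SemiconjBy u k k⁻¹ := fun u a b => by
    rw [SemiconjBy, ← mul_inv_eq_iff_eq_mul, a, b]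
  have e₁ : SemiconjBy ((u * u')⁻¹ * v) k k⁻¹ := by
    rw [mul_inv_rev, iu, iu', mul_assoc]
    exact (sc _ iu' i').mul_left (by
      simpa using (sc _ iu i).inv_right.mul_left (sc _ iv i''))
  have e₂ : ∀ n : ℕ, SemiconjBy (((u * u')⁻¹ * v) ^ (2 * n + 1)) k k⁻¹ := fun n => by
    have : Commute (((u * u')⁻¹ * v) ^ 2) k := by
      rw [pow_two]
      simpa only [inv_inv, Commute] using e₁.inv_right.mul_left e₁
    rw [pow_succ', pow_mul]
    exact e₁.mul_left (this.pow_left n)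
  obtain ⟨n, hn⟩ : ∃ n, q - 1 = 2 * n + 1 := by
    obtain ⟨n, rfl⟩ := hq.exists_pow
    exact ⟨2 ^ n - 1, by have := Nat.one_le_two_pow (n := n); omega⟩
  have c := pow_mem_C hq b
  have e₃ : k * k ∈ L.C := by
    have := mul_mem ((mem_M.1 kM _).1 c) (inv_mem c)
    rwa [hn, mul_assoc k, (e₂ n).inv_right.eq, inv_inv, mul_assoc, mul_inv_cancel_right] at this
  exact absurd (eq_one_of_pows hq (pow_CD hq hg (mem_of_sq hq e₃ (Or.inr (hk ▸ one_mem _))) h) hk) h1

/-- `m` acts semilinearly on the unipotent radical modulo its centre. -/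
def Sem (L : Loc G F) (m : G) (t : F) (φ : F →+* F) : Prop :=
  ∀ x, ∃ y, m * L.s x = L.s y * m ∧ y.a = t * φ x.a

omit [Finite G] in
theorem exists_sem {m : G} (hm : m ∈ L.M) : ∃ t φ, t ≠ 0 ∧ L.Sem m t φ := by
  have h1 : ∀ x, ∃ y, m * L.s x * m⁻¹ = L.s y := fun x =>
    mem_S_of_pow hq ((mem_M.1 hm _).1 (s_mem x)) (k := 2) (by
      rw [conj_pow, ← map_pow, show 2 ^ 2 = 2 + 2 from rfl, pow_add, pow_two,
        sq_eq_one.2 (sq_a x)]; simp)
  choose α hα using h1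
  have h2 : ∀ x y, α (x * y) = α x * α y := fun x y => L.inj (by
    rw [map_mul, ← hα, ← hα, ← hα, map_mul, conj_mul])
  have h3 : ∀ x, (α x).a = 0 ↔ x.a = 0 := fun x => by
    rw [← HS.sq_eq_one, ← HS.sq_eq_one, ← h2, ← L.inj.eq_iff, ← hα, ← L.inj.eq_iff]; simp
  choose p hp using hq.exists_pt
  let τ : F → F := fun a => (α (p a)).a
  have h4 : ∀ x, (α x).a = τ x.a := fun x => by
    have := (h3 (x * p x.a)).2 (by rw [mul_a, hp, CharTwo.add_self_eq_zero])
    rwa [h2, mul_a, CharTwo.add_eq_zero] at this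
  have h5 : ∀ a b, τ (a + b) = τ a + τ b := fun a b => by
    have := h4 (p a * p b)
    rwa [h2, mul_a, mul_a, hp, hp, eq_comm] at this
  have h6 : ∀ a, τ a = 0 ↔ a = 0 := fun a => by rw [h3, hp]
  have h7 : τ 1 ≠ 0 := by simp [h6]
  let K : Subfield F :=
    { carrier := {e | ∃ e', ∀ y, τ (e * y) = e' * τ y}
      mul_mem' := fun ⟨a, ha⟩ ⟨b, hb⟩ => ⟨a * b, fun y => by rw [mul_assoc, ha, hb, mul_assoc]⟩
      one_mem' := ⟨1, by simp⟩
      add_mem' := fun ⟨a, ha⟩ ⟨b, hb⟩ => ⟨a + b, fun y => by rw [add_mul, h5, ha, hb, add_mul]⟩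
      zero_mem' := ⟨0, by simp [h6]⟩
      neg_mem' := fun h => by rwa [CharTwo.neg_eq]
      inv_mem' := fun e ⟨a, ha⟩ => by
        rcases eq_or_ne e 0 with rfl | h
        · exact ⟨0, by simp [h6]⟩
        · have : a ≠ 0 := fun z => h (by simpa [z, h6] using ha 1)
          exact ⟨a⁻¹, fun y => by
            rw [eq_inv_mul_iff_mul_eq₀ this, ← ha, mul_inv_cancel_left₀ h]⟩ }
  have h8 : ∀ e, e ∈ K := hq.mem_subfield K fun μ hμ => by
    let ν : unitary F := ⟨μ, (mul_comm _ _).trans hμ, hμ⟩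
    obtain ⟨μ', -, e⟩ := act_C ((mem_M.1 hm _).1 (w_mem (L := L) ν))
    refine ⟨μ', fun y => ?_⟩
    obtain ⟨z, a, b⟩ := e (α (p y))
    have : α (dl μ (p y)) = z := L.inj (by
      rw [← hα, conj_mul, L.ws, ← conj_mul] at a
      rw [← hα, mul_right_cancel a])
    rw [← b, ← this, h4, dl_a, hp]
  choose φ hφ using (h8 : ∀ e, ∃ e', ∀ y, τ (e * y) = e' * τ y)
  have h9 : ∀ y, τ y = φ y * τ 1 := fun y => by rw [← hφ, mul_one]
  refine ⟨τ 1, ⟨⟨⟨φ, ?_⟩, fun a b => ?_⟩, ?_, fun a b => ?_⟩, h7, fun x => ⟨α x, ?_, ?_⟩⟩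
  · exact mul_right_cancel₀ h7 (by rw [← h9, one_mul])
  · exact mul_right_cancel₀ h7 (by rw [← h9, hφ, h9 b, mul_assoc])
  · exact mul_right_cancel₀ h7 (by rw [← h9, zero_mul, h6])
  · exact mul_right_cancel₀ h7 (by rw [← h9, h5, add_mul, ← h9, ← h9])
  · rw [← hα, inv_mul_cancel_right]
  · rw [h4, h9, mul_comm]; rfl

omit [Finite G] [CharP F 2] in
theorem _root_.Cfsg.Agent.H6.FQ.map_star (φ : F →+* F) (a : F) : φ (star a) = star (φ a) := by
  rw [hq.star_eq, hq.star_eq, map_pow]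

omit [Finite G] in
theorem Sem.z {m : G} {t : F} {φ : F →+* F} (h : L.Sem m t φ) {e : F} (he : star e = e) :
    ∃ h', m * L.s (zc e he) * m⁻¹ = L.s (zc (t * star t * φ e) h') := by
  obtain ⟨a, rfl⟩ := hq.exists_nrm he
  obtain ⟨y, rfl⟩ := hq.exists_pt a
  obtain ⟨z, e, e'⟩ := h y
  refine ⟨by rw [star_mul', nrm_star, ← hq.map_star, he], ?_⟩
  have e₁ : zc _ he = y * y := HS.ext (by rw [sq_a, zc_a]) (by rw [sq_b, zc_b])
  rw [e₁, map_mul, ← conj_mul, e, mul_inv_cancel_right, ← map_mul]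
  congr 1
  refine HS.ext (by rw [sq_a, zc_a]) ?_
  rw [sq_b, zc_b, e', star_mul', map_mul, hq.map_star]
  ring

omit hq [Finite G] [Fintype F] in
theorem zi_zc {e : F} (he : star e = e) (h : e ≠ 0) : L.Zi (L.s (zc e he)) :=
  ⟨_, rfl, fun z => h (congrArg HS.b z), rfl⟩

namespace Tor

variable {u : G} (T : L.Tor q u)
include T

omit [Finite G] in
theorem sem_real {k : G} (hk : k ∈ L.D u) {t : F} {φ : F →+* F} (ht : t ≠ 0) (h : L.Sem k t φ)
    {e : F} (he : star e = e) : φ e = e := by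
  have z₁ := zi_zc (L := L) (star_one F) one_ne_zero
  have key : ∀ e (he : star e = e), e ≠ 0 → ∃ l : G, l * L.s (zc 1 (star_one F)) * l⁻¹ = L.s (zc e he) ∧
      ∀ d ∈ L.D u, d * L.s (zc e he) * d⁻¹ = l * (d * L.s (zc 1 (star_one F)) * d⁻¹) * l⁻¹ := by
    intro e he h0
    obtain ⟨l, hl, -, a⟩ := T.tr _ _ z₁ (zi_zc he h0)
    refine ⟨l, a, fun d hd => ?_⟩
    rw [← a, ← mul_assoc, ← mul_assoc, (T.comm d hd l hl).eq, mul_assoc _ l⁻¹, ← mul_inv_rev,
      (T.comm d hd l hl).eq]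
    group
  have hn : t * star t ≠ 0 := by simp [ht]
  obtain ⟨r, a₁⟩ := h.z hq (star_one F)
  by_cases h1 : t * star t = 1
  · rcases eq_or_ne e 0 with rfl | h0
    · simp
    obtain ⟨l, b, c⟩ := key e he h0
    obtain ⟨_, a₂⟩ := h.z hq he
    have := c k hk
    rw [a₁, a₂, show zc _ r = zc 1 (star_one F) from HS.ext rfl (by simp [h1]), b] at this
    simpa [h1] using congrArg HS.b (L.inj this)
  have r' : star (1 + t * star t) = 1 + t * star t := by rw [star_add, star_one, nrm_star]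
  obtain ⟨k', hk', -, b⟩ := T.tr _ _ z₁ (zi_zc r' fun z => h1 (CharTwo.add_eq_zero.1 z).symm)
  obtain ⟨t', φ', -, h'⟩ := exists_sem hq (mem_D.1 hk').1
  have f : ∀ e, star e = e → t' * star t' * φ' e = e + t * star t * φ e := fun e he => by
    rcases eq_or_ne e 0 with rfl | h0
    · simp
    obtain ⟨l, c₁, c₂⟩ := key e he h0
    obtain ⟨_, a₂⟩ := h.z hq he
    obtain ⟨_, a₃⟩ := h'.z hq he
    have := c₂ k' hk'
    rw [b, show zc _ r' = zc 1 (star_one F) * zc _ r from HS.ext (by simp) (by simp), map_mul,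
      ← conj_mul, c₁, ← a₁, ← c₂ k hk, a₂, a₃, ← map_mul] at this
    simpa using congrArg HS.b (L.inj this)
  have f₁ := f 1 (star_one F)
  have f₂ := f e he
  have f₃ := f (e * e) (by rw [star_mul', he])
  rw [map_one, map_one, mul_one, mul_one] at f₁
  rw [map_mul, map_mul] at f₃
  rw [f₁] at f₂ f₃
  have : t * star t * (φ e - e) ^ 2 = 0 := by
    linear_combination (-(1 + t * star t)) * f₃ + ((1 + t * star t) * φ' e + (e + t * star t * φ e)) * f₂
  simpa [hn, sub_eq_zero] using this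

omit [Finite G] in
theorem act_K {k : G} (hk : k ∈ L.D u) (h : k ^ (q - 1) = 1) : ∃ t, star t = t ∧ L.Act k t := by
  obtain ⟨n, hn⟩ := hq.exists_pow
  have e : k ^ 2 ^ n * k ^ 2 ^ n = k := by
    rw [← pow_add, ← two_mul, ← pow_succ', ← hn, ← Nat.sub_add_cancel hq.uf.pos, pow_succ, h, one_mul]
  obtain ⟨t, φ, ht, hs⟩ := exists_sem hq (pow_mem (mem_D.1 hk).1 (2 ^ n))
  have hφ : ∀ a, φ (φ a) = a := fun a => by
    have h1 := T.sem_real hq (pow_mem hk _) ht hs (e := a + star a) (by simp [add_comm])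
    have h2 := T.sem_real hq (pow_mem hk _) ht hs (nrm_star a)
    rw [map_add] at h1
    rw [map_mul] at h2
    have : (φ a - a) * (φ a - star a) = 0 := by linear_combination φ a * h1 - h2
    rcases mul_eq_zero.1 this with h | h <;> rw [sub_eq_zero] at h
    · rw [h, h]
    · rw [h, hq.map_star, h, star_star]
  have a : L.Act k (t * φ t) := fun x => by
    obtain ⟨y, a, b⟩ := hs x
    obtain ⟨z, c, d⟩ := hs y
    exact ⟨z, by rw [← e, mul_assoc, a, ← mul_assoc, c, mul_assoc], by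
      rw [d, b, map_mul, hφ, mul_assoc]⟩
  refine ⟨_, ?_, a⟩
  have := (a.pow (q - 1)).uniq hq (by rw [h, ← map_one L.s]; exact act_s 1)
  rw [hq.star_eq, ← Nat.sub_add_cancel hq.uf.pos, pow_succ, this, one_mul]

omit [Finite G] in
theorem exists_K {l : F} (hl : star l = l) (h0 : l ≠ 0) :
    ∃ k ∈ L.D u, k ^ (q - 1) = 1 ∧ L.Act k l := by
  have r : star (l * l) = l * l := by rw [star_mul', hl]
  obtain ⟨k, hk, a, b⟩ := T.tr _ _ (zi_zc (star_one F) one_ne_zero) (zi_zc r (by simpa))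
  obtain ⟨t, ht, c⟩ := T.act_K hq hk a
  rw [c.z hq (zc_a _ _), mul_inv_cancel_right] at b
  have := congrArg HS.b (L.inj b)
  rw [dl_b, zc_b, zc_b, mul_one, ht, mul_self_eq_mul_self_iff, CharTwo.neg_eq, or_self] at this
  exact ⟨k, hk, a, this ▸ c⟩

theorem exists_act {d : G} (hd : d ∈ L.D u) : ∃ t, L.Act d t := by
  have h0 := zi_x₀ (L := L) hq
  obtain ⟨k, hk, a, b⟩ := T.tr _ _ h0 (h0.conj hq (mem_D.1 hd).1)
  obtain ⟨t, -, c⟩ := T.act_K hq hk a
  obtain ⟨μ, -, e⟩ := act_C (h0.mem_iff.2 (show Commute (k⁻¹ * d) L.x₀ by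
    rw [Commute, SemiconjBy, mul_assoc, ← inv_mul_cancel_right (d * L.x₀) d, ← b]
    group))
  exact ⟨_, by simpa using c.mul e⟩

theorem eq_of_act {d d' : G} (hd : d ∈ L.D u) (hd' : d' ∈ L.D u) {t : F} (h : L.Act d t)
    (h' : L.Act d' t) : d = d' := by
  obtain ⟨x, e⟩ := Act.mem_S hq (g := d * d'⁻¹)
    (mul_inv_cancel₀ (h.inv hq).1 ▸ h.mul (h'.inv hq).2)
  have : L.s x ∈ L.D u := e ▸ mul_mem hd (inv_mem hd')
  rwa [s_D hq T.nm this, map_one, mul_inv_eq_one] at e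

end Tor

theorem trans {g g' : G} (hg : g ∉ L.M) (hg' : g' ∉ L.M) : ∃ x, (L.s x * g)⁻¹ * g' ∈ L.M := by
  obtain ⟨u, a, T⟩ := exists_tor hq hg
  obtain ⟨u', a', T'⟩ := exists_tor hq hg'
  obtain ⟨l, r, l0, l1⟩ := hq.exists_real 1
  obtain ⟨k, hk, b, c⟩ := T.exists_K hq r l0
  obtain ⟨k', hk', b', c'⟩ := T'.exists_K hq r l0
  obtain ⟨y, e⟩ := Act.mem_S hq (g := k' * k⁻¹) (mul_inv_cancel₀ l0 ▸ c'.mul (c.inv hq).2)
  have : Finite (HS F) := Finite.of_injective _ L.inj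
  choose α h₁ h₂ using c
  have h₃ : ∀ x, α x = x → x = 1 := fun x e => by
    have a₁ : x.a = 0 := by
      have := h₂ x
      rw [e] at this
      by_contra h
      exact l1 (mul_right_cancel₀ h (this.symm.trans (one_mul _).symm))
    have := Act.z hq (fun x => ⟨_, h₁ x, h₂ x⟩) a₁
    rw [h₁, e, mul_left_inj, L.inj.eq_iff] at this
    have := congrArg HS.b this
    rw [dl_b, r] at this
    by_contra h
    have := mul_right_cancel₀ (fun z => h (eq_one_of_b z)) (this.symm.trans (one_mul _).symm)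
    rw [mul_self_eq_one_iff, CharTwo.neg_eq, or_self] at this
    exact l1 this
  have h₄ : ∀ x, L.s (α x) = k * L.s x * k⁻¹ := fun x => by rw [h₁, mul_inv_cancel_right]
  obtain ⟨x, hx⟩ := Finite.injective_iff_surjective.1 (show Function.Injective
      fun x => x * (α x)⁻¹ from fun x x' e => by
    refine (inv_mul_eq_one.1 (h₃ _ (L.inj ?_))).symm
    have := congrArg L.s e
    simp only [map_mul, map_inv, h₄] at this ⊢
    refine .trans ?_ (inv_mul_eq_iff_eq_mul.2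
      (mul_inv_eq_iff_eq_mul.1 this |>.trans (mul_assoc _ _ _))).symm
    group) y
  have e' : k' = L.s x * k * (L.s x)⁻¹ := by
    rw [← hx, map_mul, map_inv, h₄, mul_inv_eq_iff_eq_mul] at e
    rw [e]
    group
  have sM := C_le (s_mem (L := L) x)
  refine ⟨x, two_pts hq (fun e => hg ((mul_mem_cancel_left sM).1 e)) hg' (fun z => l1 ?_) b' ?_
    (D_eq (by simpa using inv_mem a') hk')⟩
  · exact c'.uniq hq (by rw [z, ← map_one L.s]; exact act_s 1)
  · refine mem_D.2 ⟨(mem_D.1 hk').1, ?_⟩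
    convert (mem_D.1 (D_eq (g' := g) (by simpa using inv_mem a) hk)).2 using 1
    rw [e']
    group

theorem decomp {g m : G} (hg : g ∉ L.M) (hm : m ∈ L.M) : ∃ x, ∃ d ∈ L.D g, m = L.s x * d := by
  obtain ⟨x, e⟩ := trans hq hg fun e => hg ((mul_mem_cancel_left hm).1 e)
  exact ⟨x, (L.s x)⁻¹ * m, mem_D.2 ⟨mul_mem (inv_mem (C_le (s_mem x))) hm,
    by simpa [mul_assoc] using e⟩, by simp⟩

theorem exists_good {g : G} (hg : g ∉ L.M) :
    ∃ u, L.Tor q u ∧ ∃ μ : unitary F, (μ : F) ≠ 1 ∧ L.w μ ∈ L.D u := by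
  obtain ⟨μ, h1, h2⟩ := hq.exists_unit
  let ν : unitary F := ⟨μ, (mul_comm _ _).trans h1, h1⟩
  obtain ⟨y, c, hc, e⟩ := decomp hq hg (C_le (w_mem ν))
  have h3 : 1 + μ ≠ 0 := fun z => h2 (CharTwo.add_eq_zero.1 z).symm
  obtain ⟨x, hx⟩ := hq.exists_pt (y.a / (1 + μ))
  have cC : c ∈ L.C := (mul_mem_cancel_left (s_mem y)).1 (e ▸ w_mem ν)
  have e₁ : (L.s x)⁻¹ * L.w ν * L.s x = L.s (x⁻¹ * dl μ x * y) * c := by
    rw [mul_assoc, L.ws, e, map_mul, map_mul, map_inv]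
    simp only [mul_assoc]
    rfl
  have e₂ : (x⁻¹ * dl μ x * y).a = 0 := by
    rw [mul_a, mul_a, inv_a, dl_a, CharTwo.add_eq_zero, hx]
    field_simp
  have e₃ : x⁻¹ * dl μ x * y = 1 := by
    by_contra h
    have z : L.Zi (L.s (x⁻¹ * dl μ x * y)) := ⟨_, e₂, h, rfl⟩
    have := conj_pow (a := (L.s x)⁻¹) (b := L.w ν) (i := q + 1)
    rw [inv_inv, e₁, (z.comm cC).symm.mul_pow, pow_CD hq hg cC hc, mul_one, ← map_pow L.w,
      show ν ^ (q + 1) = 1 from Subtype.ext (by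
        rw [SubmonoidClass.coe_pow, pow_succ', ← hq.star_eq]; exact h1), map_one, mul_one,
      inv_mul_cancel] at this
    exact z.ne (mem_of_sq hq (H := ⊥) z.sq (Or.inl this))
  rw [e₃, map_one, one_mul] at e₁
  obtain ⟨u, a, T⟩ := exists_tor hq (g := L.s x * g)
    fun e => hg ((mul_mem_cancel_left (C_le (s_mem x))).1 e)
  refine ⟨u, T, ν, h2, D_eq a (mem_D.2 ⟨C_le (w_mem ν), ?_⟩)⟩
  convert (mem_D.1 hc).2 using 1
  rw [← e₁]
  group

theorem exists_bn {g : G} (hg : g ∉ L.M) : ∃ B : BN0 G F, B.Full := by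
  obtain ⟨u, T, ν, h1, h2⟩ := exists_good hq hg
  have iu : u⁻¹ = u := inv_eq_of_mul_eq_one_right T.uu
  have ex : ∀ t : Fˣ, ∃ d ∈ L.D u, L.Act d t ∧ u * d * u ∈ L.D u ∧
      L.Act (u * d * u) (star t : F)⁻¹ := fun t => by
    obtain ⟨l, r, e⟩ := FQ.exists_sqrt (nrm_star (t : F))
    have l0 : l ≠ 0 := fun z => by simp [z] at e
    have h3 : t / l * star (t / l) = 1 := by
      rw [star_div₀, r, div_mul_div_comm, ← e, div_self (by simpa)]
    let μ : unitary F := ⟨t / l, (mul_comm _ _).trans h3, h3⟩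
    obtain ⟨k, hk, a, b⟩ := T.exists_K hq r l0
    obtain ⟨y, c, hc, e'⟩ := decomp hq T.nm (C_le (w_mem μ))
    have cC : c ∈ L.C := (mul_mem_cancel_left (s_mem y)).1 (e' ▸ w_mem μ)
    have ac : L.Act c (t / l) := by
      have := (act_s (L := L) y⁻¹).mul (act_w μ)
      rwa [e', map_inv, inv_mul_cancel_left, one_mul] at this
    have e₁ : u * (k * c) * u = k⁻¹ * c := by
      rw [mul_assoc, mul_assoc, (T.cw c hc cC).eq, ← mul_assoc, ← mul_assoc, T.inv k hk a]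
    refine ⟨k * c, mul_mem hk hc, ?_, e₁ ▸ mul_mem (inv_mem hk) hc, ?_⟩
    · simpa [mul_div_cancel₀ _ l0] using b.mul ac
    · convert e₁ ▸ (b.inv hq).2.mul ac using 1
      rw [eq_comm, div_eq_mul_inv, mul_left_comm, ← mul_inv, e, mul_inv, mul_inv_cancel_left₀ t.ne_zero]
  choose d hd ad hd' ad' using ex
  have dM : ∀ x t, L.s x * d t ∈ L.M := fun x t => mul_mem (C_le (s_mem x)) (mem_D.1 (hd t)).1
  have bor : ∀ m ∈ L.M, ∃ x t, m = L.s x * d t := fun m hm => by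
    obtain ⟨x, c, hc, rfl⟩ := decomp hq T.nm hm
    obtain ⟨t, ht⟩ := T.exists_act hq hc
    exact ⟨x, Units.mk0 t (ht.inv hq).1, congrArg _ (T.eq_of_act hq hc (hd _) ht (ad _))⟩
  let B : BN0 G F :=
    { s := L.s
      d := MonoidHom.mk' d fun a b =>
        T.eq_of_act hq (hd _) (mul_mem (hd a) (hd b)) (ad _) ((ad a).mul (ad b))
      u := u
      uu := T.uu
      ud := fun t => by
        rw [map_inv]
        change u * d t = (d (star t))⁻¹ * u
        rw [← T.eq_of_act hq (hd' t) (inv_mem (hd _)) (ad' t) ((ad (star t)).inv hq).2, mul_assoc,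
          T.uu, mul_one]
      ds := fun t x => by
        change d t * _ = _ * d t
        have h3 : 1 + (ν : F) ≠ 0 := fun z => h1 (CharTwo.add_eq_zero.1 z).symm
        obtain ⟨y, hy⟩ := hq.exists_pt (x.a / (1 + ν))
        obtain ⟨y', a, b⟩ := ad t y
        have e₁ : ((y⁻¹ * dl (ν : F) y)⁻¹ * x).a = 0 := by
          rw [mul_a, inv_a, mul_a, inv_a, dl_a, CharTwo.add_eq_zero, hy]
          field_simp
        have e₂ : ((dl (t : F) y)⁻¹ * y').a = 0 := by
          rw [mul_a, inv_a, dl_a, b, CharTwo.add_self_eq_zero]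
        have e₃ : d t * L.s (dl (ν : F) y) = L.s (dl (ν : F) y') * d t := by
          rw [← mul_left_inj (L.w ν), mul_assoc, ← L.ws, ← mul_assoc, (T.comm _ (hd t) _ h2).eq,
            mul_assoc, a, ← mul_assoc, L.ws, mul_assoc, mul_assoc, (T.comm _ (hd t) _ h2).eq]
        have e₄ : y'⁻¹ * dl (ν : F) y' = dl (t : F) (y⁻¹ * dl (ν : F) y) := by
          have f : dl (ν : F) ((dl (t : F) y)⁻¹ * y') = (dl (t : F) y)⁻¹ * y' :=
            HS.ext (by rw [dl_a, e₂, mul_zero]) (by rw [dl_b, ν.2.2, one_mul])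
          rw [← mul_inv_cancel_left (dl (t : F) y) y', map_mul, f, mul_inv_rev, mul_assoc,
            ← mul_assoc (dl (t : F) y)⁻¹, ← comm_of_a e₂, inv_mul_cancel_left, map_mul, map_inv,
            dl_dl, dl_dl, mul_comm (t : F)]
        have a' : d t * (L.s y)⁻¹ = (L.s y')⁻¹ * d t := (SemiconjBy.inv_right a).eq
        rw [← mul_inv_cancel_left (y⁻¹ * dl (ν : F) y) x, map_mul, ← mul_assoc, map_mul, map_inv,
          ← mul_assoc, a', mul_assoc _ (d t), e₃, mul_assoc, mul_assoc, (ad t).z hq e₁,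
          map_mul (dl _) (y⁻¹ * dl (ν : F) y), ← e₄]
        simp only [map_mul, map_inv, mul_assoc] }
  refine ⟨B, fun g => ?_, fun x t e => ?_, fun x y t e => ?_, fun x t e => T.nm ?_⟩
  · by_cases hg : g ∈ L.M
    · exact Or.inl (bor g hg)
    · obtain ⟨x, e⟩ := trans hq T.nm hg
      obtain ⟨y, t, e'⟩ := bor _ e
      refine Or.inr ⟨x, t, dl ((t⁻¹ : Fˣ) : F) y, ?_⟩
      rw [mul_assoc, ← B.sd]
      exact inv_mul_eq_iff_eq_mul.1 e'
  · change L.s x * d t = 1 at e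
    have : L.s x ∈ L.D u := eq_inv_of_mul_eq_one_left e ▸ inv_mem (hd t)
    obtain rfl := s_D hq T.nm this
    rw [map_one, one_mul] at e
    exact ⟨rfl, Units.ext ((ad t).uniq hq (by rw [e, ← map_one L.s]; exact act_s 1))⟩
  · exact s_D hq T.nm (mem_D.2 ⟨C_le (s_mem x), by rw [iu]; exact (show u * L.s x * u = _ from e) ▸ dM y t⟩)
  · exact (show u = _ from e) ▸ dM x t

end Loc

end Cfsg.Agent.H6
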