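import Cfsg.Agent.H6.PGU4

/-! The matrix model of `PGU₃(q)`, `q` even, and the recognition theorem. -/

set_option autoImplicit false

namespace Cfsg.Agent.H6

open HS Subgroup Matrix

variable {F : Type*} [Field F] [StarRing F] [CharP F 2]

/-- The antidiagonal form. -/
def puJ (F : Type*) [Field F] : Matrix (Fin 3) (Fin 3) F := !![0, 0, 1; 0, 1, 0; 1, 0, 0]

/-- Unipotent matrices. -/
def puS (x : HS F) : Matrix (Fin 3) (Fin 3) F := !![1, star x.a, x.b; 0, 1, x.a; 0, 0, 1]

/-- Diagonal matrices. -/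
def puD (t : Fˣ) : Matrix (Fin 3) (Fin 3) F := !![star (t : F), 0, 0; 0, 1, 0; 0, 0, (t : F)⁻¹]

/-- Isometries of the antidiagonal form. -/
def PuI (m : Matrix (Fin 3) (Fin 3) F) : Prop := mᴴ * puJ F * m = puJ F

omit [CharP F 2] in
theorem puI_iff {m : Matrix (Fin 3) (Fin 3) F} : PuI m ↔ ∀ i j,
    star (m 2 i) * m 0 j + star (m 1 i) * m 1 j + star (m 0 i) * m 2 j = puJ F i j := by
  simp [PuI, ← Matrix.ext_iff, Matrix.mul_apply, Fin.sum_univ_three, puJ]

theorem puI_s (x : HS F) : PuI (puS x) := by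
  rw [puI_iff]
  intro i j
  fin_cases i <;> fin_cases j <;> simp [puS, puJ, CharTwo.add_self_eq_zero]
  linear_combination x.h + x.a * star x.a * f2 (F := F)

omit [CharP F 2] in
theorem puI_d (t : Fˣ) : PuI (puD t) := by
  rw [puI_iff]
  intro i j
  fin_cases i <;> fin_cases j <;> simp [puD, puJ]

omit [CharP F 2] in
theorem puI_u : PuI (puJ F) := by
  rw [puI_iff]
  intro i j
  fin_cases i <;> fin_cases j <;> simp [puJ]

omit [CharP F 2] in
theorem puI_c {c : F} (h : star c * c = 1) : PuI (c • (1 : Matrix (Fin 3) (Fin 3) F)) := by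
  simp [PuI, smul_smul, mul_comm c, h]

theorem pu_borel {m : Matrix (Fin 3) (Fin 3) F} (h : PuI m) (h2 : m 2 0 = 0) :
    ∃ (c : F) (x : HS F) (t : Fˣ), star c * c = 1 ∧ m = c • (puS x * puD t) := by
  rw [puI_iff] at h
  have h1 : m 1 0 = 0 := by simpa [puJ, h2] using h 0 0
  have a₁ : star (m 0 0) * m 2 2 = 1 := by simpa [puJ, h1, h2] using h 0 2
  have p0 : m 0 0 ≠ 0 := fun z => by simp [z] at a₁
  have a₂ : m 2 1 = 0 := by simpa [puJ, h1, h2, p0] using h 0 1
  have a₃ : star (m 1 1) * m 1 1 = 1 := by simpa [puJ, a₂] using h 1 1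
  have c0 : m 1 1 ≠ 0 := fun z => by simp [z] at a₃
  have a₄ := h 2 1
  have a₅ := h 2 2
  have a₆ := congrArg star a₁
  simp [puJ, a₂] at a₄ a₅ a₆
  refine ⟨m 1 1, ⟨m 1 2 * star (m 0 0), m 0 2 * star (m 0 0), ?_⟩,
    Units.mk0 (star (m 0 0) * m 1 1) (by simp [p0, c0]), a₃, ?_⟩
  · simp only [star_mul', star_star]
    linear_combination (m 0 0 * star (m 0 0)) * a₅ - m 0 2 * star (m 0 0) * a₆ -
      star (m 0 2) * m 0 0 * a₁ - m 1 2 * star (m 0 0) * star (m 1 2) * m 0 0 * f2 (F := F)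
  · have s0 : star (m 0 0) ≠ 0 := by simpa
    ext i j
    fin_cases i <;> fin_cases j <;> simp [puS, puD, h1, h2, a₂] <;> field_simp
    · linear_combination -a₃
    · linear_combination m 0 0 * a₄ - m 0 1 * a₆ - m 1 1 * star (m 1 2) * m 0 0 * f2 (F := F)
    · linear_combination a₁

theorem puS_mul (x y : HS F) : puS (x * y) = puS x * puS y := by
  ext i j
  fin_cases i <;> fin_cases j <;> simp [puS, add_comm]
  ring

omit [CharP F 2] in
theorem puD_mul (x y : Fˣ) : puD (x * y) = puD x * puD y := by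
  ext i j
  fin_cases i <;> fin_cases j <;> simp [puD, mul_comm]

theorem puD_puS (t : Fˣ) (x : HS F) : puD t * puS x = puS (dl (t : F) x) * puD t := by
  ext i j
  fin_cases i <;> fin_cases j <;> simp [puS, puD] <;> field_simp

omit [CharP F 2] [StarRing F] in
theorem puJ_puJ : puJ F * puJ F = 1 := by
  ext i j
  fin_cases i <;> fin_cases j <;> simp [puJ]

omit [CharP F 2] in
theorem puJ_puD (t : Fˣ) : puJ F * puD t = puD (star t)⁻¹ * puJ F := by
  ext i j
  fin_cases i <;> fin_cases j <;> simp [puJ, puD]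

theorem pu_rel (x : HS F) (t : Fˣ) (hx : x ≠ 1) (ht : (t : F) = star x.b ^ 2 / x.b) :
    puJ F * puS x * puJ F =
      (star x.b / x.b) • (puS (ff x) * puJ F * puD t * puS (ff x⁻¹)⁻¹) := by
  have h1 : x.b ≠ 0 := fun e => hx (eq_one_of_b e)
  have h2 : star x.b ≠ 0 := by simpa
  have := x.h
  ext i j
  fin_cases i <;> fin_cases j <;> simp [puS, puD, puJ, ht] <;> field_simp
  · exact Or.inr (by linear_combination star x.a * f2 (F := F))
  · exact Or.inr (by linear_combination this + star x.a * x.a * f2 (F := F))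
  · linear_combination this - star x.b * f2 (F := F)
  · exact Or.inr (by linear_combination x.a * f2 (F := F))

namespace BN0

variable {G : Type*} [Group G] {B : BN0 G F}

theorem un2_of (r : B.Rel) (h : ∀ x t, B.u ≠ B.s x * B.d t) (x y : HS F) (t : Fˣ)
    (e : B.u * B.s x * B.u = B.s y * B.d t) : x = 1 := by
  by_contra hx
  have hb : x.b ≠ 0 := fun e => hx (eq_one_of_b e)
  let c : Fˣ := Units.mk0 (star x.b ^ 2 / x.b) (by simp [hb])
  rw [r x c hx rfl, mul_assoc, B.ds, ← eq_mul_inv_iff_mul_eq, ← eq_inv_mul_iff_mul_eq,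
    _root_.mul_inv_rev, mul_assoc, ← mul_assoc (B.d t), ← map_inv, ← map_inv, ← map_inv, ← map_mul, B.ds, ← mul_assoc,
    ← mul_assoc, ← map_mul, ← map_mul] at e
  exact h _ _ e

theorem Full.cen (h : B.Full) (g : G) : Commute g (B.s (zc 1 (star_one F))) ↔
    ∃ (x : HS F) (μ : unitary F), g = B.s x * B.d (Unitary.toUnits μ) := by
  have c : ∀ x, Commute (B.s x) (B.s (zc 1 (star_one F))) := fun x =>
    (show Commute x _ from (comm_of_a (zc_a _ _) x).symm).map B.s
  refine ⟨fun e => ?_, ?_⟩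
  · rcases h.ex g with ⟨x, t, rfl⟩ | ⟨x, t, y, rfl⟩
    · have := ((c x).inv_left.mul_left e).eq
      rw [inv_mul_cancel_left, B.ds, mul_left_inj, ← mul_inv_eq_one, ← map_inv, ← map_mul] at this
      have := congrArg HS.b (mul_inv_eq_one.1 (h.un1 _ 1 (by rwa [map_one, mul_one])).1)
      rw [dl_b, zc_b, mul_one] at this
      exact ⟨x, ⟨t, (mul_comm _ _).trans this, this⟩, by congr 2; exact Units.ext rfl⟩
    · have := (((c x).inv_left.mul_left e).mul_left (c y).inv_left).eq
      rw [mul_assoc (B.s x), mul_assoc (B.s x), inv_mul_cancel_left, mul_inv_cancel_right,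
        mul_assoc, B.ds, ← mul_assoc, ← mul_assoc, mul_left_inj] at this
      have := congrArg HS.b (h.un2 _ (zc 1 (star_one F)) 1 (by
        rw [this, mul_assoc, B.uu, map_one]))
      simp at this
  · rintro ⟨x, μ, rfl⟩
    refine (c x).mul_left ?_
    rw [Commute, SemiconjBy, B.ds]
    congr 2
    exact HS.ext (by simp) (by simp)

/-- The image of Bruhat data. -/
def map {G' : Type*} [Group G'] (B : BN0 G F) (π : G →* G') : BN0 G' F where
  s := π.comp B.s
  d := π.comp B.d
  u := π B.u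
  ds t x := by simpa using congrArg π (B.ds t x)
  uu := by simpa using congrArg π B.uu
  ud t := by simpa using congrArg π (B.ud t)

end BN0

section Model

variable {U : Type*} [Group U] {ρ : U →* Matrix (Fin 3) (Fin 3) F} (inj : Function.Injective ρ)
  (hr : ∀ m, PuI m ↔ ∃ g, ρ g = m)
include inj hr

theorem exists_bn0 : ∃ A : BN0 U F, (∀ x, ρ (A.s x) = puS x) ∧ (∀ t, ρ (A.d t) = puD t) ∧
    ρ A.u = puJ F := by
  choose k hk using fun m => (hr m).1
  refine ⟨⟨MonoidHom.mk' (fun x => k _ (puI_s x)) fun x y => inj ?_,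
    MonoidHom.mk' (fun t => k _ (puI_d t)) fun x y => inj ?_, k _ puI_u, fun t x => inj ?_, inj ?_,
    fun t => inj ?_⟩, fun x => hk _ (puI_s x), fun t => hk _ (puI_d t), hk _ puI_u⟩ <;>
    simp only [map_mul, MonoidHom.mk'_apply, hk, map_one]
  exacts [puS_mul x y, puD_mul x y, puD_puS t x, puJ_puJ, puJ_puD t]

theorem exists_bn_model [Fintype F] {q : ℕ} (hq : FQ F q) :
    ∃ B : BN0 (U ⧸ center U) F, B.Full := by
  obtain ⟨A, hs, hd, hu⟩ := exists_bn0 inj hr
  obtain ⟨π, hπ'⟩ : ∃ π, π = QuotientGroup.mk' (center U) := ⟨_, rfl⟩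
  have hπ : ∀ (c : F) (a b : U), star c * c = 1 → ρ a = c • ρ b → π a = π b := fun c a b hc e => by
    obtain ⟨k, hk⟩ := (hr _).1 (puI_c hc)
    have : a = k * b := inj (by rw [map_mul, hk, e, smul_one_mul])
    rw [this, map_mul, hπ', show QuotientGroup.mk' (center U) k = 1 from
      (QuotientGroup.eq_one_iff _).2 (mem_center_iff.2 fun g => inj (by simp [hk])), one_mul]
  have hz : ∀ a, π a = 1 → ∀ g, ρ g * ρ a = ρ a * ρ g := fun a e g => by
    rw [hπ'] at e
    rw [← map_mul, ← map_mul, mem_center_iff.1 ((QuotientGroup.eq_one_iff _).1 e)]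
  have r : (A.map π).Rel := fun x t hx ht => by
    have h1 : star x.b ≠ 0 := fun e => hx (eq_one_of_b (by simpa using e))
    have h2 : x.b ≠ 0 := by simpa using h1
    have := hπ (star x.b / x.b) (A.u * A.s x * A.u)
      (A.s (ff x) * A.u * A.d t * A.s (ff x⁻¹)⁻¹) (by simp; field_simp)
      (by simp only [map_mul, hs, hd, hu]; exact pu_rel x t hx ht)
    simp only [map_mul] at this
    exact this
  have un3 : ∀ x t, (A.map π).u ≠ (A.map π).s x * (A.map π).d t := fun x t e => by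
    have := hz (A.u * (A.s x * A.d t)) (by
      rw [map_mul, map_mul]
      exact (congrArg ((A.map π).u * ·) e).symm.trans (A.map π).uu) (A.s (zc 1 (star_one F)))
    simp only [map_mul, hs, hd, hu] at this
    simpa [puS, puD, puJ] using congrFun (congrFun this 0) 0
  have bor : ∀ g, ρ g 2 0 = 0 → ∃ x t, π g = (A.map π).s x * (A.map π).d t := fun g e => by
    obtain ⟨c, x, t, h1, h2⟩ := pu_borel ((hr _).2 ⟨g, rfl⟩) e
    exact ⟨x, t, (hπ c g (A.s x * A.d t) h1 (by rw [map_mul, hs, hd, h2])).trans (map_mul _ _ _)⟩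
  refine ⟨A.map π, fun g => ?_, fun x t e => ?_, BN0.un2_of r un3, un3⟩
  · obtain ⟨g, rfl⟩ := (hπ' ▸ QuotientGroup.mk'_surjective _ : Function.Surjective π) g
    by_cases e : ρ g 2 0 = 0
    · exact Or.inl (bor g e)
    have h1 := puI_iff.1 ((hr _).2 ⟨g, rfl⟩) 0 0
    have e' : star (ρ g 2 0) ≠ 0 := by simpa
    let x : HS F := ⟨ρ g 1 0 / ρ g 2 0, ρ g 0 0 / ρ g 2 0, by
      simp only [star_div₀]
      field_simp
      simp [puJ] at h1
      linear_combination h1 - ρ g 1 0 * star (ρ g 1 0) * f2 (F := F)⟩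
    obtain ⟨y, t, h2⟩ := bor (A.u * A.s x⁻¹ * g) (by
      simp only [map_mul, hs, hu]
      simp [puS, puJ, x, Matrix.mul_apply, Fin.sum_univ_three]
      field_simp
      simp [puJ] at h1
      linear_combination h1)
    refine Or.inr ⟨x, t, dl ((t⁻¹ : Fˣ) : F) y, ?_⟩
    rw [mul_assoc, ← BN0.sd, ← h2, map_mul, map_mul, map_inv, map_inv, mul_assoc, mul_assoc]
    exact ((congrArg _ ((A.map π).uu' _)).trans (mul_inv_cancel_left _ _)).symm
  · have h1 := hz (A.s x * A.d t) ((map_mul _ _ _).trans e)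
    have h2 := h1 A.u
    simp only [map_mul, hs, hd, hu] at h2
    obtain rfl : x = 1 := eq_one_of_b (by simpa [puS, puD, puJ] using congrFun (congrFun h2 2) 2)
    obtain ⟨y, hy⟩ := hq.exists_pt 1
    have h3 := h1 (A.s y)
    simp only [map_mul, hs, hd] at h3
    exact ⟨rfl, by simpa [puS, puD, hy] using congrFun (congrFun h3 1) 2⟩

end Model

end Cfsg.Agent.H6
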