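import Cfsg.Agent.H6.PGU5
import Cfsg.Prelude.Def_LieClassical

/-! The recognition theorem for `PGU₃(q)`, `q` even. -/

set_option autoImplicit false

namespace Cfsg.Agent.H6

open HS Subgroup

variable {F : Type*} [Field F] [StarRing F] [CharP F 2] [Fintype F] {q : ℕ} (hq : FQ F q)
include hq

theorem Loc.exists_not_mem {G : Type*} [Group G] [Finite G] (L : Loc G F)
    (hS : ∀ P : Sylow 2 G, ¬ (P : Subgroup G).Normal) : ∃ g, g ∉ L.M := by
  by_contra hc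
  push Not at hc
  have h4 : ∀ x, L.s x ^ 2 ^ 2 = 1 := fun x => by
    rw [← map_pow, show 2 ^ 2 = 2 + 2 from rfl, pow_add, pow_two, HS.sq_eq_one.2 (sq_a x), map_one]
  obtain ⟨P, hP⟩ := IsPGroup.exists_le_sylow (p := 2) (P := L.s.range)
    fun ⟨_, x, e⟩ => ⟨2, Subtype.ext (e ▸ h4 x)⟩
  have e : (P : Subgroup G) = L.s.range := le_antisymm (fun g hg => by
    obtain ⟨k, hk⟩ := P.isPGroup' ⟨g, hg⟩
    replace hk : g ^ 2 ^ k = 1 := congrArg Subtype.val hk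
    obtain ⟨x, hx⟩ := Loc.mem_S_of_pow hq (Loc.pow_mem_C hq (hc g)) (k := k)
      (by rw [← pow_mul, mul_comm, pow_mul, hk, one_pow])
    obtain ⟨n, rfl⟩ := hq.exists_pow
    obtain ⟨m, hm⟩ := exists_pow_eq_self_of_coprime (x := g) (n := 2 ^ (n + 1) - 1)
      (Nat.Coprime.coprime_dvd_right (orderOf_dvd_of_pow_eq_one hk) (Nat.Coprime.pow_right _
        (Nat.coprime_two_right.2 (Nat.Even.sub_odd Nat.one_le_two_pow (by simp [pow_succ]) odd_one))))
    exact hm ▸ pow_mem (MonoidHom.mem_range.2 ⟨x, hx.symm⟩) m) hP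
  refine hS P (e ▸ ⟨?_⟩)
  rintro _ ⟨x, rfl⟩ g
  obtain ⟨y, hy⟩ := Loc.mem_S_of_pow hq ((Loc.mem_M.1 (hc g) _).1 (Loc.s_mem x)) (k := 2)
    (by rw [conj_pow, h4, mul_one, mul_inv_cancel])
  exact ⟨y, hy.symm⟩

theorem pgu_recog {G H : Type*} [Group G] [Finite G] [Group H] (B : BN0 H F) (h : B.Full)
    (heven : Even (Nat.card G)) (hconj : ∀ s t : G, orderOf s = 2 → orderOf t = 2 → IsConj s t)
    (hC : ∀ (x : G) (y : H), orderOf x = 2 → orderOf y = 2 →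
      Nonempty (centralizer ({x} : Set G) ≃* centralizer ({y} : Set H)))
    (hS : ∀ P : Sylow 2 G, ¬ (P : Subgroup G).Normal) : Nonempty (G ≃* H) := by
  have : Fact (Nat.Prime 2) := ⟨Nat.prime_two⟩
  obtain ⟨x₀, hx⟩ := exists_prime_orderOf_dvd_card' 2 heven.two_dvd
  have o : ∀ a : G, a * a = 1 → a ≠ 1 → orderOf a = 2 := fun a h h' =>
    orderOf_eq_prime (by rwa [pow_two]) h'
  have inj : Function.Injective B.s := (injective_iff_map_eq_one _).2 fun x e =>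
    (h.un1 x 1 (by rw [e, map_one, one_mul])).1
  obtain ⟨e⟩ := hC x₀ (B.s (zc 1 (star_one F))) hx (orderOf_eq_prime
    (by rw [pow_two, ← map_mul, HS.sq_eq_one.2 (zc_a _ _), map_one])
    fun e => one_ne_zero (congrArg HS.b (inj (e.trans (map_one _).symm))))
  have m₁ : ∀ x, B.s x ∈ centralizer {B.s (zc 1 (star_one F))} := fun x =>
    mem_centralizer_singleton_iff.2 ((h.cen _).2 ⟨x, 1, by simp⟩)
  have m₂ : ∀ μ, B.d.comp Unitary.toUnits μ ∈ centralizer {B.s (zc 1 (star_one F))} := fun x =>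
    mem_centralizer_singleton_iff.2 ((h.cen _).2 ⟨1, x, by simp⟩)
  let ψ := (centralizer ({x₀} : Set G)).subtype.comp e.symm.toMonoidHom
  let L : Loc G F :=
    { s := ψ.comp (B.s.codRestrict _ m₁)
      w := ψ.comp ((B.d.comp Unitary.toUnits).codRestrict _ m₂)
      x₀ := x₀
      inj := fun a b c => inj (congrArg Subtype.val (e.symm.injective (Subtype.ext c)))
      ws := fun μ x => by
        simp only [MonoidHom.comp_apply, ← map_mul ψ]
        exact congrArg ψ (Subtype.ext (B.ds _ x))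
      sq := by rw [← pow_two, ← hx, pow_orderOf_eq_one]
      ne := fun z => by simp [z] at hx
      cen := fun g => by
        simp only [MonoidHom.comp_apply, ← map_mul ψ]
        refine ⟨fun c => ?_, fun ⟨x, μ, c⟩ => mem_centralizer_singleton_iff.1 (c ▸ (e.symm _).2)⟩
        obtain ⟨x, μ, d⟩ := (h.cen _).1
          (mem_centralizer_singleton_iff.1 (e ⟨g, mem_centralizer_singleton_iff.2 c⟩).2)
        exact ⟨x, μ, congrArg Subtype.val (e.eq_symm_apply.2 (Subtype.ext d) :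
          (⟨g, mem_centralizer_singleton_iff.2 c⟩ : centralizer {x₀}) = _)⟩
      conj := fun a b c d f g => hconj a b (o a c d) (o b f g) }
  obtain ⟨g, hg⟩ := L.exists_not_mem hq hS
  obtain ⟨A, hA⟩ := Loc.exists_bn hq hg
  obtain ⟨A', a, a'⟩ := hA.exists_rel hq
  obtain ⟨B', b, b'⟩ := h.exists_rel hq
  exact BN0.nonempty_equiv A' B' a b a' b'

open Matrix

omit [CharP F 2] in
theorem mem_GU_iff (g : GL (Fin 3) F) : g ∈ GU 3 F q ↔ (g.1)ᴴ * g.1 = 1 := by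
  have e : ∀ u v, hermForm 3 F q u v = star v ⬝ᵥ u := fun u v => by
    simp [hermForm, dotProduct, hq.star_eq, mul_comm]
  change (∀ u v, hermForm 3 F q (g.1 *ᵥ u) (g.1 *ᵥ v) = _) ↔ _
  simp only [e, star_mulVec, dotProduct_mulVec, vecMul_vecMul]
  refine ⟨fun h => Matrix.ext fun i j => ?_, fun h u v => by rw [h, vecMul_one]⟩
  simpa [Matrix.one_apply, Pi.single_apply, eq_comm] using h (Pi.single j 1) (Pi.single i 1)

theorem exists_bn_GU : ∃ B : BN0 (GU 3 F q ⧸ center (GU 3 F q)) F, B.Full := by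
  obtain ⟨β, hβ⟩ := hq.uf.exists_trace_one
  change star β + β = 1 at hβ
  obtain ⟨P, hP⟩ : ∃ P : Matrix (Fin 3) (Fin 3) F, Pᴴ * P = puJ F :=
    ⟨!![1, 0, β; 0, 1, 0; 1, 0, star β], by
      ext i j
      fin_cases i <;> fin_cases j <;> simp [puJ, Matrix.mul_apply, Fin.sum_univ_three,
        CharTwo.add_self_eq_zero, hβ, add_comm β, mul_comm β]⟩
  have h1 : puJ F * Pᴴ * P = 1 := by rw [mul_assoc, hP, puJ_puJ]
  let Q : GL (Fin 3) F := ⟨P, puJ F * Pᴴ, mul_eq_one_comm.1 h1, h1⟩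
  have hQ : Q.1ᴴ * Q.1 = puJ F := hP
  clear_value Q
  have hQ' : (Q⁻¹).1ᴴ * Q.1ᴴ = 1 := by rw [← conjTranspose_mul, Units.mul_inv, conjTranspose_one]
  have hQ'' : Q.1ᴴ * (Q⁻¹).1ᴴ = 1 := mul_eq_one_comm.1 hQ'
  refine exists_bn_model (ρ := (Units.coeHom _).comp
    ((MulAut.conj Q⁻¹).toMonoidHom.comp (GU 3 F q).subtype)) (fun a b e => Subtype.ext
      ((MulAut.conj Q⁻¹).injective (Units.ext e))) (fun m => ⟨fun h => ?_, ?_⟩) hq
  · have h2 : puJ F * mᴴ * puJ F * m = 1 := by rw [mul_assoc, mul_assoc, ← mul_assoc mᴴ, h, puJ_puJ]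
    refine ⟨⟨Q * ⟨m, _, mul_eq_one_comm.1 h2, h2⟩ * Q⁻¹, (mem_GU_iff hq _).2 ?_⟩, by simp [mul_assoc]⟩
    simp only [Units.val_mul, conjTranspose_mul, mul_assoc]
    rw [← mul_assoc Q.1ᴴ, hQ, ← mul_assoc (puJ F), ← mul_assoc mᴴ, ← mul_assoc mᴴ, h, ← hQ,
      mul_assoc, Units.mul_inv, mul_one, hQ']
  · rintro ⟨⟨g, hg⟩, rfl⟩
    change ((Q⁻¹).1 * g.1 * Q.1)ᴴ * puJ F * ((Q⁻¹).1 * g.1 * Q.1) = puJ F
    simp only [← hQ, conjTranspose_mul, mul_assoc]
    rw [← mul_assoc (Q⁻¹).1ᴴ, hQ', one_mul, ← mul_assoc Q.1, Units.mul_inv, one_mul,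
      ← mul_assoc g.1ᴴ, (mem_GU_iff hq g).1 hg, one_mul]

end Cfsg.Agent.H6
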