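import Cfsg.Agent.H6.PX

/-! Long root subgroups from commutators and assembly of Steinberg systems. -/

set_option autoImplicit false

open scoped commutatorElement

namespace Cfsg.Agent.H6

open OF Subgroup Frame

variable {K V I ι J : Type*} [Field K] [AddCommGroup V] [Module K V] [Group J] {O : OF K V}
  {F : Frame O I} {π : J →* O.U}

variable (F) in
/-- The subgroup generated by the commutators of opposite short roots. -/
def Zs (X : I → I → Subgroup J) (k : I) : Subgroup J :=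
  closure {z | ∃ j g g', F.D k j ∧ g ∈ X k j ∧ g' ∈ X k (F.n j) ∧ z = ⁅g, g'⁆}

variable (F) in
/-- The radical generated by root subgroups. -/
abbrev RX (X : I → I → Subgroup J) (Y : I → Subgroup J) (k : I) : Subgroup J :=
  RS (X k) (Y k) {j | F.D k j}

theorem comm_mul_of_commute {a b c d : J} (h1 : Commute a b) (h2 : Commute a c) (h3 : Commute d b)
    (h4 : Commute d c) : ⁅a * b, c * d⁆ = ⁅b, c⁆ * ⁅a, d⁆ := by
  have e1 : Commute a ⁅b, c⁆ := ((h1.mul_right h2).mul_right h1.inv_right).mul_right h2.inv_right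
  calc _ = a * (b * c * (d * b⁻¹) * a⁻¹ * d⁻¹ * c⁻¹) := by simp only [commutatorElement_def]; group
    _ = a * (b * c * b⁻¹ * ((d * a⁻¹ * d⁻¹) * c⁻¹)) := by rw [h3.inv_right.eq]; group
    _ = a * ⁅b, c⁆ * (d * a⁻¹ * d⁻¹) := by
      rw [(((h4.mul_left h2.inv_left).mul_left h4.inv_left).inv_right).eq]
      simp only [commutatorElement_def]; group
    _ = _ := by rw [e1.eq]; simp only [commutatorElement_def]; group

theorem Commute.comm {a b c : J} (h1 : Commute a b) (h2 : Commute a c) : Commute a ⁅b, c⁆ :=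
  ((h1.mul_right h2).mul_right h1.inv_right).mul_right h2.inv_right

namespace XS

variable {X : I → I → Subgroup J} (H : XS F π X)
include H

theorem ext {i j : I} (h : F.D i j) {g g' : J} (hg : g ∈ X i j) (hg' : g' ∈ X i j)
    (e : π g = π g') : g = g' :=
  mul_inv_eq_one.mp (H.inj h (mul_mem hg (inv_mem hg')) (by simp [e]))

theorem c0 {i j : I} (h : F.D i j) {g g' : J} (hg : g ∈ X i j) (hg' : g' ∈ X i j) :
    Commute g g' := H.ext h (mul_mem hg hg') (mul_mem hg' hg) (by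
  obtain ⟨s, hs⟩ := H.img h hg
  obtain ⟨t, ht⟩ := H.img h hg'
  rw [map_mul, map_mul, hs, ht, ← h.xT_add, ← h.xT_add, add_comm])

theorem sw {i j : I} (h : F.D i j) {g : J} (hg : g ∈ X i (F.n j)) : g ∈ X j (F.n i) :=
  F.nn j ▸ H.swap h.nr hg

theorem c3 {i j l : I} (ij : F.D i j) (lj : F.D l j) (il : F.D i l) {g g' : J} (hg : g ∈ X i j)
    (hg' : g' ∈ X l j) : Commute g g' :=
  H.c2 ij.symm.nl.nr lj.symm.nl.nr il.nl.nr (H.swap ij hg) (H.swap lj hg')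

theorem imgT {i j : I} (h : F.D i j) {g : J} (hg : g ∈ X i j) :
    ∃ c : K, π g = O.T (F.e i) (c • F.e (F.n j)) 0 := (H.img h hg).elim fun _ h => ⟨_, h⟩

theorem surjT {i j : I} (h : F.D i j) (c : K) :
    ∃ g ∈ X i j, π g = O.T (F.e i) (c • F.e (F.n j)) 0 := by
  obtain ⟨g, h1, h2⟩ := H.surj h (O.σ (-(c * F.ε j)))
  refine ⟨g, h1, ?_⟩
  have := F.ε_ne j
  rw [h2, xT, xv, O.σσ]; congr 2; field_simp

theorem comm_mem_Zs {k j : I} (h : F.D k j) {g g' : J} (hg : g ∈ X k j) (hg' : g' ∈ X k (F.n j)) :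
    ⁅g, g'⁆ ∈ Zs F X k := subset_closure ⟨j, g, g', h, hg, hg', rfl⟩

theorem Zs_img {k : I} {z : J} (hz : z ∈ Zs F X k) : ∃ α, O.Λ 0 α ∧ π z = F.Z k α := by
  induction hz using closure_induction with
  | mem z hz =>
    obtain ⟨j, g, g', h, hg, hg', rfl⟩ := hz
    obtain ⟨c, hc⟩ := H.imgT h hg
    obtain ⟨d, hd⟩ := H.imgT h.nr hg'
    exact ⟨_, Λ0_comm _ _, by
      rw [map_commutatorElement, hc, hd, (h.nr.ok_line c).comm_T (h.nr.nr.ok_line d)]⟩
  | one => exact ⟨0, Λ_zero, by rw [map_one, Z_zero]⟩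
  | mul a b _ _ h h' =>
    obtain ⟨α, h1, h2⟩ := h
    obtain ⟨β, h3, h4⟩ := h'
    exact ⟨_, Λ0_add h1 h3, by rw [map_mul, h2, h4, Z_add k h1 h3]⟩
  | inv a _ h =>
    obtain ⟨α, h1, h2⟩ := h
    exact ⟨_, OF.neg_zero h1, by rw [map_inv, h2, Z_neg k h1]⟩

theorem Zs_surj {k j : I} (h : F.D k j) (y : K) : ∃ z ∈ Zs F X k, π z = F.Z k (y - O.η * O.σ y) := by
  obtain ⟨g, h1, h2⟩ := H.surjT h (O.η * y / F.ε j)
  obtain ⟨g', h3, h4⟩ := H.surjT h.nr 1
  refine ⟨_, H.comm_mem_Zs h h1 h3, ?_⟩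
  rw [map_commutatorElement, h2, h4, (h.nr.ok_line _).comm_T (h.nr.nr.ok_line _), F.nn,
    O.herm _ ((1 : K) • _), show O.B ((O.η * y / F.ε j) • F.e (F.n j)) ((1 : K) • F.e j) = O.η * y by
      simp [B_n, F.ε_ne], map_mul, O.ση, ← mul_assoc, ← mul_assoc, O.ηη, one_mul, one_mul]

theorem comm_move {k j l : I} (kj : F.D k j) (kl : F.D k l) (jl : F.D j l) {g g' b : J}
    (hg : g ∈ X k (F.n j)) (hg' : g' ∈ X k j) (hb : b ∈ X k l) {c c' : K}
    (e : π g = O.T (F.e k) (c • F.e j) 0) (e' : π g' = O.T (F.e k) (c' • F.e (F.n j)) 0)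
    (eb : π b = O.T (F.e k) (F.e (F.n l)) 0) : ∃ a ∈ X k (F.n l), ⁅g, g'⁆ = ⁅a, b⁆⁻¹ ∧
      π a = O.T (F.e k) ((-(O.B (c • F.e j) (c' • F.e (F.n j)) / F.ε (F.n l))) • F.e l) 0 := by
  have n1 := F.ε_ne l
  have n2 := F.ε_ne j
  obtain ⟨u, hu, eu⟩ := H.surj jl.symm (O.σ (-(c' * F.ε j / F.ε l)))
  have f1 : π u • F.e k = F.e k := by rw [eu, jl.symm.xT_ne _ kj.1.symm kl.symm.2]
  have h1 := H.c1 jl.symm kj.symm.nr kl.symm.nr hu (H.sw kj hg)
  have h2 := inv_mem (H.c1 kl jl.symm kj hb hu)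
  rw [commutatorElement_inv] at h2
  have h3 : ⁅u, b⁆ = g' := H.ext kj h2 hg' (by
    have o1 := kl.nr.ok_line 1
    rw [one_smul] at o1
    rw [map_commutatorElement, commutatorElement_def, eb, o1.conj_T, f1, eu, jl.symm.xT_n, e',
      mul_inv_eq_iff_eq_mul, (kj.nr.ok_line c').T_mul o1.toOk, O.σσ]
    congr 1
    · match_scalars <;> field_simp
    · simp [jl.symm.nl.nr.B])
  have h4 := H.sw kl.symm h1
  refine ⟨_, h4, eq_inv_of_mul_eq_one_left ?_, ?_⟩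
  · rw [← comm_mul_of_commute (H.c2 kl.nr kj.nr jl.symm.nl.nr h4 hg)
      (H.c2 kl.nr kj jl.symm.nl h4 hg') (H.c2 kl kj.nr jl.symm.nr hb hg) (H.c2 kl kj jl.symm hb hg'),
      ← h3, commutatorElement_eq_one_iff_commute]
    simpa [commutatorElement_def] using (H.c2 kj.nr kl jl.nl hg hb).map (MulAut.conj u)
  · rw [map_commutatorElement, commutatorElement_def, e, (kj.ok_line c).conj_T, f1, U_smul, eu,
      jl.symm.xT_self, mul_inv_eq_iff_eq_mul, (kl.ok_line _).T_mul (kj.ok_line c).toOk]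
    congr 1
    · have := O.σ_ne n1
      have := O.η_ne
      simp only [map_smulₛₗ, LinearMap.smul_apply, smul_eq_mul, B_n', F.ε_n, RingHom.id_apply,
        map_neg, map_div₀, map_mul]
      match_scalars <;> field_simp
    · simp [jl.B]

variable (h3 : ∀ a b, ∃ c, F.D a c ∧ F.D b c)
include h3

theorem comm_cen {k j l : I} (kj : F.D k j) (kl : F.D k l) {g g' y : J} (hg : g ∈ X k (F.n j))
    (hg' : g' ∈ X k j) (hy : y ∈ X k l) : Commute y ⁅g, g'⁆ := by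
  by_cases h : F.D j l
  · exact Commute.comm (H.c2 kl kj.nr h.symm.nr hy hg) (H.c2 kl kj h.symm hy hg')
  obtain ⟨r, kr, jr⟩ := h3 k j
  have lr : F.D l r := by
    rcases cases3 (F := F) j l with rfl | rfl | h'
    exacts [jr, jr.nl, absurd h' h]
  obtain ⟨c, e⟩ := H.imgT kj.nr hg
  obtain ⟨c', e'⟩ := H.imgT kj hg'
  obtain ⟨b, hb, eb⟩ := H.surjT kr 1
  obtain ⟨a, ha, h1, -⟩ := H.comm_move kj kr jr hg hg' hb (F.nn j ▸ e) e' (by rwa [one_smul] at eb)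
  rw [h1]
  exact (Commute.comm (H.c2 kl kr.nr lr.nr hy ha) (H.c2 kl kr lr hy hb)).inv_right

theorem exists_gamma (k : I) : ∃ Γ : K → J, AddF Γ ∧ ∀ j g g' (c c' : K), F.D k j →
    g ∈ X k (F.n j) → g' ∈ X k j → π g = O.T (F.e k) (c • F.e j) 0 →
    π g' = O.T (F.e k) (c' • F.e (F.n j)) 0 → ⁅g, g'⁆ = Γ (O.B (c • F.e j) (c' • F.e (F.n j))) := by
  have : ∀ l, F.D k l → ∀ c : K, ∃ g ∈ X k (F.n l), π g = O.T (F.e k) (c • F.e l) 0 :=
    fun l h c => by simpa only [F.nn] using H.surjT h.nr c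
  choose! a ha ea using this
  choose! b hb eb using fun l (h : F.D k l) => H.surjT h 1
  let G : I → K → J := fun l y => ⁅a l (y / F.ε (F.n l)), b l⁆
  have add : ∀ l, F.D k l → AddF (G l) := fun l h s t => by
    simp only [G]
    rw [show a l ((s + t) / F.ε (F.n l)) = a l (t / F.ε (F.n l)) * a l (s / F.ε (F.n l)) from
      H.ext h.nr (ha _ h _) (mul_mem (ha _ h _) (ha _ h _)) (by
        rw [map_mul, ea _ h, ea _ h, ea _ h, ← T_line_add h, add_div, add_comm]),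
      ← mul_inv_cancel_right ⁅a l (s / _), _⁆ (a l _),
      ← (H.comm_cen h3 h h.nr (ha _ h _) (hb _ h) (ha _ h (t / F.ε (F.n l)))).eq]
    simp only [commutatorElement_def]; group
  have key : ∀ l j g g' (c c' : K), F.D k l → F.D j l → F.D k j →
      g ∈ X k (F.n j) → g' ∈ X k j → π g = O.T (F.e k) (c • F.e j) 0 →
      π g' = O.T (F.e k) (c' • F.e (F.n j)) 0 → ⁅g, g'⁆ = G l (O.B (c • F.e j) (c' • F.e (F.n j))) :=
    fun l j g g' c c' kl jl kj hg hg' e e' => by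
      obtain ⟨a', h1, h2, h4⟩ := H.comm_move kj kl jl hg hg' (hb l kl) e e' (by rw [eb l kl, one_smul])
      rw [h2, inv_eq_iff_eq_inv, ← add_fam_neg (add l kl), H.ext kl.nr h1 (ha l kl _)
        (h4.trans (ea l kl _).symm)]
      simp only [G, neg_div]
  have eq : ∀ l j, F.D k l → F.D j l → F.D k j → G j = G l := fun l j kl jl kj => funext fun y => by
    simpa [B_n', F.ε_ne] using key l j _ _ _ _ kl jl kj (ha j kj (y / F.ε (F.n j))) (hb j kj)
      (ea j kj _) (eb j kj)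
  obtain ⟨l, kl, -⟩ := h3 k k
  refine ⟨G l, add l kl, fun j g g' c c' kj hg hg' e e' => ?_⟩
  obtain ⟨r, kr, jr⟩ := h3 k j
  rw [key r j g g' c c' kr jr kj hg hg' e e']
  by_cases h : F.D r l
  · rw [eq l r kl h kr]
  obtain ⟨s, ks, rs⟩ := h3 k r
  rw [eq s r ks rs kr, eq s l ks _ kl]
  rcases cases3 (F := F) r l with rfl | rfl | h'
  exacts [rs, rs.nl, absurd h' h]

theorem Zs_comm {k l : I} (kl : F.D k l) {z y : J} (hz : z ∈ Zs F X k) (hy : y ∈ X k l) :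
    Commute y z := by
  refine ((closure_le (centralizer {y})).mpr ?_ hz y rfl)
  rintro _ ⟨j, g, g', h, hg, hg', rfl⟩ _ rfl
  exact H.comm_cen h3 h.nr kl ((F.nn j).symm ▸ hg) hg' hy

theorem Zs_inj {k : I} (hk : ∀ A : AddSubgroup K, (∀ r, r + O.η * O.σ r ∈ A) →
    (∀ j g g' (c c' : K), F.D k j → g ∈ X k (F.n j) → g' ∈ X k j →
      π g = O.T (F.e k) (c • F.e j) 0 → π g' = O.T (F.e k) (c' • F.e (F.n j)) 0 → Commute g g' →
      c * O.σ c' * F.ε (F.n j) ∈ A) → ∀ y, O.η * y = O.σ y → y ∈ A) {z : J} (hz : z ∈ Zs F X k)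
    (e : π z = 1) : z = 1 := by
  obtain ⟨Γ, h1, h2⟩ := H.exists_gamma h3 k
  obtain ⟨j, kj, -⟩ := h3 k k
  have ex : ∀ y, ∃ g ∈ X k (F.n j), ∃ g' ∈ X k j, ∃ c c' : K, π g = O.T (F.e k) (c • F.e j) 0 ∧
      π g' = O.T (F.e k) (c' • F.e (F.n j)) 0 ∧ O.B (c • F.e j) (c' • F.e (F.n j)) = y := fun y => by
    obtain ⟨g, e1, e2⟩ := H.surjT kj.nr (y / F.ε (F.n j))
    obtain ⟨g', e3, e4⟩ := H.surjT kj 1
    exact ⟨g, e1, g', e3, _, _, F.nn j ▸ e2, e4, by simp [B_n', F.ε_ne]⟩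
  obtain ⟨y, rfl⟩ : z ∈ fr h1 := by
    refine (closure_le _).mpr ?_ hz
    rintro _ ⟨j, g, g', h, hg, hg', rfl⟩
    obtain ⟨c, e⟩ := H.imgT h hg
    obtain ⟨c', e'⟩ := H.imgT h.nr hg'
    exact ⟨_, (h2 _ g g' c c' h.nr ((F.nn j).symm ▸ hg) hg' e e').symm⟩
  refine hk (famSub h1 ⊥) (fun r => ?_) (fun j g g' c c' kj hg hg' e e' hc => ?_) y ?_
  · obtain ⟨g, e1, g', e2, c, c', e3, e4, rfl⟩ := ex r
    change Γ _ = 1
    rw [h1, ← h2 j g g' c c' kj e1 e2 e3 e4, ← O.herm]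
    have := h2 _ g' g c' c kj.nr ((F.nn j).symm ▸ e2) e1 e4 ((F.nn j).symm ▸ e3)
    rw [F.nn] at this
    rw [← this, ← commutatorElement_inv g, mul_inv_cancel]
  · have := h2 j g g' c c' kj hg hg' e e'
    rw [commutatorElement_eq_one_iff_commute.mpr hc] at this
    change Γ _ = 1
    rw [this]; congr 1; simp [B_n']; ring
  · obtain ⟨g, e1, g', e2, c, c', e3, e4, rfl⟩ := ex y
    rw [← h2 j g g' c c' kj e1 e2 e3 e4, map_commutatorElement, e3, e4,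
      (kj.ok_line c).comm_T (kj.nr.ok_line c')] at e
    have := Z_eq_one (Λ0_comm _ _) e
    rw [O.σ_B]; linear_combination this

theorem Zs_eq {k l : I} (kl : F.D k l) {z : J} (hz : z ∈ Zs F X k) :
    ∃ a ∈ X k (F.n l), ∃ b ∈ X k l, z = ⁅a, b⁆ := by
  obtain ⟨Γ, h1, h2⟩ := H.exists_gamma h3 k
  obtain ⟨y, rfl⟩ : z ∈ fr h1 := by
    refine (closure_le _).mpr ?_ hz
    rintro _ ⟨j, g, g', h, hg, hg', rfl⟩
    obtain ⟨c, e⟩ := H.imgT h hg
    obtain ⟨c', e'⟩ := H.imgT h.nr hg'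
    exact ⟨_, (h2 _ g g' c c' h.nr ((F.nn j).symm ▸ hg) hg' e e').symm⟩
  obtain ⟨g, e1, e2⟩ := H.surjT kl.nr (y / F.ε (F.n l))
  obtain ⟨g', e3, e4⟩ := H.surjT kl 1
  exact ⟨g, e1, g', e3, by rw [h2 l g g' _ _ kl e1 e3 (F.nn l ▸ e2) e4]; simp [B_n', F.ε_ne]⟩

theorem Zs_L3 {k l j : I} (kl : F.D k l) (jk : F.D j k) (jl : F.D j l) {g z : J} (hg : g ∈ X k l)
    (hz : z ∈ Zs F X j) : Commute g z := by
  obtain ⟨a, ha, b, hb, rfl⟩ := H.Zs_eq h3 jk hz
  have h1 := H.c1 jk kl jl hb hg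
  have h2 := H.c2 kl jk.symm.nr jl.symm.nr hg (H.sw jk ha)
  have h4 := comm_mul_of_commute (Commute.one_left a) (Commute.one_left b)
    (H.c2 jl jk.nr kl.symm.nr (inv_mem h1) ha) (H.c2 jl jk kl.symm (inv_mem h1) hb)
  refine mul_inv_eq_iff_eq_mul.mp ?_
  rw [conjugate_commutatorElement, h2.eq, mul_inv_cancel_right, show g * b * g⁻¹ = b * ⁅b, g⁆⁻¹ by
    rw [← (H.c2 jl jk kl.symm (inv_mem h1) hb).eq]; simp only [commutatorElement_def]; group]
  simpa using h4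

omit h3

theorem cj_X {Y : I → Subgroup J} {k l j r : I} (kj : F.D k j) (kl : F.D k l) (jl : F.D j l)
    (jr : F.D j r) {g : J} (hg : g ∈ X k l) : Cj g (X j r) (RX F X Y j) := fun y hy => by
  have m : y ∈ RX F X Y j := X_RS jr hy
  have cm : Commute g y → g * y * g⁻¹ ∈ RX F X Y j := fun h => by
    rwa [h.eq, mul_inv_cancel_right]
  rcases cases5 (F := F) k l r with rfl | rfl | rfl | rfl | h
  · simpa [commutatorElement_def, mul_assoc] using
      mul_mem (inv_mem (X_RS (T := {r | F.D j r}) jl (H.c1 jr kl jl hy hg))) m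
  · exact cm (H.c3 kl jr kj hg hy)
  · exact cm (H.c2 kl kj.nr jl.symm.nr hg (H.sw kj.symm hy))
  · simpa [commutatorElement_def] using mul_mem (X_RS (T := {r | F.D j r}) kj.symm.nr
      (H.sw kj (H.c1 kl jl.symm.nr kj.nr hg (H.sw jl hy)))) m
  · exact cm (H.c4 kl kj h.1 jl.symm h.2 jr hg hy)

theorem cj_R {Y : I → Subgroup J} {k l j : I} (kj : F.D k j) (kl : F.D k l) (jl : F.D j l)
    {g : J} (hg : g ∈ X k l) (h : ∀ y ∈ Y j, Commute g y) : Cj g (RX F X Y j) (RX F X Y j) :=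
  Cj.closure (by
    rintro y (hy | ⟨r, hr, hy⟩)
    exacts [Y_RS (Cj.of_commute h y hy), H.cj_X kj kl jl hr hg y hy])

theorem exists_cst [Finite I] {Y : I → Subgroup J} (imgY : ∀ {k g}, g ∈ Y k → π g ∈ F.std.RR k ∅)
    (injY : ∀ {k g}, g ∈ Y k → π g = 1 → g = 1)
    (surjY : ∀ {k u α}, F.V0 u → O.Λ u α → ∃ g ∈ Y k, π g = O.T (F.e k) u α)
    (L1 : ∀ {k j g g'}, F.D k j → g ∈ X k j → g' ∈ X k (F.n j) → ⁅g, g'⁆ ∈ Y k)
    (L2 : ∀ {k j g y}, F.D k j → g ∈ X k j → y ∈ Y k → Commute g y)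
    (L3 : ∀ {k l j g y}, F.D k l → F.D j k → F.D j l → g ∈ X k l → y ∈ Y j → Commute g y)
    (L4 : ∀ {k j g}, F.D k j → g ∈ Y k → Cj g (X j k) (RX F X Y j) ∧ Cj g (Y j) (RX F X Y j)) :
    ∃ S : CSt F π, ∀ k, S.R k = RX F X Y k := by
  refine ⟨CSt.ofRoots X Y (fun k => ⟨fun {j g} h hg => (H.img h hg).imp fun s e =>
    ⟨e, fun e' => H.inj h hg (by rw [e, e', h.xT_zero])⟩, H.surj, imgY, injY, surjY,
    fun {j l g g'} kj kl hg hg' => ?_, fun h hg hy => by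
      rwa [(L2 h hg hy).eq, mul_inv_cancel_right]⟩) H.swap ?_, fun _ => rfl⟩
  · rcases cases3 (F := F) j l with rfl | rfl | h
    · rw [commutatorElement_eq_one_iff_commute.mpr (H.c0 kj hg hg')]; exact one_mem _
    · exact L1 kj hg hg'
    · rw [commutatorElement_eq_one_iff_commute.mpr (H.c2 kj kl h hg hg')]; exact one_mem _
  rintro k j kj g (hg | ⟨l, kl, jl, hg⟩) y hy
  · rcases hy with hy | ⟨r, jr, hy⟩
    · exact (L4 kj hg).2 y hy
    rcases cases3 (F := F) k r with rfl | rfl | h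
    · exact (L4 kj hg).1 y hy
    · rw [← (L2 kj.nr (H.sw kj.symm hy) hg).eq, mul_inv_cancel_right]; exact X_RS jr hy
    · rw [← (L3 jr kj h hy hg).eq, mul_inv_cancel_right]; exact X_RS jr hy
  · refine H.cj_R kj kl jl hg (fun y hy => L3 kl kj.symm jl hg hy) y ?_
    exact hy.elim Y_RS fun ⟨r, hr, hy⟩ => X_RS hr hy

end XS

end Cfsg.Agent.H6
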