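import Cfsg.Agent.H6.PT
import Cfsg.Agent.H6.PY

/-! The Levi subgroup of type `A` of a classical group and families of conjugates. -/

set_option autoImplicit false

open Subgroup Matrix
open scoped commutatorElement

namespace Cfsg.Agent.H6

open OF Frame

variable {K V I ι J : Type*} [Field K] [AddCommGroup V] [Module K V] [Group J] {O : OF K V}
  [Fintype ι] [DecidableEq ι] {F : Frame O I} {p : ι → I}

/-- A polarisation of a frame. -/
structure Pol (F : Frame O I) (p : ι → I) : Prop where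
  D : ∀ {i j}, i ≠ j → F.D (p i) (p j)
  cov : ∀ k, ∃ i, k = p i ∨ k = F.n (p i)
  eps : ∀ i j, F.ε (p i) = F.ε (p j)

/-- The Levi subgroup of a polarisation. -/
structure Lev (F : Frame O I) (p : ι → I) (ψ : SpecialLinearGroup ι K →* O.U) : Prop
    extends Pol F p where
  x : ∀ {i j}, i ≠ j → ∀ t, ψ (slX K i j t) = F.xT (p i) (p j) t

theorem Pol.exists_lev [Finite K] (P : Pol F p) (hN : F.ND) : ∃ ψ, Lev F p ψ := by
  obtain ⟨ψ, h⟩ := IsSt.exists_hom (x := fun i j => F.xT (p i) (p j))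
    ⟨⟨fun h => (P.D h).xT_add, fun {i j k l} h1 h2 h3 h4 t u => (P.D h2).commute_xT u
      (by
        by_cases e : i = k
        · exact e ▸ (P.D h1).xT_ne t (P.D h1).1.symm (F.n_ne _).symm
        · exact (P.D h1).xT_ne t (P.D h4).1 (P.D e).2)
      (by
        by_cases e : j = l
        · exact e ▸ (P.D h1).xT_ne t (F.n_ne _) (P.D h1).nr.nl.1
        · exact (P.D h1).xT_ne t (P.D e).nr.1 (P.D h3).nr.2),
      fun h1 h2 h3 t u => (P.D h1).comm_xT (P.D h2) (P.D h3) t u⟩, fun {i j} h => by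
      simpa only [← funext (std_x (P.D h)), ← funext (std_x (P.D h.symm))] using
        CSt.isR1 (S := F.std) hN (P.D h)⟩
  exact ⟨ψ, P, h _ _⟩

theorem Pol.exists_cl (P : Pol F p) : ∃ cl : I → ι, (∀ k, k = p (cl k) ∨ k = F.n (p (cl k))) ∧
    ∀ {i j}, F.D i j → cl i ≠ cl j := by
  choose cl h using P.cov
  refine ⟨cl, h, fun {i j} hd e => ?_⟩
  rcases h i with h1 | h1 <;> rcases h j with h2 | h2 <;> rw [e] at h1
  exacts [hd.1 (h2.trans h1.symm), hd.2 (h1 ▸ h2), hd.symm.2 (h2 ▸ h1), hd.1 (h2.trans h1.symm)]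

namespace Lev

variable {ψ : SpecialLinearGroup ι K →* O.U} (L : Lev F p ψ)
include L

omit L in
theorem induction {H : Subgroup (SpecialLinearGroup ι K)} (h : ∀ i j, i ≠ j → ∀ t, slX K i j t ∈ H)
    (g : SpecialLinearGroup ι K) : g ∈ H :=
  stGG_le (fun i _ j _ => h i j) (stGG_slX_univ.ge (mem_top g))

theorem mem_E (g : SpecialLinearGroup ι K) : ψ g ∈ F.E :=
  induction (H := F.E.comap ψ) (fun i j h t => by rw [mem_comap, L.x h]; exact (L.D h).xT_mem t) g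

theorem V0 (g : SpecialLinearGroup ι K) {u : V} (hu : F.V0 u) : ψ g • u = u :=
  induction (H := (MulAction.stabilizer O.U u).comap ψ) (fun i j h t => by
    rw [mem_comap, L.x h]; exact hu.xT (L.D h) t) g

omit L in
theorem U_sum (g : O.U) (f : ι → V) : g • ∑ i, f i = ∑ i, g • f i := map_sum g.1 f _

theorem vec (g : SpecialLinearGroup ι K) : (∀ v : ι → K,
    ψ g • ∑ i, v i • F.e (p i) = ∑ i, (slM g *ᵥ v) i • F.e (p i)) ∧ ∀ v : ι → K,
    ψ g • ∑ i, O.σ ((v ᵥ* slM g) i) • F.e (F.n (p i)) = ∑ i, O.σ (v i) • F.e (F.n (p i)) := by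
  have hg : g ∈ stGG (slX K) Set.univ Set.univ := stGG_slX_univ.ge (mem_top g)
  refine isSt0_slX.induction (p := fun g => (∀ v : ι → K,
    ψ g • ∑ i, v i • F.e (p i) = ∑ i, (slM g *ᵥ v) i • F.e (p i)) ∧ ∀ v : ι → K,
    ψ g • ∑ i, O.σ ((v ᵥ* slM g) i) • F.e (F.n (p i)) = ∑ i, O.σ (v i) • F.e (F.n (p i)))
    (by simp) ?_ hg
  rintro i - j - h t g - ⟨h1, h2⟩
  refine ⟨fun v => ?_, fun v => ?_⟩
  · have : ∀ k, F.xT (p i) (p j) t • F.e (p k) = F.e (p k) + (if k = j then t else 0) • F.e (p i) :=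
      fun k => by
        split_ifs with e
        · rw [e, (L.D h).xT_self]
        · rw [zero_smul, add_zero, (L.D h).xT_ne t (L.D (Ne.symm e)).1]
          by_cases e' : k = i
          exacts [e' ▸ (F.n_ne _).symm, (L.D (Ne.symm e')).2]
    rw [map_mul, mul_smul, h1, map_mul, ← mulVec_mulVec, slM_x _ _ h, transvection_mulVec', L.x h]
    simp [U_sum, this, add_smul, Finset.sum_add_distrib, Pi.single_apply, smul_smul, mul_comm]
  · have : ∀ k, F.xT (p i) (p j) t • F.e (F.n (p k)) = F.e (F.n (p k)) +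
        (if k = i then -O.σ t else 0) • F.e (F.n (p j)) := fun k => by
      split_ifs with e
      · rw [e, (L.D h).xT_n, L.eps i j, mul_div_cancel_left₀ _ (F.ε_ne _)]
      · rw [zero_smul, add_zero, (L.D h).xT_ne t _ (L.D (Ne.symm e)).nl.nr.1]
        by_cases e' : k = j
        exacts [e' ▸ F.n_ne _, (L.D (Ne.symm e')).nr.1]
    rw [map_mul, mul_smul, map_mul, ← vecMul_vecMul, h2, slM_x _ _ h, vecMul_transvection', L.x h]
    simp [U_sum, this, add_smul, Finset.sum_add_distrib, Pi.single_apply, smul_smul, mul_comm,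
      apply_ite O.σ, h.symm]

variable {g : SpecialLinearGroup ι K} {a i : ι} {t : K}

theorem tp (h : Tp g a i t) : ψ g • F.e (p a) = t • F.e (p i) := by
  have := (L.vec g).1 (Pi.single a 1)
  rw [h.col] at this
  simpa [Pi.single_apply] using this

theorem tp' (h : Tp g a i t) : ψ g • F.e (F.n (p a)) = (O.σ t)⁻¹ • F.e (F.n (p i)) := by
  have := (L.vec g).2 (Pi.single i 1)
  rw [h.row] at this
  simpa [Pi.single_apply, apply_ite O.σ, eq_inv_smul_iff₀ (O.σ_ne h.ne)] using this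

theorem tp1 (h : Tp g a i 1) : ψ g • F.e (p a) = F.e (p i) := by simpa using L.tp h

theorem tp1' (h : Tp g a i 1) : ψ g • F.e (F.n (p a)) = F.e (F.n (p i)) := by simpa using L.tp' h

theorem W (h : Tp g a i t) {v : V} (hv : F.W (p i) v) : F.W (p a) ((ψ g)⁻¹ • v) :=
  ⟨by simp [← B_U_right, L.tp h, hv.1], by simp [← B_U_right, L.tp' h, hv.2]⟩

end Lev

theorem exists_fam1 [Finite K] (φ : SpecialLinearGroup ι K →* J) {s : J} {a : ι}
    (h : ∀ g, Tp g a a 1 → Commute (φ g) s) : ∃ f : ι → K → J, (∀ i, f i 0 = 1) ∧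
      ∀ {g i t}, Tp g a i t → f i t = φ g * s * (φ g)⁻¹ := by
  classical
  refine ⟨fun i t => if h : ∃ g, Tp g a i t then φ h.choose * s * (φ h.choose)⁻¹ else 1,
    fun i => dif_neg fun ⟨_, h⟩ => h.ne rfl, fun {g i t} hg => ?_⟩
  have e : ∃ g, Tp g a i t := ⟨g, hg⟩
  have := (h _ (hg.div e.choose_spec)).eq
  rw [map_mul, map_inv] at this
  simp only [dif_pos e]
  calc _ = φ g * ((φ g)⁻¹ * φ e.choose * s) * (φ e.choose)⁻¹ := by group
    _ = _ := by rw [this]; group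

theorem exists_fam2 [Finite K] (φ : SpecialLinearGroup ι K →* J) {s : J} {a b : ι}
    (h : ∀ g, Tp g a a 1 → Tp g b b 1 → Commute (φ g) s) : ∃ f : ι → ι → J,
      ∀ {g i j}, Tp g a i 1 → Tp g b j 1 → f i j = φ g * s * (φ g)⁻¹ := by
  classical
  refine ⟨fun i j => if h : ∃ g, Tp g a i 1 ∧ Tp g b j 1 then φ h.choose * s * (φ h.choose)⁻¹ else 1,
    fun {g i j} hg hg' => ?_⟩
  have e : ∃ g, Tp g a i (1 : K) ∧ Tp g b j 1 := ⟨g, hg, hg'⟩
  have := (h _ (hg.div e.choose_spec.1) (hg'.div e.choose_spec.2)).eq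
  rw [map_mul, map_inv] at this
  simp only [dif_pos e]
  calc _ = φ g * ((φ g)⁻¹ * φ e.choose * s) * (φ e.choose)⁻¹ := by group
    _ = _ := by rw [this]; group

variable (F) in
/-- Elements preserving every hyperbolic pair of the frame. -/
def Cls : Subgroup O.U where
  carrier := {g | ∀ k, Mv F g k k ∨ Mv F g k (F.n k)}
  one_mem' k := Or.inl (Mv.one k)
  mul_mem' h h' k := (h' k).elim (fun e => (h k).imp (·.mul e) (·.mul e)) fun e =>
    (h (F.n k)).symm.imp (fun e' => by simpa only [F.nn] using e'.mul e) (·.mul e)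
  inv_mem' h k := (h k).imp (·.inv) fun e => (F.nn k ▸ e.n' (mem_Mn_of_class h)).inv

omit [Fintype ι] [DecidableEq ι] in
theorem move_pos {π : J →* O.U} {E : Subgroup J} (hE : ∀ e ∈ E, π e ∈ Cls F) {cl : I → ι}
    (h1 : ∀ k, k = p (cl k) ∨ k = F.n (p (cl k))) (l : List I) (hl : (l.map cl).Nodup)
    (h : ∀ i ∈ l, ∃ e ∈ E, Mv F (π e) (F.n (p (cl i))) (p (cl i)) ∧
      ∀ k ∈ l, cl k ≠ cl i → Mv F (π e) (p (cl k)) (p (cl k))) :
    ∃ e ∈ E, ∀ k ∈ l, Mv F (π e) k (p (cl k)) := by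
  induction l with
  | nil => exact ⟨1, one_mem _, by simp⟩
  | cons k l ih =>
    rw [List.map_cons, List.nodup_cons] at hl
    obtain ⟨e, he, h2⟩ := ih hl.2 fun i hi => (h i (by simp [hi])).imp fun _ h =>
      ⟨h.1, h.2.1, fun k hk => h.2.2 k (by simp [hk])⟩
    have h3 : Mv F (π e) k (p (cl k)) ∨ Mv F (π e) k (F.n (p (cl k))) := by
      have := hE e he k
      have h4 := h1 k
      generalize cl k = c at h4 ⊢
      rcases h4 with rfl | rfl
      exacts [this, by simpa only [F.nn] using this.symm]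
    rcases h3 with h3 | h3
    · exact ⟨e, he, by simpa using ⟨h3, h2⟩⟩
    obtain ⟨e', he', h4, h5⟩ := h k (by simp)
    refine ⟨_, mul_mem he' he, fun i hi => map_mul π e' e ▸ ?_⟩
    rcases List.mem_cons.mp hi with rfl | hi'
    · exact h4.mul h3
    · exact (h5 i hi fun e => hl.1 (List.mem_map.mpr ⟨i, hi', e⟩)).mul (h2 i hi')

theorem CSt.Mon.central {π : J →* O.U} {S : CSt F π} {g : J} (h : S.Mon g 1) (e : π g = 1) {y : J}
    (hy : y ∈ S.L Set.univ) : Commute g y := by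
  refine ((closure_le (centralizer {g})).mpr ?_ hy g rfl)
  rintro y ⟨k, -, hy⟩ _ rfl
  exact mul_inv_eq_iff_eq_mul.mp (S.ext (h.conj k y hy.1) hy.1 (by simp [e]))

namespace Flip

omit [Fintype ι] [DecidableEq ι]

variable {π : J →* O.U} {x : ι → ι → K → J} {E : Subgroup J} (H : Flip F π p x E)
  {Y : I → Subgroup J}
include H

theorem cj_RX {e : J} (he : e ∈ E) {k k' : I} (h : Mv F (π e) k k') (hY : Cj e (Y k) (Y k')) :
    Cj e (RX F H.X Y k) (RX F H.X Y k') := Cj.closure (by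
  rintro y (hy | ⟨r, hr, hy⟩)
  · exact Y_RS (hY y hy)
  · obtain ⟨r', h'⟩ := (H.mn he).1 r
    exact X_RS (h.D (H.mn he) h' hr) (H.cj he h h' y hy))

theorem cj_Zs {e : J} (he : e ∈ E) {k k' : I} (h : Mv F (π e) k k') :
    Cj e (Zs F H.X k) (Zs F H.X k') := Cj.closure (by
  rintro _ ⟨j, g, g', hd, hg, hg', rfl⟩
  obtain ⟨j', h'⟩ := (H.mn he).1 j
  rw [conjugate_commutatorElement]
  exact H.xs.comm_mem_Zs (h.D (H.mn he) h' hd) (H.cj he h h' _ hg) (H.cj he h (h'.n' (H.mn he)) _ hg'))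

theorem X_le {M : Subgroup J} (h1 : ∀ i j, i ≠ j → ∀ t, x i j t ∈ M) (h2 : E ≤ M) {i j : I}
    (h : F.D i j) : H.X i j ≤ M := fun y hy => by
  obtain ⟨e, he, a, b, e1, e2⟩ := H.T2 h
  have hab := ne (e1.D (H.mn he) e2 h)
  obtain ⟨s, rfl⟩ := (H.mem_iff he hab e1 e2).mp hy
  exact mul_mem (mul_mem (inv_mem (h2 he)) (h1 _ _ hab _)) (h2 he)

variable {S : CSt F π} (hS : ∀ k, S.R k = RX F H.X Y k)
include hS

theorem x_mem_L {i j : ι} (h : i ≠ j) (t : K) : x i j t ∈ S.L Set.univ :=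
  CSt.mem_Lu ((hS (p i)).ge (X_RS (H.D h) ((H.mem_X h).mpr ⟨t, rfl⟩)))

theorem cj_L (hY : ∀ e ∈ E, ∀ k k', Mv F (π e) k k' → Cj e (Y k) (Y k')) {e : J} (he : e ∈ E) :
    Cj e (S.L Set.univ) (S.L Set.univ) := Cj.closure (by
  rintro y ⟨k, -, hy⟩
  obtain ⟨k', h⟩ := (H.mn he).1 k
  exact CSt.mem_Lu (hS k' ▸ H.cj_RX he h (hY e he _ _ h) y (hS k ▸ hy.1)))

theorem L_le {M : Subgroup J} (h1 : ∀ i j, i ≠ j → ∀ t, x i j t ∈ M) (h2 : E ≤ M)
    (h3 : ∀ k, Y k ≤ M) : S.L Set.univ ≤ M :=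
  (closure_le _).mpr fun _ ⟨k, _, hy⟩ => RS_le (h3 k) (fun _ => H.X_le h1 h2) (hS k ▸ hy.1)

end Flip

end Cfsg.Agent.H6
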