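import Cfsg.Agent.H6.PC3

/-! Presentations of classical groups of rank two: preliminaries. -/

set_option autoImplicit false

open Subgroup Matrix
open scoped commutatorElement

namespace Cfsg.Agent.H6

open OF Frame Polynomial

section Pure

variable {K J : Type*} [Field K] [Group J]

/-- An element lies in the additive span of two orbits. -/
def Sp2 (μ u v t : K) : Prop := ∀ P : K → Prop, P 0 → P u → P v →
  (∀ s t, P s → P t → P (s + t)) → (∀ t, P t → P (μ * t)) → P t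

theorem sp2_of [Finite K] {μ u v t : K}
    (h : ∀ A : AddSubgroup K, u ∈ A → v ∈ A → (∀ t ∈ A, μ * t ∈ A) → t ∈ A) : Sp2 μ u v t :=
  fun P h0 hu hv ha hm => h ⟨⟨⟨{t | P t}, fun {a b} => ha a b⟩, h0⟩, fun {s} hs => by
    have : ∀ n : ℕ, P (n • s) := fun n => by
      induction n with
      | zero => simpa
      | succ n ih => rw [succ_nsmul]; exact ha _ _ ih hs
    rw [neg_eq_of_add_eq_zero_left (show (addOrderOf s - 1) • s + s = 0 by
      rw [← succ_nsmul, Nat.sub_add_cancel (addOrderOf_pos s), addOrderOf_nsmul_eq_zero])]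
    exact this _⟩ hu hv hm

theorem sp2_of_surj [Finite K] {μ : K} (h : Function.Surjective (aeval μ : ℤ[X] → K)) {c : K}
    (hc : c ≠ 0) (v t : K) : Sp2 μ c v t := sp2_of fun A h1 _ h2 => by
  simpa [mul_div_cancel₀ _ hc] using span_induction_of_surj h (A.comap (AddMonoidHom.mulLeft c))
    (by simpa) (fun t ht => by simpa [mul_left_comm] using h2 _ ht) (t / c)

theorem comm_add {x : K → J} (hx : AddF x) {y : J} {s t : K} (h : Commute ⁅x t, y⁆ (x s)) :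
    ⁅x (s + t), y⁆ = ⁅x t, y⁆ * ⁅x s, y⁆ := by
  rw [hx, commutatorElement_mul_left_eq_conj_mul, ← h.eq, mul_inv_cancel_right]

theorem Scales.comm {x x' : K → J} {g : J} {c c' : K} (h : Scales g x c) (h' : Scales g x' c')
    (s t : K) : g * ⁅x s, x' t⁆ * g⁻¹ = ⁅x (c * s), x' (c' * t)⁆ := by
  rw [conjugate_commutatorElement, h, h']

theorem Scales.cj {x : K → J} {g : J} {c : K} (h : Scales g x c) {M : Subgroup J}
    (hM : ∀ t, x t ∈ M) : Cj g (Set.range x) M := by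
  rintro _ ⟨t, rfl⟩; exact h t ▸ hM _

theorem Scales.cj_cen {x x' : K → J} {g : J} {c c' : K} (h : Scales g x c) (h' : Scales g x' c')
    (hc : c ≠ 0) (hc' : c' ≠ 0) :
    Cj g (centralizer (Set.range x ∪ Set.range x')) (centralizer (Set.range x ∪ Set.range x')) := by
  rintro y hy _ (⟨t, rfl⟩ | ⟨t, rfl⟩)
  · simpa [← h.inv hc t, mul_assoc] using congrArg (MulAut.conj g) (hy _ (Or.inl ⟨c⁻¹ * t, rfl⟩))
  · simpa [← h'.inv hc' t, mul_assoc] using congrArg (MulAut.conj g) (hy _ (Or.inr ⟨c'⁻¹ * t, rfl⟩))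

theorem zpart [Finite K] {x x' : K → J} (hx : AddF x) (hx' : AddF x') {ζ ρ N μ κ θ₀ θ₁ : K}
    (h0 : ζ ≠ 0) (hζ : ∀ t : K, t ≠ 0 → ∃ n : ℕ, ζ ^ n = t) (hρ : ρ ≠ 0) (hμ : μ ≠ 0) {h h' τ : J}
    (a3 : Scales h' x ρ) (a4 : Scales h' x' (ζ ^ 2)) (a5 : Scales τ x μ) (a6 : Scales τ x' 1)
    (a7 : Scales (h * h'⁻¹) x N) (c1 : Commute τ h') (hN : ∀ t, Sp2 N 1 ζ t)
    (hθ : ∀ t, Sp2 μ κ θ₀ t) {z : J} (hz : z = ⁅x θ₀, x' 1⁆) (r8 : Commute (h'⁻¹ * h) z)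
    (r8' : Commute (h * h'⁻¹) z) (r9 : Commute z (x 1)) (r10 : Commute z (x ζ))
    (r11 : ∀ t, Commute z (x t) → Commute z (x' t)) (r12 : Commute (x κ) (x' 1))
    (r13 : h * z * h⁻¹ = ⁅x θ₁, x' 1⁆) :
    (∀ s t, ⁅x s, x' t⁆ ∈ centralizer (Set.range x ∪ Set.range x')) ∧
      (AddF fun u => ⁅x u, x' 1⁆) ∧ ∀ s t, ∃ u, ⁅x u, x' 1⁆ = ⁅x s, x' t⁆ := by
  set C := centralizer (Set.range x ∪ Set.range x')
  have zx : ∀ t, Commute z (x t) := fun t => hN t (fun t => Commute z (x t))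
    (by simp [add_fam_zero hx]) r9 r10 (fun s t a b => hx s t ▸ a.mul_right b)
    fun t e => a7 t ▸ (r8'.symm.mul_right e).mul_right r8'.symm.inv_right
  have zC : z ∈ C := by
    rintro _ (⟨t, rfl⟩ | ⟨t, rfl⟩)
    exacts [(zx t).symm, (r11 t (zx t)).symm]
  have key : ∀ M : Subgroup J, M ≤ C → Cj h' M M → (∀ s, ⁅x s, x' 1⁆ ∈ M) →
      ∀ t s, ⁅x s, x' t⁆ ∈ M := fun M h1 h2 h3 t =>
    sp2_of_surj (aeval_sq_surj_of_gen hζ) one_ne_zero 1 t (fun t => ∀ s, ⁅x s, x' t⁆ ∈ M)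
      (fun s => by simp [add_fam_zero hx']) h3 h3 (fun u v e e' s => by
        have m : ∀ {t}, ⁅x s, x' t⁆ ∈ M → ⁅x' t, x s⁆ ∈ M := fun e => by simpa using inv_mem e
        rw [← commutatorElement_inv, comm_add hx' (h1 (m (e' s)) _ (Or.inr ⟨u, rfl⟩)).symm]
        exact inv_mem (mul_mem (m (e' s)) (m (e s))))
      fun t e s => by simpa [a3.comm a4, hρ] using h2 _ (e (ρ⁻¹ * s))
  have r12' := commutatorElement_eq_one_iff_commute.mpr r12
  have k1 := key C le_rfl (a3.cj_cen a4 hρ (by simpa)) fun s => hθ s (fun s => ⁅x s, x' 1⁆ ∈ C)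
    (by simp [add_fam_zero hx]) (r12' ▸ one_mem _) (hz ▸ zC) (fun u v e e' => by
      rw [comm_add hx (e' _ (Or.inl ⟨u, rfl⟩)).symm]; exact mul_mem e' e)
    fun t e => by simpa [a5.comm a6] using a5.cj_cen a6 hμ one_ne_zero _ e
  have hA : AddF fun u => ⁅x u, x' 1⁆ := fun u v => by
    simp only [add_comm u, comm_add hx (k1 _ _ _ (Or.inl ⟨v, rfl⟩)).symm]
  refine ⟨fun s t => k1 t s, hA, fun s t => key (fr hA) (by rintro _ ⟨u, rfl⟩; exact k1 _ _) ?_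
    (fun s => ⟨s, rfl⟩) t s⟩
  rintro _ ⟨s, rfl⟩
  refine hθ s (fun s => h' * ⁅x s, x' 1⁆ * h'⁻¹ ∈ fr hA) (by simp [add_fam_zero hx])
    (by simp [r12']) ⟨θ₁, ?_⟩ (fun u v e e' => ?_) fun t ⟨u, e⟩ => ⟨μ * u, ?_⟩
  · rw [← hz]
    calc _ = h' * (h'⁻¹ * h * z) * h⁻¹ := by simp only [← r13]; group
      _ = _ := by rw [r8.eq]; group
  · have := hA u v
    simp only at this
    rw [this, ← conj_mul]; exact mul_mem e e'
  · have e1 := fun t => a5.comm a6 t 1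
    simp only [mul_one] at e e1 ⊢
    rw [← e1, ← e1, e]
    calc _ = τ * h' * ⁅x t, x' 1⁆ * (τ * h')⁻¹ := by group
      _ = _ := by rw [c1.eq]; group

end Pure

variable {K V I ι J : Type*} [Field K] [AddCommGroup V] [Module K V] [Group J] {O : OF K V}
  {F : Frame O I} {p : ι → I} [Fintype ι] [DecidableEq ι]

theorem Tp.ext2 [Finite K] {a b i : ι} (hab : a ≠ b) (hι : ∀ i, i = a ∨ i = b)
    {g g' : SpecialLinearGroup ι K} {t : K} (h : Tp g a i t) (h' : Tp g' a i t) : g = g' :=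
  inv_mul_eq_one.mp (mem_bot.mp (stGG_le (fun i hi j hj ij _ => absurd
    (((hι i).resolve_left hi).trans ((hι j).resolve_left hj).symm) ij) ((h.div h').mem1 hab.symm)))

theorem cst_two [Finite K] [Finite I] {ψ : SpecialLinearGroup ι K →* O.U} (L : Lev F p ψ) {a b : ι}
    (hab : a ≠ b) (hι : ∀ i, i = a ∨ i = b) (φ : SpecialLinearGroup ι K →* J) (π : J →* O.U)
    (hφ : ∀ g, π (φ g) = ψ g) {s sb : J} {κ κ' : K} (hs : Sfl F (π s) (p a) κ κ')
    {w : SpecialLinearGroup ι K} (w1 : Tp w a b 1) (w2 : Tp w b a (-1))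
    (hsb : φ w * s * (φ w)⁻¹ = sb) (r5 : φ w * sb * (φ w)⁻¹ = s) (r1 : Commute s sb)
    (r2 : Scales (s ^ 2) (fun t => φ (slX K a b t)) (-1))
    (r4 : ∀ t, s * sb * φ (slX K a b t) * (s * sb)⁻¹ = φ (slX K b a (-O.σ t))) {Y : Subgroup J}
    (n0 : φ w * φ w ∈ normalizer (Y : Set J)) (n1 : sb ∈ normalizer (Y : Set J))
    (n2 : s ^ 2 ∈ normalizer (Y : Set J))
    (img : ∀ g ∈ Y, ∃ u α, F.V0 u ∧ O.Λ u α ∧ π g = O.T (F.e (p a)) u α)
    (inj : ∀ g ∈ Y, π g = 1 → g = 1)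
    (surj : ∀ u α, F.V0 u → O.Λ u α → ∃ g ∈ Y, π g = O.T (F.e (p a)) u α)
    (L1 : ∀ t u, ⁅φ (slX K a b t), sb * φ (slX K a b u) * sb⁻¹⁆ ∈ Y)
    (L2 : ∀ t, ∀ y ∈ Y, Commute (φ (slX K a b t)) y) {R : Subgroup J}
    (hR : R ≤ closure (Set.range (fun t => φ (slX K a b t)) ∪
      Set.range (fun t => sb * φ (slX K a b t) * sb⁻¹) ∪ Y))
    (L4 : ∀ g ∈ Y, Cj (φ w * g * (φ w)⁻¹) (Set.range fun t => φ (slX K a b t)) R ∧
      Cj (φ w * g * (φ w)⁻¹) Y R) :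
    ∃ S : CSt F π, (∀ g, φ g ∈ S.L Set.univ) ∧ Y ≤ S.L Set.univ ∧
      s ∈ normalizer (S.L Set.univ : Set J) ∧ ∀ M : Subgroup J, (∀ g, φ g ∈ M) → Y ≤ M →
      s ∈ normalizer (M : Set J) → S.L Set.univ ≤ M := by
  let x : ι → ι → K → J := fun i j t => φ (slX K i j t)
  let f : ι → J := fun i => if i = a then s else sb
  let Y' : ι → Subgroup J := fun i => if i = a then Y else Y.map (MulAut.conj (φ w)).toMonoidHom
  have fa : f a = s := if_pos rfl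
  have fb : f b = sb := if_neg hab.symm
  have Ya : Y' a = Y := if_pos rfl
  have tr : ∀ {i j}, i ≠ j → ∃ (g : SpecialLinearGroup ι K) (c : K) (θ : J ≃* J),
      (∀ y, θ y = φ g * y * (φ g)⁻¹) ∧ Tp g a i 1 ∧ (∀ t, x i j t = θ (x a b (c * t))) ∧
      (∀ t, x j i (-O.σ t) = θ (x b a (-O.σ (c * t)))) ∧ f i = θ s ∧ f j = θ sb ∧
      (∀ y, y ∈ Y' i ↔ ∃ z ∈ Y, θ z = y) ∧
      (∀ y ∈ Y' j, ∃ z ∈ Y, θ (φ w * z * (φ w)⁻¹) = y) ∧ c * c = 1 := fun {i j} h => by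
    rcases hι i with rfl | rfl <;> rcases hι j with rfl | rfl
    · exact absurd rfl h
    · exact ⟨1, 1, MulEquiv.refl _, by simp, Tp.one _, by simp, by simp, fa, fb, by simp [Ya],
        by simp [Y', h.symm], one_mul _⟩
    · refine ⟨w, -1, MulAut.conj (φ w), fun _ => rfl, w1, fun t => ?_, fun t => ?_, fb.trans hsb.symm,
        fa.trans r5.symm, by simp [Y', h], fun y hy => ⟨_, cj_of_mem_normalizer (inv_mem n0) y
          (Ya ▸ hy), by simp [mul_assoc]⟩, by simp⟩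
      · simpa [x] using congrArg φ (w1.conj w2 hab h (-1 * t)).symm
      · simpa [x] using congrArg φ (w2.conj w1 h hab (-O.σ (-1 * t))).symm
    · exact absurd rfl h
  have ex : ∀ i, ∃ j, i ≠ j := fun i => (hι i).elim (fun h => ⟨b, h ▸ hab⟩) fun h => ⟨a, h ▸ hab.symm⟩
  have no : ∀ {i j k}, i ≠ j → k ≠ i → k ≠ j → False := fun {i j k} => by
    rcases hι i with rfl | rfl <;> rcases hι j with rfl | rfl <;> rcases hι k with rfl | rfl <;> simp
  have fπ : ∀ i, Sfl F (π (f i)) (p i) κ κ' := fun i => by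
    obtain ⟨j, h⟩ := ex i
    obtain ⟨g, c, θ, e0, e1, -, -, e2, -⟩ := tr h
    simpa [e2, e0, hφ] using hs.conj L e1
  have ff : ∀ i j, Commute (f i) (f j) := fun i j => by
    by_cases h : i = j
    · rw [h]
    obtain ⟨g, c, θ, -, -, -, -, e2, e3, -⟩ := tr h
    exact e2 ▸ e3 ▸ r1.map θ
  have S0 : IsSt0 x := (isSt_slX.map φ).toIsSt0
  have H := flip_single L.toPol S0 (fun h t => by rw [hφ, L.x h]) fπ ff
    (fun h h1 h2 => (no h h1 h2).elim) (fun h t => by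
      obtain ⟨g, c, θ, -, -, e1, e4, e2, e3, -⟩ := tr h
      simp only [e1 t, e4, e2, e3, ← map_mul, ← map_inv, x, r4]) fun h t => by
      obtain ⟨g, c, θ, -, -, e1, -, e2, -⟩ := tr h
      simpa only [e1, e2, mul_left_comm c, map_mul, map_inv, map_pow] using congrArg θ (r2 (c * t))
  set E := closure (Set.range f)
  have mE : ∀ i, f i ∈ E := fun i => subset_closure ⟨i, rfl⟩
  have cT : ∀ {g i u α}, Tp g a i 1 → F.V0 u → O.Λ u α →
      ψ g * O.T (F.e (p a)) u α * (ψ g)⁻¹ = O.T (F.e (p i)) u α := fun e hu hα => by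
    simpa [L.V0 _ hu] using (hu.ok hα _).conj_T' one_ne_zero (L.tp e)
  obtain ⟨S, m1, m2, m3, m4⟩ := H.exists_cst_pos (Y := Y') (fun i e he h => by
      obtain ⟨j, ij⟩ := ex i
      obtain ⟨g, c, θ, -, -, -, -, e2, e3, e4, -⟩ := tr ij
      have key : ∀ {n}, n ∈ normalizer (Y : Set J) → θ n ∈ normalizer (Y' i : Set J) := by
        have : ∀ {n}, n ∈ normalizer (Y : Set J) → Cj (θ n) (Y' i) (Y' i) := fun hn y hy => by
          obtain ⟨z, hz, rfl⟩ := (e4 y).mp hy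
          exact (e4 _).mpr ⟨_, cj_of_mem_normalizer hn z hz, by simp⟩
        exact fun {n} hn => mem_normalizer_of_cj (this hn) (map_inv θ _ ▸ this (inv_mem hn))
      refine cj_of_mem_normalizer (mem_of_fix1 (H := normalizer (Y' i : Set J) ⊓
        (FixL F (p i)).comap π) (comm_closure (by
        rintro _ ⟨i, rfl⟩ _ ⟨j, rfl⟩; exact ff i j)) (mE i) (fun _ h => h.2) ⟨_, (fπ i).a⟩
        ⟨by simpa [e2] using key n2, κ * κ', by
          rw [sq, map_mul, mul_smul, (fπ i).a, U_smul, (fπ i).na, smul_smul]⟩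
        ((closure_le _).mpr ?_) he h).1
      rintro _ ⟨k, rfl⟩
      by_cases ki : k = i
      · exact mem_sup_right (ki ▸ mem_zpowers _)
      obtain rfl : k = j := by_contra (no ij ki)
      exact mem_sup_left ⟨⟨e3 ▸ key n1, Mv.of_fix ((fπ k).e (L.D ki))⟩, mE k⟩)
    (fun k => by
      obtain ⟨i, rfl | rfl⟩ := L.cov k <;> obtain ⟨j, h⟩ := ex i
      exacts [⟨_, L.D h⟩, ⟨_, (L.D h).nl⟩])
    (fun {i y} hy => by
      obtain ⟨j, ij⟩ := ex i
      obtain ⟨g, c, θ, e0, e1, -, -, -, -, e4, -⟩ := tr ij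
      obtain ⟨z, hz, rfl⟩ := (e4 y).mp hy
      obtain ⟨u, α, h1, h2, h3⟩ := img z hz
      rw [e0, map_mul, map_mul, map_inv, hφ, h3, cT e1 h1 h2]
      exact T_mem_Y' h1 h2)
    (fun {i y} hy e => by
      obtain ⟨j, ij⟩ := ex i
      obtain ⟨g, c, θ, e0, -, -, -, -, -, e4, -⟩ := tr ij
      obtain ⟨z, hz, rfl⟩ := (e4 y).mp hy
      rw [inj z hz (by simpa [e0] using e), map_one])
    (fun {i u α} h1 h2 => by
      obtain ⟨j, ij⟩ := ex i
      obtain ⟨g, c, θ, e0, e1, -, -, -, -, e4, -⟩ := tr ij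
      obtain ⟨z, hz, h3⟩ := surj u α h1 h2
      exact ⟨_, (e4 _).mpr ⟨z, hz, rfl⟩, by
        rw [e0, map_mul, map_mul, map_inv, hφ, h3, cT e1 h1 h2]⟩)
    (fun {i j y y'} h hy hy' => by
      obtain ⟨t, rfl⟩ := (H.mem_X h).mp hy
      obtain ⟨u, rfl⟩ := (H.mem_n (mE _) h (fπ _)).mp hy'
      obtain ⟨g, c, θ, -, -, e1, -, -, e3, e4, -⟩ := tr h
      exact (e4 _).mpr ⟨_, L1 (c * t) (c * u), by simp [e1, e3, x, map_commutatorElement]⟩)
    (fun h t y hy => by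
      obtain ⟨g, c, θ, -, -, e1, -, -, -, e4, -⟩ := tr h
      obtain ⟨z, hz, rfl⟩ := (e4 y).mp hy
      exact e1 t ▸ (L2 _ z hz).map θ)
    (fun h h1 h2 => (no h h1 h2).elim)
    (fun {j i y} h hy => by
      obtain ⟨g, c, θ, -, -, e1, -, -, e3, e4, e5, e6⟩ := tr h.symm
      have e7 : ∀ t, θ (x a b t) = x i j (c * t) := fun t => by rw [e1, ← mul_assoc, e6, one_mul]
      obtain ⟨z, hz, rfl⟩ := e5 y hy
      have D := L.D h.symm
      have key : ∀ r ∈ R, θ r ∈ RX F H.X (fun _ => Y' i) (p i) := fun r hr =>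
        (closure_le ((RX F H.X (fun _ => Y' i) (p i)).comap θ.toMonoidHom)).mpr (by
          rintro y ((⟨t, rfl⟩ | ⟨t, rfl⟩) | hy)
          exacts [X_RS D ((H.mem_X h.symm).mpr ⟨_, (e7 t).symm⟩), X_RS D.nr ((H.mem_n (mE _) h.symm
            (fπ _)).mpr ⟨c * t, by simp [← e7, e3, x]⟩), Y_RS ((e4 _).mpr ⟨y, hy, rfl⟩)]) (hR hr)
      refine ⟨fun y hy => ?_, fun y hy => ?_⟩
      · obtain ⟨t, rfl⟩ := (H.mem_X h.symm).mp hy
        rw [e1, ← map_inv θ, ← map_mul θ, ← map_mul θ]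
        exact key _ ((L4 z hz).1 _ ⟨_, rfl⟩)
      · obtain ⟨y, hy', rfl⟩ := (e4 y).mp hy
        rw [← map_inv θ, ← map_mul θ, ← map_mul θ]
        exact key _ ((L4 z hz).2 _ hy'))
  refine ⟨S, Lev.induction (H := (S.L Set.univ).comap φ) m1, Ya ▸ m2 a, fa ▸
    mem_normalizer_of_cj (m3 _ (mE a)) (m3 _ (inv_mem (mE a))), fun M h1 h2 h4 => m4 M
    (fun _ _ _ _ => h1 _) (fun i y hy => ?_) fun e he => cj_of_mem_normalizer
    ((closure_le _).mpr ?_ he)⟩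
  · obtain ⟨j, ij⟩ := ex i
    obtain ⟨g, c, θ, e0, -, -, -, -, -, e4, -⟩ := tr ij
    obtain ⟨z, hz, rfl⟩ := (e4 y).mp hy
    exact e0 z ▸ mul_mem (mul_mem (h1 g) (h2 hz)) (inv_mem (h1 g))
  · rintro _ ⟨i, rfl⟩
    obtain ⟨j, ij⟩ := ex i
    obtain ⟨g, c, θ, e0, -, -, -, e2, -⟩ := tr ij
    rw [e2, e0]
    exact mul_mem (mul_mem (le_normalizer (h1 g)) h4) (inv_mem (le_normalizer (h1 g)))

end Cfsg.Agent.H6
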