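import Cfsg.Agent.H6.PR

/-! Presentations of classical groups of rank two: the core argument. -/

set_option autoImplicit false

open Subgroup Matrix
open scoped commutatorElement

namespace Cfsg.Agent.H6

open OF Frame Polynomial

variable {K V I ι J : Type*} [Field K] [AddCommGroup V] [Module K V] [Group J] {O : OF K V}
  {F : Frame O I} {p : ι → I}

theorem hat_add {x x' y : K → J} (hx : AddF x) (hx' : AddF x') {g : J} {s t : K}
    (hc : Commute (y s) (x t)) (hc' : Commute (y s) (x' t))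
    (hz : Commute (x' t) ⁅(x t)⁻¹, (x' s)⁻¹⁆) (e : ∀ u, g * x u * g⁻¹ = x u * x' u * y u) :
    y s * y t = ⁅(x t)⁻¹, (x' s)⁻¹⁆ * y (s + t) := by
  have e1 := e (s + t)
  rw [hx, hx', ← conj_mul, e, e] at e1
  calc y s * y t = (x' t)⁻¹ * (x t)⁻¹ * (x' s)⁻¹ * (x s)⁻¹ * (x s * x' s * (x t * x' t * y s) * y t) := by
        group
    _ = (x' t)⁻¹ * ⁅(x t)⁻¹, (x' s)⁻¹⁆ * x' t * y (s + t) := by
        rw [← (hc.mul_right hc').eq, show x s * x' s * (y s * (x t * x' t)) * y t =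
          x s * x' s * y s * (x t * x' t * y t) by group, e1, commutatorElement_def]
        group
    _ = _ := by rw [mul_assoc (x' t)⁻¹, ← hz.eq]; group

theorem conj_comm {g e : J} (h : Commute g e) (y : J) :
    e * (g * y * g⁻¹) * e⁻¹ = g * (e * y * e⁻¹) * g⁻¹ := by
  calc _ = e * g * y * (e * g)⁻¹ := by group
    _ = _ := by rw [← h.eq]; group

theorem Scales.congr {g : J} {x : K → J} {c c' : K} (h : Scales g x c) (e : c = c') :
    Scales g x c' := e ▸ h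

theorem Cj.pow {g : J} {A : Set J} (h : Cj g A A) (n : ℕ) : Cj (g ^ n) A A := by
  induction n with
  | zero => simpa using Cj.one A
  | succ n ih => exact pow_succ g n ▸ ih.mul h

variable [Fintype ι] [DecidableEq ι]

theorem Tp.pow {g : SpecialLinearGroup ι K} {a : ι} {t : K} (h : Tp g a a t) (n : ℕ) :
    Tp (g ^ n) a a (t ^ n) := by
  induction n with
  | zero => simpa using Tp.one a
  | succ n ih => simpa only [pow_succ] using ih.mul h

set_option maxHeartbeats 400000 in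
theorem core2 [Finite K] [Finite I] {ψ : SpecialLinearGroup ι K →* O.U} (L : Lev F p ψ) {a b : ι}
    (hab : a ≠ b) (hι : ∀ i, i = a ∨ i = b) (φ : SpecialLinearGroup ι K →* J) (π : J →* O.U)
    (hφ : ∀ g, π (φ g) = ψ g) {s y : J} {κ₁ κ₂ : K} (hs : Sfl F (π s) (p a) κ₁ κ₂) {u₀ : V} {α₀ : K}
    (hu : F.V0 u₀) (hα : O.Λ u₀ α₀) (hy : π y = O.T (F.e (p a)) u₀ α₀)
    (H2 : ∀ u α, F.V0 u → O.Λ u α → ∃ t r, u = O.σ t • u₀ ∧ α = r - O.η * O.σ r + t * O.σ t * α₀)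
    {ζ ν κ θ₀ θ₁ r₁ c0 : K} (h0 : ζ ≠ 0) (hζ : ∀ t : K, t ≠ 0 → ∃ n : ℕ, ζ ^ n = t) (hν0 : ν ≠ 0)
    (hν : O.σ ν = ν) (hN : ∀ t, Sp2 (ζ * O.σ ζ) 1 ζ t) (hθ : ∀ t, Sp2 (ν ^ 2) κ θ₀ t)
    (hκ : ∀ t, t * r₁ = O.η * O.σ (t * r₁) → Sp2 (ν ^ 2) κ κ t) (hr : r₁ ≠ 0)
    {w : SpecialLinearGroup ι K} (w1 : Tp w a b 1) (w2 : Tp w b a (-1)) {sb yb h h' z zb : J}
    {x x' : K → J} (hsb : φ w * s * (φ w)⁻¹ = sb) (hyb : φ w * y * (φ w)⁻¹ = yb)
    (hh : φ (slH ζ a b) = h) (hh' : sb * h * sb⁻¹ = h') (hx : x = fun t => φ (slX K a b t))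
    (hx' : x' = fun t => sb * x t * sb⁻¹) (hz : z = ⁅x θ₀, x' 1⁆) (hzb : φ w * z * (φ w)⁻¹ = zb)
    (p1 : ∀ u, π ⁅x u, x' 1⁆ = F.Z (p a) (u * r₁ - O.η * O.σ (u * r₁)))
    (p2 : ∀ t, π (x' (t * c0)) = O.T (F.e (p a)) ((-O.σ t * α₀) • F.e (p b)) 0)
    (r1 : Commute s sb) (r2 : s ^ 2 * x 1 * (s ^ 2)⁻¹ = x (-1)) (r3 : Commute (s ^ 2) h)
    (r4 : ∀ t, s * sb * x t * (s * sb)⁻¹ = φ (slX K b a (-O.σ t))) (r5 : φ w * sb * (φ w)⁻¹ = s)
    (r6 : Commute h h') (r7 : h' * x 1 * h'⁻¹ = x (ζ / O.σ ζ)) (r8 : Commute (h * h'⁻¹) z)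
    (r9 : Commute z (x 1)) (r10 : Commute z (x ζ)) (r11 : Commute z sb) (r12 : Commute (x κ) (x' 1))
    (r13 : h * z * h⁻¹ = ⁅x θ₁, x' 1⁆)
    (r14 : ∀ t ∈ [1, ζ], zb * x t * zb⁻¹ ∈ closure (Set.range x ∪ Set.range x'))
    (r16 : Commute sb y) (r17 : Commute (h * h'⁻¹) y) (r18 : Commute (x 1) y) (r19 : Commute (x ζ) y)
    (r20 : ∀ t ∈ [1, ζ, ζ * ζ], yb * x t * yb⁻¹ =
      x t * x' (t * c0) * (φ (slH (-t) a b) * y * (φ (slH (-t) a b))⁻¹))
    (hc : y = 1 ∧ c0 = 0 ∨ ∀ t r, O.σ t • u₀ = 0 → r - O.η * O.σ r + t * O.σ t * α₀ = 0 → t = 0) :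
    ∃ S : CSt F π, (∀ g, φ g ∈ S.L Set.univ) ∧ y ∈ S.L Set.univ ∧
      s ∈ normalizer (S.L Set.univ : Set J) ∧ ∀ M : Subgroup J, (∀ g, φ g ∈ M) → y ∈ M →
      s ∈ normalizer (M : Set J) → S.L Set.univ ≤ M := by
  have ex1 : ∀ i (t : K), t ≠ 0 → ∃ g, Tp g a i t := fun i t ht => by
    rcases hι i with rfl | rfl
    exacts [⟨_, Tp.h_a hab ht⟩, ⟨_, (w1.mul (Tp.h_a hab ht)).congr (one_mul _)⟩]
  obtain ⟨Y', Y0, Y1, Yc⟩ := exists_fam1' φ (s := y)
    (fun g e => by simp [e.ext2 hab hι (Tp.one a)]) ex1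
  set Y := Y' a
  have Y0 : Y 0 = 1 := Y0 a
  have hσ := O.σ_ne h0
  have pw : ∀ {g t}, Tp g a a t → ∃ n, ζ ^ n = t ∧ φ g = h ^ n := fun e => (hζ _ e.ne).imp
    fun n e' => ⟨e', by rw [e.ext2 hab hι (e' ▸ (Tp.h_a hab h0).pow n), map_pow, hh]⟩
  have wh : φ w * h * (φ w)⁻¹ = h⁻¹ := by
    rw [← hh, ← map_inv, ← map_inv, ← map_mul, ← map_mul, ((w2.mul (Tp.h_b hab h0)).mul w2.inv).ext2
      hab hι ((Tp.h_a hab h0).inv.congr (by simp))]
  have xa : AddF x := hx ▸ addF_x φ hab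
  have xa' : AddF x' := hx' ▸ xa.conj sb
  have x0 := add_fam_zero xa
  have x0' := add_fam_zero xa'
  have xx' : ∀ t, x' t = sb * x t * sb⁻¹ := fun t => by rw [hx']
  have xw : ∀ t, φ w * x t * (φ w)⁻¹ = φ (slX K b a (-t)) := fun t => by
    simpa [hx, div_neg] using congrArg φ (w1.conj w2 hab hab.symm t)
  have xw' : ∀ t, φ w * φ (slX K b a t) * (φ w)⁻¹ = x (-t) := fun t => by
    simpa [hx] using congrArg φ (w2.conj w1 hab.symm hab t)
  have su := aeval_sq_surj_of_gen hζ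
  have A1 : Scales h x (ζ ^ 2) := hx ▸ hh ▸ (Tp.h_a hab h0).scales φ (Tp.h_b hab h0) hab (by simp [sq])
  have D1 := xa.scales su A1 r3 r2
  have r4' : ∀ t, s * sb * φ (slX K b a t) * (s * sb)⁻¹ = x (-O.σ t) := fun t => by
    simpa only [map_mul, map_inv, MulAut.conj_apply, hsb, r5, xw, xw', neg_neg, map_neg, ← r1.eq]
      using congrArg (MulAut.conj (φ w)) (r4 (-t))
  have D2 : Scales (sb ^ 2) x (-1) := fun t => by
    have e := r4' (-O.σ t)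
    rw [← r4, map_neg, O.σσ, neg_neg] at e
    have e' := D1.inv (by simp) t
    rw [inv_neg, inv_one] at e'
    rw [show sb ^ 2 = (s ^ 2)⁻¹ * (s * sb * (s * sb)) by rw [← sq, r1.mul_pow, inv_mul_cancel_left],
      ← e']
    conv_rhs => rw [← e]
    group
  have hh'' : sb⁻¹ * h * sb = h' := by
    have : Commute (sb ^ 2) h := by
      simpa only [map_pow, MulAut.conj_apply, hsb, wh, inv_inv] using
        (r3.map (MulAut.conj (φ w))).inv_right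
    calc _ = sb⁻¹ * (h * sb ^ 2) * sb⁻¹ := by group
      _ = _ := by rw [← this.eq, ← hh']; group
  have A3 := xa.scales su A1 r6.symm r7
  have A4 : Scales h' x' (ζ ^ 2) := hx' ▸ Scales.conj (by simpa [← hh', mul_assoc] using A1)
  have A2 : Scales h x' (ζ / O.σ ζ) := hx' ▸ Scales.conj (hh'' ▸ A3)
  have A5 : Scales h Y ζ := hh ▸ Yc (Tp.h_a hab h0)
  have Yn : ∀ {P : J → Prop}, P 1 → (∀ n : ℕ, P (h ^ n * y * (h ^ n)⁻¹)) → ∀ t, P (Y t) :=
    fun h1 h2 t => by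
      by_cases ht : t = 0
      · rwa [ht, Y0]
      obtain ⟨n, rfl⟩ := hζ t ht
      rw [← mul_one (ζ ^ n), ← A5.pow n, Y1]; exact h2 n
  have sbY : ∀ t, Commute sb (Y t) := Yn (Commute.one_right _) fun n => by
    rw [← mul_inv_eq_iff_eq_mul.trans (commute_iff_eq _ _).symm, ← conj_mul, ← conj_mul, r16.eq,
      mul_inv_cancel_right, ← conj_inv, ← conj_pow, hh', conj_pow_eq_of_commute r6 r17.symm]
  have A6 : Scales h' Y ζ := fun t => by
    rw [← hh', mul_assoc _ sb⁻¹, (sbY t).inv_left.eq, ← mul_inv_cancel_right (Y (ζ * t)) sb,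
      ← (sbY _).eq, ← A5]
    group
  obtain ⟨k, k1, k2⟩ := pw (Tp.h_a hab hσ)
  have k3 : O.σ ζ ^ k = ζ := by rw [← map_pow, k1, O.σσ]
  obtain ⟨g, hg⟩ : ∃ g, g = φ w * (h * h'⁻¹)⁻¹ * (φ w)⁻¹ := ⟨_, rfl⟩
  have hg' : g = h' ^ k * h := by
    have e := conj_slH φ hab.symm (by simpa only [hx] using r4') (by simpa only [hx] using r4) h0
    rw [(Tp.h_b hab.symm h0).ext2 hab hι (Tp.h_a hab h0).inv, map_inv, hh, k2] at e
    calc g = (φ w * sb * (φ w)⁻¹) * (φ w * h * (φ w)⁻¹) * (φ w * sb * (φ w)⁻¹)⁻¹ *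
        (φ w * h * (φ w)⁻¹)⁻¹ := by rw [hg, ← hh']; group
      _ = sb⁻¹ * (sb * s * h⁻¹ * (sb * s)⁻¹) * sb * h := by rw [r5, wh]; group
      _ = _ := by rw [← r1.eq, e, ← hh'']; simpa using (conj_pow (a := sb⁻¹) (b := h) (i := k)).symm
  have G1 : Scales g x (ζ * O.σ ζ) := hg' ▸ ((A3.pow k).mul A1).congr (by
    rw [div_pow, k1, k3]; field_simp)
  have G2 : Scales g x' (ζ * O.σ ζ) := hg' ▸ ((A4.pow k).mul A2).congr (by
    rw [← pow_mul, mul_comm 2, pow_mul, k1]; field_simp)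
  have G3 : Scales g Y (ζ * O.σ ζ) := hg' ▸ ((A6.pow k).mul A5).congr (by rw [k1, mul_comm])
  have G4 : Commute g zb := hg ▸ hzb ▸ r8.inv_left.map (MulAut.conj (φ w))
  have G5 : Commute g yb := hg ▸ hyb ▸ r17.inv_left.map (MulAut.conj (φ w))
  have G6 : Commute g h := hg' ▸ (r6.symm.pow_left k).mul_left (Commute.refl h)
  have G7 : Scales (h * h'⁻¹) x (ζ * O.σ ζ) := (A1.mul (A3.inv (div_ne_zero h0 hσ))).congr (by
    field_simp)
  have N0 := mul_ne_zero h0 hσ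
  obtain ⟨j, rfl⟩ := hζ ν hν0
  have T1 : Scales (h ^ j) x ((ζ ^ j) ^ 2) := (A1.pow j).congr (by ring)
  have T2 : Scales (h ^ j) x' 1 := (A2.pow j).congr (by rw [div_pow, ← map_pow, hν, div_self hν0])
  obtain ⟨k4, hA, k5⟩ := zpart xa xa' h0 hζ (div_ne_zero h0 hσ) (pow_ne_zero 2 hν0) A3 A4 T1 T2 G7
    (r6.pow_left j) hN hθ hz (r6.inv_right.eq ▸ r8) r8 r9 r10
    (fun t e => xx' t ▸ (r11.mul_right e).mul_right r11.inv_right) r12 r13
  set C := centralizer (Set.range x ∪ Set.range x')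
  set U := closure (Set.range x ∪ Set.range x')
  set Z := fr hA
  have mx : ∀ t, x t ∈ U := fun t => subset_closure (Or.inl ⟨t, rfl⟩)
  have mx' : ∀ t, x' t ∈ U := fun t => subset_closure (Or.inr ⟨t, rfl⟩)
  have ZU : Z ≤ U := by
    rintro _ ⟨u, rfl⟩
    exact mul_mem (mul_mem (mul_mem (mx _) (mx' _)) (inv_mem (mx _))) (inv_mem (mx' _))
  have ZC : Z ≤ C := by rintro _ ⟨u, rfl⟩; exact k4 _ _
  have CU : ∀ {c u}, c ∈ C → u ∈ U → Commute c u := fun hc hu =>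
    (closure_le (centralizer {_})).mpr (fun y hy _ e => e ▸ (hc y hy).symm) hu _ rfl
  have cjU : ∀ {e} {M : Subgroup J}, (∀ t, e * x t * e⁻¹ ∈ M) → (∀ t, e * x' t * e⁻¹ ∈ M) →
      Cj e U M := fun h1 h2 => Cj.closure (by rintro _ (⟨t, rfl⟩ | ⟨t, rfl⟩); exacts [h1 t, h2 t])
  have scU : ∀ {e c c'}, Scales e x c → Scales e x' c' → Cj e U U := fun e e' =>
    cjU (fun t => e t ▸ mx _) fun t => e' t ▸ mx' _
  have scZ : ∀ {e c c'}, Scales e x c → Scales e x' c' → Cj e Z Z := fun e e' => by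
    rintro _ ⟨u, rfl⟩; exact e.comm e' u 1 ▸ k5 _ _
  have YC : ∀ t, Y t ∈ C := by
    have e1 : ∀ u, Commute (x u) y := fun u => hN u (fun u => Commute (x u) y) (by simp [x0]) r18 r19
      (fun s t a b => xa s t ▸ a.mul_left b) fun t e => G7 t ▸ (r17.mul_left e).mul_left r17.inv_left
    have e2 : y ∈ C := by
      rintro _ (⟨u, rfl⟩ | ⟨u, rfl⟩)
      exacts [e1 u, xx' u ▸ (r16.mul_left (e1 u)).mul_left r16.inv_left]
    exact Yn (one_mem _) fun n => (A1.cj_cen A2 (pow_ne_zero 2 h0) (div_ne_zero h0 hσ)).pow n y e2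
  obtain ⟨q, hq⟩ : ∃ q : K → J, ∀ t, yb * x t * yb⁻¹ = x t * x' (t * c0) * q t :=
    ⟨fun t => (x t * x' (t * c0))⁻¹ * (yb * x t * yb⁻¹), fun t => by rw [mul_inv_cancel_left]⟩
  have hq' : ∀ t, q t = (x t * x' (t * c0))⁻¹ * (yb * x t * yb⁻¹) := fun t => by
    rw [hq, inv_mul_cancel_left]
  have q0 : q 0 = 1 := by simp [hq', x0, x0']
  have q1 : ∀ t ∈ [1, ζ, ζ * ζ], q t = Y (-t) := fun t ht => by
    have := r20 t ht
    rw [hq, ← Y1, Yc (Tp.h_a hab (by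
      simp only [List.mem_cons, List.not_mem_nil, or_false] at ht
      rcases ht with rfl | rfl | rfl <;> simp [h0])), mul_one] at this
    exact mul_left_cancel this
  have q2 := q1 1 (by simp)
  have q3 := q1 ζ (by simp)
  have q4 := q1 (ζ * ζ) (by simp)
  have scq : ∀ {e c}, Scales e x c → Scales e x' c → Commute e yb → Scales e q c :=
    fun {e c} e1 e2 e3 t => by
      have := conj_comm e3 (x t)
      rw [e1, hq, hq, ← conj_mul, ← conj_mul, e1, e2, ← mul_assoc c] at this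
      exact (mul_left_cancel this).symm
  have qa : ∀ s t, q s ∈ C → ∃ z ∈ Z, q s * q t = z * q (s + t) := fun s t e => by
    have m : ⁅(x t)⁻¹, (x' (s * c0))⁻¹⁆ ∈ Z := by
      rw [← add_fam_neg xa, ← add_fam_neg xa']; exact k5 _ _
    exact ⟨_, m, hat_add xa (x' := fun t => x' (t * c0)) (fun s t => by simp only [add_mul, xa' _])
      (CU e (mx _)) (CU e (mx' _)) (CU (ZC m) (mx' _)).symm hq⟩
  have qi : ∀ {M : Subgroup J} {e s t}, Cj e Z M → q s ∈ C → e * q s * e⁻¹ ∈ M →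
      e * q t * e⁻¹ ∈ M → e * q (s + t) * e⁻¹ ∈ M := fun {M e s t} h1 h2 h3 h4 => by
    obtain ⟨z, hz, e'⟩ := qa s t h2
    rw [← inv_mul_eq_iff_eq_mul.mpr e', ← conj_mul, ← conj_mul, ← conj_inv]
    exact mul_mem (inv_mem (h1 z hz)) (mul_mem h3 h4)
  have G8 := scq G1 G2 G5
  have qC : ∀ t, q t ∈ C := fun t => hN t (fun t => q t ∈ C) (q0 ▸ one_mem _) (q2 ▸ YC _) (q3 ▸ YC _)
    (fun s t e e' => by
      simpa using qi (e := 1) (fun z hz => by simpa using ZC hz) e (by simpa) (by simpa))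
    fun t e => G8 t ▸ G1.cj_cen G2 N0 N0 _ e
  let W := ysub q0 (fun t z hz => CU (qC t) (ZU hz)) fun s t => qa s t (qC s)
  have ZW : Z ≤ W := fun z hz => ⟨0, z, hz, by simp [q0]⟩
  have qW : ∀ t, q t ∈ W := fun t => ⟨t, 1, one_mem _, (one_mul _).symm⟩
  have cjW : ∀ {e} {M : Subgroup J}, Cj e Z M → (∀ t, e * q t * e⁻¹ ∈ M) → Cj e W M :=
    fun h1 h2 => by
      rintro _ ⟨t, z, hz, rfl⟩
      rw [← conj_mul]; exact mul_mem (h1 z hz) (h2 t)
  have cjZ : ∀ {e c c'}, Scales e x c → Scales e x' c' → Cj e Z W := fun e e' z hz =>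
    ZW (scZ e e' z hz)
  have hW : Cj h W W := cjW (cjZ A1 A2) fun t => hN t (fun t => h * q t * h⁻¹ ∈ W)
    (by simp [q0]) (by simpa [q2, A5 _, ← q3] using qW _) (by simpa [q3, A5 _, ← q4] using qW _)
    (fun s t => qi (cjZ A1 A2) (qC s)) fun t e => by
      rw [← G8, conj_comm G6]
      exact cjW (cjZ G1 G2) (fun t => G8 t ▸ qW _) _ e
  have YW : ∀ t, Y t ∈ W := by
    refine Yn (one_mem _) fun n => hW.pow n y ?_
    obtain ⟨m, e⟩ := hζ (-1) (by simp)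
    simpa [q2, A5.pow m _, e, Y1] using hW.pow m _ (qW 1)
  have ok := hu.ok hα
  have Yπ : ∀ t, π (Y t) = O.T (F.e (p a)) (O.σ t • u₀) (t * O.σ t * α₀) := fun t => by
    by_cases ht : t = 0
    · simp [ht, Y0, T_zero]
    have : _ * Y 1 * _ = Y (t * 1) := Yc (Tp.h_a hab ht) 1
    rw [mul_one, Y1] at this
    rw [← this, map_mul, map_mul, map_inv, hφ, hy,
      (ok _).conj_T' ht (L.tp (Tp.h_a hab ht)), L.V0 _ hu]
  have qπ : ∀ t, π (q t) = π (Y (-t)) := fun t => by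
    have e := congrArg π (hq t)
    rw [map_mul, map_mul, map_mul, map_mul, map_inv, p2, ← hyb, map_mul, map_mul, map_inv, hφ, hy,
      (ok _).conj_T' one_ne_zero (L.tp w1), L.V0 _ hu, hx, hφ, L.x hab, map_one, one_smul, one_mul,
      one_mul, (L.D hab).conj_xT_T (ok _) (ok _)] at e
    rw [← mul_left_cancel e, Yπ]; simp
  have Wπ : ∀ u t, π (⁅x u, x' 1⁆ * q t) = O.T (F.e (p a)) (O.σ (-t) • u₀)
      (u * r₁ - O.η * O.σ (u * r₁) + -t * O.σ (-t) * α₀) ∧ F.Ok (p a) (O.σ (-t) • u₀)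
      (u * r₁ - O.η * O.σ (u * r₁) + -t * O.σ (-t) * α₀) := fun u t => by
    have h4 : F.Ok (p a) (O.σ (-t) • u₀) (-t * O.σ (-t) * α₀) := ((hu.W _).smul _).ok
      (Λ_congr (O.smul _ hα) rfl (by rw [O.σσ]; ring))
    exact ⟨by rw [map_mul, p1, qπ, Yπ, Frame.Z, (okZ _ (O.min _)).T_mul h4.toOk]; simp,
      by simpa using (okZ _ (O.min (u * r₁))).add h4⟩
  have inj : ∀ g ∈ W, π g = 1 → g = 1 := by
    rintro _ ⟨t, _, ⟨u, rfl⟩, rfl⟩ e
    obtain ⟨h6, h7⟩ := (Wπ u t).2.eq_of_line (c := 1) (by rw [← (Wπ u t).1, e]; simp)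
    have : q t = 1 := by
      rcases hc with ⟨rfl, rfl⟩ | hc
      · simp [hq', ← hyb, x0']
      · rw [neg_eq_zero.mp (hc _ _ h6 h7), q0]
    rw [this, mul_one] at e ⊢
    exact hκ u (sub_eq_zero.mp (Z_eq_one (O.min _) ((p1 u).symm.trans e))) (fun u => ⁅x u, x' 1⁆ = 1)
      (by simp [x0]) r12.commutator_eq r12.commutator_eq (fun s t e e' => (hA s t).trans
      (by simp only [e, e', mul_one])) fun t e => by simpa [e] using (T1.comm T2 t 1).symm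
  have qY : ∀ t, q t = Y (-t) := fun t =>
    mul_inv_eq_one.mp (inj _ (mul_mem (qW t) (inv_mem (YW _))) (by simp [qπ]))
  have nW : ∀ {e}, Cj e Z Z → Cj e⁻¹ Z Z → (∀ t, e * q t * e⁻¹ ∈ W) → (∀ t, e⁻¹ * q t * e⁻¹⁻¹ ∈ W) →
      e ∈ normalizer (W : Set J) := fun h1 h2 h3 h4 => mem_normalizer_of_cj
    (cjW (fun z hz => ZW (h1 z hz)) h3) (cjW (fun z hz => ZW (h2 z hz)) h4)
  have nh : h ∈ normalizer (W : Set J) := nW (scZ A1 A2) (scZ (A1.inv (pow_ne_zero 2 h0))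
    (A2.inv (div_ne_zero h0 hσ))) (fun t => hW _ (qW t)) fun t => by rw [qY, A5.inv h0]; exact YW _
  have D3 : Scales (s ^ 2) x' (-1) := hx' ▸ Scales.conj (by
    rwa [mul_assoc, (r1.pow_left 2).eq, inv_mul_cancel_left])
  have D4 := scq D1 D3 (by simpa [hyb, r5] using (r16.map (MulAut.conj (φ w))).pow_left 2)
  have sZ : Cj sb Z Z := by
    rintro _ ⟨u, rfl⟩
    rw [conjugate_commutatorElement, ← xx', xx' 1, ← commutatorElement_inv,
      show sb * (sb * x 1 * sb⁻¹) * sb⁻¹ = sb ^ 2 * x 1 * (sb ^ 2)⁻¹ by rw [sq]; group, D2]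
    exact inv_mem (k5 _ _)
  have wx' : ∀ u, x' u = φ w * x' (-O.σ u) * (φ w)⁻¹ := fun u => by
    have e := r4' (O.σ u)
    rw [O.σσ, ← neg_one_mul, ← D2, r1.eq] at e
    calc _ = sb⁻¹ * (sb ^ 2 * x u * (sb ^ 2)⁻¹) * sb := by rw [xx']; group
      _ = s * φ (slX K b a (- -O.σ u)) * s⁻¹ := by rw [← e, neg_neg]; group
      _ = _ := by rw [← xw, ← r5, xx']; group
  have cC : ∀ {c}, c ∈ C → ∀ u, φ w * c * (φ w)⁻¹ * x' u * (φ w * c * (φ w)⁻¹)⁻¹ ∈ U :=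
    fun hc u => by
      rw [(show Commute _ (x' u) from wx' u ▸ (CU hc (mx' _)).map (MulAut.conj (φ w))).eq,
        mul_inv_cancel_right]
      exact mx' u
  set R := U ⊔ W
  have hR := fun n : ℕ => pow_mem (show h ∈ normalizer (R : Set J) from normalizer_inf_normalizer_le_normalizer_sup _ _
    ⟨mem_normalizer_of_cj (scU A1 A2) (scU (A1.inv (pow_ne_zero 2 h0)) (A2.inv (div_ne_zero h0 hσ))),
    nh⟩) n
  have key : ∀ v ∈ W, Cj (φ w * v * (φ w)⁻¹) U R := by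
    rintro _ ⟨t, _, ⟨u, rfl⟩, rfl⟩
    rw [← (CU (qC t) (ZU ⟨u, rfl⟩)).eq, ← conj_mul, qY]
    refine Cj.mul (B := U) (Yn (P := fun v => Cj (φ w * v * (φ w)⁻¹) U R)
      (fun y hy => by simpa using mem_sup_left hy) (fun n => ?_) _) (hθ u
      (fun u => Cj (φ w * ⁅x u, x' 1⁆ * (φ w)⁻¹) U U) (by simpa [x0] using Cj.one _)
      (by simpa [r12.commutator_eq] using Cj.one _) ?_ (fun s t e e' => ?_) fun t e => ?_)
    · rw [← conj_mul, ← conj_mul, ← conj_inv, ← conj_pow, wh, hyb, inv_pow, inv_inv]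
      exact ((cj_of_mem_normalizer (inv_mem (hR n))).mul (cjU (fun t => hq t ▸ mul_mem (mem_sup_left
        (mul_mem (mx _) (mx' _))) (mem_sup_right (qW _))) fun t => mem_sup_left
        (hyb ▸ cC (Y1 ▸ YC 1) t))).mul ((scU A1 A2).pow n)
    · rw [← hz]
      refine cjU (fun t => hzb ▸ hN t (fun t => zb * x t * zb⁻¹ ∈ U) (by simp [x0]) (r14 _ (by simp))
        (r14 _ (by simp)) (fun s t e e' => ?_) fun t e => ?_) (cC (hz ▸ k4 _ _))
      · rw [xa, ← conj_mul]; exact mul_mem e e'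
      · rw [← G1, conj_comm G4]; exact scU G1 G2 _ e
    · have := hA s t
      simp only at this
      rw [this, ← conj_mul]; exact e.mul e'
    · rw [← mul_one (1 : K), ← T1.comm T2, ← conj_mul, ← conj_mul, ← conj_inv, ← conj_pow, wh, inv_pow,
        inv_inv]
      exact ((scU (T1.inv (pow_ne_zero 2 hν0)) (T2.inv one_ne_zero)).mul e).mul (scU T1 T2)
  obtain ⟨n, -, hn⟩ := pw (w2.mul w1)
  obtain ⟨S, m1, m2, m3, m4⟩ := cst_two L hab hι φ π hφ hs w1 w2 hsb r5 r1 (hx ▸ D1) (by simpa only [hx] using r4)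
    (Y := W) (by rw [← map_mul, hn]; exact pow_mem nh n)
    (nW sZ (fun z hz => by
      simpa [sq, mul_assoc] using sZ _ (scZ (D2.inv (by simp)) (c' := -1) (fun t => by
        simpa [xx', sq, mul_assoc] using congrArg (MulAut.conj sb) (D2.inv (by simp) t)) z hz))
      (fun t => by rw [qY, (sbY _).eq, mul_inv_cancel_right]; exact YW _)
      fun t => by rw [qY, (sbY _).inv_left.eq, mul_inv_cancel_right]; exact YW _)
    (nW (scZ D1 D3) (scZ (D1.inv (by simp)) (D3.inv (by simp))) (fun t => D4 t ▸ qW _)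
      fun t => D4.inv (by simp) t ▸ qW _)
    (by
      rintro _ ⟨t, _, ⟨u, rfl⟩, rfl⟩
      exact ⟨_, _, fun k => by simp [hu k], (Wπ u t).2.mem, (Wπ u t).1⟩) inj
    (fun u α h1 h2 => by
      obtain ⟨t, r, rfl, rfl⟩ := H2 u α h1 h2
      exact ⟨_, ⟨-t, _, ⟨r / r₁, rfl⟩, rfl⟩, by simpa [hr] using (Wπ (r / r₁) (-t)).1⟩)
    (fun t u => by simpa [xx', hx] using ZW (k5 t u))
    (by
      rintro t _ ⟨u, z, hz, rfl⟩
      exact (CU (mul_mem (ZC hz) (qC u)) (by simpa [hx] using mx t)).symm) (R := R)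
    (sup_le (closure_mono (by simp only [hx', hx]; exact Set.subset_union_left))
      fun y hy => subset_closure (Or.inr hy))
    fun v hv => ⟨by rintro _ ⟨t, rfl⟩; exact key v hv _ (by simpa [hx] using mx t),
      cjW (fun z hz => key v hv z (ZU hz)) fun t => by
        have := mul_mem (key v hv _ (inv_mem (mul_mem (mx t) (mx' (t * c0)))))
          (key _ (mul_mem hv (Y1 ▸ YW 1)) _ (mx t))
        rw [hq', ← hyb]
        simpa [mul_assoc] using this⟩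
  refine ⟨S, m1, m2 (Y1 ▸ YW 1), m3, fun M h1 h2 h3 => m4 M h1 ?_ h3⟩
  rintro _ ⟨t, z, hz, rfl⟩
  refine mul_mem ((closure_le M).mpr ?_ (ZU hz)) (qY t ▸ Yn (P := (· ∈ M)) (one_mem _) (fun n =>
    mul_mem (mul_mem (pow_mem (hh ▸ h1 _) n) h2) (inv_mem (pow_mem (hh ▸ h1 _) n))) _)
  rintro _ (⟨t, rfl⟩ | ⟨t, rfl⟩)
  · exact hx ▸ h1 _
  · exact xx' t ▸ cj_of_mem_normalizer (hsb ▸ mul_mem (mul_mem (le_normalizer (h1 w)) h3)
      (inv_mem (le_normalizer (h1 w)))) _ (hx ▸ h1 _)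

end Cfsg.Agent.H6
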