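import Cfsg.Agent.H6.PR2
import Cfsg.Agent.H6.CSU4

/-! Presentations of classical groups of rank two. -/

set_option autoImplicit false

open Subgroup Matrix
open scoped commutatorElement

namespace Cfsg.Agent.H6

open OF Frame H3

variable {K V I ι : Type*} [Field K] [AddCommGroup V] [Module K V] {O : OF K V}
  {F : Frame O I} {p : ι → I}

theorem Sfl.exists_xT' {g : O.U} {i j : I} {c c' : K} (h : Sfl F g j c c') (ij : F.D i j) (r : K) :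
    ∃ s, (r = 0 → s = 0) ∧ ∀ t, g * F.xT i j (t * s) * g⁻¹ = O.T (F.e i) ((-O.σ t * r) • F.e j) 0 :=
  ⟨O.σ (r * F.ε (F.n j)) * c, fun e => by simp [e], fun t => by
    rw [h.xT ij, ← mul_assoc, mul_div_cancel_right₀ _ h.ne.1, Frame.xT, xv, map_mul, O.σσ, F.nn,
      ← mul_assoc, mul_div_cancel_right₀ _ (F.ε_ne _), neg_mul]⟩

theorem Sfl.exists_comm {g : O.U} {i j : I} {c c' : K} (h : Sfl F g j c c') (ij : F.D i j) :
    ∃ r, r ≠ 0 ∧ ∀ u, ⁅F.xT i j u, g * F.xT i j 1 * g⁻¹⁆ = F.Z i (u * r - O.η * O.σ (u * r)) :=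
  ⟨-(O.σ (1 / c) / F.ε (F.n j)), by simp [h.ne.1, F.ε_ne], fun u => by
    rw [h.xT ij, Frame.xT, Frame.xT, (ij.ok_xv _).comm_T (ij.nr.ok_xv _), O.herm (F.xv j u),
      ← mul_assoc, O.ηη, xv.eq_1 F (F.n j), F.nn]
    simp only [map_smulₛₗ, smul_eq_mul, B_xv, map_mul, map_neg, O.σσ]
    ring_nf⟩

theorem commute_of_diag [Finite I] {g g' : O.U} (h : ∀ i, Mv F g i i) (h' : ∀ i, Mv F g' i i)
    (e : ∀ u, F.V0 u → g • u = u) (e' : ∀ u, F.V0 u → g' • u = u) : Commute g g' :=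
  Frame.ext (F := F) (fun i => by
    obtain ⟨c, h⟩ := h i
    obtain ⟨c', h'⟩ := h' i
    simp only [mul_smul, h, h', U_smul, smul_comm c]) fun u hu => by
    simp only [mul_smul, e u hu, e' u hu]

theorem mem_comm {J : Type*} [Group J] {x x' : K → J} {t u v : K} :
    x t * x' u * ⁅x v, x' 1⁆ ∈ closure (Set.range x ∪ Set.range x') :=
  have h := fun t => subset_closure (k := Set.range x ∪ Set.range x') (Or.inl ⟨t, rfl⟩)
  have h' := fun t => subset_closure (k := Set.range x ∪ Set.range x') (Or.inr ⟨t, rfl⟩)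
  mul_mem (mul_mem (h _) (h' _)) (mul_mem (mul_mem (mul_mem (h _) (h' _)) (inv_mem (h _)))
    (inv_mem (h' _)))

variable [Fintype ι] [DecidableEq ι]

theorem Sfl.conj' {ψ : SpecialLinearGroup ι K →* O.U} (L : Lev F p ψ) {g : O.U} {c c' t : K}
    {a i : ι} (h : Sfl F g (p a) c c') {γ : SpecialLinearGroup ι K} (h1 : Tp γ a i t)
    (ht : (O.σ t)⁻¹ = t) : Sfl F (ψ γ * g * (ψ γ)⁻¹) (p i) c c' := by
  have := h1.ne
  refine ⟨?_, ?_, fun v e1 => ?_⟩ <;> rw [mul_smul, mul_smul]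
  · simp [inv_smul_of_line this (L.tp h1), h.a, L.tp' h1, ht, smul_comm c, this]
  · simp [inv_smul_of_line this (ht ▸ L.tp' h1), h.na, L.tp h1, smul_comm c', this]
  · rw [h.fix _ (L.W h1 e1), smul_inv_smul]

theorem exists_w {a b : ι} (hab : a ≠ b) :
    ∃ w : SpecialLinearGroup ι K, Tp w a b 1 ∧ Tp w b a (-1) := by
  refine ⟨slX K b a 1 * slX K a b (-1) * slX K b a 1, ⟨one_ne_zero, ?_, ?_⟩, by simp, ?_, ?_⟩ <;>
    simp only [map_mul, slM_x _ _ hab, slM_x _ _ hab.symm, ← mulVec_mulVec, ← vecMul_vecMul,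
      transvection_mulVec', vecMul_transvection'] <;> simp [hab, hab.symm]

theorem hasPres_R [Finite K] [Finite I] (P : Pol F p) (hN : F.ND) {a b : ι} (hab : a ≠ b)
    (hι : ∀ i, i = a ∨ i = b) {k m : ℕ} (hA : HasPres (SpecialLinearGroup ι K) k m)
    {α₁ : K} (h1 : O.Λ 0 α₁) (h1' : α₁ ≠ 0) {u₀ : V} {α₀ : K} (hu : F.V0 u₀) (hα : O.Λ u₀ α₀)
    (H2 : ∀ u α, F.V0 u → O.Λ u α → ∃ t r, u = O.σ t • u₀ ∧ α = r - O.η * O.σ r + t * O.σ t * α₀)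
    {ζ ν : K} (h0 : ζ ≠ 0) (hζ : ∀ t : K, t ≠ 0 → ∃ n : ℕ, ζ ^ n = t) (hν0 : ν ≠ 0)
    (hν : O.σ ν = ν) (hS : ∀ t, Sp2 (ζ * O.σ ζ) 1 ζ t)
    (hK : ∀ r, r ≠ 0 → ∃ κ θ, κ * r = O.η * O.σ (κ * r) ∧ (∀ t, Sp2 (ν ^ 2) κ θ t) ∧
      ∀ t, t * r = O.η * O.σ (t * r) → Sp2 (ν ^ 2) κ κ t)
    (hc : u₀ = 0 ∧ α₀ = 0 ∨ ∀ t r, O.σ t • u₀ = 0 → r - O.η * O.σ r + t * O.σ t * α₀ = 0 → t = 0)
    (hker : ∀ (J : Type) [Group J] (π : J →* O.U) (S : CSt F π), ∀ g ∈ S.L Set.univ,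
      π g = 1 → g = 1) : HasPres F.E (k + 2) (m + 25) := by
  obtain ⟨ψ, L⟩ := P.exists_lev hN
  obtain ⟨w, w1, w2⟩ := exists_w (K := K) hab
  obtain ⟨s, sE, κ₁, κ₂, hs, hκ⟩ := exists_sfl (F := F) (p a) h1 h1'
  have D := L.D hab
  have d1 := hs.conj L w1
  have ok := hu.ok hα
  obtain ⟨r₁, hr, p1⟩ := d1.exists_comm D
  obtain ⟨κ, θ, k1, k2, k3⟩ := hK r₁ hr
  obtain ⟨c0, c1, p2⟩ := d1.exists_xT' D α₀
  obtain ⟨c2, -, p3⟩ := d1.exists_xT' D (θ * r₁ - O.η * O.σ (θ * r₁))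
  simp only [← L.x hab] at p1 p2 p3
  set y := O.T (F.e (p a)) u₀ α₀ with hy
  set sb := ψ w * s * (ψ w)⁻¹ with hsb
  set h := ψ (slH ζ a b) with hh
  have ta := Tp.h_a hab h0
  have tb := Tp.h_b hab h0
  have sf : ∀ {v c}, F.W (p b) v → h • v = c • v → (sb * h * sb⁻¹) • v = c • v := fun hv e => by
    rw [mul_smul, mul_smul, inv_smul_eq_iff.mpr (d1.fix _ hv).symm, e, U_smul, d1.fix _ hv]
  have e1 := sf D.symm.W (L.tp ta)
  have e2 : (sb * h * sb⁻¹) • F.e (p b) = O.σ ζ • F.e (p b) := by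
    rw [mul_smul, mul_smul, inv_smul_of_line d1.ne.2 d1.na, U_smul, L.tp' tb, U_smul,
      U_smul, d1.na, smul_comm, inv_smul_smul₀ d1.ne.2, map_inv₀, inv_inv]
  have e3 : (sb * h * sb⁻¹) • F.e (F.n (p b)) = ζ⁻¹ • F.e (F.n (p b)) := by
    rw [mul_smul, mul_smul, inv_smul_of_line d1.ne.1 d1.a, U_smul, L.tp tb, U_smul,
      U_smul, d1.a, smul_comm, inv_smul_smul₀ d1.ne.1]
  have e4 : ∀ u, F.V0 u → (sb * h * sb⁻¹) • u = u := fun u hu => by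
    simpa using sf (c := 1) (hu.W _) ((L.V0 _ hu).trans (one_smul _ _).symm)
  have e5 : (h * (sb * h * sb⁻¹)⁻¹) • F.e (p a) = F.e (p a) := by
    rw [mul_smul, inv_smul_of_line h0 e1, U_smul, L.tp ta, inv_smul_smul₀ h0]
  have e6 : ∀ t, ψ (slX K a b t) • F.e (p a) = F.e (p a) := fun t =>
    L.x hab t ▸ D.xT_ne _ D.symm.1 (F.n_ne _).symm
  have r1 := d1.commute (hs.e D) (hs.e D.nr)
  have r2 : s ^ 2 * ψ (slX K a b 1) * (s ^ 2)⁻¹ = ψ (slX K a b (-1)) := by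
    rw [L.x hab, L.x hab, hs.sq hκ D]
  have r3 : Commute (s ^ 2) h := commute_of_lines (k := p a) (μ := 1)
    (by rw [sq, mul_smul, hs.a, U_smul, hs.na, smul_smul])
    (by rw [sq, mul_smul, hs.na, U_smul, hs.a, smul_smul])
    (fun v hv => by simp [sq, mul_smul, hs.fix v hv]) (L.tp ta) (L.tp' ta)
  have r4 : ∀ t, s * sb * ψ (slX K a b t) * (s * sb)⁻¹ = ψ (slX K b a (-O.σ t)) := fun t => by
    rw [L.x hab, L.x hab.symm, hs.swap d1 D (L.eps _ _)]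
  have r4' := conj_slH ψ hab r4 (fun t => by
    rw [L.x hab, L.x hab.symm, r1.eq, d1.swap hs D.symm (L.eps _ _)]) h0
  have r5 := (d1.conj' L w2 (by simp)).unique hs
  have r6 : Commute h (sb * h * sb⁻¹) := commute_of_diag (F := F) (fun i => by
    obtain ⟨i, rfl | rfl⟩ := L.cov i <;> rcases hι i with rfl | rfl
    exacts [⟨_, L.tp ta⟩, ⟨_, L.tp tb⟩, ⟨_, L.tp' ta⟩, ⟨_, L.tp' tb⟩]) (fun i => by
    obtain ⟨i, rfl | rfl⟩ := L.cov i <;> rcases hι i with rfl | rfl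
    exacts [⟨_, e1⟩, ⟨_, e2⟩, ⟨_, sf D.symm.nr.W (L.tp' ta)⟩, ⟨_, e3⟩]) (fun _ => L.V0 _) e4
  have r7 : sb * h * sb⁻¹ * ψ (slX K a b 1) * (sb * h * sb⁻¹)⁻¹ = ψ (slX K a b (ζ / O.σ ζ)) := by
    rw [L.x hab, L.x hab, D.conj_xT h0 e1 e2 e3, mul_one]
  have cz : ∀ {g}, g • F.e (p a) = F.e (p a) →
      Commute ⁅ψ (slX K a b θ), sb * ψ (slX K a b 1) * sb⁻¹⁆ g := fun e => p1 θ ▸ Z_commute (O.min _) e
  have r12 : Commute (ψ (slX K a b κ)) (sb * ψ (slX K a b 1) * sb⁻¹) :=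
    commutatorElement_eq_one_iff_commute.mp (by rw [p1, ← k1, sub_self, Z_zero])
  have e7 : ∀ t, F.Z (p a) (t * O.σ t * (θ * r₁ - O.η * O.σ (θ * r₁))) =
      ⁅ψ (slX K a b (t * O.σ t * θ)), sb * ψ (slX K a b 1) * sb⁻¹⁆ := fun t => by
    rw [p1]; simp only [map_mul, O.σσ]; ring_nf
  have r13 := (p1 θ ▸ Z_conj (O.min _) h0 (L.tp ta)).trans (e7 ζ)
  have r14 : ∀ t, ψ w * ⁅ψ (slX K a b θ), sb * ψ (slX K a b 1) * sb⁻¹⁆ * (ψ w)⁻¹ * ψ (slX K a b t) *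
      (ψ w * ⁅ψ (slX K a b θ), sb * ψ (slX K a b 1) * sb⁻¹⁆ * (ψ w)⁻¹)⁻¹ = ψ (slX K a b t) *
      (sb * ψ (slX K a b (t * c2)) * sb⁻¹) *
      ⁅ψ (slX K a b (t * O.σ t * θ)), sb * ψ (slX K a b 1) * sb⁻¹⁆ := fun t => by
    rw [← e7, p1, p3, Z_conj (O.min _) one_ne_zero (L.tp w1), map_one, one_mul, one_mul, Z, L.x hab,
      D.conj_xT_T (okZ _ (O.min _)) (okZ _ (O.min _)), smul_zero, Z]
  have r16 := (ok _).commute (d1.e D.symm) (d1.fix _ (hu.W _))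
  have r17 := (ok _).commute e5 (by rw [mul_smul, inv_smul_eq_iff.mpr (e4 _ hu).symm, L.V0 _ hu])
  have r18 : ∀ t, Commute (ψ (slX K a b t)) y := fun t => (ok _).commute (e6 t) (L.V0 _ hu)
  have r20 : ∀ t ∈ [1, ζ, ζ * ζ], ψ w * y * (ψ w)⁻¹ * ψ (slX K a b t) * (ψ w * y * (ψ w)⁻¹)⁻¹ =
      ψ (slX K a b t) * (sb * ψ (slX K a b (t * c0)) * sb⁻¹) *
      (ψ (slH (-t) a b) * y * (ψ (slH (-t) a b))⁻¹) := fun t ht => by
    have : -t ≠ 0 := by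
      simp only [List.mem_cons, List.not_mem_nil, or_false] at ht
      rcases ht with rfl | rfl | rfl <;> simp [h0]
    rw [p2, (ok _).conj_T' one_ne_zero (L.tp w1), (ok _).conj_T' this (L.tp (Tp.h_a hab this)),
      L.V0 _ hu, L.V0 _ hu, map_one, one_smul, one_mul, one_mul, L.x hab, D.conj_xT_T (ok _) (ok _)]
    simp
  obtain ⟨e, r21, he⟩ : ∃ e : ℕ, y ^ e = 1 ∧ (e = 1 ∧ c0 = 0 ∨
      ∀ t r, O.σ t • u₀ = 0 → r - O.η * O.σ r + t * O.σ t * α₀ = 0 → t = 0) := by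
    rcases hc with ⟨rfl, rfl⟩ | hc
    exacts [⟨1, by simp [hy, T_zero], Or.inl ⟨rfl, c1 rfl⟩⟩, ⟨0, pow_zero _, Or.inr hc⟩]
  obtain ⟨S, -, -, -, hM⟩ := core2 L hab hι ψ (MonoidHom.id _) (fun _ => rfl) hs hu hα rfl H2 h0 hζ
    hν0 hν hS k2 k3 hr w1 w2 rfl rfl rfl rfl rfl rfl rfl rfl p1 p2 r1 r2 r3 r4 r5 r6 r7 (cz e5).symm
    (cz (e6 _)) (cz (e6 _)) (cz (d1.e D.symm)) r12 r13 (fun t _ => r14 t ▸ mem_comm) r16 r17 (r18 _)
    (r18 _) r20 (he.imp_left fun h => ⟨by rwa [h.1, pow_one] at r21, h.2⟩)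
  rw [← S.hom_std.map_L.symm.trans (Subgroup.map_id _)] at hM
  let f : SpecialLinearGroup ι K → FreeGroup (SpecialLinearGroup ι K ⊕ Bool) := fun g => .of (.inl g)
  let σ : FreeGroup (SpecialLinearGroup ι K ⊕ Bool) := .of (.inr true)
  let υ : FreeGroup (SpecialLinearGroup ι K ⊕ Bool) := .of (.inr false)
  let σ' := f w * σ * (f w)⁻¹
  let x := fun t => f (slX K a b t)
  let x' := fun t => σ' * x t * σ'⁻¹
  let η := f (slH ζ a b)
  let η' := σ' * η * σ'⁻¹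
  let z := ⁅x θ, x' 1⁆
  have := hasPres_link hA ψ (fun i => cond i s y) [true] ([⁅σ, σ'⁆,
      σ ^ 2 * x 1 * (σ ^ 2)⁻¹ * (x (-1))⁻¹, ⁅σ ^ 2, η⁆,
      σ * σ' * x 1 * (σ * σ')⁻¹ * (f (slX K b a (-1)))⁻¹,
      σ * σ' * η * (σ * σ')⁻¹ * (f (slH (O.σ ζ) b a))⁻¹, f w * σ' * (f w)⁻¹ * σ⁻¹, ⁅η, η'⁆,
      η' * x 1 * η'⁻¹ * (x (ζ / O.σ ζ))⁻¹, ⁅η * η'⁻¹, z⁆, ⁅z, x 1⁆, ⁅z, x ζ⁆, ⁅z, σ'⁆, ⁅x κ, x' 1⁆,
      η * z * η⁻¹ * ⁅x (ζ * O.σ ζ * θ), x' 1⁆⁻¹, ⁅σ', υ⁆, ⁅η * η'⁻¹, υ⁆, ⁅x 1, υ⁆, ⁅x ζ, υ⁆, υ ^ e] ++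
      [1, ζ].map (fun t => f w * z * (f w)⁻¹ * x t * (f w * z * (f w)⁻¹)⁻¹ *
        (x t * x' (t * c2) * ⁅x (t * O.σ t * θ), x' 1⁆)⁻¹) ++
      [1, ζ, ζ * ζ].map fun t => f w * υ * (f w)⁻¹ * x t * (f w * υ * (f w)⁻¹)⁻¹ *
        (x t * x' (t * c0) * (f (slH (-t) a b) * υ * (f (slH (-t) a b))⁻¹))⁻¹) ?_ L.mem_E
    (by rintro (_ | _); exacts [(ok _).mem_E, sE])
    (fun M h1 h2 h3 => hM M h1 (h2 false (by simp)) (h3 true)) fun J _ φ y π hR hφ hx => ?_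
  · exact this
  on_goal 2 => revert hR
  all_goals
    simp only [List.forall_mem_append, List.forall_mem_map, List.forall_mem_cons, f, σ, υ, σ', x, x', η, η',
      z, map_mul, map_inv, map_pow, map_commutatorElement, FreeGroup.lift_apply_of, Sum.elim_inl,
      Sum.elim_inr, mul_inv_eq_one, commutatorElement_eq_one_iff_commute, cond_true,
      cond_false]
  · exact ⟨⟨⟨r1, r2, r3, by simpa only [map_one] using r4 1, r4', r5, r6, r7, (cz e5).symm, cz (e6 _), cz (e6 _),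
      cz (d1.e D.symm), r12, r13, r16, r17, r18 _, r18 _, r21, by simp⟩, r14 _, r14 _, by simp⟩,
      by simpa only [List.forall_mem_cons] using r20⟩
  rintro ⟨⟨⟨r1, r2, r3, r4, r4', r5, r6, r7, r8, r9, r10, r11, r12, r13, r16, r17, r18, r19, r21, -⟩,
    r14, r15, -⟩, r20⟩
  have e : π (φ w * y true * (φ w)⁻¹) = sb := by simp [hφ, hx, hsb]
  obtain ⟨S, k1, k2, k3, -⟩ := core2 L hab hι φ π hφ (by rw [hx]; exact hs) hu hα (hx false) H2 h0 hζ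
    hν0 hν hS k2 k3 hr w1 w2 rfl rfl rfl rfl rfl rfl rfl rfl
    (fun u => by rw [← p1, map_commutatorElement, map_mul, map_mul, map_inv, e, hφ, hφ])
    (fun u => by rw [← p2, map_mul, map_mul, map_inv, e, hφ]) r1 r2 r3
    (swap_of h0 hζ φ hab r4 r4') r5 r6 r7 r8 r9 r10 r11 r12 r13 (by
      simp only [List.forall_mem_cons]; exact ⟨r14 ▸ mem_comm, r15 ▸ mem_comm, by simp⟩) r16
    r17 r18 r19 (by simpa only [List.forall_mem_cons] using r20) (he.imp_left fun h => ⟨by rw [← r21, h.1, pow_one], h.2⟩)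
  exact ⟨_, hker J π S, k1, by simpa using k2, by simpa using k3⟩

theorem Sp2.symm {μ u v t : K} (h : Sp2 μ u v t) : Sp2 μ v u t := fun P h0 hv hu => h P h0 hu hv

theorem Sp2.add {μ u v s t : K} (h : Sp2 μ u v s) (h' : Sp2 μ u v t) : Sp2 μ u v (s + t) :=
  fun P h0 hu hv ha hm => ha _ _ (h P h0 hu hv ha hm) (h' P h0 hu hv ha hm)

theorem hasPres_sp_two {K : Type*} [Field K] [Fintype K] :
    HasPres (symplecticGroup (Fin 2) K) 5 33 := by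
  have h2 : ∀ a, ∃ b, (fSp 2 K).D a b := fun a => by
    simpa using (fSp 2 K).exists_D rfl [a] (by simp)
  have P : Pol (fSp 2 K) Sum.inl := ⟨fun h => by simpa [D, fSp] using h.symm,
    by rintro (i | i); exacts [⟨i, Or.inl rfl⟩, ⟨i, Or.inr rfl⟩], fun _ _ => by
      simp [ε, fSp, ofSp_B, H5.stdSp_apply', Pi.single_apply]⟩
  obtain ⟨b, hb⟩ := h2 (.inl 0)
  obtain ⟨ζ, h0, hζ⟩ := exists_gen K
  have su := fun v t => sp2_of_surj (aeval_sq_surj_of_gen hζ) one_ne_zero v t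
  refine hasPres_of_equiv ((jSp 2 K).trans (topEquiv.symm.trans (MulEquiv.subgroupCongr
    (sp_E (tr_of_D h2) (.inl 0)).symm))).symm ?_
  have key := fun α₀ H2 hK hc => hasPres_R P (nd_of (u := 0) (α := 1) (fun _ => by simp) trivial
    one_ne_zero) (a := 0) (b := 1) (by simp) (by decide) hasPres_SL_two
    (α₁ := 1) trivial one_ne_zero (u₀ := 0) (α₀ := α₀) (fun _ => by simp) trivial H2 h0 hζ h0 rfl
    (fun t => sq ζ ▸ su _ t) hK hc fun J _ π S g hg => sp_ker S hb hg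
  simp only [ofSp_σ, ofSp_η] at key
  by_cases h : (2 : K) = 0
  · refine key 1 (fun u α hu _ => ?_) (fun r _ => ⟨1, 1, by linear_combination r * h, su _,
      fun t _ => su _ t⟩) (Or.inr fun t r _ e => mul_self_eq_zero.mp (by linear_combination e - r * h))
    obtain ⟨t, rfl⟩ := FiniteField.isSquare_of_char_two (ringChar.eq_iff.mpr
      (CharTwo.of_one_ne_zero_of_two_eq_zero one_ne_zero h)) α
    exact ⟨t, 0, by simp [sp_V0 hu], by simp⟩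
  · refine key 0 (fun u α hu _ => ⟨0, α / 2, by simp [sp_V0 hu], by field_simp; ring⟩)
      (fun r hr => ⟨0, 1, by simp, fun t => (su _ t).symm, fun t e P h1 _ _ _ _ => ?_⟩)
      (by simp)
    rwa [show t = 0 by simpa [h, hr] using show 2 * (t * r) = 0 by linear_combination e]

open H5 in
theorem hasPres_su {K : Type*} [Field K] [Fintype K] {σ : K →+* K} {q : ℕ} (hU : UF σ q) {m r : ℕ}
    (hr : r ≤ 1) (hm : 2 ≤ m) : HasPres (SU (2 * m + r) K q) 6 (if m = 2 then 34 else 38) := by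
  have hB := isEps_hypU hU (invol_hyp m r)
  obtain ⟨f⟩ := exists_suEquiv hU hB (n := 2 * m + r) (by simp [two_mul])
  let F := fSU hU m hr
  let a : Fin m := ⟨0, by omega⟩
  refine hasPres_of_equiv (f.trans ((MonoidHom.ofInjective jB_inj).trans
    (MulEquiv.subgroupCongr (jB_range (F := F) (.inl a))))).symm ?_
  have P : Pol F Sum.inl := ⟨fun h => by simpa [D, F, fSU] using h.symm,
    by rintro (i | i); exacts [⟨i, Or.inl rfl⟩, ⟨i, Or.inr rfl⟩], fun _ _ => by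
      simp [ε, F, fSU, ofSU_B, hypU_apply, Pi.single_apply]⟩
  obtain ⟨α₁, h1, h2⟩ := hU.exists_trace_zero
  have h2 := (ofSU_Λ0 (hU := hU) (hB := hB) _).mpr h2
  obtain ⟨u₀, α₀, hu, hα, H2, hc, hk⟩ : ∃ u₀ α₀, F.V0 u₀ ∧ (ofSU hU hB).Λ u₀ α₀ ∧
      (∀ u α, F.V0 u → (ofSU hU hB).Λ u α → ∃ t r, u = σ t • u₀ ∧ α = r - 1 * σ r + t * σ t * α₀) ∧
      (u₀ = 0 ∧ α₀ = 0 ∨ u₀ ≠ 0) ∧ ((∀ u, F.V0 u → u = 0) ∨ Line F u₀) := by
    obtain rfl | rfl : r = 0 ∨ r = 1 := by omega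
    · refine ⟨0, 0, V0_zero', Λ_zero, fun u α hu hα => ?_, Or.inl ⟨rfl, rfl⟩, Or.inl (fSU_zero hU m)⟩
      obtain rfl := fSU_zero hU m u hu
      obtain ⟨y, rfl⟩ := su_min hα
      exact ⟨0, y, by simp, by simp⟩
    have H := fSU_line hU m
    obtain ⟨α₀, hα⟩ := (ofSU hU hB).ex (Pi.single (.inr 0) 1)
    refine ⟨_, α₀, H.v0, hα, fun u α hu h => ?_, Or.inr fun e => by simpa [e] using H.one, Or.inr H⟩
    obtain ⟨c, rfl⟩ := H.span u hu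
    obtain ⟨y, e⟩ := su_min ((hu.ok h (.inl a)).T_eq (hu.ok ((ofSU hU hB).smul c hα) _)).1
    exact ⟨σ c, y, by rw [hU.invol], by rw [hU.invol, ← e, ofSU_σ]; ring⟩
  have hker : ∀ (J : Type) [Group J] (π : J →* _) (S : CSt F π), ∀ g ∈ S.L Set.univ, π g = 1 → g = 1 :=
    fun J _ π S g hg => su_ker S (P.D (i := a) (j := ⟨1, by omega⟩) (by simp [a])) hk hg
  obtain ⟨ζ, h0, hζ⟩ := exists_gen K
  have hσ : ζ - σ ζ ≠ 0 := fun e => hU.exists_ne.elim fun t ht => ht (by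
    by_cases h : t = 0
    · simp [h]
    obtain ⟨n, rfl⟩ := hζ t h
    rw [map_pow, ← sub_eq_zero.mp e])
  split_ifs with h
  · subst h
    have k1 : ∀ u v t, σ t = t → Sp2 ((ζ * σ ζ) ^ 2) u v (t * u) := fun u v t ht =>
      sp2_of fun A h1 _ h2 => span_induction_of_surj (K := σ.eqLocusField (RingHom.id K))
        (aeval_sq_surj_of_gen (ζ := ⟨_, hU.norm_fixed ζ⟩) fun s hs => by
          obtain ⟨c, hc⟩ := hU.norm_surj s.2
          obtain ⟨n, rfl⟩ := hζ c fun e => hs (Subtype.ext (by simpa [e] using hc.symm))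
          exact ⟨n, Subtype.ext (by simp [← hc, mul_pow])⟩)
        (A.comap ((AddMonoidHom.mulRight u).comp (Subfield.subtype _).toAddMonoidHom)) (by simpa)
        (fun s hs => by simpa [mul_assoc] using h2 _ hs) ⟨t, ht⟩
    have k2 : ∀ c t, c ≠ 0 → Sp2 ((ζ * σ ζ) ^ 2) c (ζ * c) t := fun c t hc => by
      have e : σ ((t / c - σ (t / c)) / (ζ - σ ζ)) = (t / c - σ (t / c)) / (ζ - σ ζ) := by
        rw [map_div₀, map_sub, map_sub, hU.invol, hU.invol, ← neg_div_neg_eq, neg_sub, neg_sub]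
      convert (k1 c (ζ * c) (t / c - (t / c - σ (t / c)) / (ζ - σ ζ) * ζ) (by
        rw [map_sub, map_mul, e]; field_simp; ring)).add (k1 _ _ _ e).symm using 1
      field_simp; ring
    exact hasPres_le (hasPres_R P su_nd (a := 0) (b := 1) (by simp) (by decide) hasPres_SL_two h2 h1
      hu hα H2 h0 hζ (mul_ne_zero h0 (by simpa)) (hU.norm_fixed ζ) (fun t P h1 h2 h3 h4 h5 =>
        k2 1 t one_ne_zero P h1 h2 (by simpa) h4 fun t e => by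
          simpa [sq, mul_assoc, ofSU_σ] using h5 _ (h5 _ e))
      (fun r hr => ⟨r⁻¹, ζ * r⁻¹, by simp [hr, ofSU_η], fun t => k2 _ t (inv_ne_zero hr),
        fun t e => by simpa [hr] using k1 r⁻¹ r⁻¹ (t * r) (by simpa [ofSU_η, ofSU_σ] using e.symm)⟩)
      (hc.imp_right fun h t r e _ => by simpa [h] using e) hker) (by norm_num) (by norm_num)
  obtain ⟨-, A, B, hAB⟩ := exists_two_gens (K := K) ({a}ᶜ : Set (Fin m)) (by
    rw [Set.ncard_compl]; simp; omega) (Or.inr ⟨ζ, h0, fun e => hσ (by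
      rcases sq_eq_one_iff.mp e with e | e <;> simp [e])⟩)
  refine hasPres_C P su_nd (a := a) (b := ⟨1, by omega⟩) (c := ⟨2, by omega⟩) (by simp [a])
    (by simp [a]) (by simp) (k := 4) (m := 24) ?_ h2 h1 hu hα H2 (Or.inl ⟨fun A h y hy => ?_, hc⟩)
    [A, B] (by rw [← hAB]; congr 1; ext; simp) hker
  · obtain rfl | rfl | h5 : m = 3 ∨ m = 4 ∨ 5 ≤ m := by omega
    exacts [hasPres_SL_three.mono (by norm_num), hasPres_SL_four.mono (by norm_num),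
      hasPres_SL_big h5 (hasPres_two m).2]
  · obtain ⟨c, hc⟩ := hU.trace_surj (c := y) (by simpa [ofSU_η, ofSU_σ] using hy.symm)
    simpa [hc, ofSU_η, ofSU_σ, add_comm] using h c

theorem isCyclic_center_su {K : Type*} [Field K] [Fintype K] {σ : K →+* K} {q n : ℕ}
    (hU : H5.UF σ q) (hn : 0 < n) : IsCyclic (center (SU n K q)) :=
  (center_su hU hn).elim fun _ h => h.1 ▸ inferInstance

end Cfsg.Agent.H6
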