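import Cfsg.Agent.H6.PresSLTwo
import Cfsg.Agent.S2402
import Cfsg.Agent.S2403

/-! Two generators for the projective special linear groups. -/

set_option autoImplicit false

open Subgroup Matrix

namespace Cfsg.Agent.H6

variable {K : Type*} [Field K]

theorem exists_cyc_SL (n : ℕ) : ∃ w : SpecialLinearGroup (Fin (n + 1)) K,
    w.val = Matrix.of (fun i j : Fin (n + 1) => if j.val = i.val + 1 then (1 : K) else
      if i.val = n ∧ j.val = 0 then (-1) ^ n else 0) := by
  refine ⟨⟨diagonal (fun i => if i = Fin.last n then (-1) ^ n else 1) *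
    (finRotate (n + 1)).permMatrix K, ?_⟩, ?_⟩
  · rw [det_mul, det_diagonal, det_permutation, sign_finRotate, Finset.prod_ite_eq']
    simp [← mul_pow]
  · ext i j
    simp only [diagonal_mul, of_apply, Equiv.Perm.permMatrix, PEquiv.toMatrix_apply,
      Equiv.toPEquiv_apply, Option.mem_def, Option.some.injEq]
    by_cases hi : i = Fin.last n
    · subst hi
      have := j.2
      simp only [finRotate_last, Fin.val_last, if_true, true_and, Fin.ext_iff, Fin.val_zero]
      split_ifs <;> first | omega | simp
    · have h1 : i.val ≠ n := fun h => hi (Fin.ext h)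
      simp only [Fin.ext_iff, coe_finRotate_of_ne_last hi, Fin.val_last, h1, if_false, false_and]
      split_ifs <;> first | omega | simp

theorem closure_quot_eq_top {G : Type*} [Group G] {a b : G}
    (h : closure ({a, b} : Set G) ⊔ center G = ⊤) :
    closure ({(a : G ⧸ center G), (b : G ⧸ center G)} : Set (G ⧸ center G)) = ⊤ := by
  have := congrArg (Subgroup.map (QuotientGroup.mk' (center G))) h
  rw [Subgroup.map_sup, MonoidHom.map_closure, QuotientGroup.map_mk'_self, sup_bot_eq,
    map_top_of_surjective _ (QuotientGroup.mk'_surjective _), Set.image_pair] at this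
  exact this

theorem exists_two_gen_PSL [Fintype K] {n : ℕ} (hn : 2 ≤ n) :
    ∃ a b : ProjectiveSpecialLinearGroup (Fin n) K, closure {a, b} = ⊤ := by
  obtain ⟨n, rfl⟩ : ∃ k, n = k + 1 := ⟨n - 1, by omega⟩
  obtain ⟨w, hw⟩ := exists_cyc_SL (K := K) n
  have h01 : (0 : Fin (n + 1)) ≠ 1 := fun h => by
    have := congrArg Fin.val h
    rw [Fin.val_one', Nat.mod_eq_of_lt (by omega)] at this
    simp at this
  by_cases hK : Fintype.card K ≤ 3
  · exact ⟨_, _, closure_quot_eq_top (S2403.result hK n (by omega) _ w (slX_val h01 1) hw)⟩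
  · obtain ⟨k, hk⟩ := IsCyclic.exists_generator (α := Kˣ)
    refine ⟨_, _, closure_quot_eq_top (S2402.result (by omega) n (by omega) k hk (slH (k : K) 0 1)
      _ w ?_ (slX_val h01 1) hw)⟩
    rw [slH_val k.ne_zero h01]
    congr 1
    ext i
    have hv1 : (1 : Fin (n + 1)).val = 1 := by rw [Fin.val_one', Nat.mod_eq_of_lt (by omega)]
    simp only [Fin.ext_iff, hv1, Fin.val_zero, Units.val_inv_eq_inv_val]

end Cfsg.Agent.H6
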