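import Cfsg.Agent.H6.PSLTwoGen

/-! Monomial transport in `SL_n` and generators of coordinate subgroups. -/

set_option autoImplicit false

open Subgroup Matrix
open scoped commutatorElement

namespace Cfsg.Agent.H6

open H3

variable {K ι G A : Type*} [Field K] [Fintype ι] [DecidableEq ι] [Group G] [Group A]

theorem hasPres_sub {κ : Type} [Fintype κ] {k mA : ℕ} (hA : HasPres A k mA) (ψ : A →* G)
    (x : κ → G) (R : List (FreeGroup (A ⊕ κ)))
    (holds : ∀ r ∈ R, FreeGroup.lift (Sum.elim ψ x) r = 1)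
    (univ : ∀ (J : Type) [Group J] (ι : A →* J) (y : κ → J) (π : J →* G),
      (∀ r ∈ R, FreeGroup.lift (Sum.elim ι y) r = 1) → (∀ a, π (ι a) = ψ a) →
      (∀ i, π (y i) = x i) → closure (Set.range ι ∪ Set.range y) = ⊤ → Function.Injective π) :
    HasPres (closure (Set.range ψ ∪ Set.range x)) (k + Fintype.card κ) (mA + R.length) := by
  set H := closure (Set.range ψ ∪ Set.range x)
  let ψ' : A →* H := ψ.codRestrict H fun a => subset_closure (Or.inl ⟨a, rfl⟩)
  let x' : κ → H := fun i => ⟨x i, subset_closure (Or.inr ⟨i, rfl⟩)⟩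
  have e : (fun i => H.subtype (Sum.elim ψ' x' i)) = Sum.elim ψ x := by ext (i | i) <;> rfl
  refine hasPres_ext hA ψ' x' R (fun r hr => H.subtype_injective ?_) ?_
    fun J _ φ y π h1 h2 h3 h4 => ?_
  · rw [map_lift, e, holds r hr, map_one]
  · apply Subgroup.map_injective H.subtype_injective
    rw [MonoidHom.map_closure, ← MonoidHom.range_eq_map, range_subtype, Set.image_union,
      ← Set.range_comp, ← Set.range_comp]
    rfl
  · exact Function.Injective.of_comp (f := H.subtype) (univ J φ y (H.subtype.comp π) h1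
      (fun a => congrArg H.subtype (h2 a)) (fun i => congrArg H.subtype (h3 i)) h4)

/-- The underlying matrix. -/
def slM : SpecialLinearGroup ι K →* Matrix ι ι K := SpecialLinearGroup.coeMonoidHom

theorem slM_x (i j : ι) (h : i ≠ j) (t : K) : slM (slX K i j t) = transvection i j t := slX_val h t

theorem slM_inj : Function.Injective (slM : SpecialLinearGroup ι K → _) := Subtype.val_injective

theorem mem_stGG_of_fix {S : Set ι} {a b : ι} (ha : a ∉ S) (hb : b ∈ S)
    {z : SpecialLinearGroup ι K} [Finite K] (hz : z ∈ stGG (slX K) (insert a S) (insert a S))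
    (h1 : slM z *ᵥ Pi.single a 1 = Pi.single a 1) (h2 : Pi.single a 1 ᵥ* slM z = Pi.single a 1) :
    z ∈ stGG (slX K) S S := by
  have H := isSt_slX (K := K) (ι := ι)
  have hφ := slM_x (K := K) (ι := ι)
  generalize (slM : SpecialLinearGroup ι K →* _) = φ at *
  have hab : a ≠ b := fun h => ha (h ▸ hb)
  have H0 := H.toIsSt0
  obtain ⟨g, hg, m, hm, p, hp, rfl⟩ := H.stX_of_mem ha hb S.toFinite hz
  have hm1 : φ m *ᵥ Pi.single a 1 = Pi.single a 1 := by
    have : φ m = φ g⁻¹ * φ (g * m * p) * φ p⁻¹ := by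
      rw [← map_mul, ← map_mul]; congr 1; group
    rw [this, ← mulVec_mulVec, ← mulVec_mulVec, H0.col_fix φ hφ ha (inv_mem hp), h1,
      H0.col_fix φ hφ ha (inv_mem hg)]
  obtain rfl : m = 1 := by
    obtain ⟨t, ht, ⟨μ, rfl⟩ | rfl⟩ := hm
    · rw [map_mul, ← mulVec_mulVec, h_mulVec φ hφ hab ht, hφ b a hab.symm,
        transvection_mulVec'] at hm1
      have e1 := congrFun hm1 a
      have e2 := congrFun hm1 b
      simp [hab, hab.symm, ht] at e1 e2
      rw [e1, e2, (H.r1 hab).h_one, H0.zero hab.symm, one_mul]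
    · rw [(w_mulVec φ hφ hab ht).1] at hm1
      have e1 := congrFun hm1 a
      simp [hab] at e1
  have hgp : g * 1 * p ∈ stGG (slX K) (insert a S) S := by
    rw [mul_one]
    exact mul_mem (stGG_mono (Set.subset_insert _ _) le_rfl hg) hp
  obtain ⟨r, hr, g', hg', h⟩ := H0.split_P ha hgp
  rw [h] at h2 ⊢
  rwa [H0.row_inj φ hφ S.toFinite ha r hr (by
    rw [show φ r = φ (r * g') * φ g'⁻¹ by rw [← map_mul]; congr 1; group, ← vecMul_vecMul, h2,
      H0.row_fix φ hφ ha (inv_mem hg')]), one_mul]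

/-- A matrix maps the coordinate line `a` to the coordinate line `i`. -/
structure Tp (g : SpecialLinearGroup ι K) (a i : ι) (t : K) : Prop where
  ne : t ≠ 0
  col : slM g *ᵥ Pi.single a 1 = t • Pi.single i 1
  row : Pi.single i 1 ᵥ* slM g = t • Pi.single a 1

namespace Tp

variable {g g' : SpecialLinearGroup ι K} {a b i j k : ι} {t t' : K}

theorem one (a : ι) : Tp (1 : SpecialLinearGroup ι K) a a 1 := 
  ⟨one_ne_zero, by rw [map_one, one_mulVec, one_smul], by simp⟩

theorem mul (h : Tp g i k t) (h' : Tp g' a i t') : Tp (g * g') a k (t * t') :=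
  ⟨mul_ne_zero h.ne h'.ne, by
    rw [map_mul, ← mulVec_mulVec, h'.col, mulVec_smul, h.col, smul_smul,
      mul_comm], by
    rw [map_mul, ← vecMul_vecMul, h.row, smul_vecMul, h'.row, smul_smul]⟩

theorem inv (h : Tp g a i t) : Tp g⁻¹ i a t⁻¹ :=
  ⟨inv_ne_zero h.ne, by
    rw [eq_inv_smul_iff₀ h.ne, ← mulVec_smul, ← h.col, mulVec_mulVec, ← map_mul, inv_mul_cancel,
      map_one, one_mulVec], by
    rw [eq_inv_smul_iff₀ h.ne, ← smul_vecMul, ← h.row, vecMul_vecMul, ← map_mul]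
    simp⟩

theorem congr (h : Tp g a i t) (e : t = t') : Tp g a i t' := e ▸ h

theorem div (h : Tp g a i t) (h' : Tp g' a i t) : Tp (g⁻¹ * g') a a 1 :=
  (h.inv.mul h').congr (inv_mul_cancel₀ h.ne)

theorem conj (h : Tp g a i t) (h' : Tp g b j t') (hab : a ≠ b) (hij : i ≠ j) (u : K) :
    g * slX K a b u * g⁻¹ = slX K i j (t * u / t') := by
  rw [mul_inv_eq_iff_eq_mul]
  refine slM_inj (Matrix.ext_iff_mulVec.mpr fun v => ?_)
  have : (slM g *ᵥ v) j = t' * v b := by
    simpa [← dotProduct_mulVec, -single_vecMul] using congrArg (· ⬝ᵥ v) h'.row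
  rw [map_mul, map_mul, slM_x _ _ hab, slM_x _ _ hij, ← mulVec_mulVec, ← mulVec_mulVec, transvection_mulVec',
    transvection_mulVec', mulVec_add, mulVec_smul, h.col, this, smul_smul]
  have := h'.ne
  congr 2; field_simp

theorem of_stGG {T : Set ι} (hg : g ∈ stGG (slX K) T T) (ha : a ∉ T) : Tp g a a 1 :=
  ⟨one_ne_zero, (isSt0_slX.col_fix slM slM_x ha hg).trans (one_smul _ _).symm,
    (isSt0_slX.row_fix slM slM_x ha hg).trans (one_smul _ _).symm⟩

theorem of_diag {d : ι → K} (hg : slM g = diagonal d) (i : ι) (h : d i ≠ 0) : Tp g i i (d i) :=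
  ⟨h, by rw [hg, diagonal_mulVec_single]; ext; simp [Pi.single_apply],
    by rw [hg, single_vecMul_diagonal]; ext; simp [Pi.single_apply]⟩

theorem h_a (hab : a ≠ b) (ht : t ≠ 0) : Tp (slH t a b) a a t := by
  simpa using of_diag (g := slH t a b) (slH_val ht hab) a (by simpa)

theorem h_b (hab : a ≠ b) (ht : t ≠ 0) : Tp (slH t a b) b b t⁻¹ := by
  simpa [hab.symm] using of_diag (g := slH t a b) (slH_val ht hab) b (by simpa [hab.symm])

theorem h_k (hab : a ≠ b) (ht : t ≠ 0) (ha : k ≠ a) (hb : k ≠ b) : Tp (slH t a b) k k 1 := by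
  simpa [ha, hb] using of_diag (g := slH t a b) (slH_val ht hab) k (by simp [ha, hb])

variable [Finite K]

theorem mem1 (h : Tp g a a 1) (hb : b ≠ a) : g ∈ stGG (slX K) {a}ᶜ {a}ᶜ :=
  mem_stGG_of_fix (a := a) (by simp) hb (by rw [Set.insert_eq, Set.union_compl_self, stGG_slX_univ]; trivial)
    (h.col.trans (one_smul _ _)) (h.row.trans (one_smul _ _))

theorem mem2 (h : Tp g a a 1) (h' : Tp g b b 1) (hab : a ≠ b) (ha : k ≠ a) (hb : k ≠ b) :
    g ∈ stGG (slX K) {a, b}ᶜ {a, b}ᶜ :=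
  mem_stGG_of_fix (a := b) (b := k) (by simp) (by simp [ha, hb]) (by
    convert h.mem1 ha using 2 <;> ext x <;> by_cases e : x = b <;> simp [e, hab.symm])
    (h'.col.trans (one_smul _ _)) (h'.row.trans (one_smul _ _))

end Tp

theorem exists_tp (σ : Equiv.Perm ι) (d : ι → K) (hd : ∀ i, d i ≠ 0) (o : ι) :
    ∃ g : SpecialLinearGroup ι K, (∀ k, k ≠ o → Tp g k (σ k) (d k)) ∧ ∃ t, Tp g o (σ o) t := by
  let c : K := ((Equiv.Perm.sign σ : ℤ) : K) * ∏ k ∈ Finset.univ.erase o, d k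
  have hc : c ≠ 0 := mul_ne_zero (by
    rcases Int.units_eq_one_or (Equiv.Perm.sign σ) with h | h <;> simp [h])
    (Finset.prod_ne_zero_iff.mpr fun k _ => hd k)
  let d' := Function.update d o c⁻¹
  let g : SpecialLinearGroup ι K := ⟨(σ⁻¹).permMatrix K * diagonal d', by
    rw [det_mul, det_permutation, det_diagonal, ← Finset.mul_prod_erase _ _ (Finset.mem_univ o),
      Finset.prod_congr rfl fun k hk => Function.update_of_ne (Finset.ne_of_mem_erase hk) _ _,
      Equiv.Perm.sign_inv, show d' o = c⁻¹ from Function.update_self .., mul_left_comm]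
    exact inv_mul_cancel₀ hc⟩
  have hg : slM g = (σ⁻¹).permMatrix K * diagonal d' := rfl
  have h : ∀ k, d' k ≠ 0 → Tp g k (σ k) (d' k) := fun k hk => ⟨hk, by
    simp only [hg, ← mulVec_mulVec, diagonal_mulVec_single, permMatrix_mulVec]
    ext i; simp [Pi.single_apply, Equiv.symm_apply_eq], by
    simp only [hg, ← vecMul_vecMul, vecMul_permMatrix]
    ext i; by_cases e : i = k <;> simp [vecMul_diagonal, e, Equiv.Perm.inv_def]⟩
  refine ⟨g, fun k hk => ?_, _, h o (by simpa [d'] using hc)⟩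
  simpa [d', hk] using h k (by simpa [d', hk] using hd k)

theorem exists_tp2 {a b c i j : ι} (hab : a ≠ b) (hac : a ≠ c) (hbc : b ≠ c) (hij : i ≠ j)
    {t t' : K} (ht : t ≠ 0) (ht' : t' ≠ 0) :
    ∃ g : SpecialLinearGroup ι K, Tp g a i t ∧ Tp g b j t' := by
  obtain ⟨σ, hσ⟩ := Equiv.Perm.exists_extending_pair ![a, b] ![i, j]
    (by intro x y h; fin_cases x <;> fin_cases y <;> simp_all [eq_comm])
    (by intro x y h; fin_cases x <;> fin_cases y <;> simp_all [eq_comm])
  obtain ⟨g, h, -⟩ := exists_tp σ (fun k => if k = a then t else t')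
    (fun k => by split_ifs <;> assumption) c
  exact ⟨g, by simpa [show σ a = i from hσ 0] using h a hac,
    by simpa [show σ b = j from hσ 1, hab.symm] using h b hbc⟩

theorem exists_tp4 {a b c d i j k l : ι} (hab : a ≠ b) (hac : a ≠ c) (had : a ≠ d) (hbc : b ≠ c)
    (hbd : b ≠ d) (hcd : c ≠ d) (hij : i ≠ j) (hik : i ≠ k) (hil : i ≠ l) (hjk : j ≠ k)
    (hjl : j ≠ l) (hkl : k ≠ l) : ∃ (g : SpecialLinearGroup ι K) (t : K),
      Tp g a i 1 ∧ Tp g b j 1 ∧ Tp g c k 1 ∧ Tp g d l t := by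
  obtain ⟨σ, rfl, rfl, rfl, rfl⟩ := exists_perm4 hab hac had hbc hbd hcd hij hik hil hjk hjl hkl
  obtain ⟨g, h, t, h'⟩ := exists_tp σ (fun _ => (1 : K)) (fun _ => one_ne_zero) d
  exact ⟨g, t, h a had, h b hbd, h c hcd, h'⟩

theorem exists_slSub [Finite K] (T : Set ι) : ∃ θ : SpecialLinearGroup (Fin T.ncard) K →*
    SpecialLinearGroup ι K, θ.range = stGG (slX K) T T := by
  let e : Fin T.ncard ≃ T := (Finite.equivFin T).symm
  have hne : ∀ {i j}, i ≠ j → (e i).1 ≠ (e j).1 := fun h => Subtype.coe_ne_coe.mpr (e.injective.ne h)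
  have H := isSt_slX (K := K) (ι := ι)
  obtain ⟨θ, hθ⟩ := IsSt.exists_hom (x := fun i j => slX K (e i).1 (e j).1)
    ⟨⟨fun h => H.add (hne h), fun h1 h2 h3 h4 => H.comm (hne h1) (hne h2) (hne h3) (hne h4),
      fun h1 h2 h3 => H.rel (hne h1) (hne h2) (hne h3)⟩, fun h => H.r1 (hne h)⟩
  refine ⟨θ, le_antisymm ?_ (stGG_le fun i hi j hj hij t => ?_)⟩
  · rw [MonoidHom.range_eq_map, map_le_iff_le_comap, ← stGG_slX_univ]
    exact stGG_le fun i _ j _ hij t => by
      rw [mem_comap, hθ i j hij]; exact mem_stGG (e i).2 (e j).2 (hne hij) t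
  · exact ⟨slX K (e.symm ⟨i, hi⟩) (e.symm ⟨j, hj⟩) t, by
      rw [hθ _ _ (by simpa using hij)]; simp⟩

theorem exists_gens_of_pres {H : Type*} [Group H] (θ : H →* G) {k m : ℕ} (h : HasPres H k m) :
    ∃ l : List G, l.length = k ∧ closure {g | g ∈ l} = θ.range := by
  obtain ⟨f, -, hf⟩ := h
  refine ⟨List.ofFn fun i => θ (f i), by simp, ?_⟩
  rw [MonoidHom.range_eq_map, ← hf, MonoidHom.map_closure, ← Set.range_comp]
  congr 1; ext; simp [List.mem_ofFn]

theorem exists_five_gens [Fintype K] (T : Set ι) (h : 2 ≤ T.ncard) :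
    ∃ l : List (SpecialLinearGroup ι K), l.length = 5 ∧ closure {g | g ∈ l} = stGG (slX K) T T := by
  obtain ⟨θ, hθ⟩ := exists_slSub (K := K) T
  exact hθ ▸ exists_gens_of_pres θ (hasPres_SL_all h)

theorem exists_two_gens [Fintype K] (T : Set ι) (h : 2 ≤ T.ncard)
    (h' : 3 ≤ T.ncard ∨ ∃ a : K, a ≠ 0 ∧ a ^ 2 ≠ 1) : ⁅stGG (slX K) T T, stGG (slX K) T T⁆ =
      stGG (slX K) T T ∧ ∃ A B : SpecialLinearGroup ι K, closure {A, B} = stGG (slX K) T T := by
  obtain ⟨θ, hθ⟩ := exists_slSub (K := K) T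
  have hc := commutator_SL_eq_top h'
  obtain ⟨a, b, hab⟩ := exists_two_gen_PSL (K := K) h
  obtain ⟨a, rfl⟩ := QuotientGroup.mk_surjective a
  obtain ⟨b, rfl⟩ := QuotientGroup.mk_surjective b
  have h1 : ∀ g, ∃ x ∈ closure ({a, b} : Set _), ∃ z ∈ center _, g = x * z := fun g => by
    have : (g : ProjectiveSpecialLinearGroup _ K) ∈ (closure {a, b}).map (QuotientGroup.mk' _) := by
      rw [MonoidHom.map_closure, Set.image_pair]; exact hab.ge (mem_top _)
    obtain ⟨x, hx, e⟩ := this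
    exact ⟨x, hx, _, QuotientGroup.eq.mp e, by group⟩
  have h2 : closure ({a, b} : Set _) = ⊤ := by
    rw [eq_top_iff, ← hc, commutator_def, commutator_le]
    intro g _ g' _
    obtain ⟨x, hx, z, hz, rfl⟩ := h1 g
    obtain ⟨x', hx', z', hz', rfl⟩ := h1 g'
    rw [(CExt.ofSurj (QuotientGroup.mk'_surjective (center _)) (QuotientGroup.ker_mk' _).le
        ).comm_congr (a' := x) (b' := x') (by simp [hz]) (by simp [hz'])]
    exact mul_mem (mul_mem (mul_mem hx hx') (inv_mem hx)) (inv_mem hx')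
  rw [← hθ]
  exact ⟨by rw [← map_commutator_eq, hc, MonoidHom.range_eq_map], θ a, θ b, by
    rw [← Set.image_pair, ← MonoidHom.map_closure, h2, MonoidHom.range_eq_map]⟩

end Cfsg.Agent.H6
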