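import Cfsg.Agent.H6.PR3

/-! Presentations of the three-dimensional unitary groups: the Borel subgroup. -/

set_option autoImplicit false

open Subgroup Polynomial
open scoped commutatorElement

namespace Cfsg.Agent.H6

variable {J K k : Type*} [Group J] [Field K] [Field k]

theorem baumslag' {u a b : J} (hab : Commute a b) (h1 : Commute u (b * u * b⁻¹))
    (h2 : a * u * a⁻¹ = u * (b * u * b⁻¹)⁻¹) (n : ℕ) : Commute u (b ^ n * u * (b ^ n)⁻¹) := by
  have sh : ∀ n, Commute u (b ^ n * u * (b ^ n)⁻¹) →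
      Commute (b * u * b⁻¹) (b ^ (n + 1) * u * (b ^ (n + 1))⁻¹) := fun n h => by
    have := h.map (MulAut.conj b)
    simp only [MulAut.conj_apply] at this
    convert this using 1
    group
  induction n using Nat.strong_induction_on with
  | _ n ih =>
    match n, ih with
    | 0, _ => simp
    | 1, _ => simpa using h1
    | n + 2, ih =>
      have h3 := (ih (n + 1) (by omega)).map (MulAut.conj a)
      simp only [MulAut.conj_apply] at h3
      have h4 : a * (b ^ (n + 1) * u * (b ^ (n + 1))⁻¹) * a⁻¹ =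
          b ^ (n + 1) * u * (b ^ (n + 1))⁻¹ * (b ^ (n + 2) * u * (b ^ (n + 2))⁻¹)⁻¹ := by
        calc _ = (a * b ^ (n + 1)) * u * (a * b ^ (n + 1))⁻¹ := by group
          _ = b ^ (n + 1) * (a * u * a⁻¹) * (b ^ (n + 1))⁻¹ := by
            rw [(hab.pow_right _).eq]; group
          _ = _ := by rw [h2]; group
      rw [h2, h4] at h3
      have h5 := h3.mul_left ((sh n (ih n (by omega))).mul_right (sh _ (ih (n + 1) (by omega))).inv_right)
      rw [inv_mul_cancel_right] at h5
      have h6 := (ih (n + 1) (by omega)).inv_right.mul_right h5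
      rw [inv_mul_cancel_left] at h6
      simpa using h6.inv_right

theorem polyWord_rel {A : Type*} [CommRing A] {R : A → J → Prop} (h0 : R 0 1)
    (hm : ∀ {s t a b}, R s a → R t b → R (s + t) (a * b)) (hi : ∀ {s a}, R s a → R (-s) a⁻¹)
    {g : J} {ρ : A} (hg : ∀ {s a}, R s a → R (ρ * s) (g * a * g⁻¹)) {u : J} {t : A} (hu : R t u)
    (P : ℤ[X]) : R (aeval ρ P * t) (polyWord P g u) := by
  have h1 : ∀ i : ℕ, R (ρ ^ i * t) (g ^ i * u * (g ^ i)⁻¹) := fun i => by
    induction i with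
    | zero => simpa
    | succ i ih => simpa [pow_succ', mul_assoc] using hg ih
  have h2 : ∀ {s a}, R s a → ∀ n : ℤ, R (n * s) (a ^ n) := fun {s a} h n => by
    induction n using Int.induction_on with
    | zero => simpa
    | succ n ih => simpa [add_mul, zpow_add] using hm ih h
    | pred n ih => simpa [sub_mul, sub_eq_add_neg, add_mul, zpow_add] using hm ih (hi h)
  rw [aeval_eq_sum_range, polyWord]
  simp only [Algebra.smul_def, eq_intCast]
  generalize P.natDegree + 1 = n
  induction n with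
  | zero => simpa
  | succ n ih =>
    rw [List.range_succ, List.map_append, List.prod_append, Finset.sum_range_succ, add_mul]
    simpa [mul_assoc] using hm ih (h2 (h1 n) _)

theorem polyWord_mem {M : Subgroup J} {g u : J} (hg : Cj g M M) (hu : u ∈ M) (P : ℤ[X]) :
    polyWord P g u ∈ M :=
  polyWord_rel (R := fun (_ : ℤ) a => a ∈ M) (one_mem _) mul_mem inv_mem (ρ := 0) (hg _) (t := 0) hu P

variable [Finite k] {N : k} (h0 : N ≠ 0) (hN : ∀ t : k, t ≠ 0 → ∃ n : ℕ, N ^ n = t) {j : ℕ}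
  (hj : N ^ j = 1 - N)
include hN hj

theorem central_of_four {Z : k → J} (hZ : AddF Z) {g y : J} (hg : Scales g Z (N ^ 2)) {t : k}
    (h1 : g ^ j * y * (g ^ j)⁻¹ = y * (g * y * g⁻¹)⁻¹ * Z t) (h2 : ∀ i < 4, Commute y (Z (N ^ i)))
    (s : k) : Commute y (Z s) := by
  by_cases hs : s = 0
  · simp [hs, add_fam_zero hZ]
  obtain ⟨n, rfl⟩ := hN s hs
  have c := add_fam_commute hZ
  induction n using Nat.strong_induction_on with
  | _ n ih =>
    by_cases h : n < 4
    · exact h2 n h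
    obtain ⟨n, rfl⟩ : ∃ m, n = m + 4 := ⟨n - 4, by omega⟩
    have ih : ∀ i < n + 4, Commute y (Z (N ^ i)) := fun i hi => ih i hi fun e => hs (by
      rw [show n + 4 = i + (n + 4 - i) by omega, pow_add, e, zero_mul])
    have b : ∀ i < n + 4, Commute (g * y * g⁻¹) (Z (N ^ (i + 2))) := fun i hi => by
      simpa [hg _, pow_add, mul_comm (N ^ i)] using (ih i hi).map (MulAut.conj g)
    have a : ∀ i < n + 2, Commute (g ^ j * y * (g ^ j)⁻¹) (Z (N ^ (i + 2))) := fun i hi =>
      h1 ▸ ((ih _ (by omega)).mul_left (b _ (by omega)).inv_left).mul_left (c _ _)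
    have a' := (ih (n + 2) (by omega)).map (MulAut.conj (g ^ j))
    simp only [MulAut.conj_apply, hg.pow j _] at a'
    have := (((a'.mul_right (a n (by omega)).inv_right).mul_right (a (n + 1) (by omega))).mul_right
      (a (n + 1) (by omega)))
    rw [← add_fam_neg hZ, ← hZ, ← hZ, ← hZ, ← pow_mul, mul_comm 2, pow_mul, hj, h1, show
      (1 - N) ^ 2 * N ^ (n + 2) + -N ^ (n + 2) + N ^ (n + 1 + 2) + N ^ (n + 1 + 2) = N ^ (n + 4) by
      ring] at this
    simpa only [mul_inv_cancel_right, inv_mul_cancel_right] using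
      (this.mul_left (c t _).inv_left).mul_left (b (n + 2) (by omega))

include h0 in
theorem exists_rel (ι : k →+* K) {r : K} (hr : ∀ s t, ι s + ι t * r = 0 → s = 0 ∧ t = 0)
    {m A₀ A₁ : ℤ[X]} (hA : r * r = ι (aeval N A₀) + ι (aeval N A₁) * r)
    (hm : ∀ P : ℤ[X], aeval N P = 0 → ∃ a b : ℤ[X], P = a * (ringChar k : ℤ[X]) + b * m)
    {y h g : J} (c : Commute g h) (h1 : g ^ j * y * (g ^ j)⁻¹ = y * (g * y * g⁻¹)⁻¹)
    (h2 : Commute y (g * y * g⁻¹)) (h3 : y ^ ringChar k = 1) (h4 : polyWord m g y = 1)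
    (h5 : Commute y (h * y * h⁻¹)) (h6 : Commute y (h * (g * y * g⁻¹) * h⁻¹))
    (h7 : h * (h * y * h⁻¹) * h⁻¹ = polyWord A₀ g y * (h * polyWord A₁ g y * h⁻¹)) :
    ∃ R : K → J → Prop, R 1 y ∧ R 0 1 ∧ (∀ u, R 0 u → u = 1) ∧
      (∀ {s t a b}, R s a → R t b → R (s + t) (a * b)) ∧ (∀ {s a}, R s a → R (-s) a⁻¹) ∧
      ∀ {s a}, R s a → R (r * s) (h * a * h⁻¹) := by
  have su := aeval_surj_of_gen hN
  obtain ⟨x, x1, rfl, x3⟩ := exists_addFam (baumslag' ((Commute.refl g).pow_left j) h2 h1) su hm h3 h4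
  have x2 := AddF.conj x1 h
  have x4 : ∀ t, g * (h * x t * h⁻¹) * g⁻¹ = h * x (N * t) * h⁻¹ := fun t => by
    rw [← x3, conj_comm c]
  have cr : ∀ s t, Commute (x s) (h * x t * h⁻¹) := by
    refine commute_of_scales hN h0 x1 x3 x4 fun t => ?_
    by_cases ht : t = 0
    · simp [ht, add_fam_zero x1]
    obtain ⟨n, rfl⟩ := hN t ht
    clear ht
    induction n using Nat.twoStepInduction with
    | zero => simpa
    | one => simpa [x3] using h6
    | more n i1 i2 =>
      have b : ∀ {t}, Commute (x 1) (h * x t * h⁻¹) → Commute (x N) (h * x (N * t) * h⁻¹) :=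
        fun e => by simpa only [MulAut.conj_apply, x3, x4, mul_one] using e.map (MulAut.conj g)
      have a := i2.map (MulAut.conj (g ^ j))
      simp only [MulAut.conj_apply, Scales.pow x3 j _, Scales.pow x4 j _, hj, mul_one] at a
      have a' := i2.mul_left (pow_succ' N n ▸ b i1).inv_left
      rw [← add_fam_neg x1, ← x1, ← sub_eq_add_neg] at a'
      have a'' := a'.mul_right a.inv_right
      rw [conj_inv, conj_mul, ← add_fam_neg x1, ← x1, show N ^ (n + 1) + -((1 - N) * N ^ (n + 1)) = N * N ^ (n + 1) by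
        ring] at a''
      simpa only [← x1, sub_add_cancel, ← pow_succ'] using a''.mul_left (b i2)
  have x5 : ∀ t, h * (h * x t * h⁻¹) * h⁻¹ = x (aeval N A₀ * t) * (h * x (aeval N A₁ * t) * h⁻¹) :=
    AddF.ext su (x2.conj h) (fun s t => by
      simp only [mul_add, x1, ← conj_mul]; exact (cr _ _).mul_mul_mul_comm _ _)
      (by simpa only [polyWord_eq x1 x3] using h7) (fun t => by rw [← conj_comm c, x4])
      fun t => by simp only [← conj_mul, x3, x4, mul_left_comm N]
  refine ⟨fun c u => ∃ s t, c = ι s + ι t * r ∧ u = x s * (h * x t * h⁻¹),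
    ⟨1, 0, by simp, by simp [add_fam_zero x1]⟩, ⟨0, 0, by simp, by simp [add_fam_zero x1]⟩, ?_, ?_, ?_, ?_⟩
  · rintro _ ⟨s, t, e, rfl⟩
    simp [hr s t e.symm, add_fam_zero x1]
  · rintro _ _ _ _ ⟨s, t, rfl, rfl⟩ ⟨s', t', rfl, rfl⟩
    exact ⟨s + s', t + t', by simp only [map_add]; ring, by
      rw [x1, x1, ← conj_mul, (cr _ _).mul_mul_mul_comm]⟩
  · rintro _ _ ⟨s, t, rfl, rfl⟩
    exact ⟨-s, -t, by simp only [map_neg]; ring, by
      rw [add_fam_neg x1, add_fam_neg x1, ← conj_inv, (cr _ _).mul_inv]⟩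
  · rintro _ _ ⟨s, t, rfl, rfl⟩
    exact ⟨aeval N A₀ * t, s + aeval N A₁ * t, by
      simp only [map_add, map_mul]; linear_combination ι t * hA, by
      rw [← conj_mul, x5, x1, ← conj_mul, ← mul_assoc, ← (cr _ _).eq, mul_assoc]⟩

end Cfsg.Agent.H6
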