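import Cfsg.Agent.H6.PU

/-! Presentations of the three-dimensional unitary groups: the Bruhat decomposition. -/

set_option autoImplicit false

open Subgroup Polynomial
open scoped commutatorElement

namespace Cfsg.Agent.H6

open OF Frame H5

variable {K V I J : Type*} [Field K] [Fintype K] [AddCommGroup V] [Module K V] [Group J]
  {σ : K →+* K} {q : ℕ} {B : Sesq σ V} {hU : UF σ q} {hB : IsEps B 1}
  {F : Frame (ofSU hU hB) I} {π : J →* (ofSU hU hB).U} {b : I} {u₀ : V}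

/-- Unipotent elements with given coordinates. -/
def In (F : Frame (ofSU hU hB) I) (b : I) (u₀ : V) (c α : K) (g : (ofSU hU hB).U) : Prop :=
  c * σ c + α + σ α = 0 ∧ g = (ofSU hU hB).T (F.e b) (c • u₀) α

/-- Torus elements. -/
def Dt (F : Frame (ofSU hU hB) I) (b : I) (g : (ofSU hU hB).U) (t : K) : Prop :=
  t ≠ 0 ∧ g • F.e b = t • F.e b ∧ g • F.e (F.n b) = (σ t)⁻¹ • F.e (F.n b) ∧
    ∀ u, F.V0 u → g • u = (σ t / t) • u

theorem Dt.mul {g g' : (ofSU hU hB).U} {t t' : K} (h : Dt F b g t) (h' : Dt F b g' t') :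
    Dt F b (g * g') (t * t') := by
  obtain ⟨a3, a4, a5, a6⟩ := h
  obtain ⟨b3, b4, b5, b6⟩ := h'
  refine ⟨mul_ne_zero a3 b3, ?_, ?_, fun u hu => ?_⟩
  · rw [mul_smul, b4, U_smul, a4, smul_smul, mul_comm]
  · rw [mul_smul, b5, U_smul, a5, smul_smul, map_mul, mul_inv, mul_comm]
  · rw [mul_smul, b6 u hu, U_smul, a6 u hu, smul_smul, map_mul]; congr 1; ring

theorem Dt.pow {g : (ofSU hU hB).U} {t : K} (h : Dt F b g t) (n : ℕ) : Dt F b (g ^ n) (t ^ n) := by
  induction n with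
  | zero => exact ⟨by simp, by simp, by simp, by simp⟩
  | succ n ih => simpa [pow_succ] using ih.mul h

theorem Dt.unique [Finite I] (hD : ∀ i, ¬ F.D b i) {g g' : (ofSU hU hB).U} {t : K} (h : Dt F b g t)
    (h' : Dt F b g' t) : g = g' := Frame.ext (F := F) (fun i => by
  rcases cases3 (F := F) b i with rfl | rfl | e
  exacts [h.2.1.trans h'.2.1.symm, h.2.2.1.trans h'.2.2.1.symm, absurd e (hD i)])
  fun u hu => (h.2.2.2 u hu).trans (h'.2.2.2 u hu).symm

variable (H : Line F u₀)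
include H

theorem Line.ok (b : I) {c α : K} (h : c * σ c + α + σ α = 0) : F.Ok b (c • u₀) α :=
  (V0_smul' H.v0 c).ok (by
    simp only [ofSU_Λ, map_smulₛₗ, LinearMap.smul_apply, smul_eq_mul, RingHom.id_apply, H.one]
    linear_combination h) b

namespace In

variable {c α c' α' : K} {g g' : (ofSU hU hB).U}

theorem mul (h : In F b u₀ c α g) (h' : In F b u₀ c' α' g') :
    In F b u₀ (c + c') (α + α' - c' * σ c) (g * g') :=
  ⟨by simp only [map_add, map_sub, map_mul, hU.invol]; linear_combination h.1 + h'.1, by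
    rw [h.2, h'.2, (H.ok b h.1).T_mul (H.ok b h'.1).toOk, add_smul]
    simp [ofSU_η, ofSU_B, ofSU_σ, H.one, mul_comm]⟩

theorem inv (h : In F b u₀ c α g) : In F b u₀ (-c) (σ α) g⁻¹ :=
  ⟨by simp only [map_neg, hU.invol]; linear_combination h.1, by
    rw [h.2, (H.ok b h.1).T_inv]; simp [ofSU_η, ofSU_σ]⟩

theorem conj {t : K} (h : In F b u₀ c α g) (h' : Dt F b g' t) :
    In F b u₀ (σ t * (σ t / t) * c) (t * σ t * α) (g' * g * g'⁻¹) :=
  ⟨by
    have := h'.1
    have := (map_ne_zero σ).mpr h'.1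
    simp only [map_mul, map_div₀, hU.invol]; field_simp; linear_combination σ t * t * h.1, by
    rw [h.2, (H.ok b h.1).conj_T' h'.1 h'.2.1, h'.2.2.2 _ (V0_smul' H.v0 c), smul_smul, smul_smul]
    rfl⟩

theorem e (h : In F b u₀ c α g) : g • F.e b = F.e b := Q_fix ⟨_, _, H.ok b h.1, h.2⟩

theorem n (h : In F b u₀ c α g) :
    g • F.e (F.n b) = (1 : K) • F.e (F.n b) + (F.ε b * c) • u₀ + (α * F.ε b) • F.e b := by
  rw [h.2, (H.ok b h.1).T_en, smul_smul, one_smul]

theorem unique (h : In F b u₀ c α g) (h' : In F b u₀ c' α' g) : c = c' ∧ α = α' := by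
  have := W_ext ((H.v0.W b).smul _) ((H.v0.W b).smul _) ((h.n H).symm.trans (h'.n H))
  exact ⟨mul_left_cancel₀ (F.ε_ne b) (smul_left_injective K (fun e => by simpa [e] using H.one)
    this.2.1), mul_right_cancel₀ (F.ε_ne b) this.2.2⟩

omit H in
theorem one : In F b u₀ 0 0 1 := ⟨by simp, by simp [T_zero]⟩

theorem hua {s a a' u : (ofSU hU hB).U} {κ κ' γ d δ μ ν : K} (hs : Sfl F s b κ κ')
    (h1 : In F b u₀ 0 γ u) (h2 : In F b u₀ c α g) (h3 : In F b u₀ d δ a) (h4 : In F b u₀ c' α' a')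
    (e1 : (s * u * s) • F.e b = μ • (a * s) • F.e b)
    (e2 : (s * g * s) • F.e b = ν • (a * s * a' * s) • F.e b) (hc : c ≠ 0) :
    c' ≠ 0 ∧ α' * (γ - α) = α * γ := by
  have W := H.v0.W b
  have n1 := F.ε_ne b
  have n2 := hs.ne.1
  have n3 := hs.ne.2
  have n4 : u₀ ≠ 0 := fun e => by simpa [e] using H.one
  simp only [mul_smul, hs.a, U_smul, h1.n H, h2.n H, h3.n H, h4.n H, U_add, hs.na, hs.fix _ W,
    h3.e H] at e1 e2
  obtain ⟨a1, a2, a3⟩ := W_ext (a := κ * γ * F.ε b * κ) (a' := μ * κ) (W.smul 0)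
    (W.smul (μ * κ * F.ε b * d)) (c := κ * κ') (c' := μ * κ * δ * F.ε b) (by
      refine Eq.trans ?_ (e1.trans ?_) <;> module)
  have n5 : μ ≠ 0 := fun e => by simp [e, n2, n3] at a3
  obtain rfl : d = 0 := by simpa [n1, n2, n4, n5] using a2.symm
  have : a • u₀ = u₀ := by rw [h3.2, (H.ok b h3.1).T_smul]; simp [H.v0 b]
  rw [this] at e2
  obtain ⟨b1, b2, b3⟩ := W_ext (a := κ * α * F.ε b * κ) (a' := ν * κ * α' * F.ε b * κ)
    (W.smul (κ * F.ε b * c)) (W.smul (ν * κ * F.ε b * c')) (c := κ * κ')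
    (c' := ν * κ * (κ' + α' * F.ε b * κ * δ * F.ε b)) (by
      refine Eq.trans ?_ (e2.trans ?_) <;> module)
  refine ⟨fun e => by simp [e, n1, n2, n4, hc] at b2, ?_⟩
  have a4 : κ' = γ * F.ε b * κ * δ * F.ε b := mul_left_cancel₀ n2 (by
    linear_combination a3 - δ * F.ε b * a1)
  have b4 : α = ν * α' := mul_left_cancel₀ (mul_ne_zero n2 (mul_ne_zero n1 n2)) (by
    linear_combination b1)
  refine mul_left_cancel₀ (mul_ne_zero n2 n3) ?_
  linear_combination α' * γ * b3 - κ * κ' * γ * b4 - κ * κ' * α' * b4 - ν * κ * α' * α' * a4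

end In

theorem su_bn {U : Subgroup J} {y h s : J} {ζ κ κ' : K} (hζ : ∀ t : K, t ≠ 0 → ∃ n : ℕ, ζ ^ n = t)
    (hh : Dt F b (π h) ζ) (hs : Sfl F (π s) b κ κ') (img : ∀ u ∈ U, ∃ c α, In F b u₀ c α (π u))
    (inj : ∀ u ∈ U, π u = 1 → u = 1) (surj : ∀ {c α g}, In F b u₀ c α g → ∃ u ∈ U, π u = g)
    (hy : y ∈ U) (nh : Cj h U U) (t1 : h ^ orderOf ζ = 1) {k l : ℕ} (t2 : s * s = h ^ k)
    (t3 : s * h * s⁻¹ = h ^ l) {γ Y : K} (hγ : γ ≠ 0) (hY : IsPrimitiveRoot Y (q + 1))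
    (g1 : ∀ p ∈ [(0, γ), (1, -(1 * σ 1) / (1 - Y)), (ζ, -(ζ * σ ζ) / (1 - Y)),
      (ζ * ζ, -(ζ * ζ * σ (ζ * ζ)) / (1 - Y))], ∃ u ∈ U, In F b u₀ p.1 p.2 (π u) ∧
      ∃ a ∈ U, ∃ d ∈ U ⊔ zpowers h, s * u * s = a * s * d)
    (hJ : closure {y, h, s} = ⊤) : Function.Injective π := by
  have h0 := hh.1
  have fo : IsOfFinOrder h := isOfFinOrder_iff_pow_eq_one.mpr ⟨_, (isOfFinOrder_iff_pow_eq_one.mpr
    ⟨_, by have := hU.two_le; rw [hU.card, sq]; nlinarith [Nat.sub_add_cancel (show 1 ≤ q * q by nlinarith)],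
    FiniteField.pow_card_sub_one_eq_one ζ h0⟩).orderOf_pos, t1⟩
  have pw : ∀ {t}, t ∈ zpowers h → ∃ i : ℕ, h ^ i = t := fun ht =>
    fo.mem_powers_iff_mem_zpowers.mpr ht
  have nU : zpowers h ≤ normalizer (U : Set J) := by
    have : ∀ t ∈ zpowers h, Cj t U U := fun t ht => (pw ht).elim fun i e => e ▸ nh.pow i
    exact fun t ht => mem_normalizer_of_cj (this t ht) (this _ (inv_mem ht))
  have s1 : Cj s (zpowers h) (zpowers h) := fun t ht => by
    obtain ⟨i, rfl⟩ := pw ht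
    rw [← conj_pow, t3]; exact pow_mem (pow_mem (mem_zpowers h) _) _
  have s2 : s * s ∈ zpowers h := t2 ▸ pow_mem (mem_zpowers h) _
  have s3 : ∀ {t}, t ∈ zpowers h → s⁻¹ * t * s ∈ U ⊔ zpowers h := fun {t} ht => mem_sup_right (by
    simpa [mul_assoc] using s1 _ (mul_mem (mul_mem (inv_mem s2) ht) s2))
  have fx : ∀ {d}, d ∈ U ⊔ zpowers h → Mv F (π d) b b := fun hd => (sup_le
    (c := (FixL F b).comap π) (fun u hu => (img u hu).elim fun _ ⟨_, e⟩ => Mv.of_fix (e.e H))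
    (zpowers_le_of_mem ⟨_, hh.2.1⟩)) hd
  let D : J → Prop := fun g => ∃ a ∈ U, ∃ d ∈ U ⊔ zpowers h, g = a * s * d
  have dl : ∀ {d g}, d ∈ U ⊔ zpowers h → D g → D (d * g) := by
    rintro d _ hd ⟨a, ha, d', hd', rfl⟩
    obtain ⟨u, hu, t, ht, e⟩ := exists_mul_of_mem_sup nU (mul_mem hd (mem_sup_left ha))
    exact ⟨u, hu, _, mul_mem (s3 ht) hd', by rw [← mul_assoc, ← mul_assoc, e]; group⟩
  have dr : ∀ {d g}, d ∈ U ⊔ zpowers h → D g → D (g * d) := by
    rintro d _ hd ⟨a, ha, d', hd', rfl⟩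
    exact ⟨a, ha, _, mul_mem hd' hd, mul_assoc _ _ _⟩
  let G : K → K → Prop := fun c α => ∃ u ∈ U, In F b u₀ c α (π u) ∧ D (s * u * s)
  have ga : ∀ {c α u}, G c α → u ∈ U → In F b u₀ c α (π u) → D (s * u * s) := by
    rintro c α u ⟨v, hv, e, h⟩ hu e'
    rwa [mul_inv_eq_one.mp (inj _ (mul_mem hu (inv_mem hv)) (by simp [e.2, e'.2]))]
  have gc : ∀ {c α} (i : ℕ), G c α →
      G (σ (ζ ^ i) * (σ (ζ ^ i) / ζ ^ i) * c) (ζ ^ i * σ (ζ ^ i) * α) := by
    rintro c α i ⟨u, hu, e, h⟩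
    have m := pow_mem (mem_zpowers _) i |> fun (m : _ ∈ zpowers _) => And.intro m (s1 _ m)
    exact ⟨_, nh.pow i u hu, by simpa using e.conj H (hh.pow i), by
      simpa [mul_assoc] using dl (mem_sup_right m.2) (dr (s3 (inv_mem m.1)) h)⟩
  simp only [List.forall_mem_cons] at g1
  obtain ⟨g0, g1, g2, g3, -⟩ := g1
  have γ1 : σ γ = -γ := g0.elim fun _ h => by linear_combination h.2.1.1
  have z : ∀ {α}, α ≠ 0 → σ α = -α → G 0 α := fun {α} h1 h2 => by
    obtain ⟨a, ha⟩ := hU.norm_surj (c := α / γ) (by rw [map_div₀, h2, γ1, neg_div_neg_eq])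
    obtain ⟨i, rfl⟩ := hζ a fun e => div_ne_zero h1 hγ (by simpa [e] using ha.symm)
    simpa only [ha, mul_zero, div_mul_cancel₀ _ hγ] using gc i g0
  have Y1 : 1 - Y ≠ 0 := sub_ne_zero.mpr (hY.ne_one (by have := hU.pos; omega)).symm
  have y1 : ∀ {c}, c ≠ 0 → G c (-(c * σ c) / (1 - Y)) := fun {c} hc => by
    obtain ⟨n, rfl⟩ := hζ c hc
    have key : ∀ c, G c (-(c * σ c) / (1 - Y)) →
        G (ζ ^ 3 * c) (-(ζ ^ 3 * c * σ (ζ ^ 3 * c)) / (1 - Y)) := fun c h => by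
      have e : σ (ζ ^ (2 * q + 1)) = ζ ^ (q + 2) := by
        rw [map_pow, pow_succ, mul_comm 2, pow_mul, ← hU.apply, hU.invol, hU.apply, pow_add, mul_comm]
      have e' : ζ ^ (2 * q + 1) = σ ζ ^ 2 * ζ := by rw [hU.apply]; ring
      have := (map_ne_zero σ).mpr h0
      convert gc (2 * q + 1) h using 1 <;> rw [e'] <;> simp only [map_mul, map_pow, hU.invol] <;>
        field_simp
    clear hc
    induction n using Nat.strong_induction_on with
    | _ n ih =>
      match n, ih with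
      | 0, _ => simpa using g1
      | 1, _ => simpa using g2
      | 2, _ => simpa only [sq] using g3
      | n + 3, ih => simpa only [← pow_add, add_comm] using key _ (ih n (by omega))
  have Yσ : Y * σ Y = 1 := by rw [hU.norm_eq, hY.pow_eq_one]
  have all : ∀ (n : ℕ) {c α}, c ≠ 0 → c * σ c + α + σ α = 0 → σ α = -(Y ^ n * α) → G c α := fun n => by
    induction n with
    | zero => exact fun h1 h2 h3 => absurd (by simpa [h3] using h2) h1
    | succ n ih =>
      intro c α h1 h2 h3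
      obtain ⟨v, hv, e1, a', ha', d', hd', e2⟩ := y1 h1
      set β := -(c * σ c) / (1 - Y) with hβ
      have β1 : σ β = -(Y * β) := by
        rw [eq_div_iff Y1] at hβ; linear_combination e1.1 - hβ
      by_cases h4 : α = β
      · exact h4 ▸ y1 h1
      obtain ⟨u, hu, e3, a, ha, d, hd, e4⟩ := z (sub_ne_zero.mpr h4) (by
        rw [map_sub]; linear_combination h2 - e1.1)
      obtain ⟨a'', ha'', t, ht, e5⟩ := exists_mul_of_mem_sup nU
        (mul_mem (mul_mem hd (mem_sup_right (inv_mem s2))) (mem_sup_left ha'))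
      have e6 : s * (u * v) * s = a * s * a'' * s * (s⁻¹ * t * s * d') := by
        calc _ = (s * u * s) * (s * s)⁻¹ * (s * v * s) := by group
          _ = a * s * (d * (s * s)⁻¹ * a') * s * d' := by rw [e2, e4]; group
          _ = _ := by rw [e5]; group
      have e7 : In F b u₀ c α (π (u * v)) := by simpa using e3.mul H e1
      obtain ⟨c1, α1, e8⟩ := img a ha
      obtain ⟨c2, α2, e9⟩ := img a'' ha''
      obtain ⟨μ, e10⟩ := fx hd
      obtain ⟨ν, e11⟩ := fx (mul_mem (s3 ht) hd')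
      obtain ⟨e12, e13⟩ := In.hua H hs e3 e7 e8 e9 (μ := μ) (ν := ν)
        (by simpa only [map_mul, mul_smul, e10, U_smul] using congrArg (fun g => π g • F.e b) e4)
        (by rw [← map_mul, ← map_mul, e6, map_mul _ _ (_ * d'), mul_smul, e11, U_smul]; simp) h1
      refine ⟨_, mul_mem hu hv, e7, ?_⟩
      have := ga (ih e12 e9.1 ?_) ha'' e9
      · simpa [e6, mul_assoc] using dr (mul_mem (s3 ht) hd') (dl (mem_sup_left ha) this)
      have e14 := congrArg σ e13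
      have β0 : β ≠ 0 := hβ ▸ div_ne_zero (by simp [h1]) Y1
      simp only [map_mul, map_sub, β1, h3] at e14
      refine mul_left_cancel₀ (mul_ne_zero (hY.ne_zero (by omega)) β0) ?_
      linear_combination e14 - Y ^ (n + 1) * α * (h2 - e1.1 - h3 + β1) - Y ^ (n + 1) * e13
  have good : ∀ u ∈ U, u ≠ 1 → D (s * u * s) := fun u hu h1 => by
    obtain ⟨c, α, e⟩ := img u hu
    have hα : α ≠ 0 := by
      rintro rfl
      have : c = 0 := by simpa using e.1
      exact h1 (inj u hu (by simp [e.2, this, T_zero]))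
    by_cases hc : c = 0
    · exact ga (hc ▸ z hα (by simpa [hc, eq_neg_iff_add_eq_zero, add_comm] using e.1)) hu e
    obtain ⟨n, -, hn⟩ := hY.eq_pow_of_pow_eq_one (ξ := -(σ α / α)) (by
      have := (map_ne_zero σ).mpr hα
      rw [← hU.norm_eq, map_neg, map_div₀, hU.invol]; field_simp)
    exact ga (all n hc e.1 (by rw [hn]; field_simp)) hu e
  have sl : ∀ {g}, g ∈ U ⊔ zpowers h ∨ D g → s * g ∈ U ⊔ zpowers h ∨ D (s * g) := by
    rintro g (hg | ⟨a, ha, d, hd, rfl⟩)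
    · exact Or.inr ⟨1, one_mem _, g, hg, by rw [one_mul]⟩
    by_cases h1 : a = 1
    · exact Or.inl (by simpa [h1, mul_assoc] using mul_mem (mem_sup_right s2) hd)
    · exact Or.inr (by simpa [mul_assoc] using dr hd (good a ha h1))
  have bl : ∀ {d g}, d ∈ U ⊔ zpowers h → g ∈ U ⊔ zpowers h ∨ D g →
      d * g ∈ U ⊔ zpowers h ∨ D (d * g) := fun hd h => h.imp (mul_mem hd) (dl hd)
  refine (injective_iff_map_eq_one π).mpr fun g e => ?_
  have : g ∈ U ⊔ zpowers h ∨ D g := by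
    refine closure_induction_left (p := fun g _ => g ∈ U ⊔ zpowers h ∨ D g) (Or.inl (one_mem _)) ?_ ?_
      (hJ.ge (mem_top g))
    · rintro _ (rfl | rfl | rfl) g -
      exacts [bl (mem_sup_left hy), bl (mem_sup_right (mem_zpowers _)), sl]
    · rintro _ (rfl | rfl | rfl) g -
      exacts [bl (mem_sup_left (inv_mem hy)), bl (mem_sup_right (inv_mem (mem_zpowers _))),
        fun h => by simpa [mul_assoc] using bl (mem_sup_right (inv_mem s2)) (sl h)]
  rcases this with hg | ⟨a, ha, d, hd, rfl⟩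
  · obtain ⟨u, hu, t, ht, rfl⟩ := exists_mul_of_mem_sup nU hg
    obtain ⟨i, rfl⟩ := pw ht
    obtain ⟨c, α, e'⟩ := img u hu
    have := congrArg (· • F.e b) e
    simp only [map_mul, map_pow, mul_smul, (hh.pow i).2.1, U_smul, e'.e H, one_smul] at this
    obtain ⟨j, rfl⟩ := orderOf_dvd_of_pow_eq_one (F.eq_one_of_smul this)
    rw [pow_mul, t1, one_pow, mul_one] at e ⊢
    exact inj u hu e
  · have := ((fx (mem_sup_left ha)).inv.mul (e ▸ Mv.one b : Mv F (π (a * s * d)) b b)).mul (fx hd).inv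
    exact absurd (Mv.unique ⟨_, hs.a⟩ (by simpa [mul_assoc] using this)) (F.n_ne b)

end Cfsg.Agent.H6
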