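import Cfsg.Agent.H6.PU2

/-! Presentations of the three-dimensional unitary groups. -/

set_option autoImplicit false

open Subgroup Polynomial
open scoped commutatorElement

namespace Cfsg.Agent.H6

open OF Frame H5 H3

variable {K V I J : Type*} [Field K] [Fintype K] [AddCommGroup V] [Module K V] [Group J]
  {σ : K →+* K} {q : ℕ} {B : Sesq σ V} {hU : UF σ q} {hB : IsEps B 1}
  {F : Frame (ofSU hU hB) I} {π : J →* (ofSU hU hB).U} {b : I} {u₀ : V} {ζ : K}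

/-- The norm as an element of the fixed field. -/
def nm (hU : UF σ q) (t : K) : σ.eqLocusField (RingHom.id K) := ⟨t * σ t, hU.norm_fixed t⟩

variable (h0 : ζ ≠ 0) (hζ : ∀ t : K, t ≠ 0 → ∃ n : ℕ, ζ ^ n = t) (hq : q ≠ 2)
include hζ

theorem nm_gen (s : σ.eqLocusField (RingHom.id K)) (hs : s ≠ 0) : ∃ n : ℕ, nm hU ζ ^ n = s := by
  obtain ⟨c, hc⟩ := hU.norm_surj s.2
  obtain ⟨n, rfl⟩ := hζ c fun e => hs (Subtype.ext (by simpa [e] using hc.symm))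
  exact ⟨n, Subtype.ext (by simp [nm, ← hc, mul_pow])⟩

include h0 hq hU

theorem sp_r (t : K) : Sp2 (σ ζ * (σ ζ / ζ)) 1 1 t := fun P p0 p1 _ pa pm => by
  refine sp2_of_surj (aeval_cube_surj h0 hζ fun e => hq (Nat.pow_left_injective two_ne_zero
    (hU.card.symm.trans e))) one_ne_zero 1 t P p0 p1 p1 pa fun t ht => ?_
  have : ∀ n : ℕ, P ((σ ζ * (σ ζ / ζ)) ^ n * t) := fun n => by
    induction n with
    | zero => simpa
    | succ n ih => rw [pow_succ', mul_assoc]; exact pm _ ih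
  convert this (q + q + 1) using 2
  have := (map_ne_zero σ).mpr h0
  rw [pow_succ _ (q + q), pow_add, ← hU.apply]
  simp only [map_mul, map_div₀, hU.invol]
  field_simp

theorem r_ne : σ (σ ζ * (σ ζ / ζ)) - σ ζ * (σ ζ / ζ) ≠ 0 := fun e => hU.exists_ne.elim fun t ht =>
  ht (sp_r (hU := hU) h0 hζ hq t (fun t => σ t = t) (map_zero σ) (map_one σ) (map_one σ)
    (fun s t a b => by rw [map_add, a, b]) fun t a => by rw [map_mul, a, sub_eq_zero.mp e])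

variable (H : Line F u₀)
include H

theorem real_Z {y h : (ofSU hU hB).U} {α₀ : K} (hy : In F b u₀ 1 α₀ y) (hh : Dt F b h ζ) :
    ∃ Z : σ.eqLocusField (RingHom.id K) → (ofSU hU hB).U, AddF Z ∧ Z 1 = ⁅y, h * y * h⁻¹⁆ ∧
      Scales h Z (nm hU ζ) ∧ (∀ t, Z t = 1 → t = 0) ∧ (∀ t, ∃ α, In F b u₀ 0 α (Z t)) ∧
      (∀ {α g}, In F b u₀ 0 α g → ∃ t, Z t = g) ∧ ∀ {c α g}, In F b u₀ c α g → ∀ t, Commute g (Z t) := by
  have n := r_ne (hU := hU) h0 hζ hq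
  set r := σ ζ * (σ ζ / ζ)
  have l : ∀ t : σ.eqLocusField (RingHom.id K), (ofSU hU hB).Λ 0 (t * (σ r - r)) := fun t =>
    su_hc _ _ t.2 ((ofSU_Λ0 _).mpr (by simp [hU.invol]))
  refine ⟨fun t => F.Z b (t * (σ r - r)), fun s t => by simpa [add_mul] using Z_add b (l s) (l t), ?_,
    fun t => by simpa [nm, mul_assoc, ofSU_σ] using Z_conj (l t) h0 hh.2.1,
    fun t e => by simpa [n] using Z_eq_one (l t) e, fun t => ⟨t * (σ r - r), by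
      simp [ofSU_Λ0 _ |>.mp (l t), -map_mul], by simp [Frame.Z]⟩, fun {α g} e => ⟨⟨α / (σ r - r), ?_⟩, by
      simp [n, e.2, Frame.Z]⟩, fun e t => (Z_commute (l t) (e.e H)).symm⟩
  · have e := hy.conj H hh
    rw [e.2, hy.2, (H.ok b hy.1).comm_T (H.ok b e.1)]
    simp [ofSU_η, ofSU_B, ofSU_σ, H.one, r]
  · change σ _ = _
    rw [map_div₀, map_sub, hU.invol, show σ α = -α by linear_combination e.1, ← neg_sub,
      neg_div_neg_eq, RingHom.id_apply]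

theorem su_borel {y h g z : J} {α₀ : K} (hy : In F b u₀ 1 α₀ (π y)) (hh : Dt F b (π h) ζ) {j l : ℕ}
    (hj : nm hU ζ ^ j = 1 - nm hU ζ) (hl : nm hU ζ ^ l = nm hU ζ ^ 2) (hg : g = h ^ l)
    (hz : z = ⁅y, h * y * h⁻¹⁆) {m A₀ A₁ P₁ P₂ P₃ P₄ P₅ : ℤ[X]}
    (hA : σ ζ * (σ ζ / ζ) * (σ ζ * (σ ζ / ζ)) =
      ↑(aeval (nm hU ζ) A₀) + ↑(aeval (nm hU ζ) A₁) * (σ ζ * (σ ζ / ζ)))
    (hm : ∀ P : ℤ[X], aeval (nm hU ζ) P = 0 →
      ∃ a b : ℤ[X], P = a * (ringChar (σ.eqLocusField (RingHom.id K)) : ℤ[X]) + b * m)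
    (z1 : Commute z (h * z * h⁻¹)) (z2 : h ^ j * z * (h ^ j)⁻¹ = z * (h * z * h⁻¹)⁻¹)
    (z3 : z ^ ringChar (σ.eqLocusField (RingHom.id K)) = 1) (z4 : polyWord m h z = 1)
    (c : ∀ i < 4, Commute y (h ^ i * z * (h ^ i)⁻¹))
    (l1 : g ^ j * y * (g ^ j)⁻¹ = y * (g * y * g⁻¹)⁻¹ * polyWord P₁ h z)
    (l2 : Commute y (g * y * g⁻¹))
    (l3 : y ^ ringChar (σ.eqLocusField (RingHom.id K)) = 1 * polyWord P₂ h z)
    (l4 : polyWord m g y = 1 * polyWord P₃ h z)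
    (x1 : y * (h * (g * y * g⁻¹) * h⁻¹) = h * (g * y * g⁻¹) * h⁻¹ * y * polyWord P₄ h z)
    (x2 : h * (h * y * h⁻¹) * h⁻¹ =
      polyWord A₀ g y * (h * polyWord A₁ g y * h⁻¹) * polyWord P₅ h z) :
    ∃ U : Subgroup J, y ∈ U ∧ Cj h U U ∧ (∀ u ∈ U, ∃ c α, In F b u₀ c α (π u)) ∧
      (∀ u ∈ U, π u = 1 → u = 1) ∧ ∀ {c α g}, In F b u₀ c α g → ∃ u ∈ U, π u = g := by
  have gN := nm_gen (hU := hU) hζ
  have N0 : nm hU ζ ≠ 0 := fun e => by simpa [nm, h0] using congrArg Subtype.val e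
  have su := aeval_surj_of_gen gN
  obtain ⟨Z, Z1, Z2, Z3⟩ := exists_addFam (baumslag' ((Commute.refl h).pow_left j) z1 z2) su hm z3 z4
  obtain ⟨Zr, a1, a2, a3, a4, a5, a6, -⟩ := real_Z h0 hζ hq H hy hh
  have πZ : ∀ t, π (Z t) = Zr t := AddF.ext su (fun s t => by simp only [Z1, map_mul]) a1
    (by simp [Z2, a2, hz, map_commutatorElement]) (fun t => by simp only [← Z3, map_mul, map_inv]) a3
  have pw : ∀ P, polyWord P h z ∈ fr Z1 := fun P => ⟨_, by rw [← Z2, polyWord_eq Z1 Z3]⟩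
  obtain ⟨t, ht⟩ := pw P₁
  have yZ := central_of_four gN hj Z1 (hg ▸ hl ▸ Scales.pow Z3 l) (ht ▸ l1)
    fun i hi => by simpa only [← Z2, Scales.pow Z3 i _, mul_one] using c i hi
  let M := normalizer (fr Z1 : Set J)
  let y' : M := ⟨y, mem_normalizer_fr Z1 one_ne_zero (scales_one yZ)⟩
  let h' : M := ⟨h, mem_normalizer_fr Z1 N0 Z3⟩
  let μ := QuotientGroup.mk' ((fr Z1).subgroupOf M)
  have e : ∀ {a b : M} {w}, w ∈ fr Z1 → (a : J) = b * w → μ a = μ b := fun hw e =>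
    (QuotientGroup.eq.mpr (mem_subgroupOf.mpr (by simpa [e] using hw))).symm
  have cp : ∀ P (a b : M), ((polyWord P a b : M) : J) = polyWord P (a : J) b :=
    map_polyWord M.subtype
  subst hg
  obtain ⟨R, b1, b2, b3, b4, b5, b6⟩ := exists_rel N0 gN hj (Subfield.subtype _)
    (r := σ ζ * (σ ζ / ζ)) (fun s t e => by
      have e' := congrArg σ e
      rw [map_add, map_mul, map_zero, Subfield.coe_subtype, show σ _ = _ from s.2,
        show σ _ = _ from t.2] at e'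
      obtain rfl : t = 0 := Subtype.ext (mul_right_cancel₀ (r_ne (hU := hU) h0 hζ hq) (by
        simp only [RingHom.id_apply, Subfield.coe_subtype, ZeroMemClass.coe_zero] at *
        linear_combination e' - e))
      simpa using e) hA hm (y := μ y') (h := μ h') (g := μ h' ^ l) ((Commute.refl _).pow_left l)
    (by simpa only [map_mul, map_inv, map_pow] using (e (a := (h' ^ l) ^ j * y' * ((h' ^ l) ^ j)⁻¹)
      (b := y' * (h' ^ l * y' * (h' ^ l)⁻¹)⁻¹) (pw _) l1))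
    (by simpa only [map_mul, map_inv, map_pow] using (show Commute y' (h' ^ l * y' * (h' ^ l)⁻¹) from
      Subtype.ext l2).map μ)
    ((map_pow μ _ _).symm.trans (e (b := 1) (pw _) l3))
    (by simpa only [map_polyWord, map_pow, map_one] using
      (e (a := polyWord m (h' ^ l) y') (b := 1) (pw _) ((cp _ _ _).trans l4)))
    (commutatorElement_eq_one_iff_commute.mp (by
      simpa only [map_mul, map_inv, map_commutatorElement, map_one] using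
        (e (a := ⁅y', h' * y' * h'⁻¹⁆) (b := 1) ⟨1, Z2⟩ (hz.symm.trans (one_mul _).symm))))
    (by simpa only [map_mul, map_inv, map_pow, commute_iff_eq] using (e (a := y' * (h' * (h' ^ l * y' * (h' ^ l)⁻¹) *
      h'⁻¹)) (b := h' * (h' ^ l * y' * (h' ^ l)⁻¹) * h'⁻¹ * y') (pw _) x1))
    (by simpa only [map_mul, map_inv, map_pow, map_polyWord] using (e (a := h' * (h' * y' * h'⁻¹) * h'⁻¹)
      (b := polyWord A₀ (h' ^ l) y' * (h' * polyWord A₁ (h' ^ l) y' * h'⁻¹)) (pw _)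
      (by simp only [Subgroup.coe_mul, coe_inv, cp]; exact x2)))
  let S : K → M → Prop := fun c u => R c (μ u) ∧ ∃ α, In F b u₀ c α (π u)
  have s0 : S 0 1 := ⟨b2, _, by simpa using In.one⟩
  have s1 : ∀ {s t a b}, S s a → S t b → S (s + t) (a * b) := fun ⟨h1, _, h2⟩ ⟨h3, _, h4⟩ =>
    ⟨b4 h1 h3, _, by simpa using h2.mul H h4⟩
  have s2 : ∀ {s a}, S s a → S (σ ζ * (σ ζ / ζ) * s) (h' * a * h'⁻¹) := fun ⟨h1, _, h2⟩ =>
    ⟨b6 h1, _, by simpa using h2.conj H hh⟩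
  have s3 : ∀ t, S 0 ⟨Z t, le_normalizer ⟨t, rfl⟩⟩ := fun t =>
    ⟨by rw [e (b := 1) ⟨t, rfl⟩ (one_mul _).symm]; exact b2, πZ t ▸ a5 t⟩
  let U : Subgroup M :=
    { carrier := {u | ∃ c, S c u}
      one_mem' := ⟨_, s0⟩
      mul_mem' := fun ⟨_, h⟩ ⟨_, h'⟩ => ⟨_, s1 h h'⟩
      inv_mem' := fun ⟨_, h1, _, h2⟩ => ⟨_, b5 h1, _, by simpa using h2.inv H⟩ }
  refine ⟨U.map M.subtype, ⟨y', ⟨1, b1, _, hy⟩, rfl⟩, ?_, ?_, ?_, fun {c α g} hg => ?_⟩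
  · rintro _ ⟨u, ⟨c, hu⟩, rfl⟩; exact ⟨_, ⟨_, s2 hu⟩, rfl⟩
  · rintro _ ⟨u, ⟨c, hu⟩, rfl⟩; exact ⟨c, hu.2⟩
  · rintro _ ⟨u, ⟨c, h1, α, h2⟩, rfl⟩ e
    obtain rfl := (h2.unique H (e ▸ In.one)).1
    obtain ⟨t, ht⟩ := mem_subgroupOf.mp ((QuotientGroup.eq_one_iff u).mp (b3 _ h1))
    rw [coe_subtype, ← ht] at e ⊢
    rw [a4 t ((πZ t).symm.trans e), add_fam_zero Z1]
  obtain ⟨u, hu⟩ := sp_r (hU := hU) h0 hζ hq c (fun c => ∃ u, S c u) ⟨_, s0⟩ ⟨y', b1, _, hy⟩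
    ⟨y', b1, _, hy⟩ (fun _ _ ⟨_, h⟩ ⟨_, h'⟩ => ⟨_, s1 h h'⟩) fun _ ⟨_, h⟩ => ⟨_, s2 h⟩
  obtain ⟨β, hβ⟩ := hu.2
  obtain ⟨t, ht⟩ := a6 (by simpa using (hβ.inv H).mul H hg)
  exact ⟨_, ⟨_, ⟨_, s1 hu (s3 t)⟩, rfl⟩, by simp [πZ, ht]⟩

omit h0 hq in
theorem real_good (hD : ∀ i, ¬ F.D b i) {h s u : (ofSU hU hB).U} (hh : Dt F b h ζ) (hE : h ∈ F.E)
    {κ κ' c α : K} (hs : Sfl F s b κ κ') (sE : s ∈ F.E) (hu : In F b u₀ c α u) (hα : α ≠ 0) :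
    ∃ a ∈ F.Q b, ∃ d ∈ F.Q b, ∃ i : ℕ, s * u * s⁻¹ = a * s * (h ^ i * d) := by
  have m := Mv.conj_Y (mem_Mn_of_class hs.cls) ⟨_, hs.a⟩ (T_mem_Y' (V0_smul' H.v0 c) (H.ok b hu.1).mem)
  rw [← hu.2] at m
  obtain ⟨n, -, ⟨a, ha, d, hd, e⟩, ⟨μ, e1⟩, ν, e2⟩ := CSt.exists_isN m fun e =>
    hα (hu.unique H (by rw [show u = 1 by simpa using e]; exact In.one)).2
  rw [F.nn] at ha hd e1 e2
  have nE : n ∈ F.E := e ▸ mul_mem (mul_mem (Q_le_E _ ha.1) (Q_le_E _ m.1)) (Q_le_E _ hd.1)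
  rw [MonoidHom.id_apply] at e1 e2
  have n1 := (line_n e2 (by rw [F.nn, e1])).1
  obtain ⟨i, hi⟩ := hζ (ν * κ⁻¹) (mul_ne_zero n1 (inv_ne_zero hs.ne.1))
  have d1 := hh.pow i
  have := su_ker_pair (S := F.std) H inv_std.mon (g := (h ^ i)⁻¹ * (s⁻¹ * n)) (CSt.L_mono
    (fun i _ => (cases3 b i).imp_right fun h => h.resolve_right (hD i))
    (mul_mem (inv_mem (pow_mem hE i)) (mul_mem (inv_mem sE) nE)))
    (by rw [MonoidHom.id_apply, mul_smul, mul_smul, e2, U_smul, inv_smul_of_line hs.ne.1 hs.a,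
      smul_smul, inv_smul_eq_iff, d1.2.1, hi])
    (by rw [MonoidHom.id_apply, mul_smul, mul_smul, e1, U_smul, inv_smul_of_line hs.ne.2 hs.na,
      U_smul, U_smul, inv_smul_of_line (by simpa using d1.1) d1.2.2.1, smul_smul, smul_smul])
  exact ⟨_, inv_mem ha.1, _, inv_mem hd.1, i, by rw [inv_mul_eq_one.mp this, e]; group⟩

theorem hasPres_U [Finite I] (hD : ∀ i, ¬ F.D b i) : HasPres F.E 3 21 := by
  obtain ⟨h, hE, t1, t2, -, t3⟩ := H.tau b h0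
  have hh : Dt F b h ζ := ⟨h0, t1, t2, t3⟩
  obtain ⟨γ, γ0, γ1⟩ := hU.exists_trace_zero
  obtain ⟨s, sE, κ, κ', hs, hκ⟩ := exists_sfl (F := F) b ((ofSU_Λ0 _).mpr γ1) γ0
  obtain ⟨α₀, hα⟩ := hU.trace_surj (c := -1) (by simp)
  obtain ⟨y, hy⟩ : ∃ y, In F b u₀ 1 α₀ y := ⟨_, by simp [add_assoc, add_comm α₀, ← hα], rfl⟩
  obtain ⟨Y, hY⟩ := hU.exists_prim
  obtain ⟨Z, a1, a2, a3, -, a5, a6, a7⟩ := real_Z h0 hζ hq H hy hh
  have gN := nm_gen (hU := hU) hζ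
  have su := aeval_surj_of_gen gN
  have hσ := (map_ne_zero σ).mpr h0
  obtain ⟨j, hj⟩ := gN (1 - nm hU ζ) fun e => by
    obtain ⟨a, e1, e2, e3⟩ := exists_fixed_ne hU hq
    obtain ⟨n, hn⟩ := gN ⟨a, e1⟩ fun e => e2 (congrArg Subtype.val e)
    exact e3 (by simpa [← sub_eq_zero.mp e] using (congrArg Subtype.val hn).symm)
  obtain ⟨l, hl⟩ := hζ _ (mul_ne_zero h0 hσ)
  have hl' : nm hU ζ ^ l = nm hU ζ ^ 2 := Subtype.ext (by
    simp [nm, mul_pow, ← map_pow, hl, hU.invol, sq, mul_comm])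
  obtain ⟨m, m0, hm⟩ := exists_int_minpoly (nm hU ζ)
  set r := σ ζ * (σ ζ / ζ) with hr
  obtain ⟨A₀, hA₀⟩ := su (-nm hU r)
  obtain ⟨A₁, hA₁⟩ := su ⟨r + σ r, by change σ _ = _; simp [hU.invol, add_comm]⟩
  have hA : r * r = ↑(aeval (nm hU ζ) A₀) + ↑(aeval (nm hU ζ) A₁) * r := by
    rw [hA₀, hA₁]; simp [nm]; ring
  obtain ⟨k, hk⟩ := hζ (-1) (by simp)
  obtain ⟨k', hk'⟩ := hζ _ (inv_ne_zero hσ)
  set z := ⁅y, h * y * h⁻¹⁆ with hz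
  have pw := fun P => (a2 ▸ polyWord_eq a1 a3 P 1 : polyWord P h z = _)
  let R : K → (ofSU hU hB).U → Prop := fun c g => ∃ α, In F b u₀ c α g
  have r0 : R 0 1 := ⟨_, In.one⟩
  have r1 : R 1 y := ⟨_, hy⟩
  have rm : ∀ {s t a b}, R s a → R t b → R (s + t) (a * b) := fun ⟨_, h⟩ ⟨_, h'⟩ => ⟨_, h.mul H h'⟩
  have ri : ∀ {s a}, R s a → R (-s) a⁻¹ := fun ⟨_, h⟩ => ⟨_, h.inv H⟩
  have rh : ∀ {s a}, R s a → R (r * s) (h * a * h⁻¹) := fun ⟨_, h⟩ => ⟨_, h.conj H hh⟩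
  have rg : ∀ (n : ℕ) {s a}, R s a → R (↑(nm hU ζ ^ n) * s) ((h ^ l) ^ n * a * ((h ^ l) ^ n)⁻¹) :=
    fun n _ _ ⟨_, h⟩ => ⟨_, by
      simpa [hl, nm, hU.invol, mul_comm (σ ζ), h0] using h.conj H ((hh.pow l).pow n)⟩
  have rg1 : ∀ {s a}, R s a → R (↑(nm hU ζ) * s) (h ^ l * a * (h ^ l)⁻¹) := fun h => by
    simpa using rg 1 h
  have rp : ∀ P, R ↑(aeval (nm hU ζ) P) (polyWord P (h ^ l) y) := fun P => by
    have := polyWord_rel r0 rm ri rg1 r1 P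
    rwa [mul_one, show aeval (nm hU ζ : K) P = _ from aeval_algebraMap_apply K (nm hU ζ) P] at this
  have ex : ∀ {c c' a a'}, R c a → R c' a' → c = c' → ∃ P, a = a' * polyWord P h z := by
    rintro c _ a a' h1 h2 rfl
    obtain ⟨α, e⟩ := rm (ri h2) h1
    obtain ⟨t, e⟩ := a6 (neg_add_cancel c ▸ e)
    obtain ⟨P, rfl⟩ := su t
    exact ⟨P, by rw [pw, mul_one, e, mul_inv_cancel_left]⟩
  obtain ⟨P₁, l1⟩ := ex (rg j r1) (rm r1 (ri (rg1 r1))) (by simp [hj, sub_eq_add_neg])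
  have l2 : Commute y (h ^ l * y * (h ^ l)⁻¹) := by
    obtain ⟨β, e⟩ := rg1 r1
    rw [commute_iff_eq, (hy.mul H e).2, (e.mul H hy).2]
    simp [nm, hU.invol, mul_comm, add_comm]
  obtain ⟨P₂, l3⟩ := ex (c := 0) (a := y ^ ringChar (σ.eqLocusField (RingHom.id K))) (by
    have : ∀ n : ℕ, R ↑(n : σ.eqLocusField (RingHom.id K)) (y ^ n) := fun n => by
      induction n with
      | zero => simpa
      | succ n ih => simpa [pow_succ] using rm ih r1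
    simpa only [ringChar.Nat.cast_ringChar, ZeroMemClass.coe_zero] using
      this (ringChar (σ.eqLocusField (RingHom.id K)))) r0 rfl
  obtain ⟨P₃, l4⟩ := ex (rp m) r0 (by simp [m0])
  obtain ⟨P₄, x1⟩ := ex (rm r1 (rh (rg1 r1))) (rm (rh (rg1 r1)) r1) (add_comm _ _)
  obtain ⟨P₅, x2⟩ := ex (rh (rh r1)) (rm (rp A₀) (rh (rp A₁))) (by rw [mul_one, hA, mul_comm r])
  have wd : ∀ g ∈ F.Q b, ∃ w : ℤ[X] × ℤ[X], g = polyWord w.1 h y * polyWord w.2 h z := by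
    rintro _ ⟨v, α, e, rfl⟩
    obtain ⟨c, rfl⟩ := H.span v fun i => by
      rcases cases3 (F := F) b i with rfl | rfl | e'
      exacts [e.perp, e.perp', absurd e' (hD i)]
    obtain ⟨P, rfl⟩ := sp_r (hU := hU) h0 hζ hq c (fun c => ∃ P : ℤ[X], aeval r P = c) ⟨0, by simp⟩
      ⟨1, by simp⟩ ⟨1, by simp⟩ (fun _ _ ⟨P, e⟩ ⟨Q, e'⟩ => ⟨P + Q, by simp [e, e']⟩)
      fun _ ⟨P, e⟩ => ⟨X * P, by rw [map_mul, aeval_X, e]⟩
    obtain ⟨Q, e⟩ := ex ⟨α, by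
      have := e.mem
      simp only [ofSU_Λ, map_smulₛₗ, LinearMap.smul_apply, smul_eq_mul, RingHom.id_apply, H.one] at this
      linear_combination this, rfl⟩ (polyWord_rel r0 rm ri rh r1 P) (mul_one _).symm
    exact ⟨(P, Q), e⟩
  have : ∀ p : K × K, ∃ (u a d : ℤ[X] × ℤ[X]) (i : ℕ), p.1 * σ p.1 + p.2 + σ p.2 = 0 → p.2 ≠ 0 →
      In F b u₀ p.1 p.2 (polyWord u.1 h y * polyWord u.2 h z) ∧
      s * (polyWord u.1 h y * polyWord u.2 h z) * s⁻¹ = polyWord a.1 h y * polyWord a.2 h z * s *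
      (h ^ i * (polyWord d.1 h y * polyWord d.2 h z)) := fun p => by
    by_cases e : p.1 * σ p.1 + p.2 + σ p.2 = 0 ∧ p.2 ≠ 0
    swap
    · exact ⟨0, 0, 0, 0, fun h h' => absurd ⟨h, h'⟩ e⟩
    obtain ⟨a, ha, d, hd, i, e'⟩ := real_good hζ H hD hh hE hs sE ⟨e.1, rfl⟩ e.2
    obtain ⟨u, hu⟩ := wd _ ⟨_, _, H.ok b e.1, rfl⟩
    obtain ⟨a, rfl⟩ := wd a ha
    obtain ⟨d, rfl⟩ := wd d hd
    exact ⟨u, a, d, i, fun _ _ => hu ▸ ⟨⟨e.1, rfl⟩, e'⟩⟩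
  choose wu wa wd' wi hw using this
  let L : List (K × K) := [(0, γ), (1, -(1 * σ 1) / (1 - Y)), (ζ, -(ζ * σ ζ) / (1 - Y)),
    (ζ * ζ, -(ζ * ζ * σ (ζ * ζ)) / (1 - Y))]
  have hL := fun p (hp : p ∈ L) => hw p (by
    have Y1 : 1 - Y ≠ 0 := sub_ne_zero.mpr (hY.ne_one (by have := hU.pos; omega)).symm
    have Y2 : σ Y = Y⁻¹ := eq_inv_of_mul_eq_one_right (by rw [hU.norm_eq, hY.pow_eq_one])
    have Y0 := hY.ne_zero (by omega)
    have Y3 : Y - 1 ≠ 0 := fun e => Y1 (by linear_combination -e)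
    have : ∀ c, c * σ c + -(c * σ c) / (1 - Y) + σ (-(c * σ c) / (1 - Y)) = 0 := fun c => by
      rw [map_div₀, map_neg, hU.norm_fixed, map_sub, map_one, Y2]; field_simp; ring
    simp only [L, List.mem_cons, List.not_mem_nil, or_false] at hp
    rcases hp with rfl | rfl | rfl | rfl
    exacts [by simp [γ1], this _, this _, this _]) (by
    have Y1 : 1 - Y ≠ 0 := sub_ne_zero.mpr (hY.ne_one (by have := hU.pos; omega)).symm
    simp only [L, List.mem_cons, List.not_mem_nil, or_false] at hp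
    rcases hp with rfl | rfl | rfl | rfl <;> simp [γ0, Y1, h0])
  let υ : FreeGroup (PUnit.{1} ⊕ Fin 3) := .of (.inr 0)
  let η : FreeGroup (PUnit.{1} ⊕ Fin 3) := .of (.inr 1)
  let ω : FreeGroup (PUnit.{1} ⊕ Fin 3) := .of (.inr 2)
  let ξ := ⁅υ, η * υ * η⁻¹⁆
  let p := ringChar (σ.eqLocusField (RingHom.id K))
  have := hasPres_sub hasPres_unit 1 ![y, h, s] ([⁅ξ, η * ξ * η⁻¹⁆,
    η ^ j * ξ * (η ^ j)⁻¹ * (ξ * (η * ξ * η⁻¹)⁻¹)⁻¹, ξ ^ p, polyWord m η ξ,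
    (η ^ l) ^ j * υ * ((η ^ l) ^ j)⁻¹ * (υ * (η ^ l * υ * (η ^ l)⁻¹)⁻¹ * polyWord P₁ η ξ)⁻¹,
    ⁅υ, η ^ l * υ * (η ^ l)⁻¹⁆, υ ^ p * (1 * polyWord P₂ η ξ)⁻¹,
    polyWord m (η ^ l) υ * (1 * polyWord P₃ η ξ)⁻¹, υ * (η * (η ^ l * υ * (η ^ l)⁻¹) * η⁻¹) *
      (η * (η ^ l * υ * (η ^ l)⁻¹) * η⁻¹ * υ * polyWord P₄ η ξ)⁻¹, η * (η * υ * η⁻¹) * η⁻¹ *
      (polyWord A₀ (η ^ l) υ * (η * polyWord A₁ (η ^ l) υ * η⁻¹) * polyWord P₅ η ξ)⁻¹,
    η ^ orderOf ζ, ω * ω * (η ^ k)⁻¹, ω * η * ω⁻¹ * (η ^ k')⁻¹] ++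
    (List.range 4).map (fun i => ⁅υ, η ^ i * ξ * (η ^ i)⁻¹⁆) ++ L.map fun p =>
      ω * (polyWord (wu p).1 η υ * polyWord (wu p).2 η ξ) * ω⁻¹ * (polyWord (wa p).1 η υ *
      polyWord (wa p).2 η ξ * ω * (η ^ wi p * (polyWord (wd' p).1 η υ * polyWord (wd' p).2 η ξ)))⁻¹)
    ?_ fun J _ φ x π hR _ hx hJ => ?_
  · rw [le_antisymm (E_le ?_) ((closure_le F.E).mpr ?_)]
    · exact this
    · set M := closure (Set.range (1 : PUnit.{1} →* _) ∪ Set.range ![y, h, s])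
      have m : ∀ i, ![y, h, s] i ∈ M := fun i => subset_closure (Or.inr ⟨i, rfl⟩)
      have c : Cj h M M := cj_of_mem_normalizer (le_normalizer (m 1))
      have : F.Q b ≤ M := fun g hg => by
        obtain ⟨w, rfl⟩ := wd g hg
        exact mul_mem (polyWord_mem c (m 0) _) (polyWord_mem c (mul_mem (mul_mem (mul_mem (m 0)
          (c _ (m 0))) (inv_mem (m 0))) (inv_mem (c _ (m 0)))) _)
      intro i g hg
      rcases cases3 (F := F) b i with rfl | rfl | e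
      · exact this hg
      · simpa [mul_assoc] using mul_mem (mul_mem (inv_mem (m 2)) (this (conj_mem_Q hs.na
          (by rw [F.nn, hs.a]) hg))) (m 2)
      · exact absurd e (hD i)
    · rintro _ (⟨i, rfl⟩ | ⟨i, rfl⟩)
      · exact one_mem _
      · fin_cases i
        exacts [Q_le_E b ⟨_, _, H.ok b hy.1, hy.2⟩, hE, sE]
  on_goal 2 => revert hR
  all_goals
    rw [List.forall_mem_append, List.forall_mem_append, List.forall_mem_map, List.forall_mem_map]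
    simp only [List.forall_mem_cons, υ, η, ω, ξ, map_polyWord, map_one, List.mem_range,
      map_mul, map_inv, map_pow, map_commutatorElement, FreeGroup.lift_apply_of,
      Sum.elim_inr, mul_inv_eq_one, commutatorElement_eq_one_iff_commute]
  · change ((Commute z (h * z * h⁻¹) ∧ h ^ j * z * (h ^ j)⁻¹ = z * (h * z * h⁻¹)⁻¹ ∧ z ^ p = 1 ∧ _ ∧ _ ∧
      _ ∧ _ ∧ _ ∧ _ ∧ _ ∧ h ^ _ = 1 ∧ s * s = h ^ k ∧ s * h * s⁻¹ = h ^ k' ∧ _) ∧
      ∀ i < 4, Commute y (h ^ i * z * (h ^ i)⁻¹)) ∧ _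
    refine ⟨⟨⟨?_, ?_, ?_, (pw m).trans (by simp [m0, add_fam_zero a1]), l1, l2, l3, l4, x1, x2,
      (hh.pow _).unique hD (by simpa using hh.pow 0), Dt.unique hD ?_ (hk ▸ hh.pow k),
      Dt.unique hD ?_ (hk' ▸ hh.pow k'), by simp⟩, fun i _ => ?_⟩, fun p hp => (hL p hp).2⟩
    · rw [← a2, a3]; exact add_fam_commute a1 _ _
    · rw [← a2, a3, a3.pow, hj, ← add_fam_neg a1, ← a1]; ring_nf
    · rw [← a2, ← zpow_natCast, ← add_fam_zsmul' a1]; simpa [p, ringChar.Nat.cast_ringChar] using add_fam_zero a1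
    · exact ⟨by simp, by rw [mul_smul, hs.a, U_smul, hs.na, smul_smul, hκ], by
        rw [mul_smul, hs.na, U_smul, hs.a, smul_smul, mul_comm, hκ]; simp, fun u hu => by
        simp [mul_smul, hs.fix _ (hu.W b)]⟩
    · refine ⟨inv_ne_zero hσ, ?_, ?_, fun u hu => ?_⟩ <;> rw [mul_smul, mul_smul]
      · rw [inv_smul_of_line hs.ne.2 hs.na, U_smul, t2, U_smul, U_smul, hs.na, smul_comm,
          inv_smul_smul₀ hs.ne.2]
      · rw [inv_smul_of_line hs.ne.1 hs.a, U_smul, t1, U_smul, U_smul, hs.a, smul_comm,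
          inv_smul_smul₀ hs.ne.1, map_inv₀, hU.invol, inv_inv]
      · rw [inv_smul_eq_iff.mpr (hs.fix _ (hu.W b)).symm, t3 u hu, U_smul, hs.fix _ (hu.W b), map_inv₀,
          hU.invol, inv_div_inv]
    · rw [← a2, a3.pow]; exact a7 hy _
  rintro ⟨⟨⟨z1, z2, z3, z4, l1, l2, l3, l4, x1, x2, t1, t2, t3, -⟩, c⟩, g⟩
  have e0 : π (x 0) = y := hx 0
  have e1 : π (x 1) = h := hx 1
  have e2 : π (x 2) = s := hx 2
  obtain ⟨U, u1, u2, u3, u4, u5⟩ := su_borel h0 hζ hq H (π := π) (e0 ▸ hy) (e1 ▸ hh) hj hl' rfl rfl hA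
    hm z1 z2 z3 z4 c l1 l2 l3 l4 x1 x2
  have m : ∀ w : ℤ[X] × ℤ[X], polyWord w.1 (x 1) (x 0) *
      polyWord w.2 (x 1) ⁅x 0, x 1 * x 0 * (x 1)⁻¹⁆ ∈ U := fun w =>
    mul_mem (polyWord_mem u2 u1 _) (polyWord_mem u2 (mul_mem (mul_mem (mul_mem u1 (u2 _ u1))
      (inv_mem u1)) (inv_mem (u2 _ u1))) _)
  refine su_bn H hζ (e1 ▸ hh) (e2 ▸ hs) u3 u4 u5 u1 u2 t1 t2 t3 γ0 hY (fun p hp => ⟨_, m (wu p), by
    simpa only [map_mul, map_inv, map_polyWord, map_commutatorElement, e0, e1] using (hL p hp).1, _,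
    m (wa p), _, mul_mem (mul_mem (mem_sup_right (pow_mem (mem_zpowers _) (wi p)))
      (mem_sup_left (m (wd' p)))) (mem_sup_right (pow_mem (mem_zpowers _) k)), by
      rw [← t2, ← mul_assoc _ _ (x 2 * x 2), ← g p hp]; group⟩) (eq_top_iff.mpr (hJ.ge.trans ((closure_le _).mpr ?_)))
  rintro _ (⟨i, rfl⟩ | ⟨i, rfl⟩)
  · rw [Subsingleton.elim i 1, map_one]; exact one_mem _
  · fin_cases i <;> exact subset_closure (by simp)

omit h0 hζ H in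
theorem hasPres_su_three : HasPres (SU 3 K q) 3 21 := by
  have hB := isEps_hypU hU (invol_hyp 1 1)
  obtain ⟨f⟩ := exists_suEquiv hU hB (n := 3) (by simp)
  obtain ⟨ζ, h0, hζ⟩ := exists_gen K
  exact hasPres_of_equiv (f.trans ((MonoidHom.ofInjective jB_inj).trans
    (MulEquiv.subgroupCongr (jB_range (F := fSU hU 1 le_rfl) (.inl 0))))).symm
    (hasPres_U h0 hζ hq (fSU_line hU 1) (b := .inl 0) (by
      rintro (i | i) <;> simp [D, fSU, Subsingleton.elim i 0]))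

end Cfsg.Agent.H6
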