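import Cfsg.Agent.H6.CSU3
import Cfsg.Agent.H6.St2

/-! Short root subgroups obtained from a Levi subgroup and sign changes. -/

set_option autoImplicit false

open scoped commutatorElement

namespace Cfsg.Agent.H6

open OF Subgroup Frame

variable {K V I ι J : Type*} [Field K] [AddCommGroup V] [Module K V] [Group J] {O : OF K V}

/-- An element maps one frame line to another. -/
def Mv (F : Frame O I) (g : O.U) (i j : I) : Prop := ∃ c : K, g • F.e i = c • F.e j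

variable {F : Frame O I} {π : J →* O.U}

namespace Mv

variable {g g' : O.U} {i j k : I}

theorem ex (h : Mv F g i j) : ∃ c : K, c ≠ 0 ∧ g • F.e i = c • F.e j := h.imp fun c h =>
  ⟨fun e => (smul_ne_zero_iff_ne g).mpr (F.e_ne i) (by simpa [e] using h), h⟩

theorem one (i : I) : Mv F 1 i i := ⟨1, by simp⟩

theorem mul (h : Mv F g j k) (h' : Mv F g' i j) : Mv F (g * g') i k := by
  obtain ⟨c, h⟩ := h
  obtain ⟨d, h'⟩ := h'
  exact ⟨d * c, by rw [mul_smul, h', U_smul, h, mul_smul]⟩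

theorem inv (h : Mv F g i j) : Mv F g⁻¹ j i := h.ex.elim fun _ h => ⟨_, inv_smul_of_line h.1 h.2⟩

theorem unique (h : Mv F g i j) (h' : Mv F g i k) : j = k := by
  obtain ⟨c, hc, h⟩ := h.ex
  obtain ⟨d, h'⟩ := h'
  by_contra e
  have := congrArg (fun x => O.B x (F.e (F.n j))) (h.symm.trans h')
  simp [B_n', F.ε_ne, hc, F.orth (n_ne_comm e)] at this

theorem n (h : Mv F g i j) (h' : ∃ k, Mv F g (F.n i) k) : Mv F g (F.n i) (F.n j) := by
  obtain ⟨k, h'⟩ := h'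
  by_contra e
  have e' : j ≠ F.n k := fun e' => e (by rwa [e', F.nn])
  obtain ⟨c, h⟩ := h
  obtain ⟨d, h'⟩ := h'
  have := B_U g (F.e (F.n i)) (F.e i)
  rw [h, h'] at this
  exact F.pair i (by simpa [F.orth e'] using this.symm)

theorem of_fix (h : g • F.e i = F.e i) : Mv F g i i := ⟨1, by rw [h, one_smul]⟩

end Mv

variable (F) in
/-- Monomial elements. -/
def Mn : Subgroup O.U where
  carrier := {g | (∀ k, ∃ k', Mv F g k k') ∧ ∀ k, ∃ k', Mv F g k' k}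
  one_mem' := ⟨fun k => ⟨k, Mv.one k⟩, fun k => ⟨k, Mv.one k⟩⟩
  mul_mem' h h' := ⟨fun k => (h'.1 k).elim fun l e => (h.1 l).imp fun _ e' => e'.mul e,
    fun k => (h.2 k).elim fun l e => (h'.2 l).imp fun _ e' => e.mul e'⟩
  inv_mem' h := ⟨fun k => (h.2 k).imp fun _ e => e.inv, fun k => (h.1 k).imp fun _ e => e.inv⟩

theorem Mv.n' {g : O.U} (hg : g ∈ Mn F) {i j : I} (h : Mv F g i j) : Mv F g (F.n i) (F.n j) :=
  h.n (hg.1 _)

theorem Mv.D {g : O.U} (hg : g ∈ Mn F) {i j i' j' : I} (h : Mv F g i i') (h' : Mv F g j j')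
    (hd : F.D i j) : F.D i' j' :=
  ⟨fun e => hd.1 (h'.inv.unique (e ▸ h.inv)), fun e => hd.2 (h'.inv.unique (e ▸ (h.n' hg).inv))⟩

theorem mem_Mn_of_class {g : O.U} (h : ∀ k, Mv F g k k ∨ Mv F g k (F.n k)) : g ∈ Mn F := by
  have h1 : ∀ k, ∃ k', Mv F g k k' := fun k => (h k).elim (fun h => ⟨_, h⟩) fun h => ⟨_, h⟩
  exact ⟨h1, fun k => (h k).elim (fun h => ⟨_, h⟩) fun h => ⟨_, F.nn k ▸ h.n (h1 _)⟩⟩

theorem Mv.conj_xT {g : O.U} (hg : g ∈ Mn F) {i j i' j' : I} (h : Mv F g i i') (h' : Mv F g j j')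
    (hd : F.D i j) : ∃ c : K, c ≠ 0 ∧ ∀ s, g * F.xT i j s * g⁻¹ = F.xT i' j' (c * s) := by
  obtain ⟨c, hc, h1⟩ := h.ex
  obtain ⟨d, hd', h2⟩ := h'.ex
  obtain ⟨d', h3⟩ := h'.n' hg
  exact ⟨c / d, div_ne_zero hc hd', fun s => by rw [hd.conj_xT hc h1 h2 h3]; congr 1; ring⟩

theorem Frame.D.xT_inj {i j : I} (h : F.D i j) {s t : K} (e : F.xT i j s = F.xT i j t) : s = t := by
  have := h.xT_self s
  rw [e, h.xT_self, add_right_inj] at this
  exact (smul_left_injective K (F.e_ne i) this).symm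

/-- The image of an additive family. -/
def fr {x : K → J} (h : AddF x) : Subgroup J where
  carrier := Set.range x
  one_mem' := ⟨0, add_fam_zero h⟩
  mul_mem' := by rintro _ _ ⟨s, rfl⟩ ⟨t, rfl⟩; exact ⟨_, h s t⟩
  inv_mem' := by rintro _ ⟨s, rfl⟩; exact ⟨_, add_fam_neg h s⟩

/-- Conjugation maps one set into another. -/
def Cj (g : J) (A B : Set J) : Prop := ∀ y ∈ A, g * y * g⁻¹ ∈ B

theorem Cj.mul {g g' : J} {A B C : Set J} (h : Cj g B C) (h' : Cj g' A B) : Cj (g * g') A C :=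
  fun y hy => by simpa [mul_assoc] using h _ (h' y hy)

theorem Cj.one (A : Set J) : Cj 1 A A := fun y hy => by simpa using hy

theorem Cj.of_commute {g : J} {A : Set J} (h : ∀ y ∈ A, Commute g y) : Cj g A A := fun y hy => by
  rwa [(h y hy).eq, mul_inv_cancel_right]

theorem Cj.closure {g : J} {A : Set J} {B : Subgroup J} (h : Cj g A B) : Cj g (closure A) B :=
  fun _ hy => (closure_le (B.comap (MulAut.conj g).toMonoidHom)).mpr h hy

theorem mem_normalizer_of_cj {g : J} {A : Subgroup J} (h : Cj g A A) (h' : Cj g⁻¹ A A) :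
    g ∈ normalizer (A : Set J) :=
  mem_normalizer_iff.mpr fun y => ⟨h y, fun hy => by simpa [mul_assoc] using h' _ hy⟩

theorem cj_of_mem_normalizer {g : J} {A : Subgroup J} (h : g ∈ normalizer (A : Set J)) : Cj g A A :=
  fun y => (mem_normalizer_iff.mp h y).mp

/-- Short root subgroups with the relations of type `A`. -/
structure XS (F : Frame O I) (π : J →* O.U) (X : I → I → Subgroup J) : Prop where
  img : ∀ {i j g}, F.D i j → g ∈ X i j → ∃ s, π g = F.xT i j s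
  inj : ∀ {i j g}, F.D i j → g ∈ X i j → π g = 1 → g = 1
  surj : ∀ {i j}, F.D i j → ∀ s, ∃ g ∈ X i j, π g = F.xT i j s
  swap : ∀ {i j}, F.D i j → X i j ≤ X (F.n j) (F.n i)
  c1 : ∀ {i j l g g'}, F.D i j → F.D j l → F.D i l → g ∈ X i j → g' ∈ X j l → ⁅g, g'⁆ ∈ X i l
  c2 : ∀ {i j l g g'}, F.D i j → F.D i l → F.D j l → g ∈ X i j → g' ∈ X i l → Commute g g'
  c4 : ∀ {i j k l g g'}, F.D i j → F.D i k → F.D i l → F.D j k → F.D j l → F.D k l →
    g ∈ X i j → g' ∈ X k l → Commute g g'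

/-- A group of sign changes compatible with a Levi subgroup. -/
structure Flip (F : Frame O I) (π : J →* O.U) (p : ι → I) (x : ι → ι → K → J) (E : Subgroup J) :
    Prop where
  st : IsSt0 x
  D : ∀ {i j}, i ≠ j → F.D (p i) (p j)
  π_x : ∀ {i j}, i ≠ j → ∀ t, π (x i j t) = F.xT (p i) (p j) t
  cls : ∀ e ∈ E, ∀ k, Mv F (π e) k k ∨ Mv F (π e) k (F.n k)
  C : ∀ {i j}, i ≠ j → ∀ e ∈ E, Mv F (π e) (p i) (p i) → Mv F (π e) (p j) (p j) →
    Cj e (Set.range (x i j)) (Set.range (x i j))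
  Sw : ∀ {i j}, i ≠ j → ∃ e ∈ E, Mv F (π e) (p i) (F.n (p i)) ∧ Mv F (π e) (p j) (F.n (p j)) ∧
    Cj e (Set.range (x i j)) (Set.range (x j i))
  T2 : ∀ {i j}, F.D i j → ∃ e ∈ E, ∃ a b, Mv F (π e) i (p a) ∧ Mv F (π e) j (p b)
  T3 : ∀ {i j k}, F.D i j → F.D i k → F.D j k → ∃ e ∈ E, ∃ a b c, Mv F (π e) i (p a) ∧
    Mv F (π e) j (p b) ∧ Mv F (π e) k (p c)
  T4 : ∀ {i j k l}, F.D i j → F.D i k → F.D i l → F.D j k → F.D j l → F.D k l → ∃ e ∈ E, ∃ a b c d,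
    Mv F (π e) i (p a) ∧ Mv F (π e) j (p b) ∧ ∃ e' ∈ E, Mv F (π e') k (p c) ∧ Mv F (π e') l (p d) ∧
    ∀ s t, Commute (e⁻¹ * x a b s * e) (e'⁻¹ * x c d t * e')

namespace Flip

variable {p : ι → I} {x : ι → ι → K → J} {E : Subgroup J} (H : Flip F π p x E)
include H

theorem mn {e : J} (he : e ∈ E) : π e ∈ Mn F := mem_Mn_of_class (H.cls e he)

omit [Group J] H in
theorem ne {i j : ι} (h : F.D (p i) (p j)) : i ≠ j := fun e => h.1 (congrArg p e.symm)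

theorem pos_eq {e : J} (he : e ∈ E) {a b : ι} (h : Mv F (π e) (p a) (p b)) : a = b :=
  by_contra fun e' => (H.cls e he (p a)).elim (fun h' => (H.D e').1 (h.unique h'))
    fun h' => (H.D e').2 (h.unique h')

/-- The short root subgroups. -/
def X (i j : I) : Subgroup J where
  carrier := {y | ∀ e ∈ E, ∀ a b (h : a ≠ b), Mv F (π e) i (p a) → Mv F (π e) j (p b) →
    e * y * e⁻¹ ∈ fr (H.st.add h)}
  one_mem' := fun e _ a b _ _ _ => by simp
  mul_mem' := fun h h' e he a b hab h1 h2 => by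
    simpa [mul_assoc] using mul_mem (h e he a b hab h1 h2) (h' e he a b hab h1 h2)
  inv_mem' := fun h e he a b hab h1 h2 => by
    simpa [mul_assoc] using inv_mem (h e he a b hab h1 h2)

theorem cj {e : J} (he : e ∈ E) {i j i' j' : I} (h1 : Mv F (π e) i i') (h2 : Mv F (π e) j j') :
    Cj e (H.X i j) (H.X i' j') := fun y hy e' he' a b hab h3 h4 => by
  simpa [mul_assoc] using hy (e' * e) (mul_mem he' he) a b hab (map_mul π _ _ ▸ h3.mul h1)
    (map_mul π _ _ ▸ h4.mul h2)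

theorem mem_X {a b : ι} (hab : a ≠ b) {y : J} : y ∈ H.X (p a) (p b) ↔ y ∈ Set.range (x a b) := by
  refine ⟨fun h => ?_, fun h e he a' b' _ h1 h2 => ?_⟩
  · have := h 1 (one_mem _) a b hab (map_one π ▸ Mv.one _) (map_one π ▸ Mv.one _)
    rwa [one_mul, inv_one, mul_one] at this
  obtain rfl := H.pos_eq he h1
  obtain rfl := H.pos_eq he h2
  exact H.C hab e he h1 h2 y h

theorem mem_iff {e : J} (he : e ∈ E) {i j : I} {a b : ι} (hab : a ≠ b) (h1 : Mv F (π e) i (p a))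
    (h2 : Mv F (π e) j (p b)) {y : J} : y ∈ H.X i j ↔ ∃ s, y = e⁻¹ * x a b s * e := by
  refine ⟨fun h => (h e he a b hab h1 h2).imp fun s hs => by rw [hs]; group, ?_⟩
  rintro ⟨s, rfl⟩
  simpa using H.cj (inv_mem he) (map_inv π e ▸ h1.inv) (map_inv π e ▸ h2.inv) _
    ((H.mem_X hab).mpr ⟨s, rfl⟩)

theorem xs : XS F π H.X := by
  have ne : ∀ {e i j a b}, e ∈ E → F.D i j → Mv F (π e) i (p a) → Mv F (π e) j (p b) → a ≠ b :=
    fun he h h1 h2 => ne (h1.D (H.mn he) h2 h)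
  have key : ∀ {i j}, F.D i j → ∃ (f : K → J) (c : K), c ≠ 0 ∧ f 0 = 1 ∧
      (∀ s, π (f s) = F.xT i j (c * s)) ∧ ∀ y, y ∈ H.X i j ↔ ∃ s, y = f s := fun {i j} h => by
    obtain ⟨e, he, a, b, h1, h2⟩ := H.T2 h
    have hab := ne he h h1 h2
    obtain ⟨c, hc, h3⟩ := h1.inv.conj_xT (inv_mem (H.mn he)) h2.inv (H.D hab)
    exact ⟨fun s => e⁻¹ * x a b s * e, c, hc, by simp [H.st.zero hab], fun s => by
      simp [H.π_x hab, ← h3], fun y => H.mem_iff he hab h1 h2⟩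
  refine ⟨fun {i j g} h hg => ?_, fun {i j g} h hg e => ?_, fun {i j} h s => ?_,
    fun {i j} h y hy => ?_, fun {i j l g g'} ij jl il hg hg' => ?_,
    fun {i j l g g'} ij il jl hg hg' => ?_, fun {i j k l g g'} ij ik il jk jl kl hg hg' => ?_⟩
  · obtain ⟨f, c, -, -, h1, h2⟩ := key h
    obtain ⟨s, rfl⟩ := (h2 g).mp hg
    exact ⟨_, h1 s⟩
  · obtain ⟨f, c, hc, h0, h1, h2⟩ := key h
    obtain ⟨s, rfl⟩ := (h2 g).mp hg
    rwa [show s = 0 by simpa [hc] using h.xT_inj ((h1 s).symm.trans (e.trans h.xT_zero.symm))]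
  · obtain ⟨f, c, hc, -, h1, h2⟩ := key h
    exact ⟨_, (h2 _).mpr ⟨c⁻¹ * s, rfl⟩, by rw [h1, mul_inv_cancel_left₀ hc]⟩
  · obtain ⟨e, he, a, b, h1, h2⟩ := H.T2 h
    have hab := ne he h h1 h2
    obtain ⟨e', he', h3, h4, h5⟩ := H.Sw hab
    have m := H.mn (mul_mem he' he)
    have h6 := (map_mul π e' e ▸ h3.mul h1).n' m
    have h7 := (map_mul π e' e ▸ h4.mul h2).n' m
    rw [F.nn] at h6 h7
    obtain ⟨t, ht⟩ := h5 _ (hy e he a b hab h1 h2)
    exact (H.mem_iff (mul_mem he' he) hab.symm h7 h6).mpr ⟨t, by rw [ht]; group⟩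
  · obtain ⟨e, he, a, b, c, h1, h2, h3⟩ := H.T3 ij il jl
    obtain ⟨s, rfl⟩ := (H.mem_iff he (ne he ij h1 h2) h1 h2).mp hg
    obtain ⟨t, rfl⟩ := (H.mem_iff he (ne he jl h2 h3) h2 h3).mp hg'
    refine (H.mem_iff he (ne he il h1 h3) h1 h3).mpr ⟨s * t, ?_⟩
    rw [← H.st.rel (ne he ij h1 h2) (ne he jl h2 h3) (ne he il h1 h3), commutatorElement_def]
    group
  · obtain ⟨e, he, a, b, c, h1, h2, h3⟩ := H.T3 ij il jl
    obtain ⟨s, rfl⟩ := (H.mem_iff he (ne he ij h1 h2) h1 h2).mp hg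
    obtain ⟨t, rfl⟩ := (H.mem_iff he (ne he il h1 h3) h1 h3).mp hg'
    simpa using (H.st.comm (ne he ij h1 h2) (ne he il h1 h3) (ne he il h1 h3)
      (ne he ij h1 h2).symm s t).map (MulAut.conj e⁻¹)
  · obtain ⟨e, he, a, b, c, d, h1, h2, e', he', h3, h4, h5⟩ := H.T4 ij ik il jk jl kl
    obtain ⟨s, rfl⟩ := (H.mem_iff he (ne he ij h1 h2) h1 h2).mp hg
    obtain ⟨t, rfl⟩ := (H.mem_iff he' (ne he' kl h3 h4) h3 h4).mp hg'
    exact h5 s t

end Flip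

theorem mem_or_of_sup {H : Subgroup J} {A g : J} (h1 : ∀ h ∈ H, Commute A h) (h2 : A ^ 2 ∈ H)
    (hg : g ∈ H ⊔ zpowers A) : g ∈ H ∨ g * A⁻¹ ∈ H := by
  obtain ⟨r, hr, _, ⟨k, rfl⟩, rfl⟩ := exists_mul_of_mem_sup (zpowers_le_of_mem
    (mem_normalizer_of_cj (Cj.of_commute h1) (Cj.of_commute fun y hy => (h1 y hy).inv_left))) hg
  obtain ⟨m, rfl | rfl⟩ := Int.even_or_odd' k
  · exact Or.inl (mul_mem hr (by simpa [zpow_mul] using zpow_mem h2 m))
  · exact Or.inr (by simpa [zpow_add, zpow_mul, mul_assoc] using mul_mem hr (zpow_mem h2 m))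

theorem mem_of_fix {E H : Subgroup J} (hE : ∀ a ∈ E, ∀ b ∈ E, Commute a b) {A B : J} (hA : A ∈ E)
    (hB : B ∈ E) {i j : I} (hH : ∀ h ∈ H, Mv F (π h) i i ∧ Mv F (π h) j j)
    (a1 : Mv F (π A) i (F.n i)) (b1 : Mv F (π B) i i) (b2 : Mv F (π B) j (F.n j)) (a3 : A ^ 2 ∈ H)
    (b3 : B ^ 2 ∈ H) (h : E ≤ (H ⊓ E ⊔ zpowers B) ⊔ zpowers A) {e : J} (he : e ∈ E)
    (e1 : Mv F (π e) i i) (e2 : Mv F (π e) j j) : e ∈ H := by
  have k1 : ∀ g ∈ H ⊓ E ⊔ zpowers B, g ∈ H ⊓ E ∨ g * B⁻¹ ∈ H ⊓ E := fun g =>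
    mem_or_of_sup (fun h hh => hE _ hB _ hh.2) ⟨b3, pow_mem hB 2⟩
  have k2 : H ⊓ E ⊔ zpowers B ≤ E := sup_le inf_le_right (zpowers_le_of_mem hB)
  have k3 : ∀ {g C k}, Mv F (π g) k k → Mv F (π (g * C⁻¹)) k k → Mv F (π C) k k :=
    fun {g C k} h h' => by simpa using h'.inv.mul h
  rcases mem_or_of_sup (fun h hh => hE _ hA _ (k2 hh)) (mem_sup_left ⟨a3, pow_mem hA 2⟩) (h he)
    with h1 | h1
  · exact (k1 e h1).elim (fun h => h.1) fun h2 =>
      absurd (b2.unique (k3 e2 (hH _ h2.1).2)) (F.n_ne j)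
  · refine absurd (a1.unique (k3 e1 ?_)) (F.n_ne i)
    refine (k1 _ h1).elim (fun h => (hH _ h.1).1) fun h => ?_
    simpa using (hH _ h.1).1.mul b1

end Cfsg.Agent.H6
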