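import Cfsg.Agent.H6.PresCore
import Cfsg.Agent.H6.StMult

/-! Bounded presentations of `SL_n`, `n ≥ 4`. -/

set_option autoImplicit false

open Polynomial Equiv Matrix Subgroup
open scoped commutatorElement

namespace Cfsg.Agent.H6

open H3

variable {J K ι : Type*} [Group J] [Field K] [Fintype ι] [DecidableEq ι]

theorem exists_perm4 {a b c d i j k l : ι} (hab : a ≠ b) (hac : a ≠ c) (had : a ≠ d) (hbc : b ≠ c)
    (hbd : b ≠ d) (hcd : c ≠ d) (hij : i ≠ j) (hik : i ≠ k) (hil : i ≠ l) (hjk : j ≠ k)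
    (hjl : j ≠ l) (hkl : k ≠ l) : ∃ τ : Perm ι, τ a = i ∧ τ b = j ∧ τ c = k ∧ τ d = l := by
  obtain ⟨τ, hτ⟩ := Perm.exists_extending_pair ![a, b, c, d] ![i, j, k, l]
    (by
      intro x y h
      fin_cases x <;> fin_cases y <;> simp_all [eq_comm])
    (by
      intro x y h
      fin_cases x <;> fin_cases y <;> simp_all [eq_comm])
  exact ⟨τ, hτ 0, hτ 1, hτ 2, hτ 3⟩

theorem alt_transport {P : ι → ι → ι → ι → Prop}
    (hP : ∀ σ : alternatingGroup ι, ∀ i j k l, i ≠ j → i ≠ k → i ≠ l → j ≠ k → j ≠ l → k ≠ l →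
      P i j k l → P (σ.1 i) (σ.1 j) (σ.1 k) (σ.1 l))
    {a b c d : ι} (hab : a ≠ b) (hac : a ≠ c) (had : a ≠ d) (hbc : b ≠ c) (hbd : b ≠ d)
    (hcd : c ≠ d) (h1 : P a b c d) {x y : ι} (hxy : x ≠ y)
    (h2 : P (swap x y a) (swap x y b) (swap x y c) (swap x y d)) {i j k l : ι} (hij : i ≠ j)
    (hik : i ≠ k) (hil : i ≠ l) (hjk : j ≠ k) (hjl : j ≠ l) (hkl : k ≠ l) : P i j k l := by
  obtain ⟨τ, rfl, rfl, rfl, rfl⟩ := exists_perm4 hab hac had hbc hbd hcd hij hik hil hjk hjl hkl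
  by_cases hτ : Perm.sign τ = 1
  · exact hP ⟨τ, hτ⟩ _ _ _ _ hab hac had hbc hbd hcd h1
  · have := hP ⟨τ * swap x y, by
      rw [Perm.mem_alternatingGroup, map_mul, Perm.sign_swap hxy,
        (Int.units_eq_one_or _).resolve_left hτ]; simp⟩ _ _ _ _ (by simpa) (by simpa) (by simpa)
      (by simpa) (by simpa) (by simpa) h2
    simpa using this

theorem exists_fourth {a b c d : ι} (hab : a ≠ b) (hac : a ≠ c) (had : a ≠ d) (hbc : b ≠ c)
    (hbd : b ≠ d) (hcd : c ≠ d) (i j k : ι) : ∃ l, i ≠ l ∧ j ≠ l ∧ k ≠ l := by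
  by_contra h
  have h' : ∀ l, i = l ∨ j = l ∨ k = l := fun l => by
    by_contra h'
    push Not at h'
    exact h ⟨l, h'⟩
  rcases h' a with h1 | h1 | h1 <;> rcases h' b with h2 | h2 | h2 <;>
    rcases h' c with h3 | h3 | h3 <;> rcases h' d with h4 | h4 | h4 <;> simp_all

theorem exists_two_gen_fix (p : ι → Prop) : ∃ s t : alternatingGroup ι,
    (∀ x, ¬ p x → s.1 x = x ∧ t.1 x = x) ∧
      ∀ g : alternatingGroup ι, (∀ x, ¬ p x → g.1 x = x) → g ∈ closure {s, t} := by
  classical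
  let e := (Fintype.equivFin (Subtype p)).symm
  obtain ⟨f, -, hf⟩ := (hasPres_two (Fintype.card (Subtype p))).2
  let φ : alternatingGroup (Fin (Fintype.card (Subtype p))) →* alternatingGroup ι :=
    ((Perm.extendDomainHom e).comp (alternatingGroup _).subtype).codRestrict _ fun g => by
      rw [Perm.mem_alternatingGroup]
      exact (Perm.sign_extendDomain _ _).trans g.2
  refine ⟨φ (f 0), φ (f 1), fun x hx => ⟨Perm.extendDomain_apply_not_subtype _ _ hx,
    Perm.extendDomain_apply_not_subtype _ _ hx⟩, fun g hg => ?_⟩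
  have h2 : ∀ x, g.1 x ≠ x → p x := fun x hx => by_contra fun h => hx (hg x h)
  have h1 : ∀ x, p (g.1 x) ↔ p x := fun x => by
    constructor
    · intro h; by_contra h'; rw [hg x h'] at h; exact h' h
    · intro h; by_contra h'
      have := g.1.injective (hg _ h')
      rw [this] at h'; exact h' h
  let g' : alternatingGroup (Fin (Fintype.card (Subtype p))) :=
    ⟨e.symm.permCongr (g.1.subtypePerm h1), by
      rw [Perm.mem_alternatingGroup, Perm.sign_permCongr, Perm.sign_subtypePerm _ _ h2]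
      exact g.2⟩
  have : φ g' = g := by
    apply Subtype.ext
    ext x
    by_cases hx : p x
    · change (Perm.extendDomain _ e) x = _
      rw [Perm.extendDomain_apply_subtype _ _ hx]
      simp [g']
    · exact (Perm.extendDomain_apply_not_subtype _ _ hx).trans (hg x hx).symm
  rw [← this]
  have h3 : g' ∈ closure (Set.range f) := hf ▸ mem_top _
  have h4 := mem_map_of_mem φ h3
  rw [MonoidHom.map_closure] at h4
  refine closure_mono ?_ h4
  rintro _ ⟨_, ⟨i, rfl⟩, rfl⟩
  fin_cases i <;> simp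

/-- The conjugates of an element by chosen group elements. -/
def famOf {A Ω : Type*} (φ : A → J) (sg : Ω → Ω → A) (u : J) (i j : Ω) : J :=
  φ (sg i j) * u * (φ (sg i j))⁻¹

theorem map_famOf {A Ω J' : Type*} [Group J'] (ψ : J →* J') (φ : A → J) (sg : Ω → Ω → A) (u : J)
    (i j : Ω) : ψ (famOf φ sg u i j) = famOf (fun a => ψ (φ a)) sg (ψ u) i j := by
  simp [famOf]

theorem famOf_eq {A Ω : Type*} [Group A] [MulAction A Ω] (φ : A →* J) {sg : Ω → Ω → A} {u : J}
    {a b : Ω} (hu : ∀ σ, σ • a = a → σ • b = b → Commute (φ σ) u) {i j : Ω}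
    (hs : sg i j • a = i ∧ sg i j • b = j) {σ : A} (h1 : σ • a = i) (h2 : σ • b = j) :
    φ σ * u * (φ σ)⁻¹ = famOf φ sg u i j := by
  have := (hu (σ⁻¹ * sg i j) (by rw [mul_smul, hs.1, inv_smul_eq_iff, h1])
    (by rw [mul_smul, hs.2, inv_smul_eq_iff, h2])).eq
  rw [map_mul, map_inv] at this
  calc _ = φ σ * (u * ((φ σ)⁻¹ * φ (sg i j))) * (φ (sg i j))⁻¹ := by group
    _ = _ := by rw [← this, famOf]; group

theorem famOf_conj {A Ω : Type*} [Group A] [MulAction A Ω] (φ : A →* J) {sg : Ω → Ω → A} {u : J}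
    {a b : Ω} (hu : ∀ σ, σ • a = a → σ • b = b → Commute (φ σ) u) {i j : Ω}
    (hs : sg i j • a = i ∧ sg i j • b = j) (σ : A)
    (hs' : sg (σ • i) (σ • j) • a = σ • i ∧ sg (σ • i) (σ • j) • b = σ • j) :
    φ σ * famOf φ sg u i j * (φ σ)⁻¹ = famOf φ sg u (σ • i) (σ • j) := by
  rw [← famOf_eq φ hu hs' (σ := σ * sg i j) (by rw [mul_smul, hs.1]) (by rw [mul_smul, hs.2]),
    famOf, map_mul]
  group

theorem exists_sg {a b c d : ι} (hab : a ≠ b) (hac : a ≠ c) (had : a ≠ d) (hbc : b ≠ c)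
    (hbd : b ≠ d) (hcd : c ≠ d) : ∃ sg : ι → ι → alternatingGroup ι,
      ∀ i j, i ≠ j → sg i j • a = i ∧ sg i j • b = j := by
  have : ∀ i j, ∃ σ : alternatingGroup ι, i ≠ j → σ • a = i ∧ σ • b = j := fun i j => by
    by_cases hij : i = j
    · exact ⟨1, fun h => absurd hij h⟩
    obtain ⟨k, hik, hjk, -⟩ := exists_fourth hab hac had hbc hbd hcd i j j
    obtain ⟨l, hil, hjl, hkl⟩ := exists_fourth hab hac had hbc hbd hcd i j k
    obtain ⟨σ, h⟩ := alt_transport
      (P := fun i j _ _ => ∃ σ : alternatingGroup ι, σ • a = i ∧ σ • b = j)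
      (fun τ i j _ _ _ _ _ _ _ _ ⟨σ, h1, h2⟩ =>
        ⟨τ * σ, by rw [mul_smul, h1]; rfl, by rw [mul_smul, h2]; rfl⟩)
      hab hac had hbc hbd hcd ⟨1, rfl, rfl⟩ hcd
      ⟨1, by simp [swap_apply_of_ne_of_ne, hac, had], by simp [swap_apply_of_ne_of_ne, hbc, hbd]⟩
      hij hik hil hjk hjl hkl
    exact ⟨σ, fun _ => h⟩
  choose sg h using this
  exact ⟨sg, h⟩

theorem alt_normal_eq_top {a b c d : ι} (hab : a ≠ b) (hac : a ≠ c) (had : a ≠ d) (hbc : b ≠ c)
    (hbd : b ≠ d) (hcd : c ≠ d) (N : Subgroup (alternatingGroup ι)) [hN : N.Normal]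
    {g : alternatingGroup ι} (hg : g ∈ N) {x y z : ι} (hxy : x ≠ y) (hxz : x ≠ z) (hyz : y ≠ z)
    (h : g.1 = c3 x y z) : N = ⊤ := by
  have key : Full (N.map (alternatingGroup ι).subtype) Set.univ := by
    intro i _ j _ k _ hij hik hjk
    obtain ⟨w, hxw, hyw, hzw⟩ := exists_fourth hab hac had hbc hbd hcd x y z
    obtain ⟨l, hil, hjl, hkl⟩ := exists_fourth hab hac had hbc hbd hcd i j k
    refine alt_transport (P := fun i j k _ => c3 i j k ∈ N.map (alternatingGroup ι).subtype)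
      (fun σ i j k _ _ _ _ _ _ _ ⟨n, hn, e⟩ => ⟨σ * n * σ⁻¹, hN.conj_mem _ hn _, by
        rw [← c3_conj, ← e]; rfl⟩) hxy hxz hxw hyz hyw hzw ⟨g, hg, h⟩ hyz ?_ hij hik hil hjk hjl hkl
    rw [swap_apply_of_ne_of_ne hxy hxz, swap_apply_left, swap_apply_right]
    exact c3_mem_swap ⟨g, hg, h⟩
  rw [eq_top_iff]
  intro g _
  obtain ⟨n, hn, e⟩ := key.alternatingGroup_le g.2
  rwa [← Subtype.ext e]

/-- Sign twisted permutation matrices. -/
noncomputable def permSL (K : Type*) [Field K] {A : Type*} [Group A] (ρ : A →* Perm ι)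
    (s : A →* K) (hs : ∀ a, s a ^ Fintype.card ι * ((Perm.sign (ρ a) : ℤ) : K) = 1) :
    A →* SpecialLinearGroup ι K where
  toFun a := ⟨s a • permMatrixHom (ρ a), by
    rw [det_smul, permMatrixHom_apply, det_permutation, Perm.sign_inv]; exact hs a⟩
  map_one' := Subtype.ext (by simp)
  map_mul' a b := Subtype.ext (by
    change _ = (s a • permMatrixHom (ρ a)) * (s b • permMatrixHom (ρ b))
    simp only [map_mul, smul_mul_smul_comm])

theorem permSL_conj {A : Type*} [Group A] (ρ : A →* Perm ι) (s : A →* K)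
    (hs : ∀ a, s a ^ Fintype.card ι * ((Perm.sign (ρ a) : ℤ) : K) = 1) (a : A) {i j : ι}
    (hij : i ≠ j) (t : K) :
    permSL K ρ s hs a * slX K i j t * (permSL K ρ s hs a)⁻¹ = slX K (ρ a i) (ρ a j) t := by
  rw [mul_inv_eq_iff_eq_mul]
  apply Subtype.ext
  change (s a • permMatrixHom (ρ a)) * (slX K i j t).val =
    (slX K _ _ t).val * (s a • permMatrixHom (ρ a))
  rw [slX_val hij, slX_val ((ρ a).injective.ne hij), smul_mul_assoc, mul_smul_comm]
  congr 1
  refine Matrix.ext_iff_mulVec.mpr fun v => ?_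
  simp only [← mulVec_mulVec, permMatrixHom_apply, permMatrix_mulVec, transvection_mulVec']
  ext k
  simp [Pi.single_apply, Equiv.symm_apply_eq]

theorem conj_stH {G : Type*} [Group G] (g : G) {x y x' y' : K → G}
    (hx : ∀ t, g * x t * g⁻¹ = x' t) (hy : ∀ t, g * y t * g⁻¹ = y' t) (t : K) :
    g * stH x y t * g⁻¹ = stH x' y' t := by
  simp only [stH, stW, ← hx, ← hy]; group

/-- The diagonal elements `h_ij(ζ)` of the special linear group. -/
def slH (ζ : K) (i j : ι) : SpecialLinearGroup ι K := stH (slX K i j) (slX K j i) ζ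

theorem slH_val {ζ : K} (hζ : ζ ≠ 0) {i j : ι} (hij : i ≠ j) : (slH ζ i j).val =
    diagonal fun k => if k = i then ζ else if k = j then ζ⁻¹ else 1 := by
  rw [slH, stH_slX hij hζ]; rfl

theorem slH_t1 {ζ : K} (hζ : ζ ≠ 0) {i j k : ι} (hij : i ≠ j) (hik : i ≠ k) (hjk : j ≠ k) :
    slH ζ i k = slH ζ i j * slH ζ j k := by
  apply Subtype.ext
  change _ = (slH ζ i j).val * (slH ζ j k).val
  rw [slH_val hζ hij, slH_val hζ hik, slH_val hζ hjk, diagonal_mul_diagonal]
  congr 1; ext l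
  split_ifs <;> simp_all

theorem slH_commute {ζ : K} (hζ : ζ ≠ 0) {i j k l : ι} (hij : i ≠ j) (hkl : k ≠ l) :
    Commute (slH ζ i j) (slH ζ k l) := by
  apply Subtype.ext
  change (slH ζ i j).val * (slH ζ k l).val = (slH ζ k l).val * (slH ζ i j).val
  rw [slH_val hζ hij, slH_val hζ hkl, diagonal_mul_diagonal, diagonal_mul_diagonal]
  congr 1; ext; ring

theorem slH_a1 {ζ : K} (hζ : ζ ≠ 0) {i j k : ι} (hij : i ≠ j) (hik : i ≠ k) (hjk : j ≠ k) :
    Scales (slH ζ i k) (slX K i j) ζ := isSt0_slX.h_aj hik hij hjk.symm hζ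

theorem slH_t4 {ζ : K} (hζ : ζ ≠ 0) {i j k : ι} (hij : i ≠ j) (hik : i ≠ k) (hjk : j ≠ k) :
    Scales (slH ζ i k * slH ζ j k) (slX K i j) 1 := by
  have := (slH_a1 hζ hij hik hjk).mul (isSt0_slX.h_ia hjk hij hik hζ)
  rwa [mul_inv_cancel₀ hζ] at this

theorem inj_of_rootF [Finite K] {A : Type*} [Group A] [MulAction A ι] (φ : A →* J) {h : ι → ι → J}
    {ζ : K} (hζ0 : ζ ≠ 0) (hζ : ∀ t : K, t ≠ 0 → ∃ n : ℕ, ζ ^ n = t) {x : ι → ι → K → J}
    (T : TorF id h) (R : RootF id h ζ x) (H : IsSt0 x)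
    (hT : ∀ i j k l, i ≠ j → k ≠ l → ∃ c, Scales (h i j) (x k l) c)
    (hx : ∀ σ i j, i ≠ j → φ σ * x i j 1 * (φ σ)⁻¹ = x (σ • i) (σ • j) 1)
    (hh : ∀ σ i j, i ≠ j → φ σ * h i j * (φ σ)⁻¹ = h (σ • i) (σ • j))
    (π : J →* SpecialLinearGroup ι K) (hπx : ∀ i j, i ≠ j → π (x i j 1) = slX K i j 1)
    (hπh : ∀ i j, i ≠ j → π (h i j) = slH ζ i j) {a b : ι} (hab : a ≠ b)
    (hgen : closure (Set.range φ ∪ {x a b 1, h a b}) = ⊤)
    (link : ∀ L : Subgroup J, L.Normal → x a b 1 ∈ L → (∀ σ, φ σ ∈ L) ∧ h a b ∈ L) :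
    Function.Injective π := by
  have hs := aeval_surj_of_gen hζ
  have hx' : ∀ σ i j, i ≠ j → ∀ t, φ σ * x i j t * (φ σ)⁻¹ = x (σ • i) (σ • j) t := by
    intro σ i j hij
    obtain ⟨k, hik, hjk⟩ := T.ex3 i j
    have hne : ∀ {i j : ι}, i ≠ j → σ • i ≠ σ • j := fun h => (MulAction.injective σ).ne h
    refine AddF.ext hs ((R.add hij).conj _) (R.add (hne hij)) (hx σ i j hij)
      (g := h (σ • i) (σ • k)) (fun t => ?_) (R.a1 (hne hij) (hne hik) (hne hjk))
    rw [← hh σ i k hik, ← R.a1 hij hik hjk]; group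
  have hπ : ∀ i j, i ≠ j → ∀ t, π (x i j t) = slX K i j t := by
    intro i j hij
    obtain ⟨k, hik, hjk⟩ := T.ex3 i j
    refine AddF.ext hs (fun s t => by rw [R.add hij, map_mul]) (isSt0_slX.add hij) (hπx i j hij)
      (g := slH ζ i k) (fun t => ?_) (slH_a1 hζ0 hij hik hjk)
    rw [← hπh i k hik, ← R.a1 hij hik hjk]; simp
  let L := stGG x Set.univ Set.univ
  have hL : L.Normal := by
    rw [← normalizer_eq_top_iff, eq_top_iff, ← hgen, closure_le]
    have key : ∀ g : J, (∀ i j, i ≠ j → ∀ t, g * x i j t * g⁻¹ ∈ L) →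
        (∀ i j, i ≠ j → ∀ t, g⁻¹ * x i j t * g⁻¹⁻¹ ∈ L) → g ∈ normalizer (L : Set J) := by
      intro g h1 h2
      rw [mem_normalizer_iff]
      intro n
      refine ⟨conj_mem_of_stGG fun i _ j _ hij t => h1 i j hij t, fun hn => ?_⟩
      have := conj_mem_of_stGG (fun i _ j _ hij t => h2 i j hij t) hn
      simpa [mul_assoc] using this
    rintro g (⟨σ, rfl⟩ | rfl | rfl)
    · refine key _ (fun i j hij t => ?_) (fun i j hij t => ?_)
      · rw [hx' σ i j hij]
        exact mem_stGG (Set.mem_univ _) (Set.mem_univ _) ((MulAction.injective σ).ne hij) t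
      · rw [← map_inv, hx' σ⁻¹ i j hij]
        exact mem_stGG (Set.mem_univ _) (Set.mem_univ _) ((MulAction.injective σ⁻¹).ne hij) t
    · exact le_normalizer (mem_stGG (Set.mem_univ _) (Set.mem_univ _) hab 1)
    · refine key _ (fun i j hij t => ?_) (fun i j hij t => ?_)
      · obtain ⟨c, hc⟩ := hT a b i j hab hij
        rw [hc]; exact mem_stGG (Set.mem_univ _) (Set.mem_univ _) hij _
      · obtain ⟨c, hc⟩ := hT b a i j hab.symm hij
        rw [← T.inv hab, hc]; exact mem_stGG (Set.mem_univ _) (Set.mem_univ _) hij _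
  have hLt : L = ⊤ := by
    obtain ⟨h1, h2⟩ := link L hL (mem_stGG (Set.mem_univ _) (Set.mem_univ _) hab 1)
    rw [eq_top_iff, ← hgen, closure_le]
    rintro g (⟨σ, rfl⟩ | rfl | rfl)
    exacts [h1 σ, mem_stGG (Set.mem_univ _) (Set.mem_univ _) hab 1, h2]
  rw [injective_iff_map_eq_one]
  intro g hg
  refine IsSt.inj_aux (SpecialLinearGroup.coeMonoidHom.comp π)
    (fun i j hij t => by rw [MonoidHom.comp_apply, hπ i j hij]; exact slX_val hij t)
    (H.isSt T.ex3) Set.finite_univ g (show g ∈ L from hLt ▸ mem_top g) (by rw [MonoidHom.comp_apply, hg, map_one])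

theorem RootF.exists_scales {h : ι → ι → J} {ζ : K} (hζ0 : ζ ≠ 0) {x : ι → ι → K → J}
    (T : TorF id h) (R : RootF id h ζ x)
    (h4 : ∀ {i j k l}, i ≠ j → i ≠ k → i ≠ l → j ≠ k → j ≠ l → k ≠ l → Scales (h k l) (x i j) 1)
    (i j k l : ι) (hij : i ≠ j) (hkl : k ≠ l) : ∃ c, Scales (h i j) (x k l) c := by
  by_cases hik : i = k
  · subst hik
    by_cases hjl : j = l
    · subst hjl; exact ⟨_, R.a3 T hij⟩
    · exact ⟨_, R.a1 hkl hij (Ne.symm hjl)⟩
  by_cases hjl : j = l
  · subst hjl; exact ⟨_, R.a2 hkl (Ne.symm hik) hij.symm⟩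
  rw [T.inv hij.symm]
  by_cases hjk : j = k
  · subst hjk
    by_cases hil : i = l
    · subst hil; exact ⟨_, (R.a3 T hkl).inv (pow_ne_zero 2 hζ0)⟩
    · exact ⟨_, (R.a1 hkl hij.symm (Ne.symm hil)).inv hζ0⟩
  by_cases hil : i = l
  · subst hil; exact ⟨_, (R.a2 hkl (Ne.symm hjk) hij).inv hζ0⟩
  exact ⟨_, (h4 hkl (Ne.symm hjk) (Ne.symm hik) (Ne.symm hjl) (Ne.symm hil) hij.symm).inv
    one_ne_zero⟩

omit [Fintype ι] in
theorem c3_mul_c3_aux {a b c d : ι} (hab : a ≠ b) (hac : a ≠ c) (had : a ≠ d) (hbc : b ≠ c)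
    (hbd : b ≠ d) (hcd : c ≠ d) : c3 b a d * c3 a b c = c3 b c d := by
  ext z
  simp only [c3, Perm.mul_apply, swap_apply_def]
  split_ifs <;> simp_all

theorem slCore [Finite K] {a b c d : ι} (hab : a ≠ b) (hac : a ≠ c) (had : a ≠ d) (hbc : b ≠ c)
    (hbd : b ≠ d) (hcd : c ≠ d) {sg : ι → ι → alternatingGroup ι}
    (hsg : ∀ i j, i ≠ j → sg i j • a = i ∧ sg i j • b = j) (φ : alternatingGroup ι →* J)
    {u₀ h₀ : J} (hu : ∀ σ, σ • a = a → σ • b = b → Commute (φ σ) u₀)
    (hh : ∀ σ, σ • a = a → σ • b = b → Commute (φ σ) h₀) {ζ : K} (hζ0 : ζ ≠ 0)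
    (hζ : ∀ t : K, t ≠ 0 → ∃ n : ℕ, ζ ^ n = t) {m : ℤ[X]}
    (hm : ∀ P : ℤ[X], aeval ζ P = 0 → ∃ a b : ℤ[X], P = a * (ringChar K : ℤ[X]) + b * m)
    {u h : ι → ι → J} (hu' : u = famOf φ sg u₀) (hh' : h = famOf φ sg h₀)
    (T1 : h a c = h a b * h b c) (T1' : h a d = h a b * h b d) (T2 : Commute (h a b) (h a c))
    (T3 : Commute (u a b) (h c d)) (T4 : Commute (u a b) (h a c * h b c))
    (C1 : ⁅u a b, u b c⁆ = u a c) (C1' : ⁅u a b, u b d⁆ = u a d) (C2 : Commute (u a b) (u a c))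
    (C3 : Commute (u a b) (u c b)) (C4 : Commute (u a b) (u c d)) (C4' : Commute (u a b) (u d c))
    (hp : u₀ ^ ringChar K = 1) (hw : polyWord m (h a c) (u a b) = 1)
    (π : J →* SpecialLinearGroup ι K) (hπu : ∀ i j, i ≠ j → π (u i j) = slX K i j 1)
    (hπh : ∀ i j, i ≠ j → π (h i j) = slH ζ i j)
    (hgen : closure (Set.range φ ∪ {u₀, h₀}) = ⊤) {g : alternatingGroup ι} (hg : g.1 = c3 a b c)
    (link : ∀ L : Subgroup J, L.Normal → u₀ ∈ L → h₀ * φ g ∈ L) : Function.Injective π := by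
  have hne : ∀ (σ : alternatingGroup ι) {i j : ι}, i ≠ j → σ • i ≠ σ • j := fun σ _ _ h =>
    (MulAction.injective σ).ne h
  have eu : ∀ σ i j, i ≠ j → φ σ * u i j * (φ σ)⁻¹ = u (σ • i) (σ • j) := fun σ i j hij =>
    hu' ▸ famOf_conj φ hu (hsg i j hij) σ (hsg _ _ (hne σ hij))
  have eh : ∀ σ i j, i ≠ j → φ σ * h i j * (φ σ)⁻¹ = h (σ • i) (σ • j) := fun σ i j hij =>
    hh' ▸ famOf_conj φ hh (hsg i j hij) σ (hsg _ _ (hne σ hij))
  have eu' : ∀ (σ : alternatingGroup ι) {i j}, i ≠ j → u (σ.1 i) (σ.1 j) = MulAut.conj (φ σ) (u i j) :=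
    fun σ i j hij => (eu σ i j hij).symm
  have eh' : ∀ (σ : alternatingGroup ι) {i j}, i ≠ j → h (σ.1 i) (σ.1 j) = MulAut.conj (φ σ) (h i j) :=
    fun σ i j hij => (eh σ i j hij).symm
  have hu0 : u a b = u₀ := by
    rw [hu', ← famOf_eq φ hu (hsg a b hab) (σ := 1) (one_smul _ _) (one_smul _ _)]; simp
  have hh0 : h a b = h₀ := by
    rw [hh', ← famOf_eq φ hh (hsg a b hab) (σ := 1) (one_smul _ _) (one_smul _ _)]; simp
  have ex4 := exists_fourth hab hac had hbc hbd hcd
  have sa : swap c d a = a := swap_apply_of_ne_of_ne hac had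
  have sb : swap c d b = b := swap_apply_of_ne_of_ne hbc hbd
  have sa' : swap b c a = a := swap_apply_of_ne_of_ne hab hac
  have sb' : swap a c b = b := swap_apply_of_ne_of_ne hab.symm hbc
  have T : TorF id h :=
    { ex3 := fun i j => by obtain ⟨k, h1, h2, -⟩ := ex4 i j j; exact ⟨k, h1, h2⟩
      t1 := fun {i j k} hij hik hjk => by
        obtain ⟨l, hil, hjl, hkl⟩ := ex4 i j k
        exact alt_transport (P := fun i j k _ => h i k = h i j * h j k)
          (fun σ i j k l hij hik _ hjk _ _ e => by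
            rw [eh' σ hij, eh' σ hik, eh' σ hjk, e, map_mul]) hab hac had hbc hbd hcd T1 hcd
          (by rw [sa, sb, swap_apply_left]; exact T1') hij hik hil hjk hjl hkl
      t2 := fun {i j k} hij hik hjk => by
        obtain ⟨l, hil, hjl, hkl⟩ := ex4 i j k
        exact alt_transport (P := fun i j k _ => Commute (h i j) (h i k))
          (fun σ i j k l hij hik _ hjk _ _ e => by
            rw [eh' σ hij, eh' σ hik]; exact e.map _) hab hac had hbc hbd hcd T2 hbc
          (by rw [sa', swap_apply_left, swap_apply_right]; exact T2.symm) hij hik hil hjk hjl hkl }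
  have B : BaseF id h u :=
    { ex4 := ex4
      t3 := alt_transport (P := fun i j k l => Commute (u i j) (h k l))
          (fun σ i j k l hij _ _ _ _ hkl e => by
            rw [eu' σ hij, eh' σ hkl]; exact e.map _) hab hac had hbc hbd hcd T3 hcd
          (by rw [sa, sb, swap_apply_left, swap_apply_right, T.inv hcd]; exact T3.inv_right)
      t4 := fun {i j k} hij hik hjk => by
        obtain ⟨l, hil, hjl, hkl⟩ := ex4 i j k
        refine alt_transport (P := fun i j k _ => Commute (u i j) (h i k * h j k))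
          (fun σ i j k l hij hik _ hjk _ _ e => by
            rw [eu' σ hij, eh' σ hik, eh' σ hjk, ← map_mul]; exact e.map _) hab hac had hbc hbd hcd
          T4 hcd ?_ hij hik hil hjk hjl hkl
        rw [sa, sb, swap_apply_left, T.t1 hac had hcd, T.t1 hbc hbd hcd, mul_assoc,
          ← mul_assoc (h c d), ← (T.t3 hbc hbd hcd).eq, ← mul_assoc, ← mul_assoc]
        exact (T4.mul_right T3).mul_right T3
      c1 := fun {i j k} hij hik hjk => by
        obtain ⟨l, hil, hjl, hkl⟩ := ex4 i j k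
        exact alt_transport (P := fun i j k _ => ⁅u i j, u j k⁆ = u i k)
          (fun σ i j k l hij hik _ hjk _ _ e => by
            rw [eu' σ hij, eu' σ hik, eu' σ hjk, ← e, map_commutatorElement])
          hab hac had hbc hbd hcd C1 hcd
          (by rw [sa, sb, swap_apply_left]; exact C1') hij hik hil hjk hjl hkl
      c2 := fun {i j k} hij hik hjk => by
        obtain ⟨l, hil, hjl, hkl⟩ := ex4 i j k
        exact alt_transport (P := fun i j k _ => Commute (u i j) (u i k))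
          (fun σ i j k l hij hik _ hjk _ _ e => by
            rw [eu' σ hij, eu' σ hik]; exact e.map _) hab hac had hbc hbd hcd C2 hbc
          (by rw [sa', swap_apply_left, swap_apply_right]; exact C2.symm) hij hik hil hjk hjl hkl
      c3 := fun {i j k} hij hik hjk => by
        obtain ⟨l, hil, hjl, hkl⟩ := ex4 i j k
        exact alt_transport (P := fun i j k _ => Commute (u i j) (u k j))
          (fun σ i j k l hij hik _ hjk _ _ e => by
            rw [eu' σ hij, eu' σ hjk.symm]; exact e.map _) hab hac had hbc hbd hcd C3 hac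
          (by rw [sb', swap_apply_left, swap_apply_right]; exact C3.symm) hij hik hil hjk hjl hkl }
  obtain ⟨x, R, hx1, hx4⟩ := B.exists_rootF T (aeval_surj_of_gen hζ) hm
    (fun {i j} hij => by rw [hu', famOf, conj_pow, hp]; simp)
    (fun {i j} hij => ⟨sg i j • c, fun e => hne (sg i j) hac ((hsg i j hij).1.trans e),
      fun e => hne (sg i j) hbc ((hsg i j hij).2.trans e), by
      have := congrArg (MulAut.conj (φ (sg i j))) hw
      rw [map_one] at this
      erw [map_polyWord (MulAut.conj (φ (sg i j))).toMonoidHom] at this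
      simp only [MulEquiv.toMonoidHom_eq_coe, MonoidHom.coe_coe, MulAut.conj_apply, eu _ _ _ hab,
        eh _ _ _ hac, (hsg i j hij).1, (hsg i j hij).2] at this
      exact this⟩)
  have c4 : ∀ {i j k l}, i ≠ j → i ≠ k → i ≠ l → j ≠ k → j ≠ l → k ≠ l →
      Commute (u i j) (u k l) :=
    alt_transport (P := fun i j k l => Commute (u i j) (u k l))
      (fun σ i j k l hij _ _ _ _ hkl e => by
        rw [eu' σ hij, eu' σ hkl]; exact e.map _) hab hac had hbc hbd hcd C4 hcd
      (by rw [sa, sb, swap_apply_left, swap_apply_right]; exact C4')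
  have H : IsSt0 x := (B.relA T hζ0 hζ R hx1 hx4).isSt0 R.add
    fun {i j k l} hij hik hil hjk hjl hkl => R.c4 T hζ hij hkl
      (hx4 hkl hik.symm hjk.symm hil.symm hjl.symm hij) (hx4 hij hik hil hjk hjl hkl)
      (by rw [hx1 hij, hx1 hkl]; exact c4 hij hik hil hjk hjl hkl)
  refine inj_of_rootF φ hζ0 hζ T R H (R.exists_scales hζ0 T hx4)
    (fun σ i j hij => by rw [hx1 hij, hx1 (hne σ hij), eu σ i j hij]) eh π
    (fun i j hij => by rw [hx1 hij, hπu i j hij]) hπh hab (by rw [hx1 hab, hu0, hh0, hgen])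
    fun L hL hL1 => ?_
  rw [hx1 hab, hu0] at hL1
  have h1 := link L hL hL1
  let v : alternatingGroup ι := ⟨swap a b * swap c d, by
    rw [Perm.mem_alternatingGroup, map_mul, Perm.sign_swap hab, Perm.sign_swap hcd]; simp⟩
  have hva : v • a = b := by
    change swap a b (swap c d a) = b
    rw [sa, swap_apply_left]
  have hvb : v • b = a := by
    change swap a b (swap c d b) = a
    rw [sb, swap_apply_right]
  have hvc : v.1 c = d := by
    change swap a b (swap c d c) = d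
    rw [swap_apply_left, swap_apply_of_ne_of_ne had.symm hbd.symm]
  have h2 : φ (v * g * v⁻¹ * g) ∈ L := by
    have h4 := eh v a b hab
    rw [hva, hvb, T.inv hab, hh0] at h4
    have h5 := congrArg (QuotientGroup.mk' L) h4
    rw [← QuotientGroup.ker_mk' L, MonoidHom.mem_ker] at h1 ⊢
    simp only [map_mul, map_inv] at h1 h5 ⊢
    rw [eq_inv_of_mul_eq_one_left h1, inv_inv] at h5
    nth_rewrite 2 [← h5]
    group
  have h3 : L.comap φ = ⊤ := by
    refine alt_normal_eq_top hab hac had hbc hbd hcd _ h2 hbc hbd hcd ?_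
    change v.1 * g.1 * v.1⁻¹ * g.1 = _
    rw [hg, c3_conj, hvc, show v.1 a = b from hva, show v.1 b = a from hvb]
    exact c3_mul_c3_aux hab hac had hbc hbd hcd
  have h4 : ∀ σ, φ σ ∈ L := fun σ => show σ ∈ L.comap φ from h3 ▸ mem_top σ
  refine ⟨h4, hh0 ▸ ?_⟩
  simpa using L.mul_mem h1 (L.inv_mem (h4 g))

/-- The relators of the presentation of `SL_n`. -/
def relSL {G : Type*} [Group G] (u h : ι → ι → G) (a b c d : ι) (p : ℕ) (m : ℤ[X]) : List G :=
  [(h a c)⁻¹ * (h a b * h b c), ⁅h a b, h a c⁆, ⁅u a b, h c d⁆, ⁅u a b, h a c * h b c⁆,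
    (u a c)⁻¹ * ⁅u a b, u b c⁆, ⁅u a b, u a c⁆, ⁅u a b, u c b⁆, ⁅u a b, u c d⁆, ⁅u a b, u d c⁆,
    u a b ^ p, polyWord m (h a c) (u a b)]

/-- The additional relators for `SL_4`. -/
def relSL' {G : Type*} [Group G] (u h : ι → ι → G) (a b d : ι) : List G :=
  [(h a d)⁻¹ * (h a b * h b d), (u a d)⁻¹ * ⁅u a b, u b d⁆]

omit [Fintype ι] [DecidableEq ι] in
theorem map_relSL {G G' : Type*} [Group G] [Group G'] (φ : G →* G') (u h : ι → ι → G) (a b c d : ι)
    (p : ℕ) (m : ℤ[X]) : (relSL u h a b c d p m).map φ =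
      relSL (fun i j => φ (u i j)) (fun i j => φ (h i j)) a b c d p m := by
  simp [relSL, map_polyWord]

omit [Fintype ι] [DecidableEq ι] in
theorem map_relSL' {G G' : Type*} [Group G] [Group G'] (φ : G →* G') (u h : ι → ι → G) (a b d : ι) :
    (relSL' u h a b d).map φ = relSL' (fun i j => φ (u i j)) (fun i j => φ (h i j)) a b d := by
  simp [relSL']

theorem forall_lift_iff {α G : Type*} [Group G] (f : FreeGroup α →* G) (l : List (FreeGroup α)) :
    (∀ r ∈ l, f r = 1) ↔ ∀ r ∈ l.map f, r = 1 := by simp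

theorem hasPres_SL [Finite K] {a b c d : ι} (hab : a ≠ b) (hac : a ≠ c) (had : a ≠ d) (hbc : b ≠ c)
    (hbd : b ≠ d) (hcd : c ≠ d) {k mA : ℕ} (hA : HasPres (alternatingGroup ι) k mA)
    (S : List (alternatingGroup ι)) (hS : ∀ s ∈ S, s • a = a ∧ s • b = b)
    (hS' : ∀ σ : alternatingGroup ι, σ • a = a → σ • b = b → σ ∈ closure {s | s ∈ S})
    (E : Bool) (hE : E = false → ∃ σ : alternatingGroup ι, σ • a = a ∧ σ • b = b ∧ σ • c = d) :
    HasPres (SpecialLinearGroup ι K) (k + 2) (mA + (2 * S.length + 12 + if E then 2 else 0)) := by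
  obtain ⟨ζ, hζ0, hζ⟩ := exists_gen K
  obtain ⟨m, hm0, hm⟩ := exists_int_minpoly ζ
  obtain ⟨sg, hsg⟩ := exists_sg hab hac had hbc hbd hcd
  let ψ : alternatingGroup ι →* SpecialLinearGroup ι K :=
    permSL K (alternatingGroup ι).subtype 1 fun σ => by
      have : Perm.sign σ.1 = 1 := σ.2
      simp [this]
  have hψ : ∀ σ {i j}, i ≠ j → ∀ t, ψ σ * slX K i j t * (ψ σ)⁻¹ = slX K (σ • i) (σ • j) t :=
    fun σ i j hij t => permSL_conj _ _ _ σ hij t
  have hψh : ∀ σ {i j}, i ≠ j → ψ σ * slH ζ i j * (ψ σ)⁻¹ = slH ζ (σ • i) (σ • j) :=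
    fun σ i j hij => conj_stH _ (hψ σ hij) (hψ σ hij.symm) ζ
  let x : Fin 2 → SpecialLinearGroup ι K := ![slX K a b 1, slH ζ a b]
  have hfu : ∀ i j, i ≠ j → famOf ψ sg (slX K a b 1) i j = slX K i j 1 := fun i j hij => by
    rw [famOf, hψ _ hab, (hsg i j hij).1, (hsg i j hij).2]
  have hfh : ∀ i j, i ≠ j → famOf ψ sg (slH ζ a b) i j = slH ζ i j := fun i j hij => by
    rw [famOf, hψh _ hab, (hsg i j hij).1, (hsg i j hij).2]
  have hs := aeval_surj_of_gen hζ
  have ex4 := exists_fourth hab hac had hbc hbd hcd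
  have hnc : ∀ L : Subgroup (SpecialLinearGroup ι K), slX K a b 1 ∈ L →
      (∀ σ, ψ σ ∈ normalizer (L : Set (SpecialLinearGroup ι K))) →
      slH ζ a b ∈ normalizer (L : Set (SpecialLinearGroup ι K)) → L = ⊤ := fun L h1 h2 h3 => by
    have h4 : ∀ i j, i ≠ j → slH ζ i j ∈ normalizer (L : Set (SpecialLinearGroup ι K)) :=
      fun i j hij => by
      rw [← hfh i j hij]
      exact Subgroup.mul_mem _ (Subgroup.mul_mem _ (h2 _) h3) (Subgroup.inv_mem _ (h2 _))
    rw [eq_top_iff, ← stGG_slX_univ]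
    refine stGG_le fun i _ j _ hij t => ?_
    obtain ⟨k, hik, hjk, -⟩ := ex4 i j j
    refine span_induction_of_surj hs (famSub (isSt0_slX.add hij) L) ?_ (fun t ht => ?_) t
    · change slX K i j 1 ∈ L
      rw [← hfu i j hij]
      exact (mem_normalizer_iff.mp (h2 _) _).mp h1
    · change slX K i j (ζ * t) ∈ L
      rw [← slH_a1 hζ0 hij hik hjk]
      exact (mem_normalizer_iff.mp (h4 i k hik) _).mp ht
  have gen : closure (Set.range ψ ∪ Set.range x) = ⊤ :=
    hnc _ (subset_closure (Or.inr ⟨0, rfl⟩))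
      (fun σ => le_normalizer (subset_closure (Or.inl ⟨σ, rfl⟩)))
      (le_normalizer (subset_closure (Or.inr ⟨1, rfl⟩)))
  let g : alternatingGroup ι := ⟨c3 a b c, sign_c3 hab hac⟩
  obtain ⟨W, hW, hW'⟩ := exists_word_normalClosure (f := Sum.elim ψ x)
    (by rw [Set.Sum.elim_range, gen]) {Sum.inr 0} (hnc _ (subset_normalClosure ⟨_, rfl, rfl⟩)
      (fun σ => by rw [normalizer_eq_top]; trivial) (by rw [normalizer_eq_top]; trivial))
    (slH ζ a b * ψ g)
  let F := FreeGroup (alternatingGroup ι ⊕ Fin 2)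
  let fι : alternatingGroup ι → F := fun σ => FreeGroup.of (.inl σ)
  let fu : F := FreeGroup.of (.inr 0)
  let fh : F := FreeGroup.of (.inr 1)
  let R : List F := S.map (fun s => ⁅fι s, fu⁆) ++ S.map (fun s => ⁅fι s, fh⁆) ++
    relSL (famOf fι sg fu) (famOf fι sg fh) a b c d (ringChar K) m ++ [W⁻¹ * (fh * fι g)] ++
    if E then relSL' (famOf fι sg fu) (famOf fι sg fh) a b d else []
  have hlen : R.length = 2 * S.length + 12 + if E then 2 else 0 := by
    cases E <;> simp [R, relSL, relSL'] <;> omega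
  rw [← hlen]
  have S0 := isSt0_slX (K := K) (ι := ι)
  refine hasPres_ext hA ψ x R ?_ gen fun J _ φ y π hR hπφ hπy hgen => ?_
  · simp only [R, List.forall_mem_append]
    refine ⟨⟨⟨⟨?_, ?_⟩, ?_⟩, ?_⟩, ?_⟩
    · simp only [List.forall_mem_map, map_commutatorElement, fι, fu, FreeGroup.lift_apply_of]
      intro s hs
      change ψ s * slX K a b 1 * (ψ s)⁻¹ * (slX K a b 1)⁻¹ = 1
      rw [hψ s hab, (hS s hs).1, (hS s hs).2, mul_inv_cancel]
    · simp only [List.forall_mem_map, map_commutatorElement, fι, fh, FreeGroup.lift_apply_of]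
      intro s hs
      change ψ s * slH ζ a b * (ψ s)⁻¹ * (slH ζ a b)⁻¹ = 1
      rw [hψh s hab, (hS s hs).1, (hS s hs).2, mul_inv_cancel]
    · rw [forall_lift_iff, map_relSL]
      simp only [map_famOf, fι, fu, fh, FreeGroup.lift_apply_of, Sum.elim_inl, Sum.elim_inr, x,
        relSL, cons_val_zero, cons_val_one, hfu _ _ hab, hfu _ _ hac, hfu _ _ hbc, hfu _ _ hbc.symm,
        hfu _ _ hcd, hfu _ _ hcd.symm, hfh _ _ hab, hfh _ _ hac, hfh _ _ hbc, hfh _ _ hcd,
        List.forall_mem_cons, commutatorElement_eq_one_iff_commute, inv_mul_eq_one]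
      refine ⟨slH_t1 hζ0 hab hac hbc, slH_commute hζ0 hab hac,
        ((scales_one (x := slX K a b) fun t => ?_).commute 1).symm,
        ((slH_t4 hζ0 hab hac hbc).commute 1).symm, ?_, S0.comm hab hac hac hab.symm _ _,
        S0.comm hab hbc.symm hab hbc _ _, S0.comm hab hcd had hbc _ _,
        S0.comm hab hcd.symm hac hbd _ _, ?_, ?_, by simp⟩
      · have := S0.h_other hcd hab hac had hbc.symm hbd.symm ζ t
        rw [mul_inv_eq_iff_eq_mul] at this
        exact this
      · rw [commutatorElement_def, S0.rel hab hbc hac, one_mul]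
      · rw [← zpow_natCast, ← add_fam_zsmul (S0.add hab)]
        simpa using S0.zero hab
      · rw [polyWord_eq (S0.add hab) (slH_a1 hζ0 hab hac hbc), hm0, zero_mul, S0.zero hab]
    · simp [hW', fh, fι, x]
    · cases E
      · simp
      · rw [forall_lift_iff, if_pos rfl, map_relSL']
        simp only [map_famOf, fι, fu, fh, FreeGroup.lift_apply_of, Sum.elim_inl, Sum.elim_inr, x,
          relSL', cons_val_zero, cons_val_one, hfu _ _ hab, hfu _ _ had, hfu _ _ hbd, hfh _ _ hab,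
          hfh _ _ had, hfh _ _ hbd, List.forall_mem_cons, inv_mul_eq_one]
        refine ⟨slH_t1 hζ0 hab had hbd, ?_, by simp⟩
        rw [commutatorElement_def, S0.rel hab hbd had, one_mul]
  · simp only [R, List.forall_mem_append] at hR
    obtain ⟨⟨⟨⟨h1, h2⟩, h3⟩, h4⟩, h5⟩ := hR
    simp only [List.forall_mem_map, map_commutatorElement, fι, fu, fh, FreeGroup.lift_apply_of,
      Sum.elim_inl, Sum.elim_inr, commutatorElement_eq_one_iff_commute] at h1 h2
    have hc : ∀ z : J, (∀ s ∈ S, Commute (φ s) z) → ∀ σ, σ • a = a → σ • b = b →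
        Commute (φ σ) z := fun z hz σ ha hb => by
      have : closure {s | s ∈ S} ≤ (centralizer {z}).comap φ :=
        (closure_le _).mpr fun s hs => mem_centralizer_singleton_iff.mpr (hz s hs)
      exact mem_centralizer_singleton_iff.mp (this (hS' σ ha hb))
    have hu := hc _ h1
    have hh := hc _ h2
    rw [forall_lift_iff, map_relSL] at h3
    simp only [map_famOf, fι, fu, fh, FreeGroup.lift_apply_of, Sum.elim_inl, Sum.elim_inr,
      relSL, List.forall_mem_cons, commutatorElement_eq_one_iff_commute, inv_mul_eq_one] at h3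
    obtain ⟨T1, T2, T3, T4, C1, C2, C3, C4, C4', hp, hw, -⟩ := h3
    have hu0 : famOf φ sg (y 0) a b = y 0 := by
      rw [← famOf_eq φ hu (hsg a b hab) (σ := 1) (one_smul _ _) (one_smul _ _)]; simp
    have h6 : famOf φ sg (y 1) a d = famOf φ sg (y 1) a b * famOf φ sg (y 1) b d ∧
        ⁅famOf φ sg (y 0) a b, famOf φ sg (y 0) b d⁆ = famOf φ sg (y 0) a d := by
      cases E
      · obtain ⟨σ, ha, hb, hc⟩ := hE rfl
        have e : ∀ {z : J}, (∀ σ, σ • a = a → σ • b = b → Commute (φ σ) z) → ∀ i j, i ≠ j →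
            famOf φ sg z (σ • i) (σ • j) = MulAut.conj (φ σ) (famOf φ sg z i j) :=
          fun hz i j hij => (famOf_conj φ hz (hsg i j hij) σ
            (hsg _ _ ((MulAction.injective σ).ne hij))).symm
        constructor
        · have := congrArg (MulAut.conj (φ σ)) T1
          rwa [map_mul, ← e hh _ _ hac, ← e hh _ _ hab, ← e hh _ _ hbc, ha, hb, hc] at this
        · have := congrArg (MulAut.conj (φ σ)) C1.symm
          rwa [map_commutatorElement, ← e hu _ _ hac, ← e hu _ _ hab, ← e hu _ _ hbc, ha, hb,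
            hc] at this
      · rw [forall_lift_iff, if_pos rfl, map_relSL'] at h5
        simp only [map_famOf, fι, fu, fh, FreeGroup.lift_apply_of, Sum.elim_inl, Sum.elim_inr,
          relSL', List.forall_mem_cons, inv_mul_eq_one] at h5
        exact ⟨h5.1, h5.2.1.symm⟩
    refine slCore hab hac had hbc hbd hcd hsg φ hu hh hζ0 hζ hm rfl rfl T1 h6.1 T2 T3 T4 C1.symm
      h6.2 C2 C3 C4 C4' (hu0 ▸ hp) hw π (fun i j hij => ?_) (fun i j hij => ?_) ?_ (g := g) rfl
      fun L hL hL1 => ?_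
    · rw [map_famOf, hπy, ← hfu i j hij]; simp only [hπφ]; rfl
    · rw [map_famOf, hπy, ← hfh i j hij]; simp only [hπφ]; rfl
    · rw [← hgen]; congr 2
      ext z; simp [Fin.exists_fin_two, eq_comm]
    · have := lift_mem_of_normalClosure (Sum.elim φ y) hW (L := L) (by rintro _ rfl; exact hL1)
      simp only [List.forall_mem_cons, map_mul, map_inv, inv_mul_eq_one, fι, fh,
        FreeGroup.lift_apply_of, Sum.elim_inl, Sum.elim_inr] at h4
      rwa [h4.1] at this

theorem hasPres_SL_big [Finite K] {n : ℕ} (hn : 5 ≤ n) {k mA : ℕ}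
    (hA : HasPres (alternatingGroup (Fin n)) k mA) :
    HasPres (SpecialLinearGroup (Fin n) K) (k + 2) (mA + 16) := by
  let a : Fin n := ⟨0, by omega⟩
  let b : Fin n := ⟨1, by omega⟩
  let c : Fin n := ⟨2, by omega⟩
  let d : Fin n := ⟨3, by omega⟩
  let e : Fin n := ⟨4, by omega⟩
  obtain ⟨s, t, h1, h2⟩ := exists_two_gen_fix (fun x : Fin n => x ≠ a ∧ x ≠ b)
  have hab : a ≠ b := by simp [a, b]
  exact hasPres_SL (K := K) (a := a) (b := b) (c := c) (d := d) hab (by simp [a, c])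
    (by simp [a, d]) (by simp [b, c]) (by simp [b, d]) (by simp [c, d]) hA [s, t]
    (by
      simp only [List.forall_mem_cons]
      exact ⟨⟨(h1 a (by simp)).1, (h1 b (by simp)).1⟩, ⟨(h1 a (by simp)).2, (h1 b (by simp)).2⟩,
        by simp⟩)
    (fun σ ha hb => by
      have := h2 σ fun x hx => by
        by_cases hxa : x = a
        · rw [hxa]; exact ha
        · obtain rfl : x = b := by tauto
          exact hb
      convert this using 2
      ext; simp)
    false fun _ => ⟨⟨c3 c d e, sign_c3 (by simp [c, d]) (by simp [c, e])⟩,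
      c3_apply_of_ne (by simp [a, c]) (by simp [a, d]) (by simp [a, e]),
      c3_apply_of_ne (by simp [b, c]) (by simp [b, d]) (by simp [b, e]),
      c3_apply_left (by simp [c, d]) (by simp [d, e])⟩

theorem hasPres_SL_four [Finite K] : HasPres (SpecialLinearGroup (Fin 4) K) 4 18 :=
  hasPres_SL (K := K) (a := 0) (b := 1) (c := 2) (d := 3) (by decide) (by decide) (by decide)
    (by decide) (by decide) (by decide) (hasPres_small 2).2 [] (by simp)
    (fun σ ha hb => by
      have : σ = 1 := by revert σ; decide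
      rw [this]; exact one_mem _) true (by simp)

end Cfsg.Agent.H6
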