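import Cfsg.Agent.H6.PresSL

/-! Consequences of the bounded presentations of `SL_n`. -/

set_option autoImplicit false

open Matrix Subgroup

namespace Cfsg.Agent.H6

open H3

variable {K : Type*} [Field K]

theorem isCyclic_center_SL [Fintype K] {n : ℕ} (hn : 1 ≤ n) :
    IsCyclic (center (SpecialLinearGroup (Fin n) K)) := by
  obtain ⟨e⟩ := center_SL_equiv (K := K) hn
  exact isCyclic_of_surjective e.symm e.symm.surjective

theorem hasPres_PSL_of_SL [Fintype K] {n k m : ℕ} (hn : 1 ≤ n)
    (h : HasPres (SpecialLinearGroup (Fin n) K) k m) :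
    HasPres (ProjectiveSpecialLinearGroup (Fin n) K) k (m + 1) :=
  have := isCyclic_center_SL (K := K) hn
  hasPres_quot_center h

theorem hasPres_SL_ge_four [Fintype K] {n : ℕ} (hn : 4 ≤ n) :
    HasPres (SpecialLinearGroup (Fin n) K) 5 23 := by
  rcases hn.eq_or_lt with rfl | hn
  · exact hasPres_le hasPres_SL_four (by norm_num) (by norm_num)
  · exact hasPres_SL_big hn (hasPres_three n hn).2

theorem hasPres_SL_five [Fintype K] : HasPres (SpecialLinearGroup (Fin 5) K) 4 20 :=
  hasPres_SL_big le_rfl (hasPres_small 3).2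

end Cfsg.Agent.H6
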