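import Cfsg.Agent.H6.PresSL2
import Cfsg.Agent.H6.FieldGen

/-! A bounded presentation of `SL_3`. -/

set_option autoImplicit false

open Polynomial Equiv Subgroup
open scoped commutatorElement

namespace Cfsg.Agent.H6

open H3

variable {J K ι : Type*} [Group J] [Field K]

theorem hasPres_S3 : HasPres (Perm (Fin 3)) 2 2 := by
  let x : Fin 2 → Perm (Fin 3) := ![swap 0 1, finRotate 3]
  let a : FreeGroup (PUnit.{1} ⊕ Fin 2) := FreeGroup.of (.inr 0)
  let b : FreeGroup (PUnit.{1} ⊕ Fin 2) := FreeGroup.of (.inr 1)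
  refine hasPres_ext hasPres_unit 1 x [a * a, (b * b)⁻¹ * (a * b * a)] ?_ ?_
    fun J _ φ y π hR _ hπ hgen => ?_
  · simp only [List.forall_mem_cons, map_mul, map_inv, a, b, FreeGroup.lift_apply_of, Sum.elim_inr]
    exact ⟨by decide, by decide, by simp⟩
  · rw [eq_top_iff]
    rintro g -
    have h0 : x 0 ∈ closure (Set.range (1 : PUnit.{1} →* Perm (Fin 3)) ∪ Set.range x) :=
      subset_closure (Or.inr ⟨0, rfl⟩)
    have h1 : x 1 ∈ closure (Set.range (1 : PUnit.{1} →* Perm (Fin 3)) ∪ Set.range x) :=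
      subset_closure (Or.inr ⟨1, rfl⟩)
    obtain ⟨i, j, rfl⟩ : ∃ (i : Fin 3) (j : Fin 2), g = x 1 ^ i.1 * x 0 ^ j.1 := by
      revert g; decide
    exact Subgroup.mul_mem _ (Subgroup.pow_mem _ h1 _) (Subgroup.pow_mem _ h0 _)
  · simp only [List.forall_mem_cons, map_mul, map_inv, a, b, FreeGroup.lift_apply_of, Sum.elim_inr,
      inv_mul_eq_one] at hR
    obtain ⟨h1, h2, -⟩ := hR
    have h3 : (y 0)⁻¹ = y 0 := inv_eq_of_mul_eq_one_left h1
    have h4 : y 1 ^ 3 = 1 := by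
      have : y 1 = y 0 * (y 1 * y 1) * y 0 := by
        rw [h2]
        calc y 1 = (y 0 * y 0) * y 1 * (y 0 * y 0) := by simp [h1]
          _ = _ := by group
      have h5 : y 1 = (y 0 * y 1 * y 0) * (y 0 * y 1 * y 0) := by
        conv_lhs => rw [this]
        calc _ = y 0 * y 1 * (y 0 * y 0) * y 1 * y 0 := by rw [h1]; group
          _ = _ := by group
      rw [← h2] at h5
      have := congrArg (· * (y 1)⁻¹) h5
      simpa [pow_succ, mul_assoc] using this.symm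
    have key : ∀ g : J, ∃ n : ℤ, g = y 1 ^ n ∨ g = y 1 ^ n * y 0 := by
      have hc : ∀ n : ℤ, y 0 * y 1 ^ n = y 1 ^ (2 * n) * y 0 := fun n => by
        rw [zpow_mul, zpow_two, h2, ← mul_inv_eq_iff_eq_mul, ← conj_zpow, h3]
      intro g
      induction (show g ∈ closure (Set.range φ ∪ Set.range y) from hgen ▸ mem_top g) using
        closure_induction_left with
      | one => exact ⟨0, Or.inl (by simp)⟩
      | mul_left s hs g _ ih =>
        obtain ⟨n, ih⟩ := ih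
        rcases hs with ⟨u, rfl⟩ | ⟨i, rfl⟩
        · exact ⟨n, by rwa [Subsingleton.elim u 1, map_one, one_mul]⟩
        fin_cases i
        · rcases ih with rfl | rfl
          · exact ⟨_, Or.inr (hc n)⟩
          · exact ⟨2 * n, Or.inl (by
              change y 0 * _ = _
              rw [← mul_assoc, hc, mul_assoc, h1, mul_one])⟩
        · refine ⟨1 + n, ?_⟩
          rcases ih with rfl | rfl <;> simp [zpow_add, mul_assoc]
      | inv_mul_cancel s hs g _ ih =>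
        obtain ⟨n, ih⟩ := ih
        rcases hs with ⟨u, rfl⟩ | ⟨i, rfl⟩
        · exact ⟨n, by rwa [Subsingleton.elim u 1, map_one, inv_one, one_mul]⟩
        fin_cases i
        · change ∃ n : ℤ, (y 0)⁻¹ * g = _ ∨ (y 0)⁻¹ * g = _
          rw [h3]
          rcases ih with rfl | rfl
          · exact ⟨_, Or.inr (hc n)⟩
          · exact ⟨2 * n, Or.inl (by rw [← mul_assoc, hc, mul_assoc, h1, mul_one])⟩
        · refine ⟨-1 + n, ?_⟩
          rcases ih with rfl | rfl <;> simp [zpow_add, mul_assoc]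
    rw [injective_iff_map_eq_one]
    intro g hg
    obtain ⟨n, rfl | rfl⟩ := key g
    · rw [map_zpow, hπ, ← orderOf_dvd_iff_zpow_eq_one,
        show orderOf (x 1) = 3 from orderOf_eq_prime (by decide) (by decide)] at hg
      obtain ⟨k, rfl⟩ := hg
      rw [zpow_mul, zpow_natCast, h4, one_zpow]
    · have := congrArg Perm.sign hg
      rw [map_mul, map_zpow, hπ, hπ, map_mul, map_zpow, show Perm.sign (x 1) = 1 by decide,
        show Perm.sign (x 0) = -1 by decide] at this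
      simp at this

theorem TorF.comm_all {h : ι → ι → J} (T : TorF id h) {i j k l : ι} (hij : i ≠ j) (hkl : k ≠ l) :
    Commute (h i j) (h k l) := by
  by_cases hik : i = k
  · subst hik
    by_cases hjl : j = l
    · subst hjl; exact Commute.refl _
    · exact T.t2 hij hkl hjl
  by_cases hjk : j = k
  · subst hjk
    by_cases hil : i = l
    · subst hil; rw [T.inv hij]; exact (Commute.refl _).inv_right
    · exact T.t3 hij hil hkl
  by_cases hil : i = l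
  · subst hil; exact T.t5 hij hik hjk
  by_cases hjl : j = l
  · subst hjl; exact T.t4 hij hik hjk
  exact T.t6 hij hik hil hjk hjl hkl

/-- The base relations in rank two. -/
structure Base3 (h u : ι → ι → J) : Prop where
  t4 : ∀ {i j k}, i ≠ j → i ≠ k → j ≠ k → Commute (u i j) (h i k * h j k)
  c1 : ∀ {i j k}, i ≠ j → i ≠ k → j ≠ k → ⁅u i j, u j k⁆ = u i k
  c2 : ∀ {i j k}, i ≠ j → i ≠ k → j ≠ k → Commute (u i j) (u i k)
  c3 : ∀ {i j k}, i ≠ j → i ≠ k → j ≠ k → Commute (u i j) (u k j)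

theorem Base3.hc {h u : ι → ι → J} (T : TorF id h) (B : Base3 h u) {i j k : ι} (hij : i ≠ j)
    (hik : i ≠ k) (hjk : j ≠ k) (n : ℕ) :
    Commute (u i j) ((h i j * h k j) ^ n * u i j * ((h i j * h k j) ^ n)⁻¹) := by
  have h1 : (h i j * h k j) ^ n * u i j * ((h i j * h k j) ^ n)⁻¹ =
      ⁅u i k, (h i k * h j k)⁻¹ ^ n * u k j * ((h i k * h j k)⁻¹ ^ n)⁻¹⁆ := by
    rw [← B.c1 hik hij hjk.symm, conjugate_commutatorElement,
      ← ((B.t4 hik hij hjk.symm).pow_right n).eq, mul_inv_cancel_right,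
      conj_pow_eq_of_commute (b := (h i k * h j k)⁻¹)]
    · exact (((T.comm_all hij hik).mul_right (T.comm_all hij hjk)).mul_left
        ((T.comm_all hjk.symm hik).mul_right (T.comm_all hjk.symm hjk))).inv_right
    · rw [inv_inv, mul_assoc, ← mul_assoc (h k j), (T.comm_all hjk.symm hik).eq, T.inv hjk,
        inv_mul_cancel_right, T.inv hij.symm, T.inv hik.symm, ← mul_inv_rev]
      exact (B.t4 hjk.symm hik.symm hij.symm).inv_right
  have h2 : Commute (u i j) ((h i k * h j k)⁻¹ ^ n * u k j * ((h i k * h j k)⁻¹ ^ n)⁻¹) := by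
    have := (B.t4 hij hik hjk).inv_right.pow_right n
    exact (this.mul_right (B.c3 hij hik hjk)).mul_right this.inv_right
  have h3 := B.c2 hij hik hjk
  rw [h1, commutatorElement_def]
  exact ((h3.mul_right h2).mul_right h3.inv_right).mul_right h2.inv_right

theorem fin3_third : ∀ i j k l : Fin 3, i ≠ j → i ≠ k → j ≠ k → i ≠ l → j ≠ l → k = l := by
  decide

theorem Base3.rootF {h u : Fin 3 → Fin 3 → J} (T : TorF id h) (B : Base3 h u) {ζ : K}
    (hζ : Function.Surjective (aeval ζ : ℤ[X] → K))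
    (hx : ∀ {i j k}, i ≠ j → i ≠ k → j ≠ k → ∃ x : K → J, AddF x ∧ x 1 = u i j ∧
      Scales (h i k) x ζ) :
    ∃ x : Fin 3 → Fin 3 → K → J, RootF id h ζ x ∧ ∀ {i j}, i ≠ j → x i j 1 = u i j := by
  have : ∀ i j, ∃ x : K → J, i ≠ j → AddF x ∧ x 1 = u i j ∧
      ∀ k, i ≠ k → j ≠ k → Scales (h i k) x ζ := fun i j => by
    by_cases hij : i ≠ j
    · obtain ⟨k, hik, hjk⟩ := T.ex3 i j
      obtain ⟨x, h1, h2, h3⟩ := hx hij hik hjk
      refine ⟨x, fun _ => ⟨h1, h2, fun l hil hjl => ?_⟩⟩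
      obtain rfl : k = l := fin3_third i j k l hij hik hjk hil hjl
      exact h3
    · exact ⟨fun _ => 1, fun h => absurd h hij⟩
  choose x hx using this
  refine ⟨x, ⟨fun hij => (hx _ _ hij).1, fun hij hik hjk => (hx _ _ hij).2.2 _ hik hjk,
    fun {i j k} (hij : i ≠ j) (hik : i ≠ k) (hjk : j ≠ k) => ?_⟩, fun hij => (hx _ _ hij).2.1⟩
  obtain ⟨h1, h2, h3⟩ := hx i j hij
  have h4 := h3 k hik hjk
  have h5 := (h1.scales_one hζ h4 ((Commute.refl _).mul_left (T.comm_all hjk hik))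
    (h2 ▸ (B.t4 hij hik hjk).symm)).inv one_ne_zero
  have := h5.mul h4
  rw [inv_one, one_mul, mul_inv_rev, inv_mul_cancel_right, ← T.inv hjk] at this
  exact this

theorem Base3.relA [Finite K] {h u : ι → ι → J} (T : TorF id h) (B : Base3 h u) {ζ : K}
    (hζ0 : ζ ≠ 0) (hζ : ∀ t : K, t ≠ 0 → ∃ n : ℕ, ζ ^ n = t)
    (h3 : Function.Surjective (aeval (ζ ^ 3) : ℤ[X] → K)) {x : ι → ι → K → J}
    (R : RootF id h ζ x) (h1 : ∀ {i j}, i ≠ j → x i j 1 = u i j) : RelA id x := by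
  have sc : ∀ {i j k}, i ≠ j → i ≠ k → j ≠ k → Scales (h i k * h j k) (x i k) (ζ ^ 3) :=
    fun hij hik hjk => pow_succ ζ 2 ▸ (R.a3 T hik).mul (R.a2 hik hij hjk.symm)
  have c2 : ∀ {i j k}, i ≠ j → i ≠ k → j ≠ k → ∀ t, Commute (x i j 1) (x i k t) :=
    fun {i j k} hij hik hjk => by
    refine (R.add hik).commute h3 (sc hij hik hjk) ?_ ?_
    · rw [h1 hij]; exact (B.t4 hij hik hjk).symm
    · rw [h1 hij, h1 hik]; exact B.c2 hij hik hjk
  have c3 : ∀ {i j k}, i ≠ j → i ≠ k → j ≠ k → ∀ t, Commute (x i j 1) (x k j t) :=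
    fun {i j k} hij hik hjk => by
    refine (R.add hjk.symm).commute h3 (g := h k j * h k i)
      (pow_succ ζ 2 ▸ (R.a3 T hjk.symm).mul (R.a1 hjk.symm hik.symm hij.symm)) ?_ ?_
    · rw [h1 hij, T.inv hik, T.inv hjk, ← mul_inv_rev]; exact (B.t4 hij hik hjk).symm.inv_left
    · rw [h1 hij, h1 hjk.symm]; exact B.c3 hij hik hjk
  refine R.relA T hζ0 hζ (fun {i j k} (hij : i ≠ j) (hik : i ≠ k) (hjk : j ≠ k) => ?_) c2 c3
  refine AddF.comm_eq_of_scales h3 (R.add hjk) (R.add hik) ?_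
    ((T.comm_all hjk hik).eq ▸ sc hij.symm hjk hik) (sc hij hik hjk) ?_
    (by rw [h1 hij, h1 hjk, h1 hik, B.c1 hij hik hjk])
  · exact commute_of_scales hζ (pow_ne_zero 2 hζ0) (R.add hjk) (R.a2 hjk hij.symm hik.symm)
      (R.a3 T hik) (c3 hjk hij.symm hik.symm)
  · rw [h1 hij]; exact (B.t4 hij hik hjk).symm

theorem four_induction {ζ : K} (h2 : (2 : K) = 0) (h3 : ζ ^ 2 + ζ + 1 = 0) (hζ0 : ζ ≠ 0)
    (hζ : ∀ t : K, t ≠ 0 → ∃ n : ℕ, ζ ^ n = t) {P : K → Prop} (h0 : P 0) (h1 : P 1) (hz : P ζ)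
    (hadd : ∀ s t, P s → P t → P (s + t)) (t : K) : P t := by
  by_cases ht : t = 0
  · rwa [ht]
  obtain ⟨n, rfl⟩ := hζ t ht
  have : ζ ^ 3 = 1 := by linear_combination (ζ - 1) * h3
  rw [← Nat.mod_add_div n 3, pow_add, pow_mul, this, one_pow, mul_one]
  have : n % 3 < 3 := Nat.mod_lt _ (by norm_num)
  interval_cases n % 3
  · rwa [pow_zero]
  · rwa [pow_one]
  · rw [show ζ ^ 2 = ζ + 1 by linear_combination h3 - (ζ + 1) * h2]; exact hadd _ _ hz h1

theorem Base3.relA_four {h u : ι → ι → J} (T : TorF id h) (B : Base3 h u) {ζ : K}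
    (h2 : (2 : K) = 0) (h3 : ζ ^ 2 + ζ + 1 = 0) (hζ0 : ζ ≠ 0)
    (hζ : ∀ t : K, t ≠ 0 → ∃ n : ℕ, ζ ^ n = t) {x : ι → ι → K → J}
    (R : RootF id h ζ x) (h1 : ∀ {i j}, i ≠ j → x i j 1 = u i j)
    (c1 : ∀ {i j k}, i ≠ j → i ≠ k → j ≠ k →
      ⁅u i j, h j i * u j k * (h j i)⁻¹⁆ = h i j * u i k * (h i j)⁻¹)
    (c2 : ∀ {i j k}, i ≠ j → i ≠ k → j ≠ k → Commute (u i j) (h i j * u i k * (h i j)⁻¹))
    (c3 : ∀ {i j k}, i ≠ j → i ≠ k → j ≠ k → Commute (u i j) (h k i * u k j * (h k i)⁻¹)) :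
    RelA id x := by
  have e : ∀ {i j k}, i ≠ j → i ≠ k → j ≠ k → h i k * u i j * (h i k)⁻¹ = x i j ζ :=
    fun hij hik hjk => by rw [← h1 hij, R.a1 hij hik hjk, mul_one]
  have c2' : ∀ {i j k}, i ≠ j → i ≠ k → j ≠ k → ∀ t, Commute (x i j 1) (x i k t) :=
    fun {i j k} hij hik hjk => four_induction h2 h3 hζ0 hζ
      (by rw [add_fam_zero (R.add hik)]; exact Commute.one_right _)
      (by rw [h1 hij, h1 hik]; exact B.c2 hij hik hjk)
      (by rw [h1 hij, ← e hik hij hjk.symm]; exact c2 hij hik hjk)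
      fun s t hs ht => by rw [R.add hik]; exact hs.mul_right ht
  have c3' : ∀ {i j k}, i ≠ j → i ≠ k → j ≠ k → ∀ t, Commute (x i j 1) (x k j t) :=
    fun {i j k} hij hik hjk => four_induction h2 h3 hζ0 hζ
      (by rw [add_fam_zero (R.add hjk.symm)]; exact Commute.one_right _)
      (by rw [h1 hij, h1 hjk.symm]; exact B.c3 hij hik hjk)
      (by rw [h1 hij, ← e hjk.symm hik.symm hij.symm]; exact c3 hij hik hjk)
      fun s t hs ht => by rw [R.add hjk.symm]; exact hs.mul_right ht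
  refine R.relA T hζ0 hζ (fun {i j k} (hij : i ≠ j) (hik : i ≠ k) (hjk : j ≠ k) => ?_) c2' c3'
  obtain ⟨a1, a2, -⟩ := AddF.comm_eq (a := x i j 1) (R.add hjk) (R.add hik)
    (commute_of_scales hζ (pow_ne_zero 2 hζ0) (R.add hjk) (R.a2 hjk hij.symm hik.symm)
      (R.a3 T hik) (c3' hjk hij.symm hik.symm))
  exact four_induction h2 h3 hζ0 hζ a2 (by rw [h1 hij, h1 hjk, h1 hik, B.c1 hij hik hjk])
    (by rw [h1 hij, ← e hjk hij.symm hik.symm, ← e hik hij hjk.symm]; exact c1 hij hik hjk) a1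

/-- The relators of the presentation of `SL_3`. -/
def rel3 {G : Type*} [Group G] (u h : Fin 3 → Fin 3 → G) (E : Prop) [Decidable E] (p : ℕ)
    (m P : ℤ[X]) : List G :=
  [(h 0 2)⁻¹ * (h 0 1 * h 1 2), ⁅h 0 1, h 0 2⁆, ⁅u 0 1, h 0 2 * h 1 2⁆,
    (u 0 2)⁻¹ * ⁅u 0 1, u 1 2⁆, ⁅u 0 1, u 0 2⁆, ⁅u 0 1, u 2 1⁆, u 0 1 ^ p] ++
  if E then [h 0 2 ^ 2 * u 0 1 * (h 0 2 ^ 2)⁻¹ * (h 0 2 * u 0 1 * (h 0 2)⁻¹) * u 0 1,
    (h 0 1 * u 0 2 * (h 0 1)⁻¹)⁻¹ * ⁅u 0 1, h 1 0 * u 1 2 * (h 1 0)⁻¹⁆,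
    ⁅u 0 1, h 0 1 * u 0 2 * (h 0 1)⁻¹⁆, ⁅u 0 1, h 2 0 * u 2 1 * (h 2 0)⁻¹⁆]
  else [polyWord m (h 0 1 * h 2 1) (u 0 1),
    (h 0 2 * u 0 1 * (h 0 2)⁻¹)⁻¹ * polyWord P (h 0 1 * h 2 1) (u 0 1)]

theorem map_rel3 {G G' : Type*} [Group G] [Group G'] (φ : G →* G') (u h : Fin 3 → Fin 3 → G)
    (E : Prop) [Decidable E] (p : ℕ) (m P : ℤ[X]) : (rel3 u h E p m P).map φ =
      rel3 (fun i j => φ (u i j)) (fun i j => φ (h i j)) E p m P := by
  by_cases hE : E <;> simp [rel3, map_polyWord, hE]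

theorem fin3_transport {P : Fin 3 → Fin 3 → Fin 3 → Prop}
    (h : ∀ σ : Perm (Fin 3), P (σ 0) (σ 1) (σ 2)) {i j k : Fin 3} (hij : i ≠ j) (hik : i ≠ k)
    (hjk : j ≠ k) : P i j k := by
  obtain ⟨σ, rfl, rfl, rfl⟩ : ∃ σ : Perm (Fin 3), σ 0 = i ∧ σ 1 = j ∧ σ 2 = k := by
    revert i j k; decide
  exact h σ

theorem commute_of_three {g u : J} (h2 : u ^ 2 = 1)
    (h : g ^ 2 * u * (g ^ 2)⁻¹ * (g * u * g⁻¹) * u = 1) (n : ℕ) :
    Commute u (g ^ n * u * (g ^ n)⁻¹) := by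
  have inv : ∀ a : J, (a * u * a⁻¹)⁻¹ = a * u * a⁻¹ := fun a => by
    rw [inv_eq_iff_mul_eq_one, ← sq, conj_pow, h2]; simp
  have i0 : u⁻¹ = u := by simpa using inv 1
  have h' : g ^ 2 * u * (g ^ 2)⁻¹ = (g * u * g⁻¹ * u)⁻¹ :=
    eq_inv_of_mul_eq_one_left (by rw [← h]; group)
  have h1 : Commute u (g * u * g⁻¹) := by
    have h3 := inv (g ^ 2)
    rw [h', inv_inv, mul_inv_rev, inv, i0] at h3
    exact h3.symm
  have h3 : Commute u (g ^ 2 * u * (g ^ 2)⁻¹) := by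
    rw [h']
    exact (h1.mul_right (Commute.refl _)).inv_right
  have h4 : g ^ 3 * u * (g ^ 3)⁻¹ = u := by
    have h5 : g ^ 3 * u * (g ^ 3)⁻¹ * (g ^ 2 * u * (g ^ 2)⁻¹ * (g * u * g⁻¹)) = 1 := by
      calc _ = g * (g ^ 2 * u * (g ^ 2)⁻¹ * (g * u * g⁻¹) * u) * g⁻¹ := by group
        _ = 1 := by rw [h]; simp
    rw [eq_inv_of_mul_eq_one_left h5, eq_inv_of_mul_eq_one_left h, inv_inv]
  rw [← Nat.mod_add_div n 3, pow_add, pow_mul,
    show g ^ (n % 3) * (g ^ 3) ^ (n / 3) * u * (g ^ (n % 3) * (g ^ 3) ^ (n / 3))⁻¹ =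
      g ^ (n % 3) * ((g ^ 3) ^ (n / 3) * u * ((g ^ 3) ^ (n / 3))⁻¹) * (g ^ (n % 3))⁻¹ by group,
    ((show Commute (g ^ 3) u from mul_inv_eq_iff_eq_mul.mp h4).pow_left _).eq, mul_inv_cancel_right]
  have : n % 3 < 3 := Nat.mod_lt _ (by norm_num)
  interval_cases n % 3
  · simp
  · simpa using h1
  · exact h3

theorem sl3_root [Fintype K] {ζ : K} (hζ0 : ζ ≠ 0) (hζ : ∀ t : K, t ≠ 0 → ∃ n : ℕ, ζ ^ n = t)
    {m P : ℤ[X]}
    (hm : ∀ Q : ℤ[X], aeval (ζ ^ 3) Q = 0 → ∃ a b : ℤ[X], Q = a * (ringChar K : ℤ[X]) + b * m)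
    (hP : Fintype.card K ≠ 4 → aeval (ζ ^ 3) P = ζ) {u h : Fin 3 → Fin 3 → J}
    (hR : ∀ σ : Perm (Fin 3), ∀ r ∈ rel3 (fun i j => u (σ i) (σ j)) (fun i j => h (σ i) (σ j))
      (Fintype.card K = 4) (ringChar K) m P, r = 1) : TorF id h ∧
    ∃ x : Fin 3 → Fin 3 → K → J, RootF id h ζ x ∧ (∀ {i j}, i ≠ j → x i j 1 = u i j) ∧
      RelA id x := by
  simp only [rel3, List.forall_mem_append, List.forall_mem_cons, inv_mul_eq_one,
    commutatorElement_eq_one_iff_commute] at hR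
  have T : TorF id h :=
    { ex3 := by decide
      t1 := fin3_transport (P := fun i j k => h i k = h i j * h j k) fun σ => (hR σ).1.1
      t2 := fin3_transport (P := fun i j k => Commute (h i j) (h i k)) fun σ => (hR σ).1.2.1 }
  have B : Base3 h u :=
    { t4 := fin3_transport (P := fun i j k => Commute (u i j) (h i k * h j k))
        fun σ => (hR σ).1.2.2.1
      c1 := fin3_transport (P := fun i j k => ⁅u i j, u j k⁆ = u i k)
        fun σ => (hR σ).1.2.2.2.1.symm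
      c2 := fin3_transport (P := fun i j k => Commute (u i j) (u i k))
        fun σ => (hR σ).1.2.2.2.2.1
      c3 := fin3_transport (P := fun i j k => Commute (u i j) (u k j))
        fun σ => (hR σ).1.2.2.2.2.2.1 }
  have hp : ∀ {i j k : Fin 3}, i ≠ j → i ≠ k → j ≠ k → u i j ^ ringChar K = 1 :=
    fin3_transport (P := fun i j _ => u i j ^ ringChar K = 1) fun σ => (hR σ).1.2.2.2.2.2.2.1
  have hs := aeval_surj_of_gen hζ
  refine ⟨T, ?_⟩
  by_cases h4 : Fintype.card K = 4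
  · simp only [h4, if_true, List.forall_mem_cons, inv_mul_eq_one,
      commutatorElement_eq_one_iff_commute] at hR
    obtain ⟨h2, h3, hm'⟩ := field_four h4 hζ0 hζ
    obtain ⟨x, R, h1⟩ := B.rootF T hs fun {i j k} hij hik hjk => by
      have e := fin3_transport (P := fun i j k => h i k ^ 2 * u i j * (h i k ^ 2)⁻¹ *
        (h i k * u i j * (h i k)⁻¹) * u i j = 1) (fun σ => (hR σ).2.1) hij hik hjk
      have hc := commute_of_three (ringChar_eq_two h2 ▸ hp hij hik hjk) e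
      refine exists_addFam hc hs hm' (hp hij hik hjk) ?_
      obtain ⟨y, y1, y2, y3⟩ := exists_polyFam hc
      rw [← y2, polyWord_eq y1 y3, aeval_X_left_apply, mul_one, y1, y1, ← mul_one X, ← y3, mul_one,
        sq, ← mul_one (X * X), mul_assoc X, ← y3, ← y3, y2, ← e, sq]
      group
    exact ⟨x, R, h1, B.relA_four T h2 h3 hζ0 hζ R h1
      (fin3_transport (P := fun i j k => ⁅u i j, h j i * u j k * (h j i)⁻¹⁆ =
        h i j * u i k * (h i j)⁻¹) fun σ => (hR σ).2.2.1.symm)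
      (fin3_transport (P := fun i j k => Commute (u i j) (h i j * u i k * (h i j)⁻¹))
        fun σ => (hR σ).2.2.2.1)
      (fin3_transport (P := fun i j k => Commute (u i j) (h k i * u k j * (h k i)⁻¹))
        fun σ => (hR σ).2.2.2.2.1)⟩
  · simp only [h4, if_false, List.forall_mem_cons, inv_mul_eq_one] at hR
    have h3 := aeval_cube_surj hζ0 hζ h4
    obtain ⟨x, R, h1⟩ := B.rootF T hs fun {i j k} hij hik hjk => by
      obtain ⟨y, y1, y2, y3⟩ := exists_addFam (B.hc T hij hik hjk) h3 hm (hp hij hik hjk)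
        (fin3_transport (P := fun i j k => polyWord m (h i j * h k j) (u i j) = 1)
          (fun σ => (hR σ).2.1) hij hik hjk)
      refine ⟨y, y1, y2, AddF.scales h3 y1 y3
        ((T.comm_all hik hij).mul_right (T.comm_all hik hjk.symm)) ?_⟩
      rw [y2, fin3_transport (P := fun i j k => h i k * u i j * (h i k)⁻¹ =
        polyWord P (h i j * h k j) (u i j)) (fun σ => (hR σ).2.2.1) hij hik hjk, ← y2,
        polyWord_eq y1 y3, hP h4, mul_one]
    exact ⟨x, R, h1, B.relA T hζ0 hζ h3 R h1⟩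

theorem perm3_odd : ∀ s : Perm (Fin 3), Perm.sign s = -1 → ∀ g, ∃ d e : Perm (Fin 3),
    g = d * s * d⁻¹ ∨ g = d * s * d⁻¹ * (e * s * e⁻¹) := by decide +kernel

theorem hasPres_SL_three [Fintype K] : HasPres (Matrix.SpecialLinearGroup (Fin 3) K) 4 14 := by
  obtain ⟨ζ, hζ0, hζ⟩ := exists_gen K
  obtain ⟨m, hm0, hm⟩ := exists_int_minpoly (ζ ^ 3)
  obtain ⟨P, hP⟩ : ∃ P : ℤ[X], Fintype.card K ≠ 4 → aeval (ζ ^ 3) P = ζ := by
    by_cases h4 : Fintype.card K = 4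
    · exact ⟨0, fun h => absurd h4 h⟩
    · obtain ⟨P, hP⟩ := aeval_cube_surj hζ0 hζ h4 ζ
      exact ⟨P, fun _ => hP⟩
  obtain ⟨sg, hsg⟩ : ∃ sg : Fin 3 → Fin 3 → Perm (Fin 3), ∀ i j, i ≠ j →
      sg i j • (0 : Fin 3) = i ∧ sg i j • (1 : Fin 3) = j := by
    have : ∀ i j : Fin 3, ∃ σ : Perm (Fin 3), i ≠ j → σ • (0 : Fin 3) = i ∧ σ • (1 : Fin 3) = j := by
      decide
    choose sg h using this
    exact ⟨sg, h⟩
  let ψ : Perm (Fin 3) →* Matrix.SpecialLinearGroup (Fin 3) K :=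
    permSL K (MonoidHom.id _) ((Int.castRingHom K).toMonoidHom.comp
      ((Units.coeHom ℤ).comp Perm.sign)) fun σ => by
      rcases Int.units_eq_one_or (Perm.sign σ) with h | h <;> norm_num [h]
  have hψ : ∀ σ {i j}, i ≠ j → ∀ t, ψ σ * slX K i j t * (ψ σ)⁻¹ = slX K (σ • i) (σ • j) t :=
    fun σ i j hij t => permSL_conj _ _ _ σ hij t
  have hψh : ∀ σ {i j}, i ≠ j → ψ σ * slH ζ i j * (ψ σ)⁻¹ = slH ζ (σ • i) (σ • j) :=
    fun σ i j hij => conj_stH _ (hψ σ hij) (hψ σ hij.symm) ζ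
  have h01 : (0 : Fin 3) ≠ 1 := by decide
  have h02 : (0 : Fin 3) ≠ 2 := by decide
  have h12 : (1 : Fin 3) ≠ 2 := by decide
  let x : Fin 2 → Matrix.SpecialLinearGroup (Fin 3) K := ![slX K 0 1 1, slH ζ 0 1]
  have hfu : ∀ i j, i ≠ j → famOf ψ sg (slX K 0 1 1) i j = slX K i j 1 := fun i j hij => by
    rw [famOf, hψ _ h01, (hsg i j hij).1, (hsg i j hij).2]
  have hfh : ∀ i j, i ≠ j → famOf ψ sg (slH ζ 0 1) i j = slH ζ i j := fun i j hij => by
    rw [famOf, hψh _ h01, (hsg i j hij).1, (hsg i j hij).2]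
  have hs := aeval_surj_of_gen hζ
  have ex3 : ∀ i j : Fin 3, ∃ k, i ≠ k ∧ j ≠ k := by decide
  have hnc : ∀ L : Subgroup (Matrix.SpecialLinearGroup (Fin 3) K), slX K 0 1 1 ∈ L →
      (∀ σ, ψ σ ∈ normalizer (L : Set (Matrix.SpecialLinearGroup (Fin 3) K))) →
      slH ζ 0 1 ∈ normalizer (L : Set (Matrix.SpecialLinearGroup (Fin 3) K)) → L = ⊤ :=
    fun L h1 h2 h3 => by
    have h4 : ∀ i j, i ≠ j → slH ζ i j ∈
        normalizer (L : Set (Matrix.SpecialLinearGroup (Fin 3) K)) := fun i j hij => by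
      rw [← hfh i j hij]
      exact Subgroup.mul_mem _ (Subgroup.mul_mem _ (h2 _) h3) (Subgroup.inv_mem _ (h2 _))
    rw [eq_top_iff, ← stGG_slX_univ]
    refine stGG_le fun i _ j _ hij t => ?_
    obtain ⟨k, hik, hjk⟩ := ex3 i j
    refine span_induction_of_surj hs (famSub (isSt0_slX.add hij) L) ?_ (fun t ht => ?_) t
    · change slX K i j 1 ∈ L
      rw [← hfu i j hij]
      exact (mem_normalizer_iff.mp (h2 _) _).mp h1
    · change slX K i j (ζ * t) ∈ L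
      rw [← slH_a1 hζ0 hij hik hjk]
      exact (mem_normalizer_iff.mp (h4 i k hik) _).mp ht
  have gen : closure (Set.range ψ ∪ Set.range x) = ⊤ :=
    hnc _ (subset_closure (Or.inr ⟨0, rfl⟩))
      (fun σ => le_normalizer (subset_closure (Or.inl ⟨σ, rfl⟩)))
      (le_normalizer (subset_closure (Or.inr ⟨1, rfl⟩)))
  obtain ⟨W, hW, hW'⟩ := exists_word_normalClosure (f := Sum.elim ψ x)
    (by rw [Set.Sum.elim_range, gen]) {Sum.inr 0} (hnc _ (subset_normalClosure ⟨_, rfl, rfl⟩)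
      (fun σ => by rw [normalizer_eq_top]; trivial) (by rw [normalizer_eq_top]; trivial))
    (slH ζ 0 1 * ψ (swap 0 1))
  let F := FreeGroup (Perm (Fin 3) ⊕ Fin 2)
  let fι : Perm (Fin 3) → F := fun σ => FreeGroup.of (.inl σ)
  let fu : F := FreeGroup.of (.inr 0)
  let fh : F := FreeGroup.of (.inr 1)
  let R : List F := rel3 (famOf fι sg fu) (famOf fι sg fh) (Fintype.card K = 4) (ringChar K) m P ++
    [W⁻¹ * (fh * fι (swap 0 1))]
  have hlen : 2 + R.length ≤ 14 := by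
    by_cases h4 : Fintype.card K = 4 <;> simp [R, rel3, h4]
  have S0 := isSt0_slX (K := K) (ι := Fin 3)
  refine HasPres.mono (hasPres_ext hasPres_S3 ψ x R ?_ gen fun J _ φ y π hR hπφ hπy hgen => ?_) hlen
  · simp only [R, List.forall_mem_append]
    refine ⟨?_, by simp [hW', fh, fι, x]⟩
    rw [forall_lift_iff, map_rel3]
    simp only [map_famOf, fι, fu, fh, FreeGroup.lift_apply_of, Sum.elim_inl, Sum.elim_inr, x,
      rel3, Matrix.cons_val_zero, Matrix.cons_val_one, hfu _ _ h01, hfu _ _ h02, hfu _ _ h12,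
      hfu _ _ h12.symm, hfh _ _ h01, hfh _ _ h02, hfh _ _ h12, hfh _ _ h01.symm, hfh _ _ h02.symm,
      hfh _ _ h12.symm, List.forall_mem_append,
      List.forall_mem_cons, commutatorElement_eq_one_iff_commute, inv_mul_eq_one]
    refine ⟨⟨slH_t1 hζ0 h01 h02 h12, slH_commute hζ0 h01 h02,
      ((slH_t4 hζ0 h01 h02 h12).commute 1).symm, ?_, S0.comm h01 h02 h02 h01.symm _ _,
      S0.comm h01 h12.symm h01 h12 _ _, ?_, by simp⟩, ?_⟩
    · rw [commutatorElement_def, S0.rel h01 h12 h02, one_mul]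
    · rw [← zpow_natCast, ← add_fam_zsmul (S0.add h01)]
      simpa using S0.zero h01
    by_cases h4 : Fintype.card K = 4
    · simp only [h4, if_true, List.forall_mem_cons, inv_mul_eq_one,
        commutatorElement_eq_one_iff_commute, slH_a1 hζ0 h01 h02 h12 _,
        (slH_a1 hζ0 h01 h02 h12).pow 2 _, slH_a1 hζ0 h02 h01 h12.symm _,
        slH_a1 hζ0 h12 h01.symm h02.symm _, slH_a1 hζ0 h12.symm h02.symm h01.symm _]
      refine ⟨?_, ?_, S0.comm h01 h02 h02 h01.symm _ _, S0.comm h01 h12.symm h01 h12 _ _, by simp⟩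
      · rw [← S0.add h01, ← S0.add h01, ← S0.zero h01, ← (field_four h4 hζ0 hζ).2.1]; simp
      · rw [commutatorElement_def, S0.rel h01 h12 h02, one_mul]
    · have sc : Scales (slH ζ 0 1 * slH ζ 2 1) (slX K (0 : Fin 3) 1) (ζ ^ 3) :=
        pow_succ ζ 2 ▸ Scales.mul ((isSt_slX.r1 h01).hx hζ0) (S0.h_ib h12.symm h02 h01 hζ0)
      simp only [h4, if_false, List.forall_mem_cons, inv_mul_eq_one, polyWord_eq (S0.add h01) sc,
        hm0, hP h4, slH_a1 hζ0 h01 h02 h12 _, zero_mul, S0.zero h01]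
      simp
  · simp only [R, List.forall_mem_append] at hR
    obtain ⟨h3, h4⟩ := hR
    have hc : ∀ z : J, ∀ σ : Perm (Fin 3), σ • (0 : Fin 3) = 0 → σ • (1 : Fin 3) = 1 →
        Commute (φ σ) z := fun z σ ha hb => by
      obtain rfl : σ = 1 := by revert σ; decide
      rw [map_one]; exact Commute.one_left _
    have hne : ∀ (σ : Perm (Fin 3)) {i j : Fin 3}, i ≠ j → σ • i ≠ σ • j := fun σ _ _ h =>
      (MulAction.injective σ).ne h
    have e : ∀ (z : J) σ i j, i ≠ j → φ σ * famOf φ sg z i j * (φ σ)⁻¹ =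
        famOf φ sg z (σ • i) (σ • j) := fun z σ i j hij =>
      famOf_conj φ (hc z) (hsg i j hij) σ (hsg _ _ (hne σ hij))
    have e0 : ∀ z, famOf φ sg z 0 1 = z := fun z => by
      rw [← famOf_eq φ (hc z) (hsg 0 1 h01) (σ := 1) (one_smul _ _) (one_smul _ _)]; simp
    rw [forall_lift_iff, map_rel3] at h3
    simp only [map_famOf, fι, fu, fh, FreeGroup.lift_apply_of, Sum.elim_inl, Sum.elim_inr] at h3
    obtain ⟨T, z, R, hz, H⟩ := sl3_root (u := famOf φ sg (y 0)) (h := famOf φ sg (y 1)) hζ0 hζ hm hP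
      fun σ => by
        have h5 : ∀ r ∈ (rel3 (famOf φ sg (y 0)) (famOf φ sg (y 1)) (Fintype.card K = 4)
            (ringChar K) m P).map (MulAut.conj (φ σ)).toMonoidHom, r = 1 := by
          simpa using h3
        rw [map_rel3] at h5
        simpa only [rel3, MulEquiv.toMonoidHom_eq_coe, MonoidHom.coe_coe, MulAut.conj_apply,
          e _ _ _ _ h01, e _ _ _ _ h02, e _ _ _ _ h12, e _ _ _ _ h01.symm, e _ _ _ _ h02.symm,
          e _ _ _ _ h12.symm, Perm.smul_def] using h5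
    have no4 : ∀ i j k l : Fin 3, i ≠ j → i ≠ k → i ≠ l → j ≠ k → j ≠ l → k = l := by decide
    refine inj_of_rootF φ hζ0 hζ T R (H.isSt0 R.add
      fun hij hik hil hjk hjl hkl => absurd (no4 _ _ _ _ hij hik hil hjk hjl) hkl)
      (R.exists_scales hζ0 T fun hij hik hil hjk hjl hkl =>
        absurd (no4 _ _ _ _ hij hik hil hjk hjl) hkl)
      (fun σ i j hij => by rw [hz hij, hz (hne σ hij), e _ σ i j hij]) (e _) π
      (fun i j hij => ?_) (fun i j hij => ?_) h01 ?_ fun L hL hL1 => ?_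
    · rw [hz hij, map_famOf, hπy, ← hfu i j hij]; simp only [hπφ]; rfl
    · rw [map_famOf, hπy, ← hfh i j hij]; simp only [hπφ]; rfl
    · rw [hz h01, e0, e0, ← hgen]; congr 2
      ext z; simp [Fin.exists_fin_two, eq_comm]
    rw [hz h01, e0] at hL1
    have h1 := lift_mem_of_normalClosure (Sum.elim φ y) hW (L := L) (by rintro _ rfl; exact hL1)
    simp only [List.forall_mem_cons, map_mul, map_inv, inv_mul_eq_one, fι, fh,
      FreeGroup.lift_apply_of, Sum.elim_inl, Sum.elim_inr] at h4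
    rw [h4.1] at h1
    let θ := (QuotientGroup.mk' L).comp φ
    have h5 : QuotientGroup.mk' L (y 1) = (θ (swap 0 1))⁻¹ := by
      rw [← QuotientGroup.ker_mk' L, MonoidHom.mem_ker, map_mul] at h1
      exact eq_inv_of_mul_eq_one_left h1
    have h6 : ∀ i j, QuotientGroup.mk' L (famOf φ sg (y 1) i j) =
        θ (sg i j * (swap 0 1)⁻¹ * (sg i j)⁻¹) := fun i j => by
      rw [map_famOf, h5, map_mul, map_mul, map_inv, map_inv]; rfl
    have h7 := congrArg (QuotientGroup.mk' L) (T.t1 h01 h02 h12)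
    rw [map_mul, h6, h6, h6, ← map_mul, ← mul_inv_eq_one, ← map_inv, ← map_mul] at h7
    have h8 : θ.ker = ⊤ := by
      rw [eq_top_iff]
      rintro g -
      obtain ⟨d, e, rfl | rfl⟩ := perm3_odd (sg 0 2 * (swap 0 1)⁻¹ * (sg 0 2)⁻¹ *
        (sg 0 1 * (swap 0 1)⁻¹ * (sg 0 1)⁻¹ * (sg 1 2 * (swap 0 1)⁻¹ * (sg 1 2)⁻¹))⁻¹)
        (by simp [mul_comm]) g
      · exact θ.normal_ker.conj_mem _ h7 _
      · exact Subgroup.mul_mem _ (θ.normal_ker.conj_mem _ h7 _) (θ.normal_ker.conj_mem _ h7 _)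
    have h9 : ∀ σ, φ σ ∈ L := fun σ => by
      have : σ ∈ θ.ker := h8 ▸ mem_top σ
      rwa [MonoidHom.mem_ker, MonoidHom.comp_apply, ← MonoidHom.mem_ker,
        QuotientGroup.ker_mk'] at this
    refine ⟨h9, ?_⟩
    rw [e0]
    simpa using L.mul_mem h1 (L.inv_mem (h9 (swap 0 1)))

end Cfsg.Agent.H6
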