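import Cfsg.Agent.H6.PresU
import Cfsg.Agent.H6.PresSL3

/-! Bounded presentations of `SL_2`. -/

set_option autoImplicit false

open Polynomial Subgroup
open scoped commutatorElement

namespace Cfsg.Agent.H6

open H3

variable {J K : Type*} [Group J] [Field K]

theorem isR1_of_w {ζ : K} (hζ0 : ζ ≠ 0) (hζ : ∀ t : K, t ≠ 0 → ∃ n : ℕ, ζ ^ n = t) {x : K → J}
    (hx : AddF x) {h w : J} (hh : Scales h x (ζ ^ 2)) (W2 : w * h * w⁻¹ * h = 1)
    (W3 : w = x 1 * (w * x 1 * w⁻¹) * x 1) (W4 : h * w = x ζ * (w * x ζ⁻¹ * w⁻¹) * x ζ) :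
    IsR1 x (fun t => w * x (-t) * w⁻¹) ∧ stW x (fun t => w * x (-t) * w⁻¹) 1 = w ∧
      stH x (fun t => w * x (-t) * w⁻¹) ζ = h := by
  set y : K → J := fun t => w * x (-t) * w⁻¹ with hy
  have e1 : h * w = w * h⁻¹ := by
    have := congrArg (fun a => a⁻¹ * w) (eq_inv_of_mul_eq_one_left W2)
    simpa [mul_assoc] using this.symm
  have sy : Scales h y (ζ ^ 2)⁻¹ := fun t => by
    have := hh.inv (pow_ne_zero 2 hζ0) (-t)
    rw [hy]
    dsimp only
    rw [← mul_neg, ← this]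
    calc _ = (h * w) * x (-t) * (h * w)⁻¹ := by group
      _ = _ := by rw [e1]; group
  have hW : ∀ n : ℕ, stW x y (ζ ^ n) = h ^ n * w := fun n => by
    induction n using Nat.strong_induction_on with
    | _ n ih =>
      match n, ih with
      | 0, _ => simpa [stW, hy] using W3.symm
      | 1, _ => simpa [stW, hy] using W4.symm
      | n + 2, ih =>
        have h1 : stW x y (ζ ^ (n + 2)) = h * stW x y (ζ ^ n) * h⁻¹ := by
          rw [stW, stW, show ζ ^ (n + 2) = ζ ^ 2 * ζ ^ n by ring, ← hh,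
            show -(ζ ^ 2 * ζ ^ n)⁻¹ = (ζ ^ 2)⁻¹ * -(ζ ^ n)⁻¹ by ring, ← sy]
          group
        rw [h1, ih n (by omega), mul_assoc, mul_assoc, ← e1]
        group
  have H : IsR1 x y :=
    { addx := hx
      addy := fun s t => by
        rw [hy]
        dsimp only
        rw [neg_add, hx]; group
      wx := fun t ht v => by
        obtain ⟨n, rfl⟩ := hζ t ht
        rw [hW, show -((ζ ^ n)⁻¹ ^ 2 * v) = (ζ ^ 2)⁻¹ ^ n * -v by ring, ← sy.pow n, hy]
        simp only [neg_neg]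
        group }
  have h1 : stW x y 1 = w := by simpa using hW 0
  refine ⟨H, h1, ?_⟩
  rw [stH, H.w_neg, h1, ← pow_one ζ, hW]
  simp

theorem w2_of_char_two (h2 : (2 : K) = 0) {ζ : K} {x : K → J} (hx : AddF x) {h w : J}
    (W3 : w = x 1 * (w * x 1 * w⁻¹) * x 1) (W4 : h * w = x ζ * (w * x ζ⁻¹ * w⁻¹) * x ζ) :
    w * h * w⁻¹ * h = 1 := by
  have e : ∀ t, x t * x t = 1 := fun t => by
    rw [← hx, ← two_mul, h2, zero_mul, add_fam_zero hx]
  have key : ∀ s t, (x s * (w * x t * w⁻¹) * x s) * (x s * (w * x t * w⁻¹) * x s) = 1 := by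
    intro s t
    calc _ = x s * (w * x t * w⁻¹) * (x s * x s) * (w * x t * w⁻¹) * x s := by group
      _ = x s * (w * (x t * x t) * w⁻¹) * x s := by rw [e s]; group
      _ = 1 := by rw [e t]; simpa using e s
  have h3 := key 1 1
  have h4 := key ζ ζ⁻¹
  rw [← W3] at h3
  rw [← W4] at h4
  rw [inv_eq_of_mul_eq_one_left h3]
  calc _ = w * (h * w * (h * w)) * w⁻¹ := by group
    _ = 1 := by rw [h4]; simp

theorem map_lift_two {F G : Type*} [Group F] [Group G] (f : F →* G) (u h : F)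
    (r : FreeGroup (Fin 2)) : f (FreeGroup.lift ![u, h] r) = FreeGroup.lift ![f u, f h] r := by
  rw [← MonoidHom.comp_apply]
  congr 1
  ext i
  fin_cases i <;> simp

theorem exists_sl2_pres [Fintype K] : ∃ m ≤ 8, ((2 : K) = 0 → m ≤ 5) ∧
    HasPres (Matrix.SpecialLinearGroup (Fin 2) K) 3 m := by
  classical
  obtain ⟨ζ, hζ0, hζ⟩ := exists_gen K
  obtain ⟨RU, hl1, hl2, hU1, hU2⟩ := exists_uRel hζ0 hζ
  have hs := aeval_sq_surj_of_gen hζ
  obtain ⟨P, hP⟩ := hs ζ
  obtain ⟨Q, hQ⟩ := hs ζ⁻¹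
  have h01 : (0 : Fin 2) ≠ 1 := by decide
  have S := isSt_slX.r1 (K := K) h01
  let z : Fin 3 → Matrix.SpecialLinearGroup (Fin 2) K :=
    ![slX K 0 1 1, stH (slX K 0 1) (slX K 1 0) ζ, stW (slX K 0 1) (slX K 1 0) 1]
  let F := FreeGroup (PUnit.{1} ⊕ Fin 3)
  let u : F := FreeGroup.of (.inr 0)
  let h : F := FreeGroup.of (.inr 1)
  let w : F := FreeGroup.of (.inr 2)
  let R : List F := RU.map (FreeGroup.lift ![u, h]) ++ [w⁻¹ * (u * (w * u * w⁻¹) * u),
    (h * w)⁻¹ * (polyWord P h u * (w * polyWord Q h u * w⁻¹) * polyWord P h u)] ++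
    if (2 : K) = 0 then [] else [w * h * w⁻¹ * h]
  have hw1 : ∀ t, z 2 * slX K 0 1 t * (z 2)⁻¹ = slX K 1 0 (-t) := fun t => by
    simpa [z] using S.wx 1 one_ne_zero t
  have gen : closure (Set.range (1 : PUnit.{1} →* _) ∪ Set.range z) = ⊤ := by
    rw [eq_top_iff, ← stGG_slX_univ]
    have hz : ∀ i, z i ∈ closure (Set.range (1 : PUnit.{1} →* _) ∪ Set.range z) := fun i =>
      subset_closure (Or.inr ⟨i, rfl⟩)
    have h1 : ∀ t, slX K 0 1 t ∈ closure (Set.range (1 : PUnit.{1} →* _) ∪ Set.range z) :=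
      span_induction_of_surj hs (famSub S.addx
        (closure (Set.range (1 : PUnit.{1} →* _) ∪ Set.range z))) (hz 0) fun t ht => by
        change slX K (0 : Fin 2) 1 (ζ ^ 2 * t) ∈
          closure (Set.range (1 : PUnit.{1} →* _) ∪ Set.range z)
        rw [← S.hx hζ0]
        exact Subgroup.mul_mem _ (Subgroup.mul_mem _ (hz 1) ht) (Subgroup.inv_mem _ (hz 1))
    refine stGG_le fun i _ j _ hij t => ?_
    fin_cases i <;> fin_cases j
    · exact absurd rfl hij
    · exact h1 t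
    · change slX K 1 0 t ∈ _
      rw [← neg_neg t, ← hw1]
      exact Subgroup.mul_mem _ (Subgroup.mul_mem _ (hz 2) (h1 _)) (Subgroup.inv_mem _ (hz 2))
    · exact absurd rfl hij
  refine ⟨0 + R.length, ?_, fun h2 => ?_,
    hasPres_ext hasPres_unit 1 z R ?_ gen fun J _ φ y π hR _ hπ hgen => ?_⟩
  · by_cases h2 : (2 : K) = 0 <;> simp [R, h2] <;> omega
  · have := hl2 h2
    simp [R, h2]; omega
  · simp only [R, List.forall_mem_append, List.forall_mem_map, map_lift_two, List.forall_mem_cons,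
      map_mul, map_inv, map_polyWord, u, h, w, FreeGroup.lift_apply_of, Sum.elim_inr,
      inv_mul_eq_one]
    refine ⟨⟨hU1 _ _ _ S.addx (S.hx hζ0), ?_, ?_, by simp⟩, ?_⟩
    · change z 2 = slX K 0 1 1 * (z 2 * slX K 0 1 1 * (z 2)⁻¹) * slX K 0 1 1
      rw [hw1]; simp [z, stW]
    · change stH _ _ ζ * stW _ _ 1 = polyWord P (stH _ _ ζ) (slX K 0 1 1) *
        (z 2 * polyWord Q (stH _ _ ζ) (slX K 0 1 1) * (z 2)⁻¹) * polyWord P (stH _ _ ζ) (slX K 0 1 1)
      rw [polyWord_eq S.addx (S.hx hζ0), polyWord_eq S.addx (S.hx hζ0), hP, hQ, hw1,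
        S.h_mul_w_one, mul_one, mul_one, stW]
    · split_ifs
      · simp
      · simp only [List.forall_mem_cons, map_mul, map_inv, FreeGroup.lift_apply_of, Sum.elim_inr]
        refine ⟨?_, by simp⟩
        change stW _ _ 1 * stH _ _ ζ * (stW _ _ 1)⁻¹ * stH _ _ ζ = 1
        rw [S.w_mul_h one_ne_zero hζ0, ← S.w_neg, S.w_mul_w (by simpa) (by simp), ← S.h_mul
          (by simpa) hζ0]
        simp [hζ0, S.h_one]
  · simp only [R, List.forall_mem_append, List.forall_mem_map, map_lift_two, List.forall_mem_cons,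
      map_mul, map_inv, map_polyWord, u, h, w, FreeGroup.lift_apply_of, Sum.elim_inr,
      inv_mul_eq_one] at hR
    obtain ⟨⟨h1, W3, W4, -⟩, W2⟩ := hR
    obtain ⟨x, hx, hx1, hh⟩ := hU2 _ _ _ h1
    rw [← hx1] at W3 W4
    rw [polyWord_eq hx hh, polyWord_eq hx hh, hP, hQ, mul_one, mul_one] at W4
    have W2' : y 2 * y 1 * (y 2)⁻¹ * y 1 = 1 := by
      by_cases h2 : (2 : K) = 0
      · exact w2_of_char_two h2 hx W3 W4
      · simpa [h2] using W2
    obtain ⟨H, hw, hh'⟩ := isR1_of_w hζ0 hζ hx hh W2' W3 W4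
    obtain ⟨ψ, hψ⟩ := H.isSt_fin_two.exists_hom
    have e1 : ∀ t, ψ (slX K 0 1 t) = x t := fun t => hψ 0 1 h01 t
    have e2 : ∀ t, ψ (slX K 1 0 t) = y 2 * x (-t) * (y 2)⁻¹ := fun t => hψ 1 0 h01.symm t
    have e3 : ∀ i, ψ (z i) = y i := fun i => by
      fin_cases i
      · exact (e1 1).trans hx1
      · change ψ (stH _ _ _) = y 1
        rw [← hh']; simp only [stH, stW, map_mul, e1, e2]
      · change ψ (stW _ _ _) = y 2
        rw [← hw]; simp only [stW, map_mul, e1, e2]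
    have : ψ.comp π = MonoidHom.id J := MonoidHom.eq_of_eqOn_dense hgen (by
      rintro g (⟨a, rfl⟩ | ⟨i, rfl⟩)
      · rw [Subsingleton.elim a 1, map_one, map_one, map_one]
      · simp [hπ, e3])
    exact Function.LeftInverse.injective (g := ψ) fun g => DFunLike.congr_fun this g

theorem hasPres_SL_two [Fintype K] : HasPres (Matrix.SpecialLinearGroup (Fin 2) K) 3 8 :=
  let ⟨_, h1, _, h2⟩ := exists_sl2_pres (K := K)
  h2.mono h1

theorem hasPres_SL_two_even [Fintype K] (h : (2 : K) = 0) :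
    HasPres (Matrix.SpecialLinearGroup (Fin 2) K) 3 5 :=
  let ⟨_, _, h1, h2⟩ := exists_sl2_pres (K := K)
  h2.mono (h1 h)

theorem hasPres_PSL_two_even [Fintype K] (h : (2 : K) = 0) :
    HasPres (Matrix.ProjectiveSpecialLinearGroup (Fin 2) K) 3 5 := by
  obtain ⟨e⟩ := center_SL_equiv (K := K) (n := 2) (by norm_num)
  have h1 : Nat.gcd 2 (Fintype.card K - 1) = 1 := by
    have := FiniteField.even_card_iff_char_two.mp (ringChar_eq_two h)
    have h2 := Fintype.card_pos (α := K)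
    exact Nat.coprime_two_left.mpr (Nat.odd_iff.mpr (by omega))
  rw [h1] at e
  have := e.toEquiv.subsingleton
  have h2 : center (Matrix.SpecialLinearGroup (Fin 2) K) = ⊥ := eq_bot_of_subsingleton _
  exact hasPres_of_equiv ((QuotientGroup.quotientMulEquivOfEq h2).trans
    QuotientGroup.quotientBot).symm (hasPres_SL_two_even h)

theorem hasPres_SL_all [Fintype K] {n : ℕ} (hn : 2 ≤ n) :
    HasPres (Matrix.SpecialLinearGroup (Fin n) K) 5 23 := by
  rcases hn.eq_or_lt with rfl | hn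
  · exact hasPres_le hasPres_SL_two (by norm_num) (by norm_num)
  rcases (show 3 ≤ n from hn).eq_or_lt with rfl | hn
  · exact hasPres_le hasPres_SL_three (by norm_num) (by norm_num)
  · exact hasPres_SL_ge_four hn

end Cfsg.Agent.H6
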