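import Cfsg.Agent.H6.FieldGen

/-! Bounded presentations of the additive group of a finite field with a torus element. -/

set_option autoImplicit false

open Polynomial
open scoped commutatorElement

namespace Cfsg.Agent.H6

variable {J K : Type*} [Group J] [Field K]

theorem baumslag {u a b : J} (hab : Commute a b) (h1 : Commute u (b * u * b⁻¹))
    (h2 : a * u * a⁻¹ = u * (b * u * b⁻¹)) (n : ℕ) : Commute u (b ^ n * u * (b ^ n)⁻¹) := by
  have sh : ∀ n, Commute u (b ^ n * u * (b ^ n)⁻¹) →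
      Commute (b * u * b⁻¹) (b ^ (n + 1) * u * (b ^ (n + 1))⁻¹) := fun n h => by
    have := h.map (MulAut.conj b)
    simp only [MulAut.conj_apply] at this
    convert this using 1
    group
  induction n using Nat.strong_induction_on with
  | _ n ih =>
    match n, ih with
    | 0, _ => simp
    | 1, _ => simpa using h1
    | n + 2, ih =>
      have h3 := (ih (n + 1) (by omega)).map (MulAut.conj a)
      simp only [MulAut.conj_apply] at h3
      have h4 : a * (b ^ (n + 1) * u * (b ^ (n + 1))⁻¹) * a⁻¹ =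
          b ^ (n + 1) * u * (b ^ (n + 1))⁻¹ * (b ^ (n + 2) * u * (b ^ (n + 2))⁻¹) := by
        calc _ = (a * b ^ (n + 1)) * u * (a * b ^ (n + 1))⁻¹ := by group
          _ = b ^ (n + 1) * (a * u * a⁻¹) * (b ^ (n + 1))⁻¹ := by
            rw [(hab.pow_right _).eq]; group
          _ = _ := by rw [h2]; group
      rw [h2, h4] at h3
      have h5 := h3.mul_left ((sh n (ih n (by omega))).mul_right (sh _ (ih (n + 1) (by omega)))).inv_left
      rw [mul_inv_cancel_right] at h5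
      have h6 := (ih (n + 1) (by omega)).inv_right.mul_right h5
      rwa [inv_mul_cancel_left] at h6

theorem geom_bound {p : ℕ} (hp : p.Prime) (hp2 : p ≠ 2) {n : ℕ} (hn : 2 ≤ n) (h9 : p ^ n ≠ 9) :
    5 + ∑ e ∈ Finset.range (n / 2), 4 * (p ^ (e + 1) - 1) < p ^ n := by
  have h3 : 3 ≤ p := by have := hp.two_le; omega
  have A : ∀ f, ∑ e ∈ Finset.range f, 4 * (p ^ (e + 1) - 1) + 6 ≤ 6 * p ^ f := fun f => by
    induction f with
    | zero => simp
    | succ f ih =>
      rw [Finset.sum_range_succ, pow_succ]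
      have : 4 * (p ^ f * p - 1) ≤ 4 * (p ^ f * p) := by omega
      nlinarith
  have B : p ^ (2 * (n / 2)) ≤ p ^ n := Nat.pow_le_pow_right (by omega) (by omega)
  by_cases hf : n / 2 = 1
  · rw [hf, Finset.sum_range_one, zero_add, pow_one]
    rw [hf] at B
    by_cases h : p = 3
    · subst h
      obtain rfl | rfl : n = 2 ∨ n = 3 := by omega
      · simp at h9
      · simp
    · have : p ≠ 4 := by rintro rfl; exact absurd hp (by decide)
      obtain ⟨k, rfl⟩ : ∃ k, p = k + 5 := ⟨p - 5, by omega⟩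
      rw [show k + 5 - 1 = k + 4 by omega]
      refine lt_of_lt_of_le ?_ B
      rw [mul_one, sq]
      nlinarith [Nat.zero_le (k * k)]
  · have C : 3 ^ 2 ≤ p ^ (n / 2) :=
      (Nat.pow_le_pow_left h3 2).trans (Nat.pow_le_pow_right (by omega) (by omega))
    have := A (n / 2)
    rw [mul_comm 2, pow_mul] at B
    nlinarith

theorem exists_baumslag_pair [Fintype K] (h2 : (2 : K) ≠ 0) (hp : ¬ (Fintype.card K).Prime)
    (h9 : Fintype.card K ≠ 9) : ∃ s t : K, s ≠ 0 ∧ t ≠ 0 ∧ s ^ 2 = 1 + t ^ 2 ∧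
      Function.Surjective (aeval (t ^ 2) : ℤ[X] → K) := by
  obtain ⟨n, hpr, hn⟩ := FiniteField.card K (ringChar K)
  set p := ringChar K
  have hp2 : p ≠ 2 := fun h => h2 (by
    have := (ringChar.spec K 2).mpr (by rw [← h])
    simpa using this)
  have hn2 : 2 ≤ (n : ℕ) := by
    by_contra h
    have : (n : ℕ) = 1 := by have := n.pos; omega
    rw [hn, this, pow_one] at hp
    exact hp hpr
  let f : ℕ → K[X] := fun e => (X ^ 2 - 1) ^ (2 * (p ^ (e + 1) - 1)) -
    (C 2 * X) ^ (2 * (p ^ (e + 1) - 1))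
  have hpos : ∀ e, 0 < 2 * (p ^ (e + 1) - 1) := fun e => by
    have : 1 < p ^ (e + 1) := Nat.one_lt_pow (Nat.succ_ne_zero e) hpr.one_lt
    omega
  have hf0 : ∀ e, f e ≠ 0 := fun e h => by
    have := congrArg (eval 0) h
    simp [f, (hpos e).ne'] at this
  have hfd : ∀ e, (f e).natDegree ≤ 4 * (p ^ (e + 1) - 1) := fun e => by
    refine (natDegree_sub_le _ _).trans (max_le ?_ ?_)
    · refine natDegree_pow_le.trans ?_
      have : (X ^ 2 - 1 : K[X]).natDegree ≤ 2 := by compute_degree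
      nlinarith
    · refine natDegree_pow_le.trans ?_
      have : (C 2 * X : K[X]).natDegree ≤ 1 := by compute_degree
      nlinarith
  have hX : (X ^ 4 - 1 : K[X]) ≠ 0 := X_pow_sub_C_ne_zero (by norm_num) 1
  obtain ⟨r, hr⟩ := exists_eval_ne_zero_of_lt_card
    (X * (X ^ 4 - 1) * ∏ e ∈ Finset.range (n / 2), f e)
    (mul_ne_zero (mul_ne_zero X_ne_zero hX) (Finset.prod_ne_zero_iff.mpr fun e _ => hf0 e)) (by
      refine lt_of_le_of_lt (natDegree_mul_le.trans (add_le_add (by compute_degree)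
        ((natDegree_prod_le _ _).trans (Finset.sum_le_sum fun e _ => hfd e)))) ?_
      rw [hn]
      exact geom_bound hpr hp2 hn2 (hn ▸ h9))
  simp only [eval_mul, eval_X, eval_sub, eval_pow, eval_one, ne_eq, mul_eq_zero, not_or, eval_prod,
    Finset.prod_eq_zero_iff, not_exists, not_and, f, eval_C] at hr
  obtain ⟨⟨h0, h4⟩, hr⟩ := hr
  have e4 : r ^ 4 - 1 = (r ^ 2 + 1) * (r ^ 2 - 1) := by ring
  rw [e4, mul_eq_zero, not_or] at h4
  have h5 : 2 * r ≠ 0 := mul_ne_zero h2 h0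
  have ht : (r ^ 2 - 1) / (2 * r) ≠ 0 := div_ne_zero h4.2 h5
  refine ⟨(r ^ 2 + 1) / (2 * r), (r ^ 2 - 1) / (2 * r), div_ne_zero h4.1 h5, ht,
    by field_simp; ring, (aeval_surj_or _).resolve_right ?_⟩
  rintro ⟨ρ, d, hρ, hd, hc, h⟩
  obtain ⟨e, -, rfl⟩ := (Nat.dvd_prime_pow hpr).mp
    (show ρ ∣ p ^ (n : ℕ) by rw [← hn, hc]; exact dvd_pow_self _ (by omega))
  rw [hn, ← pow_mul] at hc
  have hc' := Nat.pow_right_injective hpr.two_le hc
  obtain ⟨e, rfl⟩ : ∃ k, e = k + 1 := ⟨e - 1, by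
    rcases e with _ | e
    · simp at hρ
    · rfl⟩
  refine hr e (Finset.mem_range.mpr (by
    have : (e + 1) * 2 ≤ n := by rw [hc']; exact Nat.mul_le_mul_left _ hd
    omega)) ?_
  obtain ⟨k, hk⟩ : ∃ k, p ^ (e + 1) = k + 1 := ⟨p ^ (e + 1) - 1, by omega⟩
  rw [hk, pow_succ, mul_eq_right₀ (pow_ne_zero 2 ht), ← pow_mul, div_pow,
    div_eq_one_iff_eq (pow_ne_zero _ h5)] at h
  rw [hk, Nat.add_sub_cancel, h, sub_self]

theorem commute_of_period {u g : J} {N : ℕ} (hN : 0 < N) {n : ℤ}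
    (h : g ^ N * u * (g ^ N)⁻¹ = u ^ n) (hc : ∀ i < N, Commute u (g ^ i * u * (g ^ i)⁻¹)) (i : ℕ) :
    Commute u (g ^ i * u * (g ^ i)⁻¹) := by
  induction i using Nat.strong_induction_on with
  | _ i ih =>
    by_cases hi : i < N
    · exact hc i hi
    · obtain ⟨j, rfl⟩ : ∃ j, i = j + N := ⟨i - N, by omega⟩
      rw [show g ^ (j + N) * u * (g ^ (j + N))⁻¹ = g ^ j * (g ^ N * u * (g ^ N)⁻¹) * (g ^ j)⁻¹ by
        group, h, ← conj_zpow]
      exact (ih j (by omega)).zpow_right n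

theorem exists_uRel.{v} [Fintype K] {ζ : K} (hζ0 : ζ ≠ 0)
    (hζ : ∀ t : K, t ≠ 0 → ∃ n : ℕ, ζ ^ n = t) : ∃ R : List (FreeGroup (Fin 2)), R.length ≤ 5 ∧
      ((2 : K) = 0 → R.length ≤ 3) ∧
      (∀ (G : Type v) [Group G] (x : K → G) (g : G), AddF x → Scales g x (ζ ^ 2) →
        ∀ r ∈ R, FreeGroup.lift ![x 1, g] r = 1) ∧
      ∀ (J : Type) [Group J] (u g : J), (∀ r ∈ R, FreeGroup.lift ![u, g] r = 1) →
        ∃ x : K → J, AddF x ∧ x 1 = u ∧ Scales g x (ζ ^ 2) := by
  let u : FreeGroup (Fin 2) := FreeGroup.of 0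
  let g : FreeGroup (Fin 2) := FreeGroup.of 1
  have hs := aeval_sq_surj_of_gen hζ
  obtain ⟨m, hm0, hm⟩ := exists_int_minpoly (ζ ^ 2)
  have hpow : ∀ {G : Type v} [Group G] {x : K → G}, AddF x → x 1 ^ ringChar K = 1 := fun hx => by
    rw [← zpow_natCast, ← add_fam_zsmul' hx]
    simpa using add_fam_zero hx
  by_cases hp : (Fintype.card K).Prime
  · have := Fact.mk hp
    obtain ⟨n, hn⟩ : ∃ n : ℤ, (n : K) = ζ ^ 2 := by
      obtain ⟨a, ha⟩ := (ZMod.ringEquivOfPrime K hp rfl).surjective (ζ ^ 2)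
      exact ⟨ZMod.cast a, by rw [← ha, ← map_intCast (ZMod.ringEquivOfPrime K hp rfl)]; simp⟩
    refine ⟨[u ^ ringChar K, (g * u * g⁻¹)⁻¹ * u ^ n, polyWord m g u], by simp, by simp,
      fun G _ x a hx ha => ?_, fun J _ y a h => ?_⟩
    · simp [-mul_inv_rev, u, g, map_polyWord, hpow hx, polyWord_eq hx ha, hm0, add_fam_zero hx, ha 1,
        ← add_fam_zsmul' hx, hn]
    · simp only [u, g, List.forall_mem_cons, map_pow, map_mul, map_inv, map_zpow, map_polyWord,
        FreeGroup.lift_apply_of, Matrix.cons_val_zero, Matrix.cons_val_one, inv_mul_eq_one] at h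
      exact exists_addFam (commute_of_period one_pos (by simpa using h.2.1) (by simp)) hs hm h.1
        h.2.2.1
  by_cases h2 : (2 : K) = 0
  · obtain ⟨k, hk⟩ := hζ (1 + ζ) fun h => by
      have := card_le_of_pow_eq_one hζ one_pos (show ζ ^ 1 = 1 by linear_combination h2 * ζ - h)
      have := Fintype.one_lt_card (α := K)
      exact hp (by rw [show Fintype.card K = 2 by omega]; exact Nat.prime_two)
    refine ⟨[u ^ ringChar K, (g ^ k * u * (g ^ k)⁻¹)⁻¹ * (u * (g * u * g⁻¹)), polyWord m g u],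
      by simp, by simp, fun G _ x a hx ha => ?_, fun J _ y a h => ?_⟩
    · have : (ζ ^ 2) ^ k = 1 + ζ ^ 2 := by
        rw [← pow_mul, mul_comm, pow_mul, hk]; linear_combination h2 * ζ
      simp [-mul_inv_rev, u, g, map_polyWord, hpow hx, polyWord_eq hx ha, hm0, add_fam_zero hx, ha 1,
        ha.pow k 1, this, hx 1]
    · simp only [u, g, List.forall_mem_cons, map_pow, map_mul, map_inv, map_polyWord,
        FreeGroup.lift_apply_of, Matrix.cons_val_zero, Matrix.cons_val_one, inv_mul_eq_one] at h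
      refine exists_addFam (baumslag ((Commute.refl a).pow_left k) ?_ h.2.1) hs hm h.1 h.2.2.1
      have h1 := h.1
      rw [ringChar_eq_two h2] at h1
      have inv : ∀ b : J, (b * y * b⁻¹)⁻¹ = b * y * b⁻¹ := fun b => by
        rw [inv_eq_iff_mul_eq_one, ← sq, conj_pow, h1]; simp
      have h3 := inv (a ^ k)
      rw [h.2.1, mul_inv_rev, inv, show y⁻¹ = y by simpa using inv 1] at h3
      exact h3.symm
  by_cases h9 : Fintype.card K = 9
  · have h4 : (ζ ^ 2) ^ 2 = -1 := by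
      have := FiniteField.pow_card_sub_one_eq_one ζ hζ0
      rw [h9, show 9 - 1 = 4 * 2 by rfl, pow_mul, sq_eq_one_iff] at this
      rw [← pow_mul]
      refine this.resolve_left fun h => ?_
      have := card_le_of_pow_eq_one hζ (by norm_num) h
      omega
    refine ⟨[u ^ ringChar K, (g ^ 2 * u * (g ^ 2)⁻¹)⁻¹ * u ^ (-1 : ℤ), ⁅u, g * u * g⁻¹⁆,
      polyWord m g u], by simp, fun h => absurd h h2, fun G _ x a hx ha => ?_, fun J _ y a h => ?_⟩
    · simp [-mul_inv_rev, u, g, map_polyWord, hpow hx, polyWord_eq hx ha, hm0, add_fam_zero hx, ha 1,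
        ha.pow 2 1, h4, add_fam_neg hx, commutatorElement_eq_one_iff_commute, add_fam_commute hx]
    · simp only [u, g, List.forall_mem_cons, map_pow, map_mul, map_inv, map_zpow, map_polyWord,
        FreeGroup.lift_apply_of, Matrix.cons_val_zero, Matrix.cons_val_one, inv_mul_eq_one,
        map_commutatorElement, commutatorElement_eq_one_iff_commute] at h
      refine exists_addFam (commute_of_period two_pos h.2.1 fun i hi => ?_) hs hm h.1 h.2.2.2.1
      interval_cases i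
      · simp
      · simpa using h.2.2.1
  obtain ⟨s, t, hs0, ht0, hst, ht⟩ := exists_baumslag_pair h2 hp h9
  obtain ⟨k, rfl⟩ := hζ s hs0
  obtain ⟨l, rfl⟩ := hζ t ht0
  obtain ⟨m', hm0', hm'⟩ := exists_int_minpoly ((ζ ^ l) ^ 2)
  obtain ⟨P, hP⟩ := ht (ζ ^ 2)
  refine ⟨[u ^ ringChar K, (g ^ k * u * (g ^ k)⁻¹)⁻¹ * (u * (g ^ l * u * (g ^ l)⁻¹)),
    ⁅u, g ^ l * u * (g ^ l)⁻¹⁆, polyWord m' (g ^ l) u, (g * u * g⁻¹)⁻¹ * polyWord P (g ^ l) u],
    by simp, fun h => absurd h h2, fun G _ x a hx ha => ?_, fun J _ y a h => ?_⟩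
  · have e : ∀ n, Scales (a ^ n) x ((ζ ^ n) ^ 2) := fun n => by
      rw [← pow_mul, mul_comm, pow_mul]; exact ha.pow n
    simp [-mul_inv_rev, u, g, map_polyWord, hpow hx, polyWord_eq hx (e l), hm0', add_fam_zero hx, ha 1, e _ 1,
      hst, hx 1, hP, commutatorElement_eq_one_iff_commute, add_fam_commute hx]
  · simp only [u, g, List.forall_mem_cons, map_pow, map_mul, map_inv, map_polyWord,
      FreeGroup.lift_apply_of, Matrix.cons_val_zero, Matrix.cons_val_one, inv_mul_eq_one,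
      map_commutatorElement, commutatorElement_eq_one_iff_commute] at h
    obtain ⟨x, h1, h3, h4⟩ := exists_addFam (baumslag ((Commute.refl a).pow_pow k l) h.2.2.1 h.2.1)
      ht hm' h.1 h.2.2.2.1
    refine ⟨x, h1, h3, AddF.scales ht h1 h4 ((Commute.refl a).pow_right l) ?_⟩
    rw [h3, h.2.2.2.2.1, ← h3, polyWord_eq h1 h4, hP, mul_one]

end Cfsg.Agent.H6
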